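import Mathlib
import Cfsg.Prelude.Def_Blocks
import Cfsg.Agent.Lib.BlockPC
import Cfsg.Agent.Lib.CharClifford
import Cfsg.Agent.Lib.Helper2_BlockCover2
import Cfsg.Agent.Lib.Helper2_BlockFMT
import Cfsg.Agent.Lib.Helper2_SecondMain2

set_option autoImplicit false

namespace Cfsg.Agent.Lib.BlockPC2

open Cfsg Cfsg.Agent.Lib.Helper2_BlockLocal Cfsg.Agent.Lib.Helper2_BlockOm
  Cfsg.Agent.Lib.Helper2_BlockOsima Cfsg.Agent.Lib.Helper2_BlockBasic
  Cfsg.Agent.Lib.Helper2_BlockOrtho Cfsg.Agent.Lib.Helper2_BlockMinMax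
  Cfsg.Agent.Lib.Helper2_BlockInd Cfsg.Agent.Lib.Helper2_BlockDefect
  Cfsg.Agent.Lib.Helper2_BlockQuot Cfsg.Agent.Lib.Helper2_BlockPCore
  Cfsg.Agent.Lib.CharBasic Cfsg.Agent.Lib.CharOrtho
  Cfsg.Agent.Lib.CharComplete Cfsg.Agent.Lib.CharIntegral Cfsg.Agent.Lib.CharMore
  Cfsg.Agent.Lib.CharPerm Cfsg.Agent.Lib.CharInd Cfsg.Agent.Lib.CharQuot
  Cfsg.Agent.Lib.CharClifford Cfsg.Agent.Lib.BlockPC Cfsg.Agent.Lib.helper8_Defect
open scoped ComplexConjugate Classical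

universe u

variable {G : Type u} [Group G] {M : Ideal AlgInt} {p : ℕ} (P : Subgroup G)

theorem normal_of_sup (hG : P ⊔ Subgroup.centralizer (P : Set G) = ⊤) : P.Normal := by
  rw [← Subgroup.normalizer_eq_top_iff, eq_top_iff, ← hG]
  exact sup_le Subgroup.le_normalizer (Subgroup.centralizer_le_normalizer _)

theorem exists_decomp (hG : P ⊔ Subgroup.centralizer (P : Set G) = ⊤) (g : G) :
    ∃ a ∈ P, ∃ c ∈ Subgroup.centralizer (P : Set G), g = a * c := by
  have h : g ∈ P ⊔ Subgroup.centralizer (P : Set G) := hG ▸ Subgroup.mem_top g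
  haveI := normal_of_sup P hG
  rw [← SetLike.mem_coe, Subgroup.normal_mul] at h
  obtain ⟨a, ha, c, hc, rfl⟩ := Set.mem_mul.mp h
  exact ⟨a, ha, c, hc, rfl⟩

theorem index_centralizer_pow [Finite G] (hp : p.Prime) (hP : IsPGroup p P)
    (hG : P ⊔ Subgroup.centralizer (P : Set G) = ⊤) :
    ∃ k : ℕ, (Subgroup.centralizer (P : Set G)).index = p ^ k := by
  haveI : Fact p.Prime := ⟨hp⟩
  haveI := normal_of_sup P hG
  obtain ⟨n, hn⟩ := IsPGroup.iff_card.mp hP
  have h1 : (Subgroup.centralizer (P : Set G)).index =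
      (Subgroup.centralizer (P : Set G)).relIndex P := by
    rw [← Subgroup.relIndex_top_right, ← hG, Subgroup.relIndex_sup_right]
  have h2 : (Subgroup.centralizer (P : Set G)).relIndex P ∣ p ^ n := by
    rw [← hn]
    exact Subgroup.index_dvd_card _
  obtain ⟨k, -, hk⟩ := (Nat.dvd_prime_pow hp).mp h2
  exact ⟨k, by rw [h1, hk]⟩

theorem regular_mem [Finite G] (hp : p.Prime) (hP : IsPGroup p P)
    (hG : P ⊔ Subgroup.centralizer (P : Set G) = ⊤) (x : G) (hx : ¬ p ∣ orderOf x) :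
    x ∈ Subgroup.centralizer (P : Set G) := by
  haveI := normal_of_sup P hG
  obtain ⟨k, hk⟩ := index_centralizer_pow P hp hP hG
  exact Cfsg.Agent.Lib.Helper2_BlockCover.regular_mem_of_index hp _ hk hx

theorem conjFun_eq (hG : P ⊔ Subgroup.centralizer (P : Set G) = ⊤) {ζ : P → ℂ}
    (hζ : IsClassFunction P ζ) (g : G) : conjFun P (normal_of_sup P hG) ζ g = ζ := by
  obtain ⟨a, ha, c, hc, rfl⟩ := exists_decomp P hG g
  ext n
  rw [conjFun_apply, ← hζ n ⟨a, ha⟩]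
  refine congrArg ζ (Subtype.ext ?_)
  have h1 : (n : G) * c = c * n := (Subgroup.mem_centralizer_iff.mp hc) n n.2
  change a * c * n * (a * c)⁻¹ = a * n * a⁻¹
  rw [mul_assoc a c, ← h1]
  group

variable [Fintype G]

/-- `χ(1) χ(yx) = χ(y) χ(x)` for `y ∈ P`, `x ∈ C_G(P)` when `G = P C_G(P)`. -/
theorem mul_formula (hG : P ⊔ Subgroup.centralizer (P : Set G) = ⊤) (χ : IrrCharacter G)
    {y x : G} (hy : y ∈ P) (hx : x ∈ Subgroup.centralizer (P : Set G)) :
    (χ : G → ℂ) 1 * (χ : G → ℂ) (y * x) = (χ : G → ℂ) y * (χ : G → ℂ) x := by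
  have h1 := irr_sum_conj_mul χ x y
  have h2 : ∀ t : G, (χ : G → ℂ) (t * x * t⁻¹ * y) = (χ : G → ℂ) (y * x) := by
    intro t
    obtain ⟨a, ha, c, hc, rfl⟩ := exists_decomp P hG t
    have hcx : c * x * c⁻¹ ∈ Subgroup.centralizer (P : Set G) :=
      Subgroup.mul_mem _ (Subgroup.mul_mem _ hc hx) (Subgroup.inv_mem _ hc)
    have e1 : a * (c * x * c⁻¹) = (c * x * c⁻¹) * a := (Subgroup.mem_centralizer_iff.mp hcx) a ha
    have e2 : y * c = c * y := (Subgroup.mem_centralizer_iff.mp hc) y hy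
    have e3 : y * x = x * y := (Subgroup.mem_centralizer_iff.mp hx) y hy
    have e4 : a * c * x * (a * c)⁻¹ * y = c * (y * x) * c⁻¹ := by
      calc a * c * x * (a * c)⁻¹ * y = (a * (c * x * c⁻¹)) * a⁻¹ * y := by group
        _ = c * x * (c⁻¹ * (y * c) * c⁻¹) := by rw [e1]; group
        _ = c * x * (c⁻¹ * (c * y) * c⁻¹) := by rw [e2]
        _ = c * (x * y) * c⁻¹ := by group
        _ = c * (y * x) * c⁻¹ := by rw [e3]
    rw [e4, irr_classFunction χ]
  simp only [h2, Finset.sum_const, Finset.card_univ, nsmul_eq_mul, ← Nat.card_eq_fintype_card] at h1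
  have hGc : (Nat.card G : ℂ) ≠ 0 := by exact_mod_cast Nat.card_pos.ne'
  have h3 : (Nat.card G : ℂ) * ((χ : G → ℂ) 1 * (χ : G → ℂ) (y * x)) =
      (Nat.card G : ℂ) * ((χ : G → ℂ) y * (χ : G → ℂ) x) := by
    linear_combination h1
  exact mul_left_cancel₀ hGc h3

/-- The restriction to `P` is homogeneous. -/
theorem restrict_eq (hG : P ⊔ Subgroup.centralizer (P : Set G) = ⊤) (χ : IrrCharacter G)
    (ζ : IrrCharacter P) (h : classInner (fun y : P => (χ : G → ℂ) y) (ζ : P → ℂ) ≠ 0) :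
    (fun y : P => (χ : G → ℂ) y) =
      classInner (fun y : P => (χ : G → ℂ) y) (ζ : P → ℂ) • (ζ : P → ℂ) := by
  have h1 := clifford P (normal_of_sup P hG) χ.2 ζ.2 h
  have h2 : Finset.univ.filter (fun ψ : IrrCharacter P =>
      ∃ g : G, (ψ : P → ℂ) = conjFun P (normal_of_sup P hG) (ζ : P → ℂ) g) = {ζ} := by
    ext ψ
    simp only [Finset.mem_filter, Finset.mem_univ, true_and, Finset.mem_singleton,
      conjFun_eq P hG (irr_classFunction ζ), exists_const]
    exact ⟨fun h => Subtype.ext h, fun h => by rw [h]⟩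
  rw [h2, Finset.sum_singleton] at h1
  exact h1

/-- `ζ(1) χ(y) = χ(1) ζ(y)` if `χ` lies over `ζ`. -/
theorem over_formula (hG : P ⊔ Subgroup.centralizer (P : Set G) = ⊤) (χ : IrrCharacter G)
    (ζ : IrrCharacter P) (h : classInner (fun y : P => (χ : G → ℂ) y) (ζ : P → ℂ) ≠ 0) (y : P) :
    (ζ : P → ℂ) 1 * (χ : G → ℂ) y = (χ : G → ℂ) 1 * (ζ : P → ℂ) y := by
  have h1 := restrict_eq P hG χ ζ h
  have h2 := congrFun h1 y
  have h3 := congrFun h1 1
  simp only [Pi.smul_apply, smul_eq_mul, OneMemClass.coe_one] at h2 h3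
  rw [h2, h3]
  ring

theorem over_unique (hG : P ⊔ Subgroup.centralizer (P : Set G) = ⊤) (χ : IrrCharacter G)
    (ζ ζ' : IrrCharacter P) (h : classInner (fun y : P => (χ : G → ℂ) y) (ζ : P → ℂ) ≠ 0)
    (h' : classInner (fun y : P => (χ : G → ℂ) y) (ζ' : P → ℂ) ≠ 0) : ζ = ζ' := by
  by_contra hne
  apply h'
  rw [restrict_eq P hG χ ζ h, classInner_smul_left,
    classInner_irr_ne ζ.2 ζ'.2 (fun e => hne (Subtype.ext e)), mul_zero]

/-- the projection onto the characters over `ζ` -/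
theorem proj_formula (hG : P ⊔ Subgroup.centralizer (P : Set G) = ⊤) (χ : IrrCharacter G)
    (ζ : IrrCharacter P) {x : G} (hx : x ∈ Subgroup.centralizer (P : Set G)) :
    ((ζ : P → ℂ) 1 / (Nat.card P : ℂ)) * ∑ y : P, conj ((ζ : P → ℂ) y) * (χ : G → ℂ) (y * x) =
      if classInner (fun y : P => (χ : G → ℂ) y) (ζ : P → ℂ) ≠ 0 then (χ : G → ℂ) x else 0 := by
  have h0 := irr_degree_ne_zero χ.2
  have hz0 := irr_degree_ne_zero ζ.2
  have hPc : (Nat.card P : ℂ) ≠ 0 := by exact_mod_cast Nat.card_pos.ne'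
  have h1 : ∀ y : P, conj ((ζ : P → ℂ) y) * (χ : G → ℂ) (y * x) =
      ((χ : G → ℂ) y * conj ((ζ : P → ℂ) y)) * ((χ : G → ℂ) x / (χ : G → ℂ) 1) := by
    intro y
    have := mul_formula P hG χ y.2 hx
    field_simp
    linear_combination (conj ((ζ : P → ℂ) y)) * this
  have h2 : ∑ y : P, (χ : G → ℂ) y * conj ((ζ : P → ℂ) y) =
      (Nat.card P : ℂ) * classInner (fun y : P => (χ : G → ℂ) y) (ζ : P → ℂ) := by
    unfold classInner
    rw [← mul_assoc, mul_inv_cancel₀ hPc, one_mul]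
  simp only [h1]
  rw [← Finset.sum_mul, h2]
  split_ifs with h
  · have h3 := congrFun (restrict_eq P hG χ ζ h) 1
    simp only [Pi.smul_apply, smul_eq_mul, OneMemClass.coe_one] at h3
    field_simp
    rw [h3]
    ring
  · push Not at h
    rw [h]
    ring

theorem singular_mul (hp : p.Prime) (hP : IsPGroup p P) {y x : G} (hy : y ∈ P) (hy1 : y ≠ 1)
    (hx : x ∈ Subgroup.centralizer (P : Set G)) (hxr : ¬ p ∣ orderOf x) : p ∣ orderOf (y * x) := by
  by_contra hcon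
  have hc : Commute x y := ((Subgroup.mem_centralizer_iff.mp hx) y hy).symm
  apply hy1
  apply eq_one_of_regular_mul hp hc (orderOf_pGroup_mem P hp hP hy) hxr
  rw [hc.eq]
  exact hcon

theorem K_formula (hM : IsPModular p M) (hP : IsPGroup p P)
    (hG : P ⊔ Subgroup.centralizer (P : Set G) = ⊤) {B : Set (IrrCharacter G)}
    (hB : IsPBlock M B) (ζ : IrrCharacter P) {x x' : G} (hx : ¬ p ∣ orderOf x)
    (hx' : ¬ p ∣ orderOf x') :
    ∑ χ ∈ Finset.univ.filter (fun χ : IrrCharacter G => χ ∈ B ∧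
        classInner (fun y : P => (χ : G → ℂ) y) (ζ : P → ℂ) ≠ 0), (χ : G → ℂ) x * (χ : G → ℂ) x' =
      ((ζ : P → ℂ) 1 ^ 2 / (Nat.card P : ℂ)) *
        ∑ χ ∈ Finset.univ.filter (fun χ : IrrCharacter G => χ ∈ B),
          (χ : G → ℂ) x * (χ : G → ℂ) x' := by
  have hxc := regular_mem P hM.1 hP hG x hx
  have h1 : ∑ χ ∈ Finset.univ.filter (fun χ : IrrCharacter G => χ ∈ B ∧
        classInner (fun y : P => (χ : G → ℂ) y) (ζ : P → ℂ) ≠ 0), (χ : G → ℂ) x * (χ : G → ℂ) x' =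
      ∑ χ ∈ Finset.univ.filter (fun χ : IrrCharacter G => χ ∈ B),
        (((ζ : P → ℂ) 1 / (Nat.card P : ℂ)) *
          ∑ y : P, conj ((ζ : P → ℂ) y) * (χ : G → ℂ) (y * x)) * (χ : G → ℂ) x' := by
    rw [← Finset.filter_filter, Finset.sum_filter]
    refine Finset.sum_congr rfl fun χ _ => ?_
    rw [proj_formula P hG χ ζ hxc]
    split_ifs <;> simp
  rw [h1]
  simp only [Finset.mul_sum, Finset.sum_mul]
  rw [Finset.sum_comm]
  rw [Finset.sum_eq_single (1 : P)]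
  · refine Finset.sum_congr rfl fun χ _ => ?_
    rw [OneMemClass.coe_one, one_mul, irr_one_eq_conj (isCharacter_of_isIrr ζ.2)]
    ring
  · intro y _ hy
    have hy1 : (y : G) ≠ 1 := fun h => hy (Subtype.ext h)
    have h2 := weak_block_orthogonality hM hB hx' (singular_mul P hM.1 hP y.2 hy1 hxc hx)
    have h3 : ∀ χ : IrrCharacter G, (ζ : P → ℂ) 1 / (Nat.card P : ℂ) *
        (conj ((ζ : P → ℂ) y) * (χ : G → ℂ) (y * x)) * (χ : G → ℂ) x' =
        ((ζ : P → ℂ) 1 / (Nat.card P : ℂ) * conj ((ζ : P → ℂ) y)) *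
          ((χ : G → ℂ) x' * (χ : G → ℂ) (y * x)) := fun χ => by ring
    simp only [h3]
    rw [← Finset.mul_sum, h2, mul_zero]
  · intro h; exact absurd (Finset.mem_univ _) h

omit [Fintype G] in
theorem index_val_eq [Finite G] [Fact p.Prime] {B : Set (IrrCharacter G)}
    (hD : IsDefectGroup p M B P) : ∃ g : G, IsDefectClass M B g ∧
      (Subgroup.centralizer ({g} : Set G)).index.factorization p = P.index.factorization p := by
  obtain ⟨g, hg, -, hcard⟩ := Cfsg.Agent.Lib.Helper2_BlockFMT.isDefectGroup_iff.mp hD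
  refine ⟨g, hg, ?_⟩
  have hp : p.Prime := Fact.out
  have h1 := (Subgroup.centralizer ({g} : Set G)).card_mul_index
  have h2 := P.card_mul_index
  have h3 : (Nat.card (Subgroup.centralizer ({g} : Set G)) *
      (Subgroup.centralizer ({g} : Set G)).index).factorization p =
      (Nat.card G).factorization p := by rw [h1]
  have h4 : (Nat.card P * P.index).factorization p = (Nat.card G).factorization p := by rw [h2]
  rw [Nat.factorization_mul Nat.card_pos.ne' Subgroup.index_ne_zero_of_finite,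
    Finsupp.add_apply] at h3 h4
  rw [hcard, Nat.Prime.factorization_pow hp, Finsupp.single_eq_same] at h4
  omega

omit [Fintype G] in
/-- Members of a block with normal defect group `P` that have `P` in the kernel have defect zero
as characters of `G ⧸ P`. -/
theorem degree_val_of_ker [Finite G] [Fact p.Prime] (hM : IsPModular p M) [P.Normal]
    {B : Set (IrrCharacter G)} (hD : IsDefectGroup p M B P)
    (θ : IrrCharacter G) (hθ : θ ∈ B) (hker : ∀ u ∈ P, (θ : G → ℂ) u = (θ : G → ℂ) 1) :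
    (charDegree (θ : G → ℂ)).factorization p = P.index.factorization p := by
  obtain ⟨g, hg, hidx⟩ := index_val_eq P hD
  apply le_antisymm
  · obtain ⟨θ', h1, h2⟩ := exists_deflate_irr P θ.2 hker
    obtain ⟨d0, d1, d2⟩ := irr_charDegree h1
    have h3 : charDegree (θ : G → ℂ) = charDegree θ' := by
      apply charDegree_of_eq
      rw [h2, ← d1]
      rfl
    rw [h3]
    have h4 : charDegree θ' ∣ P.index := by
      rw [Subgroup.index_eq_card]
      exact d2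
    exact (Nat.factorization_le_iff_dvd d0.ne' Subgroup.index_ne_zero_of_finite).mpr h4 p
  · rw [← hidx]
    exact Cfsg.Agent.Lib.Helper2_BlockDefOrder.degree_val_ge hM hg hθ

omit [Fintype G] in
theorem not_dvd_div_of_val {d n : ℕ} (hp : p.Prime) (hdn : d ∣ n) (hn : n ≠ 0)
    (h : d.factorization p = n.factorization p) : ¬ p ∣ n / d := by
  intro hdvd
  have h1 : (n / d).factorization p = 0 := by
    rw [Nat.factorization_div hdn, Finsupp.tsub_apply, h, Nat.sub_self]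
  have h2 : n / d ≠ 0 := by
    have hd : 0 < d := Nat.pos_of_ne_zero (fun h0 => hn (by rw [h0] at hdn; exact Nat.eq_zero_of_zero_dvd hdn))
    exact (Nat.div_pos (Nat.le_of_dvd (Nat.pos_of_ne_zero hn) hdn) hd).ne'
  rcases (Nat.factorization_eq_zero_iff _ _).mp h1 with h3 | h3 | h3
  · exact h3 hp
  · exact h3 hdvd
  · exact h2 h3

omit [Fintype G] in
/-- uniqueness of the member with `P` in its kernel -/
theorem ker_unique [Finite G] [Fact p.Prime] (hM : IsPModular p M) [P.Normal] (hP : IsPGroup p P)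
    (hreg : ∀ x : G, ¬ p ∣ orderOf x → x ∈ Subgroup.centralizer (P : Set G))
    {B : Set (IrrCharacter G)} (hB : IsPBlock M B) (hD : IsDefectGroup p M B P)
    (θ θ' : IrrCharacter G) (hθ : θ ∈ B) (hθ' : θ' ∈ B)
    (hker : ∀ u ∈ P, (θ : G → ℂ) u = (θ : G → ℂ) 1)
    (hker' : ∀ u ∈ P, (θ' : G → ℂ) u = (θ' : G → ℂ) 1) : θ' = θ := by
  have hPr := isPrime_of_modular hM
  obtain ⟨η, h1, h2⟩ := exists_deflate_irr P θ.2 hker
  obtain ⟨η', h1', h2'⟩ := exists_deflate_irr P θ'.2 hker'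
  have hs : SameBlock M η η' := by
    apply sameBlock_deflate_pGroup P hM hP hreg ⟨η, h1⟩ ⟨η', h1'⟩
    change SameBlock M (fun g : G => η (QuotientGroup.mk g)) (fun g : G => η' (QuotientGroup.mk g))
    rw [← h2, ← h2']
    exact sameBlock_of_mem hPr hB hθ hθ'
  obtain ⟨d0, d1, d2⟩ := irr_charDegree h1
  have h3 : charDegree (θ : G → ℂ) = charDegree η := by
    apply charDegree_of_eq
    rw [h2, ← d1]
    rfl
  have h4 := degree_val_of_ker P hM hD θ hθ hker
  rw [h3, Subgroup.index_eq_card] at h4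
  have h5 := Cfsg.Agent.Lib.helper8_DefectZero.blockOf_eq_singleton hM ⟨η, h1⟩
    (not_dvd_div_of_val hM.1 d2 Nat.card_pos.ne' h4)
  have h6 : (⟨η', h1'⟩ : IrrCharacter (G ⧸ P)) ∈ blockOf M η := hs
  have h7 : (⟨η', h1'⟩ : IrrCharacter (G ⧸ P)) ∈ ({⟨η, h1⟩} : Set (IrrCharacter (G ⧸ P))) := by
    rw [← h5]; exact h6
  have h8 : η' = η := congrArg Subtype.val (Set.mem_singleton_iff.mp h7)
  apply Subtype.ext
  rw [h2, h2', h8]

/-- the norm of `θ` on the `p`-regular elements -/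
theorem sum_regular_sq [P.Normal] (hp : p.Prime) (hP : IsPGroup p P)
    (hreg : ∀ x : G, ¬ p ∣ orderOf x → x ∈ Subgroup.centralizer (P : Set G))
    (θ : IrrCharacter G) (hker : ∀ u ∈ P, (θ : G → ℂ) u = (θ : G → ℂ) 1)
    (hdeg : (charDegree (θ : G → ℂ)).factorization p = P.index.factorization p) :
    ∑ x ∈ Finset.univ.filter (fun x : G => ¬ p ∣ orderOf x),
      (θ : G → ℂ) x * conj ((θ : G → ℂ) x) = (P.index : ℂ) := by
  obtain ⟨η, h1, h2⟩ := exists_deflate_irr P θ.2 hker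
  obtain ⟨d0, d1, d2⟩ := irr_charDegree h1
  have h3 : charDegree (θ : G → ℂ) = charDegree η := by
    apply charDegree_of_eq
    rw [h2, ← d1]
    rfl
  rw [h3, Subgroup.index_eq_card] at hdeg
  have hv : ∀ q : G ⧸ P, p ∣ orderOf q → η q = 0 := fun q hq =>
    Cfsg.Agent.Lib.helper8_DefectZero.vanish_of_defect_zero hp ⟨η, h1⟩
      (not_dvd_div_of_val hp d2 Nat.card_pos.ne' hdeg) hq
  have h4 := classInner_irr_self h1
  unfold classInner at h4
  have hc : (Nat.card (G ⧸ P) : ℂ) ≠ 0 := by exact_mod_cast Nat.card_pos.ne'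
  have h5 : ∑ q : G ⧸ P, η q * conj (η q) = (Nat.card (G ⧸ P) : ℂ) := by
    field_simp at h4
    exact h4
  rw [Subgroup.index_eq_card, ← h5]
  have h6 : ∑ q : G ⧸ P, η q * conj (η q) =
      ∑ q ∈ Finset.univ.filter (fun q : G ⧸ P => ¬ p ∣ orderOf q), η q * conj (η q) := by
    symm
    apply Finset.sum_subset (Finset.filter_subset _ _)
    intro q _ hq
    simp only [Finset.mem_filter, Finset.mem_univ, true_and, not_not] at hq
    rw [hv q hq, zero_mul]
  rw [h6]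
  refine Finset.sum_bij (fun x _ => (QuotientGroup.mk x : G ⧸ P)) ?_ ?_ ?_ ?_
  · intro x hx
    simp only [Finset.mem_filter, Finset.mem_univ, true_and] at hx ⊢
    exact fun h => hx (h.trans (orderOf_map_dvd (QuotientGroup.mk' P) x))
  · intro x hx x' hx' h
    simp only [Finset.mem_filter, Finset.mem_univ, true_and] at hx hx'
    exact regular_inj P hp hP (hreg x hx) hx hx' h
  · intro q hq
    simp only [Finset.mem_filter, Finset.mem_univ, true_and] at hq
    obtain ⟨x, hx1, hx2⟩ := exists_regular_lift P hp q hq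
    exact ⟨x, by simpa using hx2, hx1⟩
  · intro x _
    rw [h2]

/-- the standing hypotheses -/
structure Ctx (p : ℕ) (M : Ideal AlgInt) (P : Subgroup G) (B : Set (IrrCharacter G))
    (θ : IrrCharacter G) : Prop where
  hM : IsPModular p M
  hP : IsPGroup p P
  hG : P ⊔ Subgroup.centralizer (P : Set G) = ⊤
  hB : IsPBlock M B
  hD : IsDefectGroup p M B P
  hθ : θ ∈ B
  hker : ∀ u ∈ P, (θ : G → ℂ) u = (θ : G → ℂ) 1

variable {P} {B : Set (IrrCharacter G)} {θ : IrrCharacter G}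

/-- the members of `B` over `ζ` -/
noncomputable def II (P : Subgroup G) (B : Set (IrrCharacter G)) (ζ : IrrCharacter P) :
    Finset (IrrCharacter G) :=
  Finset.univ.filter (fun χ : IrrCharacter G => χ ∈ B ∧
        classInner (fun y : P => (χ : G → ℂ) y) (ζ : P → ℂ) ≠ 0)

theorem mem_II {ζ : IrrCharacter P} {χ : IrrCharacter G} : χ ∈ II P B ζ ↔ χ ∈ B ∧
    classInner (fun y : P => (χ : G → ℂ) y) (ζ : P → ℂ) ≠ 0 := by
  simp [II]

theorem II_one (h : Ctx p M P B θ) : II P B (oneIrr P) = {θ} := by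
  haveI : Fact p.Prime := ⟨h.hM.1⟩
  haveI := normal_of_sup P h.hG
  ext χ
  rw [mem_II, over_one_iff P (normal_of_sup P h.hG), Finset.mem_singleton]
  constructor
  · rintro ⟨h1, h2⟩
    exact ker_unique P h.hM h.hP (regular_mem P h.hM.1 h.hP h.hG) h.hB h.hD θ χ h.hθ h1 h.hker h2
  · rintro rfl
    exact ⟨h.hθ, h.hker⟩

theorem K2 (h : Ctx p M P B θ) (ζ : IrrCharacter P) {a b : G} (ha : ¬ p ∣ orderOf a)
    (hb : ¬ p ∣ orderOf b) :
    ∑ χ ∈ II P B ζ, (χ : G → ℂ) a * (χ : G → ℂ) b =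
      (ζ : P → ℂ) 1 ^ 2 * ((θ : G → ℂ) a * (θ : G → ℂ) b) := by
  have h1 := K_formula P h.hM h.hP h.hG h.hB ζ ha hb
  have h2 := K_formula P h.hM h.hP h.hG h.hB (oneIrr P) ha hb
  have h3 := II_one h
  unfold II at h3
  rw [h3, Finset.sum_singleton] at h2
  have h4 : (oneIrr P : P → ℂ) 1 = 1 := rfl
  rw [h4, one_pow] at h2
  unfold II
  rw [h1, h2]
  have hPc : (Nat.card P : ℂ) ≠ 0 := by exact_mod_cast Nat.card_pos.ne'
  field_simp

theorem not_dvd_orderOf_one (hp : p.Prime) : ¬ p ∣ orderOf (1 : G) := by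
  rw [orderOf_one]; exact hp.one_lt.ne' ∘ Nat.dvd_one.mp

/-- on `p`-regular elements every member of `B` is proportional to `θ` -/
theorem prop_formula (h : Ctx p M P B θ) (ζ : IrrCharacter P) {χ : IrrCharacter G}
    (hχ : χ ∈ II P B ζ) {x : G} (hx : ¬ p ∣ orderOf x) :
    (θ : G → ℂ) 1 * (χ : G → ℂ) x = (χ : G → ℂ) 1 * (θ : G → ℂ) x := by
  have h1' := not_dvd_orderOf_one (G := G) h.hM.1
  have hxi : ¬ p ∣ orderOf x⁻¹ := by rw [orderOf_inv]; exact hx
  have hsum : ∑ ψ ∈ II P B ζ, ((θ : G → ℂ) 1 * (ψ : G → ℂ) x - (ψ : G → ℂ) 1 * (θ : G → ℂ) x) *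
      conj ((θ : G → ℂ) 1 * (ψ : G → ℂ) x - (ψ : G → ℂ) 1 * (θ : G → ℂ) x) = 0 := by
    have e : ∀ ψ : IrrCharacter G,
        ((θ : G → ℂ) 1 * (ψ : G → ℂ) x - (ψ : G → ℂ) 1 * (θ : G → ℂ) x) *
        conj ((θ : G → ℂ) 1 * (ψ : G → ℂ) x - (ψ : G → ℂ) 1 * (θ : G → ℂ) x) =
        (θ : G → ℂ) 1 ^ 2 * ((ψ : G → ℂ) x * (ψ : G → ℂ) x⁻¹)
        - (θ : G → ℂ) 1 * (θ : G → ℂ) x⁻¹ * ((ψ : G → ℂ) x * (ψ : G → ℂ) 1)
        - (θ : G → ℂ) 1 * (θ : G → ℂ) x * ((ψ : G → ℂ) 1 * (ψ : G → ℂ) x⁻¹)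
        + (θ : G → ℂ) x * (θ : G → ℂ) x⁻¹ * ((ψ : G → ℂ) 1 * (ψ : G → ℂ) 1) := by
      intro ψ
      rw [map_sub, map_mul, map_mul, irr_one_eq_conj (isCharacter_of_isIrr θ.2),
        irr_one_eq_conj (isCharacter_of_isIrr ψ.2),
        ← inv_of_isCharacter (isCharacter_of_isIrr θ.2),
        ← inv_of_isCharacter (isCharacter_of_isIrr ψ.2)]
      ring
    simp only [e, Finset.sum_add_distrib, Finset.sum_sub_distrib, ← Finset.mul_sum]
    rw [K2 h ζ hx hxi, K2 h ζ hx h1', K2 h ζ h1' hxi, K2 h ζ h1' h1']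
    ring
  simp only [Complex.mul_conj] at hsum
  have hsum' : ∑ ψ ∈ II P B ζ,
      Complex.normSq ((θ : G → ℂ) 1 * (ψ : G → ℂ) x - (ψ : G → ℂ) 1 * (θ : G → ℂ) x) = 0 := by
    exact_mod_cast hsum
  have h2 := (Finset.sum_eq_zero_iff_of_nonneg (fun ψ _ => Complex.normSq_nonneg _)).mp hsum' χ hχ
  exact sub_eq_zero.mp (Complex.normSq_eq_zero.mp h2)

theorem value_formula (h : Ctx p M P B θ) (ζ : IrrCharacter P) {χ : IrrCharacter G}
    (hχ : χ ∈ II P B ζ) (y : P) {x : G} (hx : ¬ p ∣ orderOf x) :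
    (θ : G → ℂ) 1 * (ζ : P → ℂ) 1 * (χ : G → ℂ) (y * x) =
      (χ : G → ℂ) 1 * ((ζ : P → ℂ) y * (θ : G → ℂ) x) := by
  have h1 := mul_formula P h.hG χ y.2 (regular_mem P h.hM.1 h.hP h.hG x hx)
  have h2 := over_formula P h.hG χ ζ (mem_II.mp hχ).2 y
  have h3 := prop_formula h ζ hχ hx
  have h0 := irr_degree_ne_zero χ.2
  apply mul_left_cancel₀ h0
  linear_combination ((θ : G → ℂ) 1 * (ζ : P → ℂ) 1) * h1 + ((θ : G → ℂ) 1 * (χ : G → ℂ) x) * h2 +
    ((χ : G → ℂ) 1 * (ζ : P → ℂ) y) * h3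

theorem defect_eq (h : Ctx p M P B θ) {D : Subgroup G} (hD : IsDefectGroup p M B D) : D = P := by
  haveI : Fact p.Prime := ⟨h.hM.1⟩
  have h1 := normal_pGroup_le_defect h.hM h.hB hD P (normal_of_sup P h.hG) h.hP
  have h2 := Cfsg.Agent.Lib.Helper2_BlockFMT.card_defect_eq h.hM h.hB hD h.hD
  exact (Subgroup.eq_of_le_of_card_ge h1 h2.le).symm

theorem vanish (h : Ctx p M P B θ) {χ : IrrCharacter G} (hχ : χ ∈ B) (g : G)
    (hg : ∀ y : P, ∀ x : G, ¬ p ∣ orderOf x → g ≠ y * x) : (χ : G → ℂ) g = 0 := by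
  haveI : Fact p.Prime := ⟨h.hM.1⟩
  have hPr := isPrime_of_modular h.hM
  obtain ⟨a, ha⟩ := Cfsg.Agent.Lib.Helper2_PPart.exists_isPPart h.hM.1 g
  apply Cfsg.Agent.Lib.Helper2_SecondMain2.vanish_of_not_mem_defect h.hM χ g _ ha
  intro D hD hmem
  rw [← block_eq_blockOf hPr h.hB hχ] at hD
  rw [defect_eq h hD] at hmem
  obtain ⟨y, hy1, -, -, hy2⟩ := ha
  exact hg ⟨_, hmem⟩ y hy2 hy1.symm

theorem norm_formula (h : Ctx p M P B θ) {χ : IrrCharacter G} (hχ : χ ∈ B) :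
    ∑ g : G, (χ : G → ℂ) g * conj ((χ : G → ℂ) g) =
      ∑ y : P, ∑ x ∈ Finset.univ.filter (fun x : G => ¬ p ∣ orderOf x),
        (χ : G → ℂ) (y * x) * conj ((χ : G → ℂ) (y * x)) := by
  haveI := normal_of_sup P h.hG
  rw [← Finset.sum_product']
  have hinj : Set.InjOn (fun w : P × G => (w.1 : G) * w.2)
      ((Finset.univ : Finset P) ×ˢ Finset.univ.filter (fun x : G => ¬ p ∣ orderOf x) :
        Finset (P × G)) := by
    rintro ⟨y, x⟩ hw ⟨y', x'⟩ hw' e
    simp only [Finset.coe_product, Finset.coe_univ, Finset.coe_filter, Finset.mem_univ, true_and,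
      Set.mem_prod, Set.mem_univ, Set.mem_setOf_eq] at hw hw'
    simp only at e
    have e1 : (QuotientGroup.mk x : G ⧸ P) = QuotientGroup.mk x' := by
      have e2 := congrArg (fun g : G => (QuotientGroup.mk g : G ⧸ P)) e
      simp only [QuotientGroup.mk_mul, (QuotientGroup.eq_one_iff _).mpr y.2,
        (QuotientGroup.eq_one_iff _).mpr y'.2, one_mul] at e2
      exact e2
    have e3 := regular_inj P h.hM.1 h.hP (regular_mem P h.hM.1 h.hP h.hG x hw) hw hw' e1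
    subst e3
    have e4 : (y : G) = y' := mul_right_cancel e
    rw [Subtype.ext e4]
  rw [← Finset.sum_image (f := fun g : G => (χ : G → ℂ) g * conj ((χ : G → ℂ) g)) hinj]
  symm
  apply Finset.sum_subset (Finset.subset_univ _)
  intro g _ hg
  rw [vanish h hχ g, zero_mul]
  intro y x hx e
  apply hg
  rw [Finset.mem_image]
  exact ⟨(y, x), by simp [hx], e.symm⟩

theorem degree_formula (h : Ctx p M P B θ) (ζ : IrrCharacter P) {χ : IrrCharacter G}
    (hχ : χ ∈ II P B ζ) : (χ : G → ℂ) 1 = (ζ : P → ℂ) 1 * (θ : G → ℂ) 1 := by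
  haveI : Fact p.Prime := ⟨h.hM.1⟩
  haveI := normal_of_sup P h.hG
  have hθ0 := irr_degree_ne_zero θ.2
  have hζ0 := irr_degree_ne_zero ζ.2
  have hGc : (Nat.card G : ℂ) ≠ 0 := by exact_mod_cast Nat.card_pos.ne'
  have hPc : (Nat.card P : ℂ) ≠ 0 := by exact_mod_cast Nat.card_pos.ne'
  have h1 := norm_formula h (mem_II.mp hχ).1
  have h2 : ∑ g : G, (χ : G → ℂ) g * conj ((χ : G → ℂ) g) = (Nat.card G : ℂ) := by
    have := classInner_irr_self χ.2
    unfold classInner at this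
    field_simp at this
    exact this
  have h3 : ∑ y : P, (ζ : P → ℂ) y * conj ((ζ : P → ℂ) y) = (Nat.card P : ℂ) := by
    have := classInner_irr_self ζ.2
    unfold classInner at this
    field_simp at this
    exact this
  have h4 := sum_regular_sq P h.hM.1 h.hP (regular_mem P h.hM.1 h.hP h.hG) θ h.hker
    (degree_val_of_ker P h.hM h.hD θ h.hθ h.hker)
  set a : ℂ := (χ : G → ℂ) 1 / ((θ : G → ℂ) 1 * (ζ : P → ℂ) 1) with ha
  have hac : conj a = a := by
    rw [ha, map_div₀, map_mul, irr_one_eq_conj (isCharacter_of_isIrr θ.2),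
      irr_one_eq_conj (isCharacter_of_isIrr χ.2), irr_one_eq_conj (isCharacter_of_isIrr ζ.2)]
  have h5 : ∀ y : P, ∀ x ∈ Finset.univ.filter (fun x : G => ¬ p ∣ orderOf x),
      (χ : G → ℂ) (y * x) * conj ((χ : G → ℂ) (y * x)) =
      (a * a * ((ζ : P → ℂ) y * conj ((ζ : P → ℂ) y))) * ((θ : G → ℂ) x * conj ((θ : G → ℂ) x)) := by
    intro y x hx
    have hx' : ¬ p ∣ orderOf x := (Finset.mem_filter.mp hx).2
    have h6 : (χ : G → ℂ) (y * x) = a * ((ζ : P → ℂ) y * (θ : G → ℂ) x) := by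
      have := value_formula h ζ hχ y hx'
      rw [ha]
      field_simp
      linear_combination this
    rw [h6, map_mul, map_mul, hac]
    ring
  rw [h2] at h1
  rw [Finset.sum_congr rfl (fun y _ => Finset.sum_congr rfl (h5 y))] at h1
  simp only [← Finset.mul_sum, ← Finset.sum_mul] at h1
  rw [h3, h4] at h1
  have h7 : (Nat.card P : ℂ) * (P.index : ℂ) = (Nat.card G : ℂ) := by
    exact_mod_cast P.card_mul_index
  have h8 : a * a = 1 := by
    have : (Nat.card G : ℂ) * (a * a) = (Nat.card G : ℂ) * 1 := by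
      rw [mul_one]
      conv_rhs => rw [h1]
      rw [← h7]
      ring
    exact mul_left_cancel₀ hGc this
  obtain ⟨c0, c1, -⟩ := irr_charDegree χ.2
  obtain ⟨t0, t1, -⟩ := irr_charDegree θ.2
  obtain ⟨z0, z1, -⟩ := irr_charDegree ζ.2
  have h9 : (χ : G → ℂ) 1 * (χ : G → ℂ) 1 =
      ((θ : G → ℂ) 1 * (ζ : P → ℂ) 1) * ((θ : G → ℂ) 1 * (ζ : P → ℂ) 1) := by
    rw [ha] at h8
    field_simp at h8
    linear_combination h8
  rw [c1, t1, z1] at h9 ⊢
  have h10 : charDegree (χ : G → ℂ) * charDegree (χ : G → ℂ) =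
      (charDegree (θ : G → ℂ) * charDegree (ζ : P → ℂ)) *
        (charDegree (θ : G → ℂ) * charDegree (ζ : P → ℂ)) := by exact_mod_cast h9
  have h11 := Nat.mul_self_inj.mp h10
  rw [h11]
  push_cast
  ring

theorem card_II (h : Ctx p M P B θ) (ζ : IrrCharacter P) : (II P B ζ).card = 1 := by
  have h1' := not_dvd_orderOf_one (G := G) h.hM.1
  have h1 := K2 h ζ h1' h1'
  have hθ0 := irr_degree_ne_zero θ.2
  have hζ0 := irr_degree_ne_zero ζ.2
  rw [Finset.sum_congr rfl (fun χ hχ => by rw [degree_formula h ζ hχ])] at h1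
  rw [Finset.sum_const, nsmul_eq_mul] at h1
  have h2 : ((II P B ζ).card : ℂ) = 1 := by
    have h3 : (ζ : P → ℂ) 1 * (θ : G → ℂ) 1 * ((ζ : P → ℂ) 1 * (θ : G → ℂ) 1) ≠ 0 :=
      mul_ne_zero (mul_ne_zero hζ0 hθ0) (mul_ne_zero hζ0 hθ0)
    apply mul_right_cancel₀ h3
    rw [h1]
    ring
  exact_mod_cast h2

theorem main (h : Ctx p M P B θ) : ∃ f : IrrCharacter P → IrrCharacter G,
    (∀ ζ, f ζ ∈ B) ∧ Function.Injective f ∧ (∀ χ ∈ B, ∃ ζ, f ζ = χ) ∧
    (∀ (ζ : IrrCharacter P) (y : P) (x : G), ¬ p ∣ orderOf x →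
      (f ζ : G → ℂ) (y * x) = (ζ : P → ℂ) y * (θ : G → ℂ) x) := by
  have h1 : ∀ ζ : IrrCharacter P, ∃ χ, II P B ζ = {χ} := fun ζ =>
    Finset.card_eq_one.mp (card_II h ζ)
  choose f hf using h1
  have hmem : ∀ ζ, f ζ ∈ II P B ζ := fun ζ => by rw [hf ζ]; exact Finset.mem_singleton_self _
  refine ⟨f, fun ζ => (mem_II.mp (hmem ζ)).1, ?_, ?_, ?_⟩
  · intro ζ ζ' e
    have h2 := (mem_II.mp (hmem ζ)).2
    have h3 := (mem_II.mp (hmem ζ')).2
    rw [← e] at h3
    exact over_unique P h.hG (f ζ) ζ ζ' h2 h3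
  · intro χ hχ
    obtain ⟨ζ, hζ⟩ := Cfsg.Agent.Lib.Helper2_BlockCover2.exists_under (N := P) χ
    refine ⟨ζ, ?_⟩
    have h2 : χ ∈ II P B ζ := mem_II.mpr ⟨hχ, hζ⟩
    rw [hf ζ, Finset.mem_singleton] at h2
    exact h2.symm
  · intro ζ y x hx
    have h2 := value_formula h ζ (hmem ζ) y hx
    rw [degree_formula h ζ (hmem ζ)] at h2
    have hθ0 := irr_degree_ne_zero θ.2
    have hζ0 := irr_degree_ne_zero ζ.2
    apply mul_left_cancel₀ (mul_ne_zero hθ0 hζ0)
    rw [h2]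
    ring

theorem exists_ctx (hM : IsPModular p M) (hP : IsPGroup p P)
    (hG : P ⊔ Subgroup.centralizer (P : Set G) = ⊤) (hB : IsPBlock M B)
    (hD : IsDefectGroup p M B P) : ∃ θ, Ctx p M P B θ := by
  obtain ⟨θ, h1, h2⟩ := exists_ker_of_normal_pGroup hM hB P (normal_of_sup P hG) hP
  exact ⟨θ, hM, hP, hG, hB, hD, h1, h2⟩

/-- a character agreeing with a multiple of `θ` on the regular elements lies in `B` -/
theorem mem_of_prop (h : Ctx p M P B θ) (χ : IrrCharacter G) (c : ℂ)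
    (hc : ∀ x : G, ¬ p ∣ orderOf x → (χ : G → ℂ) x = c * (θ : G → ℂ) x) : χ ∈ B := by
  have hPr := isPrime_of_modular h.hM
  rw [block_eq_blockOf hPr h.hB h.hθ]
  apply sameBlock_of_regular h.hM
  intro x hx
  have h1 := hc 1 (not_dvd_orderOf_one h.hM.1)
  have h0 := irr_degree_ne_zero χ.2
  have hc0 : c ≠ 0 := by
    rintro rfl
    rw [zero_mul] at h1
    exact h0 h1
  have hθ0 := irr_degree_ne_zero θ.2
  have : centralChar (θ : G → ℂ) x - centralChar (χ : G → ℂ) x = 0 := by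
    unfold centralChar
    rw [hc x hx, h1]
    field_simp
    ring
  rw [this]
  exact ideal_zero hPr

end Cfsg.Agent.Lib.BlockPC2
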