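import Mathlib
import Cfsg.Prelude.Def_Blocks
import Cfsg.Prelude.Def_BlockRank
import Cfsg.Agent.Lib.BlockPC2
import Cfsg.Agent.Lib.helper8_BlockRank

set_option autoImplicit false

namespace Cfsg.Agent.Lib.BlockPC5

open Cfsg Cfsg.Agent.Lib.Helper2_BlockLocal Cfsg.Agent.Lib.Helper2_BlockOm
  Cfsg.Agent.Lib.Helper2_BlockOsima Cfsg.Agent.Lib.Helper2_BlockBasic
  Cfsg.Agent.Lib.Helper2_BlockQuot Cfsg.Agent.Lib.Helper2_BlockPCore
  Cfsg.Agent.Lib.CharBasic Cfsg.Agent.Lib.CharOrtho
  Cfsg.Agent.Lib.CharComplete Cfsg.Agent.Lib.CharIntegral Cfsg.Agent.Lib.CharMore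
  Cfsg.Agent.Lib.CharQuot
  Cfsg.Agent.Lib.BlockPC Cfsg.Agent.Lib.BlockPC2 Cfsg.Agent.Lib.helper8_Defect
  Cfsg.Agent.Lib.helper8_BlockRank
open scoped ComplexConjugate Classical

universe u

variable {G : Type u} [Group G] {M : Ideal AlgInt} {p : ℕ}

theorem blockRank_formula [Fintype G] (hM : IsPModular p M) {B : Set (IrrCharacter G)}
    (hB : IsPBlock M B) :
    (blockRank p B : ℂ) = (Nat.card G : ℂ)⁻¹ *
      ∑ x ∈ Finset.univ.filter (fun x : G => ¬ p ∣ orderOf x),
        ∑ χ ∈ Finset.univ.filter (fun χ : IrrCharacter G => χ ∈ B),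
          (χ : G → ℂ) x * (χ : G → ℂ) x⁻¹ := by
  rw [blockRank_eq_trace hM hB, ← sum_filter_eq_sum_subtype B
    (fun χ => classInner (pRegularPart p (χ : G → ℂ)) (χ : G → ℂ)), Finset.sum_comm,
    Finset.mul_sum]
  apply Finset.sum_congr rfl
  intro χ _
  unfold classInner
  congr 1
  rw [Finset.sum_filter]
  apply Finset.sum_congr rfl
  intro x _
  by_cases hx : p ∣ orderOf x
  · rw [pRegularPart_singular _ hx, if_neg (not_not.2 hx), zero_mul]
  · rw [pRegularPart_regular _ hx, if_pos hx, inv_of_isCharacter (isCharacter_of_isIrr χ.2)]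

theorem blockRank_dominated [Fintype G] (P : Subgroup G) [P.Normal] (hM : IsPModular p M)
    (hP : IsPGroup p P) (hG : P ⊔ Subgroup.centralizer (P : Set G) = ⊤)
    (θ : IrrCharacter (G ⧸ P)) :
    blockRank p (blockOf M (fun g : G => (θ : G ⧸ P → ℂ) (QuotientGroup.mk g))) =
      blockRank p (blockOf M (θ : G ⧸ P → ℂ)) := by
  have hPr := isPrime_of_modular hM
  have hp : p.Prime := hM.1
  have hreg := regular_mem P hp hP hG
  set B := blockOf M (fun g : G => (θ : G ⧸ P → ℂ) (QuotientGroup.mk g)) with hBdef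
  set Bb := blockOf M (θ : G ⧸ P → ℂ) with hBbdef
  have hB : IsPBlock M B := ⟨⟨_, isIrr_inflate P θ.2⟩, rfl⟩
  have hBb : IsPBlock M Bb := ⟨θ, rfl⟩
  have hcast : (blockRank p B : ℂ) = (blockRank p Bb : ℂ) := by
    rw [blockRank_formula hM hB, blockRank_formula hM hBb]
    have hPc : (Nat.card P : ℂ) ≠ 0 := by exact_mod_cast Nat.card_pos.ne'
    have hQc : (Nat.card (G ⧸ P) : ℂ) ≠ 0 := by exact_mod_cast Nat.card_pos.ne'
    have hcard : (Nat.card G : ℂ) = (Nat.card (G ⧸ P) : ℂ) * (Nat.card P : ℂ) := by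
      rw [Subgroup.card_eq_card_quotient_mul_card_subgroup P]
      push_cast
      rfl
    -- inner sums
    have hin : ∀ x : G, ¬ p ∣ orderOf x →
        ∑ χ ∈ Finset.univ.filter (fun χ : IrrCharacter G => χ ∈ B),
          (χ : G → ℂ) x * (χ : G → ℂ) x⁻¹ = (Nat.card P : ℂ) *
        ∑ η ∈ Finset.univ.filter (fun η : IrrCharacter (G ⧸ P) => η ∈ Bb),
          (η : G ⧸ P → ℂ) (QuotientGroup.mk x) * (η : G ⧸ P → ℂ) (QuotientGroup.mk x)⁻¹ := by
      intro x hx
      have hxi : ¬ p ∣ orderOf x⁻¹ := by rw [orderOf_inv]; exact hx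
      have h1 := K_formula P hM hP hG hB (oneIrr P) hx hxi
      have h4 : (oneIrr P : P → ℂ) 1 = 1 := rfl
      rw [h4, one_pow] at h1
      have h2 : ∑ χ ∈ Finset.univ.filter (fun χ : IrrCharacter G => χ ∈ B),
          (χ : G → ℂ) x * (χ : G → ℂ) x⁻¹ = (Nat.card P : ℂ) *
          ∑ χ ∈ Finset.univ.filter (fun χ : IrrCharacter G => χ ∈ B ∧
            classInner (fun y : P => (χ : G → ℂ) y) (oneIrr P : P → ℂ) ≠ 0),
            (χ : G → ℂ) x * (χ : G → ℂ) x⁻¹ := by
        rw [h1]
        field_simp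
      rw [h2]
      congr 1
      symm
      refine Finset.sum_bij (fun η _ => (⟨_, isIrr_inflate P η.2⟩ : IrrCharacter G)) ?_ ?_ ?_ ?_
      · intro η hη
        simp only [Finset.mem_filter, Finset.mem_univ, true_and] at hη ⊢
        refine ⟨?_, ?_⟩
        · exact sameBlock_inflate P hM (irr_classFunction θ) (irr_classFunction η) hη
        · apply (over_one_iff P inferInstance (⟨_, isIrr_inflate P η.2⟩ : IrrCharacter G)).2
          intro n hn
          show (η : G ⧸ P → ℂ) (QuotientGroup.mk n) = (η : G ⧸ P → ℂ) (QuotientGroup.mk 1)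
          rw [(QuotientGroup.eq_one_iff n).2 hn]
          rfl
      · intro η _ η' _ h
        apply Subtype.ext
        funext q
        obtain ⟨g, rfl⟩ := QuotientGroup.mk_surjective q
        exact congrFun (congrArg Subtype.val h) g
      · intro χ hχ
        simp only [Finset.mem_filter, Finset.mem_univ, true_and] at hχ
        obtain ⟨η, h5, h6⟩ := exists_deflate_irr P χ.2 ((over_one_iff P inferInstance χ).1 hχ.2)
        refine ⟨⟨η, h5⟩, ?_, ?_⟩
        · simp only [Finset.mem_filter, Finset.mem_univ, true_and]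
          apply sameBlock_deflate_pGroup P hM hP hreg θ ⟨η, h5⟩
          have h7 : SameBlock M (fun g : G => (θ : G ⧸ P → ℂ) (QuotientGroup.mk g)) (χ : G → ℂ) :=
            hχ.1
          rw [h6] at h7
          exact h7
        · exact Subtype.ext h6.symm
      · intro η _
        rfl
    rw [Finset.sum_congr rfl (fun x hx => hin x (by simpa using hx)), ← Finset.mul_sum, hcard,
      mul_inv, mul_assoc, ← mul_assoc (Nat.card P : ℂ)⁻¹, inv_mul_cancel₀ hPc, one_mul]
    congr 1
    refine Finset.sum_bij (fun x _ => (QuotientGroup.mk x : G ⧸ P)) ?_ ?_ ?_ ?_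
    · intro x hx
      simp only [Finset.mem_filter, Finset.mem_univ, true_and] at hx ⊢
      exact fun h => hx (h.trans (orderOf_map_dvd (QuotientGroup.mk' P) x))
    · intro x hx x' hx' h
      simp only [Finset.mem_filter, Finset.mem_univ, true_and] at hx hx'
      exact regular_inj P hp hP (hreg x hx) hx hx' h
    · intro q hq
      simp only [Finset.mem_filter, Finset.mem_univ, true_and] at hq
      obtain ⟨x, hx1, hx2⟩ := exists_regular_lift P hp q hq
      exact ⟨x, by simpa using hx2, hx1⟩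
    · intro x _
      rfl
  exact_mod_cast hcast

end Cfsg.Agent.Lib.BlockPC5
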