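import Mathlib
import Cfsg.Prelude.Def_Characters
import Cfsg.Agent.Lib.CharPerm
import Cfsg.Agent.Lib.CharQuot
import Cfsg.Agent.Lib.CharIto
import Cfsg.Agent.Lib.CharLinear
import Cfsg.Agent.Lib.helper8_Center

set_option autoImplicit false

namespace Cfsg.Agent.Lib.CentralCount

open Cfsg Cfsg.Agent.Lib.CharBasic Cfsg.Agent.Lib.CharOrtho
  Cfsg.Agent.Lib.CharComplete Cfsg.Agent.Lib.CharIntegral Cfsg.Agent.Lib.CharMore
  Cfsg.Agent.Lib.CharPerm Cfsg.Agent.Lib.CharQuot Cfsg.Agent.Lib.CharIto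
  Cfsg.Agent.Lib.CharLinear Cfsg.Agent.Lib.helper8_Center
open scoped ComplexConjugate Classical

universe u

variable {G : Type u} [Group G] [Fintype G] (N : Subgroup G) [hNn : N.Normal] [Fintype N]

/-- special elements -/
def Sp (g : G) : Prop := ∀ x : G, x⁻¹ * g⁻¹ * x * g ∈ N → x * g = g * x

/-- the weight detecting the characters over `ψ` -/
noncomputable def ww (ψ : N → ℂ) (χ : G → ℂ) : ℂ :=
  (Nat.card N : ℂ)⁻¹ * ∑ n : N, conj (ψ n) * (χ n / χ 1)

variable {N}

theorem central_comm (hN : N ≤ Subgroup.center G) (n : N) (g : G) : g * (n : G) = (n : G) * g :=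
  Subgroup.mem_center_iff.mp (hN n.2) g

theorem psi_one (hN : N ≤ Subgroup.center G) (ψ : IrrCharacter N) : (ψ : N → ℂ) 1 = 1 :=
  degree_one_of_comm (fun a b => Subtype.ext (central_comm hN b a)) ψ.2

theorem psi_mul (hN : N ≤ Subgroup.center G) (ψ : IrrCharacter N) (a b : N) :
    (ψ : N → ℂ) (a * b) = (ψ : N → ℂ) a * (ψ : N → ℂ) b :=
  char_mul_of_degree_one (isCharacter_of_isIrr ψ.2) (psi_one hN ψ) a b

theorem ww_cases (hN : N ≤ Subgroup.center G) (ψ : IrrCharacter N) (χ : IrrCharacter G) :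
    ww N (ψ : N → ℂ) (χ : G → ℂ) = 0 ∨ ww N (ψ : N → ℂ) (χ : G → ℂ) = 1 := by
  have h0 := irr_degree_ne_zero χ.2
  set f : N → ℂ := fun n => conj ((ψ : N → ℂ) n) * ((χ : G → ℂ) n / (χ : G → ℂ) 1) with hf
  have hmul : ∀ a b : N, f (a * b) = f a * f b := by
    intro a b
    simp only [hf]
    rw [psi_mul hN, Subgroup.coe_mul, central_mul χ.2 (fun g => central_comm hN b g), map_mul]
    field_simp
  have hS : ∀ m : N, f m * ∑ n : N, f n = ∑ n : N, f n := by
    intro m
    rw [Finset.mul_sum, ← Equiv.sum_comp (Equiv.mulLeft m) f]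
    exact Finset.sum_congr rfl fun n _ => (hmul m n).symm
  by_cases hz : ∑ n : N, f n = 0
  · left
    unfold ww
    rw [hz, mul_zero]
  · right
    have h1 : ∀ m : N, f m = 1 := fun m => by
      have := hS m
      exact mul_right_cancel₀ hz (by rw [this, one_mul])
    unfold ww
    have : ∑ n : N, conj ((ψ : N → ℂ) n) * ((χ : G → ℂ) n / (χ : G → ℂ) 1) = (Nat.card N : ℂ) := by
      rw [Finset.sum_congr rfl fun n _ => h1 n]
      simp [Nat.card_eq_fintype_card]
    rw [this, inv_mul_cancel₀]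
    exact_mod_cast Nat.card_pos.ne'

theorem classInner_eq_ww (ψ : IrrCharacter N) (χ : IrrCharacter G) :
    classInner (fun n : N => (χ : G → ℂ) n) (ψ : N → ℂ) =
      (χ : G → ℂ) 1 * ww N (ψ : N → ℂ) (χ : G → ℂ) := by
  have h0 := irr_degree_ne_zero χ.2
  unfold classInner ww
  rw [mul_left_comm]
  congr 1
  rw [Finset.mul_sum]
  refine Finset.sum_congr rfl fun n _ => ?_
  field_simp

theorem sum_shift (hN : N ≤ Subgroup.center G) (ψ : IrrCharacter N) (χ : IrrCharacter G) (g : G) :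
    ∑ n : N, conj ((ψ : N → ℂ) n) * (χ : G → ℂ) (g * n) =
      (Nat.card N : ℂ) * ww N (ψ : N → ℂ) (χ : G → ℂ) * (χ : G → ℂ) g := by
  have hc : (Nat.card N : ℂ) ≠ 0 := by exact_mod_cast Nat.card_pos.ne'
  unfold ww
  rw [← mul_assoc, mul_inv_cancel₀ hc, one_mul, Finset.sum_mul]
  refine Finset.sum_congr rfl fun n _ => ?_
  rw [central_mul χ.2 (fun g => central_comm hN n g)]
  ring

/-- the twisted count of central translates conjugate to `g` -/
theorem twisted (hN : N ≤ Subgroup.center G) (ψ : IrrCharacter N)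
    (hfaith : ∀ n : N, (ψ : N → ℂ) n = (ψ : N → ℂ) 1 → n = 1) (g : G) :
    ∑ n : N, conj ((ψ : N → ℂ) n) * (if IsConj (g * n) g then (1 : ℂ) else 0) =
      if Sp N g then 1 else 0 := by
  by_cases hg : Sp N g
  · rw [if_pos hg, Finset.sum_eq_single (1 : N)]
    · rw [psi_one hN, Subgroup.coe_one, mul_one, if_pos (IsConj.refl g)]
      simp
    · intro n _ hn
      rw [if_neg, mul_zero]
      intro hc
      apply hn
      obtain ⟨y, hy⟩ := isConj_iff.mp hc.symm
      -- y g y⁻¹ = g n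
      have h1 : (y⁻¹)⁻¹ * g⁻¹ * y⁻¹ * g ∈ N := by
        have : (y⁻¹)⁻¹ * g⁻¹ * y⁻¹ * g = ((n : G))⁻¹ := by
          have e : y * g⁻¹ * y⁻¹ = (g * n)⁻¹ := by rw [← hy]; group
          rw [inv_inv, e, mul_inv_rev]
          group
        rw [this]
        exact inv_mem n.2
      have h2 := hg y⁻¹ h1
      have h3 : y * g * y⁻¹ = g := by
        calc y * g * y⁻¹ = y * (g * y⁻¹) := by group
          _ = y * (y⁻¹ * g) := by rw [h2]
          _ = g := by group
      rw [h3] at hy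
      apply Subtype.ext
      have : g * 1 = g * (n : G) := by rw [mul_one]; exact hy
      exact (mul_left_cancel this).symm
    · intro h; exact absurd (Finset.mem_univ _) h
  · rw [if_neg hg]
    unfold Sp at hg
    push Not at hg
    obtain ⟨x, hx, hne⟩ := hg
    set m : N := ⟨x⁻¹ * g⁻¹ * x * g, hx⟩ with hm
    have hm1 : m ≠ 1 := by
      intro h
      apply hne
      have h1 : x⁻¹ * g⁻¹ * x * g = 1 := congrArg Subtype.val h
      calc x * g = g * x * (x⁻¹ * g⁻¹ * x * g) := by group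
        _ = g * x := by rw [h1, mul_one]
    have hxg : x⁻¹ * g * x = g * (m : G)⁻¹ := by
      simp only [hm]
      group
    set c : N → ℂ := fun n => if IsConj (g * n) g then (1 : ℂ) else 0 with hc
    have hcinv : ∀ n : N, c (m⁻¹ * n) = c n := by
      intro n
      simp only [hc]
      have e : g * ((m⁻¹ * n : N) : G) = x⁻¹ * (g * n) * x := by
        rw [Subgroup.coe_mul, Subgroup.coe_inv]
        calc g * ((m : G)⁻¹ * n) = (g * (m : G)⁻¹) * n := by group
          _ = x⁻¹ * g * x * n := by rw [hxg]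
          _ = x⁻¹ * g * (x * n) := by group
          _ = x⁻¹ * g * (n * x) := by rw [central_comm hN n x]
          _ = _ := by group
      have hcj : IsConj (g * n) (g * ((m⁻¹ * n : N) : G)) := by
        rw [e]
        exact isConj_iff.mpr ⟨x⁻¹, by group⟩
      by_cases h : IsConj (g * n) g
      · rw [if_pos h, if_pos (hcj.symm.trans h)]
      · rw [if_neg h, if_neg (fun h' => h (hcj.trans h'))]
    set S := ∑ n : N, conj ((ψ : N → ℂ) n) * c n with hS
    have h1 : S = conj ((ψ : N → ℂ) m⁻¹) * S := by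
      conv_lhs => rw [hS, ← Equiv.sum_comp (Equiv.mulLeft m⁻¹)]
      rw [hS, Finset.mul_sum]
      refine Finset.sum_congr rfl fun n _ => ?_
      simp only [Equiv.coe_mulLeft]
      rw [hcinv, psi_mul hN, map_mul]
      ring
    have h2 : conj ((ψ : N → ℂ) m⁻¹) = (ψ : N → ℂ) m := by
      rw [isCharacter_inv (isCharacter_of_isIrr ψ.2), Complex.conj_conj]
    rw [h2] at h1
    have h3 : (ψ : N → ℂ) m ≠ 1 := by
      intro h
      exact hm1 (hfaith m (by rw [h, psi_one hN]))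
    have h4 : (1 - (ψ : N → ℂ) m) * S = 0 := by
      rw [sub_mul, one_mul, ← h1, sub_self]
    exact (mul_eq_zero.mp h4).resolve_left (sub_ne_zero.mpr (Ne.symm h3))

theorem weighted_sq (hN : N ≤ Subgroup.center G) (ψ : IrrCharacter N)
    (hfaith : ∀ n : N, (ψ : N → ℂ) n = (ψ : N → ℂ) 1 → n = 1) (g : G) :
    ∑ χ : IrrCharacter G, ww N (ψ : N → ℂ) (χ : G → ℂ) * ((χ : G → ℂ) g * conj ((χ : G → ℂ) g)) =
      (Nat.card N : ℂ)⁻¹ * (if Sp N g then
        (Nat.card (Subgroup.centralizer ({g} : Set G)) : ℂ) else 0) := by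
  have hc : (Nat.card N : ℂ) ≠ 0 := by exact_mod_cast Nat.card_pos.ne'
  have h1 : ∀ χ : IrrCharacter G, ww N (ψ : N → ℂ) (χ : G → ℂ) *
      ((χ : G → ℂ) g * conj ((χ : G → ℂ) g)) = (Nat.card N : ℂ)⁻¹ *
      ∑ n : N, conj ((ψ : N → ℂ) n) * ((χ : G → ℂ) (g * n) * conj ((χ : G → ℂ) g)) := by
    intro χ
    have := sum_shift hN ψ χ g
    have e : ∑ n : N, conj ((ψ : N → ℂ) n) * ((χ : G → ℂ) (g * n) * conj ((χ : G → ℂ) g)) =
        (∑ n : N, conj ((ψ : N → ℂ) n) * (χ : G → ℂ) (g * n)) * conj ((χ : G → ℂ) g) := by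
      rw [Finset.sum_mul]
      exact Finset.sum_congr rfl fun n _ => by ring
    rw [e, this]
    field_simp
  rw [Finset.sum_congr rfl fun χ _ => h1 χ, ← Finset.mul_sum, Finset.sum_comm]
  congr 1
  have h2 : ∀ n : N, ∑ χ : IrrCharacter G, conj ((ψ : N → ℂ) n) *
      ((χ : G → ℂ) (g * n) * conj ((χ : G → ℂ) g)) =
      (conj ((ψ : N → ℂ) n) * (if IsConj (g * n) g then (1 : ℂ) else 0)) *
        (Nat.card (Subgroup.centralizer ({g} : Set G)) : ℂ) := by
    intro n
    rw [← Finset.mul_sum]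
    by_cases h : IsConj (g * n) g
    · rw [second_orthogonality_conj _ _ h, if_pos h, mul_one,
        CharPerm.card_centralizer_conj _ _ h]
    · rw [second_orthogonality_not_conj _ _ h, if_neg h, mul_zero, zero_mul]
  rw [Finset.sum_congr rfl fun n _ => h2 n, ← Finset.sum_mul, twisted hN ψ hfaith g]
  split_ifs <;> simp

theorem lhs_count (hN : N ≤ Subgroup.center G) (ψ : IrrCharacter N)
    (hfaith : ∀ n : N, (ψ : N → ℂ) n = (ψ : N → ℂ) 1 → n = 1) :
    (Nat.card {χ : IrrCharacter G //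
      classInner (fun n : N => (χ : G → ℂ) n) (ψ : N → ℂ) ≠ 0} : ℂ) =
      (Nat.card G : ℂ)⁻¹ * ((Nat.card N : ℂ)⁻¹ * ∑ g : G, (if Sp N g then
        (Nat.card (Subgroup.centralizer ({g} : Set G)) : ℂ) else 0)) := by
  have h1 : (Nat.card {χ : IrrCharacter G //
      classInner (fun n : N => (χ : G → ℂ) n) (ψ : N → ℂ) ≠ 0} : ℂ) =
      ∑ χ : IrrCharacter G, ww N (ψ : N → ℂ) (χ : G → ℂ) := by
    rw [Nat.card_eq_fintype_card, Fintype.card_subtype, Finset.card_filter]
    push_cast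
    refine Finset.sum_congr rfl fun χ _ => ?_
    rw [classInner_eq_ww]
    have h0 := irr_degree_ne_zero χ.2
    rcases ww_cases hN ψ χ with h | h
    · rw [h]; simp
    · rw [h]; simp [h0]
  have h2 : ∀ χ : IrrCharacter G, ww N (ψ : N → ℂ) (χ : G → ℂ) = (Nat.card G : ℂ)⁻¹ *
      ∑ g : G, ww N (ψ : N → ℂ) (χ : G → ℂ) * ((χ : G → ℂ) g * conj ((χ : G → ℂ) g)) := by
    intro χ
    have := classInner_irr_self χ.2
    unfold classInner at this
    rw [← Finset.mul_sum, mul_left_comm, this, mul_one]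
  rw [h1, Finset.sum_congr rfl fun χ _ => h2 χ, ← Finset.mul_sum, Finset.sum_comm]
  congr 1
  rw [Finset.sum_congr rfl fun g _ => weighted_sq hN ψ hfaith g, ← Finset.mul_sum]

theorem Sp_mul (hN : N ≤ Subgroup.center G) {g : G} (hg : Sp N g) (n : N) : Sp N (g * n) := by
  intro x hx
  have e : x⁻¹ * (g * n)⁻¹ * x * (g * n) = x⁻¹ * g⁻¹ * x * g := by
    have h1 := central_comm hN n (x⁻¹ * g⁻¹ * x * g)
    calc x⁻¹ * (g * n)⁻¹ * x * (g * n) = x⁻¹ * (n : G)⁻¹ * (g⁻¹ * x * g) * n := by group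
      _ = (n : G)⁻¹ * x⁻¹ * (g⁻¹ * x * g) * n := by
          have : x⁻¹ * (n : G)⁻¹ = (n : G)⁻¹ * x⁻¹ := by
            rw [← mul_inv_rev, ← mul_inv_rev, central_comm hN n x]
          rw [this]
      _ = (n : G)⁻¹ * ((x⁻¹ * g⁻¹ * x * g) * n) := by group
      _ = (n : G)⁻¹ * (n * (x⁻¹ * g⁻¹ * x * g)) := by rw [h1]
      _ = _ := by group
  rw [e] at hx
  have h2 := hg x hx
  calc x * (g * n) = (x * g) * n := by group
    _ = g * (x * n) := by rw [h2]; group
    _ = g * (n * x) := by rw [central_comm hN n x]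
    _ = _ := by group

theorem Sp_conj {g : G} (hg : Sp N g) (y : G) : Sp N (y * g * y⁻¹) := by
  intro x hx
  have h1 : (y⁻¹ * x * y)⁻¹ * g⁻¹ * (y⁻¹ * x * y) * g ∈ N := by
    have := hNn.conj_mem _ hx y⁻¹
    have e : y⁻¹ * (x⁻¹ * (y * g * y⁻¹)⁻¹ * x * (y * g * y⁻¹)) * y⁻¹⁻¹ =
        (y⁻¹ * x * y)⁻¹ * g⁻¹ * (y⁻¹ * x * y) * g := by group
    rwa [e] at this
  have h2 := hg _ h1
  calc x * (y * g * y⁻¹) = y * ((y⁻¹ * x * y) * g) * y⁻¹ := by group
    _ = y * (g * (y⁻¹ * x * y)) * y⁻¹ := by rw [h2]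
    _ = _ := by group

/-- the predicate on the quotient -/
def PP (N : Subgroup G) [N.Normal] (q : G ⧸ N) : Prop := ∃ g : G, (g : G ⧸ N) = q ∧ Sp N g

theorem PP_mk (hN : N ≤ Subgroup.center G) (g : G) : PP N (g : G ⧸ N) ↔ Sp N g := by
  constructor
  · rintro ⟨g', he, hg'⟩
    have h1 : g'⁻¹ * g ∈ N := QuotientGroup.eq.mp he
    have := Sp_mul hN hg' ⟨_, h1⟩
    simpa using this
  · intro h
    exact ⟨g, rfl, h⟩

theorem PP_conj (q y : G ⧸ N) : PP N (y * q * y⁻¹) ↔ PP N q := by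
  obtain ⟨y, rfl⟩ := QuotientGroup.mk_surjective y
  constructor
  · rintro ⟨g, he, hg⟩
    refine ⟨y⁻¹ * g * y⁻¹⁻¹, ?_, Sp_conj hg y⁻¹⟩
    rw [QuotientGroup.mk_mul, QuotientGroup.mk_mul, he]
    simp only [QuotientGroup.mk_inv]
    group
  · rintro ⟨g, rfl, hg⟩
    exact ⟨y * g * y⁻¹, by simp, Sp_conj hg y⟩

theorem index_centralizer_of_Sp {g : G} (hg : Sp N g) :
    (Subgroup.centralizer ({(g : G ⧸ N)} : Set (G ⧸ N))).index =
      (Subgroup.centralizer ({g} : Set G)).index := by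
  have h1 : (Subgroup.centralizer ({(g : G ⧸ N)} : Set (G ⧸ N))).comap (QuotientGroup.mk' N) =
      Subgroup.centralizer ({g} : Set G) := by
    ext x
    rw [Subgroup.mem_comap, Subgroup.mem_centralizer_singleton_iff,
      Subgroup.mem_centralizer_singleton_iff]
    constructor
    · intro h
      apply hg
      have h2 : ((x * g : G) : G ⧸ N) = ((g * x : G) : G ⧸ N) := h
      have h3 := QuotientGroup.eq.mp h2.symm
      have e : (g * x)⁻¹ * (x * g) = x⁻¹ * g⁻¹ * x * g := by group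
      rwa [e] at h3
    · intro h
      change ((x * g : G) : G ⧸ N) = ((g * x : G) : G ⧸ N)
      rw [h]
  rw [← h1, Subgroup.index_comap_of_surjective _ (QuotientGroup.mk'_surjective N)]

theorem rhs_count (hN : N ≤ Subgroup.center G) :
    (Nat.card {C : ConjClasses (G ⧸ N) // ∃ g : G, ConjClasses.mk (g : G ⧸ N) = C ∧
      ∀ x : G, x⁻¹ * g⁻¹ * x * g ∈ N → x * g = g * x} : ℂ) =
      (Nat.card G : ℂ)⁻¹ * ((Nat.card N : ℂ)⁻¹ * ∑ g : G, (if Sp N g then
        (Nat.card (Subgroup.centralizer ({g} : Set G)) : ℂ) else 0)) := by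
  haveI : Fintype (G ⧸ N) := Fintype.ofFinite _
  have hcN : (Nat.card N : ℂ) ≠ 0 := by exact_mod_cast Nat.card_pos.ne'
  have hcG : (Nat.card G : ℂ) ≠ 0 := by exact_mod_cast Nat.card_pos.ne'
  have hcQ : (Nat.card (G ⧸ N) : ℂ) ≠ 0 := by exact_mod_cast Nat.card_pos.ne'
  have h1 := sum_card_centralizer (G := G ⧸ N) (PP N) (fun q y => PP_conj q y)
  have h2 : Nat.card {C : ConjClasses (G ⧸ N) // ∃ g : G, ConjClasses.mk (g : G ⧸ N) = C ∧
      ∀ x : G, x⁻¹ * g⁻¹ * x * g ∈ N → x * g = g * x} =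
      Nat.card {c : ConjClasses (G ⧸ N) // PP N (rep c)} := by
    apply Nat.card_congr
    apply Equiv.subtypeEquivRight
    intro c
    constructor
    · rintro ⟨g, rfl, hg⟩
      obtain ⟨y, hy⟩ := isConj_iff.mp (isConj_rep (g : G ⧸ N))
      rw [← hy, PP_conj]
      exact ⟨g, rfl, hg⟩
    · rintro ⟨g, he, hg⟩
      exact ⟨g, by rw [he, mk_rep], hg⟩
  have h3 := sum_comp_mk N (fun q : G ⧸ N => (if PP N q then
    (Nat.card (Subgroup.centralizer ({q} : Set (G ⧸ N))) : ℂ) else 0))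
  have h4 : ∀ g : G, (if PP N (g : G ⧸ N) then
      (Nat.card (Subgroup.centralizer ({(g : G ⧸ N)} : Set (G ⧸ N))) : ℂ) else 0) =
      (Nat.card N : ℂ)⁻¹ * (if Sp N g then
        (Nat.card (Subgroup.centralizer ({g} : Set G)) : ℂ) else 0) := by
    intro g
    by_cases hg : Sp N g
    · rw [if_pos ((PP_mk hN g).mpr hg), if_pos hg]
      have e1 := (Subgroup.centralizer ({(g : G ⧸ N)} : Set (G ⧸ N))).card_mul_index
      have e2 := (Subgroup.centralizer ({g} : Set G)).card_mul_index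
      have e3 := N.card_mul_index
      rw [index_centralizer_of_Sp hg] at e1
      rw [Subgroup.index_eq_card] at e3
      have hidx : ((Subgroup.centralizer ({g} : Set G)).index : ℂ) ≠ 0 := by
        exact_mod_cast Subgroup.index_ne_zero_of_finite
      have e1' : (Nat.card (Subgroup.centralizer ({(g : G ⧸ N)} : Set (G ⧸ N))) : ℂ) *
          ((Subgroup.centralizer ({g} : Set G)).index : ℂ) = (Nat.card (G ⧸ N) : ℂ) := by
        exact_mod_cast e1
      have e2' : (Nat.card (Subgroup.centralizer ({g} : Set G)) : ℂ) *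
          ((Subgroup.centralizer ({g} : Set G)).index : ℂ) = (Nat.card G : ℂ) := by
        exact_mod_cast e2
      have e3' : (Nat.card N : ℂ) * (Nat.card (G ⧸ N) : ℂ) = (Nat.card G : ℂ) := by
        exact_mod_cast e3
      apply mul_right_cancel₀ hidx
      rw [e1', mul_assoc, e2', ← e3']
      field_simp
    · rw [if_neg (fun h => hg ((PP_mk hN g).mp h)), if_neg hg, mul_zero]
  rw [Finset.sum_congr rfl fun g _ => h4 g, h1, ← Finset.mul_sum, nsmul_eq_mul] at h3
  rw [h2]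
  have e3 := N.card_mul_index
  rw [Subgroup.index_eq_card] at e3
  have e3' : (Nat.card N : ℂ) * (Nat.card (G ⧸ N) : ℂ) = (Nat.card G : ℂ) := by
    exact_mod_cast e3
  rw [h3, ← e3']
  field_simp

theorem main (hN : N ≤ Subgroup.center G) (ψ : IrrCharacter N)
    (hfaith : ∀ n : N, (ψ : N → ℂ) n = (ψ : N → ℂ) 1 → n = 1) :
    Nat.card {χ : IrrCharacter G //
      classInner (fun n : N => (χ : G → ℂ) n) (ψ : N → ℂ) ≠ 0} =
    Nat.card {C : ConjClasses (G ⧸ N) // ∃ g : G, ConjClasses.mk (g : G ⧸ N) = C ∧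
      ∀ x : G, x⁻¹ * g⁻¹ * x * g ∈ N → x * g = g * x} := by
  have h := (lhs_count hN ψ hfaith).trans (rhs_count hN).symm
  exact_mod_cast h

end Cfsg.Agent.Lib.CentralCount
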