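import Mathlib
import Cfsg.Prelude.Def_Characters
import Cfsg.Prelude.Def_Transfer
import Cfsg.Agent.Lib.CharGallagher
import Cfsg.Agent.Lib.CharQuot

/-!
# Characters vanishing on all but two conjugacy classes (Gagola)
-/

set_option autoImplicit false

namespace Cfsg.Agent.Lib.CharGagola

open Cfsg Representation Module Cfsg.Agent.Lib.CharBasic Cfsg.Agent.Lib.CharOrtho
  Cfsg.Agent.Lib.CharComplete Cfsg.Agent.Lib.CharIntegral Cfsg.Agent.Lib.CharMore
  Cfsg.Agent.Lib.CharInd Cfsg.Agent.Lib.CharGallagher Cfsg.Agent.Lib.CharQuot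
open scoped ComplexConjugate

universe u v

variable {G : Type u} [Group G]

/-- Unpack the hypothesis "nonzero on exactly two classes". -/
theorem exists_x [Finite G] (χ : IrrCharacter G)
    (hχ : Nat.card {C : ConjClasses G // ∃ g ∈ C.carrier, (χ : G → ℂ) g ≠ 0} = 2) :
    ∃ x : G, x ≠ 1 ∧ (χ : G → ℂ) x ≠ 0 ∧ ∀ g : G, (χ : G → ℂ) g ≠ 0 → g = 1 ∨ IsConj x g := by
  have h1 : (χ : G → ℂ) 1 ≠ 0 := irr_degree_ne_zero χ.2
  let c₁ : {C : ConjClasses G // ∃ g ∈ C.carrier, (χ : G → ℂ) g ≠ 0} :=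
    ⟨ConjClasses.mk 1, 1, ConjClasses.mem_carrier_mk, h1⟩
  obtain ⟨⟨C, x, hxC, hx0⟩, hne, huniq⟩ := (Nat.card_eq_two_iff' c₁).mp hχ
  have hC : ConjClasses.mk x = C := ConjClasses.mem_carrier_iff_mk_eq.mp hxC
  refine ⟨x, ?_, hx0, ?_⟩
  · rintro rfl
    exact hne (Subtype.ext hC.symm)
  · intro g hg
    by_cases hg1 : g = 1
    · exact Or.inl hg1
    · right
      have h2 := huniq ⟨ConjClasses.mk g, g, ConjClasses.mem_carrier_mk, hg⟩ (by
        intro h
        have h3 : ConjClasses.mk g = ConjClasses.mk 1 := congrArg Subtype.val h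
        rw [ConjClasses.mk_eq_mk_iff_isConj] at h3
        exact hg1 (isConj_one_left.mp h3))
      have h3 : ConjClasses.mk g = C := congrArg Subtype.val h2
      rw [← hC, ConjClasses.mk_eq_mk_iff_isConj] at h3
      exact h3.symm

variable [Fintype G]

open scoped Classical in
/-- Sum of a class function supported on `{1} ∪ cl(x)`. -/
theorem sum_two_classes {x : G} (hx1 : x ≠ 1) (F : G → ℂ) (hF : IsClassFunction G F)
    (hsupp : ∀ g : G, F g ≠ 0 → g = 1 ∨ IsConj x g) :
    ∑ g : G, F g = F 1 + ((Finset.univ.filter fun g : G => IsConj x g).card : ℂ) * F x := by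
  rw [← Finset.add_sum_erase Finset.univ F (Finset.mem_univ 1)]
  congr 1
  have h1 : ∑ g ∈ Finset.univ.filter (fun g : G => IsConj x g), F g =
      ((Finset.univ.filter fun g : G => IsConj x g).card : ℂ) * F x := by
    rw [Finset.sum_congr rfl (fun g hg => by
      obtain ⟨c, rfl⟩ := isConj_iff.mp (Finset.mem_filter.mp hg).2
      exact hF x c : ∀ g ∈ Finset.univ.filter (fun g : G => IsConj x g), F g = F x)]
    rw [Finset.sum_const, nsmul_eq_mul]
  rw [← h1]
  symm
  apply Finset.sum_subset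
  · intro g hg
    rw [Finset.mem_erase]
    refine ⟨?_, Finset.mem_univ _⟩
    rintro rfl
    exact hx1 (isConj_one_left.mp (Finset.mem_filter.mp hg).2)
  · intro g hg hng
    by_contra h0
    rcases hsupp g h0 with h | h
    · exact (Finset.mem_erase.mp hg).1 h
    · exact hng (Finset.mem_filter.mpr ⟨Finset.mem_univ _, h⟩)

/-- A group in which all nonidentity elements are conjugate has order at most `2`. -/
theorem card_le_two_of_conj {x : G} (h : ∀ g : G, g = 1 ∨ IsConj x g) : Nat.card G ≤ 2 := by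
  classical
  by_cases hx1 : x = 1
  · have : ∀ g : G, g = 1 := by
      intro g
      rcases h g with h | h
      · exact h
      · rw [hx1] at h
        exact (isConj_one_right.mp h)
    haveI : Subsingleton G := ⟨fun a b => (this a).trans (this b).symm⟩
    have : Nat.card G = 1 := Nat.card_eq_one_iff_unique.mpr ⟨inferInstance, ⟨1⟩⟩
    omega
  have h1 := MulAction.index_stabilizer (ConjAct G) x
  have h2 : MulAction.orbit (ConjAct G) x = ({1} : Set G)ᶜ := by
    ext g
    rw [ConjAct.mem_orbit_conjAct, Set.mem_compl_iff, Set.mem_singleton_iff]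
    constructor
    · rintro hc rfl
      exact hx1 (isConj_one_right.mp hc)
    · intro hg
      rcases h g with h | h
      · exact absurd h hg
      · exact h.symm
  rw [h2, Set.ncard_compl, Set.ncard_singleton] at h1
  have h3 : (MulAction.stabilizer (ConjAct G) x).index ∣ Nat.card (ConjAct G) :=
    Subgroup.index_dvd_card _
  have h4 : Nat.card (ConjAct G) = Nat.card G := rfl
  rw [h1, h4] at h3
  have hpos : 0 < Nat.card G := Nat.card_pos
  have h5 : Nat.card G - 1 ∣ 1 := by
    have h6 : Nat.card G - 1 ∣ Nat.card G - (Nat.card G - 1) := Nat.dvd_sub h3 dvd_rfl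
    have h7 : Nat.card G - (Nat.card G - 1) = 1 := by omega
    rwa [h7] at h6
  have := Nat.le_of_dvd one_pos h5
  omega

section main

variable (χ : IrrCharacter G) {x : G} (hG : 2 < Nat.card G) (hx1 : x ≠ 1)
  (hx0 : (χ : G → ℂ) x ≠ 0) (hvan : ∀ g : G, (χ : G → ℂ) g ≠ 0 → g = 1 ∨ IsConj x g)

include hG hvan in
theorem ne_one : (χ : G → ℂ) ≠ 1 := by
  intro h
  have := card_le_two_of_conj (x := x) (fun g => hvan g (by rw [h]; simp))
  omega

open scoped Classical in
include hx1 hvan in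
theorem inner_formula (ψ : IrrCharacter G) :
    (Nat.card G : ℂ) * classInner (χ : G → ℂ) (ψ : G → ℂ) =
      (χ : G → ℂ) 1 * conj ((ψ : G → ℂ) 1) +
        ((Finset.univ.filter fun g : G => IsConj x g).card : ℂ) *
          ((χ : G → ℂ) x * conj ((ψ : G → ℂ) x)) := by
  have hGc : (Nat.card G : ℂ) ≠ 0 := by exact_mod_cast Nat.card_pos.ne'
  unfold classInner
  rw [mul_inv_cancel_left₀ hGc]
  apply sum_two_classes hx1 (fun g => (χ : G → ℂ) g * conj ((ψ : G → ℂ) g))
  · intro g h
    simp only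
    rw [isClassFunction_of_isCharacter (isCharacter_of_isIrr χ.2),
      isClassFunction_of_isCharacter (isCharacter_of_isIrr ψ.2)]
  · intro g hg
    exact hvan g (left_ne_zero_of_mul hg)

open scoped Classical in
include hG hx1 hvan in
theorem degree_relation : (χ : G → ℂ) 1 +
    ((Finset.univ.filter fun g : G => IsConj x g).card : ℂ) * (χ : G → ℂ) x = 0 := by
  have h := inner_formula χ hx1 hvan ⟨1, isIrr_one⟩
  rw [classInner_irr_ne χ.2 isIrr_one (ne_one χ hG hvan), mul_zero] at h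
  simpa using h.symm

include hG hx1 hvan in
/-- Every other irreducible character has `x` in its kernel. -/
theorem other_ker (ψ : IrrCharacter G) (hψ : ψ ≠ χ) : (ψ : G → ℂ) x = (ψ : G → ℂ) 1 := by
  classical
  have h := inner_formula χ hx1 hvan ψ
  rw [classInner_irr_ne χ.2 ψ.2 (fun h => hψ (Subtype.ext h.symm)), mul_zero] at h
  have h2 := degree_relation χ hG hx1 hvan
  have h3 : (χ : G → ℂ) 1 * (conj ((ψ : G → ℂ) 1) - conj ((ψ : G → ℂ) x)) = 0 := by
    linear_combination -h - conj ((ψ : G → ℂ) x) * h2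
  rcases mul_eq_zero.mp h3 with h4 | h4
  · exact absurd h4 (irr_degree_ne_zero χ.2)
  · have h5 := sub_eq_zero.mp h4
    exact ((starRingEnd ℂ).injective h5).symm

include hG hx1 hvan in
theorem faithful (g : G) (hg : (χ : G → ℂ) g = (χ : G → ℂ) 1) : g = 1 := by
  classical
  have h1 : (χ : G → ℂ) 1 ≠ 0 := irr_degree_ne_zero χ.2
  rcases hvan g (by rw [hg]; exact h1) with h | h
  · exact h
  · exfalso
    obtain ⟨c, rfl⟩ := isConj_iff.mp h
    rw [isClassFunction_of_isCharacter (isCharacter_of_isIrr χ.2)] at hg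
    have h2 := degree_relation χ hG hx1 hvan
    rw [hg] at h2
    have h3 : (χ : G → ℂ) 1 *
        (((1 + (Finset.univ.filter fun g : G => IsConj x g).card : ℕ)) : ℂ) = 0 := by
      push_cast
      linear_combination h2
    rcases mul_eq_zero.mp h3 with h4 | h4
    · exact h1 h4
    · have : 1 + (Finset.univ.filter fun g : G => IsConj x g).card = 0 := by exact_mod_cast h4
      omega

/-- If all irreducible characters other than `χ` have `a`, `b` in their kernels, then `a`, `b` are
conjugate (when nontrivial). -/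
theorem conj_of_other_ker {a b : G} (ha1 : a ≠ 1) (hb1 : b ≠ 1)
    (ha : ∀ ψ : IrrCharacter G, ψ ≠ χ → (ψ : G → ℂ) a = (ψ : G → ℂ) 1)
    (hb : ∀ ψ : IrrCharacter G, ψ ≠ χ → (ψ : G → ℂ) b = (ψ : G → ℂ) 1) : IsConj a b := by
  classical
  rw [isConj_iff_forall_irr]
  have hval : ∀ c : G, c ≠ 1 → (∀ ψ : IrrCharacter G, ψ ≠ χ → (ψ : G → ℂ) c = (ψ : G → ℂ) 1) →
      (χ : G → ℂ) c * conj ((χ : G → ℂ) 1) =
        -∑ ψ ∈ Finset.univ.erase χ, (ψ : G → ℂ) 1 * conj ((ψ : G → ℂ) 1) := by
    intro c hc1 hc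
    have h1 := second_orthogonality_not_conj c 1 (fun h => hc1 (isConj_one_left.mp h))
    rw [← Finset.add_sum_erase Finset.univ _ (Finset.mem_univ χ)] at h1
    have h2 : ∑ ψ ∈ Finset.univ.erase χ, (ψ : G → ℂ) c * conj ((ψ : G → ℂ) 1) =
        ∑ ψ ∈ Finset.univ.erase χ, (ψ : G → ℂ) 1 * conj ((ψ : G → ℂ) 1) := by
      refine Finset.sum_congr rfl fun ψ hψ => ?_
      rw [hc ψ (Finset.mem_erase.mp hψ).1]
    rw [h2] at h1
    exact eq_neg_of_add_eq_zero_left h1
  intro ψ
  by_cases hψ : ψ = χ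
  · subst hψ
    have h0 : conj ((ψ : G → ℂ) 1) ≠ 0 := by
      rw [Ne, map_eq_zero]
      exact irr_degree_ne_zero ψ.2
    exact mul_right_cancel₀ h0 ((hval a ha1 ha).trans (hval b hb1 hb).symm)
  · rw [ha ψ hψ, hb ψ hψ]

/-- The intersection of the kernels of the other irreducible characters. -/
noncomputable def core : Subgroup G :=
  ⨅ ψ : {ψ : IrrCharacter G // ψ ≠ χ}, charKer (ψ.1 : G → ℂ) (isCharacter_of_isIrr ψ.1.2)

theorem mem_core (g : G) :
    g ∈ core χ ↔ ∀ ψ : IrrCharacter G, ψ ≠ χ → (ψ : G → ℂ) g = (ψ : G → ℂ) 1 := by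
  unfold core
  rw [Subgroup.mem_iInf]
  constructor
  · intro h ψ hψ
    exact h ⟨ψ, hψ⟩
  · intro h ψ
    exact h ψ.1 ψ.2

instance core_normal : (core χ).Normal := by
  unfold core
  exact Subgroup.normal_iInf_normal fun ψ => inferInstance

include hG hx1 hx0 hvan in
theorem gagola :
    (core χ) ≠ ⊥ ∧ (∀ K : Subgroup G, K.Normal → K ≠ ⊥ → core χ ≤ K) ∧
      (∃ p : ℕ, p.Prime ∧ IsElementaryAbelian p (core χ)) ∧
      (∀ g : G, (χ : G → ℂ) g ≠ 0 ↔ g ∈ core χ) ∧
      (∀ a ∈ core χ, ∀ b ∈ core χ, a ≠ 1 → b ≠ 1 → ∃ g : G, g * a * g⁻¹ = b) := by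
  classical
  have hxN : x ∈ core χ := (mem_core χ x).mpr (other_ker χ hG hx1 hvan)
  have hne : core χ ≠ ⊥ := by
    intro h
    rw [h, Subgroup.mem_bot] at hxN
    exact hx1 hxN
  have hconj : ∀ a ∈ core χ, ∀ b ∈ core χ, a ≠ 1 → b ≠ 1 → IsConj a b := by
    intro a ha b hb ha1 hb1
    exact conj_of_other_ker χ ha1 hb1 ((mem_core χ a).mp ha) ((mem_core χ b).mp hb)
  have hcl := isClassFunction_of_isCharacter (isCharacter_of_isIrr χ.2)
  have hiff : ∀ g : G, (χ : G → ℂ) g ≠ 0 ↔ g ∈ core χ := by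
    intro g
    constructor
    · intro hg
      rcases hvan g hg with rfl | h
      · exact (core χ).one_mem
      · obtain ⟨c, rfl⟩ := isConj_iff.mp h
        exact (core_normal χ).conj_mem x hxN c
    · intro hg
      by_cases hg1 : g = 1
      · rw [hg1]; exact irr_degree_ne_zero χ.2
      · obtain ⟨c, rfl⟩ := isConj_iff.mp (hconj x hxN g hg hx1 hg1)
        rw [hcl]; exact hx0
  refine ⟨hne, ?_, ?_, hiff, fun a ha b hb ha1 hb1 => isConj_iff.mp (hconj a ha b hb ha1 hb1)⟩
  · intro K hK hK1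
    haveI : Fintype K := Fintype.ofFinite K
    -- some nonidentity element of `K` has nonzero value
    have hex : ∃ k ∈ K, k ≠ 1 ∧ (χ : G → ℂ) k ≠ 0 := by
      by_contra hcon
      push Not at hcon
      obtain ⟨k', hk'⟩ := Subgroup.ne_bot_iff_exists_ne_one.mp hK1
      obtain ⟨k, hk, hk1⟩ : ∃ k ∈ K, k ≠ 1 := ⟨k'.1, k'.2, fun h => hk' (Subtype.ext h)⟩
      have h1 : classInner (indFun K (1 : K → ℂ)) (χ : G → ℂ) ≠ 0 := by
        rw [frobenius_reciprocity K _ _ hcl]
        unfold classInner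
        rw [Finset.sum_eq_single (1 : K)]
        · simp only [Pi.one_apply, one_mul, Subgroup.coe_one]
          apply mul_ne_zero
          · exact inv_ne_zero (by exact_mod_cast Nat.card_pos.ne')
          · rw [Ne, map_eq_zero]; exact irr_degree_ne_zero χ.2
        · intro b _ hb
          show _ * conj ((χ : G → ℂ) (b : G)) = 0
          rw [hcon b b.2 (fun h => hb (Subtype.ext h)), map_zero, mul_zero]
        · intro h; exact absurd (Finset.mem_univ _) h
      have h2 := (classInner_ind_one_ne_zero_iff K hK χ.2).mp h1 k hk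
      rw [hcon k hk hk1] at h2
      exact irr_degree_ne_zero χ.2 h2.symm
    obtain ⟨k, hk, hk1, hk0⟩ := hex
    have hkN := (hiff k).mp hk0
    intro a ha
    by_cases ha1 : a = 1
    · rw [ha1]; exact K.one_mem
    · obtain ⟨c, rfl⟩ := isConj_iff.mp (hconj k hkN a ha hk1 ha1)
      exact hK.conj_mem k hk c
  · have hN1 : Nat.card (core χ) ≠ 1 := by
      intro h
      exact hne ((Subgroup.card_eq_one).mp h)
    obtain ⟨p, hp, hpd⟩ := Nat.exists_prime_and_dvd hN1
    haveI : Fact p.Prime := ⟨hp⟩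
    obtain ⟨k₀, hk₀⟩ := exists_prime_orderOf_dvd_card' (G := core χ) p hpd
    have hk₀1 : (k₀ : G) ≠ 1 := by
      intro h
      have : k₀ = 1 := Subtype.ext h
      rw [this, orderOf_one] at hk₀
      exact hp.one_lt.ne hk₀
    have hk₀p : (k₀ : G) ^ p = 1 := by
      have := pow_orderOf_eq_one k₀
      rw [hk₀] at this
      have := congrArg Subtype.val this
      simpa using this
    have hpow : ∀ a ∈ core χ, a ^ p = 1 := by
      intro a ha
      by_cases ha1 : a = 1
      · rw [ha1, one_pow]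
      · obtain ⟨c, rfl⟩ := isConj_iff.mp (hconj k₀ k₀.2 a ha hk₀1 ha1)
        rw [conj_pow, hk₀p]
        simp
    refine ⟨p, hp, ⟨⟨fun a b => ?_⟩⟩, hpow⟩
    have hPG : IsPGroup p (core χ) := by
      intro a
      refine ⟨1, ?_⟩
      apply Subtype.ext
      simpa using hpow a a.2
    haveI : Nontrivial (core χ) := (Subgroup.nontrivial_iff_ne_bot _).mpr hne
    haveI := hPG.center_nontrivial
    obtain ⟨z, hz⟩ := exists_ne (1 : Subgroup.center (core χ))
    have hz1 : ((z : core χ) : G) ≠ 1 := fun h => hz (Subtype.ext (Subtype.ext h))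
    have hzc : ∀ b ∈ core χ, b * ((z : core χ) : G) = ((z : core χ) : G) * b := by
      intro b hb
      exact congrArg Subtype.val (Subgroup.mem_center_iff.mp z.2 ⟨b, hb⟩)
    have hall : ∀ a ∈ core χ, ∀ b ∈ core χ, b * a = a * b := by
      intro a ha b hb
      by_cases ha1 : a = 1
      · rw [ha1]; simp
      · obtain ⟨c, rfl⟩ := isConj_iff.mp (hconj _ z.1.2 a ha hz1 ha1)
        have h1 := hzc (c⁻¹ * b * c) (by
          have := (core_normal χ).conj_mem b hb c⁻¹
          simpa using this)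
        calc b * (c * ((z : core χ) : G) * c⁻¹)
            = c * ((c⁻¹ * b * c) * ((z : core χ) : G)) * c⁻¹ := by group
          _ = c * (((z : core χ) : G) * (c⁻¹ * b * c)) * c⁻¹ := by rw [h1]
          _ = c * ((z : core χ) : G) * c⁻¹ * b := by group
    exact Subtype.ext (hall b b.2 a a.2)

end main

end Cfsg.Agent.Lib.CharGagola
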