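import Mathlib
import Cfsg.Prelude.Def_Solvable
import Cfsg.Agent.S0200
import Cfsg.Agent.Lib.Helper4_Core

/-!
# Group theory of Camina-type pairs coming from Gagola characters
-/

set_option autoImplicit false

namespace Cfsg.Agent.Lib.CharGagola2

open Cfsg
open scoped Pointwise

universe u

variable {G : Type u} [Group G]

/-- The group-theoretic consequences of having a character vanishing on all but two classes. -/
structure Hyp (p : ℕ) (N : Subgroup G) : Prop where
  pgroup : IsPGroup p N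
  ne_bot : N ≠ ⊥
  conj : ∀ a ∈ N, ∀ b ∈ N, a ≠ 1 → b ≠ 1 → IsConj a b
  cam : ∀ g, g ∉ N → ∀ n ∈ N, IsConj g (g * n)
  comm : ∀ a ∈ N, ∀ b ∈ N, a * b = b * a
  exp : ∀ a ∈ N, a ^ p = 1
  big : 2 < Nat.card G

variable [Finite G] {p : ℕ} [hp : Fact p.Prime] {N : Subgroup G} [hNn : N.Normal]

theorem exists_ne_one (h : Hyp p N) : ∃ x ∈ N, x ≠ 1 := by
  obtain ⟨k', hk'⟩ := Subgroup.ne_bot_iff_exists_ne_one.mp h.ne_bot
  exact ⟨k'.1, k'.2, fun h => hk' (Subtype.ext h)⟩

theorem centralizer_isPGroup (h : Hyp p N) {y : G} (hy : y ∈ N) (hy1 : y ≠ 1) :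
    IsPGroup p (Subgroup.centralizer ({y} : Set G)) := by
  have key : ∀ {q : ℕ}, q.Prime → q ∣ Nat.card (Subgroup.centralizer ({y} : Set G)) → q = p := by
    intro q hq hqd
    by_contra hne
    haveI : Fact q.Prime := ⟨hq⟩
    obtain ⟨z, hz⟩ := exists_prime_orderOf_dvd_card' (G := Subgroup.centralizer ({y} : Set G)) q hqd
    have hzo : orderOf (z : G) = q := by rw [Subgroup.orderOf_coe]; exact hz
    have hzy : (z : G) * y = y * z := (Subgroup.mem_centralizer_singleton_iff.mp z.2)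
    have hzN : (z : G) ∉ N := by
      intro hzN
      obtain ⟨k, hk⟩ := h.pgroup ⟨z, hzN⟩
      have h1 : (z : G) ^ (p ^ k) = 1 := by simpa using congrArg Subtype.val hk
      have h2 := orderOf_dvd_of_pow_eq_one h1
      rw [hzo] at h2
      exact hne ((Nat.prime_dvd_prime_iff_eq hq hp.out).mp (hq.dvd_of_dvd_pow h2))
    obtain ⟨c, hc⟩ := isConj_iff.mp (h.cam z hzN y hy)
    have h1 : ((z : G) * y) ^ q = 1 := by
      rw [← hc, conj_pow, ← hzo, pow_orderOf_eq_one]
      simp
    have hcomm : Commute (z : G) y := hzy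
    rw [hcomm.mul_pow, ← hzo, pow_orderOf_eq_one, one_mul, hzo] at h1
    have h2 := orderOf_dvd_of_pow_eq_one h1
    have h3 := orderOf_dvd_of_pow_eq_one (h.exp y hy)
    have h4 : orderOf y ∣ 1 := by
      have := Nat.dvd_gcd h2 h3
      rwa [(Nat.coprime_primes hq hp.out).mpr hne] at this
    exact hy1 (orderOf_eq_one_iff.mp (Nat.dvd_one.mp h4))
  exact IsPGroup.of_card (Nat.eq_prime_pow_of_unique_prime_dvd Nat.card_pos.ne' key)

theorem centralizer_le (h : Hyp p N) (hcore : N = pCore p G) :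
    Subgroup.centralizer (N : Set G) ≤ N := by
  obtain ⟨x, hx, hx1⟩ := exists_ne_one h
  have h1 : IsPGroup p (Subgroup.centralizer (N : Set G)) :=
    (centralizer_isPGroup h hx hx1).to_le
      (Subgroup.centralizer_le (Set.singleton_subset_iff.mpr hx))
  have h2 := Cfsg.Agent.Lib.Helper4_Core.le_pCore (Subgroup.normal_centralizer) h1
  rwa [← hcore] at h2

/-- If `c` has trivial centralizer in `N`, then `n' ↦ c⁻¹ n' c n'⁻¹` is onto `N`. -/
theorem exists_comm_eq {c : G} (hc : ∀ y ∈ N, y * c = c * y → y = 1) (n : G) (hn : n ∈ N) :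
    ∃ n' ∈ N, c⁻¹ * n' * c * n'⁻¹ = n := by
  let f : N → N := fun m => ⟨c⁻¹ * m * c * (m : G)⁻¹, by
    apply N.mul_mem _ (N.inv_mem m.2)
    have := hNn.conj_mem m m.2 c⁻¹
    simpa using this⟩
  have hinj : Function.Injective f := by
    intro a b hab
    have h1 : c⁻¹ * a * c * (a : G)⁻¹ = c⁻¹ * b * c * (b : G)⁻¹ := congrArg Subtype.val hab
    have h2 : ((b : G)⁻¹ * a) * c = c * ((b : G)⁻¹ * a) := by
      have h3 : (a : G) * c * (a : G)⁻¹ = b * c * (b : G)⁻¹ := by
        have := congrArg (fun t => c * t) h1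
        simpa [mul_assoc] using this
      calc ((b : G)⁻¹ * a) * c = (b : G)⁻¹ * ((a : G) * c * (a : G)⁻¹) * a := by group
        _ = (b : G)⁻¹ * (b * c * (b : G)⁻¹) * a := by rw [h3]
        _ = c * ((b : G)⁻¹ * a) := by group
    have h4 := hc _ (N.mul_mem (N.inv_mem b.2) a.2) h2
    apply Subtype.ext
    exact (inv_mul_eq_one.mp h4).symm
  obtain ⟨m, hm⟩ := (Finite.injective_iff_surjective.mp hinj) ⟨n, hn⟩
  exact ⟨m, m.2, congrArg Subtype.val hm⟩

section complement

variable {H : Subgroup G}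

theorem conj_by_N (h : Hyp p N) (hHN : ∀ g ∈ H, g ∈ N → g = 1)
    (hgen : ∀ g : G, ∃ m ∈ N, ∃ k ∈ H, g = m * k) {k : G} (hk : k ∈ H) (hk1 : k ≠ 1)
    (n : G) (hn : n ∈ N) : ∃ m ∈ N, m * k * m⁻¹ = k * n := by
  have hkN : k ∉ N := fun hh => hk1 (hHN k hk hh)
  obtain ⟨c, hc⟩ := isConj_iff.mp (h.cam k hkN n hn)
  obtain ⟨m, hm, k', hk', rfl⟩ := hgen c
  refine ⟨m, hm, ?_⟩
  set k₁ := k' * k * k'⁻¹ with hk₁
  have hk₁H : k₁ ∈ H := H.mul_mem (H.mul_mem hk' hk) (H.inv_mem hk')
  have h1 : m * k₁ * m⁻¹ = k * n := by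
    rw [← hc, hk₁]; group
  have h2 : k₁⁻¹ * k = (k₁⁻¹ * m * k₁) * m⁻¹ * n⁻¹ := by
    have : k = m * k₁ * m⁻¹ * n⁻¹ := by rw [h1]; group
    calc k₁⁻¹ * k = k₁⁻¹ * (m * k₁ * m⁻¹ * n⁻¹) := by rw [← this]
      _ = _ := by group
  have h3 : k₁⁻¹ * k ∈ N := by
    rw [h2]
    apply N.mul_mem (N.mul_mem _ (N.inv_mem hm)) (N.inv_mem hn)
    have := hNn.conj_mem m hm k₁⁻¹
    simpa using this
  have h4 := hHN _ (H.mul_mem (H.inv_mem hk₁H) hk) h3
  have h5 : k₁ = k := (inv_mul_eq_one.mp h4)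
  rw [← h1, h5]

theorem cent_trivial (h : Hyp p N) (hHN : ∀ g ∈ H, g ∈ N → g = 1)
    (hgen : ∀ g : G, ∃ m ∈ N, ∃ k ∈ H, g = m * k) {k : G} (hk : k ∈ H) (hk1 : k ≠ 1)
    (m : G) (hm : m ∈ N) (hmk : m * k = k * m) : m = 1 := by
  let f : N → N := fun m => ⟨k⁻¹ * m * k * (m : G)⁻¹, by
    apply N.mul_mem _ (N.inv_mem m.2)
    have := hNn.conj_mem m m.2 k⁻¹
    simpa using this⟩
  have hsurj : Function.Surjective f := by
    intro n
    obtain ⟨m, hm, hmn⟩ := conj_by_N h hHN hgen hk hk1 n n.2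
    refine ⟨⟨m, hm⟩, Subtype.ext ?_⟩
    show k⁻¹ * m * k * m⁻¹ = n
    calc k⁻¹ * m * k * m⁻¹ = k⁻¹ * (m * k * m⁻¹) := by group
      _ = n := by rw [hmn]; group
  have hinj := Finite.injective_iff_surjective.mpr hsurj
  have h1 : f ⟨m, hm⟩ = f 1 := by
    apply Subtype.ext
    show k⁻¹ * m * k * m⁻¹ = k⁻¹ * (1 : G) * k * (1 : G)⁻¹
    rw [mul_assoc k⁻¹ m k, hmk]
    group
  exact congrArg Subtype.val (hinj h1)

theorem frobenius_of_complement (h : Hyp p N) (hHN : ∀ g ∈ H, g ∈ N → g = 1)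
    (hgen : ∀ g : G, ∃ m ∈ N, ∃ k ∈ H, g = m * k) :
    IsFrobeniusComplement H ∧ frobeniusKernel H = (N : Set G) ∧ Nat.card H + 1 = Nat.card N := by
  classical
  obtain ⟨x, hx, hx1⟩ := exists_ne_one h
  refine ⟨⟨?_, ?_, ?_⟩, ?_, ?_⟩
  · -- `H ≠ ⊥`
    intro hH
    have hall : ∀ g : G, g ∈ N := by
      intro g
      obtain ⟨m, hm, k, hk, rfl⟩ := hgen g
      rw [hH, Subgroup.mem_bot] at hk
      rw [hk, mul_one]; exact hm
    -- all of `G` is abelian and all nonidentity elements conjugate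
    have h2 : ∀ g : G, g = 1 ∨ g = x := by
      intro g
      by_cases hg : g = 1
      · exact Or.inl hg
      · right
        obtain ⟨c, hc⟩ := isConj_iff.mp (h.conj x hx g (hall g) hx1 hg)
        rw [← hc, h.comm c (hall c) x hx]
        group
    have h3 : Nat.card G ≤ 2 := by
      haveI := Fintype.ofFinite G
      rw [Nat.card_eq_fintype_card]
      calc Fintype.card G = (Finset.univ : Finset G).card := rfl
        _ ≤ ({1, x} : Finset G).card := Finset.card_le_card (by
            intro g _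
            rcases h2 g with h | h <;> simp [h])
        _ ≤ 2 := Finset.card_le_two
    have := h.big
    omega
  · intro hH
    exact hx1 (hHN x (by rw [hH]; trivial) hx)
  · intro g hg
    rw [eq_bot_iff]
    intro k hk
    rw [Subgroup.mem_bot]
    obtain ⟨hk1, hk2⟩ := Subgroup.mem_inf.mp hk
    rw [Subgroup.mem_pointwise_smul_iff_inv_smul_mem] at hk2
    simp only [MulAut.smul_def, MulAut.conj_inv_apply] at hk2
    obtain ⟨m, hm, k', hk', rfl⟩ := hgen g
    by_contra hkne
    -- `m⁻¹ k m ∈ H`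
    have h1 : m⁻¹ * k * m ∈ H := by
      have := H.mul_mem (H.mul_mem hk' hk2) (H.inv_mem hk')
      convert this using 1
      group
    have h2 : k⁻¹ * (m⁻¹ * k * m) ∈ N := by
      have : k⁻¹ * (m⁻¹ * k * m) = (k⁻¹ * m⁻¹ * k) * m := by group
      rw [this]
      apply N.mul_mem _ hm
      have := hNn.conj_mem m⁻¹ (N.inv_mem hm) k⁻¹
      simpa using this
    have h3 := hHN _ (H.mul_mem (H.inv_mem hk1) h1) h2
    have h4 : m * k = k * m := by
      have : k = m⁻¹ * k * m := inv_mul_eq_one.mp h3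
      calc m * k = m * (m⁻¹ * k * m) := by rw [← this]
        _ = k * m := by group
    have h5 := cent_trivial h hHN hgen hk1 hkne m hm h4
    apply hg
    rw [h5, one_mul]; exact hk'
  · ext y
    simp only [frobeniusKernel, Set.mem_setOf_eq, SetLike.mem_coe]
    constructor
    · intro hy
      by_contra hyN
      obtain ⟨m, hm, k, hk, rfl⟩ := hgen y
      have hk1 : k ≠ 1 := by
        rintro rfl
        apply hyN; rw [mul_one]; exact hm
      -- `m * k = k * (k⁻¹ m k)`
      obtain ⟨m', hm', hmk⟩ := conj_by_N h hHN hgen hk hk1 (k⁻¹ * m * k) (by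
        have := hNn.conj_mem m hm k⁻¹
        simpa using this)
      rcases hy with hy | hy
      · apply hyN; rw [hy]; exact N.one_mem
      · apply hy m'
        rw [Subgroup.mem_pointwise_smul_iff_inv_smul_mem]
        simp only [MulAut.smul_def, MulAut.conj_inv_apply]
        have : m * k = m' * k * m'⁻¹ := by rw [hmk]; group
        rw [this]
        convert hk using 1
        group
    · intro hy
      by_cases hy1 : y = 1
      · exact Or.inl hy1
      · right
        intro g hg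
        rw [Subgroup.mem_pointwise_smul_iff_inv_smul_mem] at hg
        simp only [MulAut.smul_def, MulAut.conj_inv_apply] at hg
        have h1 : g⁻¹ * y * g ∈ N := by
          have := hNn.conj_mem y hy g⁻¹
          simpa using this
        have h2 := hHN _ hg h1
        apply hy1
        calc y = g * (g⁻¹ * y * g) * g⁻¹ := by group
          _ = 1 := by rw [h2]; group
  · -- `|H| + 1 = |N|`
    haveI := Fintype.ofFinite H
    haveI := Fintype.ofFinite N
    let f : H → N := fun k => ⟨k * x * (k : G)⁻¹, hNn.conj_mem x hx k⟩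
    have hinj : Function.Injective f := by
      intro a b hab
      have h1 : (a : G) * x * (a : G)⁻¹ = b * x * (b : G)⁻¹ := congrArg Subtype.val hab
      by_contra hne
      have h2 : (b : G)⁻¹ * a ≠ 1 := by
        intro h3
        exact hne (Subtype.ext (inv_mul_eq_one.mp h3).symm)
      have h3 : x * ((b : G)⁻¹ * a) = ((b : G)⁻¹ * a) * x := by
        calc x * ((b : G)⁻¹ * a) = (b : G)⁻¹ * (b * x * (b : G)⁻¹) * a := by group
          _ = (b : G)⁻¹ * ((a : G) * x * (a : G)⁻¹) * a := by rw [h1]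
          _ = _ := by group
      exact hx1 (cent_trivial h hHN hgen (H.mul_mem (H.inv_mem b.2) a.2) h2 x hx h3)
    have himg : Finset.univ.image f = Finset.univ.erase (1 : N) := by
      ext b
      simp only [Finset.mem_image, Finset.mem_univ, true_and, Finset.mem_erase, and_true]
      constructor
      · rintro ⟨k, rfl⟩ hk
        have h1 : (k : G) * x * (k : G)⁻¹ = 1 := congrArg Subtype.val hk
        apply hx1
        calc x = (k : G)⁻¹ * ((k : G) * x * (k : G)⁻¹) * k := by group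
          _ = 1 := by rw [h1]; group
      · intro hb
        have hb1 : (b : G) ≠ 1 := fun hh => hb (Subtype.ext hh)
        obtain ⟨c, hc⟩ := isConj_iff.mp (h.conj x hx b b.2 hx1 hb1)
        obtain ⟨m, hm, k, hk, rfl⟩ := hgen c
        refine ⟨⟨k, hk⟩, Subtype.ext ?_⟩
        show k * x * k⁻¹ = b
        rw [← hc]
        have h1 : k * x * k⁻¹ ∈ N := hNn.conj_mem x hx k
        calc k * x * k⁻¹ = (k * x * k⁻¹) * m * m⁻¹ := by group
          _ = m * (k * x * k⁻¹) * m⁻¹ := by rw [h.comm _ h1 m hm]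
          _ = _ := by group
    have h1 := congrArg Finset.card himg
    rw [Finset.card_image_of_injective _ hinj, Finset.card_erase_of_mem (Finset.mem_univ _),
      Finset.card_univ, Finset.card_univ] at h1
    rw [Nat.card_eq_fintype_card, Nat.card_eq_fintype_card, h1]
    have : 0 < Fintype.card N := Fintype.card_pos
    omega

end complement


/-- Odd `p`: a complement exists (the centralizer of an involution). -/
theorem exists_complement_odd (h : Hyp p N) (hcent : Subgroup.centralizer (N : Set G) ≤ N)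
    (hp2 : p ≠ 2) :
    ∃ H : Subgroup G, (∀ g ∈ H, g ∈ N → g = 1) ∧ ∀ g : G, ∃ m ∈ N, ∃ k ∈ H, g = m * k := by
  obtain ⟨x, hx, hx1⟩ := exists_ne_one h
  have hodd : Odd p := hp.out.odd_of_ne_two hp2
  -- elements of `N` with square one are trivial
  have hsq : ∀ n ∈ N, n ^ 2 = 1 → n = 1 := by
    intro n hn hn2
    have h2 := orderOf_dvd_of_pow_eq_one hn2
    have h3 := orderOf_dvd_of_pow_eq_one (h.exp n hn)
    have h4 : orderOf n ∣ 1 := by
      have := Nat.dvd_gcd h2 h3
      rwa [(Nat.coprime_primes Nat.prime_two hp.out).mpr (Ne.symm hp2)] at this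
    exact orderOf_eq_one_iff.mp (Nat.dvd_one.mp h4)
  have hxinv : x⁻¹ ≠ x := by
    intro hh
    apply hx1
    apply hsq x hx
    rw [pow_two]
    nth_rewrite 1 [← hh]
    exact inv_mul_cancel x
  -- an involution
  obtain ⟨t, ht⟩ : ∃ t : G, orderOf t = 2 := by
    obtain ⟨c, hc⟩ := isConj_iff.mp (h.conj x hx x⁻¹ (N.inv_mem hx) hx1 (inv_ne_one.mpr hx1))
    have heven : 2 ∣ orderOf c := by
      by_contra hnd
      have hoddc : Odd (orderOf c) := Nat.not_even_iff_odd.mp (fun he => hnd he.two_dvd)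
      obtain ⟨k, hk⟩ := hoddc
      -- `c² ` centralizes `x`
      have h2 : c ^ 2 * x * (c ^ 2)⁻¹ = x := by
        calc c ^ 2 * x * (c ^ 2)⁻¹ = c * (c * x * c⁻¹) * c⁻¹ := by rw [pow_two]; group
          _ = c * x⁻¹ * c⁻¹ := by rw [hc]
          _ = (c * x * c⁻¹)⁻¹ := by group
          _ = x := by rw [hc, inv_inv]
      have h3 : Commute (c ^ 2) x := by
        show c ^ 2 * x = x * c ^ 2
        calc c ^ 2 * x = (c ^ 2 * x * (c ^ 2)⁻¹) * c ^ 2 := by group
          _ = x * c ^ 2 := by rw [h2]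
      have h4 : (c ^ 2) ^ (k + 1) = c := by
        rw [← pow_mul]
        have : 2 * (k + 1) = orderOf c + 1 := by omega
        rw [this, pow_succ, pow_orderOf_eq_one, one_mul]
      have h5 : Commute c x := by
        have := h3.pow_left (k + 1)
        rwa [h4] at this
      apply hxinv
      rw [← hc, h5.eq]
      group
    obtain ⟨j, hj⟩ := heven
    refine ⟨c ^ j, ?_⟩
    have hpos : 0 < orderOf c := orderOf_pos c
    rw [orderOf_pow' c (by rintro rfl; omega), hj]
    have : Nat.gcd (2 * j) j = j := Nat.gcd_eq_right (Dvd.intro_left 2 rfl)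
    rw [this]
    exact Nat.mul_div_cancel _ (by rcases Nat.eq_zero_or_pos j with h0 | h0 <;> omega)
  have ht2 : t * t = 1 := by
    have := pow_orderOf_eq_one t
    rwa [ht, pow_two] at this
  have htinv : t⁻¹ = t := inv_eq_of_mul_eq_one_left ht2
  -- `t` inverts `N`
  have hinvt : ∀ n ∈ N, t * n * t⁻¹ = n⁻¹ := by
    intro n hn
    have hn' : t * n * t⁻¹ ∈ N := hNn.conj_mem n hn t
    set w := n * (t * n * t⁻¹) with hw
    have hwN : w ∈ N := N.mul_mem hn hn'
    have hwt : t * w = w * t := by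
      have : t * w * t⁻¹ = w := by
        calc t * w * t⁻¹ = (t * n * t⁻¹) * ((t * t) * n * (t * t)⁻¹) := by rw [hw]; group
          _ = (t * n * t⁻¹) * n := by rw [ht2]; group
          _ = w := by rw [hw, h.comm _ hn' n hn]
      calc t * w = (t * w * t⁻¹) * t := by group
        _ = w * t := by rw [this]
    by_cases hw1 : w = 1
    · exact (eq_inv_of_mul_eq_one_right hw1)
    · exfalso
      have h1 := centralizer_isPGroup h hwN hw1
      obtain ⟨k, hk⟩ := h1 ⟨t, Subgroup.mem_centralizer_singleton_iff.mpr hwt⟩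
      have h2 : t ^ (p ^ k) = 1 := by simpa using congrArg Subtype.val hk
      have h3 := orderOf_dvd_of_pow_eq_one h2
      rw [ht] at h3
      exact hp2 ((Nat.prime_dvd_prime_iff_eq Nat.prime_two hp.out).mp
        (Nat.prime_two.dvd_of_dvd_pow h3)).symm
  refine ⟨Subgroup.centralizer ({t} : Set G), ?_, ?_⟩
  · intro g hg hgN
    rw [Subgroup.mem_centralizer_singleton_iff] at hg
    apply hsq g hgN
    have h1 := hinvt g hgN
    have h2 : t * g * t⁻¹ = g := by rw [← hg]; group
    rw [h2] at h1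
    rw [pow_two]
    nth_rewrite 1 [h1]
    exact inv_mul_cancel g
  · intro g
    set s := g * t * g⁻¹ with hs
    have hinvs : ∀ n ∈ N, s * n * s⁻¹ = n⁻¹ := by
      intro n hn
      have hn' : g⁻¹ * n * g ∈ N := by
        have := hNn.conj_mem n hn g⁻¹
        simpa using this
      calc s * n * s⁻¹ = g * (t * (g⁻¹ * n * g) * t⁻¹) * g⁻¹ := by rw [hs]; group
        _ = g * (g⁻¹ * n * g)⁻¹ * g⁻¹ := by rw [hinvt _ hn']
        _ = n⁻¹ := by group
    have hn₀ : t⁻¹ * s ∈ N := by
      apply hcent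
      rw [Subgroup.mem_centralizer_iff]
      intro n hn
      have h1 := hinvs n hn
      have h2 := hinvt n⁻¹ (N.inv_mem hn)
      rw [inv_inv] at h2
      -- `t⁻¹ s n s⁻¹ t = n`
      have h3 : t⁻¹ * n⁻¹ * t = n := by
        calc t⁻¹ * n⁻¹ * t = t * n⁻¹ * t⁻¹ := by rw [htinv]
          _ = n := h2
      calc n * (t⁻¹ * s) = (t⁻¹ * n⁻¹ * t) * (t⁻¹ * s) := by rw [h3]
        _ = t⁻¹ * n⁻¹ * s := by group
        _ = t⁻¹ * (s * n * s⁻¹) * s := by rw [h1]
        _ = t⁻¹ * s * n := by group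
    set n₀ := t⁻¹ * s with hn₀def
    obtain ⟨j, hj⟩ := hodd
    set m := n₀ ^ j with hm
    have hmN : m ∈ N := N.pow_mem hn₀ j
    have hm2 : m * m * n₀ = 1 := by
      rw [hm, ← pow_add, ← pow_succ]
      have : j + j + 1 = p := by omega
      rw [this]
      exact h.exp _ hn₀
    refine ⟨m, hmN, m⁻¹ * g, ?_, by group⟩
    rw [Subgroup.mem_centralizer_singleton_iff]
    -- `m t m⁻¹ = t m⁻¹ m⁻¹ = t n₀ = s`
    have h1 : m * t * m⁻¹ = s := by
      have h2 : t⁻¹ * m * t = m⁻¹ := by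
        have := hinvt m hmN
        rw [htinv] at this ⊢
        exact this
      have h3 : m⁻¹ * m⁻¹ = n₀ := by
        have : n₀ = (m * m)⁻¹ := eq_inv_of_mul_eq_one_right hm2
        rw [this]; group
      calc m * t * m⁻¹ = t * (t⁻¹ * m * t) * m⁻¹ := by group
        _ = t * (m⁻¹ * m⁻¹) := by rw [h2]; group
        _ = t * n₀ := by rw [h3]
        _ = s := by rw [hn₀def]; group
    calc m⁻¹ * g * t = m⁻¹ * (g * t * g⁻¹) * g := by group
      _ = m⁻¹ * (m * t * m⁻¹) * g := by rw [h1]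
      _ = t * (m⁻¹ * g) := by group

/-- `p = 2`: the quotient has no involution. -/
theorem no_involution_two {N : Subgroup G} [hNn : N.Normal] (h : Hyp 2 N)
    (hcore : N = pCore 2 G) (t' : G ⧸ N) : orderOf t' ≠ 2 := by
  haveI : Fact (Nat.Prime 2) := ⟨Nat.prime_two⟩
  intro ht
  have hcent := centralizer_le h hcore
  have ht1 : t' ≠ 1 := by
    rintro rfl
    rw [orderOf_one] at ht
    omega
  obtain ⟨h', hh1, hhodd, hinv⟩ := Cfsg.Agent.S0200.result t' ht (by
    intro M hM hM2 htM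
    have h1 : IsPGroup 2 (M.comap (QuotientGroup.mk' N)) := by
      apply hM2.comap_of_ker_isPGroup
      rw [QuotientGroup.ker_mk']
      exact h.pgroup
    have h2 := Cfsg.Agent.Lib.Helper4_Core.le_pCore (hM.comap _) h1
    rw [← hcore] at h2
    obtain ⟨a, rfl⟩ := QuotientGroup.mk_surjective t'
    exact ht1 ((QuotientGroup.eq_one_iff a).mpr (h2 (Subgroup.mem_comap.mpr htM))))
  obtain ⟨a, rfl⟩ := QuotientGroup.mk_surjective t'
  obtain ⟨b, rfl⟩ := QuotientGroup.mk_surjective h'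
  set m := orderOf (b : G ⧸ N) with hm
  obtain ⟨k, hk⟩ := hhodd
  have hbm : b ^ m ∈ N := by
    rw [← QuotientGroup.eq_one_iff, QuotientGroup.mk_pow, hm, pow_orderOf_eq_one]
  set c := b ^ (m + 1) with hc
  have hcm : c ^ m = 1 := by
    rw [hc, ← pow_mul, mul_comm, pow_mul]
    have : m + 1 = 2 * (k + 1) := by omega
    rw [this, pow_mul, h.exp _ hbm, one_pow]
  have hcq : (c : G ⧸ N) = (b : G ⧸ N) := by
    rw [hc, QuotientGroup.mk_pow, pow_succ, hm, pow_orderOf_eq_one, one_mul]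
  have hcN : c ∉ N := by
    intro hh
    apply hh1
    rw [← hcq]
    exact (QuotientGroup.eq_one_iff c).mpr hh
  have hcc : ∀ y ∈ N, y * c = c * y → y = 1 := by
    intro y hy hyc
    by_contra hy1
    obtain ⟨j, hj⟩ := centralizer_isPGroup h hy hy1
      ⟨c, Subgroup.mem_centralizer_singleton_iff.mpr hyc.symm⟩
    have h2 : c ^ (2 ^ j) = 1 := by simpa using congrArg Subtype.val hj
    have h3 := orderOf_dvd_of_pow_eq_one h2
    have h4 := orderOf_dvd_of_pow_eq_one hcm
    have h5 : orderOf c ∣ 1 := by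
      have := Nat.dvd_gcd h3 h4
      have hcop : Nat.Coprime (2 ^ j) m := by
        apply Nat.Coprime.pow_left
        rw [Nat.coprime_two_left] 
        exact ⟨k, hk⟩
      rwa [hcop] at this
    apply hcN
    rw [orderOf_eq_one_iff.mp (Nat.dvd_one.mp h5)]
    exact N.one_mem
  set n := c * (a * c * a⁻¹) with hn
  have hnN : n ∈ N := by
    rw [← QuotientGroup.eq_one_iff, hn]
    simp only [QuotientGroup.mk_mul, QuotientGroup.mk_inv, hcq]
    rw [hinv]
    exact mul_inv_cancel _
  obtain ⟨n', hn', hn'eq⟩ := exists_comm_eq hcc (a⁻¹ * n⁻¹ * a) (by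
    have := hNn.conj_mem n⁻¹ (N.inv_mem hnN) a⁻¹
    simpa using this)
  set s := a * n' with hs
  have hsc : s * c * s⁻¹ = c⁻¹ := by
    calc s * c * s⁻¹ = a * c * (c⁻¹ * n' * c * n'⁻¹) * a⁻¹ := by rw [hs]; group
      _ = a * c * (a⁻¹ * n⁻¹ * a) * a⁻¹ := by rw [hn'eq]
      _ = (a * c * a⁻¹) * n⁻¹ := by group
      _ = c⁻¹ := by rw [hn]; group
  have hsq : (s : G ⧸ N) = (a : G ⧸ N) := by
    rw [hs, QuotientGroup.mk_mul, (QuotientGroup.eq_one_iff n').mpr hn', mul_one]
  have hsN : s ∉ N := by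
    intro hh
    apply ht1
    rw [← hsq]
    exact (QuotientGroup.eq_one_iff s).mpr hh
  have hs2N : s * s ∈ N := by
    rw [← QuotientGroup.eq_one_iff, QuotientGroup.mk_mul, hsq, ← pow_two, ← ht, pow_orderOf_eq_one]
  have hs2 : s * s = 1 := by
    apply hcc _ hs2N
    have : s * s * c * (s * s)⁻¹ = c := by
      calc s * s * c * (s * s)⁻¹ = s * (s * c * s⁻¹) * s⁻¹ := by group
        _ = s * c⁻¹ * s⁻¹ := by rw [hsc]
        _ = (s * c * s⁻¹)⁻¹ := by group
        _ = c := by rw [hsc, inv_inv]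
    calc s * s * c = (s * s * c * (s * s)⁻¹) * (s * s) := by group
      _ = c * (s * s) := by rw [this]
  apply hsN
  apply hcent
  rw [Subgroup.mem_centralizer_iff]
  intro y hy
  obtain ⟨d, hd⟩ := isConj_iff.mp (h.cam s hsN y hy)
  have h1 : (s * y) * (s * y) = 1 := by
    rw [← hd]
    calc d * s * d⁻¹ * (d * s * d⁻¹) = d * (s * s) * d⁻¹ := by group
      _ = 1 := by rw [hs2]; group
  have h2 : y * y = 1 := by
    have := h.exp y hy
    rwa [pow_two] at this
  -- `s y s y = 1`, so `y s = s y`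
  calc y * s = (s * s) * y * s * (y * y) := by rw [hs2, h2]; group
    _ = s * ((s * y) * (s * y)) * y := by group
    _ = s * y := by rw [h1]; group

theorem exists_complement (h : Hyp p N) (hcore : N = pCore p G) :
    ∃ H : Subgroup G, (∀ g ∈ H, g ∈ N → g = 1) ∧ ∀ g : G, ∃ m ∈ N, ∃ k ∈ H, g = m * k := by
  by_cases hp2 : p = 2
  · subst hp2
    have hcop : Nat.Coprime (Nat.card N) N.index := by
      obtain ⟨k, hk⟩ := IsPGroup.iff_card.mp h.pgroup
      rw [hk]
      apply Nat.Coprime.pow_left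
      rw [Nat.coprime_two_left, ← Nat.not_even_iff_odd]
      intro he
      have h2 : 2 ∣ Nat.card (G ⧸ N) := he.two_dvd
      obtain ⟨t', ht'⟩ := exists_prime_orderOf_dvd_card' (G := G ⧸ N) 2 h2
      exact no_involution_two h hcore t' ht'
    obtain ⟨H, hH⟩ := Subgroup.exists_right_complement'_of_coprime hcop
    refine ⟨H, ?_, ?_⟩
    · intro g hgH hgN
      have := hH.disjoint.le_bot (Subgroup.mem_inf.mpr ⟨hgN, hgH⟩)
      exact Subgroup.mem_bot.mp this
    · intro g
      obtain ⟨⟨⟨m, k⟩, hmk⟩, -⟩ := (hH.existsUnique g).exists.choose_spec |> fun hh =>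
        (⟨⟨(hH.existsUnique g).exists.choose, hh⟩, trivial⟩ :
          {x : N × H // (x.1 : G) * x.2 = g} ×' True)
      exact ⟨m, m.2, k, k.2, hmk.symm⟩
  · exact exists_complement_odd h (centralizer_le h hcore) hp2

/-- The main group-theoretic statement. -/
theorem main (h : Hyp p N) :
    N = pCore p G ↔ ∃ H : Subgroup G, IsFrobeniusComplement H ∧
      frobeniusKernel H = (N : Set G) ∧ Nat.card H + 1 = Nat.card N := by
  constructor
  · intro hcore
    obtain ⟨H, h1, h2⟩ := exists_complement h hcore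
    exact ⟨H, frobenius_of_complement h h1 h2⟩
  · rintro ⟨H, hH, hker, hcard⟩
    apply le_antisymm (Cfsg.Agent.Lib.Helper4_Core.le_pCore hNn h.pgroup)
    intro g hg
    by_contra hgN
    have h1 : g ∉ frobeniusKernel H := by rw [hker]; exact hgN
    simp only [frobeniusKernel, Set.mem_ofPred_eq, not_or, not_forall, not_not] at h1
    obtain ⟨hg1, c, hc⟩ := h1
    rw [Subgroup.mem_pointwise_smul_iff_inv_smul_mem] at hc
    simp only [MulAut.smul_def, MulAut.conj_inv_apply] at hc
    obtain ⟨k, hk⟩ := Cfsg.Agent.Lib.Helper4_Core.pCore_isPGroup p G ⟨g, hg⟩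
    have h2 : g ^ (p ^ k) = 1 := by simpa using congrArg Subtype.val hk
    set g' : H := ⟨c⁻¹ * g * c, hc⟩ with hg'
    have h3 : g' ^ (p ^ k) = 1 := by
      apply Subtype.ext
      show (c⁻¹ * g * c) ^ (p ^ k) = 1
      have : c⁻¹ * g * c = c⁻¹ * g * c⁻¹⁻¹ := by rw [inv_inv]
      rw [this, conj_pow, h2]
      group
    have h4 := orderOf_dvd_of_pow_eq_one h3
    have h5 : orderOf g' ∣ Nat.card H := orderOf_dvd_natCard g'
    obtain ⟨j, hj⟩ := IsPGroup.iff_card.mp h.pgroup
    have hj0 : j ≠ 0 := by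
      rintro rfl
      rw [pow_zero] at hj
      exact h.ne_bot ((Subgroup.card_eq_one).mp hj)
    have hcop : Nat.Coprime (p ^ k) (Nat.card H) := by
      apply Nat.Coprime.pow_left
      rw [Nat.Prime.coprime_iff_not_dvd hp.out]
      intro hd
      have h6 : p ∣ Nat.card N := by rw [hj]; exact dvd_pow_self p hj0
      rw [← hcard] at h6
      have := (Nat.dvd_add_right hd).mp h6
      exact hp.out.one_lt.ne' (Nat.dvd_one.mp this)
    have h6 : orderOf g' ∣ 1 := by
      have := Nat.dvd_gcd h4 h5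
      rwa [hcop] at this
    have h7 : g' = 1 := orderOf_eq_one_iff.mp (Nat.dvd_one.mp h6)
    have h8 : c⁻¹ * g * c = 1 := congrArg Subtype.val h7
    apply hg1
    calc g = c * (c⁻¹ * g * c) * c⁻¹ := by group
      _ = 1 := by rw [h8]; group

end Cfsg.Agent.Lib.CharGagola2
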