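import Mathlib
import Cfsg.Agent.Lib.CharGagola
import Cfsg.Agent.Lib.CharGagola2

/-!
# From a Gagola character to the Camina-type hypothesis
-/

set_option autoImplicit false

namespace Cfsg.Agent.Lib.CharGagola3

open Cfsg Cfsg.Agent.Lib.CharBasic Cfsg.Agent.Lib.CharOrtho
  Cfsg.Agent.Lib.CharComplete Cfsg.Agent.Lib.CharIntegral Cfsg.Agent.Lib.CharMore
  Cfsg.Agent.Lib.CharInd Cfsg.Agent.Lib.CharGallagher Cfsg.Agent.Lib.CharQuot
  Cfsg.Agent.Lib.CharGagola Cfsg.Agent.Lib.CharGagola2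

universe u

theorem hyp_of_char {G : Type u} [Group G] [Finite G] (hG : 2 < Nat.card G) (χ : IrrCharacter G)
    (hχ : Nat.card {C : ConjClasses G // ∃ g ∈ C.carrier, (χ : G → ℂ) g ≠ 0} = 2)
    (p : ℕ) [hp : Fact p.Prime] (N : Subgroup G)
    (hN : ∀ g : G, g ∈ N ↔ (χ : G → ℂ) g ≠ 0) (hNp : IsPGroup p N) (hN1 : N ≠ ⊥) : Hyp p N := by
  classical
  haveI := Fintype.ofFinite G
  obtain ⟨x, hx1, hx0, hvan⟩ := exists_x χ hχ
  obtain ⟨h1, h2, ⟨p', hp', hel⟩, h4, h5⟩ := gagola χ hG hx1 hx0 hvan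
  have hNc : N = core χ := by
    ext g; rw [hN, h4]
  have hxN : x ∈ N := (hN x).mpr hx0
  have hpp : p' = p := by
    have h6 : x ^ p' = 1 := hel.2 x (hNc ▸ hxN)
    obtain ⟨k, hk⟩ := hNp ⟨x, hxN⟩
    have h7 : x ^ (p ^ k) = 1 := by simpa using congrArg Subtype.val hk
    haveI : Fact p'.Prime := ⟨hp'⟩
    have h8 : orderOf x = p' := orderOf_eq_prime h6 hx1
    have h9 := orderOf_dvd_of_pow_eq_one h7
    rw [h8] at h9
    exact (Nat.prime_dvd_prime_iff_eq hp' hp.out).mp (hp'.dvd_of_dvd_pow h9)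
  refine ⟨hNp, hN1, ?_, ?_, ?_, ?_, hG⟩
  · intro a ha b hb ha1 hb1
    exact isConj_iff.mpr (h5 a (hNc ▸ ha) b (hNc ▸ hb) ha1 hb1)
  · intro g hg n hn
    rw [isConj_iff_forall_irr]
    intro ψ
    by_cases hψ : ψ = χ
    · subst hψ
      have h6 : (ψ : G → ℂ) g = 0 := by
        by_contra hh
        exact hg ((hN g).mpr hh)
      have h7 : (ψ : G → ℂ) (g * n) = 0 := by
        by_contra hh
        apply hg
        have := N.mul_mem ((hN _).mpr hh) (N.inv_mem hn)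
        simpa using this
      rw [h6, h7]
    · have h6 := (mem_core χ n).mp (hNc ▸ hn) ψ hψ
      exact (char_mul_right_of_ker (isCharacter_of_isIrr ψ.2) h6 g).symm
  · intro a ha b hb
    have := hel.1.is_comm.comm (⟨a, hNc ▸ ha⟩ : core χ) ⟨b, hNc ▸ hb⟩
    exact congrArg Subtype.val this
  · intro a ha
    rw [← hpp]
    exact hel.2 a (hNc ▸ ha)

end Cfsg.Agent.Lib.CharGagola3
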