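import Mathlib
import Cfsg.Agent.Lib.CharOddIndex

/-!
# Strongly real constituents of permutation characters
-/

set_option autoImplicit false

namespace Cfsg.Agent.Lib.CharPermFS

open Cfsg Cfsg.Agent.Lib.CharBasic Cfsg.Agent.Lib.CharOrtho
  Cfsg.Agent.Lib.CharComplete Cfsg.Agent.Lib.CharIntegral Cfsg.Agent.Lib.CharMore
  Cfsg.Agent.Lib.CharInd Cfsg.Agent.Lib.CharGallagher Cfsg.Agent.Lib.CharQuot
  Cfsg.Agent.Lib.CharClifford Cfsg.Agent.Lib.CharPerm Cfsg.Agent.Lib.CharFS
  Cfsg.Agent.Lib.helper8_FS Cfsg.Agent.Lib.CharOddIndex Cfsg.Agent.Lib.helper8_Kernel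
open scoped ComplexConjugate

universe u

variable {G : Type u} [Group G] [Fintype G] (H : Subgroup G) [Fintype H]

/-- `[1_H^G, χ] = |H|⁻¹ ∑_{h ∈ H} conj χ(h)`. -/
theorem inner_perm (χ : IrrCharacter G) :
    classInner (indFun H (fun _ : H => (1 : ℂ))) (χ : G → ℂ) =
      (Nat.card H : ℂ)⁻¹ * ∑ h : H, conj ((χ : G → ℂ) h) := by
  rw [frobenius_reciprocity H _ _ (isClassFunction_of_isCharacter (isCharacter_of_isIrr χ.2))]
  unfold classInner
  simp only [one_mul]

theorem inner_perm_nat (χ : IrrCharacter G) :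
    ∃ m : ℕ, classInner (indFun H (fun _ : H => (1 : ℂ))) (χ : G → ℂ) = m ∧
      ∑ h : H, (χ : G → ℂ) h = (Nat.card H : ℂ) * m := by
  have hH : (Nat.card H : ℂ) ≠ 0 := by exact_mod_cast Nat.card_pos.ne'
  obtain ⟨m, hm⟩ := classInner_char_nat
    (isCharacter_indFun H (fun _ : H => (1 : ℂ)) (isCharacter_of_isIrr isIrr_one))
    (isCharacter_of_isIrr χ.2)
  refine ⟨m, hm, ?_⟩
  rw [inner_perm] at hm
  have h1 := congrArg conj hm
  rw [map_mul, map_inv₀, Complex.conj_natCast, Complex.conj_natCast, map_sum] at h1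
  simp only [Complex.conj_conj] at h1
  rw [← h1]
  field_simp

/-- Constituents of the permutation character contain the core in their kernel. -/
theorem core_le_ker (χ : IrrCharacter G)
    (h : classInner (indFun H (fun _ : H => (1 : ℂ))) (χ : G → ℂ) ≠ 0) :
    ∀ x ∈ H.normalCore, (χ : G → ℂ) x = (χ : G → ℂ) 1 := by
  classical
  by_contra hcon
  push Not at hcon
  haveI : Fintype H.normalCore := Fintype.ofFinite _
  have hK : (Nat.card H.normalCore : ℂ) ≠ 0 := by exact_mod_cast Nat.card_pos.ne'
  have h0 := sum_mul_normal_eq_zero χ.2 H.normalCore hcon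
  obtain ⟨m, hm, hs⟩ := inner_perm_nat H χ
  have h1 : ∀ x : H.normalCore, ∑ h : H, (χ : G → ℂ) ((h : G) * x) = ∑ h : H, (χ : G → ℂ) h := by
    intro x
    have hx : (x : G) ∈ H := H.normalCore_le x.2
    exact Equiv.sum_comp (Equiv.mulRight (⟨x, hx⟩ : H)) (fun h : H => (χ : G → ℂ) h)
  have h2 : (Nat.card H.normalCore : ℂ) * ∑ h : H, (χ : G → ℂ) h = 0 := by
    have : ∑ x : H.normalCore, ∑ h : H, (χ : G → ℂ) ((h : G) * x) = 0 := by
      rw [Finset.sum_comm]
      exact Finset.sum_eq_zero fun h _ => h0 h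
    rw [Finset.sum_congr rfl (fun x _ => h1 x)] at this
    rw [← this]
    simp [Nat.card_eq_fintype_card]
  have h3 : ∑ h : H, (χ : G → ℂ) h = 0 := by
    rcases mul_eq_zero.mp h2 with h | h
    · exact absurd h hK
    · exact h
  rw [hs] at h3
  have hH : (Nat.card H : ℂ) ≠ 0 := by exact_mod_cast Nat.card_pos.ne'
  rcases mul_eq_zero.mp h3 with h4 | h4
  · exact hH h4
  · exact h (by rw [hm, h4])

open scoped Classical in
theorem sum_sqrt :
    ∑ h : H, (Nat.card {s : G // s * s = (h : G)} : ℂ) =
      ((Finset.univ.filter fun s : G => s * s ∈ H).card : ℂ) := by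
  classical
  have h1 : ∀ h : H, (Nat.card {s : G // s * s = (h : G)} : ℂ) =
      ∑ s : G, if s * s = (h : G) then (1 : ℂ) else 0 := by
    intro h
    rw [Nat.card_eq_fintype_card, Fintype.card_subtype, Finset.sum_boole]
  rw [Finset.sum_congr rfl (fun h _ => h1 h), Finset.sum_comm, ← Finset.sum_boole]
  refine Finset.sum_congr rfl fun s _ => ?_
  by_cases hs : s * s ∈ H
  · rw [if_pos hs, Finset.sum_eq_single (⟨s * s, hs⟩ : H)]
    · simp
    · intro b _ hb
      rw [if_neg]
      intro h
      exact hb (Subtype.ext h.symm)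
    · intro h; exact absurd (Finset.mem_univ _) h
  · rw [if_neg hs]
    apply Finset.sum_eq_zero
    intro h _
    rw [if_neg]
    intro hh
    exact hs (hh ▸ h.2)

open scoped Classical in
/-- `|H| ∑ ν(χ) [π, χ] = #{s : s² ∈ H}`. -/
theorem sum_fs_perm (m : IrrCharacter G → ℕ)
    (hm : ∀ χ : IrrCharacter G, ∑ h : H, (χ : G → ℂ) h = (Nat.card H : ℂ) * m χ) :
    (Nat.card H : ℂ) * ∑ χ : IrrCharacter G, fsInd (χ : G → ℂ) * m χ =
      ((Finset.univ.filter fun s : G => s * s ∈ H).card : ℂ) := by
  rw [← sum_sqrt H]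
  simp only [sqrt_count]
  rw [Finset.sum_comm, Finset.mul_sum]
  refine Finset.sum_congr rfl fun χ _ => ?_
  rw [← Finset.mul_sum, hm]
  ring

theorem main : Nat.card {χ : IrrCharacter G //
      classInner (indFun H (fun _ : H => (1 : ℂ))) (χ : G → ℂ) ≠ 0 ∧
      (∀ g : G, conj ((χ : G → ℂ) g) = (χ : G → ℂ) g) ∧ fsInd (χ : G → ℂ) = 1} = 1 ↔
    Odd H.normalCore.index := by
  classical
  set one : IrrCharacter G := ⟨1, isIrr_one⟩ with hone
  have hone_mem : classInner (indFun H (fun _ : H => (1 : ℂ))) (one : G → ℂ) ≠ 0 ∧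
      (∀ g : G, conj ((one : G → ℂ) g) = (one : G → ℂ) g) ∧ fsInd (one : G → ℂ) = 1 := by
    refine ⟨?_, ?_, fsInd_one⟩
    · rw [frobenius_reciprocity H _ _
        (isClassFunction_of_isCharacter (isCharacter_of_isIrr one.2))]
      have : classInner (fun _ : H => (1 : ℂ)) (fun h : H => (one : G → ℂ) h) =
          classInner (1 : H → ℂ) (1 : H → ℂ) := rfl
      rw [this, classInner_irr_self isIrr_one]
      exact one_ne_zero
    · intro g
      simp [hone]
  constructor
  · intro hcard
    rw [← Nat.not_even_iff_odd]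
    intro heven
    -- uniqueness
    have huniq : ∀ χ : IrrCharacter G,
        classInner (indFun H (fun _ : H => (1 : ℂ))) (χ : G → ℂ) ≠ 0 →
        fsInd (χ : G → ℂ) = 1 → χ = one := by
      intro χ h1 h2
      have hsub := (Nat.card_eq_one_iff_unique.mp hcard).1
      have := hsub.elim ⟨χ, h1, real_of_fsInd χ.2 (by rw [h2]; exact one_ne_zero), h2⟩
        ⟨one, hone_mem⟩
      exact congrArg Subtype.val this
    -- an element outside `H` with square in `H`
    obtain ⟨t, htH, ht2⟩ : ∃ t : G, t ∉ H ∧ t * t ∈ H := by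
      have h2 : 2 ∣ Nat.card (G ⧸ H.normalCore) := heven.two_dvd
      haveI : Fact (Nat.Prime 2) := ⟨Nat.prime_two⟩
      obtain ⟨t', ht'⟩ := exists_prime_orderOf_dvd_card' (G := G ⧸ H.normalCore) 2 h2
      obtain ⟨t₀, rfl⟩ := QuotientGroup.mk_surjective t'
      have h3 : t₀ ∉ H.normalCore := by
        intro h
        rw [(QuotientGroup.eq_one_iff t₀).mpr h, orderOf_one] at ht'
        omega
      have h4 : t₀ * t₀ ∈ H.normalCore := by
        rw [← QuotientGroup.eq_one_iff, QuotientGroup.mk_mul, ← pow_two, ← ht', pow_orderOf_eq_one]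
      have h5 : ∃ g : G, g * t₀ * g⁻¹ ∉ H := by
        by_contra hcon
        push Not at hcon
        exact h3 hcon
      obtain ⟨g, hg⟩ := h5
      refine ⟨g * t₀ * g⁻¹, hg, ?_⟩
      have h6 := H.normalCore_normal.conj_mem _ h4 g
      have h7 : g * t₀ * g⁻¹ * (g * t₀ * g⁻¹) = g * (t₀ * t₀) * g⁻¹ := by group
      rw [h7]
      exact H.normalCore_le h6
    choose m hm1 hm2 using inner_perm_nat H
    choose ε hε1 hε2 hε3 using fun χ : IrrCharacter G => fsInd_int χ.2
    have hkey := sum_fs_perm H m hm2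
    have hle : ∑ χ : IrrCharacter G, ε χ * (m χ : ℤ) ≤ 1 := by
      rw [← Finset.add_sum_erase _ _ (Finset.mem_univ one)]
      have h1 : ε one * (m one : ℤ) ≤ 1 := by
        have h2 : m one = 1 := by
          have h3 := hm1 one
          rw [frobenius_reciprocity H _ _
            (isClassFunction_of_isCharacter (isCharacter_of_isIrr one.2))] at h3
          have : classInner (fun _ : H => (1 : ℂ)) (fun h : H => (one : G → ℂ) h) =
              classInner (1 : H → ℂ) (1 : H → ℂ) := rfl
          rw [this, classInner_irr_self isIrr_one] at h3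
          exact_mod_cast h3.symm
        rw [h2]
        rcases hε2 one with h | h | h <;> rw [h] <;> simp
      have h2 : ∑ χ ∈ Finset.univ.erase one, ε χ * (m χ : ℤ) ≤ 0 := by
        apply Finset.sum_nonpos
        intro χ hχ
        rcases hε2 χ with h | h | h
        · rw [h]; simp
        · have h3 : m χ = 0 := by
            by_contra h4
            apply (Finset.mem_erase.mp hχ).1
            apply huniq χ
            · rw [hm1]; exact_mod_cast h4
            · rw [hε1, h]; simp
          rw [h3]; simp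
        · rw [h]; simp
      omega
    have hge : Nat.card H + 1 ≤ (Finset.univ.filter fun s : G => s * s ∈ H).card := by
      have h1 : (insert t (Finset.univ.filter fun s : G => s ∈ H)) ⊆
          Finset.univ.filter fun s : G => s * s ∈ H := by
        intro s hs
        rw [Finset.mem_insert] at hs
        rw [Finset.mem_filter]
        refine ⟨Finset.mem_univ _, ?_⟩
        rcases hs with rfl | hs
        · exact ht2
        · have := (Finset.mem_filter.mp hs).2
          exact H.mul_mem this this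
      have h2 := Finset.card_le_card h1
      rw [Finset.card_insert_of_notMem (by simp [htH])] at h2
      have h3 : (Finset.univ.filter fun s : G => s ∈ H).card = Nat.card H := by
        rw [Nat.card_eq_fintype_card, Fintype.card_subtype]
      omega
    have hint : (Nat.card H : ℤ) * ∑ χ : IrrCharacter G, ε χ * (m χ : ℤ) =
        ((Finset.univ.filter fun s : G => s * s ∈ H).card : ℤ) := by
      have : (((Nat.card H : ℤ) * ∑ χ : IrrCharacter G, ε χ * (m χ : ℤ) : ℤ) : ℂ) =
          ((((Finset.univ.filter fun s : G => s * s ∈ H).card : ℤ)) : ℂ) := by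
        push_cast
        rw [← hkey]
        congr 1
        refine Finset.sum_congr rfl fun χ _ => ?_
        rw [hε1]
      exact_mod_cast this
    have hpos : (0 : ℤ) < Nat.card H := by exact_mod_cast Nat.card_pos
    nlinarith
  · intro hodd
    rw [Nat.card_eq_one_iff_unique]
    refine ⟨⟨?_⟩, ⟨⟨one, hone_mem⟩⟩⟩
    have hall : ∀ χ : {χ : IrrCharacter G //
        classInner (indFun H (fun _ : H => (1 : ℂ))) (χ : G → ℂ) ≠ 0 ∧
        (∀ g : G, conj ((χ : G → ℂ) g) = (χ : G → ℂ) g) ∧ fsInd (χ : G → ℂ) = 1},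
        χ.1 = one := by
      rintro ⟨χ, h1, h2, h3⟩
      have hker := core_le_ker H χ h1
      obtain ⟨β', hβ', he⟩ := exists_deflate_irr H.normalCore χ.2 hker
      haveI := Fintype.ofFinite (G ⧸ H.normalCore)
      have h4 := real_irr_eq_one_of_odd (G := G ⧸ H.normalCore) hodd ⟨β', hβ'⟩ (by
        intro q
        obtain ⟨g, rfl⟩ := QuotientGroup.mk_surjective q
        have h5 := h2 g
        rw [he] at h5
        exact Complex.conj_eq_iff_im.mp h5)
      apply Subtype.ext
      show (χ : G → ℂ) = 1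
      rw [he]
      ext g
      exact congrFun h4 _
    intro a b
    exact Subtype.ext ((hall a).trans (hall b).symm)

end Cfsg.Agent.Lib.CharPermFS
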