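import Mathlib
import Cfsg.Prelude.Def_Characters
import Cfsg.Agent.Lib.CharMore

/-!
# Irreducible characters of direct products
-/

set_option autoImplicit false

namespace Cfsg.Agent.Lib.CharProd

open Cfsg Representation Module Cfsg.Agent.Lib.CharBasic Cfsg.Agent.Lib.CharOrtho
  Cfsg.Agent.Lib.CharComplete Cfsg.Agent.Lib.CharIntegral Cfsg.Agent.Lib.CharMore
open scoped ComplexConjugate

universe u v

variable {G : Type u} [Group G] [Fintype G] {H : Type v} [Group H] [Fintype H]

theorem classInner_prod (φ φ' : G → ℂ) (ψ ψ' : H → ℂ) :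
    classInner (fun x : G × H => φ x.1 * ψ x.2) (fun x : G × H => φ' x.1 * ψ' x.2) =
      classInner φ φ' * classInner ψ ψ' := by
  unfold classInner
  rw [Nat.card_prod, Fintype.sum_prod_type]
  simp only [map_mul]
  have : ∀ g : G, ∑ h : H, φ g * ψ h * (conj (φ' g) * conj (ψ' h)) =
      (φ g * conj (φ' g)) * ∑ h : H, ψ h * conj (ψ' h) := by
    intro g
    rw [Finset.mul_sum]
    refine Finset.sum_congr rfl fun h _ => ?_
    ring
  simp only [this]
  rw [← Finset.sum_mul]
  push_cast
  rw [mul_inv]
  ring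

theorem isCharacter_prod {φ : G → ℂ} {ψ : H → ℂ} (hφ : IsCharacter G φ) (hψ : IsCharacter H ψ) :
    IsCharacter (G × H) (fun x : G × H => φ x.1 * ψ x.2) :=
  isCharacter_mul (isCharacter_comp (MonoidHom.fst G H) hφ) (isCharacter_comp (MonoidHom.snd G H) hψ)

theorem isIrr_prod {φ : G → ℂ} {ψ : H → ℂ} (hφ : IsIrrCharacter G φ) (hψ : IsIrrCharacter H ψ) :
    IsIrrCharacter (G × H) (fun x : G × H => φ x.1 * ψ x.2) := by
  apply isIrr_of_norm_one (isCharacter_prod (isCharacter_of_isIrr hφ) (isCharacter_of_isIrr hψ))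
  rw [classInner_prod, classInner_irr_self hφ, classInner_irr_self hψ, one_mul]

theorem exists_prod_of_isIrr {θ : G × H → ℂ} (hθ : IsIrrCharacter (G × H) θ) :
    ∃ (φ : G → ℂ) (ψ : H → ℂ), IsIrrCharacter G φ ∧ IsIrrCharacter H ψ ∧
      θ = fun x => φ x.1 * ψ x.2 := by
  classical
  have hcf := isClassFunction_of_isCharacter (isCharacter_of_isIrr hθ)
  -- expand in the first variable
  have h1 : ∀ h : H, (fun g : G => θ (g, h)) =
      ∑ φ : IrrCharacter G, classInner (fun g : G => θ (g, h)) φ • (φ : G → ℂ) := by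
    intro h
    apply classFunction_expansion
    intro g y
    have := hcf (g, h) (y, 1)
    simpa using this
  -- the coefficients are class functions of the second variable
  have h2 : ∀ φ : IrrCharacter G, (fun h : H => classInner (fun g : G => θ (g, h)) φ) =
      ∑ ψ : IrrCharacter H,
        classInner (fun h : H => classInner (fun g : G => θ (g, h)) φ) ψ • (ψ : H → ℂ) := by
    intro φ
    apply classFunction_expansion
    intro h y
    simp only
    congr 1
    ext g
    have := hcf (g, h) (1, y)
    simpa using this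
  have h3 : θ = ∑ φ : IrrCharacter G, ∑ ψ : IrrCharacter H,
      classInner (fun h : H => classInner (fun g : G => θ (g, h)) φ) ψ •
        (fun x : G × H => (φ : G → ℂ) x.1 * (ψ : H → ℂ) x.2) := by
    ext ⟨g, h⟩
    have e1 := congrFun (h1 h) g
    simp only [Finset.sum_apply, Pi.smul_apply, smul_eq_mul] at e1 ⊢
    rw [e1]
    refine Finset.sum_congr rfl fun φ _ => ?_
    have e2 := congrFun (h2 φ) h
    simp only [Finset.sum_apply, Pi.smul_apply, smul_eq_mul] at e2
    rw [e2, Finset.sum_mul]
    refine Finset.sum_congr rfl fun ψ _ => ?_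
    ring
  by_contra hcon
  push Not at hcon
  have h4 : classInner θ θ = 0 := by
    conv_lhs => lhs; rw [h3]
    rw [classInner_sum_left]
    refine Finset.sum_eq_zero fun φ _ => ?_
    rw [classInner_sum_left]
    refine Finset.sum_eq_zero fun ψ _ => ?_
    rw [classInner_smul_left, classInner_irr_ne (isIrr_prod φ.2 ψ.2) hθ
      (fun h => hcon φ ψ φ.2 ψ.2 h.symm), mul_zero]
  rw [classInner_irr_self hθ] at h4
  exact one_ne_zero h4

end Cfsg.Agent.Lib.CharProd
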