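import Mathlib
import Cfsg.Prelude.Def_Solvable

/-!
# Recognising Frobenius complements
-/

set_option autoImplicit false

namespace Cfsg.Agent.Lib.FrobComplement

open Cfsg
open scoped Pointwise

universe u

variable {G : Type u} [Group G] {N H : Subgroup G}

theorem isFrobeniusComplement_of_complement (hNn : N.Normal) (hHN : ∀ g ∈ H, g ∈ N → g = 1)
    (hgen : ∀ g : G, ∃ m ∈ N, ∃ k ∈ H, g = m * k)
    (hcent : ∀ k ∈ H, k ≠ 1 → ∀ m ∈ N, m * k = k * m → m = 1) (hH : H ≠ ⊥) (hN : N ≠ ⊥) :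
    IsFrobeniusComplement H := by
  refine ⟨hH, ?_, ?_⟩
  · intro hH'
    obtain ⟨k', hk'⟩ := Subgroup.ne_bot_iff_exists_ne_one.mp hN
    exact hk' (Subtype.ext (hHN k' (by rw [hH']; trivial) k'.2))
  · intro g hg
    rw [eq_bot_iff]
    intro k hk
    rw [Subgroup.mem_bot]
    obtain ⟨hk1, hk2⟩ := Subgroup.mem_inf.mp hk
    rw [Subgroup.mem_pointwise_smul_iff_inv_smul_mem] at hk2
    simp only [MulAut.smul_def, MulAut.conj_inv_apply] at hk2
    obtain ⟨m, hm, k', hk', rfl⟩ := hgen g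
    by_contra hkne
    have h1 : m⁻¹ * k * m ∈ H := by
      have := H.mul_mem (H.mul_mem hk' hk2) (H.inv_mem hk')
      convert this using 1
      group
    have h2 : k⁻¹ * (m⁻¹ * k * m) ∈ N := by
      have : k⁻¹ * (m⁻¹ * k * m) = (k⁻¹ * m⁻¹ * k) * m := by group
      rw [this]
      apply N.mul_mem _ hm
      have := hNn.conj_mem m⁻¹ (N.inv_mem hm) k⁻¹
      simpa using this
    have h3 := hHN _ (H.mul_mem (H.inv_mem hk1) h1) h2
    have h4 : m * k = k * m := by
      have : k = m⁻¹ * k * m := inv_mul_eq_one.mp h3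
      calc m * k = m * (m⁻¹ * k * m) := by rw [← this]
        _ = k * m := by group
    have h5 := hcent k hk1 hkne m hm h4
    apply hg
    rw [h5, one_mul]; exact hk'

theorem of_isComplement' (hNn : N.Normal) (hc : Subgroup.IsComplement' N H) :
    (∀ g ∈ H, g ∈ N → g = 1) ∧ ∀ g : G, ∃ m ∈ N, ∃ k ∈ H, g = m * k := by
  refine ⟨?_, ?_⟩
  · intro g hgH hgN
    have := hc.disjoint.le_bot (Subgroup.mem_inf.mpr ⟨hgN, hgH⟩)
    exact Subgroup.mem_bot.mp this
  · intro g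
    obtain ⟨⟨m, k⟩, hmk, -⟩ := hc.existsUnique g
    exact ⟨m, m.2, k, k.2, hmk.symm⟩

end Cfsg.Agent.Lib.FrobComplement
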