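import Mathlib
import Cfsg.Prelude.Def_Blocks
import Cfsg.Agent.Lib.GlaubP
import Cfsg.Agent.Lib.Helper1_MinNormal

set_option autoImplicit false
set_option linter.unusedSectionVars false
set_option linter.style.haveILetI false

/-! Coprime solvable actions: the number of invariant irreducible characters equals the number of
invariant classes. -/

namespace Cfsg.Agent.Lib.GlaubCount

open Cfsg Cfsg.Agent.Lib.Helper2_BlockLocal Cfsg.Agent.Lib.Helper2_BlockOm
  Cfsg.Agent.Lib.Helper2_BP2 Cfsg.Agent.Lib.GlaubP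
  Cfsg.Agent.Lib.CharBasic Cfsg.Agent.Lib.CharOrtho
  Cfsg.Agent.Lib.CharComplete Cfsg.Agent.Lib.CharIntegral Cfsg.Agent.Lib.CharMore
open scoped ComplexConjugate Classical

universe u

section fusion

variable {G C S : Type u} [Group G] [Fintype G] [Group C] [Fintype C] [Group S]
  {M : Ideal AlgInt} {p : ℕ} {φ : S →* MulAut G} {ι : C →* G}

theorem fusion (hM : IsPModular p M) (h : Setup φ ι p) {c c' : C} (hc : IsConj (ι c) (ι c')) :
    IsConj c c' := by
  have hP := isPrime_of_modular hM
  obtain ⟨x₀, hx₀⟩ := isConj_iff.mp hc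
  by_contra hcon
  have h1 := sum_G hM h (fun x => if x * ι c * x⁻¹ = ι c' then 1 else 0) (by
    intro s x
    have e : φ s x * ι c * (φ s x)⁻¹ = φ s (x * ι c * x⁻¹) := by
      rw [map_mul, map_mul, map_inv, h.fixed]
    have e2 : φ s x * ι c * (φ s x)⁻¹ = ι c' ↔ x * ι c * x⁻¹ = ι c' := by
      rw [e]
      constructor
      · intro e3
        rw [← h.fixed s c'] at e3
        exact (φ s).injective e3
      · intro e3
        rw [e3, h.fixed]
    simp only [e2]) (by
    intro x
    split_ifs
    · exact ring_one hP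
    · exact ring_zero hP)
  have h2 : ∑ d : C, (if ι d * ι c * (ι d)⁻¹ = ι c' then (1 : ℂ) else 0) = 0 := by
    refine Finset.sum_eq_zero fun d _ => ?_
    rw [if_neg]
    intro e
    apply hcon
    rw [isConj_iff]
    refine ⟨d, h.inj ?_⟩
    rw [map_mul, map_mul, map_inv, e]
  rw [h2, sub_zero, Finset.sum_boole, ideal_natCast_iff hM] at h1
  have h3 : (Finset.univ.filter (fun x : G => x * ι c * x⁻¹ = ι c')).card =
      Nat.card (Subgroup.centralizer ({ι c} : Set G)) := by
    rw [← Fintype.card_subtype, ← Nat.card_eq_fintype_card]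
    refine Nat.card_congr
      { toFun := fun x => ⟨x₀⁻¹ * x.1, ?_⟩
        invFun := fun z => ⟨x₀ * z.1, ?_⟩
        left_inv := fun x => by simp
        right_inv := fun z => by simp }
    · rw [Subgroup.mem_centralizer_singleton_iff]
      have e1 : x.1 * ι c * x.1⁻¹ = x₀ * ι c * x₀⁻¹ := x.2.trans hx₀.symm
      have e2 : x.1 * ι c = x₀ * ι c * x₀⁻¹ * x.1 := by
        rw [← e1]; group
      calc x₀⁻¹ * x.1 * ι c = x₀⁻¹ * (x.1 * ι c) := by group
        _ = x₀⁻¹ * (x₀ * ι c * x₀⁻¹ * x.1) := by rw [e2]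
        _ = ι c * (x₀⁻¹ * x.1) := by group
    · have e1 := Subgroup.mem_centralizer_singleton_iff.mp z.2
      calc x₀ * z.1 * ι c * (x₀ * z.1)⁻¹ = x₀ * (z.1 * ι c) * z.1⁻¹ * x₀⁻¹ := by group
        _ = x₀ * (ι c * z.1) * z.1⁻¹ * x₀⁻¹ := by rw [e1]
        _ = x₀ * ι c * x₀⁻¹ := by group
        _ = ι c' := hx₀
  rw [h3] at h1
  exact h.cop (h1.trans (Subgroup.card_subgroup_dvd_card _))

theorem exists_fixed_in_class (hM : IsPModular p M) (h : Setup φ ι p) (g : G)
    (hg : ∀ s, IsConj g (φ s g)) : ∃ c : C, IsConj g (ι c) := by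
  have hP := isPrime_of_modular hM
  by_contra hcon
  push Not at hcon
  have h1 := sum_G hM h (fun x => if IsConj g x then 1 else 0) (by
    intro s x
    have e2 : IsConj g (φ s x) ↔ IsConj g x := by
      constructor
      · intro e
        have e3 : IsConj (φ s⁻¹ g) (φ s⁻¹ (φ s x)) := (φ s⁻¹).toMonoidHom.map_isConj e
        have e4 : φ s⁻¹ (φ s x) = x := by
          rw [← MulAut.mul_apply, ← map_mul, inv_mul_cancel, map_one, MulAut.one_apply]
        rw [e4] at e3
        exact (hg s⁻¹).trans e3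
      · intro e
        exact (hg s).trans ((φ s).toMonoidHom.map_isConj e)
    simp only [e2]) (by
    intro x
    split_ifs
    · exact ring_one hP
    · exact ring_zero hP)
  have h2 : ∑ d : C, (if IsConj g (ι d) then (1 : ℂ) else 0) = 0 :=
    Finset.sum_eq_zero fun d _ => if_neg (hcon d)
  rw [h2, sub_zero, Finset.sum_boole, ideal_natCast_iff hM, card_class_eq_index] at h1
  exact h.cop (h1.trans (Subgroup.index_dvd_card _))

end fusion

section count

variable {G : Type u} [Group G] {A : Type u} [Group A] {p : ℕ}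

/-- a class is invariant under the action -/
def ClsInv (φ : A →* MulAut G) (K : ConjClasses G) : Prop :=
  ∀ a g, ConjClasses.mk g = K → ConjClasses.mk (φ a g) = K

/-- fixed points of a subgroup of operators -/
def fixSub (φ : A →* MulAut G) (T : Subgroup A) : Subgroup G where
  carrier := {g | ∀ t ∈ T, φ t g = g}
  mul_mem' := by
    intro a b ha hb t ht
    rw [map_mul, ha t ht, hb t ht]
  one_mem' := by
    intro t _
    exact map_one _
  inv_mem' := by
    intro a ha t ht
    rw [map_inv, ha t ht]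

theorem mem_fixSub (φ : A →* MulAut G) (T : Subgroup A) (g : G) :
    g ∈ fixSub φ T ↔ ∀ t ∈ T, φ t g = g := Iff.rfl

theorem apply_mem_fixSub (φ : A →* MulAut G) (T : Subgroup A) [hT : T.Normal] (a : A) {g : G}
    (hg : g ∈ fixSub φ T) : φ a g ∈ fixSub φ T := by
  intro t ht
  have h1 : a⁻¹ * t * a ∈ T := by
    have := hT.conj_mem t ht a⁻¹
    rwa [inv_inv] at this
  have h2 := hg _ h1
  have h3 : φ t (φ a g) = φ a (φ (a⁻¹ * t * a) g) := by
    rw [← MulAut.mul_apply, ← MulAut.mul_apply, ← map_mul, ← map_mul]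
    congr 2
    group
  rw [h3, h2]

/-- the action on the fixed points of a normal subgroup of operators -/
def resHom (φ : A →* MulAut G) (T : Subgroup A) [T.Normal] : A →* MulAut (fixSub φ T) where
  toFun a :=
    { toFun := fun d => ⟨φ a d, apply_mem_fixSub φ T a d.2⟩
      invFun := fun d => ⟨φ a⁻¹ d, apply_mem_fixSub φ T a⁻¹ d.2⟩
      left_inv := fun d => by
        apply Subtype.ext
        change φ a⁻¹ (φ a d) = d
        rw [← MulAut.mul_apply, ← map_mul, inv_mul_cancel, map_one, MulAut.one_apply]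
      right_inv := fun d => by
        apply Subtype.ext
        change φ a (φ a⁻¹ d) = d
        rw [← MulAut.mul_apply, ← map_mul, mul_inv_cancel, map_one, MulAut.one_apply]
      map_mul' := fun d d' => by
        apply Subtype.ext
        change φ a (d * d') = φ a d * φ a d'
        rw [map_mul] }
  map_one' := by
    ext d
    change φ 1 d = d
    rw [map_one, MulAut.one_apply]
  map_mul' a b := by
    ext d
    change φ (a * b) d = φ a (φ b d)
    rw [map_mul, MulAut.mul_apply]

theorem resHom_apply (φ : A →* MulAut G) (T : Subgroup A) [T.Normal] (a : A) (d : fixSub φ T) :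
    ((resHom φ T a d : fixSub φ T) : G) = φ a d := rfl

theorem setup_fix (φ : A →* MulAut G) (T : Subgroup A) (hT : IsPGroup p T)
    (hpG : ¬ p ∣ Nat.card G) : Setup (φ.comp T.subtype) (fixSub φ T).subtype p where
  inj := Subtype.val_injective
  fix := by
    intro g
    constructor
    · intro h
      exact ⟨⟨g, fun t ht => h ⟨t, ht⟩⟩, rfl⟩
    · rintro ⟨d, rfl⟩ s
      exact d.2 s s.2
  pgrp := hT
  cop := hpG

theorem rel_equivariant [Finite G] (φ : A →* MulAut G) (T : Subgroup A) [T.Normal]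
    [Fintype (fixSub φ T)] (a : A) (χ : IrrCharacter G) (β : IrrCharacter (fixSub φ T)) :
    classInner (((mapIrr (φ a) χ : IrrCharacter G) : G → ℂ) ∘ (fixSub φ T).subtype)
      ((mapIrr (resHom φ T a) β : IrrCharacter (fixSub φ T)) : fixSub φ T → ℂ) =
    classInner ((χ : G → ℂ) ∘ (fixSub φ T).subtype) (β : fixSub φ T → ℂ) := by
  unfold classInner
  congr 1
  rw [← Equiv.sum_comp (resHom φ T a).toEquiv]
  refine Finset.sum_congr rfl fun d _ => ?_
  have e1 : ((mapIrr (resHom φ T a) β : IrrCharacter (fixSub φ T)) : fixSub φ T → ℂ)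
      ((resHom φ T a).toEquiv d) = (β : fixSub φ T → ℂ) d := mapIrr_apply _ β d
  have e2 : (((mapIrr (φ a) χ : IrrCharacter G) : G → ℂ) ∘ (fixSub φ T).subtype)
      ((resHom φ T a).toEquiv d) = ((χ : G → ℂ) ∘ (fixSub φ T).subtype) d :=
    mapIrr_apply (φ a) χ (d : G)
  rw [e1, e2]

theorem card_inv_char [Finite G] (hp : p.Prime) (φ : A →* MulAut G) (T : Subgroup A) [hTn : T.Normal]
    (hT : IsPGroup p T) (hpG : ¬ p ∣ Nat.card G) :
    Nat.card {χ : IrrCharacter G // Inv φ (χ : G → ℂ)} =
      Nat.card {β : IrrCharacter (fixSub φ T) // Inv (resHom φ T) (β : fixSub φ T → ℂ)} := by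
  haveI : Fintype G := Fintype.ofFinite _
  haveI : Fintype (fixSub φ T) := Fintype.ofFinite _
  have h := setup_fix φ T hT hpG
  obtain ⟨m1, -, m3, m4⟩ := main hp h
  have hsub : ∀ χ : IrrCharacter G, Inv φ (χ : G → ℂ) → Inv (φ.comp T.subtype) (χ : G → ℂ) :=
    fun χ hχ s g => hχ s g
  have hR : ∀ (a : A) (χ : IrrCharacter G) (β : IrrCharacter (fixSub φ T)),
      (∃ m : ℕ, classInner ((χ : G → ℂ) ∘ (fixSub φ T).subtype) (β : fixSub φ T → ℂ) = m ∧
        ¬ p ∣ m) →
      ∃ m : ℕ, classInner (((mapIrr (φ a) χ : IrrCharacter G) : G → ℂ) ∘ (fixSub φ T).subtype)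
        ((mapIrr (resHom φ T a) β : IrrCharacter (fixSub φ T)) : fixSub φ T → ℂ) = m ∧
        ¬ p ∣ m := by
    rintro a χ β ⟨m, hm, hpm⟩
    exact ⟨m, by rw [rel_equivariant]; exact hm, hpm⟩
  have hTinv : ∀ (a : A) (χ : IrrCharacter G), Inv (φ.comp T.subtype) (χ : G → ℂ) →
      Inv (φ.comp T.subtype) ((mapIrr (φ a) χ : IrrCharacter G) : G → ℂ) := by
    intro a χ hχ t g
    rw [mapIrr_coe]
    have h1 : a⁻¹ * t * a ∈ T := by
      have := hTn.conj_mem t t.2 a⁻¹
      rwa [inv_inv] at this
    have h2 := hχ ⟨_, h1⟩ ((φ a).symm g)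
    have h3 : (φ a).symm ((φ.comp T.subtype) t g) =
        (φ.comp T.subtype) ⟨_, h1⟩ ((φ a).symm g) := by
      apply (φ a).injective
      rw [MulEquiv.apply_symm_apply]
      change φ t g = φ a (φ (a⁻¹ * t * a) ((φ a).symm g))
      rw [← MulAut.mul_apply, ← map_mul]
      have : a * (a⁻¹ * ↑t * a) = t * a := by group
      rw [this, map_mul, MulAut.mul_apply, MulEquiv.apply_symm_apply]
    simp only [Function.comp]
    rw [h3, h2]
  choose f hf using fun χ : {χ : IrrCharacter G // Inv φ (χ : G → ℂ)} =>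
    (m1 χ.1 (hsub _ χ.2)).exists
  have hfinv : ∀ χ, Inv (resHom φ T) ((f χ : IrrCharacter (fixSub φ T)) : fixSub φ T → ℂ) := by
    intro χ
    rw [← actIrr_fixed_iff]
    intro a
    have h1 := hR a χ.1 (f χ) (hf χ)
    rw [(actIrr_fixed_iff φ χ.1).mpr χ.2 a] at h1
    exact (m1 χ.1 (hsub _ χ.2)).unique h1 (hf χ)
  refine Nat.card_eq_of_bijective (fun χ => ⟨f χ, hfinv χ⟩) ⟨?_, ?_⟩
  · intro χ χ' e
    have e' : f χ = f χ' := congrArg Subtype.val e
    obtain ⟨m, hm, hpm⟩ := hf χ
    obtain ⟨m', hm', hpm'⟩ := hf χ'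
    rw [← e'] at hm'
    exact Subtype.ext (m3 χ.1 χ'.1 (hsub _ χ.2) (hsub _ χ'.2) (f χ) m m' hm hpm hm' hpm')
  · rintro ⟨β, hβ⟩
    obtain ⟨χ, hχ, hm⟩ := m4 β
    have hχA : Inv φ (χ : G → ℂ) := by
      rw [← actIrr_fixed_iff]
      intro a
      have h1 := hR a χ β hm
      rw [(actIrr_fixed_iff _ β).mpr hβ a] at h1
      obtain ⟨m, hm, hpm⟩ := hm
      obtain ⟨m', hm', hpm'⟩ := h1
      exact m3 _ _ (hTinv a χ hχ) hχ β m' m hm' hpm' hm hpm
    refine ⟨⟨χ, hχA⟩, Subtype.ext ?_⟩
    exact (m1 χ hχ).unique (hf ⟨χ, hχA⟩) hm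

theorem card_inv_cls [Finite G] (hp : p.Prime) (φ : A →* MulAut G) (T : Subgroup A)
    [hTn : T.Normal] (hT : IsPGroup p T) (hpG : ¬ p ∣ Nat.card G) :
    Nat.card {L : ConjClasses (fixSub φ T) // ClsInv (resHom φ T) L} =
      Nat.card {K : ConjClasses G // ClsInv φ K} := by
  haveI : Fintype G := Fintype.ofFinite _
  haveI : Fintype (fixSub φ T) := Fintype.ofFinite _
  obtain ⟨M, hM⟩ := Cfsg.Agent.Lib.helper8_DefectZero.exists_modular hp
  have h := setup_fix φ T hT hpG
  have hwd : ∀ L : ConjClasses (fixSub φ T), ClsInv (resHom φ T) L →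
      ClsInv φ (ConjClasses.map (fixSub φ T).subtype L) := by
    intro L hL a g hg
    obtain ⟨d, rfl⟩ := ConjClasses.exists_rep L
    have hg' : IsConj g (d : G) := ConjClasses.mk_eq_mk_iff_isConj.mp hg
    have h1 : IsConj (φ a g) (φ a d) := (φ a).toMonoidHom.map_isConj hg'
    have h2 : IsConj (resHom φ T a d) d := ConjClasses.mk_eq_mk_iff_isConj.mp (hL a d rfl)
    have h3 : IsConj (φ a d) (d : G) := (fixSub φ T).subtype.map_isConj h2
    exact ConjClasses.mk_eq_mk_iff_isConj.mpr (h1.trans h3)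
  refine Nat.card_eq_of_bijective (fun L => ⟨ConjClasses.map (fixSub φ T).subtype L.1,
    hwd L.1 L.2⟩) ⟨?_, ?_⟩
  · rintro ⟨L, hL⟩ ⟨L', hL'⟩ e
    obtain ⟨d, rfl⟩ := ConjClasses.exists_rep L
    obtain ⟨d', rfl⟩ := ConjClasses.exists_rep L'
    have e1 : ConjClasses.mk (d : G) = ConjClasses.mk (d' : G) := congrArg Subtype.val e
    apply Subtype.ext
    exact ConjClasses.mk_eq_mk_iff_isConj.mpr
      (fusion hM h (ConjClasses.mk_eq_mk_iff_isConj.mp e1))
  · rintro ⟨K, hK⟩
    obtain ⟨g, rfl⟩ := ConjClasses.exists_rep K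
    obtain ⟨d, hd⟩ := exists_fixed_in_class hM h g (fun s =>
      (ConjClasses.mk_eq_mk_iff_isConj.mp (hK s g rfl)).symm)
    have hd' : IsConj g (d : G) := hd
    have hL : ClsInv (resHom φ T) (ConjClasses.mk d) := by
      intro a d' hd2
      have h1 : IsConj d' d := ConjClasses.mk_eq_mk_iff_isConj.mp hd2
      have h2 : IsConj (d' : G) (d : G) := (fixSub φ T).subtype.map_isConj h1
      have h3 := hK a (d' : G) (ConjClasses.mk_eq_mk_iff_isConj.mpr (h2.trans hd'.symm))
      have h4 : IsConj (φ a d') g := ConjClasses.mk_eq_mk_iff_isConj.mp h3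
      exact ConjClasses.mk_eq_mk_iff_isConj.mpr
        (fusion hM h (c := resHom φ T a d') (c' := d) (h4.trans hd'))
    refine ⟨⟨ConjClasses.mk d, hL⟩, Subtype.ext ?_⟩
    exact ConjClasses.mk_eq_mk_iff_isConj.mpr hd'.symm

end count

theorem count_aux : ∀ (n : ℕ) (G : Type u) [Group G] [Finite G] (A : Type u) [Group A] [Finite A]
    [Group.IsSolvable A] (φ : A →* MulAut G), Nat.card A ≤ n →
    (Nat.card G).Coprime (Nat.card A) →
    Nat.card {χ : IrrCharacter G // Inv φ (χ : G → ℂ)} =
      Nat.card {K : ConjClasses G // ClsInv φ K} := by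
  intro n
  induction n with
  | zero =>
    intro G _ _ A _ _ _ φ hA
    have := Nat.card_pos (α := A)
    omega
  | succ n ih =>
    intro G _ _ A _ _ _ φ hA hcop
    by_cases hnt : Nontrivial A
    · obtain ⟨p, T, hp, hTn, hTbot, -, hpow, -⟩ :=
        Cfsg.Agent.Lib.Helper1_MinNormal.exists_normal_elementary_abelian (G := A)
      haveI := hTn
      haveI : Fact p.Prime := ⟨hp⟩
      have hT : IsPGroup p T := fun x => ⟨1, by rw [pow_one]; exact Subtype.ext (hpow x x.2)⟩
      have hpT : p ∣ Nat.card T := by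
        obtain ⟨k, hk⟩ := IsPGroup.iff_card.mp hT
        rw [hk]
        refine dvd_pow_self p ?_
        rintro rfl
        rw [pow_zero] at hk
        exact hTbot (Subgroup.card_eq_one.mp hk)
      have hpG : ¬ p ∣ Nat.card G := by
        intro h1
        have h2 := Nat.dvd_gcd h1 (hpT.trans (Subgroup.card_subgroup_dvd_card T))
        rw [hcop] at h2
        exact hp.one_lt.ne' (Nat.dvd_one.mp h2)
      rw [card_inv_char hp φ T hT hpG, ← card_inv_cls hp φ T hT hpG]
      have hker : ∀ t ∈ T, resHom φ T t = 1 := by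
        intro t ht
        ext d
        exact d.2 t ht
      have e1 : ∀ b : fixSub φ T → ℂ,
          Inv (QuotientGroup.lift T (resHom φ T) hker) b ↔ Inv (resHom φ T) b := by
        intro b
        constructor
        · intro h a d
          exact h (a : A ⧸ T) d
        · intro h a d
          obtain ⟨a, rfl⟩ := QuotientGroup.mk_surjective a
          exact h a d
      have e2 : ∀ L : ConjClasses (fixSub φ T),
          ClsInv (QuotientGroup.lift T (resHom φ T) hker) L ↔ ClsInv (resHom φ T) L := by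
        intro L
        constructor
        · intro h a d
          exact h (a : A ⧸ T) d
        · intro h a d
          obtain ⟨a, rfl⟩ := QuotientGroup.mk_surjective a
          exact h a d
      have hcard : Nat.card (A ⧸ T) ≤ n := by
        have h1 := T.card_mul_index
        have h2 : 2 ≤ Nat.card T := le_trans hp.two_le (Nat.le_of_dvd Nat.card_pos hpT)
        have h3 : Nat.card (A ⧸ T) = T.index := rfl
        have h4 : 0 < T.index := Nat.pos_of_ne_zero T.index_ne_zero_of_finite
        rw [h3]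
        nlinarith
      have hcop' : (Nat.card (fixSub φ T)).Coprime (Nat.card (A ⧸ T)) :=
        Nat.Coprime.coprime_dvd_left (Subgroup.card_subgroup_dvd_card _)
          (Nat.Coprime.coprime_dvd_right (Subgroup.index_dvd_card T) hcop)
      have := ih (fixSub φ T) (A ⧸ T) (QuotientGroup.lift T (resHom φ T) hker) hcard hcop'
      simp only [e1, e2] at this
      exact this
    · rw [not_nontrivial_iff_subsingleton] at hnt
      have h1 : ∀ a : A, φ a = 1 := fun a => by rw [Subsingleton.elim a 1, map_one]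
      haveI : Fintype G := Fintype.ofFinite _
      rw [Nat.card_congr (Equiv.subtypeUnivEquiv (fun χ : IrrCharacter G => by
          intro a g; rw [h1 a, MulAut.one_apply])),
        Nat.card_congr (Equiv.subtypeUnivEquiv (fun K : ConjClasses G => by
          intro a g hg; rw [h1 a, MulAut.one_apply]; exact hg))]
      exact card_irr_eq_card_conjClasses

/-- **Coprime solvable action**: as many invariant characters as invariant classes. -/
theorem count (G : Type u) [Group G] [Finite G] (A : Type u) [Group A] [Finite A]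
    [Group.IsSolvable A] (φ : A →* MulAut G) (hcop : (Nat.card G).Coprime (Nat.card A)) :
    Nat.card {χ : IrrCharacter G // Inv φ (χ : G → ℂ)} =
      Nat.card {K : ConjClasses G // ClsInv φ K} :=
  count_aux _ G A φ le_rfl hcop

end Cfsg.Agent.Lib.GlaubCount
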