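import Cfsg.Agent.Lib.Helper4_Transfer

set_option autoImplicit false

namespace Cfsg.Agent.Lib.Helper4_Fusion

open scoped Pointwise commutatorElement
open Cfsg Cfsg.Agent.Lib.Helper4_Syl Cfsg.Agent.Lib.Helper4_Alperin Cfsg.Agent.Lib.Helper4_Control
  Cfsg.Agent.Lib.Helper4_Control2 Cfsg.Agent.Lib.Helper4_Control3 Cfsg.Agent.Lib.Helper4_Transfer

variable {G : Type*} [Group G] {p : ℕ}

local notation "N(" A ")" => Subgroup.normalizer ((A : Subgroup G) : Set G)

/-- if `L ≥ P` controls fusion of elements of `P` then `G' ∩ P = L' ∩ P`. -/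
theorem commutator_inf_eq_of_fusion [Finite G] [Fact p.Prime] (P : Sylow p G) (L : Subgroup G)
    (hPL : (P : Subgroup G) ≤ L)
    (h : ∀ a ∈ (P : Subgroup G), ∀ g : G, g * a * g⁻¹ ∈ (P : Subgroup G) →
      ∃ n ∈ L, n * a * n⁻¹ = g * a * g⁻¹) :
    commutator G ⊓ (P : Subgroup G) = ⁅L, L⁆ ⊓ (P : Subgroup G) := by
  apply le_antisymm
  · rw [commutator_def, inf_comm]
    refine (focal_rel (IsSylIn.of_sylow_top P)).trans ?_
    rw [Subgroup.closure_le]
    rintro _ ⟨a, ha, g, -, hga, rfl⟩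
    obtain ⟨n, hn, hna⟩ := h a ha g hga
    refine Subgroup.mem_inf.2 ⟨?_, (P : Subgroup G).mul_mem ((P : Subgroup G).inv_mem ha) hga⟩
    rw [← hna]
    have := Subgroup.commutator_mem_commutator (L.inv_mem (hPL ha)) hn
    simpa [commutatorElement_def, mul_assoc] using this
  · rw [commutator_def]
    exact inf_le_inf_right _ (Subgroup.commutator_mono le_top le_top)

/-- Burnside's fusion argument for elements. -/
theorem burnside_fusion [Finite G] [Fact p.Prime] (P : Sylow p G) {a g : G}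
    (h1 : (P : Subgroup G) ≤ Subgroup.centralizer ({a} : Set G))
    (h2 : (P : Subgroup G) ≤ Subgroup.centralizer ({g * a * g⁻¹} : Set G)) :
    ∃ n ∈ N((P : Subgroup G)), n * a * n⁻¹ = g * a * g⁻¹ := by
  have hS := IsSylIn.of_sylow_top P
  set C := Subgroup.centralizer ({a} : Set G) with hC
  have h2' : lc g⁻¹ (P : Subgroup G) ≤ C := by
    rw [lc_le_iff, inv_inv, hC]
    rw [centralizer_conj_singleton] at h2
    exact h2
  have hS1 : IsSylIn p (P : Subgroup G) C := hS.mono h1 le_top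
  have hS2 : IsSylIn p (lc g⁻¹ (P : Subgroup G)) C :=
    (hS.smul_of_mem (Subgroup.mem_top g⁻¹)).mono h2' le_top
  obtain ⟨c, hc, hcP⟩ := hS2.conj hS1
  have hcP' : lc (c * g⁻¹) (P : Subgroup G) = (P : Subgroup G) := by rw [lc_mul]; exact hcP
  refine ⟨(c * g⁻¹)⁻¹, Subgroup.inv_mem _ (mem_normalizer_iff_lc.2 hcP'), ?_⟩
  have hca : c * a = a * c := Subgroup.mem_centralizer_singleton_iff.1 hc
  have hca' : c⁻¹ * a * c = a := by rw [mul_assoc, ← hca]; group
  calc (c * g⁻¹)⁻¹ * a * (c * g⁻¹)⁻¹⁻¹ = g * (c⁻¹ * a * c) * g⁻¹ := by group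
    _ = g * a * g⁻¹ := by rw [hca']

end Cfsg.Agent.Lib.Helper4_Fusion
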