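import Mathlib
import Cfsg.Agent.S0215
import Cfsg.Agent.Lib.Helper4_Fusion
import Cfsg.Agent.Lib.Helper9_Abelian
set_option autoImplicit false

namespace Cfsg.Agent.Lib.Helper1_AutSyl

open Subgroup Cfsg.Agent.Lib.Helper9_Abelian

universe u

/-- An abelian Sylow 2-subgroup of a group with a proper normal subgroup of 2-power index and abelian
quotient contains an involution centralised by its normaliser. -/
theorem exists_fixed_involution {Γ : Type u} [Group Γ] [Finite Γ] (G : Subgroup Γ)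
    (hidx : ∃ k : ℕ, G.index = 2 ^ k) (hne : G ≠ ⊤) (hcomm : ∀ a b : Γ, a * b * a⁻¹ * b⁻¹ ∈ G)
    (T : Sylow 2 Γ) (hT : IsMulCommutative (T : Subgroup Γ)) :
    ∃ t ∈ (T : Subgroup Γ), orderOf t = 2 ∧
      ∀ n ∈ normalizer ((T : Subgroup Γ) : Set Γ), n * t * n⁻¹ = t := by
  classical
  set A : Subgroup (MulAut ↥(T : Subgroup Γ)) := (T : Subgroup Γ).normalizerMonoidHom.range with hA
  haveI : Fintype A := Fintype.ofFinite A
  obtain ⟨a, ha⟩ := T.2.exists_card_eq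
  -- `|A|` is odd
  have hAodd : ¬ 2 ∣ Nat.card A := by
    intro h2
    have h1 : Nat.card A = (T : Subgroup Γ).normalizerMonoidHom.ker.index :=
      (Subgroup.index_ker _).symm
    have h3 : (T : Subgroup Γ).subgroupOf (normalizer ((T : Subgroup Γ) : Set Γ)) ≤
        (T : Subgroup Γ).normalizerMonoidHom.ker := by
      rw [normalizerMonoidHom_ker]
      intro x hx
      rw [mem_subgroupOf] at hx ⊢
      rw [mem_centralizer_iff]
      intro y hy
      have := hT.is_comm.comm ⟨y, hy⟩ ⟨x, hx⟩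
      exact congrArg Subtype.val this
    have h4 := Subgroup.index_dvd_of_le h3
    have h5 : ((T : Subgroup Γ).subgroupOf (normalizer ((T : Subgroup Γ) : Set Γ))).index ∣
        (T : Subgroup Γ).index := Subgroup.relIndex_dvd_index_of_le le_normalizer
    exact T.not_dvd_index (((h1 ▸ h2).trans h4).trans h5)
  have hcop : (Fintype.card A).Coprime (Nat.card ↥(T : Subgroup Γ)) := by
    rw [← Nat.card_eq_fintype_card, ha]
    exact Nat.Coprime.pow_right _ ((Nat.coprime_comm.1 ((Nat.Prime.coprime_iff_not_dvd Nat.prime_two).2 hAodd)))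
  have hsup := fix_sup_comm A hcop
  have hcle : commSub A ≤ G.subgroupOf (T : Subgroup Γ) := by
    unfold commSub
    rw [closure_le]
    rintro y ⟨α, ⟨n, rfl⟩, x, rfl⟩
    show _ ∈ G.subgroupOf (T : Subgroup Γ)
    rw [mem_subgroupOf]
    have := hcomm (x : Γ)⁻¹ (n : Γ)
    rw [inv_inv] at this
    show ((x : Γ))⁻¹ * ((n : Γ) * x * (n : Γ)⁻¹) ∈ G
    simpa [mul_assoc] using this
  have hfix : fixSub A ≠ ⊥ := by
    intro h0
    rw [h0, bot_sup_eq] at hsup
    have hTG : (T : Subgroup Γ) ≤ G := by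
      intro x hx
      have : (⟨x, hx⟩ : ↥(T : Subgroup Γ)) ∈ commSub A := by rw [hsup]; trivial
      exact hcle this
    obtain ⟨k, hk⟩ := hidx
    have h1 := Subgroup.index_dvd_of_le hTG
    rcases Nat.eq_zero_or_pos k with rfl | hk0
    · exact hne (Subgroup.index_eq_one.1 (by simpa using hk))
    · exact T.not_dvd_index ((hk ▸ dvd_pow_self 2 hk0.ne').trans h1)
  -- an involution in the fixed subgroup
  have h2 : 2 ∣ Nat.card (fixSub A) := by
    have h1 : Nat.card (fixSub A) ∣ 2 ^ a := ha ▸ Subgroup.card_subgroup_dvd_card _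
    obtain ⟨b, -, hb⟩ := (Nat.dvd_prime_pow Nat.prime_two).1 h1
    rcases Nat.eq_zero_or_pos b with rfl | hb0
    · exact absurd ((Subgroup.card_eq_one).1 (by simpa using hb)) hfix
    · rw [hb]; exact dvd_pow_self 2 hb0.ne'
  obtain ⟨x, hx⟩ := exists_prime_orderOf_dvd_card' 2 h2
  refine ⟨((x : ↥(T : Subgroup Γ)) : Γ), (x : ↥(T : Subgroup Γ)).2, ?_, ?_⟩
  · rw [Subgroup.orderOf_coe, Subgroup.orderOf_coe, hx]
  · intro n hn
    have h1 := x.2 ((T : Subgroup Γ).normalizerMonoidHom ⟨n, hn⟩) ⟨_, rfl⟩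
    exact congrArg Subtype.val h1

theorem mem_zpowers_two {Γ : Type u} [Group Γ] {t z : Γ} (ht : orderOf t = 2) (hz : z ∈ zpowers t) :
    z = 1 ∨ z = t := by
  have ht2 : t ^ 2 = 1 := ht ▸ pow_orderOf_eq_one t
  obtain ⟨i, rfl⟩ := mem_zpowers_iff.1 hz
  rcases Int.even_or_odd' i with ⟨m, rfl | rfl⟩
  · left
    rw [zpow_mul, zpow_ofNat, ht2, one_zpow]
  · right
    rw [zpow_add, zpow_mul, zpow_ofNat, ht2, one_zpow, one_mul, zpow_one]

theorem main_aux (n : ℕ) : ∀ (Γ : Type u) [Group Γ] [Finite Γ] (G : Subgroup Γ) [G.Normal],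
    Nat.card Γ = n → (∃ k : ℕ, G.index = 2 ^ k) → (∀ a b : Γ, a * b * a⁻¹ * b⁻¹ ∈ G) →
    ∀ T : Sylow 2 Γ, IsMulCommutative (T : Subgroup Γ) →
    (∀ N : Subgroup Γ, N ≤ G → (∀ g ∈ G, ∀ x ∈ N, g * x * g⁻¹ ∈ N) → Odd (Nat.card N) → N = ⊥) →
    (∀ x ∈ G, (∀ g ∈ G, g * x = x * g) → x = 1) →
    ∀ γ : Γ, ∃ g ∈ G, ∀ x ∈ G, (g⁻¹ * γ) * x = x * (g⁻¹ * γ) := by
  induction n using Nat.strong_induction_on with
  | _ n ih =>
  intro Γ _ _ G _ hn hidx hcomm T hT hO hZ γ
  by_cases hne : G = ⊤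
  · exact ⟨γ, hne ▸ mem_top γ, fun x _ => by simp⟩
  obtain ⟨t, htT, ht2, htN⟩ := exists_fixed_involution G hidx hne hcomm T hT
  -- `t` is isolated
  have hiso : ∀ g : Γ, g * t * g⁻¹ ∈ T → g * t * g⁻¹ = t := by
    intro g hg
    have hc : ∀ y ∈ (T : Subgroup Γ), (T : Subgroup Γ) ≤ centralizer ({y} : Set Γ) := by
      intro y hy x hx
      rw [mem_centralizer_singleton_iff]
      exact congrArg Subtype.val (hT.is_comm.comm ⟨x, hx⟩ ⟨y, hy⟩)
    obtain ⟨m, hm, hm2⟩ := Cfsg.Agent.Lib.Helper4_Fusion.burnside_fusion T (hc t htT) (hc _ hg)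
    rw [← hm2]
    exact htN m hm
  obtain ⟨M, hMn, hModd, hM⟩ := Cfsg.Agent.S0215.result T t ht2 htT hiso
  obtain ⟨k, hk⟩ := hidx
  have hMG : M ≤ G := by
    intro m hm
    rw [← QuotientGroup.eq_one_iff, ← orderOf_eq_one_iff]
    have h1 : orderOf ((m : Γ) : Γ ⧸ G) ∣ Nat.card M :=
      (orderOf_map_dvd (QuotientGroup.mk' G) m).trans
        ((Subgroup.orderOf_mk m hm) ▸ orderOf_dvd_natCard (⟨m, hm⟩ : M))
    have h2 : orderOf ((m : Γ) : Γ ⧸ G) ∣ 2 ^ k := by
      rw [← hk]; exact orderOf_dvd_natCard _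
    exact Nat.eq_one_of_dvd_coprimes (Nat.Coprime.pow_right k hModd.coprime_two_right) h1 h2
  have hMbot : M = ⊥ := hO M hMG (fun g _ x hx => hMn.conj_mem x hx g) hModd
  have htc : ∀ g : Γ, g * t = t * g := by
    intro g
    have h1 := hM g
    rw [hMbot, mem_bot] at h1
    have : t * g = g * t := by
      have h2 : t * g * t⁻¹ * g⁻¹ * (g * t) = g * t := by rw [h1, one_mul]
      rw [← h2]; group
    exact this.symm
  have ht1 : t ≠ 1 := by
    rintro rfl
    simp at ht2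
  have htG : t ∉ G := fun h => ht1 (hZ t h (fun g _ => htc g))
  set Z : Subgroup Γ := zpowers t with hZdef
  have hZG : ∀ z ∈ Z, z ∈ G → z = 1 := by
    intro z hz hzG
    rcases mem_zpowers_two ht2 hz with h | h
    · exact h
    · exact absurd (h ▸ hzG) htG
  haveI hZn : Z.Normal := by
    refine ⟨fun z hz g => ?_⟩
    rcases mem_zpowers_two ht2 hz with rfl | rfl
    · simp
    · rw [htc g, mul_inv_cancel_right]; exact hz
  have hcardZ : Nat.card Z = 2 := by rw [hZdef, Nat.card_zpowers, ht2]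
  have hlt : Nat.card (Γ ⧸ Z) < n := by
    have h1 := Subgroup.card_eq_card_quotient_mul_card_subgroup Z
    rw [hn, hcardZ] at h1
    have h2 : 0 < Nat.card (Γ ⧸ Z) := Nat.card_pos
    omega
  set π : Γ →* Γ ⧸ Z := QuotientGroup.mk' Z with hπ
  have hπs : Function.Surjective π := QuotientGroup.mk'_surjective Z
  have hπeq : ∀ a b : Γ, π a = π b → a⁻¹ * b ∈ Z := fun a b h => QuotientGroup.eq.1 h
  haveI : (G.map π).Normal := Subgroup.Normal.map inferInstance π hπs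
  have key := ih _ hlt (Γ ⧸ Z) (G.map π) rfl
    (by
      have h1 : (G.map π).index ∣ 2 ^ k := hk ▸ Subgroup.index_map_dvd G hπs
      obtain ⟨k', -, hk'⟩ := (Nat.dvd_prime_pow Nat.prime_two).1 h1
      exact ⟨k', hk'⟩)
    (by
      intro a b
      obtain ⟨a, rfl⟩ := hπs a
      obtain ⟨b, rfl⟩ := hπs b
      exact ⟨_, hcomm a b, by simp⟩)
    (T.mapSurjective hπs)
    (by
      rw [Sylow.coe_mapSurjective]
      infer_instance)
    (by
      intro N' hN'G hN'n hN'odd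
      have h1 : N'.comap π ⊓ G = ⊥ := by
        apply hO _ inf_le_right
        · intro g hg x hx
          refine ⟨?_, ‹G.Normal›.conj_mem x hx.2 g⟩
          show π (g * x * g⁻¹) ∈ N'
          rw [map_mul, map_mul, map_inv]
          exact hN'n _ (mem_map_of_mem π hg) _ hx.1
        · let f : ↥(N'.comap π ⊓ G) →* N' :=
            (π.comp (N'.comap π ⊓ G).subtype).codRestrict N' (fun x => x.2.1)
          have hf : Function.Injective f := by
            intro x y hxy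
            have h2 : π x = π y := congrArg Subtype.val hxy
            have h3 := hZG _ (hπeq _ _ h2) (G.mul_mem (G.inv_mem x.2.2) y.2.2)
            exact Subtype.ext (inv_mul_eq_one.1 h3)
          exact Odd.of_dvd_nat hN'odd (Subgroup.card_dvd_of_injective f hf)
      rw [eq_bot_iff]
      intro y hy
      obtain ⟨g, hg, rfl⟩ := hN'G hy
      have : g ∈ N'.comap π ⊓ G := ⟨hy, hg⟩
      rw [h1, mem_bot] at this
      rw [this, map_one]; exact one_mem _)
    (by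
      rintro x' ⟨x, hx, rfl⟩ hx'
      have : x = 1 := by
        apply hZ x hx
        intro g hg
        have h2 := hx' _ (mem_map_of_mem π hg)
        rw [← map_mul, ← map_mul] at h2
        have h3 := hZG _ (hπeq _ _ h2) (G.mul_mem (G.inv_mem (G.mul_mem hg hx)) (G.mul_mem hx hg))
        exact inv_mul_eq_one.1 h3
      rw [this, map_one])
    (π γ)
  obtain ⟨g', ⟨g, hg, rfl⟩, hg'⟩ := key
  refine ⟨g, hg, fun x hx => ?_⟩
  have h2 := hg' _ (mem_map_of_mem π hx)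
  rw [← map_inv, ← map_mul, ← map_mul, ← map_mul] at h2
  have h3 : (g⁻¹ * γ * x)⁻¹ * (x * (g⁻¹ * γ)) ∈ G := by
    have e : (g⁻¹ * γ * x)⁻¹ * (x * (g⁻¹ * γ)) = x⁻¹ * ((g⁻¹ * γ)⁻¹ * x * (g⁻¹ * γ)⁻¹⁻¹) := by group
    rw [e]
    exact G.mul_mem (G.inv_mem hx) (‹G.Normal›.conj_mem x hx _)
  exact inv_mul_eq_one.1 (hZG _ (hπeq _ _ h2) h3)

theorem main {Γ : Type u} [Group Γ] [Finite Γ] (G : Subgroup Γ) [G.Normal]
    (hidx : ∃ k : ℕ, G.index = 2 ^ k) (hcomm : ∀ a b : Γ, a * b * a⁻¹ * b⁻¹ ∈ G)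
    (T : Sylow 2 Γ) (hT : IsMulCommutative (T : Subgroup Γ))
    (hO : ∀ N : Subgroup Γ, N ≤ G → (∀ g ∈ G, ∀ x ∈ N, g * x * g⁻¹ ∈ N) → Odd (Nat.card N) → N = ⊥)
    (hZ : ∀ x ∈ G, (∀ g ∈ G, g * x = x * g) → x = 1) (γ : Γ) :
    ∃ g ∈ G, ∀ x ∈ G, (g⁻¹ * γ) * x = x * (g⁻¹ * γ) :=
  main_aux _ Γ G rfl hidx hcomm T hT hO hZ γ

end Cfsg.Agent.Lib.Helper1_AutSyl
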