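import Mathlib
import Cfsg.Agent.Lib.Helper1_Kazarin

/-! If the characters of `p'`-degree in the principal `p`-block are linear, the linear characters of
a Sylow `p`-subgroup extend. -/

set_option autoImplicit false

namespace Cfsg.Agent.Lib.Helper1_B0Lin

open Cfsg Cfsg.Agent.Lib.CharBasic Cfsg.Agent.Lib.CharOrtho Cfsg.Agent.Lib.CharComplete
  Cfsg.Agent.Lib.CharMore Cfsg.Agent.Lib.CharLinear
  Cfsg.Agent.Lib.Helper2_BlockLocal Cfsg.Agent.Lib.Helper2_BlockOrtho
  Cfsg.Agent.Lib.Helper2_BlockThird Cfsg.Agent.Lib.Helper1_Kazarin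
open scoped ComplexConjugate

universe u

variable {G : Type u} [Group G] [Fintype G] {p : ℕ}

/-- The linear characters of the principal block that are trivial on `P`. -/
def Lam0 (M : Ideal AlgInt) (hP : M.IsPrime) (P : Subgroup G) : Subgroup (G →* ℂˣ) :=
  Lam (G := G) M hP ⊓ (MonoidHom.compHom' (P := ℂˣ) P.subtype).ker

theorem mem_Lam0 {M : Ideal AlgInt} (hP : M.IsPrime) (P : Subgroup G) (f : G →* ℂˣ) :
    f ∈ Lam0 M hP P ↔ f ∈ Lam (G := G) M hP ∧ ∀ x ∈ P, f x = 1 := by
  unfold Lam0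
  rw [Subgroup.mem_inf, MonoidHom.mem_ker]
  constructor
  · rintro ⟨h1, h2⟩
    refine ⟨h1, fun x hx => ?_⟩
    exact DFunLike.congr_fun h2 (⟨x, hx⟩ : P)
  · rintro ⟨h1, h2⟩
    refine ⟨h1, ?_⟩
    ext x
    have := h2 x x.2
    simpa using congrArg Units.val this

theorem not_dvd_card_Lam0 [hp : Fact p.Prime] {M : Ideal AlgInt} (hP : M.IsPrime) (P : Sylow p G) :
    ¬ p ∣ Nat.card (Lam0 M hP (P : Subgroup G)) := by
  intro hdv
  obtain ⟨f, hf⟩ := exists_prime_orderOf_dvd_card' p hdv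
  have h1 : (f : G →* ℂˣ) ^ p = 1 := by
    have := pow_orderOf_eq_one f
    rw [hf] at this
    have h2 := congrArg Subtype.val this
    simpa using h2
  have hne : (f : G →* ℂˣ) ≠ 1 := by
    intro h
    have h3 : f = 1 := Subtype.ext h
    rw [h3, orderOf_one] at hf
    exact hp.out.one_lt.ne hf
  have hPk : (P : Subgroup G) ≤ (f : G →* ℂˣ).ker := by
    intro x hx
    rw [MonoidHom.mem_ker]
    exact ((mem_Lam0 hP _ _).mp f.2).2 x hx
  obtain ⟨g, hg⟩ : ∃ g : G, (f : G →* ℂˣ) g ≠ 1 := by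
    by_contra hcon
    push Not at hcon
    exact hne (MonoidHom.ext hcon)
  have h2 : orderOf (QuotientGroup.mk g : G ⧸ (f : G →* ℂˣ).ker) = p := by
    apply orderOf_eq_prime
    · rw [← QuotientGroup.mk_pow, QuotientGroup.eq_one_iff, MonoidHom.mem_ker, map_pow]
      have := DFunLike.congr_fun h1 g
      simpa using this
    · intro h
      rw [QuotientGroup.eq_one_iff, MonoidHom.mem_ker] at h
      exact hg h
  have h3 : p ∣ (f : G →* ℂˣ).ker.index := by
    have h4 := orderOf_dvd_natCard (QuotientGroup.mk g : G ⧸ (f : G →* ℂˣ).ker)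
    rw [h2] at h4
    exact h4
  exact P.not_dvd_index (h3.trans (Subgroup.index_dvd_of_le hPk))

open Classical in
theorem card_Lam0 {M : Ideal AlgInt} (hP : M.IsPrime) (P : Subgroup G) :
    Nat.card (Lam0 M hP P) =
      (((Finset.univ.filter (fun χ : IrrCharacter G => χ ∈ principalBlock M G)).filter
        (fun χ : IrrCharacter G => (χ : G → ℂ) 1 = 1)).filter
        (fun χ : IrrCharacter G => ∀ x ∈ P, (χ : G → ℂ) x = 1)).card := by
  have e1 := (linearEquiv (G := G)).subtypeEquiv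
    (p := fun a => a.1 ∈ principalBlock M G ∧ ∀ x ∈ P, (a.1 : G → ℂ) x = 1)
    (q := fun f => f ∈ Lam0 M hP P) (by
      intro a
      rw [mem_Lam0, ← mem_block_iff hP a]
      apply and_congr_right
      intro _
      apply forall_congr'
      intro x
      apply imp_congr_right
      intro _
      have h1 : ((linearEquiv a x : ℂˣ) : ℂ) = (a.1 : G → ℂ) x := rfl
      rw [← h1]
      constructor
      · intro h
        exact Units.ext h
      · intro h
        rw [h]; rfl)
  have e2 := Equiv.subtypeSubtypeEquivSubtypeInter (fun χ : IrrCharacter G => (χ : G → ℂ) 1 = 1)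
    (fun χ : IrrCharacter G => χ ∈ principalBlock M G ∧ ∀ x ∈ P, (χ : G → ℂ) x = 1)
  have h1 : Nat.card (Lam0 M hP P) =
      Nat.card {χ : IrrCharacter G // (χ : G → ℂ) 1 = 1 ∧
        (χ ∈ principalBlock M G ∧ ∀ x ∈ P, (χ : G → ℂ) x = 1)} :=
    Nat.card_congr (e1.symm.trans e2)
  rw [h1, Nat.card_eq_fintype_card, Fintype.card_subtype, Finset.filter_filter,
    Finset.filter_filter]
  congr 1
  ext χ
  simp only [Finset.mem_filter, Finset.mem_univ, true_and]
  tauto

open Classical in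
/-- The weighted multiplicity sum over the principal block does not depend on the linear character
of `P`. -/
theorem sum_inner_eq [hp : Fact p.Prime] {M : Ideal AlgInt} (hM : IsPModular p M) (P : Sylow p G)
    [Fintype ↥(P : Subgroup G)] (ν : ↥(P : Subgroup G) →* ℂˣ) :
    ∑ χ ∈ Finset.univ.filter (fun χ : IrrCharacter G => χ ∈ principalBlock M G),
      (χ : G → ℂ) 1 * classInner (fun x : ↥(P : Subgroup G) => (χ : G → ℂ) x)
        (fun x => ((ν x : ℂˣ) : ℂ)) =
    (Nat.card ↥(P : Subgroup G) : ℂ)⁻¹ *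
      ∑ χ ∈ Finset.univ.filter (fun χ : IrrCharacter G => χ ∈ principalBlock M G),
        (χ : G → ℂ) 1 * (χ : G → ℂ) 1 := by
  classical
  unfold classInner
  have h1 : ∀ χ : IrrCharacter G, (χ : G → ℂ) 1 * ((Nat.card ↥(P : Subgroup G) : ℂ)⁻¹ *
      ∑ g : ↥(P : Subgroup G), (χ : G → ℂ) g * conj ((ν g : ℂˣ) : ℂ)) =
      (Nat.card ↥(P : Subgroup G) : ℂ)⁻¹ * ∑ g : ↥(P : Subgroup G),
        ((χ : G → ℂ) 1 * (χ : G → ℂ) g) * conj ((ν g : ℂˣ) : ℂ) := by
    intro χ
    rw [Finset.mul_sum, Finset.mul_sum, Finset.mul_sum]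
    exact Finset.sum_congr rfl fun g _ => by ring
  rw [Finset.sum_congr rfl (fun χ _ => h1 χ), ← Finset.mul_sum, Finset.sum_comm]
  congr 1
  rw [Finset.sum_eq_single (1 : ↥(P : Subgroup G))]
  · rw [← Finset.sum_mul]
    simp
  · intro x _ hx
    rw [← Finset.sum_mul]
    have hx1 : (x : G) ≠ 1 := fun h => hx (Subtype.ext h)
    have hdv : p ∣ orderOf (x : G) := by
      obtain ⟨k, hk⟩ := P.2 x
      have hk' : (x : G) ^ (p ^ k) = 1 := by
        have := congrArg Subtype.val hk
        simpa using this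
      obtain ⟨j, hj⟩ := Cfsg.Agent.Lib.Helper2_PPart.orderOf_eq_pow_of_pow_eq_one hp.out hk'
      rw [hj]
      rcases j with _ | j
      · exfalso
        rw [pow_zero, orderOf_eq_one_iff] at hj
        exact hx1 hj
      · exact dvd_pow_self p (Nat.succ_ne_zero j)
    rw [weak_block_orthogonality hM (principalBlock_isPBlock M G) (x := 1) (y := (x : G))
      (by rw [orderOf_one]; exact fun h => hp.out.one_lt.ne' (Nat.dvd_one.mp h)) hdv, zero_mul]
  · intro h
    exact absurd (Finset.mem_univ _) h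

/-- If the characters of `p'`-degree of the principal block are linear, then every linear character
of `P` extends to `G`. -/
theorem exists_extension [hp : Fact p.Prime] {M : Ideal AlgInt} (hM : IsPModular p M)
    (P : Sylow p G)
    (hlin : ∀ χ : IrrCharacter G, χ ∈ principalBlock M G → ¬ p ∣ charDegree (χ : G → ℂ) →
      (χ : G → ℂ) 1 = 1)
    (μ : ↥(P : Subgroup G) →* ℂˣ) : ∃ f : G →* ℂˣ, ∀ x : ↥(P : Subgroup G), f x = μ x := by
  classical
  haveI : Fintype ↥(P : Subgroup G) := Fintype.ofFinite _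
  have hP := isPrime_of_modular hM
  by_contra hcon
  push Not at hcon
  -- general splitting
  have hnl : ∀ ν : ↥(P : Subgroup G) →* ℂˣ, MemLocalIdeal M
      (∑ χ ∈ (Finset.univ.filter (fun χ : IrrCharacter G => χ ∈ principalBlock M G)).filter
        (fun χ : IrrCharacter G => ¬ (χ : G → ℂ) 1 = 1),
      (χ : G → ℂ) 1 * classInner (fun x : ↥(P : Subgroup G) => (χ : G → ℂ) x)
        (fun x => ((ν x : ℂˣ) : ℂ))) := by
    intro ν
    refine ideal_sum hP _ _ fun χ hχ => ?_
    have h3 := Finset.mem_filter.mp hχ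
    have h4 := (Finset.mem_filter.mp h3.1).2
    have h5 : p ∣ charDegree (χ : G → ℂ) := by
      by_contra h6
      exact h3.2 (hlin χ h4 h6)
    obtain ⟨n, hn⟩ := classInner_char_nat
      (isCharacter_restrict (P : Subgroup G) (isCharacter_of_isIrr χ.2)) (isCharacter_hom ν)
    rw [Cfsg.Agent.Lib.CharThompson.charDegree_spec χ.2, hn]
    exact ideal_mul_right hP ((ideal_natCast_iff hM _).mpr h5) (ring_natCast hP n)
  have hl : ∀ (ν : ↥(P : Subgroup G) →* ℂˣ) (χ : IrrCharacter G), (χ : G → ℂ) 1 = 1 →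
      (χ : G → ℂ) 1 * classInner (fun x : ↥(P : Subgroup G) => (χ : G → ℂ) x)
        (fun x => ((ν x : ℂˣ) : ℂ)) =
      if (∀ x : ↥(P : Subgroup G), (χ : G → ℂ) x = ((ν x : ℂˣ) : ℂ)) then 1 else 0 := by
    intro ν χ h1
    have e : (fun x : ↥(P : Subgroup G) => (χ : G → ℂ) x) =
        fun x => ((((homOfLinear (isCharacter_of_isIrr χ.2) h1).comp (P : Subgroup G).subtype) x :
          ℂˣ) : ℂ) := rfl
    rw [h1, one_mul, e, classInner_irr (isIrr_hom _) (isIrr_hom ν)]
    congr 1
    apply propext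
    constructor
    · intro h x
      exact congrFun h x
    · intro h
      funext x
      exact h x
  have s1 := sum_inner_eq hM P μ
  have s2 := sum_inner_eq hM P 1
  rw [← Finset.sum_filter_add_sum_filter_not _ (fun χ : IrrCharacter G => (χ : G → ℂ) 1 = 1)]
    at s1 s2
  -- the linear part for μ vanishes
  have z1 : ∑ χ ∈ (Finset.univ.filter (fun χ : IrrCharacter G => χ ∈ principalBlock M G)).filter
        (fun χ : IrrCharacter G => (χ : G → ℂ) 1 = 1),
      (χ : G → ℂ) 1 * classInner (fun x : ↥(P : Subgroup G) => (χ : G → ℂ) x)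
        (fun x => ((μ x : ℂˣ) : ℂ)) = 0 := by
    refine Finset.sum_eq_zero fun χ hχ => ?_
    have h1 := (Finset.mem_filter.mp hχ).2
    rw [hl μ χ h1, if_neg]
    intro h
    obtain ⟨x, hx⟩ := hcon (homOfLinear (isCharacter_of_isIrr χ.2) h1)
    exact hx (Units.ext (h x))
  have z2 : ∑ χ ∈ (Finset.univ.filter (fun χ : IrrCharacter G => χ ∈ principalBlock M G)).filter
        (fun χ : IrrCharacter G => (χ : G → ℂ) 1 = 1),
      (χ : G → ℂ) 1 * classInner (fun x : ↥(P : Subgroup G) => (χ : G → ℂ) x)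
        (fun x => (((1 : ↥(P : Subgroup G) →* ℂˣ) x : ℂˣ) : ℂ)) =
      (Nat.card (Lam0 M hP (P : Subgroup G)) : ℂ) := by
    rw [card_Lam0 hP, Finset.card_filter, Nat.cast_sum]
    refine Finset.sum_congr rfl fun χ hχ => ?_
    have h1 := (Finset.mem_filter.mp hχ).2
    rw [hl 1 χ h1]
    have e : (∀ x : ↥(P : Subgroup G), (χ : G → ℂ) x =
        (((1 : ↥(P : Subgroup G) →* ℂˣ) x : ℂˣ) : ℂ)) ↔
        ∀ x ∈ (P : Subgroup G), (χ : G → ℂ) x = 1 := by
      constructor
      · intro h x hx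
        simpa using h ⟨x, hx⟩
      · intro h x
        simpa using h x x.2
    simp only [e]
    split_ifs <;> simp
  rw [z1, zero_add] at s1
  rw [z2, ← s1] at s2
  have h3 : MemLocalIdeal M (Nat.card (Lam0 M hP (P : Subgroup G)) : ℂ) := by
    have h4 := ideal_sub hP (hnl μ) (hnl 1)
    rwa [← s2, add_sub_cancel_right] at h4
  rw [ideal_natCast_iff hM] at h3
  exact not_dvd_card_Lam0 hP P h3

end Cfsg.Agent.Lib.Helper1_B0Lin
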