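import Mathlib
import Cfsg.Agent.Lib.Helper7_TI

/-! Counting the union of the conjugates of a subgroup; elements of index prime to `p`. -/

set_option autoImplicit false

namespace Cfsg.Agent.Lib.Helper1_ConjCover

open Cfsg.Agent.Lib.Helper7_TI

variable {G : Type*} [Group G]

/-- The nonidentity elements with a conjugate in `A`. -/
def cover (A : Subgroup G) : Set G := {g | g ≠ 1 ∧ ∃ x : G, x⁻¹ * g * x ∈ A}

theorem ncard_cover_le [Finite G] (A N : Subgroup G)
    (hN : N ≤ Subgroup.normalizer (A : Set G)) :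
    (cover A).ncard ≤ N.index * (Nat.card A - 1) := by
  classical
  set D : Set ((G ⧸ N) × G) := (Set.univ : Set (G ⧸ N)) ×ˢ ((A : Set G) \ {1}) with hD
  have h1 : cover A ⊆ (fun c : (G ⧸ N) × G => c.1.out * c.2 * c.1.out⁻¹) '' D := by
    rintro g ⟨hg, x, hx⟩
    set c : G ⧸ N := (x : G ⧸ N) with hc
    have h2 : c.out⁻¹ * x ∈ N := by
      rw [← QuotientGroup.eq, hc]
      exact QuotientGroup.out_eq' _
    set n := c.out⁻¹ * x with hn
    have h3 : n * (x⁻¹ * g * x) * n⁻¹ ∈ A :=
      (Subgroup.mem_normalizer_iff.mp (hN h2) _).mp hx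
    refine ⟨(c, n * (x⁻¹ * g * x) * n⁻¹), ⟨Set.mem_univ _, h3, ?_⟩, ?_⟩
    · intro h4
      rw [Set.mem_singleton_iff] at h4
      change n * (x⁻¹ * g * x) * n⁻¹ = 1 at h4
      apply hg
      have : x⁻¹ * g * x = 1 := by
        have h5 : n⁻¹ * (n * (x⁻¹ * g * x) * n⁻¹) * n = x⁻¹ * g * x := by group
        rw [← h5, h4]; group
      calc g = x * (x⁻¹ * g * x) * x⁻¹ := by group
        _ = 1 := by rw [this]; group
    · simp only [hn]
      group
  calc (cover A).ncard ≤ ((fun c : (G ⧸ N) × G => c.1.out * c.2 * c.1.out⁻¹) '' D).ncard :=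
        Set.ncard_le_ncard h1 (Set.toFinite _)
    _ ≤ D.ncard := Set.ncard_image_le (Set.toFinite _)
    _ = N.index * (Nat.card A - 1) := by
        rw [hD, Set.ncard_prod, Set.ncard_univ, Set.ncard_sdiff_singleton_of_mem (A.one_mem)]
        rfl

/-- An element of index prime to `p` has a conjugate centralizing the given Sylow `p`-subgroup. -/
theorem exists_conj_mem_centralizer [Finite G] {p : ℕ} [hp : Fact p.Prime] (P : Sylow p G) (g : G)
    (h : ¬ p ∣ (Subgroup.centralizer ({g} : Set G)).index) :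
    ∃ x : G, x⁻¹ * g * x ∈ Subgroup.centralizer ((P : Subgroup G) : Set G) := by
  set C := Subgroup.centralizer ({g} : Set G) with hC
  obtain ⟨S⟩ : Nonempty (Sylow p C) := inferInstance
  have hSp : IsPGroup p ((S : Subgroup C).map C.subtype) := S.isPGroup'.map _
  have hSi : ¬ p ∣ ((S : Subgroup C).map C.subtype).index := by
    rw [Subgroup.index_map_subtype]
    intro hd
    rcases (Nat.Prime.dvd_mul hp.out).1 hd with h1 | h1
    · exact S.not_dvd_index h1
    · exact h h1
  have hQC : ((hSp.toSylow hSi : Sylow p G) : Subgroup G) ≤ C := Subgroup.map_subtype_le _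
  obtain ⟨c, hc⟩ := MulAction.exists_smul_eq G P (hSp.toSylow hSi)
  refine ⟨c, ?_⟩
  rw [Subgroup.mem_centralizer_iff]
  intro y hy
  have hy' : c * y * c⁻¹ ∈ ((c • P : Sylow p G) : Subgroup G) := by
    apply (mem_sylow_smul c _ P).2
    have : c⁻¹ * (c * y * c⁻¹) * c = y := by group
    rw [this]; exact hy
  rw [hc] at hy'
  have h3 : g * (c * y * c⁻¹) = (c * y * c⁻¹) * g :=
    (Subgroup.mem_centralizer_iff.1 (hQC hy')) _ rfl
  calc y * (c⁻¹ * g * c) = c⁻¹ * ((c * y * c⁻¹) * g) * c := by group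
    _ = c⁻¹ * (g * (c * y * c⁻¹)) * c := by rw [h3]
    _ = c⁻¹ * g * c * y := by group

/-- If the conjugates of `A` and of `B` cover `G`, then `A` or `B` is its own "normalizer". -/
theorem eq_or_eq_of_cover [Finite G] (A NA B NB : Subgroup G) (hA : A ≤ NA) (hB : B ≤ NB)
    (hNA : NA ≤ Subgroup.normalizer (A : Set G)) (hNB : NB ≤ Subgroup.normalizer (B : Set G))
    (hcov : ∀ g : G, (∃ x : G, x⁻¹ * g * x ∈ A) ∨ ∃ x : G, x⁻¹ * g * x ∈ B) :
    A = NA ∨ B = NB := by
  by_contra hcon
  push Not at hcon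
  obtain ⟨hne1, hne2⟩ := hcon
  have key : ∀ (A N : Subgroup G), A ≤ N → A ≠ N → 2 * (N.index * Nat.card A) ≤ Nat.card G := by
    intro A N hAN hne
    have h1 : A.relIndex N * Nat.card A = Nat.card N := by
      rw [mul_comm]
      have := Subgroup.relIndex_mul_relIndex ⊥ A N bot_le hAN
      rwa [Subgroup.relIndex_bot_left, Subgroup.relIndex_bot_left] at this
    have h2 : A.relIndex N ≠ 1 := by
      intro h
      exact hne (le_antisymm hAN (Subgroup.relIndex_eq_one.mp h))
    have h3 : A.relIndex N ≠ 0 := by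
      intro h
      rw [h, zero_mul] at h1
      exact Nat.card_pos.ne h1
    have h4 : 2 ≤ A.relIndex N := by omega
    have h5 := N.card_mul_index
    calc 2 * (N.index * Nat.card A) = N.index * (2 * Nat.card A) := by ring
      _ ≤ N.index * (A.relIndex N * Nat.card A) :=
          Nat.mul_le_mul_left _ (Nat.mul_le_mul_right _ h4)
      _ = Nat.card G := by rw [h1, mul_comm, h5]
  have k1 := key A NA hA hne1
  have k2 := key B NB hB hne2
  have c1 := ncard_cover_le A NA hNA
  have c2 := ncard_cover_le B NB hNB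
  have h1 : (Set.univ : Set G) \ {1} ⊆ cover A ∪ cover B := by
    rintro g ⟨-, hg⟩
    rcases hcov g with h | h
    · exact Or.inl ⟨hg, h⟩
    · exact Or.inr ⟨hg, h⟩
  have h2 : Nat.card G - 1 ≤ (cover A).ncard + (cover B).ncard := by
    calc Nat.card G - 1 = ((Set.univ : Set G) \ {1}).ncard := by
          rw [Set.ncard_sdiff_singleton_of_mem (Set.mem_univ _), Set.ncard_univ]
      _ ≤ (cover A ∪ cover B).ncard := Set.ncard_le_ncard h1 (Set.toFinite _)
      _ ≤ _ := Set.ncard_union_le _ _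
  have i1 : 0 < NA.index := Nat.pos_of_ne_zero Subgroup.index_ne_zero_of_finite
  have i2 : 0 < NB.index := Nat.pos_of_ne_zero Subgroup.index_ne_zero_of_finite
  have a1 : 0 < Nat.card A := Nat.card_pos
  have b1 : 0 < Nat.card B := Nat.card_pos
  obtain ⟨a, ha⟩ : ∃ a, Nat.card A = a + 1 := ⟨Nat.card A - 1, by omega⟩
  obtain ⟨b, hb⟩ : ∃ b, Nat.card B = b + 1 := ⟨Nat.card B - 1, by omega⟩
  rw [ha] at c1 k1
  rw [hb] at c2 k2
  simp only [Nat.add_sub_cancel] at c1 c2
  have g1 : 0 < Nat.card G := Nat.card_pos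
  have e1 : NA.index * (a + 1) = NA.index * a + NA.index := by ring
  have e2 : NB.index * (b + 1) = NB.index * b + NB.index := by ring
  rw [e1] at k1
  rw [e2] at k2
  omega

end Cfsg.Agent.Lib.Helper1_ConjCover
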