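import Mathlib
import Cfsg.Agent.Lib.Helper1_FrobPNil

set_option autoImplicit false

namespace Cfsg.Agent.Lib.Helper1_SmallAut

open Subgroup Cfsg Cfsg.Agent.Lib.Helper1_PNil Cfsg.Agent.Lib.Helper1_FrobPNil

universe u

variable {G : Type*} [Group G]

/-- an `r`-element normalising `Q`: `|Q| ≡ |C_Q(x)|` mod `r` -/
theorem card_modEq {Q : Subgroup G} [Finite Q] {x : G} (hx : x ∈ normalizer (Q : Set G)) {r : ℕ}
    [Fact r.Prime] (hr : IsPGroup r (zpowers x)) :
    Nat.card Q ≡ Nat.card (Q ⊓ centralizer {x} : Subgroup G) [MOD r] := by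
  let φ : zpowers x →* MulAut Q := Q.normalizerMonoidHom.comp (inclusion (zpowers_le.2 hx))
  letI : MulAction (zpowers x) Q := MulAction.compHom Q φ
  have key := hr.card_modEq_card_fixedPoints Q
  have hsmul : ∀ (y : zpowers x) (q : Q), ((y • q : Q) : G) = y.1 * q.1 * y.1⁻¹ := fun y q => rfl
  have e : MulAction.fixedPoints (zpowers x) Q ≃ (Q ⊓ centralizer {x} : Subgroup G) :=
    { toFun := fun q => ⟨q.1.1, by
        refine Subgroup.mem_inf.2 ⟨q.1.2, ?_⟩
        rw [mem_centralizer_singleton_iff]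
        have h1 := q.2 ⟨x, mem_zpowers x⟩
        have h2 := congrArg Subtype.val h1
        rw [hsmul] at h2
        simp only at h2
        calc q.1.1 * x = (x * q.1.1 * x⁻¹) * x := by rw [h2]
          _ = x * q.1.1 := by group⟩
      invFun := fun q => ⟨⟨q.1, (Subgroup.mem_inf.1 q.2).1⟩, by
        intro y
        apply Subtype.ext
        rw [hsmul]
        have h1 := (Subgroup.mem_inf.1 q.2).2
        have h2 : y.1 ∈ centralizer ({q.1} : Set G) := by
          have : zpowers x ≤ centralizer ({q.1} : Set G) := by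
            rw [zpowers_le, mem_centralizer_singleton_iff]
            rw [mem_centralizer_singleton_iff] at h1
            exact h1.symm
          exact this y.2
        rw [mem_centralizer_singleton_iff] at h2
        simp only
        rw [h2]; group⟩
      left_inv := fun q => rfl
      right_inv := fun q => rfl }
  rw [Nat.card_congr e] at key
  exact key

/-- reduction to elements of prime power order -/
theorem mem_of_prime_powers [Finite G] {p : ℕ} (N C : Subgroup G)
    (H : ∀ y ∈ N, ∀ r a : ℕ, r.Prime → orderOf y = r ^ a → r ≠ p → y ∈ C) :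
    ∀ (n : ℕ) (g : G), orderOf g = n → g ∈ N → n.Coprime p → g ∈ C := by
  intro n
  induction n using Nat.recOnPosPrimePosCoprime with
  | prime_pow r a hr ha =>
    intro g hg hgN hcop
    apply H g hgN r a hr hg
    rintro rfl
    have : r ∣ Nat.gcd (r ^ a) r := Nat.dvd_gcd (dvd_pow_self r ha.ne') dvd_rfl
    rw [hcop] at this
    exact hr.one_lt.ne' (Nat.dvd_one.1 this)
  | zero =>
    intro g hg
    exact absurd hg (orderOf_pos g).ne'
  | one =>
    intro g hg _ _
    rw [orderOf_eq_one_iff] at hg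
    rw [hg]; exact one_mem _
  | coprime a b ha hb hab iha ihb =>
    intro g hg hgN hcop
    have h1 : orderOf (g ^ a) = b := by
      rw [orderOf_pow_of_dvd (by omega) (by rw [hg]; exact dvd_mul_right a b), hg,
        Nat.mul_div_cancel_left _ (by omega)]
    have h2 : orderOf (g ^ b) = a := by
      rw [orderOf_pow_of_dvd (by omega) (by rw [hg]; exact dvd_mul_left b a), hg,
        Nat.mul_div_cancel _ (by omega)]
    have h3 := ihb (g ^ a) h1 (pow_mem hgN a) (Nat.Coprime.coprime_mul_left hcop)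
    have h4 := iha (g ^ b) h2 (pow_mem hgN b) (Nat.Coprime.coprime_mul_right hcop)
    have h5 : (1 : ℤ) = a * Nat.gcdA a b + b * Nat.gcdB a b := by
      have := Nat.gcd_eq_gcd_ab a b
      rw [hab] at this
      exact_mod_cast this
    have h6 : g = (g ^ a) ^ (Nat.gcdA a b) * (g ^ b) ^ (Nat.gcdB a b) := by
      rw [← zpow_natCast, ← zpow_natCast, ← zpow_mul, ← zpow_mul, ← zpow_add, ← h5, zpow_one]
    rw [h6]
    exact mul_mem (zpow_mem h3 _) (zpow_mem h4 _)

/-- a numerical criterion for a normal `p`-complement -/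
theorem npc_of_small {G : Type u} [Group G] [Finite G] {p n : ℕ} [hp : Fact p.Prime]
    (hn : ¬ p ^ (n + 1) ∣ Nat.card G)
    (h : ∀ r : ℕ, r.Prime → r ∣ Nat.card G → r ≠ p → ∀ j, 1 ≤ j → j ≤ n → ¬ r ∣ p ^ j - 1) :
    ∃ N : Subgroup G, IsNPC p N := by
  apply Cfsg.Agent.Lib.Helper1_FrobPNil.frobenius
  intro Q hQ g hg hcop
  refine mem_of_prime_powers (p := p) (normalizer (Q : Set G)) (centralizer (Q : Set G)) ?_ _ g rfl
    hg hcop
  intro y hy r a hr hord hrp
  by_contra hyC
  haveI : Fact r.Prime := ⟨hr⟩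
  obtain ⟨m, hm⟩ := IsPGroup.iff_card.1 hQ
  have hmn : m ≤ n := by
    by_contra hcon
    push Not at hcon
    apply hn
    calc p ^ (n + 1) ∣ p ^ m := pow_dvd_pow p hcon
      _ = Nat.card Q := hm.symm
      _ ∣ Nat.card G := card_subgroup_dvd_card Q
  have hCle : (Q ⊓ centralizer {y} : Subgroup G) ≤ Q := inf_le_left
  obtain ⟨k, hk⟩ := IsPGroup.iff_card.1 (hQ.to_le hCle)
  have hkm : k < m := by
    have h1 : p ^ k ∣ p ^ m := by
      rw [← hk, ← hm]; exact card_dvd_of_le hCle
    have h2 : k ≤ m := (Nat.pow_dvd_pow_iff_le_right hp.out.one_lt).1 h1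
    rcases h2.lt_or_eq with h3 | h3
    · exact h3
    · exfalso
      apply hyC
      have h4 : (Q ⊓ centralizer {y} : Subgroup G) = Q := by
        apply eq_of_le_of_card_ge hCle
        rw [hk, hm, h3]
      rw [mem_centralizer_iff]
      intro q hq
      have h5 : q ∈ (Q ⊓ centralizer {y} : Subgroup G) := by rw [h4]; exact hq
      have h6 := (Subgroup.mem_inf.1 h5).2
      rw [mem_centralizer_singleton_iff] at h6
      exact h6
  have hP : IsPGroup r (zpowers y) := by
    rw [IsPGroup.iff_card]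
    exact ⟨a, by rw [Nat.card_zpowers, hord]⟩
  have hmod := card_modEq hy hP
  rw [hm, hk] at hmod
  have hle : p ^ k ≤ p ^ m := Nat.pow_le_pow_right hp.out.pos hkm.le
  have hdvd : r ∣ p ^ m - p ^ k := (Nat.modEq_iff_dvd' hle).1 hmod.symm
  have e1 : p ^ m - p ^ k = p ^ k * (p ^ (m - k) - 1) := by
    rw [Nat.mul_sub, mul_one, ← pow_add]
    congr 2
    omega
  rw [e1] at hdvd
  have hrG : r ∣ Nat.card G := by
    have ha : a ≠ 0 := by
      rintro rfl
      rw [pow_zero, orderOf_eq_one_iff] at hord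
      apply hyC
      rw [hord]; exact one_mem _
    calc r ∣ r ^ a := dvd_pow_self r ha
      _ = orderOf y := hord.symm
      _ ∣ Nat.card G := orderOf_dvd_natCard y
  rcases (Nat.Prime.dvd_mul hr).1 hdvd with h1 | h1
  · exact hrp ((Nat.prime_dvd_prime_iff_eq hr hp.out).1 (hr.dvd_of_dvd_pow h1))
  · exact h r hr hrG hrp (m - k) (by omega) (by omega) h1

end Cfsg.Agent.Lib.Helper1_SmallAut
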