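import Mathlib
import Cfsg.Agent.Lib.Helper1_SmallAut

/-!
# The norm trick: Frobenius groups acting on abelian groups
-/

set_option autoImplicit false

namespace Cfsg.Agent.Lib.Helper1_FrobAct

open Subgroup

variable {W Γ : Type*} [CommGroup W] [Group Γ]

/-- the norm over a subgroup is fixed by the subgroup -/
theorem norm_fixed (ρ : Γ →* MulAut W) (B : Subgroup Γ) [Fintype B] (b : Γ) (hb : b ∈ B) (w : W) :
    ρ b (∏ x : B, ρ (x : Γ) w) = ∏ x : B, ρ (x : Γ) w := by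
  rw [map_prod]
  refine Fintype.prod_equiv (Equiv.mulLeft (⟨b, hb⟩ : B)) _ _ (fun k => ?_)
  simp [map_mul]

/-- the norm trick for `K ⋊ C` -/
theorem pow_card_eq_one (ρ : Γ →* MulAut W) (K C : Subgroup Γ) [K.Normal] [Fintype K] [Fintype C]
    (hT : ∀ w : W, ∏ k : K, ρ (k : Γ) w = 1) (hU : ∀ w : W, ∏ c : C, ρ (c : Γ) w = 1)
    (hcK : ∀ c ∈ C, c ≠ 1 → ∀ k ∈ K, k * c = c * k → k = 1) (w : W) :
    w ^ Nat.card K = 1 := by
  classical
  have hconj : ∀ g ∈ C, g ≠ 1 → ∏ k : K, ρ ((k : Γ) * g * (k : Γ)⁻¹) w = 1 := by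
    intro g hgC hg1
    have hmem : ∀ k : K, (k : Γ) * g * (k : Γ)⁻¹ * g⁻¹ ∈ K := by
      intro k
      have h1 : g * (k : Γ)⁻¹ * g⁻¹ ∈ K := ‹K.Normal›.conj_mem _ (K.inv_mem k.2) g
      have h2 : (k : Γ) * g * (k : Γ)⁻¹ * g⁻¹ = (k : Γ) * (g * (k : Γ)⁻¹ * g⁻¹) := by group
      rw [h2]; exact K.mul_mem k.2 h1
    let f : K → K := fun k => ⟨(k : Γ) * g * (k : Γ)⁻¹ * g⁻¹, hmem k⟩
    have hf : Function.Injective f := by
      intro a b hab
      have h1 : (a : Γ) * g * (a : Γ)⁻¹ * g⁻¹ = (b : Γ) * g * (b : Γ)⁻¹ * g⁻¹ :=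
        congrArg Subtype.val hab
      have h2 : ((b : Γ)⁻¹ * a) * g = g * ((b : Γ)⁻¹ * a) := by
        have h3 : (a : Γ) * g * (a : Γ)⁻¹ = (b : Γ) * g * (b : Γ)⁻¹ := mul_right_cancel h1
        calc ((b : Γ)⁻¹ * a) * g = (b : Γ)⁻¹ * ((a : Γ) * g * (a : Γ)⁻¹) * a := by group
          _ = (b : Γ)⁻¹ * ((b : Γ) * g * (b : Γ)⁻¹) * a := by rw [h3]
          _ = g * ((b : Γ)⁻¹ * a) := by group
      have h4 := hcK g hgC hg1 _ (K.mul_mem (K.inv_mem b.2) a.2) h2
      apply Subtype.ext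
      exact (inv_mul_eq_one.mp h4).symm
    have hfb : Function.Bijective f := Finite.injective_iff_bijective.mp hf
    rw [← hT (ρ g w)]
    refine Fintype.prod_bijective f hfb _ _ (fun k => ?_)
    rw [← MulAut.mul_apply, ← map_mul]
    congr 2
    simp [f]
  have h0 : ∏ k : K, ρ (k : Γ) (∏ c : C, ρ (c : Γ) (ρ ((k : Γ)⁻¹) w)) = 1 := by
    simp [hU]
  simp_rw [map_prod] at h0
  rw [Finset.prod_comm] at h0
  have h1 : ∀ c : C, ∏ k : K, ρ (k : Γ) (ρ (c : Γ) (ρ ((k : Γ)⁻¹) w))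
      = if c = 1 then w ^ Nat.card K else 1 := by
    intro c
    split_ifs with hc
    · subst hc
      have h2 : ∀ k : K, ρ (k : Γ) (ρ (((1 : C) : Γ)) (ρ ((k : Γ)⁻¹) w)) = w := by
        intro k
        rw [← MulAut.mul_apply, ← MulAut.mul_apply, ← map_mul, ← map_mul]
        simp
      simp only [h2, Finset.prod_const, Finset.card_univ, Nat.card_eq_fintype_card]
    · rw [← hconj c c.2 (fun h => hc (Subtype.ext h))]
      refine Finset.prod_congr rfl fun k _ => ?_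
      rw [← MulAut.mul_apply, ← MulAut.mul_apply, ← map_mul, ← map_mul, mul_assoc]
  simp_rw [h1] at h0
  rw [Finset.prod_ite_eq' Finset.univ (1 : C)] at h0
  simpa using h0

section sub

open scoped IsMulCommutative

variable {G : Type*} [Group G] [Finite G]

/-- a fixed-point-free action is coprime -/
theorem coprime_of_fpf (A V : Subgroup G) (hAV : A ≤ normalizer (V : Set G))
    (hfpf : ∀ a ∈ A, a ≠ 1 → V ⊓ centralizer {a} = ⊥) : (Nat.card A).Coprime (Nat.card V) := by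
  apply Nat.coprime_of_dvd
  intro r hr hrA hrV
  haveI : Fact r.Prime := ⟨hr⟩
  obtain ⟨x, hx⟩ := exists_prime_orderOf_dvd_card' r hrA
  have hx1 : (x : G) ≠ 1 := by
    intro h
    have : x = 1 := Subtype.ext h
    rw [this, orderOf_one] at hx
    exact hr.one_lt.ne hx
  have hxo : orderOf (x : G) = r := by rw [Subgroup.orderOf_coe]; exact hx
  have hp : IsPGroup r (zpowers (x : G)) := by
    apply IsPGroup.of_card (n := 1)
    rw [Nat.card_zpowers, hxo, pow_one]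
  have h1 := Cfsg.Agent.Lib.Helper1_SmallAut.card_modEq (Q := V) (hAV x.2) hp
  rw [hfpf x x.2 hx1, Subgroup.card_bot] at h1
  have h2 : Nat.card V ≡ 0 [MOD r] := (Nat.modEq_zero_iff_dvd).mpr hrV
  have h3 : (1 : ℕ) ≡ 0 [MOD r] := h1.symm.trans h2
  have h4 := (Nat.modEq_zero_iff_dvd).mp h3
  exact hr.one_lt.ne' (Nat.dvd_one.mp h4)

/-- the norm trick inside a group -/
theorem pow_card_eq_one_sub (A V : Subgroup G) [IsMulCommutative V]
    (hAV : A ≤ normalizer (V : Set G)) (K C : Subgroup A) [K.Normal]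
    (hKfix : ∀ v ∈ V, (∀ k ∈ K, (k : G) * v = v * k) → v = 1)
    (hCfix : ∀ v ∈ V, (∀ k ∈ C, (k : G) * v = v * k) → v = 1)
    (hcK : ∀ c ∈ C, c ≠ 1 → ∀ k ∈ K, k * c = c * k → k = 1) :
    ∀ v ∈ V, v ^ Nat.card K = 1 := by
  classical
  haveI : Fintype K := Fintype.ofFinite K
  haveI : Fintype C := Fintype.ofFinite C
  let ρ : A →* MulAut V := V.normalizerMonoidHom.comp (inclusion hAV)
  have hρ : ∀ (a : A) (v : V), ((ρ a v : V) : G) = (a : G) * v * (a : G)⁻¹ := fun a v => rfl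
  have hfix : ∀ (B : Subgroup A) [Fintype B],
      (∀ v ∈ V, (∀ k ∈ B, (k : G) * v = v * k) → v = 1) → ∀ w : V, ∏ k : B, ρ (k : A) w = 1 := by
    intro B _ hB w
    apply Subtype.ext
    apply hB _ (∏ k : B, ρ (k : A) w).2
    intro k hk
    have h1 := norm_fixed ρ B k hk w
    have h2 := congrArg Subtype.val h1
    rw [hρ] at h2
    exact mul_inv_eq_iff_eq_mul.mp h2
  intro v hv
  have := pow_card_eq_one ρ K C (hfix K hKfix) (hfix C hCfix) hcK ⟨v, hv⟩
  have h2 := congrArg Subtype.val this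
  simpa using h2

/-- A Frobenius group `K ⋊ C` cannot act fixed-point-freely on a nontrivial abelian group. -/
theorem eq_bot_of_frob_act (A V : Subgroup G) [IsMulCommutative V]
    (hAV : A ≤ normalizer (V : Set G)) (hfpf : ∀ a ∈ A, a ≠ 1 → V ⊓ centralizer {a} = ⊥)
    (K C : Subgroup A) [K.Normal] (hK : K ≠ ⊥) (hC : C ≠ ⊥)
    (hcK : ∀ c ∈ C, c ≠ 1 → ∀ k ∈ K, k * c = c * k → k = 1) : V = ⊥ := by
  have hfix : ∀ B : Subgroup A, B ≠ ⊥ → ∀ v ∈ V, (∀ k ∈ B, (k : G) * v = v * k) → v = 1 := by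
    intro B hB v hv hk
    obtain ⟨b, hb⟩ := Subgroup.ne_bot_iff_exists_ne_one.mp hB
    have hb1 : ((b : A) : G) ≠ 1 := fun h => hb (Subtype.ext (Subtype.ext h))
    have h1 : v ∈ V ⊓ centralizer {((b : A) : G)} := by
      refine ⟨hv, ?_⟩
      show v ∈ centralizer {((b : A) : G)}
      rw [mem_centralizer_singleton_iff]
      exact (hk b b.2).symm
    rwa [hfpf _ (b : A).2 hb1, mem_bot] at h1
  have hpow := pow_card_eq_one_sub A V hAV K C (hfix K hK) (hfix C hC) hcK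
  have hcop := coprime_of_fpf A V hAV hfpf
  rw [eq_bot_iff]
  intro v hv
  rw [mem_bot]
  have h1 : orderOf v ∣ Nat.card K := orderOf_dvd_of_pow_eq_one (hpow v hv)
  have h2 : orderOf v ∣ Nat.card A := h1.trans (Subgroup.card_subgroup_dvd_card K)
  have h3 : orderOf v ∣ Nat.card V := Subgroup.orderOf_dvd_natCard V hv
  have h4 := Nat.dvd_gcd h2 h3
  rw [hcop] at h4
  exact orderOf_eq_one_iff.mp (Nat.dvd_one.mp h4)

end sub

end Cfsg.Agent.Lib.Helper1_FrobAct
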