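import Mathlib
import Cfsg.Agent.Lib.Helper1_AbCyc
import Cfsg.Agent.S0041
import Cfsg.Agent.S0016

/-!
# Groups acting fixed-point-freely on an abelian group (abstract form)
-/

set_option autoImplicit false

namespace Cfsg.Agent.Lib.Helper1_FpfAct

open Subgroup SemidirectProduct Cfsg.Agent.Lib.Helper1_AbCyc

variable {L W : Type*} [Group L] [Finite L] [CommGroup W] [Finite W] [Nontrivial W]

/-- abelian subgroups of a group acting fixed-point-freely on a nontrivial finite abelian group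
are cyclic -/
theorem abelian_cyclic_of_fpf (φ : L →* MulAut W)
    (hfpf : ∀ l : L, l ≠ 1 → ∀ w : W, φ l w = w → w = 1) (B : Subgroup L)
    (hB : IsMulCommutative B) : IsCyclic B := by
  classical
  haveI : Finite (W ⋊[φ] L) := Finite.of_equiv _ (equivProd (φ := φ)).symm
  set V : Subgroup (W ⋊[φ] L) := (inl : W →* W ⋊[φ] L).range with hV
  set A : Subgroup (W ⋊[φ] L) := B.map (inr : L →* W ⋊[φ] L) with hA
  haveI hVab : IsMulCommutative V := by
    constructor
    constructor
    rintro ⟨_, ⟨a, rfl⟩⟩ ⟨_, ⟨b, rfl⟩⟩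
    apply Subtype.ext
    show (inl a : W ⋊[φ] L) * inl b = inl b * inl a
    rw [← map_mul, ← map_mul, mul_comm]
  haveI hVn : V.Normal := by
    rw [hV, range_inl_eq_ker_rightHom]; infer_instance
  have hAab : IsMulCommutative A := by
    constructor
    constructor
    rintro ⟨_, ⟨a, ha, rfl⟩⟩ ⟨_, ⟨b, hb, rfl⟩⟩
    apply Subtype.ext
    show (inr a : W ⋊[φ] L) * inr b = inr b * inr a
    have := mul_comm' (⟨a, ha⟩ : B) ⟨b, hb⟩
    have h2 : a * b = b * a := congrArg Subtype.val this
    rw [← map_mul, ← map_mul, h2]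
  have hVbot : V ≠ ⊥ := by
    intro h
    obtain ⟨w, hw⟩ := exists_ne (1 : W)
    have h1 : (inl w : W ⋊[φ] L) ∈ V := ⟨w, rfl⟩
    rw [h, mem_bot] at h1
    apply hw
    apply inl_injective (φ := φ)
    rw [h1, map_one]
  have h1 : IsCyclic A := by
    apply Cfsg.Agent.S0041.result A V hVbot _ _ (Or.inl hAab)
    · rw [normalizer_eq_top]; exact le_top
    · rintro _ ⟨l, _, rfl⟩ hl1
      have hl1' : l ≠ 1 := by
        intro h; apply hl1; rw [h, map_one]
      rw [eq_bot_iff]
      rintro _ ⟨⟨w, rfl⟩, hwc⟩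
      have hwc' : (inl w : W ⋊[φ] L) ∈ centralizer {(inr l : W ⋊[φ] L)} := hwc
      rw [mem_centralizer_singleton_iff] at hwc'
      rw [mem_bot]
      have h2 : (inl (φ l w) : W ⋊[φ] L) = inl w := by
        rw [inl_aut, ← hwc', map_inv]; group
      have h3 := hfpf l hl1' w (inl_injective h2)
      rw [h3, map_one]
  exact (B.equivMapOfInjective _ (inr_injective (φ := φ))).isCyclic.mpr h1

/-- `p`-subgroups are cyclic or generalized quaternion -/
theorem pgroup_of_fpf (φ : L →* MulAut W)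
    (hfpf : ∀ l : L, l ≠ 1 → ∀ w : W, φ l w = w → w = 1) {p : ℕ} [Fact p.Prime]
    (P : Subgroup L) (hP : IsPGroup p P) :
    IsCyclic P ∨ (p = 2 ∧ ∃ n : ℕ, Nonempty (P ≃* QuaternionGroup (2 ^ n))) := by
  apply Cfsg.Agent.S0016.result p hP
  apply unique_of_abelian_cyclic hP
  intro B hB
  have h1 : IsCyclic (B.map P.subtype) := by
    apply abelian_cyclic_of_fpf φ hfpf
    constructor
    constructor
    rintro ⟨_, ⟨a, ha, rfl⟩⟩ ⟨_, ⟨b, hb, rfl⟩⟩
    apply Subtype.ext
    show (a : L) * b = b * a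
    have := mul_comm' (⟨a, ha⟩ : B) ⟨b, hb⟩
    have h2 : a * b = b * a := congrArg Subtype.val this
    exact congrArg Subtype.val h2
  exact (B.equivMapOfInjective _ P.subtype_injective).isCyclic.mpr h1

end Cfsg.Agent.Lib.Helper1_FpfAct
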