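import Mathlib
import Cfsg.Agent.Lib.Helper1_Frob
import Cfsg.Agent.S0039

/-!
# The Frobenius kernel is any normal complement
-/

set_option autoImplicit false

namespace Cfsg.Agent.Lib.Helper1_FrobKer

open Subgroup Cfsg Cfsg.Agent.Lib.Helper1_Basic Cfsg.Agent.Lib.Helper1_Frob
open scoped Pointwise

variable {G : Type*} [Group G] [Finite G]

theorem kernel_eq (K H : Subgroup G) [hKn : K.Normal] (hc : IsComplement' K H)
    (hTI : ∀ g : G, g ∉ H → H ⊓ (MulAut.conj g • H) = ⊥) :
    frobeniusKernel H = (K : Set G) := by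
  symm
  apply Set.eq_of_subset_of_ncard_le _ _ (Set.toFinite _)
  · intro k hk
    by_cases hk1 : k = 1
    · exact Or.inl hk1
    · right
      intro g hg
      rw [mem_conj_smul] at hg
      have h1 : g⁻¹ * k * g ∈ K := by
        have := hKn.conj_mem k hk g⁻¹
        rwa [inv_inv] at this
      have h2 : g⁻¹ * k * g ∈ K ⊓ H := ⟨h1, hg⟩
      rw [hc.isCompl.inf_eq_bot, mem_bot] at h2
      apply hk1
      have : k = g * (g⁻¹ * k * g) * g⁻¹ := by group
      rw [this, h2]; group
  · rw [ncard_kernel hTI, hc.index_eq_card]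
    exact le_of_eq (Nat.card_coe_set_eq _)

/-- fixed-point-free complement: Frobenius complement with the expected kernel -/
theorem frob_and_kernel (K H : Subgroup G) [K.Normal] (hc : IsComplement' K H) (hK : K ≠ ⊥)
    (hH : H ≠ ⊥) (hfpf : ∀ h ∈ H, h ≠ 1 → K ⊓ centralizer {h} = ⊥) :
    IsFrobeniusComplement H ∧ frobeniusKernel H = (K : Set G) := by
  have hF := Cfsg.Agent.S0039.frob_of_fpf K H hc hK hH hfpf
  exact ⟨hF, kernel_eq K H hc hF.2.2⟩

end Cfsg.Agent.Lib.Helper1_FrobKer
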