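import Mathlib

set_option autoImplicit false

namespace Cfsg.Agent.Lib.Helper1_TrSq

open MulAction Subgroup

variable {Γ : Type*} [Group Γ] [Finite Γ] {H : Subgroup Γ} {A : Type*} [CommGroup A]

theorem key (ϕ : H →* A) (N : Subgroup Γ) [N.Normal]
    (hfac : ∀ g : Γ, ∃ n ∈ N, ∃ a ∈ H, g = n * a)
    (hsq : ∀ q : H, (q : Γ) ∈ N → ϕ q ^ 2 = 1)
    (y : H) (g : Γ) (h : g⁻¹ * (y : Γ) * g ∈ H) : ϕ ⟨g⁻¹ * (y : Γ) * g, h⟩ ^ 2 = ϕ y ^ 2 := by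
  obtain ⟨n, hn, a, ha, rfl⟩ := hfac g
  have hw : n⁻¹ * (y : Γ) * n ∈ H := by
    have := H.mul_mem (H.mul_mem ha h) (H.inv_mem ha)
    have e : a * ((n * a)⁻¹ * (y : Γ) * (n * a)) * a⁻¹ = n⁻¹ * (y : Γ) * n := by group
    rwa [e] at this
  have e1 : (⟨(n * a)⁻¹ * (y : Γ) * (n * a), h⟩ : H) =
      (⟨a, ha⟩ : H)⁻¹ * ⟨n⁻¹ * (y : Γ) * n, hw⟩ * ⟨a, ha⟩ := by
    apply Subtype.ext
    simp only [Subgroup.coe_mul, Subgroup.coe_inv]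
    group
  have hq : (y : Γ)⁻¹ * (n⁻¹ * (y : Γ) * n) ∈ H := H.mul_mem (H.inv_mem y.2) hw
  have hqN : (y : Γ)⁻¹ * (n⁻¹ * (y : Γ) * n) ∈ N := by
    have h1 : (y : Γ)⁻¹ * n⁻¹ * ((y : Γ)⁻¹)⁻¹ ∈ N :=
      Subgroup.Normal.conj_mem inferInstance _ (N.inv_mem hn) _
    have := N.mul_mem h1 hn
    have e : (y : Γ)⁻¹ * n⁻¹ * ((y : Γ)⁻¹)⁻¹ * n = (y : Γ)⁻¹ * (n⁻¹ * (y : Γ) * n) := by group
    rwa [e] at this
  have e2 : (⟨n⁻¹ * (y : Γ) * n, hw⟩ : H) = y * ⟨(y : Γ)⁻¹ * (n⁻¹ * (y : Γ) * n), hq⟩ := by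
    apply Subtype.ext
    simp only [Subgroup.coe_mul]
    group
  rw [e1, map_mul, map_mul, map_inv, e2, map_mul]
  have h3 := hsq ⟨(y : Γ)⁻¹ * (n⁻¹ * (y : Γ) * n), hq⟩ hqN
  rw [mul_comm (ϕ ⟨a, ha⟩)⁻¹, mul_assoc, inv_mul_cancel, mul_one, mul_pow, h3, mul_one]

theorem transfer_sq (ϕ : H →* A) (N : Subgroup Γ) [N.Normal]
    (hfac : ∀ g : Γ, ∃ n ∈ N, ∃ a ∈ H, g = n * a)
    (hsq : ∀ q : H, (q : Γ) ∈ N → ϕ q ^ 2 = 1) (x : H) :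
    MonoidHom.transfer ϕ (x : Γ) ^ 2 = ϕ x ^ (2 * H.index) := by
  classical
  letI := H.fintypeQuotientOfFiniteIndex
  letI : Fintype (Quotient (orbitRel (zpowers (x : Γ)) (Γ ⧸ H))) := Fintype.ofFinite _
  rw [MonoidHom.transfer_eq_prod_quotient_orbitRel_zpowers_quot, ← Finset.prod_pow]
  have : ∀ q : Quotient (orbitRel (zpowers (x : Γ)) (Γ ⧸ H)),
      ϕ ⟨q.out.out⁻¹ * (x : Γ) ^ Function.minimalPeriod ((x : Γ) • ·) q.out * q.out.out,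
            QuotientGroup.out_conj_pow_minimalPeriod_mem H (x : Γ) q.out⟩ ^ 2 =
      (ϕ x ^ 2) ^ Function.minimalPeriod ((x : Γ) • ·) q.out := by
    intro q
    have := key ϕ N hfac hsq (x ^ Function.minimalPeriod ((x : Γ) • ·) q.out) q.out.out
      (by
        rw [Subgroup.coe_pow]
        exact QuotientGroup.out_conj_pow_minimalPeriod_mem H (x : Γ) q.out)
    rw [map_pow, ← pow_mul, mul_comm, pow_mul] at this
    rw [← this]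
    rfl
  rw [Finset.prod_congr rfl (fun q _ => this q), Finset.prod_pow_eq_pow_sum,
    ← Subgroup.index_eq_sum_minimalPeriod H (x : Γ), ← pow_mul]

end Cfsg.Agent.Lib.Helper1_TrSq
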