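import Mathlib
import Cfsg.Prelude.Def_BrauerPairs
import Cfsg.Prelude.Def_BlockFusion
import Cfsg.Agent.Lib.Helper2_BP14

set_option autoImplicit false

namespace Cfsg.Agent.Lib.Helper2_BP15

open Cfsg Cfsg.Agent.Lib.Helper2_BlockLocal Cfsg.Agent.Lib.Helper2_BlockOm
  Cfsg.Agent.Lib.Helper2_BlockOsima Cfsg.Agent.Lib.Helper2_BlockBasic
  Cfsg.Agent.Lib.Helper2_BlockOrtho Cfsg.Agent.Lib.Helper2_BlockMinMax
  Cfsg.Agent.Lib.Helper2_BlockInd Cfsg.Agent.Lib.Helper2_BlockDefect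
  Cfsg.Agent.Lib.Helper2_BlockPCore Cfsg.Agent.Lib.Helper2_BlockNormal
  Cfsg.Agent.Lib.Helper2_BlockBrauer Cfsg.Agent.Lib.Helper2_BlockFMT
  Cfsg.Agent.Lib.Helper2_BrauerPairs Cfsg.Agent.Lib.Helper2_SecondMain
  Cfsg.Agent.Lib.Helper2_BP1 Cfsg.Agent.Lib.Helper2_BP2 Cfsg.Agent.Lib.Helper2_BP3
  Cfsg.Agent.Lib.Helper2_BP4 Cfsg.Agent.Lib.Helper2_BP5 Cfsg.Agent.Lib.Helper2_BP6
  Cfsg.Agent.Lib.Helper2_BP7 Cfsg.Agent.Lib.Helper2_BP8 Cfsg.Agent.Lib.Helper2_BP9
  Cfsg.Agent.Lib.Helper2_BP10 Cfsg.Agent.Lib.Helper2_BP11 Cfsg.Agent.Lib.Helper2_BP12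
  Cfsg.Agent.Lib.Helper2_BP13 Cfsg.Agent.Lib.Helper2_BP14
  Cfsg.Agent.Lib.Helper2_BlockSection
  Cfsg.Agent.Lib.Helper2_BlockCover2 Cfsg.Agent.Lib.Helper2_Basic
  Cfsg.Agent.Lib.CharBasic Cfsg.Agent.Lib.CharOrtho
  Cfsg.Agent.Lib.CharComplete Cfsg.Agent.Lib.CharIntegral Cfsg.Agent.Lib.CharMore
  Cfsg.Agent.Lib.CharPerm Cfsg.Agent.Lib.CharInd
open scoped ComplexConjugate Classical
open Relation

universe u

variable {M : Ideal AlgInt} {p : ℕ} {G : Type u} [Group G] [Fintype G]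

theorem card_defect_conjBlock [Fact p.Prime] (hM : IsPModular p M) {Q : Subgroup G} (x : G)
    {f : Set (IrrCharacter (Subgroup.centralizer (Q : Set G)))} (hf : IsPBlock M f)
    {D : Subgroup (Subgroup.centralizer (Q : Set G))} (hD : IsDefectGroup p M f D)
    {D' : Subgroup (Subgroup.centralizer ((Q.map (MulAut.conj x).toMonoidHom : Subgroup G) : Set G))}
    (hD' : IsDefectGroup p M (conjBlock Q x f) D') : Nat.card D' = Nat.card D := by
  have hD2 : IsDefectGroup p M (conjBlock Q x f) (D.map (cEquiv Q x).toMonoidHom) := by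
    rw [conjBlock_eq]
    exact isDefectGroup_mapBlock _ hD
  have hf' : IsPBlock M (conjBlock Q x f) := by
    rw [conjBlock_eq]
    exact isPBlock_mapBlock _ hf
  rw [card_defect_eq hM hf' hD' hD2,
    Subgroup.card_map_of_injective (f := (cEquiv Q x).toMonoidHom) (cEquiv Q x).injective]

omit [Fintype G] in
theorem range_conj {Q : Subgroup G} {φ : Q →* G} {g : G}
    (h : ∀ u : Q, φ u = g * (u : G) * g⁻¹) : φ.range = Q.map (MulAut.conj g).toMonoidHom := by
  ext y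
  constructor
  · rintro ⟨u, rfl⟩
    exact ⟨u, u.2, (h u).symm⟩
  · rintro ⟨u, hu, rfl⟩
    exact ⟨⟨u, hu⟩, h ⟨u, hu⟩⟩

theorem isConj_iff [Fact p.Prime] (hM : IsPModular p M) {B : Set (IrrCharacter G)}
    {P Q : Subgroup G} {e : Set (IrrCharacter (Subgroup.centralizer (P : Set G)))}
    {f : Set (IrrCharacter (Subgroup.centralizer (Q : Set G)))} {F : FusionSystem P}
    (hF : IsBlockFusionSystemOn p M B P e F) (hle : SubpairLE p M Q f P e) (Q' : Subgroup G) :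
    F.IsConj Q Q' ↔ ∃ g : G, Q' = Q.map (MulAut.conj g).toMonoidHom ∧
      SubpairLE p M (Q.map (MulAut.conj g).toMonoidHom) (conjBlock Q g f) P e := by
  have hPe := hF.1.1.1
  constructor
  · rintro ⟨φ, hφ, hr⟩
    obtain ⟨-, g, hg, -, f1, h1, h2⟩ := (hF.2 Q φ).mp hφ
    have : f = f1 := subpair_unique hM _ ⟨P, e⟩ le_rfl hPe Q f f1 hle h1
    subst this
    exact ⟨g, by rw [← hr, range_conj hg], h2⟩
  · rintro ⟨g, rfl, h⟩
    refine ⟨conjHom Q g, (hF.2 Q _).mpr ⟨rtg_le hle, g, fun _ => rfl, rtg_le h, f, hle, h⟩, ?_⟩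
    exact range_conj fun _ => rfl

omit [Fintype G] in
theorem card_subgroupOf_inf (A C : Subgroup G) :
    Nat.card ((A ⊓ C).subgroupOf C) = Nat.card (A ⊓ C : Subgroup G) :=
  Nat.card_congr (Subgroup.subgroupOfEquivOfLe inf_le_right).toEquiv

theorem fullyCentralized_iff [Fact p.Prime] (hM : IsPModular p M) {B : Set (IrrCharacter G)}
    {P Q : Subgroup G} {e : Set (IrrCharacter (Subgroup.centralizer (P : Set G)))}
    {f : Set (IrrCharacter (Subgroup.centralizer (Q : Set G)))} {F : FusionSystem P}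
    (hF : IsBlockFusionSystemOn p M B P e F) (hle : SubpairLE p M Q f P e) :
    F.IsFullyCentralized Q ↔ IsDefectGroup p M f
      ((P ⊓ Subgroup.centralizer (Q : Set G)).subgroupOf (Subgroup.centralizer (Q : Set G))) := by
  have hPe := hF.1.1.1
  have hQf : IsBrauerPair p M Q f := rtg_isBrauerPair' hle hPe
  constructor
  · rintro ⟨-, h⟩
    obtain ⟨x, hx, hDx⟩ := exists_conj_centralizer_defect hM hF.1.1 (noExt_of_maximal hM hF.1) hle
    have h1 := h _ ((isConj_iff hM hF hle _).mpr ⟨x, rfl, hx⟩)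
    obtain ⟨D, hD, hle2⟩ := centralizer_le_defect hM hPe hle
    have h2 := card_defect_conjBlock hM x hQf.2 hD hDx
    rw [card_subgroupOf_inf] at h2
    have heq := Subgroup.eq_of_le_of_card_ge hle2 (by
      rw [card_subgroupOf_inf, ← h2]
      exact h1)
    rw [heq]
    exact hD
  · intro hD
    refine ⟨rtg_le hle, ?_⟩
    intro Q' hQ'
    obtain ⟨g, rfl, hg⟩ := (isConj_iff hM hF hle _).mp hQ'
    obtain ⟨D', hD', hle2⟩ := centralizer_le_defect hM hPe hg
    have h2 := card_defect_conjBlock hM g hQf.2 hD hD'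
    rw [card_subgroupOf_inf] at h2
    show Nat.card (P ⊓ Subgroup.centralizer _ : Subgroup G) ≤
      Nat.card (P ⊓ Subgroup.centralizer _ : Subgroup G)
    rw [← h2, ← card_subgroupOf_inf]
    exact Nat.card_le_card_of_injective _ (Subgroup.inclusion_injective hle2)

end Cfsg.Agent.Lib.Helper2_BP15
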