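import Mathlib
import Cfsg.Prelude.Def_BrauerPairs
import Cfsg.Agent.Lib.Helper2_MaxPair2

set_option autoImplicit false

namespace Cfsg.Agent.Lib.Helper2_Down

open Cfsg Cfsg.Agent.Lib.Helper2_BlockLocal Cfsg.Agent.Lib.Helper2_BlockOm
  Cfsg.Agent.Lib.Helper2_BlockOsima Cfsg.Agent.Lib.Helper2_BlockBasic
  Cfsg.Agent.Lib.Helper2_BlockOrtho Cfsg.Agent.Lib.Helper2_BlockMinMax
  Cfsg.Agent.Lib.Helper2_BlockInd Cfsg.Agent.Lib.Helper2_BlockDefect
  Cfsg.Agent.Lib.Helper2_BlockPCore Cfsg.Agent.Lib.Helper2_BlockNormal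
  Cfsg.Agent.Lib.Helper2_BlockBrauer Cfsg.Agent.Lib.Helper2_BlockFMT
  Cfsg.Agent.Lib.Helper2_BrauerPairs Cfsg.Agent.Lib.Helper2_SecondMain
  Cfsg.Agent.Lib.Helper2_BP1 Cfsg.Agent.Lib.Helper2_BP2 Cfsg.Agent.Lib.Helper2_BP3
  Cfsg.Agent.Lib.Helper2_BP4 Cfsg.Agent.Lib.Helper2_BP5 Cfsg.Agent.Lib.Helper2_BP6
  Cfsg.Agent.Lib.Helper2_BP7 Cfsg.Agent.Lib.Helper2_BP8 Cfsg.Agent.Lib.Helper2_BP9
  Cfsg.Agent.Lib.Helper2_BP10 Cfsg.Agent.Lib.Helper2_BP11 Cfsg.Agent.Lib.Helper2_BP12
  Cfsg.Agent.Lib.Helper2_BP13 Cfsg.Agent.Lib.Helper2_BP14 Cfsg.Agent.Lib.Helper2_ExtFMT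
  Cfsg.Agent.Lib.Helper2_Fong Cfsg.Agent.Lib.Helper2_EA Cfsg.Agent.Lib.Helper2_MaxPair
  Cfsg.Agent.Lib.Helper2_MaxPair2
  Cfsg.Agent.Lib.Helper2_BlockSection
  Cfsg.Agent.Lib.Helper2_BlockCover2 Cfsg.Agent.Lib.Helper2_Basic
  Cfsg.Agent.Lib.CharBasic Cfsg.Agent.Lib.CharOrtho
  Cfsg.Agent.Lib.CharComplete Cfsg.Agent.Lib.CharIntegral Cfsg.Agent.Lib.CharMore
  Cfsg.Agent.Lib.CharPerm Cfsg.Agent.Lib.CharInd
open scoped ComplexConjugate Classical
open Relation

universe u

variable {M : Ideal AlgInt} {p : ℕ} {G : Type u} [Group G]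

/-- `R` and its centralizer lie in `X` -/
def Adm (X R : Subgroup G) : Prop := R ≤ X ∧ Subgroup.centralizer (R : Set G) ≤ X

theorem mem_centralizer_subgroupOf {X R : Subgroup G} (hRX : R ≤ X) (x : X) :
    x ∈ Subgroup.centralizer ((R.subgroupOf X : Subgroup X) : Set X) ↔
      (x : G) ∈ Subgroup.centralizer (R : Set G) := by
  rw [Subgroup.mem_centralizer_iff, Subgroup.mem_centralizer_iff]
  constructor
  · intro h r hr
    have := h ⟨r, hRX hr⟩ (Subgroup.mem_subgroupOf.mpr hr)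
    exact congrArg Subtype.val this
  · intro h a ha
    exact Subtype.ext (h a (Subgroup.mem_subgroupOf.mp ha))

/-- the identification of the two centralizers -/
def dEquiv {X R : Subgroup G} (h : Adm X R) : Subgroup.centralizer (R : Set G) ≃*
    Subgroup.centralizer ((R.subgroupOf X : Subgroup X) : Set X) where
  toFun k := ⟨⟨k, h.2 k.2⟩, (mem_centralizer_subgroupOf h.1 _).mpr k.2⟩
  invFun k := ⟨((k : X) : G), (mem_centralizer_subgroupOf h.1 _).mp k.2⟩
  left_inv _ := rfl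
  right_inv _ := rfl
  map_mul' _ _ := rfl

theorem adm_cj {X R : Subgroup G} (h : Adm X R) {x : G} (hx : x ∈ X) :
    Adm X (R.map (MulAut.conj x).toMonoidHom) := by
  constructor
  · rintro _ ⟨r, hr, rfl⟩
    exact X.mul_mem (X.mul_mem hx (h.1 hr)) (X.inv_mem hx)
  · intro g hg
    have h1 := h.2 (conj_mem_centralizer_map'.mp hg)
    have h2 := X.mul_mem (X.mul_mem hx h1) (X.inv_mem hx)
    have e : x * (x⁻¹ * g * x) * x⁻¹ = g := by group
    rwa [e] at h2

variable [Finite G]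

/-- a pair of `G` seen in `X` -/
noncomputable def down (X : Subgroup G) (a : BrauerPairIdx G) : BrauerPairIdx X :=
  ⟨a.1.subgroupOf X, if h : Adm X a.1 then mapBlock (dEquiv h) a.2 else ∅⟩

theorem down_snd {X : Subgroup G} {a : BrauerPairIdx G} (h : Adm X a.1) :
    (down X a).2 = mapBlock (dEquiv h) a.2 := dif_pos h

theorem eps_down {X : Subgroup G} {a : BrauerPairIdx G} (h : Adm X a.1) (x : X) :
    eps (down X a) x = eps a (x : G) := by
  unfold eps
  rw [down_snd h]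
  by_cases hx : (x : G) ∈ Subgroup.centralizer (a.1 : Set G)
  · have hx' := (mem_centralizer_subgroupOf h.1 x).mpr hx
    have h1 := sbc_coe _ (mapBlock (dEquiv h) a.2) ⟨x, hx'⟩
    have h2 := sbc_coe _ a.2 ⟨(x : G), hx⟩
    simp only at h1 h2
    show subgroupBlockCoeff _ (mapBlock (dEquiv h) a.2) x = _
    rw [h1, h2, blockCoeff_mapBlock']
    rfl
  · have hx' : x ∉ Subgroup.centralizer ((a.1.subgroupOf X : Subgroup X) : Set X) :=
      fun h' => hx ((mem_centralizer_subgroupOf h.1 x).mp h')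
    rw [sbc_not_mem _ _ hx]
    exact sbc_not_mem _ _ hx'

theorem isBrauerPair_down {X : Subgroup G} {a : BrauerPairIdx G} (h : Adm X a.1)
    (ha : IsBrauerPair p M a.1 a.2) : IsBrauerPair p M (down X a).1 (down X a).2 := by
  refine ⟨ha.1.comap_subtype, ?_⟩
  rw [down_snd h]
  exact isPBlock_mapBlock _ ha.2

theorem bo_down {X R : Subgroup G} (h : Adm X R) (c : G → ℂ)
    (ξ : IrrCharacter (Subgroup.centralizer (R : Set G))) :
    brauerOmega (R.subgroupOf X) (fun x : X => c x)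
      ((mapIrr (dEquiv h) ξ : IrrCharacter _) : _ → ℂ) = brauerOmega R c (ξ : _ → ℂ) := by
  haveI : Fintype (Subgroup.centralizer (R : Set G)) := Fintype.ofFinite _
  haveI : Fintype (Subgroup.centralizer ((R.subgroupOf X : Subgroup X) : Set X)) :=
    Fintype.ofFinite _
  rw [bo_eq, bo_eq]
  unfold Om
  have h1 : ((mapIrr (dEquiv h) ξ : IrrCharacter _) : Subgroup.centralizer
      ((R.subgroupOf X : Subgroup X) : Set X) → ℂ) 1 =
      (ξ : Subgroup.centralizer (R : Set G) → ℂ) 1 := by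
    conv_lhs => rw [← map_one (dEquiv h), mapIrr_apply]
  rw [h1]
  congr 1
  rw [← Equiv.sum_comp (dEquiv h).toEquiv]
  refine Finset.sum_congr rfl fun y _ => ?_
  simp only [MulEquiv.toEquiv_eq_coe, EquivLike.coe_coe]
  rw [mapIrr_apply]
  rfl

theorem normalSubpairRel_down {X : Subgroup G} {a b : BrauerPairIdx G} (ha : Adm X a.1)
    (hb : Adm X b.1) (h : NormalSubpairRel p M a b) :
    NormalSubpairRel p M (down X a) (down X b) := by
  obtain ⟨hQf, hPe, hQP, hPN, hst, hbo⟩ := h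
  have hN : b.1.subgroupOf X ≤
      Subgroup.normalizer ((a.1.subgroupOf X : Subgroup X) : Set X) := by
    intro x hx
    rw [Subgroup.mem_subgroupOf] at hx
    rw [Subgroup.mem_normalizer_iff]
    intro g
    rw [Subgroup.mem_subgroupOf, Subgroup.mem_subgroupOf]
    exact Subgroup.mem_normalizer_iff.mp (hPN hx) g
  refine ⟨isBrauerPair_down ha hQf, isBrauerPair_down hb hPe, ?_, hN, ?_, ?_⟩
  · intro x hx
    exact Subgroup.mem_subgroupOf.mpr (hQP (Subgroup.mem_subgroupOf.mp hx))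
  · intro x hx
    rw [stabilizes_iff_inv]
    refine ⟨normalizer_le_normalizer_centralizer _ (hN hx), fun g => ?_⟩
    show eps (down X a) _ = eps (down X a) _
    rw [eps_down ha, eps_down ha]
    exact (stabilizes_iff_inv.mp (hst x (Subgroup.mem_subgroupOf.mp hx))).2 g
  · intro ξ' hξ'
    rw [down_snd hb] at hξ'
    obtain ⟨ξ, hξ, rfl⟩ := hξ'
    have e1 : subgroupBlockCoeff _ (down X a).2 = fun x : X => eps a x :=
      funext fun x => eps_down ha x
    rw [e1]
    have := bo_down hb (eps a) ξ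
    show MemLocalIdeal M (brauerOmega (b.1.subgroupOf X) _ _ - 1)
    rw [this]
    exact hbo ξ hξ

theorem rtg_down {X : Subgroup G} {a b : BrauerPairIdx G}
    (ha : Subgroup.centralizer (a.1 : Set G) ≤ X) (hb : b.1 ≤ X)
    (h : ReflTransGen (NormalSubpairRel p M) a b) :
    ReflTransGen (NormalSubpairRel p M) (down X a) (down X b) := by
  induction h with
  | refl => exact ReflTransGen.refl
  | @tail c b hac hcb ih =>
    have hcX : c.1 ≤ X := hcb.2.2.1.trans hb
    have hAc : Adm X c.1 := ⟨hcX, (centralizer_anti (rtg_le hac)).trans ha⟩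
    have hAb : Adm X b.1 := ⟨hb, (centralizer_anti ((rtg_le hac).trans hcb.2.2.1)).trans ha⟩
    exact (ih hcX).tail (normalSubpairRel_down hAc hAb hcb)

theorem down_cjPair {X : Subgroup G} (x : X) {a : BrauerPairIdx G} (ha : Adm X a.1) :
    down X (cjPair (x : G) a) = cjPair x (down X a) := by
  apply pair_ext
  · show (a.1.map (MulAut.conj (x : G)).toMonoidHom).subgroupOf X =
      (a.1.subgroupOf X).map (MulAut.conj x).toMonoidHom
    ext g
    rw [Subgroup.mem_subgroupOf, mem_cj, mem_cj, Subgroup.mem_subgroupOf]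
    rfl
  · funext g
    rw [eps_down (a := cjPair (x : G) a) (adm_cj ha x.2), eps_cjPair, eps_cjPair, eps_down ha]
    rfl

theorem down_injective {X : Subgroup G} {a b : BrauerPairIdx G} (ha : Adm X a.1)
    (hb : Adm X b.1) (h : down X a = down X b) : a = b := by
  apply pair_ext
  · have h1 : a.1.subgroupOf X = b.1.subgroupOf X := congrArg Sigma.fst h
    rw [Subgroup.subgroupOf_inj, inf_eq_left.mpr ha.1, inf_eq_left.mpr hb.1] at h1
    exact h1
  · funext g
    by_cases hg : g ∈ X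
    · have h1 := eps_down ha ⟨g, hg⟩
      have h2 := eps_down hb ⟨g, hg⟩
      simp only at h1 h2
      rw [← h1, ← h2, h]
    · unfold eps
      rw [sbc_not_mem _ _ (fun h' => hg (ha.2 h')), sbc_not_mem _ _ (fun h' => hg (hb.2 h'))]

theorem brauerPairOf_down_base (hPr : M.IsPrime) {X : Subgroup G} {q : BrauerPairIdx G}
    (hq : IsBrauerPair p M q.1 q.2) (hqX : Adm X q.1) {F : Set (IrrCharacter X)}
    (hF : IsPBlock M F) (hFc : ∀ x : X, blockCoeff F x = eps q x) :
    IsBrauerPairOf p M F (down X q).1 (down X q).2 := by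
  refine ⟨isBrauerPair_down hqX hq, hF, ?_⟩
  intro ξ' hξ'
  rw [down_snd hqX] at hξ'
  obtain ⟨ξ, hξ, rfl⟩ := hξ'
  have e1 : blockCoeff F = fun x : X => eps q x := funext hFc
  rw [e1]
  have := bo_down hqX (eps q) ξ
  show MemLocalIdeal M (brauerOmega (q.1.subgroupOf X) _ _ - 1)
  rw [this]
  unfold eps
  rw [bo_sbc, if_pos hξ, sub_self]
  exact ideal_zero hPr

end Cfsg.Agent.Lib.Helper2_Down
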