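import Mathlib
import Cfsg.Prelude.Def_BrauerPairs
import Cfsg.Agent.Lib.Helper2_Down

set_option autoImplicit false

namespace Cfsg.Agent.Lib.Helper2_RelConj

open Cfsg Cfsg.Agent.Lib.Helper2_BlockLocal Cfsg.Agent.Lib.Helper2_BlockOm
  Cfsg.Agent.Lib.Helper2_BlockOsima Cfsg.Agent.Lib.Helper2_BlockBasic
  Cfsg.Agent.Lib.Helper2_BlockOrtho Cfsg.Agent.Lib.Helper2_BlockMinMax
  Cfsg.Agent.Lib.Helper2_BlockInd Cfsg.Agent.Lib.Helper2_BlockDefect
  Cfsg.Agent.Lib.Helper2_BlockPCore Cfsg.Agent.Lib.Helper2_BlockNormal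
  Cfsg.Agent.Lib.Helper2_BlockBrauer Cfsg.Agent.Lib.Helper2_BlockFMT
  Cfsg.Agent.Lib.Helper2_BrauerPairs Cfsg.Agent.Lib.Helper2_SecondMain
  Cfsg.Agent.Lib.Helper2_BP1 Cfsg.Agent.Lib.Helper2_BP2 Cfsg.Agent.Lib.Helper2_BP3
  Cfsg.Agent.Lib.Helper2_BP4 Cfsg.Agent.Lib.Helper2_BP5 Cfsg.Agent.Lib.Helper2_BP6
  Cfsg.Agent.Lib.Helper2_BP7 Cfsg.Agent.Lib.Helper2_BP8 Cfsg.Agent.Lib.Helper2_BP9
  Cfsg.Agent.Lib.Helper2_BP10 Cfsg.Agent.Lib.Helper2_BP11 Cfsg.Agent.Lib.Helper2_BP12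
  Cfsg.Agent.Lib.Helper2_BP13 Cfsg.Agent.Lib.Helper2_BP14 Cfsg.Agent.Lib.Helper2_ExtFMT
  Cfsg.Agent.Lib.Helper2_Fong Cfsg.Agent.Lib.Helper2_EA Cfsg.Agent.Lib.Helper2_MaxPair
  Cfsg.Agent.Lib.Helper2_MaxPair2 Cfsg.Agent.Lib.Helper2_Down
  Cfsg.Agent.Lib.Helper2_BlockSection
  Cfsg.Agent.Lib.Helper2_BlockCover2 Cfsg.Agent.Lib.Helper2_Basic
  Cfsg.Agent.Lib.CharBasic Cfsg.Agent.Lib.CharOrtho
  Cfsg.Agent.Lib.CharComplete Cfsg.Agent.Lib.CharIntegral Cfsg.Agent.Lib.CharMore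
  Cfsg.Agent.Lib.CharPerm Cfsg.Agent.Lib.CharInd
open scoped ComplexConjugate Classical
open Relation

universe u

variable {M : Ideal AlgInt} {p : ℕ} {G : Type u} [Group G] [Fintype G]

/-- pull an inclusion in `X` back to `G` -/
theorem rtg_of_down [Fact p.Prime] (hM : IsPModular p M) {X : Subgroup G}
    {a b : BrauerPairIdx G} (ha : Adm X a.1) (hb : Adm X b.1) (hbp : IsBrauerPair p M b.1 b.2)
    (h : ReflTransGen (NormalSubpairRel p M) (down X a) (down X b)) :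
    ReflTransGen (NormalSubpairRel p M) a b := by
  haveI : Fintype X := Fintype.ofFinite X
  have hle : a.1 ≤ b.1 := by
    intro g hg
    have h1 : a.1.subgroupOf X ≤ b.1.subgroupOf X := rtg_le h
    have h2 : (⟨g, ha.1 hg⟩ : X) ∈ a.1.subgroupOf X := Subgroup.mem_subgroupOf.mpr hg
    exact Subgroup.mem_subgroupOf.mp (h1 h2)
  obtain ⟨g'', hg''⟩ := subpair_exists hM _ hbp hle le_rfl
  have h2 := rtg_down (X := X) (a := ⟨a.1, g''⟩) (b := b) ha.2 hb.1 hg''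
  have h3 := subpair_unique hM _ (down X b) le_rfl (isBrauerPair_down hb hbp)
    (a.1.subgroupOf X) (down X ⟨a.1, g''⟩).2 (down X a).2 h2 h
  have h4 : down X ⟨a.1, g''⟩ = down X a := Sigma.ext rfl (heq_of_eq h3)
  have h5 : (⟨a.1, g''⟩ : BrauerPairIdx G) = a := down_injective (a := ⟨a.1, g''⟩) ha ha h4
  rw [← h5]
  exact hg''

/-- relative conjugacy theorem -/
theorem rel_conj [Fact p.Prime] (hM : IsPModular p M) {X : Subgroup G}
    {q a b : BrauerPairIdx G} (hq : IsBrauerPair p M q.1 q.2) (hqX : Adm X q.1)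
    {F : Set (IrrCharacter X)} (hF : IsPBlock M F) (hFc : ∀ x : X, blockCoeff F x = eps q x)
    (hqa : ReflTransGen (NormalSubpairRel p M) q a)
    (hqb : ReflTransGen (NormalSubpairRel p M) q b)
    (ha : IsBrauerPair p M a.1 a.2) (hb : IsBrauerPair p M b.1 b.2)
    (haX : a.1 ≤ X) (hbX : b.1 ≤ X) (hD : IsDefectGroup p M F (b.1.subgroupOf X)) :
    ∃ x ∈ X, ReflTransGen (NormalSubpairRel p M) (cjPair x a) b := by
  haveI : Fintype X := Fintype.ofFinite X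
  have hPr := isPrime_of_modular hM
  have hAa : Adm X a.1 := ⟨haX, (centralizer_anti (rtg_le hqa)).trans hqX.2⟩
  have hAb : Adm X b.1 := ⟨hbX, (centralizer_anti (rtg_le hqb)).trans hqX.2⟩
  have hq' := brauerPairOf_down_base hPr hq hqX hF hFc
  have ha' : IsBrauerPairOf p M F (down X a).1 (down X a).2 :=
    (brauerPairOf_iff_of_le hM (isBrauerPair_down hAa ha) (isBrauerPair_down hqX hq)
      (rtg_down hqX.2 haX hqa) hF).mpr hq'
  have hb' : IsBrauerPairOf p M F (down X b).1 (down X b).2 :=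
    (brauerPairOf_iff_of_le hM (isBrauerPair_down hAb hb) (isBrauerPair_down hqX hq)
      (rtg_down hqX.2 hbX hqb) hF).mpr hq'
  have hno := noExt_of_defect hM hb' hD
  obtain ⟨x, hx⟩ := conj_into_noExt hM hb' hno (a := down X a) ha'
  rw [← down_cjPair x hAa] at hx
  exact ⟨x, x.2, rtg_of_down hM (a := cjPair (x : G) a) (adm_cj hAa x.2) hAb hb hx⟩

end Cfsg.Agent.Lib.Helper2_RelConj
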