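import Mathlib
import Cfsg.Prelude.Def_BrauerPairs
import Cfsg.Agent.Lib.Helper2_RelConj
import Cfsg.Agent.Lib.Helper2_BP15

set_option autoImplicit false

namespace Cfsg.Agent.Lib.Helper2_AbDef

open Cfsg Cfsg.Agent.Lib.Helper2_BlockLocal Cfsg.Agent.Lib.Helper2_BlockOm
  Cfsg.Agent.Lib.Helper2_BlockOsima Cfsg.Agent.Lib.Helper2_BlockBasic
  Cfsg.Agent.Lib.Helper2_BlockOrtho Cfsg.Agent.Lib.Helper2_BlockMinMax
  Cfsg.Agent.Lib.Helper2_BlockInd Cfsg.Agent.Lib.Helper2_BlockDefect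
  Cfsg.Agent.Lib.Helper2_BlockPCore Cfsg.Agent.Lib.Helper2_BlockNormal
  Cfsg.Agent.Lib.Helper2_BlockBrauer Cfsg.Agent.Lib.Helper2_BlockFMT
  Cfsg.Agent.Lib.Helper2_BrauerPairs Cfsg.Agent.Lib.Helper2_SecondMain
  Cfsg.Agent.Lib.Helper2_BP1 Cfsg.Agent.Lib.Helper2_BP2 Cfsg.Agent.Lib.Helper2_BP3
  Cfsg.Agent.Lib.Helper2_BP4 Cfsg.Agent.Lib.Helper2_BP5 Cfsg.Agent.Lib.Helper2_BP6
  Cfsg.Agent.Lib.Helper2_BP7 Cfsg.Agent.Lib.Helper2_BP8 Cfsg.Agent.Lib.Helper2_BP9
  Cfsg.Agent.Lib.Helper2_BP10 Cfsg.Agent.Lib.Helper2_BP11 Cfsg.Agent.Lib.Helper2_BP12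
  Cfsg.Agent.Lib.Helper2_BP13 Cfsg.Agent.Lib.Helper2_BP14 Cfsg.Agent.Lib.Helper2_BP15
  Cfsg.Agent.Lib.Helper2_ExtFMT
  Cfsg.Agent.Lib.Helper2_Fong Cfsg.Agent.Lib.Helper2_EA Cfsg.Agent.Lib.Helper2_MaxPair
  Cfsg.Agent.Lib.Helper2_MaxPair2 Cfsg.Agent.Lib.Helper2_Down Cfsg.Agent.Lib.Helper2_RelConj
  Cfsg.Agent.Lib.Helper2_BlockSection
  Cfsg.Agent.Lib.Helper2_BlockCover2 Cfsg.Agent.Lib.Helper2_Basic
  Cfsg.Agent.Lib.CharBasic Cfsg.Agent.Lib.CharOrtho
  Cfsg.Agent.Lib.CharComplete Cfsg.Agent.Lib.CharIntegral Cfsg.Agent.Lib.CharMore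
  Cfsg.Agent.Lib.CharPerm Cfsg.Agent.Lib.CharInd
open scoped ComplexConjugate Classical
open Relation

universe u

variable {M : Ideal AlgInt} {p : ℕ} {G : Type u} [Group G]

theorem cjPair_eq_self_iff [Finite G] {y : G} {a : BrauerPairIdx G} :
    cjPair y a = a ↔ y ∈ Subgroup.normalizer (a.1 : Set G) ∧
      StabilizesBlock (Subgroup.centralizer (a.1 : Set G)) a.2 y := by
  constructor
  · intro h
    have h1 : a.1.map (MulAut.conj y).toMonoidHom = a.1 := congrArg Sigma.fst h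
    have hn : y ∈ Subgroup.normalizer (a.1 : Set G) := by
      rw [Subgroup.mem_normalizer_iff]
      intro g
      conv_rhs => rw [← h1, mem_cj]
      have : y⁻¹ * (y * g * y⁻¹) * y = g := by group
      rw [this]
    refine ⟨hn, ?_⟩
    rw [stabilizes_iff_inv]
    refine ⟨normalizer_le_normalizer_centralizer _ hn, fun g => ?_⟩
    have h2 := congrFun (congrArg eps h) (y * g * y⁻¹)
    rw [eps_cjPair] at h2
    have e : y⁻¹ * (y * g * y⁻¹) * y = g := by group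
    rw [e] at h2
    exact h2.symm
  · rintro ⟨hn, hst⟩
    apply pair_ext
    · exact map_conj_of_normalizer hn
    · funext g
      rw [eps_cjPair]
      have h2 := (stabilizes_iff_inv.mp hst).2 (y⁻¹ * g * y)
      have e : y * (y⁻¹ * g * y) * y⁻¹ = g := by group
      rw [e] at h2
      exact h2.symm

theorem eq_of_rtg_card [Finite G] (hPr : M.IsPrime) {a b : BrauerPairIdx G}
    (h : ReflTransGen (NormalSubpairRel p M) a b) (hc : Nat.card b.1 ≤ Nat.card a.1) : a = b := by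
  rcases rtg_cases hPr h with h1 | ⟨c, hc1, hc2, -⟩
  · exact h1
  · exfalso
    have h2 : a.1 < b.1 := lt_of_le_of_lt (rtg_le hc2) hc1
    have h3 := Subgroup.eq_of_le_of_card_ge h2.le hc
    exact h2.ne h3

variable [Fintype G]

/-- an element of `N(Q)` fixing the big pair fixes the small one -/
theorem cjPair_sub_eq_self [Fact p.Prime] (hM : IsPModular p M) {q b : BrauerPairIdx G}
    (hb : IsBrauerPair p M b.1 b.2) (hle : ReflTransGen (NormalSubpairRel p M) q b) {y : G}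
    (hy : cjPair y b = b) (hn : y ∈ Subgroup.normalizer (q.1 : Set G)) : cjPair y q = q := by
  have h1 := rtg_cjPair y hle
  rw [hy] at h1
  obtain ⟨Q, f⟩ := q
  rw [cjPair_of_normalizer hn] at h1 ⊢
  have := subpair_unique hM _ b le_rfl hb Q _ _ h1 hle
  rw [this]

/-- abelian defect: `P` is a defect group of `f` -/
theorem defect_of_abelian [Fact p.Prime] (hM : IsPModular p M) {B : Set (IrrCharacter G)}
    {P Q : Subgroup G} {e : Set (IrrCharacter (Subgroup.centralizer (P : Set G)))}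
    {f : Set (IrrCharacter (Subgroup.centralizer (Q : Set G)))}
    (hBe : IsBrauerPairOf p M B P e) (hno : NoExt p M P e) (hle : SubpairLE p M Q f P e)
    (hab : ∀ x ∈ P, ∀ y ∈ P, x * y = y * x) :
    IsDefectGroup p M f (P.subgroupOf (Subgroup.centralizer (Q : Set G))) := by
  have hPe := hBe.1
  have hQf : IsBrauerPair p M Q f := rtg_isBrauerPair' hle hPe
  have key : ∀ R : Subgroup G, R ≤ P → P ≤ Subgroup.centralizer (R : Set G) := by
    intro R hR u hu
    rw [Subgroup.mem_centralizer_iff]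
    intro r hr
    exact hab r (hR hr) u hu
  obtain ⟨x, hx, hDx⟩ := exists_conj_centralizer_defect hM hBe hno hle
  obtain ⟨D, hD, hPD⟩ := centralizer_le_defect hM hPe hle
  have h1 := card_defect_conjBlock hM x hQf.2 hD hDx
  rw [Subgroup.inf_subgroupOf_right] at h1 hPD
  have hQx : Q.map (MulAut.conj x).toMonoidHom ≤ P := rtg_le hx
  have h2 : Nat.card (P.subgroupOf (Subgroup.centralizer
      ((Q.map (MulAut.conj x).toMonoidHom : Subgroup G) : Set G))) = Nat.card P :=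
    Nat.card_congr (Subgroup.subgroupOfEquivOfLe (key _ hQx)).toEquiv
  have h3 : Nat.card (P.subgroupOf (Subgroup.centralizer (Q : Set G))) = Nat.card P :=
    Nat.card_congr (Subgroup.subgroupOfEquivOfLe (key _ (rtg_le hle))).toEquiv
  rw [Subgroup.eq_of_le_of_card_ge hPD (by rw [h3, ← h1, h2])]
  exact hD

theorem factor_of_abelian [Fact p.Prime] (hM : IsPModular p M) {B : Set (IrrCharacter G)}
    {P Q : Subgroup G} {e : Set (IrrCharacter (Subgroup.centralizer (P : Set G)))}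
    {f : Set (IrrCharacter (Subgroup.centralizer (Q : Set G)))}
    (hBe : IsBrauerPairOf p M B P e) (hno : NoExt p M P e) (hle : SubpairLE p M Q f P e)
    (hab : ∀ x ∈ P, ∀ y ∈ P, x * y = y * x) {x0 : G}
    (hx0 : cjPair x0 ⟨Q, f⟩ = ⟨Q, f⟩) :
    ∃ y, cjPair y ⟨P, e⟩ = ⟨P, e⟩ ∧ ∃ c ∈ Subgroup.centralizer (Q : Set G), x0 = y * c := by
  have hPr := isPrime_of_modular hM
  have hPe := hBe.1
  have hQf : IsBrauerPair p M Q f := rtg_isBrauerPair' hle hPe
  have hQP : Q ≤ P := rtg_le hle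
  have hPX : P ≤ Subgroup.centralizer (Q : Set G) := by
    intro u hu
    rw [Subgroup.mem_centralizer_iff]
    intro r hr
    exact hab r (hQP hr) u hu
  have hx0N : x0 ∈ Subgroup.normalizer (Q : Set G) := (cjPair_eq_self_iff.mp hx0).1
  have hD := defect_of_abelian hM hBe hno hle hab
  have hqa : ReflTransGen (NormalSubpairRel p M) ⟨Q, f⟩ (cjPair x0 ⟨P, e⟩) := by
    have := rtg_cjPair x0 hle
    rwa [hx0] at this
  have haX : (cjPair x0 ⟨P, e⟩).1 ≤ Subgroup.centralizer (Q : Set G) := by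
    rintro _ ⟨u, hu, rfl⟩
    exact (Subgroup.mem_normalizer_iff.mp (normalizer_le_normalizer_centralizer Q hx0N) u).mp
      (hPX hu)
  obtain ⟨c, hc, hrel⟩ := rel_conj hM (X := Subgroup.centralizer (Q : Set G)) (q := ⟨Q, f⟩)
    (a := cjPair x0 ⟨P, e⟩) (b := ⟨P, e⟩) hQf ⟨hQP.trans hPX, le_rfl⟩ hQf.2
    (fun x => (sbc_coe _ f x).symm) hqa hle (isBrauerPair_cjPair x0 (a := ⟨P, e⟩) hPe) hPe haX hPX
    hD
  rw [cjPair_mul] at hrel
  have heq := eq_of_rtg_card hPr hrel (by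
    show Nat.card P ≤ Nat.card (P.map (MulAut.conj (c * x0)).toMonoidHom)
    rw [card_cj])
  refine ⟨c * x0, heq, (c * x0)⁻¹ * c⁻¹ * (c * x0), ?_, by group⟩
  have hyN : c * x0 ∈ Subgroup.normalizer (Q : Set G) :=
    Subgroup.mul_mem _ (centralizer_le_normalizer' Q hc) hx0N
  have h1 := (Subgroup.mem_normalizer_iff.mp (normalizer_le_normalizer_centralizer Q
    (Subgroup.inv_mem _ hyN)) c⁻¹).mp (Subgroup.inv_mem _ hc)
  rwa [inv_inv] at h1

end Cfsg.Agent.Lib.Helper2_AbDef
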