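import Mathlib
import Cfsg.Prelude.Def_BrauerPairs
import Cfsg.Prelude.Def_BlockFusion
import Cfsg.Agent.Lib.Helper2_AbDef
import Cfsg.Agent.Lib.Helper9_FusionBasic

set_option autoImplicit false

namespace Cfsg.Agent.Lib.Helper2_BFS1

open Cfsg Cfsg.Agent.Lib.Helper2_BlockLocal Cfsg.Agent.Lib.Helper2_BlockOm
  Cfsg.Agent.Lib.Helper2_BlockOsima Cfsg.Agent.Lib.Helper2_BlockBasic
  Cfsg.Agent.Lib.Helper2_BlockOrtho Cfsg.Agent.Lib.Helper2_BlockMinMax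
  Cfsg.Agent.Lib.Helper2_BlockInd Cfsg.Agent.Lib.Helper2_BlockDefect
  Cfsg.Agent.Lib.Helper2_BlockPCore Cfsg.Agent.Lib.Helper2_BlockNormal
  Cfsg.Agent.Lib.Helper2_BlockBrauer Cfsg.Agent.Lib.Helper2_BlockFMT
  Cfsg.Agent.Lib.Helper2_BrauerPairs Cfsg.Agent.Lib.Helper2_SecondMain
  Cfsg.Agent.Lib.Helper2_BP1 Cfsg.Agent.Lib.Helper2_BP2 Cfsg.Agent.Lib.Helper2_BP3
  Cfsg.Agent.Lib.Helper2_BP4 Cfsg.Agent.Lib.Helper2_BP5 Cfsg.Agent.Lib.Helper2_BP6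
  Cfsg.Agent.Lib.Helper2_BP7 Cfsg.Agent.Lib.Helper2_BP8 Cfsg.Agent.Lib.Helper2_BP9
  Cfsg.Agent.Lib.Helper2_BP10 Cfsg.Agent.Lib.Helper2_BP11 Cfsg.Agent.Lib.Helper2_BP12
  Cfsg.Agent.Lib.Helper2_BP13 Cfsg.Agent.Lib.Helper2_BP14 Cfsg.Agent.Lib.Helper2_BP15
  Cfsg.Agent.Lib.Helper2_ExtFMT
  Cfsg.Agent.Lib.Helper2_Fong Cfsg.Agent.Lib.Helper2_EA Cfsg.Agent.Lib.Helper2_MaxPair
  Cfsg.Agent.Lib.Helper2_MaxPair2 Cfsg.Agent.Lib.Helper2_Down Cfsg.Agent.Lib.Helper2_RelConj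
  Cfsg.Agent.Lib.Helper2_BlockSection
  Cfsg.Agent.Lib.Helper2_BlockCover2 Cfsg.Agent.Lib.Helper2_Basic
  Cfsg.Agent.Lib.CharBasic Cfsg.Agent.Lib.CharOrtho
  Cfsg.Agent.Lib.CharComplete Cfsg.Agent.Lib.CharIntegral Cfsg.Agent.Lib.CharMore
  Cfsg.Agent.Lib.CharPerm Cfsg.Agent.Lib.CharInd
open scoped ComplexConjugate Classical
open Relation
open Cfsg.Agent.Lib.Helper2_AbDef Cfsg.FusionSystem

universe u

variable {M : Ideal AlgInt} {p : ℕ} {G : Type u} [Group G]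

theorem cjPair_self_of_mem [Finite G] {b : BrauerPairIdx G} {g : G} (hg : g ∈ b.1) :
    cjPair g b = b := by
  rw [cjPair_eq_self_iff, stabilizes_iff_inv]
  exact ⟨Subgroup.le_normalizer hg,
    normalizer_le_normalizer_centralizer _ (Subgroup.le_normalizer hg), sbc_inv_self b.1 b.2 g hg⟩

variable [Fintype G]

theorem rtg_unique [Fact p.Prime] (hM : IsPModular p M) {a a' b : BrauerPairIdx G}
    (hb : IsBrauerPair p M b.1 b.2) (h1 : ReflTransGen (NormalSubpairRel p M) a b)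
    (h2 : ReflTransGen (NormalSubpairRel p M) a' b) (h : a.1 = a'.1) : a = a' := by
  obtain ⟨Q, f⟩ := a
  obtain ⟨Q', f'⟩ := a'
  simp only at h
  subst h
  rw [subpair_unique hM _ b le_rfl hb Q f f' h1 h2]

theorem rtg_of_le [Fact p.Prime] (hM : IsPModular p M) {a c b : BrauerPairIdx G}
    (hb : IsBrauerPair p M b.1 b.2) (h1 : ReflTransGen (NormalSubpairRel p M) a b)
    (h2 : ReflTransGen (NormalSubpairRel p M) c b) (hle : a.1 ≤ c.1) :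
    ReflTransGen (NormalSubpairRel p M) a c := by
  obtain ⟨f'', hf''⟩ := subpair_exists hM _ (rtg_isBrauerPair' h2 hb) hle le_rfl
  have h3 : ReflTransGen (NormalSubpairRel p M) ⟨a.1, f''⟩ b := ReflTransGen.trans hf'' h2
  have h4 : (⟨a.1, f''⟩ : BrauerPairIdx G) = a := rtg_unique hM hb h3 h1 rfl
  rw [← h4]
  exact hf''

/-- the defining property of the maps, in terms of pairs -/
def IsBMap (p : ℕ) (M : Ideal AlgInt) (b : BrauerPairIdx G) (Q : Subgroup G) (φ : Q →* G) : Prop :=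
  ∃ (g : G) (f : Set (IrrCharacter (Subgroup.centralizer (Q : Set G)))),
    (∀ u : Q, φ u = g * (u : G) * g⁻¹) ∧ ReflTransGen (NormalSubpairRel p M) ⟨Q, f⟩ b ∧
      ReflTransGen (NormalSubpairRel p M) (cjPair g ⟨Q, f⟩) b

omit [Fintype G] in
theorem isBMap_iff {P : Subgroup G} {e : Set (IrrCharacter (Subgroup.centralizer (P : Set G)))}
    {Q : Subgroup G} {φ : Q →* G} :
    IsBMap p M ⟨P, e⟩ Q φ ↔ Q ≤ P ∧ ∃ g : G, (∀ u : Q, φ u = g * (u : G) * g⁻¹) ∧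
        Q.map (MulAut.conj g).toMonoidHom ≤ P ∧
        ∃ f : Set (IrrCharacter (Subgroup.centralizer (Q : Set G))),
          SubpairLE p M Q f P e ∧
            SubpairLE p M (Q.map (MulAut.conj g).toMonoidHom) (conjBlock Q g f) P e := by
  constructor
  · rintro ⟨g, f, h1, h2, h3⟩
    exact ⟨rtg_le h2, g, h1, rtg_le h3, f, h2, h3⟩
  · rintro ⟨-, g, h1, -, f, h2, h3⟩
    exact ⟨g, f, h1, h2, h3⟩

omit [Fintype G] in
theorem mem_hom_iff {B : Set (IrrCharacter G)} {P : Subgroup G}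
    {e : Set (IrrCharacter (Subgroup.centralizer (P : Set G)))} {F : FusionSystem P}
    (hF : IsBlockFusionSystemOn p M B P e F) {Q : Subgroup G} {φ : Q →* G} :
    φ ∈ F.Hom Q ↔ IsBMap p M ⟨P, e⟩ Q φ := by
  rw [hF.2 Q φ, isBMap_iff]

theorem isBMap_conj [Fact p.Prime] (hM : IsPModular p M) {b : BrauerPairIdx G}
    (hb : IsBrauerPair p M b.1 b.2) {Q : Subgroup G} {g : G} (hQ : Q ≤ b.1) (hg : g ∈ b.1) :
    IsBMap p M b Q (conjHom Q g) := by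
  obtain ⟨f, hf⟩ := subpair_exists hM _ hb hQ le_rfl
  refine ⟨g, f, fun _ => rfl, hf, ?_⟩
  have := rtg_cjPair g hf
  rwa [cjPair_self_of_mem (b := ⟨b.1, b.2⟩) hg] at this

theorem isBMap_comp [Fact p.Prime] (hM : IsPModular p M) {b : BrauerPairIdx G}
    (hb : IsBrauerPair p M b.1 b.2) {Q R : Subgroup G} {φ : Q →* G} {ψ : R →* G}
    (hφ : IsBMap p M b Q φ) (hψ : IsBMap p M b R ψ) (h : ∀ x : Q, φ x ∈ R) :
    IsBMap p M b Q (ψ.comp (φ.codRestrict R h)) := by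
  obtain ⟨g, f, h1, h2, h3⟩ := hφ
  obtain ⟨k, fR, k1, k2, k3⟩ := hψ
  refine ⟨k * g, f, ?_, h2, ?_⟩
  · intro u
    show ψ ⟨φ u, h u⟩ = _
    rw [k1]
    show k * φ u * k⁻¹ = _
    rw [h1]
    group
  · rw [← cjPair_mul]
    have hle : (cjPair g ⟨Q, f⟩).1 ≤ R := by
      rintro _ ⟨u, hu, rfl⟩
      have := h ⟨u, hu⟩
      rw [h1] at this
      exact this
    exact (rtg_cjPair k (rtg_of_le hM hb h3 k2 hle)).trans k3

theorem isBMap_inv [Fact p.Prime] {b : BrauerPairIdx G}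
    {Q : Subgroup G} {φ : Q →* G} (hφ : IsBMap p M b Q φ) :
    ∃ ψ : φ.range →* G, IsBMap p M b φ.range ψ ∧ ∀ x : Q, ψ ⟨φ x, ⟨x, rfl⟩⟩ = (x : G) := by
  obtain ⟨g, f, h1, h2, h3⟩ := hφ
  have hr := range_conj h1
  have key : ∀ R : Subgroup G, R = Q.map (MulAut.conj g).toMonoidHom →
      IsBMap p M b R (conjHom R g⁻¹) := by
    rintro R rfl
    refine ⟨g⁻¹, conjBlock Q g f, fun _ => rfl, h3, ?_⟩
    have : cjPair g⁻¹ ⟨Q.map (MulAut.conj g).toMonoidHom, conjBlock Q g f⟩ = ⟨Q, f⟩ := by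
      show cjPair g⁻¹ (cjPair g ⟨Q, f⟩) = _
      rw [cjPair_mul, inv_mul_cancel, cjPair_one]
    rw [this]
    exact h2
  refine ⟨conjHom φ.range g⁻¹, key _ hr, fun x => ?_⟩
  show g⁻¹ * φ x * g⁻¹⁻¹ = x
  rw [h1]
  group

/-- the fusion system of a Brauer pair -/
def bfs [Fact p.Prime] (hM : IsPModular p M) {P : Subgroup G}
    {e : Set (IrrCharacter (Subgroup.centralizer (P : Set G)))} (hPe : IsBrauerPair p M P e) :
    FusionSystem P where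
  Hom Q := {φ | IsBMap p M ⟨P, e⟩ Q φ}
  le_of_mem := by
    rintro Q φ ⟨g, f, h1, h2, h3⟩
    refine ⟨rtg_le h2, fun x => ?_⟩
    rw [h1]
    exact rtg_le h3 ⟨x, x.2, rfl⟩
  injective_of_mem := by
    rintro Q φ ⟨g, f, h1, -, -⟩ x y hxy
    rw [h1, h1] at hxy
    exact Subtype.ext (mul_left_cancel (mul_right_cancel hxy))
  conj_mem := fun hQ hg => isBMap_conj hM (b := ⟨P, e⟩) hPe hQ hg
  comp_mem := fun hφ hψ h => isBMap_comp hM (b := ⟨P, e⟩) hPe hφ hψ h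
  inv_mem := fun hφ => by
    obtain ⟨ψ, h1, h2⟩ := isBMap_inv hφ
    exact ⟨ψ, h1, h2⟩

theorem bfs_isBlockFusionSystemOn [Fact p.Prime] (hM : IsPModular p M) {B : Set (IrrCharacter G)}
    {P : Subgroup G} {e : Set (IrrCharacter (Subgroup.centralizer (P : Set G)))}
    (hmax : IsMaximalBrauerPair p M B P e) :
    IsBlockFusionSystemOn p M B P e (bfs hM hmax.1.1) :=
  ⟨hmax, fun _ _ => isBMap_iff⟩

end Cfsg.Agent.Lib.Helper2_BFS1
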