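import Mathlib
import Cfsg.Prelude.Def_BrauerPairs
import Cfsg.Prelude.Def_BlockFusion
import Cfsg.Agent.Lib.Helper2_BP15

set_option autoImplicit false

namespace Cfsg.Agent.Lib.Helper2_BP17

open Cfsg Cfsg.Agent.Lib.Helper2_BlockLocal Cfsg.Agent.Lib.Helper2_BlockOm
  Cfsg.Agent.Lib.Helper2_BlockOsima Cfsg.Agent.Lib.Helper2_BlockBasic
  Cfsg.Agent.Lib.Helper2_BlockOrtho Cfsg.Agent.Lib.Helper2_BlockMinMax
  Cfsg.Agent.Lib.Helper2_BlockInd Cfsg.Agent.Lib.Helper2_BlockDefect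
  Cfsg.Agent.Lib.Helper2_BlockPCore Cfsg.Agent.Lib.Helper2_BlockNormal
  Cfsg.Agent.Lib.Helper2_BlockBrauer Cfsg.Agent.Lib.Helper2_BlockFMT
  Cfsg.Agent.Lib.Helper2_BrauerPairs Cfsg.Agent.Lib.Helper2_SecondMain
  Cfsg.Agent.Lib.Helper2_BP1 Cfsg.Agent.Lib.Helper2_BP2 Cfsg.Agent.Lib.Helper2_BP3
  Cfsg.Agent.Lib.Helper2_BP4 Cfsg.Agent.Lib.Helper2_BP5 Cfsg.Agent.Lib.Helper2_BP6
  Cfsg.Agent.Lib.Helper2_BP7 Cfsg.Agent.Lib.Helper2_BP8 Cfsg.Agent.Lib.Helper2_BP9
  Cfsg.Agent.Lib.Helper2_BP10 Cfsg.Agent.Lib.Helper2_BP11 Cfsg.Agent.Lib.Helper2_BP12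
  Cfsg.Agent.Lib.Helper2_BP13 Cfsg.Agent.Lib.Helper2_BP14 Cfsg.Agent.Lib.Helper2_BP15
  Cfsg.Agent.Lib.Helper2_BlockSection
  Cfsg.Agent.Lib.Helper2_BlockCover2 Cfsg.Agent.Lib.Helper2_Basic
  Cfsg.Agent.Lib.CharBasic Cfsg.Agent.Lib.CharOrtho
  Cfsg.Agent.Lib.CharComplete Cfsg.Agent.Lib.CharIntegral Cfsg.Agent.Lib.CharMore
  Cfsg.Agent.Lib.CharPerm Cfsg.Agent.Lib.CharInd
open scoped ComplexConjugate Classical
open Relation

universe u

variable {M : Ideal AlgInt} {p : ℕ} {G : Type u} [Group G] [Fintype G]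

theorem isStab_map {Q T : Subgroup G} {f : Set (IrrCharacter (Subgroup.centralizer (Q : Set G)))}
    (hT : IsStab Q f T) (x : G) :
    IsStab (Q.map (MulAut.conj x).toMonoidHom) (conjBlock Q x f)
      (T.map (MulAut.conj x).toMonoidHom) := by
  intro y
  rw [mem_cj, hT, mem_normalizer_map_iff, stabilizes_iff_inv, stabilizes_iff_inv]
  constructor
  · rintro ⟨h1, -, h3⟩
    refine ⟨h1, normalizer_le_normalizer_centralizer _ (mem_normalizer_map_iff.mpr h1),
      fun g => ?_⟩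
    rw [sbc_conjBlock, sbc_conjBlock]
    have h4 := h3 (x⁻¹ * g * x)
    convert h4 using 2
    group
  · rintro ⟨h1, -, h3⟩
    refine ⟨h1, normalizer_le_normalizer_centralizer Q h1, fun g => ?_⟩
    have h4 := h3 (x * g * x⁻¹)
    rw [sbc_conjBlock, sbc_conjBlock] at h4
    convert h4 using 2 <;> group

theorem card_defect_stab_conj [Fact p.Prime] (hM : IsPModular p M) {Q T : Subgroup G} (x : G)
    {f : Set (IrrCharacter (Subgroup.centralizer (Q : Set G)))}
    {F : Set (IrrCharacter T)} (hF : IsPBlock M F)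
    (hFc : ∀ t : T, blockCoeff F t = subgroupBlockCoeff (Subgroup.centralizer (Q : Set G)) f (t : G))
    {F' : Set (IrrCharacter (T.map (MulAut.conj x).toMonoidHom))}
    (hFc' : ∀ t : T.map (MulAut.conj x).toMonoidHom, blockCoeff F' t = subgroupBlockCoeff
          (Subgroup.centralizer ((Q.map (MulAut.conj x).toMonoidHom) : Set G))
          (conjBlock Q x f) (t : G))
    {D : Subgroup T} (hD : IsDefectGroup p M F D)
    {D' : Subgroup (T.map (MulAut.conj x).toMonoidHom)} (hD' : IsDefectGroup p M F' D') :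
    Nat.card D' = Nat.card D := by
  set φ := T.equivMapOfInjective (MulAut.conj x).toMonoidHom (MulAut.conj x).injective with hφ
  have hFF : F' = mapBlock φ F := by
    apply blockCoeff_injective
    funext t'
    obtain ⟨t, rfl⟩ := φ.surjective t'
    rw [blockCoeff_mapBlock, hFc, hFc', sbc_conjBlock, hφ, coe_equivMap]
    congr 1
    group
  have hD2 : IsDefectGroup p M F' (D.map φ.toMonoidHom) := by
    rw [hFF]
    exact isDefectGroup_mapBlock _ hD
  have hF' : IsPBlock M F' := by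
    rw [hFF]; exact isPBlock_mapBlock _ hF
  rw [card_defect_eq hM hF' hD' hD2,
    Subgroup.card_map_of_injective (f := φ.toMonoidHom) φ.injective]

theorem normalizerIn_le_stab [Fact p.Prime] (hM : IsPModular p M) {P Q T : Subgroup G}
    {e : Set (IrrCharacter (Subgroup.centralizer (P : Set G)))}
    {f : Set (IrrCharacter (Subgroup.centralizer (Q : Set G)))}
    (hPe : IsBrauerPair p M P e) (hle : SubpairLE p M Q f P e) (hT : IsStab Q f T) :
    P ⊓ Subgroup.normalizer (Q : Set G) ≤ T := by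
  obtain ⟨g, -, hg⟩ := normal_between hM hPe hle
    (R := P ⊓ Subgroup.normalizer (Q : Set G)) (le_inf (rtg_le hle) Subgroup.le_normalizer)
    inf_le_left inf_le_right
  intro y hy
  rw [hT y]
  exact ⟨hy.2, hg.2.2.2.2.1 y hy⟩

theorem fullyNormalized_iff [Fact p.Prime] (hM : IsPModular p M) {B : Set (IrrCharacter G)}
    {P Q T : Subgroup G} {e : Set (IrrCharacter (Subgroup.centralizer (P : Set G)))}
    {f : Set (IrrCharacter (Subgroup.centralizer (Q : Set G)))} {F : FusionSystem P}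
    (hF : IsBlockFusionSystemOn p M B P e F) (hle : SubpairLE p M Q f P e) (hT : IsStab Q f T) :
    F.IsFullyNormalized Q ↔ ∃ F' : Set (IrrCharacter T), IsPBlock M F' ∧
      (∀ t : T, blockCoeff F' t =
        subgroupBlockCoeff (Subgroup.centralizer (Q : Set G)) f (t : G)) ∧
      IsDefectGroup p M F' ((P ⊓ Subgroup.normalizer (Q : Set G)).subgroupOf T) := by
  have hPe := hF.1.1.1
  have hNT := normalizerIn_le_stab hM hPe hle hT
  have hc0 : Nat.card ((P ⊓ Subgroup.normalizer (Q : Set G)).subgroupOf T) =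
      Nat.card (P ⊓ Subgroup.normalizer (Q : Set G) : Subgroup G) :=
    Nat.card_congr (Subgroup.subgroupOfEquivOfLe hNT).toEquiv
  constructor
  · rintro ⟨-, h⟩
    obtain ⟨x, hx, hall⟩ :=
      exists_conj_normalizer_defect hM hF.1.1 (noExt_of_maximal hM hF.1) hle hT
    have hT' := isStab_map hT x
    obtain ⟨F', hF', hFc', hD'⟩ := hall _ hT'
    have h1 := h _ ((isConj_iff hM hF hle _).mpr ⟨x, rfl, hx⟩)
    obtain ⟨F1, hF1, hFc1, D, hD, hle2⟩ := normalizer_le_defect hM hPe hle hT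
    have h2 := card_defect_stab_conj hM x hF1 hFc1 hFc' hD hD'
    rw [Nat.card_congr (Subgroup.subgroupOfEquivOfLe
      (normalizerIn_le_stab hM hPe hx hT')).toEquiv] at h2
    have heq := Subgroup.eq_of_le_of_card_ge hle2 (by
      rw [hc0, ← h2]
      exact h1)
    refine ⟨F1, hF1, hFc1, ?_⟩
    rw [heq]
    exact hD
  · rintro ⟨F1, hF1, hFc1, hD1⟩
    refine ⟨rtg_le hle, ?_⟩
    intro Q' hQ'
    obtain ⟨g, rfl, hg⟩ := (isConj_iff hM hF hle _).mp hQ'
    have hT' := isStab_map hT g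
    obtain ⟨F', hF', hFc', D', hD', hle2⟩ := normalizer_le_defect hM hPe hg hT'
    have h2 := card_defect_stab_conj hM g hF1 hFc1 hFc' hD1 hD'
    rw [hc0] at h2
    show Nat.card (P ⊓ Subgroup.normalizer _ : Subgroup G) ≤
      Nat.card (P ⊓ Subgroup.normalizer _ : Subgroup G)
    rw [← h2, ← Nat.card_congr (Subgroup.subgroupOfEquivOfLe
      (normalizerIn_le_stab hM hPe hg hT')).toEquiv]
    exact Nat.card_le_card_of_injective _ (Subgroup.inclusion_injective hle2)

end Cfsg.Agent.Lib.Helper2_BP17
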