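import Mathlib
import Cfsg.Prelude.Def_BrauerPairs
import Cfsg.Prelude.Def_BlockFusion
import Cfsg.Agent.Lib.Helper2_BFS1
import Cfsg.Agent.Lib.Helper2_BP17
import Cfsg.Agent.Lib.Helper9_FusionSat

set_option autoImplicit false

namespace Cfsg.Agent.Lib.Helper2_BFS2

open Cfsg Cfsg.Agent.Lib.Helper2_BlockLocal Cfsg.Agent.Lib.Helper2_BlockOm
  Cfsg.Agent.Lib.Helper2_BlockOsima Cfsg.Agent.Lib.Helper2_BlockBasic
  Cfsg.Agent.Lib.Helper2_BlockOrtho Cfsg.Agent.Lib.Helper2_BlockMinMax
  Cfsg.Agent.Lib.Helper2_BlockInd Cfsg.Agent.Lib.Helper2_BlockDefect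
  Cfsg.Agent.Lib.Helper2_BlockPCore Cfsg.Agent.Lib.Helper2_BlockNormal
  Cfsg.Agent.Lib.Helper2_BlockBrauer Cfsg.Agent.Lib.Helper2_BlockFMT
  Cfsg.Agent.Lib.Helper2_BrauerPairs Cfsg.Agent.Lib.Helper2_SecondMain
  Cfsg.Agent.Lib.Helper2_BP1 Cfsg.Agent.Lib.Helper2_BP2 Cfsg.Agent.Lib.Helper2_BP3
  Cfsg.Agent.Lib.Helper2_BP4 Cfsg.Agent.Lib.Helper2_BP5 Cfsg.Agent.Lib.Helper2_BP6
  Cfsg.Agent.Lib.Helper2_BP7 Cfsg.Agent.Lib.Helper2_BP8 Cfsg.Agent.Lib.Helper2_BP9
  Cfsg.Agent.Lib.Helper2_BP10 Cfsg.Agent.Lib.Helper2_BP11 Cfsg.Agent.Lib.Helper2_BP12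
  Cfsg.Agent.Lib.Helper2_BP13 Cfsg.Agent.Lib.Helper2_BP14 Cfsg.Agent.Lib.Helper2_BP15
  Cfsg.Agent.Lib.Helper2_ExtFMT
  Cfsg.Agent.Lib.Helper2_Fong Cfsg.Agent.Lib.Helper2_EA Cfsg.Agent.Lib.Helper2_MaxPair
  Cfsg.Agent.Lib.Helper2_MaxPair2 Cfsg.Agent.Lib.Helper2_Down Cfsg.Agent.Lib.Helper2_RelConj
  Cfsg.Agent.Lib.Helper2_BlockSection
  Cfsg.Agent.Lib.Helper2_BlockCover2 Cfsg.Agent.Lib.Helper2_Basic
  Cfsg.Agent.Lib.CharBasic Cfsg.Agent.Lib.CharOrtho
  Cfsg.Agent.Lib.CharComplete Cfsg.Agent.Lib.CharIntegral Cfsg.Agent.Lib.CharMore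
  Cfsg.Agent.Lib.CharPerm Cfsg.Agent.Lib.CharInd
open scoped ComplexConjugate Classical
open Relation
open Cfsg.Agent.Lib.Helper2_AbDef Cfsg.FusionSystem Cfsg.Agent.Lib.Helper2_BFS1
  Cfsg.Agent.Lib.Helper2_BP17 Cfsg.Agent.Lib.Helper2_BlockDefOrder

universe u

variable {M : Ideal AlgInt} {p : ℕ} {G : Type u} [Group G]

theorem card_autInducedBy [Finite G] (K Q : Subgroup G) :
    Nat.card (autInducedBy K Q) * Nat.card (centralizerIn K Q) =
      Nat.card (normalizerIn K Q) := by
  have h1 : autInducedBy K Q = (Cfsg.Agent.Lib.Helper9_FusionSat.conjAut K Q).range := by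
    ext α
    rw [Cfsg.Agent.Lib.Helper9_FusionSat.mem_autInducedBy_iff_conjAut, MonoidHom.mem_range]
  have h2 : (Cfsg.Agent.Lib.Helper9_FusionSat.conjAut K Q).ker =
      (centralizerIn K Q).subgroupOf (normalizerIn K Q) := by
    ext n
    rw [MonoidHom.mem_ker, Subgroup.mem_subgroupOf]
    constructor
    · intro h
      refine ⟨n.2.1, ?_⟩
      show (n : G) ∈ Subgroup.centralizer (Q : Set G)
      rw [Subgroup.mem_centralizer_iff]
      intro x hx
      have h3 := congrArg (fun α : MulAut Q => ((α ⟨x, hx⟩ : Q) : G)) h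
      simp only [Cfsg.Agent.Lib.Helper9_FusionSat.conjAut_apply, MulAut.one_apply] at h3
      calc x * (n : G) = ((n : G) * x * (n : G)⁻¹) * n := by rw [h3]
        _ = n * x := by group
    · intro h
      ext x
      rw [Cfsg.Agent.Lib.Helper9_FusionSat.conjAut_apply, MulAut.one_apply]
      have h3 := Subgroup.mem_centralizer_iff.mp h.2 x x.2
      rw [← h3]
      group
  have h3 := (Cfsg.Agent.Lib.Helper9_FusionSat.conjAut K Q).ker.card_mul_index
  rw [Subgroup.index_ker, ← h1, h2] at h3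
  rw [← h3, mul_comm]
  congr 1
  exact (Nat.card_congr (Subgroup.subgroupOfEquivOfLe
    (Cfsg.Agent.Lib.Helper9_FusionBasic.centralizerIn_le_normalizerIn K Q)).toEquiv).symm

variable [Fintype G]

theorem autGroup_eq [Fact p.Prime] (hM : IsPModular p M) {B : Set (IrrCharacter G)}
    {P Q T : Subgroup G} {e : Set (IrrCharacter (Subgroup.centralizer (P : Set G)))}
    {f : Set (IrrCharacter (Subgroup.centralizer (Q : Set G)))} {F : FusionSystem P}
    (hF : IsBlockFusionSystemOn p M B P e F) (hle : SubpairLE p M Q f P e) (hT : IsStab Q f T) :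
    F.autGroup Q = autInducedBy T Q := by
  have hPe := hF.1.1.1
  have hQP : Q ≤ P := rtg_le hle
  ext α
  rw [Cfsg.Agent.Lib.Helper9_FusionBasic.mem_autGroup_iff F hQP,
    Cfsg.Agent.Lib.Helper9_FusionBasic.mem_autInducedBy_iff, mem_hom_iff hF]
  constructor
  · rintro ⟨g, f1, h1, h2, h3⟩
    have hf : (⟨Q, f1⟩ : BrauerPairIdx G) = ⟨Q, f⟩ := rtg_unique hM (b := ⟨P, e⟩) hPe h2 hle rfl
    rw [hf] at h3
    have hQg : Q.map (MulAut.conj g).toMonoidHom = Q := by
      apply Subgroup.eq_of_le_of_card_ge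
      · rintro _ ⟨u, hu, rfl⟩
        have := h1 ⟨u, hu⟩
        show g * u * g⁻¹ ∈ Q
        rw [← this]
        exact (α ⟨u, hu⟩).2
      · rw [card_cj]
    have h4 : cjPair g ⟨Q, f⟩ = ⟨Q, f⟩ := rtg_unique hM (b := ⟨P, e⟩) hPe h3 hle hQg
    exact ⟨g, (hT g).mpr (cjPair_eq_self_iff.mp h4), h1⟩
  · rintro ⟨g, hg, h1⟩
    refine ⟨g, f, h1, hle, ?_⟩
    rw [cjPair_eq_self_iff.mpr ((hT g).mp hg)]
    exact hle

/-- the key inequality for the stabilizer of a fully normalized pair -/
theorem val_stab_normalized [Fact p.Prime] (hM : IsPModular p M)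
    {P Q T : Subgroup G} {e : Set (IrrCharacter (Subgroup.centralizer (P : Set G)))}
    {f : Set (IrrCharacter (Subgroup.centralizer (Q : Set G)))}
    (hPe : IsBrauerPair p M P e) (hle : SubpairLE p M Q f P e) (hT : IsStab Q f T)
    {F' : Set (IrrCharacter T)} (hF' : IsPBlock M F')
    (hFc : ∀ t : T, blockCoeff F' t =
        subgroupBlockCoeff (Subgroup.centralizer (Q : Set G)) f (t : G))
    (hD : IsDefectGroup p M F' ((P ⊓ Subgroup.normalizer (Q : Set G)).subgroupOf T)) :
    (Nat.card T).factorization p +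
      (Nat.card (P ⊓ Subgroup.centralizer (Q : Set G) : Subgroup G)).factorization p ≤
    (Nat.card (P ⊓ Subgroup.normalizer (Q : Set G) : Subgroup G)).factorization p +
      (Nat.card (Subgroup.centralizer (Q : Set G))).factorization p := by
  have hp : p.Prime := Fact.out
  have hQf : IsBrauerPair p M Q f := rtg_isBrauerPair' hle hPe
  obtain ⟨hQT, hKT, hTN, hinv⟩ := stab_facts hT
  have hNT := normalizerIn_le_stab hM hPe hle hT
  obtain ⟨y, hy, hineq⟩ := fong_card hM hKT (hTN.trans (normalizer_le_normalizer_centralizer Q))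
    hQf.2 hinv
  -- (i)
  have h1 : (Nat.card (Subgroup.centralizer ({(y : G)} : Set G) ⊓ T : Subgroup G)).factorization p ≤
      (Nat.card (P ⊓ Subgroup.normalizer (Q : Set G) : Subgroup G)).factorization p := by
    set X := Subgroup.centralizer ({(y : G)} : Set G) ⊓ T with hX
    obtain ⟨S⟩ : Nonempty (Sylow p X) := inferInstance
    set R := (S : Subgroup X).map X.subtype with hR
    have hRp : IsPGroup p R := S.2.map _
    have hRX : R ≤ X := by rintro _ ⟨a, -, rfl⟩; exact a.2
    have hRT : R ≤ T := hRX.trans inf_le_right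
    have hRcard : Nat.card R = p ^ (Nat.card X).factorization p := by
      rw [hR, Subgroup.card_map_of_injective (Subgroup.subtype_injective _),
        Sylow.card_eq_multiplicity]
    have hy0 : ¬ MemLocalIdeal M (blockCoeff F' ⟨(y : G), hKT y.2⟩) := by
      rw [hFc]
      show ¬ MemLocalIdeal M (subgroupBlockCoeff _ f (y : G))
      rw [sbc_coe]
      exact hy.2.1
    obtain ⟨D', hD', hRD'⟩ := le_defect_of_unit hM hF' hy0 (A := R.subgroupOf T)
      hRp.comap_subtype (by
        intro a ha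
        rw [Subgroup.mem_subgroupOf] at ha
        rw [Subgroup.mem_centralizer_singleton_iff]
        apply Subtype.ext
        exact Subgroup.mem_centralizer_singleton_iff.mp (hRX ha).1)
    have hc : Nat.card R ≤ Nat.card (P ⊓ Subgroup.normalizer (Q : Set G) : Subgroup G) := by
      calc Nat.card R = Nat.card (R.subgroupOf T) :=
            (Nat.card_congr (Subgroup.subgroupOfEquivOfLe hRT).toEquiv).symm
        _ ≤ Nat.card D' := Nat.card_le_card_of_injective _ (Subgroup.inclusion_injective hRD')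
        _ = Nat.card ((P ⊓ Subgroup.normalizer (Q : Set G)).subgroupOf T) :=
            card_defect_eq hM hF' hD' hD
        _ = _ := Nat.card_congr (Subgroup.subgroupOfEquivOfLe hNT).toEquiv
    rw [hRcard, card_eq_pow_val (hPe.1.to_le (inf_le_left :
      P ⊓ Subgroup.normalizer (Q : Set G) ≤ P))] at hc
    exact (Nat.pow_le_pow_iff_right hp.one_lt).mp hc
  -- (ii)
  have h2 : (Nat.card (P ⊓ Subgroup.centralizer (Q : Set G) : Subgroup G)).factorization p ≤
      (Nat.card (Subgroup.centralizer ({(y : G)} : Set G) ⊓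
        Subgroup.centralizer (Q : Set G) : Subgroup G)).factorization p := by
    obtain ⟨D, hD1, hle1⟩ := centralizer_le_defect hM hPe hle
    have hc : Nat.card (P ⊓ Subgroup.centralizer (Q : Set G) : Subgroup G) ≤ Nat.card D := by
      rw [← card_subgroupOf_inf]
      exact Nat.card_le_card_of_injective _ (Subgroup.inclusion_injective hle1)
    rw [card_defectGroup hM hQf.2 hD1, blockDefect_eq hM hQf.2 hy, card_centralizer_sub,
      card_eq_pow_val (hPe.1.to_le (inf_le_left :
      P ⊓ Subgroup.centralizer (Q : Set G) ≤ P))] at hc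
    exact (Nat.pow_le_pow_iff_right hp.one_lt).mp hc
  omega

theorem fullyAutomized_of_normalized [Fact p.Prime] (hM : IsPModular p M)
    {B : Set (IrrCharacter G)}
    {P Q T : Subgroup G} {e : Set (IrrCharacter (Subgroup.centralizer (P : Set G)))}
    {f : Set (IrrCharacter (Subgroup.centralizer (Q : Set G)))} {F : FusionSystem P}
    (hF : IsBlockFusionSystemOn p M B P e F) (hle : SubpairLE p M Q f P e) (hT : IsStab Q f T)
    {F' : Set (IrrCharacter T)} (hF' : IsPBlock M F')
    (hFc : ∀ t : T, blockCoeff F' t =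
        subgroupBlockCoeff (Subgroup.centralizer (Q : Set G)) f (t : G))
    (hD : IsDefectGroup p M F' ((P ⊓ Subgroup.normalizer (Q : Set G)).subgroupOf T)) :
    F.IsFullyAutomized p Q := by
  have hp : p.Prime := Fact.out
  have hPe := hF.1.1.1
  have hQP : Q ≤ P := rtg_le hle
  obtain ⟨hQT, hKT, hTN, hinv⟩ := stab_facts hT
  have hval := val_stab_normalized hM hPe hle hT hF' hFc hD
  have hle2 := Cfsg.Agent.Lib.Helper9_FusionBasic.autInducedBy_le_autGroup F hQP
  haveI : Finite (MulAut Q) := Finite.of_injective (fun α : MulAut Q => (α : Q → Q))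
    (fun a b h => by ext x; exact congrArg Subtype.val (congrFun h x))
  have cT := card_autInducedBy T Q
  have cP := card_autInducedBy P Q
  have eT1 : centralizerIn T Q = Subgroup.centralizer (Q : Set G) := inf_eq_right.mpr hKT
  have eT2 : normalizerIn T Q = T := inf_eq_left.mpr hTN
  rw [eT1, eT2, ← autGroup_eq hM hF hle hT] at cT
  have vT := congrArg (fun n => n.factorization p) cT
  have vP := congrArg (fun n => n.factorization p) cP
  beta_reduce at vT vP
  rw [Nat.factorization_mul Nat.card_pos.ne' Nat.card_pos.ne', Finsupp.add_apply] at vT vP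
  have hdvd : Nat.card (autInducedBy P Q) ∣ Nat.card (F.autGroup Q) :=
    Subgroup.card_dvd_of_le hle2
  have hv1 := (Nat.factorization_le_iff_dvd Nat.card_pos.ne' Nat.card_pos.ne').mpr hdvd p
  have hpow : ∃ j, Nat.card (autInducedBy P Q) = p ^ j := by
    obtain ⟨k, hk⟩ := IsPGroup.iff_card.mp (hPe.1.to_le (inf_le_left : normalizerIn P Q ≤ P))
    have : Nat.card (autInducedBy P Q) ∣ p ^ k := by
      rw [← hk]
      exact Dvd.intro _ cP
    obtain ⟨j, -, hj⟩ := (Nat.dvd_prime_pow hp).mp this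
    exact ⟨j, hj⟩
  obtain ⟨j, hj⟩ := hpow
  have hj2 : (Nat.card (autInducedBy P Q)).factorization p = j := by
    rw [hj, hp.factorization_pow, Finsupp.single_eq_same]
  have e1 : (Nat.card (centralizerIn P Q)).factorization p =
      (Nat.card (P ⊓ Subgroup.centralizer (Q : Set G) : Subgroup G)).factorization p := rfl
  have e2 : (Nat.card (normalizerIn P Q)).factorization p =
      (Nat.card (P ⊓ Subgroup.normalizer (Q : Set G) : Subgroup G)).factorization p := rfl
  refine ⟨hQP, Sylow.ofCard ((autInducedBy P Q).subgroupOf (F.autGroup Q)) ?_,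
    Sylow.coe_ofCard _ _⟩
  rw [Nat.card_congr (Subgroup.subgroupOfEquivOfLe hle2).toEquiv, hj]
  congr 1
  omega

end Cfsg.Agent.Lib.Helper2_BFS2
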