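import Mathlib
import Cfsg.Prelude.Def_BrauerPairs
import Cfsg.Prelude.Def_BlockFusion
import Cfsg.Agent.Lib.Helper2_BFS2

set_option autoImplicit false

namespace Cfsg.Agent.Lib.Helper2_BFS3

open Cfsg Cfsg.Agent.Lib.Helper2_BlockLocal Cfsg.Agent.Lib.Helper2_BlockOm
  Cfsg.Agent.Lib.Helper2_BlockOsima Cfsg.Agent.Lib.Helper2_BlockBasic
  Cfsg.Agent.Lib.Helper2_BlockOrtho Cfsg.Agent.Lib.Helper2_BlockMinMax
  Cfsg.Agent.Lib.Helper2_BlockInd Cfsg.Agent.Lib.Helper2_BlockDefect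
  Cfsg.Agent.Lib.Helper2_BlockPCore Cfsg.Agent.Lib.Helper2_BlockNormal
  Cfsg.Agent.Lib.Helper2_BlockBrauer Cfsg.Agent.Lib.Helper2_BlockFMT
  Cfsg.Agent.Lib.Helper2_BrauerPairs Cfsg.Agent.Lib.Helper2_SecondMain
  Cfsg.Agent.Lib.Helper2_BP1 Cfsg.Agent.Lib.Helper2_BP2 Cfsg.Agent.Lib.Helper2_BP3
  Cfsg.Agent.Lib.Helper2_BP4 Cfsg.Agent.Lib.Helper2_BP5 Cfsg.Agent.Lib.Helper2_BP6
  Cfsg.Agent.Lib.Helper2_BP7 Cfsg.Agent.Lib.Helper2_BP8 Cfsg.Agent.Lib.Helper2_BP9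
  Cfsg.Agent.Lib.Helper2_BP10 Cfsg.Agent.Lib.Helper2_BP11 Cfsg.Agent.Lib.Helper2_BP12
  Cfsg.Agent.Lib.Helper2_BP13 Cfsg.Agent.Lib.Helper2_BP14 Cfsg.Agent.Lib.Helper2_BP15
  Cfsg.Agent.Lib.Helper2_ExtFMT
  Cfsg.Agent.Lib.Helper2_Fong Cfsg.Agent.Lib.Helper2_EA Cfsg.Agent.Lib.Helper2_MaxPair
  Cfsg.Agent.Lib.Helper2_MaxPair2 Cfsg.Agent.Lib.Helper2_Down Cfsg.Agent.Lib.Helper2_RelConj
  Cfsg.Agent.Lib.Helper2_BlockSection
  Cfsg.Agent.Lib.Helper2_BlockCover2 Cfsg.Agent.Lib.Helper2_Basic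
  Cfsg.Agent.Lib.CharBasic Cfsg.Agent.Lib.CharOrtho
  Cfsg.Agent.Lib.CharComplete Cfsg.Agent.Lib.CharIntegral Cfsg.Agent.Lib.CharMore
  Cfsg.Agent.Lib.CharPerm Cfsg.Agent.Lib.CharInd
open scoped ComplexConjugate Classical
open Relation
open Cfsg.Agent.Lib.Helper2_AbDef Cfsg.FusionSystem Cfsg.Agent.Lib.Helper2_BFS1
  Cfsg.Agent.Lib.Helper2_BP17 Cfsg.Agent.Lib.Helper2_BlockDefOrder Cfsg.Agent.Lib.Helper2_BFS2

universe u

variable {M : Ideal AlgInt} {p : ℕ} {G : Type u} [Group G] [Fintype G]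

/-- blocks of `X ≤ T` with the same idempotent: comparison of defects -/
theorem card_defect_le_of_le [Fact p.Prime] (hM : IsPModular p M) {X T : Subgroup G}
    (hXT : X ≤ T) {FX : Set (IrrCharacter X)} {FT : Set (IrrCharacter T)}
    (hFT : IsPBlock M FT)
    (hc : ∀ x : X, blockCoeff FX x = blockCoeff FT ⟨x, hXT x.2⟩)
    {D : Subgroup X} (hD : IsDefectGroup p M FX D) {D' : Subgroup T}
    (hD' : IsDefectGroup p M FT D') : Nat.card D ≤ Nat.card D' := by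
  obtain ⟨g0, hg0, hDle, -⟩ := isDefectGroup_iff.mp hD
  have hDp := isPGroup_of_defect hD
  have hy0 : ¬ MemLocalIdeal M (blockCoeff FT ⟨(g0 : G), hXT g0.2⟩) := by
    rw [← hc]; exact hg0.2.1
  have hinj : Function.Injective (Subgroup.inclusion hXT) := Subgroup.inclusion_injective hXT
  obtain ⟨D2, hD2, hle⟩ := le_defect_of_unit hM hFT hy0 (A := D.map (Subgroup.inclusion hXT))
    (hDp.map _) (by
      rintro _ ⟨a, ha, rfl⟩
      rw [Subgroup.mem_centralizer_singleton_iff]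
      apply Subtype.ext
      have k := Subgroup.mem_centralizer_singleton_iff.mp (hDle ha)
      exact congrArg (fun t : X => (t : G)) k)
  calc Nat.card D = Nat.card (D.map (Subgroup.inclusion hXT)) :=
        (Subgroup.card_map_of_injective hinj).symm
    _ ≤ Nat.card D2 := Nat.card_le_card_of_injective _ (Subgroup.inclusion_injective hle)
    _ = Nat.card D' := card_defect_eq hM hFT hD2 hD'

/-- the block of `N_P(Q) C_G(Q)` has defect group `N_P(Q)` -/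
theorem defect_NC [Fact p.Prime] (hM : IsPModular p M)
    {P Q T X : Subgroup G} {e : Set (IrrCharacter (Subgroup.centralizer (P : Set G)))}
    {f : Set (IrrCharacter (Subgroup.centralizer (Q : Set G)))}
    (hPe : IsBrauerPair p M P e) (hle : SubpairLE p M Q f P e) (hT : IsStab Q f T)
    {F' : Set (IrrCharacter T)} (hF' : IsPBlock M F')
    (hFc : ∀ t : T, blockCoeff F' t =
        subgroupBlockCoeff (Subgroup.centralizer (Q : Set G)) f (t : G))
    (hD : IsDefectGroup p M F' ((P ⊓ Subgroup.normalizer (Q : Set G)).subgroupOf T))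
    (hNX : P ⊓ Subgroup.normalizer (Q : Set G) ≤ X)
    (hCX : Subgroup.centralizer (Q : Set G) ≤ X) (hXT : X ≤ T)
    {FX : Set (IrrCharacter X)} (hFX : IsPBlock M FX)
    (hFXc : ∀ x : X, blockCoeff FX x =
        subgroupBlockCoeff (Subgroup.centralizer (Q : Set G)) f (x : G)) :
    IsDefectGroup p M FX ((P ⊓ Subgroup.normalizer (Q : Set G)).subgroupOf X) := by
  have hPr := isPrime_of_modular hM
  have hQP : Q ≤ P := rtg_le hle
  obtain ⟨g, -, hg⟩ := normal_between hM hPe hle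
    (R := P ⊓ Subgroup.normalizer (Q : Set G)) (le_inf hQP Subgroup.le_normalizer) inf_le_left
    inf_le_right
  obtain ⟨y, hy, hy0⟩ := exists_unit_of_normalSubpair hPr hg
  have hyQ : y ∈ Subgroup.centralizer (Q : Set G) :=
    centralizer_anti (le_inf hQP Subgroup.le_normalizer) hy
  have h1 := hFXc ⟨y, hCX hyQ⟩
  simp only at h1
  rw [← h1] at hy0
  obtain ⟨D1, hD1, hle1⟩ := le_defect_of_unit hM hFX hy0
    (A := (P ⊓ Subgroup.normalizer (Q : Set G)).subgroupOf X)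
    ((hPe.1.to_le inf_le_left).comap_subtype) (by
      intro a ha
      rw [Subgroup.mem_subgroupOf] at ha
      rw [Subgroup.mem_centralizer_singleton_iff]
      apply Subtype.ext
      exact Subgroup.mem_centralizer_iff.mp hy a ha)
  have h2 := card_defect_le_of_le hM hXT hF' (FX := FX) (fun x => by rw [hFXc, hFc]) hD1 hD
  have h3 : Nat.card ((P ⊓ Subgroup.normalizer (Q : Set G)).subgroupOf T) =
      Nat.card ((P ⊓ Subgroup.normalizer (Q : Set G)).subgroupOf X) := by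
    rw [Nat.card_congr (Subgroup.subgroupOfEquivOfLe (hNX.trans hXT)).toEquiv,
      Nat.card_congr (Subgroup.subgroupOfEquivOfLe hNX).toEquiv]
  rw [Subgroup.eq_of_le_of_card_ge hle1 (by rw [← h3]; exact h2)]
  exact hD1

theorem receptive_of_normalized [Fact p.Prime] (hM : IsPModular p M)
    {B : Set (IrrCharacter G)}
    {P Q T : Subgroup G} {e : Set (IrrCharacter (Subgroup.centralizer (P : Set G)))}
    {f : Set (IrrCharacter (Subgroup.centralizer (Q : Set G)))} {F : FusionSystem P}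
    (hF : IsBlockFusionSystemOn p M B P e F) (hle : SubpairLE p M Q f P e) (hT : IsStab Q f T)
    {F' : Set (IrrCharacter T)} (hF' : IsPBlock M F')
    (hFc : ∀ t : T, blockCoeff F' t =
        subgroupBlockCoeff (Subgroup.centralizer (Q : Set G)) f (t : G))
    (hD : IsDefectGroup p M F' ((P ⊓ Subgroup.normalizer (Q : Set G)).subgroupOf T)) :
    F.IsReceptive Q := by
  have hPe := hF.1.1.1
  have hQP : Q ≤ P := rtg_le hle
  have hQf : IsBrauerPair p M Q f := rtg_isBrauerPair' hle hPe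
  obtain ⟨hQT, hKT, hTN, hinv⟩ := stab_facts hT
  have hNT := normalizerIn_le_stab hM hPe hle hT
  set N := P ⊓ Subgroup.normalizer (Q : Set G) with hNdef
  set X := N ⊔ Subgroup.centralizer (Q : Set G) with hXdef
  have hNX : N ≤ X := le_sup_left
  have hCX : Subgroup.centralizer (Q : Set G) ≤ X := le_sup_right
  have hXT : X ≤ T := sup_le hNT hKT
  have hQN : Q ≤ N := le_inf hQP Subgroup.le_normalizer
  obtain ⟨FX, hFX, hFXc⟩ := stab_block hM hQf.1 hQf.2 (hQN.trans hNX) hCX (hXT.trans hTN)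
    (inv_mono hXT hinv)
  have hDX := defect_NC hM hPe hle hT hF' hFc hD hNX hCX hXT hFX hFXc
  obtain ⟨eN, heN⟩ := subpair_exists hM _ hPe (inf_le_left : N ≤ P) le_rfl
  have hqN : ReflTransGen (NormalSubpairRel p M) ⟨Q, f⟩ ⟨N, eN⟩ :=
    rtg_of_le hM (b := ⟨P, e⟩) hPe hle heN hQN
  have hNe : IsBrauerPair p M N eN := rtg_isBrauerPair' heN hPe
  refine ⟨hQP, fun R φ hφ hr => ?_⟩
  have hvalP : ∀ x : R, φ x ∈ P := fun x => (F.le_of_mem hφ).2 x
  have hRP : R ≤ P := (F.le_of_mem hφ).1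
  obtain ⟨g, fR, h1, h2, h3⟩ := (mem_hom_iff hF).mp hφ
  have hRg : R.map (MulAut.conj g).toMonoidHom = Q := by rw [← hr, range_conj h1]
  have hq : cjPair g ⟨R, fR⟩ = ⟨Q, f⟩ := rtg_unique hM (b := ⟨P, e⟩) hPe h3 hle hRg
  set E := extender P R φ with hEdef
  have hEP : E ≤ P := (Cfsg.Agent.Lib.Helper9_FusionBasic.extender_le _ _ _).trans inf_le_left
  have hRE : R ≤ E := Cfsg.Agent.Lib.Helper9_FusionBasic.le_extender hRP φ hvalP
  obtain ⟨eE, heE⟩ := subpair_exists hM _ hPe hEP le_rfl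
  have hRE' : ReflTransGen (NormalSubpairRel p M) ⟨R, fR⟩ ⟨E, eE⟩ :=
    rtg_of_le hM (b := ⟨P, e⟩) hPe h2 heE hRE
  have hqa : ReflTransGen (NormalSubpairRel p M) ⟨Q, f⟩ (cjPair g ⟨E, eE⟩) := by
    have := rtg_cjPair g hRE'
    rwa [hq] at this
  have hQeq : ∀ y ∈ Q, ∃ x : R, g * (x : G) * g⁻¹ = y := by
    intro y hy
    rw [← hr] at hy
    obtain ⟨x, rfl⟩ := hy
    exact ⟨x, (h1 x).symm⟩
  have hPQ : ∀ x : R, g * (x : G) * g⁻¹ ∈ Q := by
    intro x
    rw [← h1, ← hr]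
    exact ⟨x, rfl⟩
  have haX : (cjPair g ⟨E, eE⟩).1 ≤ X := by
    rintro _ ⟨n, hn, rfl⟩
    obtain ⟨hnS, hnN, h, hh, H⟩ := (Cfsg.Agent.Lib.Helper9_FusionBasic.mem_extender_iff _ _ _ _).mp hn
    have hc : h⁻¹ * (g * n * g⁻¹) ∈ Subgroup.centralizer (Q : Set G) := by
      rw [Subgroup.mem_centralizer_iff]
      intro y hy
      obtain ⟨x, rfl⟩ := hQeq y hy
      have k1 := H x ((Subgroup.mem_normalizer_iff.mp hnN x).mp x.2)
      rw [h1, h1] at k1
      have k2 : g * (n * (x : G) * n⁻¹) * g⁻¹ = h * (g * (x : G) * g⁻¹) * h⁻¹ := k1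
      calc g * (x : G) * g⁻¹ * (h⁻¹ * (g * n * g⁻¹))
          = h⁻¹ * (h * (g * (x : G) * g⁻¹) * h⁻¹) * (g * n * g⁻¹) := by group
        _ = h⁻¹ * (g * (n * (x : G) * n⁻¹) * g⁻¹) * (g * n * g⁻¹) := by rw [← k2]
        _ = _ := by group
    have hgn : g * n * g⁻¹ ∈ Subgroup.normalizer (Q : Set G) := by
      have k1 := conj_mem_normalizer_map (x := g) hnN
      rwa [hRg] at k1
    have hhN : h ∈ Subgroup.normalizer (Q : Set G) := by
      have k1 : h = (g * n * g⁻¹) * (h⁻¹ * (g * n * g⁻¹))⁻¹ := by group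
      rw [k1]
      exact Subgroup.mul_mem _ hgn (Subgroup.inv_mem _ (centralizer_le_normalizer' Q hc))
    have k3 : (MulAut.conj g).toMonoidHom n = h * (h⁻¹ * (g * n * g⁻¹)) := by
      show g * n * g⁻¹ = _
      group
    rw [k3]
    exact Subgroup.mul_mem _ (hNX ⟨hh, hhN⟩) (hCX hc)
  obtain ⟨x, hxX, hxrel⟩ := rel_conj hM (X := X) (q := ⟨Q, f⟩) (a := cjPair g ⟨E, eE⟩)
    (b := ⟨N, eN⟩) hQf ⟨hQN.trans hNX, hCX⟩ hFX hFXc hqa hqN
    (isBrauerPair_cjPair g (a := ⟨E, eE⟩) (rtg_isBrauerPair' heE hPe)) hNe haX hNX hDX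
  have hnorm : N ≤ Subgroup.normalizer
      ((Subgroup.centralizer (Q : Set G) : Subgroup G) : Set G) :=
    inf_le_right.trans (normalizer_le_normalizer_centralizer Q)
  have hx' : x ∈ ((N ⊔ Subgroup.centralizer (Q : Set G) : Subgroup G) : Set G) := hxX
  rw [Subgroup.coe_mul_of_left_le_normalizer_right _ _ hnorm] at hx'
  obtain ⟨s, hs, c, hc, rfl⟩ := hx'
  have hcrel : ReflTransGen (NormalSubpairRel p M) (cjPair (c * g) ⟨E, eE⟩) ⟨N, eN⟩ := by
    have k1 := rtg_cjPair s⁻¹ hxrel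
    rw [cjPair_mul, cjPair_mul, cjPair_self_of_mem (b := ⟨N, eN⟩) (N.inv_mem hs)] at k1
    have k2 : s⁻¹ * (fun x1 x2 => x1 * x2) s c * g = c * g := by
      show s⁻¹ * (s * c) * g = c * g
      group
    rwa [k2] at k1
  refine ⟨conjHom E (c * g), (mem_hom_iff hF).mpr ⟨c * g, eE, fun _ => rfl, heE,
    hcrel.trans heN⟩, fun x hxR hxE => ?_⟩
  rw [h1]
  show c * g * x * (c * g)⁻¹ = g * x * g⁻¹
  have k1 := Subgroup.mem_centralizer_iff.mp hc _ (hPQ ⟨x, hxR⟩)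
  calc c * g * x * (c * g)⁻¹ = c * (g * x * g⁻¹) * c⁻¹ := by group
    _ = (g * x * g⁻¹) * c * c⁻¹ := by rw [← k1]
    _ = _ := by group

theorem saturated [Fact p.Prime] (hM : IsPModular p M) {B : Set (IrrCharacter G)}
    {P : Subgroup G} {e : Set (IrrCharacter (Subgroup.centralizer (P : Set G)))}
    {F : FusionSystem P} (hF : IsBlockFusionSystemOn p M B P e F) : F.IsSaturated p := by
  have hPe := hF.1.1.1
  intro R hR
  obtain ⟨Q, hRQ, hQ⟩ := Cfsg.Agent.Lib.Helper9_FusionSat.exists_fullyNormalized_conj F hR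
  obtain ⟨f, hf⟩ := subpair_exists hM _ hPe hQ.1 le_rfl
  obtain ⟨T, hT⟩ := exists_isStab Q f
  obtain ⟨F', hF', hFc, hD⟩ := (fullyNormalized_iff hM hF hf hT).mp hQ
  exact ⟨Q, hRQ, fullyAutomized_of_normalized hM hF hf hT hF' hFc hD,
    receptive_of_normalized hM hF hf hT hF' hFc hD⟩

end Cfsg.Agent.Lib.Helper2_BFS3
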