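import Mathlib
import Cfsg.Prelude.Def_BrauerPairs
import Cfsg.Prelude.Def_BlockFusion
import Cfsg.Agent.Lib.Helper2_BFS3
import Cfsg.Agent.Lib.Helper9_AlperinCor

set_option autoImplicit false

namespace Cfsg.Agent.Lib.Helper2_Nilp

open Cfsg Cfsg.Agent.Lib.Helper2_BlockLocal Cfsg.Agent.Lib.Helper2_BlockOm
  Cfsg.Agent.Lib.Helper2_BlockOsima Cfsg.Agent.Lib.Helper2_BlockBasic
  Cfsg.Agent.Lib.Helper2_BlockOrtho Cfsg.Agent.Lib.Helper2_BlockMinMax
  Cfsg.Agent.Lib.Helper2_BlockInd Cfsg.Agent.Lib.Helper2_BlockDefect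
  Cfsg.Agent.Lib.Helper2_BlockPCore Cfsg.Agent.Lib.Helper2_BlockNormal
  Cfsg.Agent.Lib.Helper2_BlockBrauer Cfsg.Agent.Lib.Helper2_BlockFMT
  Cfsg.Agent.Lib.Helper2_BrauerPairs Cfsg.Agent.Lib.Helper2_SecondMain
  Cfsg.Agent.Lib.Helper2_BP1 Cfsg.Agent.Lib.Helper2_BP2 Cfsg.Agent.Lib.Helper2_BP3
  Cfsg.Agent.Lib.Helper2_BP4 Cfsg.Agent.Lib.Helper2_BP5 Cfsg.Agent.Lib.Helper2_BP6
  Cfsg.Agent.Lib.Helper2_BP7 Cfsg.Agent.Lib.Helper2_BP8 Cfsg.Agent.Lib.Helper2_BP9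
  Cfsg.Agent.Lib.Helper2_BP10 Cfsg.Agent.Lib.Helper2_BP11 Cfsg.Agent.Lib.Helper2_BP12
  Cfsg.Agent.Lib.Helper2_BP13 Cfsg.Agent.Lib.Helper2_BP14 Cfsg.Agent.Lib.Helper2_BP15
  Cfsg.Agent.Lib.Helper2_ExtFMT
  Cfsg.Agent.Lib.Helper2_Fong Cfsg.Agent.Lib.Helper2_EA Cfsg.Agent.Lib.Helper2_MaxPair
  Cfsg.Agent.Lib.Helper2_MaxPair2 Cfsg.Agent.Lib.Helper2_Down Cfsg.Agent.Lib.Helper2_RelConj
  Cfsg.Agent.Lib.Helper2_BlockSection
  Cfsg.Agent.Lib.Helper2_BlockCover2 Cfsg.Agent.Lib.Helper2_Basic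
  Cfsg.Agent.Lib.CharBasic Cfsg.Agent.Lib.CharOrtho
  Cfsg.Agent.Lib.CharComplete Cfsg.Agent.Lib.CharIntegral Cfsg.Agent.Lib.CharMore
  Cfsg.Agent.Lib.CharPerm Cfsg.Agent.Lib.CharInd
open scoped ComplexConjugate Classical
open Relation
open Cfsg.Agent.Lib.Helper2_AbDef Cfsg.FusionSystem Cfsg.Agent.Lib.Helper2_BFS1
  Cfsg.Agent.Lib.Helper2_BP17 Cfsg.Agent.Lib.Helper2_BlockDefOrder Cfsg.Agent.Lib.Helper2_BFS2
  Cfsg.Agent.Lib.Helper2_BFS3 Cfsg.Agent.Lib.Helper2_PPart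

universe u

variable {M : Ideal AlgInt} {p : ℕ} {G : Type u} [Group G] [Fintype G]

theorem autGroup_pGroup_of_nilpotent [Fact p.Prime] (hM : IsPModular p M)
    {B : Set (IrrCharacter G)}
    {P : Subgroup G} {e : Set (IrrCharacter (Subgroup.centralizer (P : Set G)))}
    {F : FusionSystem P} (hF : IsBlockFusionSystemOn p M B P e F)
    (hnil : IsNilpotentBlock p M B) {Q : Subgroup G} (hQ : Q ≤ P) :
    IsPGroup p (F.autGroup Q) := by
  have hp : p.Prime := Fact.out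
  have hBe := hF.1.1
  have hPe := hBe.1
  obtain ⟨f, hf⟩ := subpair_exists hM _ hPe hQ le_rfl
  obtain ⟨T, hT⟩ := exists_isStab Q f
  have hQf : IsBrauerPair p M Q f := rtg_isBrauerPair' hf hPe
  have hBf : IsBrauerPairOf p M B Q f := (brauerPairOf_iff_of_le hM hPe hQf hf hBe.2.1).mp hBe
  rintro ⟨α, hα⟩
  rw [autGroup_eq hM hF hf hT, Cfsg.Agent.Lib.Helper9_FusionSat.mem_autInducedBy_iff_conjAut] at hα
  obtain ⟨n, rfl⟩ := hα
  obtain ⟨a, b, s, h1, h2, h3⟩ := exists_parts hp n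
  refine ⟨s, ?_⟩
  apply Subtype.ext
  show (Cfsg.Agent.Lib.Helper9_FusionSat.conjAut T Q n) ^ (p ^ s) = 1
  have hb : Cfsg.Agent.Lib.Helper9_FusionSat.conjAut T Q (n ^ b) = 1 := by
    have hmem := (hT ((n ^ b : normalizerIn T Q) : G)).mp (n ^ b).2.1
    have hreg : IsPRegular p ((n ^ b : normalizerIn T Q) : G) := by
      unfold IsPRegular
      rw [Subgroup.orderOf_coe]
      exact h3
    have hc := hnil.2 Q f hBf _ hmem.1 hmem.2 hreg
    ext x
    rw [Cfsg.Agent.Lib.Helper9_FusionSat.conjAut_apply, MulAut.one_apply]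
    have h4 := Subgroup.mem_centralizer_iff.mp hc x x.2
    rw [← h4]
    group
  have h5 : Cfsg.Agent.Lib.Helper9_FusionSat.conjAut T Q n =
      Cfsg.Agent.Lib.Helper9_FusionSat.conjAut T Q (n ^ a) := by
    conv_lhs => rw [← h1, map_mul, hb, mul_one]
  rw [h5, ← map_pow, h2, map_one]

theorem inner_of_nilpotent [Fact p.Prime] (hM : IsPModular p M) {B : Set (IrrCharacter G)}
    {P : Subgroup G} {e : Set (IrrCharacter (Subgroup.centralizer (P : Set G)))}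
    {F : FusionSystem P} (hF : IsBlockFusionSystemOn p M B P e F)
    (hnil : IsNilpotentBlock p M B) : F = innerFusionSystem P :=
  Cfsg.Agent.Lib.Helper9_AlperinCor.eq_inner p hF.1.1.1.1 F (saturated hM hF)
    (fun _ hQ => autGroup_pGroup_of_nilpotent hM hF hnil hQ)

omit [Fintype G] in
/-- a `p'`-element acting on `Q` like a `p`-element centralizes `Q` -/
theorem centralizes_of_coprime [Finite G] (hp : p.Prime) {Q : Subgroup G} {x u : G}
    (hx : x ∈ Subgroup.normalizer (Q : Set G)) (hxr : ¬ p ∣ orderOf x)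
    (hu : ∃ k : ℕ, orderOf u = p ^ k) (h : ∀ y ∈ Q, x * y * x⁻¹ = u * y * u⁻¹) :
    x ∈ Subgroup.centralizer (Q : Set G) := by
  have hc : u⁻¹ * x ∈ Subgroup.centralizer (Q : Set G) := by
    rw [Subgroup.mem_centralizer_iff]
    intro y hy
    have h1 := h y hy
    calc y * (u⁻¹ * x) = u⁻¹ * (u * y * u⁻¹) * x := by group
      _ = u⁻¹ * (x * y * x⁻¹) * x := by rw [h1]
      _ = _ := by group
  have huN : u ∈ Subgroup.normalizer (Q : Set G) := by
    have : u = x * (u⁻¹ * x)⁻¹ := by group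
    rw [this]
    exact Subgroup.mul_mem _ hx (Subgroup.inv_mem _ (centralizer_le_normalizer' Q hc))
  have e1 : Q.normalizerMonoidHom ⟨x, hx⟩ = Q.normalizerMonoidHom ⟨u, huN⟩ := by
    ext y
    exact h y y.2
  have d1 : orderOf (Q.normalizerMonoidHom ⟨x, hx⟩) ∣ orderOf x := by
    have := orderOf_map_dvd Q.normalizerMonoidHom (⟨x, hx⟩ : Subgroup.normalizer (Q : Set G))
    rwa [← Subgroup.orderOf_coe] at this
  have d2 : orderOf (Q.normalizerMonoidHom ⟨x, hx⟩) ∣ orderOf u := by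
    rw [e1]
    have := orderOf_map_dvd Q.normalizerMonoidHom (⟨u, huN⟩ : Subgroup.normalizer (Q : Set G))
    rwa [← Subgroup.orderOf_coe] at this
  obtain ⟨k, hk⟩ := hu
  have hcop : Nat.Coprime (orderOf u) (orderOf x) := by
    rw [hk]
    exact Nat.Coprime.pow_left k ((Nat.Prime.coprime_iff_not_dvd hp).mpr hxr)
  have h1 := orderOf_eq_one_iff.mp (Nat.eq_one_of_dvd_coprimes hcop d2 d1)
  rw [Subgroup.mem_centralizer_iff]
  intro y hy
  have h2 := congrArg (fun α : MulAut Q => ((α ⟨y, hy⟩ : Q) : G)) h1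
  have h3 : x * y * x⁻¹ = y := h2
  calc y * x = (x * y * x⁻¹) * x := by rw [h3]
    _ = x * y := by group

theorem nilpotent_of_inner [Fact p.Prime] (hM : IsPModular p M) {B : Set (IrrCharacter G)}
    {P : Subgroup G} {e : Set (IrrCharacter (Subgroup.centralizer (P : Set G)))}
    {F : FusionSystem P} (hF : IsBlockFusionSystemOn p M B P e F)
    (h : ∀ Q : Subgroup G, F.Hom Q = (innerFusionSystem P).Hom Q) : IsNilpotentBlock p M B := by
  have hp : p.Prime := Fact.out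
  have hBe := hF.1.1
  have hPe := hBe.1
  have hno := noExt_of_maximal hM hF.1
  refine ⟨hBe.2.1, ?_⟩
  intro Q f hQf x hxN hxS hxr
  obtain ⟨g, hg⟩ := conj_into_noExt hM hBe hno (a := ⟨Q, f⟩) hQf
  have hx : cjPair x ⟨Q, f⟩ = ⟨Q, f⟩ := cjPair_eq_self_iff.mpr ⟨hxN, hxS⟩
  have hx' : cjPair (g * x * g⁻¹) (cjPair g ⟨Q, f⟩) = cjPair g ⟨Q, f⟩ := by
    rw [cjPair_mul]
    have : g * x * g⁻¹ * g = g * x := by group
    rw [this, ← cjPair_mul, hx]
  have hmem : conjHom (Q.map (MulAut.conj g).toMonoidHom) (g * x * g⁻¹) ∈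
      F.Hom (Q.map (MulAut.conj g).toMonoidHom) := by
    rw [mem_hom_iff hF]
    refine ⟨g * x * g⁻¹, conjBlock Q g f, fun _ => rfl, hg, ?_⟩
    have : cjPair (g * x * g⁻¹) ⟨Q.map (MulAut.conj g).toMonoidHom, conjBlock Q g f⟩ =
      cjPair g ⟨Q, f⟩ := hx'
    rw [this]
    exact hg
  rw [h] at hmem
  obtain ⟨-, u, hu, hu2⟩ := hmem
  have hord : orderOf (g * x * g⁻¹) = orderOf x := by
    have := orderOf_injective (MulAut.conj g).toMonoidHom (MulAut.conj g).injective x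
    exact this
  have hc := centralizes_of_coprime hp (Q := Q.map (MulAut.conj g).toMonoidHom)
    (x := g * x * g⁻¹) (u := u) (cjPair_eq_self_iff.mp hx').1 (by rw [hord]; exact hxr)
    (by
      obtain ⟨k, hk⟩ := hPe.1 ⟨u, hu⟩
      apply orderOf_eq_pow_of_pow_eq_one hp (s := k)
      have := congrArg Subtype.val hk
      simpa using this)
    (fun y hy => hu2 ⟨y, hy⟩)
  exact conj_mem_centralizer_map.mp hc

end Cfsg.Agent.Lib.Helper2_Nilp
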