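import Mathlib
import Cfsg.Prelude.Def_BrauerPairs
import Cfsg.Prelude.Def_BlockFusion
import Cfsg.Agent.Lib.Helper2_Nilp

set_option autoImplicit false

namespace Cfsg.Agent.Lib.Helper2_Up

open Cfsg Cfsg.Agent.Lib.Helper2_BlockLocal Cfsg.Agent.Lib.Helper2_BlockOm
  Cfsg.Agent.Lib.Helper2_BlockOsima Cfsg.Agent.Lib.Helper2_BlockBasic
  Cfsg.Agent.Lib.Helper2_BlockOrtho Cfsg.Agent.Lib.Helper2_BlockMinMax
  Cfsg.Agent.Lib.Helper2_BlockInd Cfsg.Agent.Lib.Helper2_BlockDefect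
  Cfsg.Agent.Lib.Helper2_BlockPCore Cfsg.Agent.Lib.Helper2_BlockNormal
  Cfsg.Agent.Lib.Helper2_BlockBrauer Cfsg.Agent.Lib.Helper2_BlockFMT
  Cfsg.Agent.Lib.Helper2_BrauerPairs Cfsg.Agent.Lib.Helper2_SecondMain
  Cfsg.Agent.Lib.Helper2_BP1 Cfsg.Agent.Lib.Helper2_BP2 Cfsg.Agent.Lib.Helper2_BP3
  Cfsg.Agent.Lib.Helper2_BP4 Cfsg.Agent.Lib.Helper2_BP5 Cfsg.Agent.Lib.Helper2_BP6
  Cfsg.Agent.Lib.Helper2_BP7 Cfsg.Agent.Lib.Helper2_BP8 Cfsg.Agent.Lib.Helper2_BP9
  Cfsg.Agent.Lib.Helper2_BP10 Cfsg.Agent.Lib.Helper2_BP11 Cfsg.Agent.Lib.Helper2_BP12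
  Cfsg.Agent.Lib.Helper2_BP13 Cfsg.Agent.Lib.Helper2_BP14 Cfsg.Agent.Lib.Helper2_BP15
  Cfsg.Agent.Lib.Helper2_ExtFMT
  Cfsg.Agent.Lib.Helper2_Fong Cfsg.Agent.Lib.Helper2_EA Cfsg.Agent.Lib.Helper2_MaxPair
  Cfsg.Agent.Lib.Helper2_MaxPair2 Cfsg.Agent.Lib.Helper2_Down Cfsg.Agent.Lib.Helper2_RelConj
  Cfsg.Agent.Lib.Helper2_BlockSection
  Cfsg.Agent.Lib.Helper2_BlockCover2 Cfsg.Agent.Lib.Helper2_Basic
  Cfsg.Agent.Lib.CharBasic Cfsg.Agent.Lib.CharOrtho
  Cfsg.Agent.Lib.CharComplete Cfsg.Agent.Lib.CharIntegral Cfsg.Agent.Lib.CharMore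
  Cfsg.Agent.Lib.CharPerm Cfsg.Agent.Lib.CharInd
open scoped ComplexConjugate Classical
open Relation
open Cfsg.Agent.Lib.Helper2_AbDef Cfsg.FusionSystem Cfsg.Agent.Lib.Helper2_BFS1
  Cfsg.Agent.Lib.Helper2_BP17 Cfsg.Agent.Lib.Helper2_BlockDefOrder Cfsg.Agent.Lib.Helper2_BFS2
  Cfsg.Agent.Lib.Helper2_BFS3 Cfsg.Agent.Lib.Helper2_PPart Cfsg.Agent.Lib.Helper2_Nilp

universe u

variable {M : Ideal AlgInt} {p : ℕ} {G : Type u} [Group G]

/-- `Q R` for a subgroup `R'` of `C_G(Q)` -/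
def upS (Q : Subgroup G) (R' : Subgroup (Subgroup.centralizer (Q : Set G))) : Subgroup G :=
  Q ⊔ R'.map (Subgroup.centralizer (Q : Set G)).subtype

theorem map_le_centralizer (Q : Subgroup G) (R' : Subgroup (Subgroup.centralizer (Q : Set G))) :
    R'.map (Subgroup.centralizer (Q : Set G)).subtype ≤ Subgroup.centralizer (Q : Set G) := by
  rintro _ ⟨a, -, rfl⟩; exact a.2

theorem mem_centralizer_upS {Q : Subgroup G} {R' : Subgroup (Subgroup.centralizer (Q : Set G))}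
    {k : G} : k ∈ Subgroup.centralizer ((upS Q R' : Subgroup G) : Set G) ↔
      ∃ hk : k ∈ Subgroup.centralizer (Q : Set G),
        (⟨k, hk⟩ : Subgroup.centralizer (Q : Set G)) ∈ Subgroup.centralizer (R' : Set (Subgroup.centralizer (Q : Set G))) := by
  constructor
  · intro h
    have hk : k ∈ Subgroup.centralizer (Q : Set G) := centralizer_anti le_sup_left h
    refine ⟨hk, ?_⟩
    rw [Subgroup.mem_centralizer_iff]
    intro a ha
    apply Subtype.ext
    exact Subgroup.mem_centralizer_iff.mp h a (le_sup_right (a := Q) ⟨a, ha, rfl⟩)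
  · rintro ⟨hk, h⟩
    apply mem_centralizer_of_le
    apply sup_le (le_centralizer_singleton_of_mem hk)
    rintro _ ⟨a, ha, rfl⟩
    rw [Subgroup.mem_centralizer_singleton_iff]
    have := Subgroup.mem_centralizer_iff.mp h a ha
    exact congrArg Subtype.val this

/-- the identification `C_X(R') ≃ C_G(Q R)` -/
def uEquiv (Q : Subgroup G) (R' : Subgroup (Subgroup.centralizer (Q : Set G))) :
    Subgroup.centralizer (R' : Set (Subgroup.centralizer (Q : Set G))) ≃*
      Subgroup.centralizer ((upS Q R' : Subgroup G) : Set G) where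
  toFun k := ⟨((k : Subgroup.centralizer (Q : Set G)) : G),
    mem_centralizer_upS.mpr ⟨(k : Subgroup.centralizer (Q : Set G)).2, k.2⟩⟩
  invFun k := ⟨⟨k, (mem_centralizer_upS.mp k.2).1⟩, (mem_centralizer_upS.mp k.2).2⟩
  left_inv _ := rfl
  right_inv _ := rfl
  map_mul' _ _ := rfl

theorem normalizer_inf_le_sup (A A' : Subgroup G) :
    Subgroup.normalizer (A : Set G) ⊓ Subgroup.normalizer (A' : Set G) ≤
      Subgroup.normalizer ((A ⊔ A' : Subgroup G) : Set G) := by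
  rintro n ⟨hn, hn'⟩
  have h1 : (A ⊔ A').map (MulAut.conj n⁻¹).toMonoidHom = A ⊔ A' := by
    rw [Subgroup.map_sup, map_conj_of_normalizer (Subgroup.inv_mem _ hn),
      map_conj_of_normalizer (Subgroup.inv_mem _ hn')]
  rw [Subgroup.mem_normalizer_iff]
  intro g
  conv_lhs => rw [← h1, mem_cj]
  simp

variable [Finite G]

theorem sbc_up (Q : Subgroup G) (R' : Subgroup (Subgroup.centralizer (Q : Set G)))
    (g' : Set (IrrCharacter (Subgroup.centralizer (R' : Set (Subgroup.centralizer (Q : Set G))))))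
    (x : Subgroup.centralizer (Q : Set G)) :
    subgroupBlockCoeff _ (mapBlock (uEquiv Q R') g') (x : G) = subgroupBlockCoeff _ g' x := by
  by_cases hx : x ∈ Subgroup.centralizer (R' : Set (Subgroup.centralizer (Q : Set G)))
  · have hx' : (x : G) ∈ Subgroup.centralizer ((upS Q R' : Subgroup G) : Set G) :=
      mem_centralizer_upS.mpr ⟨x.2, hx⟩
    have h1 := sbc_coe _ (mapBlock (uEquiv Q R') g') ⟨(x : G), hx'⟩
    have h2 := sbc_coe _ g' ⟨x, hx⟩
    simp only at h1 h2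
    rw [h1, h2, blockCoeff_mapBlock']
    rfl
  · rw [sbc_not_mem _ _ hx, sbc_not_mem]
    intro h
    exact hx (mem_centralizer_upS.mp h).2

theorem sbc_up_not_mem (Q : Subgroup G) (R' : Subgroup (Subgroup.centralizer (Q : Set G)))
    (g' : Set (IrrCharacter (Subgroup.centralizer (R' : Set (Subgroup.centralizer (Q : Set G))))))
    {x : G} (hx : x ∉ Subgroup.centralizer (Q : Set G)) :
    subgroupBlockCoeff _ (mapBlock (uEquiv Q R') g') x = 0 := by
  apply sbc_not_mem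
  intro h
  exact hx (mem_centralizer_upS.mp h).1

theorem bo_up (Q : Subgroup G) (R' : Subgroup (Subgroup.centralizer (Q : Set G))) (c : G → ℂ)
    (ξ : IrrCharacter (Subgroup.centralizer (R' : Set (Subgroup.centralizer (Q : Set G))))) :
    brauerOmega (upS Q R') c ((mapIrr (uEquiv Q R') ξ : IrrCharacter _) : _ → ℂ) =
      brauerOmega R' (fun x : Subgroup.centralizer (Q : Set G) => c x) (ξ : _ → ℂ) := by
  haveI : Fintype (Subgroup.centralizer (R' : Set (Subgroup.centralizer (Q : Set G)))) :=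
    Fintype.ofFinite _
  haveI : Fintype (Subgroup.centralizer ((upS Q R' : Subgroup G) : Set G)) :=
    Fintype.ofFinite _
  rw [bo_eq, bo_eq]
  unfold Om
  have h1 : ((mapIrr (uEquiv Q R') ξ : IrrCharacter _) : Subgroup.centralizer
      ((upS Q R' : Subgroup G) : Set G) → ℂ) 1 =
      (ξ : Subgroup.centralizer (R' : Set (Subgroup.centralizer (Q : Set G))) → ℂ) 1 := by
    conv_lhs => rw [← map_one (uEquiv Q R'), mapIrr_apply]
  rw [h1]
  congr 1
  rw [← Equiv.sum_comp (uEquiv Q R').toEquiv]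
  refine Finset.sum_congr rfl fun y _ => ?_
  simp only [MulEquiv.toEquiv_eq_coe, EquivLike.coe_coe]
  rw [mapIrr_apply]
  rfl

theorem normalSubpair_up {Q : Subgroup G}
    {f : Set (IrrCharacter (Subgroup.centralizer (Q : Set G)))} (hQ : IsPGroup p Q)
    {R' : Subgroup (Subgroup.centralizer (Q : Set G))}
    {g' : Set (IrrCharacter (Subgroup.centralizer (R' : Set (Subgroup.centralizer (Q : Set G)))))}
    (h : IsBrauerPairOf p M f R' g') :
    IsNormalSubpair p M Q f (upS Q R') (mapBlock (uEquiv Q R') g') := by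
  obtain ⟨⟨hR', hg'⟩, hf, hbo⟩ := h
  have hRC := map_le_centralizer Q R'
  have hRN := hRC.trans (centralizer_le_normalizer' Q)
  have hSN : upS Q R' ≤ Subgroup.normalizer (Q : Set G) := sup_le Subgroup.le_normalizer hRN
  have hinv : Inv (upS Q R') (subgroupBlockCoeff (Subgroup.centralizer (Q : Set G)) f) :=
    inv_sup (sbc_inv_self Q f) (inv_mono hRC (sbc_inv _ f))
  refine ⟨⟨hQ, hf⟩, ⟨hQ.to_sup_of_normal_left' (hR'.map _) hRN, isPBlock_mapBlock _ hg'⟩,
    le_sup_left, hSN, ?_, ?_⟩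
  · intro x hx
    rw [stabilizes_iff_inv]
    exact ⟨normalizer_le_normalizer_centralizer Q (hSN hx), hinv x hx⟩
  · rintro _ ⟨ξ, hξ, rfl⟩
    rw [bo_up]
    have e1 : (fun x : Subgroup.centralizer (Q : Set G) =>
        subgroupBlockCoeff (Subgroup.centralizer (Q : Set G)) f (x : G)) = blockCoeff f :=
      funext fun x => sbc_coe _ f x
    rw [e1]
    exact hbo ξ hξ

theorem nilpotent_centralizer [Fintype G] (hM : IsPModular p M) {B : Set (IrrCharacter G)}
    (hnil : IsNilpotentBlock p M B) {Q : Subgroup G}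
    {f : Set (IrrCharacter (Subgroup.centralizer (Q : Set G)))}
    (hQf : IsBrauerPairOf p M B Q f) : IsNilpotentBlock p M f := by
  refine ⟨hQf.1.2, ?_⟩
  intro R' g' hR' x hxN hxS hxr
  have hn := normalSubpair_up hQf.1.1 hR'
  have hle : SubpairLE p M Q f (upS Q R') (mapBlock (uEquiv Q R') g') :=
    ReflTransGen.single (show NormalSubpairRel p M ⟨Q, f⟩ ⟨_, _⟩ from hn)
  have hB : IsBrauerPairOf p M B (upS Q R') (mapBlock (uEquiv Q R') g') :=
    (brauerPairOf_iff_of_le hM hn.2.1 hn.1 hle hQf.2.1).mpr hQf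
  have hxN' : (x : G) ∈ Subgroup.normalizer ((upS Q R' : Subgroup G) : Set G) := by
    apply normalizer_inf_le_sup
    refine Subgroup.mem_inf.mpr ⟨centralizer_le_normalizer' Q x.2, ?_⟩
    rw [Subgroup.mem_normalizer_iff]
    intro g
    constructor
    · rintro ⟨a, ha, rfl⟩
      exact ⟨x * a * x⁻¹, (Subgroup.mem_normalizer_iff.mp hxN a).mp ha, rfl⟩
    · rintro ⟨a, ha, ha2⟩
      have h1 := (Subgroup.mem_normalizer_iff.mp (Subgroup.inv_mem _ hxN) a).mp ha
      refine ⟨x⁻¹ * a * x⁻¹⁻¹, h1, ?_⟩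
      show (x : G)⁻¹ * a * (x : G)⁻¹⁻¹ = g
      have ha3 : (a : G) = x * g * (x : G)⁻¹ := ha2
      rw [ha3]
      group
  have hxS' : StabilizesBlock (Subgroup.centralizer ((upS Q R' : Subgroup G) : Set G))
      (mapBlock (uEquiv Q R') g') (x : G) := by
    rw [stabilizes_iff_inv]
    refine ⟨normalizer_le_normalizer_centralizer _ hxN', fun h => ?_⟩
    by_cases hh : h ∈ Subgroup.centralizer (Q : Set G)
    · have h1 := sbc_up Q R' g' (x * ⟨h, hh⟩ * x⁻¹)
      have h2 := sbc_up Q R' g' ⟨h, hh⟩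
      have h3 := (stabilizes_iff_inv.mp hxS).2 ⟨h, hh⟩
      simp only at h2
      rw [h2, ← h3, ← h1]
      rfl
    · rw [sbc_up_not_mem Q R' g' hh, sbc_up_not_mem]
      intro h'
      apply hh
      have := Subgroup.mul_mem _ (Subgroup.mul_mem _ (Subgroup.inv_mem _ x.2) h') x.2
      have e : (x : G)⁻¹ * (x * h * (x : G)⁻¹) * x = h := by group
      rwa [e] at this
  have hreg : IsPRegular p (x : G) := by
    unfold IsPRegular at hxr ⊢
    rwa [Subgroup.orderOf_coe]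
  have hc := hnil.2 _ _ hB _ hxN' hxS' hreg
  exact (mem_centralizer_upS.mp hc).2

end Cfsg.Agent.Lib.Helper2_Up
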