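import Mathlib
import Cfsg.Prelude.Def_BrauerPairs
import Cfsg.Prelude.Def_BlockFusion
import Cfsg.Agent.Lib.Helper2_Up

set_option autoImplicit false

namespace Cfsg.Agent.Lib.Helper2_AbDef2

open Cfsg Cfsg.Agent.Lib.Helper2_BlockLocal Cfsg.Agent.Lib.Helper2_BlockOm
  Cfsg.Agent.Lib.Helper2_BlockOsima Cfsg.Agent.Lib.Helper2_BlockBasic
  Cfsg.Agent.Lib.Helper2_BlockOrtho Cfsg.Agent.Lib.Helper2_BlockMinMax
  Cfsg.Agent.Lib.Helper2_BlockInd Cfsg.Agent.Lib.Helper2_BlockDefect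
  Cfsg.Agent.Lib.Helper2_BlockPCore Cfsg.Agent.Lib.Helper2_BlockNormal
  Cfsg.Agent.Lib.Helper2_BlockBrauer Cfsg.Agent.Lib.Helper2_BlockFMT
  Cfsg.Agent.Lib.Helper2_BrauerPairs Cfsg.Agent.Lib.Helper2_SecondMain
  Cfsg.Agent.Lib.Helper2_BP1 Cfsg.Agent.Lib.Helper2_BP2 Cfsg.Agent.Lib.Helper2_BP3
  Cfsg.Agent.Lib.Helper2_BP4 Cfsg.Agent.Lib.Helper2_BP5 Cfsg.Agent.Lib.Helper2_BP6
  Cfsg.Agent.Lib.Helper2_BP7 Cfsg.Agent.Lib.Helper2_BP8 Cfsg.Agent.Lib.Helper2_BP9
  Cfsg.Agent.Lib.Helper2_BP10 Cfsg.Agent.Lib.Helper2_BP11 Cfsg.Agent.Lib.Helper2_BP12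
  Cfsg.Agent.Lib.Helper2_BP13 Cfsg.Agent.Lib.Helper2_BP14 Cfsg.Agent.Lib.Helper2_BP15
  Cfsg.Agent.Lib.Helper2_ExtFMT
  Cfsg.Agent.Lib.Helper2_Fong Cfsg.Agent.Lib.Helper2_EA Cfsg.Agent.Lib.Helper2_MaxPair
  Cfsg.Agent.Lib.Helper2_MaxPair2 Cfsg.Agent.Lib.Helper2_Down Cfsg.Agent.Lib.Helper2_RelConj
  Cfsg.Agent.Lib.Helper2_BlockSection
  Cfsg.Agent.Lib.Helper2_BlockCover2 Cfsg.Agent.Lib.Helper2_Basic
  Cfsg.Agent.Lib.CharBasic Cfsg.Agent.Lib.CharOrtho
  Cfsg.Agent.Lib.CharComplete Cfsg.Agent.Lib.CharIntegral Cfsg.Agent.Lib.CharMore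
  Cfsg.Agent.Lib.CharPerm Cfsg.Agent.Lib.CharInd
open scoped ComplexConjugate Classical
open Relation
open Cfsg.Agent.Lib.Helper2_AbDef Cfsg.FusionSystem Cfsg.Agent.Lib.Helper2_BFS1
  Cfsg.Agent.Lib.Helper2_BP17 Cfsg.Agent.Lib.Helper2_BlockDefOrder Cfsg.Agent.Lib.Helper2_BFS2
  Cfsg.Agent.Lib.Helper2_BFS3 Cfsg.Agent.Lib.Helper2_PPart Cfsg.Agent.Lib.Helper2_Nilp

universe u

variable {M : Ideal AlgInt} {p : ℕ} {G : Type u} [Group G] [Fintype G]

theorem isPGroup_of_defect [Fact p.Prime] (hM : IsPModular p M) {B : Set (IrrCharacter G)}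
    (hB : IsPBlock M B) {P : Subgroup G} (hPD : IsDefectGroup p M B P) : IsPGroup p P :=
  IsPGroup.of_card (card_defectGroup hM hB hPD)

/-- a `B`-pair whose first component is a defect group has no proper extension -/
theorem noExt_of_defect [Fact p.Prime] (hM : IsPModular p M) {B : Set (IrrCharacter G)}
    {P : Subgroup G} {e : Set (IrrCharacter (Subgroup.centralizer (P : Set G)))}
    (hBe : IsBrauerPairOf p M B P e) (hPD : IsDefectGroup p M B P) : NoExt p M P e := by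
  have hPr := isPrime_of_modular hM
  obtain ⟨b, hb1, hb2, hb3⟩ := exists_noExt_ge hM _ ⟨P, e⟩ le_rfl hBe
  have hD' := defect_of_noExt hM hb2 hb3
  have hc : Nat.card b.1 ≤ Nat.card P := by
    rw [card_defectGroup hM hBe.2.1 hD', card_defectGroup hM hBe.2.1 hPD]
  have := eq_of_rtg_card hPr hb1 hc
  subst this
  exact hb3

/-- for abelian `P`: a block of `C_G(P)` inducing `B` gives a `B`-pair -/
theorem pairOf_of_induced_abelian (hM : IsPModular p M) {B : Set (IrrCharacter G)}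
    {P : Subgroup G} (hP : IsPGroup p P) (hab : ∀ x ∈ P, ∀ y ∈ P, x * y = y * x)
    {c : Set (IrrCharacter (Subgroup.centralizer (P : Set G)))}
    (hc : IsInducedBlock M (Subgroup.centralizer (P : Set G)) c B) :
    IsBrauerPairOf p M B P c := by
  have hPr := isPrime_of_modular hM
  obtain ⟨ξ, hξ⟩ := block_nonempty hPr hc.1
  have hPC : P ≤ Subgroup.centralizer (P : Set G) := by
    intro u hu
    rw [Subgroup.mem_centralizer_iff]
    intro r hr
    exact hab r hr u hu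
  exact pairOf_of_induced hM hP hPC (centralizer_le_normalizer' P) hc hc.1 hξ hξ
    (fun _ _ _ => rfl)

/-- for abelian defect groups the inertial quotient is a `p'`-group -/
theorem not_dvd_relIndex [Fact p.Prime] (hM : IsPModular p M) {B : Set (IrrCharacter G)}
    {P T : Subgroup G} {c : Set (IrrCharacter (Subgroup.centralizer (P : Set G)))}
    (hBe : IsBrauerPairOf p M B P c) (hno : NoExt p M P c)
    (hab : ∀ x ∈ P, ∀ y ∈ P, x * y = y * x) (hT : IsStab P c T) :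
    ¬ p ∣ (Subgroup.centralizer (P : Set G)).relIndex T := by
  have hp : p.Prime := Fact.out
  have hPC : P ≤ Subgroup.centralizer (P : Set G) := by
    intro u hu
    rw [Subgroup.mem_centralizer_iff]
    intro r hr
    exact hab r hr u hu
  have hv := val_stab_le_of_noExt hM hBe.1 hno hT
  rw [sup_eq_right.mpr hPC] at hv
  obtain ⟨-, hKT, -, -⟩ := stab_facts hT
  have h1 := Subgroup.relIndex_mul_relIndex ⊥ _ T bot_le hKT
  rw [Subgroup.relIndex_bot_left, Subgroup.relIndex_bot_left] at h1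
  have h0 : (Subgroup.centralizer (P : Set G)).relIndex T ≠ 0 := by
    intro h
    rw [h, mul_zero] at h1
    exact Nat.card_pos.ne' h1.symm
  have h2 := congrArg (fun n => n.factorization p) h1
  beta_reduce at h2
  rw [Nat.factorization_mul Nat.card_pos.ne' h0, Finsupp.add_apply] at h2
  have h3 : ((Subgroup.centralizer (P : Set G)).relIndex T).factorization p = 0 := by omega
  intro hd
  have := (hp.dvd_iff_one_le_factorization h0).mp hd
  omega

end Cfsg.Agent.Lib.Helper2_AbDef2
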