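import Mathlib
import Cfsg.Prelude.Def_Blocks
import Cfsg.Agent.Lib.Helper2_GalThompson
import Cfsg.Agent.Lib.Helper2_BlockOrtho2
import Cfsg.Agent.Lib.Helper2_BlockNormal
import Cfsg.Agent.Lib.Helper2_PPart
import Cfsg.Agent.Lib.helper8_Defect
import Cfsg.Agent.Lib.helper8_ModP

/-!
# Principal blocks, the `p`-residual and Galois fixed characters
-/

set_option autoImplicit false

namespace Cfsg.Agent.Lib.Helper2_GalThompson2

open Cfsg Cfsg.Agent.Lib.Helper2_BlockLocal Cfsg.Agent.Lib.Helper2_BlockOm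
  Cfsg.Agent.Lib.Helper2_BlockOsima Cfsg.Agent.Lib.Helper2_BlockBasic
  Cfsg.Agent.Lib.Helper2_BlockThird Cfsg.Agent.Lib.Helper2_BlockQuot
  Cfsg.Agent.Lib.Helper2_BlockOrtho2 Cfsg.Agent.Lib.Helper2_BlockNormal
  Cfsg.Agent.Lib.CharBasic Cfsg.Agent.Lib.CharOrtho
  Cfsg.Agent.Lib.CharComplete Cfsg.Agent.Lib.CharIntegral Cfsg.Agent.Lib.CharMore
  Cfsg.Agent.Lib.CharInd Cfsg.Agent.Lib.CharClifford Cfsg.Agent.Lib.CharPow
  Cfsg.Agent.Lib.CharPow2 Cfsg.Agent.Lib.CharDet Cfsg.Agent.Lib.CharThompson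
  Cfsg.Agent.Lib.Helper9_PResidual Cfsg.Agent.Lib.Helper2_GalThompson
  Cfsg.Agent.S4735
open scoped ComplexConjugate

open scoped Classical in
/-- the sum of the squares of the degrees in a block is divisible by `p` if `p ∣ |K|` -/
theorem block_sq_dvd {K : Type*} [Group K] [Fintype K] {p : ℕ} {M : Ideal AlgInt}
    (hM : IsPModular p M) {B : Set (IrrCharacter K)} (hB : IsPBlock M B)
    (hdvd : p ∣ Nat.card K) :
    p ∣ ∑ θ : IrrCharacter K, (if θ ∈ B then charDegree (θ : K → ℂ) ^ 2 else 0) := by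
  have hPr := isPrime_of_modular hM
  have hp : p.Prime := hM.1
  haveI : Fact p.Prime := ⟨hp⟩
  obtain ⟨x, hx⟩ := exists_prime_orderOf_dvd_card' p hdvd
  have hxpart : IsPPart p x x :=
    ⟨1, mul_one x, Commute.one_right x, ⟨1, by rw [hx, pow_one]⟩,
      by rw [orderOf_one]; exact hp.one_lt.ne' ∘ Nat.dvd_one.1⟩
  have h1part : IsPPart p (1 : K) 1 :=
    ⟨1, mul_one 1, Commute.one_right 1, ⟨0, by rw [orderOf_one, pow_zero]⟩,
      by rw [orderOf_one]; exact hp.one_lt.ne' ∘ Nat.dvd_one.1⟩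
  have hne : ¬ IsConj (1 : K) x := by
    intro hc
    have : x = 1 := (isConj_one_right.1 hc)
    rw [this, orderOf_one] at hx
    exact hp.one_lt.ne hx
  have hE := block_orthogonality hM h1part hxpart hne hB
  have hdeg : ∀ χ : IrrCharacter K, (χ : K → ℂ) 1 = (charDegree (χ : K → ℂ) : ℂ) :=
    fun χ => (Cfsg.Agent.Lib.helper8_Defect.irr_charDegree χ.2).2.1
  rw [← ideal_natCast_iff hM]
  have e1 : ((∑ θ : IrrCharacter K, (if θ ∈ B then charDegree (θ : K → ℂ) ^ 2 else 0) : ℕ) : ℂ) =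
      ∑ χ : IrrCharacter K, (if χ ∈ B then (χ : K → ℂ) 1 else 0) *
        ((χ : K → ℂ) 1 - conj ((χ : K → ℂ) x)) := by
    simp only [mul_sub, Finset.sum_sub_distrib]
    rw [hE, sub_zero]
    push_cast
    refine Finset.sum_congr rfl fun χ _ => ?_
    split_ifs
    · rw [hdeg χ]; ring
    · simp
  rw [e1]
  refine ideal_sum hPr _ _ fun χ _ => ?_
  apply ideal_mul_left hPr
  · split_ifs
    · rw [hdeg χ]; exact ring_natCast hPr _
    · exact ring_zero hPr
  rw [← Cfsg.Agent.Lib.helper8_Defect.inv_of_isCharacter (isCharacter_of_isIrr χ.2)]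
  apply Cfsg.Agent.Lib.helper8_ModP.char_congr_one hM (isCharacter_of_isIrr χ.2) x⁻¹ (j := 1)
  rw [inv_pow, pow_one, ← hx, pow_orderOf_eq_one, inv_one]

/-- the principal block of a normal subgroup is stable under conjugation -/
theorem principal_conj_iff {G : Type*} [Group G] (K : Subgroup G) (hK : K.Normal) [Fintype K]
    {p : ℕ} {M : Ideal AlgInt} (hM : IsPModular p M) (θ θ' : IrrCharacter K) (g : G)
    (h : (θ' : K → ℂ) = conjFun K hK θ g) :
    θ' ∈ principalBlock M K ↔ θ ∈ principalBlock M K := by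
  rw [mem_principal_iff_sum hM, mem_principal_iff_sum hM, h]
  have := sum_mul_conjFun K hK (c := reg p G) reg_classFunction (θ : K → ℂ) g
  simp only [reg_coe] at this
  rw [this]

/-- an extension from a subgroup containing all `p`-regular elements: principal blocks -/
theorem principal_ext_iff {G : Type*} [Group G] [Fintype G] (K : Subgroup G) [Fintype K]
    {p : ℕ} {M : Ideal AlgInt} (hM : IsPModular p M) (hreg : ∀ g : G, ¬ p ∣ orderOf g → g ∈ K)
    (χ : IrrCharacter G) (θ : IrrCharacter K) (h : ∀ n : K, (χ : G → ℂ) n = (θ : K → ℂ) n) :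
    χ ∈ principalBlock M G ↔ θ ∈ principalBlock M K := by
  rw [mem_principal_iff_sum hM, mem_principal_iff_sum hM]
  rw [sum_eq_sum_subgroup K (fun x => reg p G x * (χ : G → ℂ) x)]
  · simp only [reg_coe, h]
  · intro g hg
    have : p ∣ orderOf g := by
      by_contra hn
      exact hg (hreg g hn)
    simp only [reg, if_pos this, zero_mul]

theorem regular_mem_residual {G : Type*} [Group G] {p : ℕ} (hp : p.Prime) (g : G)
    (h : ¬ p ∣ orderOf g) : g ∈ pResidual p G :=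
  mem_pResidual_of_coprime (((Nat.Prime.coprime_iff_not_dvd hp).2 h).symm)

/-- the canonical extension of a Galois fixed character is Galois fixed -/
theorem exists_ext_residual_fixed (p : ℕ) [hp : Fact p.Prime] {G : Type*} [Group G] [Fintype G]
    {θ : ↥(pResidual p G) → ℂ}
    (hθ : IsIrrCharacter (pResidual p G) θ)
    (hinv : ∀ g : G, conjFun (pResidual p G) (pResidual_normal p G) θ g = θ) {d : ℕ}
    (hd : θ 1 = d) (hpd : ¬ p ∣ d) {k : ℕ} (hk : k.Coprime (Nat.card G))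
    (hfix : ∀ n : pResidual p G, θ (n ^ k) = θ n) :
    ∃ χ : G → ℂ, IsIrrCharacter G χ ∧ (∀ n : pResidual p G, χ n = θ n) ∧
        detOrder χ = detOrder θ ∧ ∀ g : G, χ (g ^ k) = χ g := by
  obtain ⟨χ, ⟨h1, h2, h3⟩, huniq⟩ := exists_ext_residual p hθ hinv hd hpd
  refine ⟨χ, h1, h2, h3, ?_⟩
  obtain ⟨j, hj⟩ := index_residual p G
  have h4 : powFun χ k = χ := by
    apply huniq _ (isIrr_powFun h1 hk)
    · intro n
      rw [powFun_apply, ← hfix n, ← h2]
      rfl
    · rw [hj]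
      apply Nat.Coprime.pow_left
      apply Nat.Coprime.coprime_dvd_right (detOrder_powFun_dvd (isCharacter_of_isIrr h1) hk)
      rw [h3]
      exact (detOrder_coprime p (isCharacter_of_isIrr hθ)).symm
  intro g
  exact congrFun h4 g

/-- the exponent of a Galois automorphism of the given kind is prime to the group order -/
theorem coprime_of_galois {G : Type*} [Group G] [Finite G] (p : ℕ) [hp : Fact p.Prime] (k : ℕ)
    (hk₁ : ∀ g : G, (∃ j : ℕ, orderOf g = p ^ j) → g ^ k = g ^ (1 + p))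
    (hk₂ : ∀ g : G, Nat.Coprime (orderOf g) p → g ^ k = g) : k.Coprime (Nat.card G) := by
  apply Nat.Coprime.symm
  apply Nat.coprime_of_dvd
  intro q hq hqG hqk
  haveI : Fact q.Prime := ⟨hq⟩
  obtain ⟨g, hg⟩ := exists_prime_orderOf_dvd_card' q hqG
  have h1 : g ^ k = 1 := orderOf_dvd_iff_pow_eq_one.1 (hg ▸ hqk)
  have hg1 : g ≠ 1 := by
    intro h
    rw [h, orderOf_one] at hg
    exact hq.one_lt.ne hg
  by_cases hqp : q = p
  · subst hqp
    have h2 := hk₁ g ⟨1, by rw [hg, pow_one]⟩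
    rw [h1, pow_add, pow_one, ← hg, pow_orderOf_eq_one, mul_one] at h2
    exact hg1 h2.symm
  · have h2 := hk₂ g (by rw [hg]; exact (Nat.coprime_primes hq hp.out).2 hqp)
    rw [h1] at h2
    exact hg1 h2.symm

/-- the Galois automorphism has `p`-power order -/
theorem galois_pow_order {G : Type*} [Group G] [Finite G] (p : ℕ) [hp : Fact p.Prime] (k : ℕ)
    (hk₁ : ∀ g : G, (∃ j : ℕ, orderOf g = p ^ j) → g ^ k = g ^ (1 + p))
    (hk₂ : ∀ g : G, Nat.Coprime (orderOf g) p → g ^ k = g) :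
    ∃ e : ℕ, ∀ g : G, g ^ (k ^ (p ^ e)) = g := by
  refine ⟨(Nat.card G).factorization p, fun g => ?_⟩
  set e := (Nat.card G).factorization p with he
  obtain ⟨a, b, s, hab, ha, hb⟩ := Cfsg.Agent.Lib.Helper2_PPart.exists_parts hp.out g
  have hu : ∀ j : ℕ, (g ^ a) ^ (k ^ j) = (g ^ a) ^ ((1 + p) ^ j) := by
    intro j
    induction j with
    | zero => simp
    | succ j ih =>
      obtain ⟨i, -, hi⟩ := (Nat.dvd_prime_pow hp.out).1 (orderOf_dvd_of_pow_eq_one ha)
      rw [pow_succ, pow_mul, ih, ← pow_mul, mul_comm, pow_mul, hk₁ _ ⟨i, hi⟩, ← pow_mul, ← pow_succ']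
  have hv : ∀ j : ℕ, (g ^ b) ^ (k ^ j) = g ^ b := by
    intro j
    induction j with
    | zero => simp
    | succ j ih =>
      rw [pow_succ, pow_mul, ih]
      exact hk₂ _ ((Nat.Prime.coprime_iff_not_dvd hp.out).2 hb).symm
  have hcomm : Commute (g ^ a) (g ^ b) := (Commute.refl g).pow_pow a b
  have hu2 : (g ^ a) ^ ((1 + p) ^ (p ^ e)) = g ^ a := by
    obtain ⟨i, -, hi⟩ := (Nat.dvd_prime_pow hp.out).1 (orderOf_dvd_of_pow_eq_one ha)
    have hie : i ≤ e := by
      have h1 : p ^ i ∣ Nat.card G := hi ▸ orderOf_dvd_natCard (g ^ a)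
      exact (Nat.Prime.pow_dvd_iff_le_factorization hp.out Nat.card_pos.ne').1 h1
    have h2 : ((p : ℤ) ^ (e + 1)) ∣ ((1 + p : ℕ) : ℤ) ^ p ^ e - 1 ^ p ^ e := by
      apply dvd_sub_pow_of_dvd_sub
      push_cast
      simp
    have h3 : (1 + p) ^ (p ^ e) ≡ 1 [MOD orderOf (g ^ a)] := by
      rw [hi]
      apply Nat.ModEq.symm
      rw [Nat.modEq_iff_dvd]
      rw [one_pow] at h2
      push_cast at h2 ⊢
      exact dvd_trans (pow_dvd_pow _ (by omega)) h2
    have h4 := (pow_eq_pow_iff_modEq (x := g ^ a)).2 h3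
    rw [h4, pow_one]
  calc g ^ (k ^ (p ^ e)) = (g ^ a * g ^ b) ^ (k ^ (p ^ e)) := by rw [hab]
    _ = (g ^ a) ^ (k ^ (p ^ e)) * (g ^ b) ^ (k ^ (p ^ e)) := hcomm.mul_pow _
    _ = g ^ a * g ^ b := by rw [hu, hv, hu2]
    _ = g := hab

end Cfsg.Agent.Lib.Helper2_GalThompson2
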