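import Mathlib
import Cfsg.Prelude.Def_BrauerPairs
import Cfsg.Prelude.Def_BlockFusion
import Cfsg.Agent.Lib.Helper2_Up
import Cfsg.Agent.Lib.Helper2_BlockCover
import Cfsg.Agent.Lib.Helper2_BlockCover2

set_option autoImplicit false

namespace Cfsg.Agent.Lib.Helper2_PExt1

open Cfsg Cfsg.Agent.Lib.Helper2_BlockLocal Cfsg.Agent.Lib.Helper2_BlockOm
  Cfsg.Agent.Lib.Helper2_BlockOsima Cfsg.Agent.Lib.Helper2_BlockBasic
  Cfsg.Agent.Lib.Helper2_BlockOrtho Cfsg.Agent.Lib.Helper2_BlockMinMax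
  Cfsg.Agent.Lib.Helper2_BlockInd Cfsg.Agent.Lib.Helper2_BlockDefect
  Cfsg.Agent.Lib.Helper2_BlockPCore Cfsg.Agent.Lib.Helper2_BlockNormal
  Cfsg.Agent.Lib.Helper2_BlockBrauer Cfsg.Agent.Lib.Helper2_BlockFMT
  Cfsg.Agent.Lib.Helper2_BrauerPairs Cfsg.Agent.Lib.Helper2_SecondMain
  Cfsg.Agent.Lib.Helper2_BP1 Cfsg.Agent.Lib.Helper2_BP2 Cfsg.Agent.Lib.Helper2_BP3
  Cfsg.Agent.Lib.Helper2_BP4 Cfsg.Agent.Lib.Helper2_BP5 Cfsg.Agent.Lib.Helper2_BP6
  Cfsg.Agent.Lib.Helper2_BP7 Cfsg.Agent.Lib.Helper2_BP8 Cfsg.Agent.Lib.Helper2_BP9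
  Cfsg.Agent.Lib.Helper2_BP10 Cfsg.Agent.Lib.Helper2_BP11 Cfsg.Agent.Lib.Helper2_BP12
  Cfsg.Agent.Lib.Helper2_BP13 Cfsg.Agent.Lib.Helper2_BP14 Cfsg.Agent.Lib.Helper2_BP15
  Cfsg.Agent.Lib.Helper2_ExtFMT
  Cfsg.Agent.Lib.Helper2_Fong Cfsg.Agent.Lib.Helper2_EA Cfsg.Agent.Lib.Helper2_MaxPair
  Cfsg.Agent.Lib.Helper2_MaxPair2 Cfsg.Agent.Lib.Helper2_Down Cfsg.Agent.Lib.Helper2_RelConj
  Cfsg.Agent.Lib.Helper2_BlockSection
  Cfsg.Agent.Lib.Helper2_BlockCover2 Cfsg.Agent.Lib.Helper2_Basic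
  Cfsg.Agent.Lib.CharBasic Cfsg.Agent.Lib.CharOrtho
  Cfsg.Agent.Lib.CharComplete Cfsg.Agent.Lib.CharIntegral Cfsg.Agent.Lib.CharMore
  Cfsg.Agent.Lib.CharPerm Cfsg.Agent.Lib.CharInd
open scoped ComplexConjugate Classical
open Relation
open Cfsg.Agent.Lib.Helper2_AbDef Cfsg.FusionSystem Cfsg.Agent.Lib.Helper2_BFS1
  Cfsg.Agent.Lib.Helper2_BP17 Cfsg.Agent.Lib.Helper2_BlockDefOrder Cfsg.Agent.Lib.Helper2_BFS2
  Cfsg.Agent.Lib.Helper2_BFS3 Cfsg.Agent.Lib.Helper2_PPart Cfsg.Agent.Lib.Helper2_Nilp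
open Cfsg.Agent.Lib.Helper2_BlockCover

universe u

variable {M : Ideal AlgInt} {p : ℕ}

theorem Om_mapIrr {A A' : Type u} [Group A] [Group A'] [Fintype A] [Fintype A'] (e : A ≃* A')
    (c : A' → ℂ) (θ : IrrCharacter A) :
    Om c ((mapIrr e θ : IrrCharacter A') : A' → ℂ) = Om (fun a => c (e a)) (θ : A → ℂ) := by
  unfold Om
  have h1 : ((mapIrr e θ : IrrCharacter A') : A' → ℂ) 1 = (θ : A → ℂ) 1 := by
    conv_lhs => rw [← map_one e, mapIrr_apply]
  rw [h1]
  congr 1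
  rw [← Equiv.sum_comp e.toEquiv]
  refine Finset.sum_congr rfl fun y _ => ?_
  simp only [MulEquiv.toEquiv_eq_coe, EquivLike.coe_coe]
  rw [mapIrr_apply]

variable {G : Type u} [Group G] [Fintype G]

/-- `K` is normal in `H` and contains the `p`-regular elements of `H` -/
structure PNormal (p : ℕ) (H K : Subgroup G) : Prop where
  le : K ≤ H
  norm : H ≤ Subgroup.normalizer (K : Set G)
  reg : ∀ g ∈ H, ¬ p ∣ orderOf g → g ∈ K

section cov

variable (H K : Subgroup G) [Fintype H] [Fintype K]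

/-- the block `F` of `H` covers the block `b` of `K` (idempotent form) -/
def Cov (M : Ideal AlgInt) (F : Set (IrrCharacter H)) (b : Set (IrrCharacter K)) : Prop :=
  ∀ θ ∈ b, MemLocalIdeal M (Om (fun k : K => subgroupBlockCoeff H F k) (θ : K → ℂ) - 1)

/-- `χ` lies over `θ` -/
def Over (h : K ≤ H) [Fintype (K.subgroupOf H)] (χ : IrrCharacter H) (θ : IrrCharacter K) : Prop :=
  classInner (fun n : K.subgroupOf H => (χ : H → ℂ) n)
    ((mapIrr (Subgroup.subgroupOfEquivOfLe h).symm θ : IrrCharacter (K.subgroupOf H)) :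
      K.subgroupOf H → ℂ) ≠ 0

variable {H K}

theorem normal_of_pnormal (h : PNormal p H K) : (K.subgroupOf H).Normal :=
  (Subgroup.normal_subgroupOf_iff_le_normalizer h.le).mpr h.norm

theorem exists_over' (h : K ≤ H) [Fintype (K.subgroupOf H)] (θ : IrrCharacter K) :
    ∃ χ : IrrCharacter H, Over H K h χ θ :=
  Cfsg.Agent.Lib.Helper2_BlockNormal.exists_over _ _

theorem exists_under' (h : K ≤ H) [Fintype (K.subgroupOf H)] (χ : IrrCharacter H) :
    ∃ θ : IrrCharacter K, Over H K h χ θ := by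
  obtain ⟨θ, hθ⟩ := exists_under (K.subgroupOf H) χ
  refine ⟨mapIrr (Subgroup.subgroupOfEquivOfLe h) θ, ?_⟩
  unfold Over
  convert hθ using 2
  funext k
  rw [mapIrr_coe, mapIrr_coe]
  simp

/-- central characters of `H` and `K` on `H`-invariant elements supported in `K` -/
theorem Om_over (h : PNormal p H K) [Fintype (K.subgroupOf H)] {χ : IrrCharacter H}
    {θ : IrrCharacter K} (ho : Over H K h.le χ θ) {a : G → ℂ} (ha : Inv H a)
    (ha0 : ∀ g ∈ H, g ∉ K → a g = 0) :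
    Om (fun x : H => a x) (χ : H → ℂ) = Om (fun k : K => a k) (θ : K → ℂ) := by
  have hcl : IsClassFunction H (fun x : H => a x) := restrict_classFunction_of_inv ha
  rw [Om_eq_Om_restrict (K.subgroupOf H) (c := fun x : H => a x)
      (fun g hg => ha0 g g.2 (fun hk => hg (Subgroup.mem_subgroupOf.mpr hk))),
    Om_restrict_eq (K.subgroupOf H) (normal_of_pnormal h) χ.2
      (mapIrr (Subgroup.subgroupOfEquivOfLe h.le).symm θ).2 ho hcl, Om_mapIrr]
  rfl

theorem Om_sbc_over (hM : IsPModular p M) (h : PNormal p H K) [Fintype (K.subgroupOf H)]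
    {χ : IrrCharacter H} {θ : IrrCharacter K} (ho : Over H K h.le χ θ)
    {F : Set (IrrCharacter H)} (hF : IsPBlock M F) :
    Om (fun k : K => subgroupBlockCoeff H F k) (θ : K → ℂ) = if χ ∈ F then 1 else 0 := by
  have h1 := Om_blockCoeff_restrict hM (K.subgroupOf H) (normal_of_pnormal h)
    (fun g hg => Subgroup.mem_subgroupOf.mpr (h.reg g g.2 (by rwa [Subgroup.orderOf_coe]))) hF χ
    (mapIrr (Subgroup.subgroupOfEquivOfLe h.le).symm θ) ho
  rw [← h1, Om_mapIrr]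
  congr 1
  funext k
  exact sbc_coe H F ⟨k, h.le k.2⟩

theorem sbc_restrict_class (h : PNormal p H K) (F : Set (IrrCharacter H)) :
    IsClassFunction K (fun k : K => subgroupBlockCoeff H F k) :=
  restrict_classFunction_of_inv (inv_mono h.le (sbc_inv H F))

theorem sbc_restrict_ring (hPr : M.IsPrime) {F : Set (IrrCharacter H)} (hF : IsPBlock M F) (g : G) :
    MemLocalRing M (subgroupBlockCoeff H F g) := by
  by_cases hg : g ∈ H
  · have := sbc_coe H F ⟨g, hg⟩
    simp only at this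
    rw [this]
    exact osima_block hPr hF _
  · rw [sbc_not_mem H F hg]; exact ring_zero hPr

theorem cov_of_over (hM : IsPModular p M) (h : PNormal p H K) [Fintype (K.subgroupOf H)]
    {χ : IrrCharacter H} {θ : IrrCharacter K} (ho : Over H K h.le χ θ)
    {F : Set (IrrCharacter H)} (hF : IsPBlock M F) (hχ : χ ∈ F) {b : Set (IrrCharacter K)}
    (hb : IsPBlock M b) (hθ : θ ∈ b) : Cov H K M F b := by
  have hPr := isPrime_of_modular hM
  intro θ' hθ'
  have h1 := Om_sbc_over hM h ho hF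
  rw [if_pos hχ] at h1
  rw [← h1]
  apply Om_congr hPr (sbc_restrict_class h F) (fun k => sbc_restrict_ring hPr hF _)
    (irr_classFunction θ') (irr_classFunction θ)
  rw [block_eq_blockOf hPr hb hθ'] at hθ
  exact hθ

theorem mem_of_cov (hM : IsPModular p M) (h : PNormal p H K) [Fintype (K.subgroupOf H)]
    {χ : IrrCharacter H} {θ : IrrCharacter K} (ho : Over H K h.le χ θ)
    {F : Set (IrrCharacter H)} (hF : IsPBlock M F) {b : Set (IrrCharacter K)}
    (hθ : θ ∈ b) (hc : Cov H K M F b) : χ ∈ F := by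
  have hPr := isPrime_of_modular hM
  have h1 := hc θ hθ
  rw [Om_sbc_over hM h ho hF] at h1
  by_contra hcon
  rw [if_neg hcon, zero_sub] at h1
  exact not_ideal_one hPr (by simpa using ideal_neg h1)

theorem exists_cov (hM : IsPModular p M) (h : PNormal p H K) {b : Set (IrrCharacter K)}
    (hb : IsPBlock M b) : ∃ F : Set (IrrCharacter H), IsPBlock M F ∧ Cov H K M F b := by
  have hPr := isPrime_of_modular hM
  haveI : Fintype (K.subgroupOf H) := Fintype.ofFinite _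
  obtain ⟨θ, hθ⟩ := block_nonempty hPr hb
  obtain ⟨χ, hχ⟩ := exists_over' h.le θ
  exact ⟨blockOf M (χ : H → ℂ), ⟨χ, rfl⟩,
    cov_of_over hM h hχ ⟨χ, rfl⟩ (self_mem_blockOf hPr χ) hb hθ⟩

theorem exists_cov_under (hM : IsPModular p M) (h : PNormal p H K) {F : Set (IrrCharacter H)}
    (hF : IsPBlock M F) : ∃ b : Set (IrrCharacter K), IsPBlock M b ∧ Cov H K M F b := by
  have hPr := isPrime_of_modular hM
  haveI : Fintype (K.subgroupOf H) := Fintype.ofFinite _
  obtain ⟨χ, hχ⟩ := block_nonempty hPr hF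
  obtain ⟨θ, hθ⟩ := exists_under' h.le χ
  exact ⟨blockOf M (θ : K → ℂ), ⟨θ, rfl⟩,
    cov_of_over hM h hθ hF hχ ⟨θ, rfl⟩ (self_mem_blockOf hPr θ)⟩

theorem cov_unique (hM : IsPModular p M) (h : PNormal p H K) {F F' : Set (IrrCharacter H)}
    (hF : IsPBlock M F) (hF' : IsPBlock M F') {b : Set (IrrCharacter K)} (hb : IsPBlock M b)
    (hc : Cov H K M F b) (hc' : Cov H K M F' b) : F = F' := by
  have hPr := isPrime_of_modular hM
  haveI : Fintype (K.subgroupOf H) := Fintype.ofFinite _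
  obtain ⟨θ, hθ⟩ := block_nonempty hPr hb
  obtain ⟨χ, hχ⟩ := exists_over' h.le θ
  rw [block_eq_blockOf hPr hF (mem_of_cov hM h hχ hF hθ hc),
    block_eq_blockOf hPr hF' (mem_of_cov hM h hχ hF' hθ hc')]

/-- central characters for covering blocks -/
theorem Om_cov (hM : IsPModular p M) (h : PNormal p H K) {F : Set (IrrCharacter H)}
    (hF : IsPBlock M F) {b : Set (IrrCharacter K)} (hb : IsPBlock M b) (hc : Cov H K M F b)
    {a : G → ℂ} (ha : Inv H a) (ha0 : ∀ g ∈ H, g ∉ K → a g = 0) (har : ∀ g, MemLocalRing M (a g))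
    {χ : IrrCharacter H} (hχ : χ ∈ F) {θ : IrrCharacter K} (hθ : θ ∈ b) :
    MemLocalIdeal M (Om (fun x : H => a x) (χ : H → ℂ) - Om (fun k : K => a k) (θ : K → ℂ)) := by
  have hPr := isPrime_of_modular hM
  haveI : Fintype (K.subgroupOf H) := Fintype.ofFinite _
  obtain ⟨χ', hχ'⟩ := exists_over' h.le θ
  have h1 := mem_of_cov hM h hχ' hF hθ hc
  rw [← Om_over h hχ' ha ha0]
  apply Om_congr hPr (restrict_classFunction_of_inv ha) (fun k => har _)
    (irr_classFunction χ) (irr_classFunction χ')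
  rw [block_eq_blockOf hPr hF hχ] at h1
  exact h1

theorem cov_conj {F : Set (IrrCharacter H)} {b : Set (IrrCharacter K)} (hc : Cov H K M F b) {u : G}
    (huH : u ∈ Subgroup.normalizer (H : Set G)) (huK : u ∈ Subgroup.normalizer (K : Set G)) :
    Cov H K M (mapBlock (conjAut H u huH) F) (mapBlock (conjAut K u huK) b) := by
  rintro _ ⟨θ, hθ, rfl⟩
  rw [Om_mapIrr]
  have h1 := hc θ hθ
  have e1 : (fun a : K => subgroupBlockCoeff H (mapBlock (conjAut H u huH) F)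
      ((conjAut K u huK a : K) : G)) = fun k : K => subgroupBlockCoeff H F k := by
    funext k
    rw [sbc_conjAut, conjAut_coe]
    congr 1
    group
  rw [e1]
  exact h1

theorem cov_trans (hM : IsPModular p M) (h : PNormal p H K) {F : Set (IrrCharacter H)}
    (hF : IsPBlock M F) {b1 b2 : Set (IrrCharacter K)} (hb1 : IsPBlock M b1)
    (hb2 : IsPBlock M b2) (hc1 : Cov H K M F b1) (hc2 : Cov H K M F b2) :
    ∃ (x : G) (hx : x ∈ H), b2 = mapBlock (conjAut K x (h.norm hx)) b1 := by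
  have hPr := isPrime_of_modular hM
  haveI : Fintype (K.subgroupOf H) := Fintype.ofFinite _
  obtain ⟨θ1, hθ1⟩ := block_nonempty hPr hb1
  obtain ⟨θ2, hθ2⟩ := block_nonempty hPr hb2
  obtain ⟨χ1, hχ1⟩ := exists_over' h.le θ1
  obtain ⟨χ2, hχ2⟩ := exists_over' h.le θ2
  have m1 := mem_of_cov hM h hχ1 hF hθ1 hc1
  have m2 := mem_of_cov hM h hχ2 hF hθ2 hc2
  have hs : SameBlock M (χ1 : H → ℂ) (χ2 : H → ℂ) := by
    rw [block_eq_blockOf hPr hF m1] at m2
    exact m2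
  have hn := normal_of_pnormal h
  set e := (Subgroup.subgroupOfEquivOfLe h.le).symm with he
  have h3 := cover_invariant (K.subgroupOf H) hn hPr
    (conjUnion_stable (K.subgroupOf H) hn (mapBlock e b1))
    (conjUnion_ring (K.subgroupOf H) hn hPr (isPBlock_mapBlock e hb1)) hs hχ1 hχ2
    (subset_conjUnion (K.subgroupOf H) hn _ ((mem_mapBlock e b1 θ1).mpr hθ1))
  obtain ⟨g, _, ⟨θ3, hθ3, rfl⟩, h4⟩ := h3
  refine ⟨(g : G)⁻¹, Subgroup.inv_mem _ g.2, ?_⟩
  have h5 : θ2 = mapIrr (conjAut K (g : G)⁻¹ (h.norm (Subgroup.inv_mem _ g.2))) θ3 := by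
    apply Subtype.ext
    funext k
    have h6 := congrArg (fun ζ : IrrCharacter (K.subgroupOf H) =>
      (ζ : K.subgroupOf H → ℂ) (e k)) h4
    beta_reduce at h6
    rw [mapIrr_apply, conjIrr_coe, Cfsg.Agent.Lib.CharClifford.conjFun_apply, mapIrr_coe] at h6
    rw [h6, mapIrr_coe]
    simp only [Function.comp_apply]
    apply congrArg
    apply Subtype.ext
    rw [conjAut_symm_coe]
    simp [he]
  rw [block_eq_blockOf hPr hb2 hθ2, h5, ← mapBlock_blockOf, ← block_eq_blockOf hPr hb1 hθ3]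

end cov

end Cfsg.Agent.Lib.Helper2_PExt1
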