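import Mathlib
import Cfsg.Prelude.Def_BrauerPairs
import Cfsg.Prelude.Def_BlockFusion
import Cfsg.Agent.Lib.Helper2_AbDef2
import Cfsg.Agent.Lib.Helper2_PExt1
import Cfsg.Agent.Lib.Helper2_CentralDef

set_option autoImplicit false

namespace Cfsg.Agent.Lib.Helper2_RealBlock

open Cfsg Cfsg.Agent.Lib.Helper2_BlockLocal Cfsg.Agent.Lib.Helper2_BlockOm
  Cfsg.Agent.Lib.Helper2_BlockOsima Cfsg.Agent.Lib.Helper2_BlockBasic
  Cfsg.Agent.Lib.Helper2_BlockOrtho Cfsg.Agent.Lib.Helper2_BlockMinMax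
  Cfsg.Agent.Lib.Helper2_BlockInd Cfsg.Agent.Lib.Helper2_BlockDefect
  Cfsg.Agent.Lib.Helper2_BlockPCore Cfsg.Agent.Lib.Helper2_BlockNormal
  Cfsg.Agent.Lib.Helper2_BlockBrauer Cfsg.Agent.Lib.Helper2_BlockFMT
  Cfsg.Agent.Lib.Helper2_BrauerPairs Cfsg.Agent.Lib.Helper2_SecondMain
  Cfsg.Agent.Lib.Helper2_BP1 Cfsg.Agent.Lib.Helper2_BP2 Cfsg.Agent.Lib.Helper2_BP3
  Cfsg.Agent.Lib.Helper2_BP4 Cfsg.Agent.Lib.Helper2_BP5 Cfsg.Agent.Lib.Helper2_BP6
  Cfsg.Agent.Lib.Helper2_BP7 Cfsg.Agent.Lib.Helper2_BP8 Cfsg.Agent.Lib.Helper2_BP9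
  Cfsg.Agent.Lib.Helper2_BP10 Cfsg.Agent.Lib.Helper2_BP11 Cfsg.Agent.Lib.Helper2_BP12
  Cfsg.Agent.Lib.Helper2_BP13 Cfsg.Agent.Lib.Helper2_BP14 Cfsg.Agent.Lib.Helper2_BP15
  Cfsg.Agent.Lib.Helper2_ExtFMT
  Cfsg.Agent.Lib.Helper2_Fong Cfsg.Agent.Lib.Helper2_EA Cfsg.Agent.Lib.Helper2_MaxPair
  Cfsg.Agent.Lib.Helper2_MaxPair2 Cfsg.Agent.Lib.Helper2_Down Cfsg.Agent.Lib.Helper2_RelConj
  Cfsg.Agent.Lib.Helper2_BlockSection
  Cfsg.Agent.Lib.Helper2_BlockCover2 Cfsg.Agent.Lib.Helper2_Basic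
  Cfsg.Agent.Lib.CharBasic Cfsg.Agent.Lib.CharOrtho
  Cfsg.Agent.Lib.CharComplete Cfsg.Agent.Lib.CharIntegral Cfsg.Agent.Lib.CharMore
  Cfsg.Agent.Lib.CharPerm Cfsg.Agent.Lib.CharInd
open scoped ComplexConjugate Classical
open Relation
open Cfsg.Agent.Lib.Helper2_AbDef Cfsg.FusionSystem Cfsg.Agent.Lib.Helper2_BFS1
  Cfsg.Agent.Lib.Helper2_BP17 Cfsg.Agent.Lib.Helper2_BlockDefOrder Cfsg.Agent.Lib.Helper2_BFS2
  Cfsg.Agent.Lib.Helper2_BFS3 Cfsg.Agent.Lib.Helper2_PPart Cfsg.Agent.Lib.Helper2_Nilp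
open Cfsg.Agent.Lib.Helper2_PExt1 Cfsg.Agent.Lib.Helper2_BlockQuot Cfsg.Agent.Lib.Helper2_BlockThird

universe u

variable {M : Ideal AlgInt} {p : ℕ}

section bar

variable {H : Type u} [Group H] [Finite H]

/-- the complex conjugate character -/
noncomputable def barIrr (ξ : IrrCharacter H) : IrrCharacter H :=
  ⟨fun h => conj ((ξ : H → ℂ) h), by cases nonempty_fintype H; exact isIrr_conj ξ.2⟩

theorem barIrr_apply (ξ : IrrCharacter H) (h : H) :
    ((barIrr ξ : IrrCharacter H) : H → ℂ) h = conj ((ξ : H → ℂ) h) := rfl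

theorem barIrr_apply' (ξ : IrrCharacter H) (h : H) :
    ((barIrr ξ : IrrCharacter H) : H → ℂ) h = (ξ : H → ℂ) h⁻¹ := by
  rw [barIrr_apply, isCharacter_inv (isCharacter_of_isIrr ξ.2)]

theorem barIrr_barIrr (ξ : IrrCharacter H) : barIrr (barIrr ξ) = ξ := by
  apply Subtype.ext
  funext h
  simp [barIrr_apply]

theorem barIrr_injective : Function.Injective (barIrr : IrrCharacter H → IrrCharacter H) := by
  intro a b h
  rw [← barIrr_barIrr a, h, barIrr_barIrr]

/-- the complex conjugate set of characters -/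
def barBlock (f : Set (IrrCharacter H)) : Set (IrrCharacter H) := barIrr '' f

theorem centralizer_inv (g : H) :
    Subgroup.centralizer ({g⁻¹} : Set H) = Subgroup.centralizer ({g} : Set H) := by
  ext x
  rw [Subgroup.mem_centralizer_singleton_iff, Subgroup.mem_centralizer_singleton_iff]
  constructor
  · intro h
    calc x * g = g * (g⁻¹ * x) * g := by group
      _ = g * (x * g⁻¹) * g := by rw [h]
      _ = g * x := by group
  · intro h
    calc x * g⁻¹ = g⁻¹ * (g * x) * g⁻¹ := by group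
      _ = g⁻¹ * (x * g) * g⁻¹ := by rw [h]
      _ = g⁻¹ * x := by group

theorem centralChar_barIrr (ξ : IrrCharacter H) (g : H) :
    centralChar ((barIrr ξ : IrrCharacter H) : H → ℂ) g = centralChar (ξ : H → ℂ) g⁻¹ := by
  unfold centralChar
  rw [barIrr_apply', barIrr_apply', centralizer_inv, inv_one]

theorem barBlock_blockOf (χ : IrrCharacter H) :
    barBlock (blockOf M (χ : H → ℂ)) = blockOf M ((barIrr χ : IrrCharacter H) : H → ℂ) := by
  ext ξ
  constructor
  · rintro ⟨ζ, hζ, rfl⟩ g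
    rw [centralChar_barIrr, centralChar_barIrr]
    exact hζ g⁻¹
  · intro h
    refine ⟨barIrr ξ, ?_, barIrr_barIrr ξ⟩
    intro g
    have := h g⁻¹
    rw [centralChar_barIrr, inv_inv] at this
    rw [centralChar_barIrr]
    exact this

theorem isPBlock_barBlock {f : Set (IrrCharacter H)} (hf : IsPBlock M f) :
    IsPBlock M (barBlock f) := by
  obtain ⟨χ, rfl⟩ := hf
  exact ⟨barIrr χ, barBlock_blockOf χ⟩

theorem blockCoeff_barBlock (f : Set (IrrCharacter H)) (h : H) :
    blockCoeff (barBlock f) h = blockCoeff f h⁻¹ := by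
  unfold blockCoeff barBlock
  rw [finsum_mem_image barIrr_injective.injOn]
  congr 1
  apply finsum_mem_congr rfl
  intro χ _
  rw [barIrr_apply' χ 1, inv_one, barIrr_apply, isCharacter_inv (isCharacter_of_isIrr χ.2)]

end bar

variable {G : Type u} [Group G]

theorem sbc_barBlock [Finite G] (K : Subgroup G) (f : Set (IrrCharacter K)) (g : G) :
    subgroupBlockCoeff K (barBlock f) g = subgroupBlockCoeff K f g⁻¹ := by
  by_cases hg : g ∈ K
  · have h1 := sbc_coe K (barBlock f) ⟨g, hg⟩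
    have h2 := sbc_coe K f (⟨g, hg⟩ : K)⁻¹
    simp only at h1
    rw [h1, blockCoeff_barBlock, ← h2]
    rfl
  · rw [sbc_not_mem K _ hg, sbc_not_mem K _ (fun h => hg (by simpa using K.inv_mem h))]

/-- the identification `G ≃ C_G(1)` -/
def botEquiv (G : Type u) [Group G] :
    G ≃* Subgroup.centralizer (((⊥ : Subgroup G) : Subgroup G) : Set G) where
  toFun g := ⟨g, by
    rw [Subgroup.mem_centralizer_iff]
    intro h hh
    rw [SetLike.mem_coe, Subgroup.mem_bot] at hh
    rw [hh]; simp⟩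
  invFun k := k
  left_inv _ := rfl
  right_inv _ := rfl
  map_mul' _ _ := rfl

variable [Fintype G]

theorem exists_noExt_pair (hM : IsPModular p M) {B : Set (IrrCharacter G)} (hB : IsPBlock M B) :
    ∃ b : BrauerPairIdx G, IsBrauerPairOf p M B b.1 b.2 ∧ NoExt p M b.1 b.2 := by
  have hPr := isPrime_of_modular hM
  haveI : Fintype (Subgroup.centralizer (((⊥ : Subgroup G) : Subgroup G) : Set G)) :=
    Fintype.ofFinite _
  have h0 : IsBrauerPairOf p M B ⊥ (mapBlock (botEquiv G) B) := by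
    refine ⟨⟨IsPGroup.of_bot, isPBlock_mapBlock _ hB⟩, hB, ?_⟩
    rintro _ ⟨χ, hχ, rfl⟩
    rw [bo_eq, Om_mapIrr]
    have : (fun a : G => blockCoeff B ((botEquiv G a :
        Subgroup.centralizer (((⊥ : Subgroup G) : Subgroup G) : Set G)) : G)) = blockCoeff B := rfl
    rw [this, Om_blockCoeff, if_pos hχ, sub_self]
    exact ideal_zero hPr
  obtain ⟨b, -, hb2, hb3⟩ := exists_noExt_ge hM _ ⟨⊥, mapBlock (botEquiv G) B⟩ le_rfl h0
  exact ⟨b, hb2, hb3⟩

theorem pair_barBlock {B : Set (IrrCharacter G)}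
    (hreal : ∀ g, blockCoeff B g⁻¹ = blockCoeff B g) {D : Subgroup G}
    {e : Set (IrrCharacter (Subgroup.centralizer (D : Set G)))}
    (hBe : IsBrauerPairOf p M B D e) : IsBrauerPairOf p M B D (barBlock e) := by
  haveI : Fintype (Subgroup.centralizer (D : Set G)) := Fintype.ofFinite _
  refine ⟨⟨hBe.1.1, isPBlock_barBlock hBe.1.2⟩, hBe.2.1, ?_⟩
  rintro _ ⟨ξ, hξ, rfl⟩
  have h1 := hBe.2.2 ξ hξ
  rw [bo_eq] at h1 ⊢
  convert h1 using 2
  unfold Om
  rw [barIrr_apply' ξ 1, inv_one]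
  congr 1
  rw [← Equiv.sum_comp (Equiv.inv (Subgroup.centralizer (D : Set G)))]
  refine Finset.sum_congr rfl fun x _ => ?_
  simp only [Equiv.inv_apply]
  rw [barIrr_apply', inv_inv]
  congr 1
  exact hreal _

theorem bar_eq_self [Fact (Nat.Prime 2)] (hM : IsPModular 2 M) {B : Set (IrrCharacter G)}
    (hreal : ∀ g, blockCoeff B g⁻¹ = blockCoeff B g) {D : Subgroup G}
    {e : Set (IrrCharacter (Subgroup.centralizer (D : Set G)))}
    (hBe : IsBrauerPairOf 2 M B D e) (hno : NoExt 2 M D e)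
    (hsyl : (Nat.card G).factorization 2 ≤ (Nat.card D).factorization 2) : barBlock e = e := by
  have hPr := isPrime_of_modular hM
  have hp : Nat.Prime 2 := Nat.prime_two
  obtain ⟨x, hx⟩ := conj_into_noExt hM hBe hno (a := ⟨D, barBlock e⟩) (pair_barBlock hreal hBe)
  have hx2 : cjPair x ⟨D, barBlock e⟩ = (⟨D, e⟩ : BrauerPairIdx G) :=
    eq_of_rtg_card hPr hx (by
      show Nat.card D ≤ Nat.card (D.map (MulAut.conj x).toMonoidHom)
      rw [card_cj])
  have hxD : D.map (MulAut.conj x).toMonoidHom = D := congrArg Sigma.fst hx2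
  have hxN : x ∈ Subgroup.normalizer (D : Set G) := by
    rw [Subgroup.mem_normalizer_iff]
    intro g
    conv_rhs => rw [← hxD, mem_cj]
    have : x⁻¹ * (x * g * x⁻¹) * x = g := by group
    rw [this]
  set E := subgroupBlockCoeff (Subgroup.centralizer (D : Set G)) e with hE
  have h1 : ∀ g, E g = E (x⁻¹ * g⁻¹ * x) := by
    intro g
    have h2 := eps_cjPair x ⟨D, barBlock e⟩ g
    rw [hx2] at h2
    have h3 : eps (⟨D, e⟩ : BrauerPairIdx G) g = E g := rfl
    have h4 : eps (⟨D, barBlock e⟩ : BrauerPairIdx G) (x⁻¹ * g * x) =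
        subgroupBlockCoeff _ (barBlock e) (x⁻¹ * g * x) := rfl
    rw [h3, h4, sbc_barBlock] at h2
    rw [h2]
    congr 1
    group
  have h2 : ∀ g, E g = E ((x ^ 2)⁻¹ * g * x ^ 2) := by
    intro g
    rw [h1 g, h1 (x⁻¹ * g⁻¹ * x)]
    congr 1
    rw [pow_two]
    group
  have h3 : ∀ n : ℕ, ∀ g, E g = E ((x ^ (2 * n))⁻¹ * g * x ^ (2 * n)) := by
    intro n
    induction n with
    | zero => intro g; simp
    | succ n ih =>
      intro g
      rw [ih g, h2 ((x ^ (2 * n))⁻¹ * g * x ^ (2 * n))]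
      congr 1
      have : x ^ (2 * (n + 1)) = x ^ (2 * n) * x ^ 2 := by rw [← pow_add]; ring_nf
      rw [this]
      group
  have h4 : ∀ n : ℕ, ∀ g, E g = E ((x ^ (2 * n + 1))⁻¹ * g⁻¹ * x ^ (2 * n + 1)) := by
    intro n g
    rw [h1 g, h3 n (x⁻¹ * g⁻¹ * x)]
    congr 1
    rw [pow_succ']
    have hc : x * x ^ (2 * n) = x ^ (2 * n) * x := (Commute.pow_right (Commute.refl x) _).eq
    rw [mul_inv_rev]
    simp only [mul_assoc]
  obtain ⟨s, m, hm, hom⟩ := Nat.exists_eq_pow_mul_and_not_dvd (orderOf_pos x).ne' 2 (by norm_num)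
  obtain ⟨n, hn⟩ : ∃ n, m = 2 * n + 1 := by
    have : Odd m := Nat.odd_iff.mpr (by omega)
    exact this
  have hy : (x ^ m) ^ (2 ^ s) = 1 := by
    rw [← pow_mul, mul_comm, ← hom, pow_orderOf_eq_one]
  have hyD : x ^ m ∈ D := by
    have hR : IsPGroup 2 (Subgroup.zpowers (x ^ m)) := by
      rw [IsPGroup.iff_card, Nat.card_zpowers]
      obtain ⟨l, -, hl⟩ := (Nat.dvd_prime_pow hp).mp (orderOf_dvd_of_pow_eq_one hy)
      exact ⟨l, hl⟩
    have := pGroup_le_of_val (p := 2) (R := Subgroup.zpowers (x ^ m)) (L := D) (T := ⊤) hR le_top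
      le_top (by
        rw [Subgroup.zpowers_le]
        exact Subgroup.pow_mem _ hxN m) (by rw [Subgroup.card_top]; exact hsyl)
    exact this (Subgroup.mem_zpowers _)
  apply sbc_injective
  funext g
  rw [sbc_barBlock]
  have h5 := h4 n g
  rw [← hn] at h5
  have h6 := sbc_inv_self D e _ (D.inv_mem hyD) g⁻¹
  rw [inv_inv] at h6
  show E g⁻¹ = E g
  rw [h5]
  exact h6.symm

theorem principal_of_real {H : Type u} [Group H] [Fintype H] (hM : IsPModular 2 M)
    (Z : Subgroup H) [Z.Normal] (hZc : Z ≤ Subgroup.center H) (hZp : IsPGroup 2 Z)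
    (hodd : Odd Z.index) {e : Set (IrrCharacter H)} (he : IsPBlock M e) (hbar : barBlock e = e)
    {θ : IrrCharacter H} (hθ : θ ∈ e) (hker : ∀ z ∈ Z, (θ : H → ℂ) z = (θ : H → ℂ) 1)
    (hdeg : (charDegree (θ : H → ℂ)).factorization 2 + (Nat.card Z).factorization 2 =
      (Nat.card H).factorization 2) : e = principalBlock M H := by
  have hPr := isPrime_of_modular hM
  have hp : Nat.Prime 2 := Nat.prime_two
  haveI : Fintype (H ⧸ Z) := Fintype.ofFinite _
  have hmin := Cfsg.Agent.Lib.Helper2_CentralDef.height_zero_central hM Z hZc hZp he hθ hker hdeg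
  have hθb : barIrr θ ∈ e := by
    rw [← hbar]; exact ⟨θ, hθ, rfl⟩
  have h1 := Cfsg.Agent.Lib.helper8_Height.nn_ne_zero_of_height_zero hM he hθ hθb hmin
  have h2 : classInner (pRegularPart 2 (θ : H → ℂ)) ((barIrr θ : IrrCharacter H) : H → ℂ) ≠ 0 := by
    intro h
    apply h1
    have := Cfsg.Agent.Lib.helper8_Height.nn_spec hM.1 θ (barIrr θ)
    rw [h, mul_zero] at this
    exact_mod_cast this
  obtain ⟨θ', hθ', hθe⟩ := Cfsg.Agent.Lib.CharQuot.exists_deflate_irr Z θ.2 hker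
  have hcard : Nat.card (H ⧸ Z) = Z.index := rfl
  have hoddq : ∀ q : H ⧸ Z, ¬ 2 ∣ orderOf q := by
    intro q hq
    have h3 : 2 ∣ Z.index := by
      rw [← hcard]; exact hq.trans (orderOf_dvd_natCard q)
    exact (Nat.not_even_iff_odd.mpr hodd) (even_iff_two_dvd.mpr h3)
  have h3 : classInner (pRegularPart 2 (θ : H → ℂ)) ((barIrr θ : IrrCharacter H) : H → ℂ) =
      (Nat.card H : ℂ)⁻¹ * ((Nat.card (H ⧸ Z) : ℂ) * classInner θ' (fun q => conj (θ' q))) := by
    unfold classInner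
    congr 1
    have hq0 : (Nat.card (H ⧸ Z) : ℂ) ≠ 0 := by exact_mod_cast Nat.card_pos.ne'
    rw [mul_inv_cancel_left₀ hq0]
    rw [← Cfsg.Agent.Lib.Helper2_CentralDef.sum_regular_inflate hp Z hZc hZp
      (fun q => θ' q * conj (conj (θ' q))) (fun q hq => absurd hq (hoddq q))]
    refine Finset.sum_congr rfl fun g _ => ?_
    rw [barIrr_apply]
    unfold pRegularPart IsPRegular
    by_cases hg : 2 ∣ orderOf g
    · rw [if_neg (not_not.mpr hg), if_neg (not_not.mpr hg), zero_mul]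
    · rw [if_pos hg, if_pos hg, hθe]
  rw [h3] at h2
  have h4 : θ' = fun q => conj (θ' q) := by
    by_contra hne
    apply h2
    rw [classInner_irr_ne hθ' (isIrr_conj hθ') hne, mul_zero, mul_zero]
  have h5 : ∀ q, (θ' q).im = 0 := by
    intro q
    have := congrFun h4 q
    exact Complex.conj_eq_iff_im.mp this.symm
  have h6 := Cfsg.Agent.Lib.CharPerm.real_irr_eq_one_of_odd (G := H ⧸ Z) (by rw [hcard]; exact hodd)
    ⟨θ', hθ'⟩ h5
  have h7 : θ = oneIrr H := by
    apply Subtype.ext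
    rw [hθe]
    funext g
    have := congrFun h6 (QuotientGroup.mk g)
    exact this
  rw [h7] at hθ
  exact block_eq_of_mem hPr he (principalBlock_isPBlock M H) hθ (oneIrr_mem_principal hPr H)

theorem real_full_defect_principal [Fact (Nat.Prime 2)] (hM : IsPModular 2 M)
    {B : Set (IrrCharacter G)} (hB : IsPBlock M B)
    (hdef : blockDefect 2 B = (Nat.card G).factorization 2)
    (hreal : ∀ g, blockCoeff B g⁻¹ = blockCoeff B g) : B = principalBlock M G := by
  have hp : Nat.Prime 2 := Nat.prime_two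
  obtain ⟨⟨D, e⟩, hBe, hno⟩ := exists_noExt_pair hM hB
  simp only at hBe hno
  have hD := defect_of_noExt hM hBe hno
  have hcard := card_defectGroup hM hB hD
  have hsyl : (Nat.card G).factorization 2 ≤ (Nat.card D).factorization 2 := by
    rw [hcard, hp.factorization_pow, Finsupp.single_eq_same, hdef]
  have hbar := bar_eq_self hM hreal hBe hno hsyl
  obtain ⟨θ, hθ, hker, hdeg⟩ := exists_char_of_noExt hM hBe.1 hno
  have hZc := zc_le_center D
  haveI hZn := normal_of_le_center' hZc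
  haveI : Fintype (Subgroup.centralizer (D : Set G)) := Fintype.ofFinite _
  have hodd : Odd (D.subgroupOf (Subgroup.centralizer (D : Set G))).index := by
    have h1 := val_sup_add_inf (p := 2) D (Subgroup.centralizer (D : Set G))
      (Subgroup.le_normalizer.trans (normalizer_le_normalizer_centralizer D))
    have h2 : (Nat.card (D ⊔ Subgroup.centralizer (D : Set G) : Subgroup G)).factorization 2 ≤
        (Nat.card G).factorization 2 :=
      (Nat.factorization_le_iff_dvd Nat.card_pos.ne' Nat.card_pos.ne').mpr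
        (Subgroup.card_subgroup_dvd_card _) 2
    have h3 := val_card_add_index (p := 2) (D.subgroupOf (Subgroup.centralizer (D : Set G)))
    rw [card_zc] at h3
    have h4 : (D.subgroupOf (Subgroup.centralizer (D : Set G))).index.factorization 2 = 0 := by
      omega
    rw [← Nat.not_even_iff_odd, even_iff_two_dvd]
    intro hd
    have := (hp.dvd_iff_one_le_factorization Subgroup.index_ne_zero_of_finite).mp hd
    omega
  have he := principal_of_real hM (D.subgroupOf (Subgroup.centralizer (D : Set G))) hZc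
    hBe.1.1.comap_subtype hodd hBe.1.2 hbar hθ
    (fun z hz => hker z (Subgroup.mem_subgroupOf.mp hz)) (by rw [card_zc]; exact hdeg)
  have h0 : IsBrauerPairOf 2 M (principalBlock M G) D e :=
    (principal_pair_iff hM hBe.1.1 hBe.1.2).mpr he
  exact (existsUnique_block_of_pair hM hBe.1).unique hBe h0

omit [Fintype G] in
/-- invariance of the block idempotent under a power map stabilizing the block -/
theorem blockCoeff_pow [Finite G] {k : ℕ} (hk : Nat.Coprime k (Nat.card G))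
    {B : Set (IrrCharacter G)}
    (hstab : ∀ χ ∈ B, ∃ ψ ∈ B, ∀ g : G, (ψ : G → ℂ) g = (χ : G → ℂ) (g ^ k)) (g : G) :
    blockCoeff B (g ^ k) = blockCoeff B g := by
  classical
  choose! φ hφ1 hφ2 using hstab
  have hbij : Function.Bijective (fun g : G => g ^ k) := (powCoprime hk.symm).bijective
  have hinj : Set.InjOn φ B := by
    intro χ hχ χ' hχ' h
    apply Subtype.ext
    funext x
    obtain ⟨y, rfl⟩ := hbij.2 x
    show (χ : G → ℂ) (y ^ k) = (χ' : G → ℂ) (y ^ k)
    rw [← hφ2 χ hχ, ← hφ2 χ' hχ', h]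
  have himg : φ '' B = B := by
    apply Set.eq_of_subset_of_ncard_le _ _ (Set.toFinite _)
    · rintro _ ⟨χ, hχ, rfl⟩
      exact hφ1 χ hχ
    · rw [Set.ncard_image_of_injOn hinj]
  unfold blockCoeff
  congr 1
  conv_rhs => rw [← himg, finsum_mem_image hinj]
  apply finsum_mem_congr rfl
  intro χ hχ
  rw [hφ2 χ hχ, hφ2 χ hχ, one_pow]

end Cfsg.Agent.Lib.Helper2_RealBlock
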