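import Mathlib
import Cfsg.Prelude.Def_Local
import Cfsg.Agent.Lib.Helper4_PCons
import Cfsg.Agent.Lib.Helper4_LBal

set_option autoImplicit false
set_option linter.unusedSectionVars false
set_option linter.unusedVariables false

namespace Cfsg.Agent.Lib.Helper4_PCons2

open Subgroup Cfsg.Agent.Lib.Helper4_CharP Cfsg.Agent.Lib.Helper4_CharP2 Cfsg.Agent.Lib.Helper4_Core
  Cfsg.Agent.Lib.Helper4_PCons Cfsg.Agent.Lib.Helper4_PComp Cfsg.Agent.Lib.Helper4_LBal
  Cfsg.Agent.Lib.Helper3_Frat

universe u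

variable {p : ℕ} [Fact p.Prime] {G : Type u} [Group G] [Finite G]

theorem pc_equiv {A B : Type u} [Group A] [Group B] [Finite A] [Finite B] (e : A ≃* B)
    (h : Cfsg.IsPConstrained p A) : Cfsg.IsPConstrained p B := by
  rw [isPConstrained_iff] at h ⊢
  rw [eq_bot_iff]
  apply sSup_le
  intro K hK
  have h1 := isPComponent_map_equiv e.symm hK
  have h2 : K.map e.symm.toMonoidHom ≤ Cfsg.pLayer p A := le_sSup h1
  rw [h, le_bot_iff, Subgroup.map_eq_bot_iff_of_injective _ e.symm.injective] at h2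
  exact h2.le

theorem pc_normalizer_of_le {T M : Subgroup G} (hT : IsPGroup p T)
    (hNM : normalizer (T : Set G) ≤ M) (hM : Cfsg.IsPConstrained p M) :
    Cfsg.IsPConstrained p (normalizer (T : Set G)) := by
  have hTM : T ≤ M := Subgroup.le_normalizer.trans hNM
  have h1 := pc_normalizer hM (P := T.subgroupOf M)
    (hT.of_equiv (Subgroup.subgroupOfEquivOfLe hTM).symm)
  rw [← Subgroup.subgroupOf_normalizer_eq hTM] at h1
  exact pc_equiv (Subgroup.subgroupOfEquivOfLe hNM) h1

theorem pc_centralizer_of_le {T M : Subgroup G} (hT : IsPGroup p T) (hTM : T ≤ M)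
    (hCM : centralizer (T : Set G) ≤ M) (hM : Cfsg.IsPConstrained p M) :
    Cfsg.IsPConstrained p (centralizer (T : Set G)) := by
  have h1 := pc_centralizer hM (P := T.subgroupOf M)
    (hT.of_equiv (Subgroup.subgroupOfEquivOfLe hTM).symm)
  have h2 : centralizer ((T.subgroupOf M : Subgroup M) : Set M) =
      (centralizer (T : Set G)).subgroupOf M := by
    ext x
    rw [Subgroup.mem_subgroupOf, Subgroup.mem_centralizer_iff, Subgroup.mem_centralizer_iff]
    constructor
    · intro h t ht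
      exact congrArg Subtype.val (h ⟨t, hTM ht⟩ ht)
    · intro h t ht
      exact Subtype.ext (h t ht)
  rw [h2] at h1
  exact pc_equiv (Subgroup.subgroupOfEquivOfLe hCM) h1

theorem pc_normalizer_of_centralizer {T : Subgroup G} (hT : IsPGroup p T)
    (h : Cfsg.IsPConstrained p (centralizer (T : Set G))) :
    Cfsg.IsPConstrained p (normalizer (T : Set G)) := by
  rw [isPConstrained_iff] at h ⊢
  rw [eq_bot_iff]
  apply sSup_le
  set N := normalizer (T : Set G) with hN
  set C := centralizer (T : Set G) with hC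
  intro K hK
  have hCN : C ≤ N := Subgroup.centralizer_le_normalizer _
  have hTn : (T.subgroupOf N).Normal := Subgroup.normal_subgroupOf_of_le_normalizer le_rfl
  have hTp : IsPGroup p (T.subgroupOf N) :=
    hT.of_equiv (Subgroup.subgroupOfEquivOfLe Subgroup.le_normalizer).symm
  have hcomm := Cfsg.Agent.Lib.Helper3_Local.IsPComponent.commutator_of_isPGroup hK hTn hTp
  rw [Subgroup.commutator_eq_bot_iff_le_centralizer] at hcomm
  set K' := K.map N.subtype with hK'
  have hKC : K' ≤ C := by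
    rintro _ ⟨k, hk, rfl⟩
    rw [Subgroup.mem_centralizer_iff]
    intro t ht
    have := Subgroup.mem_centralizer_iff.1 (hcomm hk) ⟨t, Subgroup.le_normalizer ht⟩
      (by rw [SetLike.mem_coe, Subgroup.mem_subgroupOf]; exact ht)
    exact congrArg Subtype.val this
  have hsn : (K'.subgroupOf C).IsSubnormal :=
    Cfsg.Agent.Lib.Helper3_Local.subnormal_subgroupOf_of_le hCN hK.1
  have hKK : K'.subgroupOf N = K :=
    Subgroup.comap_map_eq_self_of_injective N.subtype_injective K
  have htop : Cfsg.IsPComponent p (⊤ : Subgroup K') :=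
    top_of_subgroupOf (Subgroup.map_subtype_le K) (hKK.symm ▸ hK)
  have hK2 := subgroupOf_of_top hKC hsn htop
  have h3 : K'.subgroupOf C ≤ Cfsg.pLayer p C := le_sSup hK2
  rw [h, le_bot_iff, Subgroup.subgroupOf_eq_bot, disjoint_iff, inf_eq_left.2 hKC, hK',
    Subgroup.map_eq_bot_iff_of_injective _ N.subtype_injective] at h3
  exact h3.le

theorem pc_quotient_iff :
    Cfsg.IsPConstrained p G ↔ Cfsg.IsPConstrained p (G ⧸ Cfsg.pPrimeCore p G) := by
  rw [isPConstrained_iff_cp, isPConstrained_iff_cp (G := G ⧸ Cfsg.pPrimeCore p G)]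
  have h0 := Cfsg.Agent.Lib.Helper3_PComp.pPrimeCore_quotient_eq_bot p G
  have e : ((G ⧸ Cfsg.pPrimeCore p G) ⧸ Cfsg.pPrimeCore p (G ⧸ Cfsg.pPrimeCore p G)) ≃*
      (G ⧸ Cfsg.pPrimeCore p G) :=
    (QuotientGroup.quotientMulEquivOfEq h0).trans QuotientGroup.quotientBot
  exact ⟨cp_equiv e.symm, cp_equiv e⟩

end Cfsg.Agent.Lib.Helper4_PCons2
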