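import Cfsg.Agent.Lib.Helper4_PSol
import Cfsg.Agent.Lib.Helper1_Comm2
import Cfsg.Agent.Lib.Helper1_Coprime
import Cfsg.Agent.Lib.Helper3_Local

set_option autoImplicit false
set_option linter.style.haveILetI false

open Cfsg
open scoped commutatorElement Pointwise

namespace Cfsg.Agent.Lib.Helper4_PxQ

open Cfsg.Agent.Lib.Helper4_PSol Cfsg.Agent.Lib.Helper4_Cop Cfsg.Agent.Lib.Helper1_Comm
  Cfsg.Agent.Lib.Helper1_Comm2

variable {G : Type*} [Group G] {p : ℕ}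

local notation "N(" A ")" => Subgroup.normalizer ((A : Subgroup G) : Set G)
local notation "C(" A ")" => Subgroup.centralizer ((A : Subgroup G) : Set G)

/-- elements acting trivially on `P/N` and normalizing `N`. -/
def Cs (P N : Subgroup G) : Subgroup G where
  carrier := {g | g ∈ N(N) ∧ ∀ x ∈ P, ⁅x, g⁆ ∈ N}
  one_mem' := ⟨Subgroup.one_mem _, fun x _ => by simp⟩
  mul_mem' := by
    rintro g h ⟨hg, hg'⟩ ⟨hh, hh'⟩
    refine ⟨Subgroup.mul_mem _ hg hh, fun x hx => ?_⟩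
    have e : ⁅x, g * h⁆ = ⁅x, g⁆ * (g * ⁅x, h⁆ * g⁻¹) := by
      simp only [commutatorElement_def]; group
    rw [e]
    exact N.mul_mem (hg' x hx) ((Subgroup.mem_normalizer_iff.1 hg _).1 (hh' x hx))
  inv_mem' := by
    rintro g ⟨hg, hg'⟩
    refine ⟨Subgroup.inv_mem _ hg, fun x hx => ?_⟩
    have e : ⁅x, g⁻¹⁆ = g⁻¹ * (⁅x, g⁆)⁻¹ * g⁻¹⁻¹ := by
      simp only [commutatorElement_def]; group
    rw [e]
    exact (Subgroup.mem_normalizer_iff.1 (Subgroup.inv_mem _ hg) _).1 (N.inv_mem (hg' x hx))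

theorem conj_mem_Cs {P N : Subgroup G} {q g : G} (hqN : q ∈ N(N)) (hqP : q ∈ N(P))
    (hg : g ∈ Cs P N) : q * g * q⁻¹ ∈ Cs P N := by
  obtain ⟨hg, hg'⟩ := hg
  refine ⟨Subgroup.mul_mem _ (Subgroup.mul_mem _ hqN hg) (Subgroup.inv_mem _ hqN), fun x hx => ?_⟩
  have e : ⁅x, q * g * q⁻¹⁆ = q * ⁅q⁻¹ * x * q⁻¹⁻¹, g⁆ * q⁻¹ := by
    simp only [commutatorElement_def]; group
  rw [e]
  exact (Subgroup.mem_normalizer_iff.1 hqN _).1
    (hg' _ ((Subgroup.mem_normalizer_iff.1 (Subgroup.inv_mem _ hqP) x).1 hx))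

/-- the quadratic coprime lemma modulo a subgroup -/
theorem quad_mod {K : Subgroup G} {d e : G} (hd : d ∈ N(K)) (he : e ∈ N(K)) {n m : ℕ}
    (hn : d ^ n = 1) (hc : ⁅d, ⁅d, e⁆⁆ ∈ K) (hm : ⁅d, e⁆ ^ m = 1) (hcop : n.Coprime m) :
    ⁅d, e⁆ ∈ K := by
  set π := QuotientGroup.mk' (K.subgroupOf N(K)) with hπ
  set d' : N(K) := ⟨d, hd⟩
  set e' : N(K) := ⟨e, he⟩
  have h1 : ⁅π d', π e'⁆ = 1 := by
    refine comm_eq_one_of_quadratic' (n := n) (m := m) ?_ ?_ ?_ hcop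
    · rw [← map_pow]
      have : d' ^ n = 1 := Subtype.ext (by simpa using hn)
      rw [this, map_one]
    · rw [← commutatorElement_eq_one_iff_mul_comm, ← map_commutatorElement,
        ← map_commutatorElement]
      exact (QuotientGroup.eq_one_iff _).2 (Subgroup.mem_subgroupOf.2 hc)
    · rw [← map_commutatorElement, ← map_pow]
      have : ⁅d', e'⁆ ^ m = 1 := Subtype.ext (by
        rw [Subgroup.coe_pow, Subgroup.coe_one]; exact hm)
      rw [this, map_one]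
  rw [← map_commutatorElement] at h1
  exact Subgroup.mem_subgroupOf.1 ((QuotientGroup.eq_one_iff _).1 h1)

theorem le_normalizer_sup {H A B : Subgroup G} (hA : H ≤ N(A)) (hB : H ≤ N(B)) : H ≤ N(A ⊔ B) := by
  intro h hh
  rw [Subgroup.mem_normalizer_iff_map_conj_eq, Subgroup.map_sup,
    Subgroup.mem_normalizer_iff_map_conj_eq.1 (hA hh), Subgroup.mem_normalizer_iff_map_conj_eq.1 (hB hh)]

/-- The dual of Thompson's `P × Q` lemma. -/
theorem dual_PxQ [Finite G] [hp : Fact p.Prime] {E D X : Subgroup G} (hE : IsPGroup p E)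
    (hX : IsPGroup p X) (hD : (Nat.card D).Coprime p) (hDE : D ≤ N(E)) (hXE : X ≤ N(E))
    (hXD : X ≤ C(D)) (h : ⁅E, D⁆ ≤ ⁅E, X⁆) : ⁅E, D⁆ = ⊥ := by
  set T := E ⊔ X with hT
  have hTp : IsPGroup p T := hE.to_sup_of_normal_left' hX hXE
  have hDX : D ≤ N(X) := by
    refine le_trans ?_ (Subgroup.centralizer_le_normalizer _)
    exact Subgroup.le_centralizer_iff.1 hXD
  have hDT : D ≤ N(T) := le_normalizer_sup hDE hDX
  have hTE : T ≤ N(E) := sup_le Subgroup.le_normalizer hXE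
  have hDpow : ∀ d ∈ D, d ^ Nat.card D = 1 := fun q hq => by
    have := congrArg Subtype.val (pow_card_eq_one' (G := D) (x := ⟨q, hq⟩))
    rwa [Subgroup.coe_pow, Subgroup.coe_one] at this
  obtain ⟨a, ha⟩ := IsPGroup.iff_card.1 hE
  have hcopDE : (Nat.card D).Coprime (Nat.card E) := by rw [ha]; exact Nat.Coprime.pow_right a hD
  have hfin : {K : Subgroup G | K ≤ E ∧ T ≤ N(K) ∧ D ≤ N(K) ∧ ⁅E, D⁆ ≤ K}.Finite := Set.toFinite _
  obtain ⟨K, hK⟩ := hfin.exists_minimal ⟨E, le_rfl, hTE, hDE, commutator_le_left hDE⟩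
  obtain ⟨⟨hKE, hTK, hDK, hEDK⟩, hmin⟩ := hK
  set K' := ⁅K, T⁆ with hK'
  have hK'K : K' ≤ K := commutator_le_left hTK
  have hTK' : T ≤ N(K') := le_normalizer_commutator hTK Subgroup.le_normalizer
  have hDK' : D ≤ N(K') := le_normalizer_commutator hDK hDT
  have hET : E ≤ T := le_sup_left
  have hdec : ∀ e ∈ E, ∃ c ∈ E ⊓ C(D), ∃ k ∈ K, e = c * k := by
    intro e he
    haveI : Group.IsSolvable E := Cfsg.Agent.Lib.Helper3_Local.isSolvable_of_isPGroup hE
    obtain ⟨d, hd, hed⟩ := Cfsg.Agent.Lib.Helper1_Coprime.exists_mul_mem_centralizer hDE hcopDE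
      (Or.inr inferInstance) hKE hDK he (fun b hb => by
        apply hEDK
        have := Subgroup.commutator_mem_commutator (E.inv_mem he) hb
        simpa [commutatorElement_def] using this)
    exact ⟨e * d, ⟨E.mul_mem he (hKE hd), hed⟩, d⁻¹, K.inv_mem hd, by group⟩
  have hEX : ⁅E, X⁆ ≤ (E ⊓ C(D)) ⊔ K' := by
    rw [Subgroup.commutator_le]
    intro e he x hx
    obtain ⟨c, hc, k, hk, rfl⟩ := hdec e he
    have e1 : ⁅c * k, x⁆ = c * ⁅k, x⁆ * c⁻¹ * ⁅c, x⁆ := by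
      simp only [commutatorElement_def]; group
    rw [e1]
    refine Subgroup.mul_mem _ (Subgroup.mem_sup_right ?_) (Subgroup.mem_sup_left ⟨?_, ?_⟩)
    · exact (Subgroup.mem_normalizer_iff.1 (hTK' (hET hc.1)) _).1
        (Subgroup.commutator_mem_commutator hk (Subgroup.mem_sup_right hx))
    · exact commutator_le_left hXE (Subgroup.commutator_mem_commutator hc.1 hx)
    · rw [commutatorElement_def]
      exact Subgroup.mul_mem _ (Subgroup.mul_mem _ (Subgroup.mul_mem _ hc.2 (hXD hx))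
        (Subgroup.inv_mem _ hc.2)) (Subgroup.inv_mem _ (hXD hx))
  have hstep : ⁅E, D⁆ ≤ K' := by
    rw [Subgroup.commutator_le]
    intro e he d hd
    rw [← commutatorElement_inv]
    apply K'.inv_mem
    have hw : ⁅d, e⁆ ∈ ⁅E, D⁆ := by
      rw [← commutatorElement_inv]
      exact Subgroup.inv_mem _ (Subgroup.commutator_mem_commutator he hd)
    have hwE : ⁅d, e⁆ ∈ E := commutator_le_left hDE hw
    obtain ⟨j, hj⟩ := hE ⟨_, hwE⟩
    have hj' : ⁅d, e⁆ ^ p ^ j = 1 := by simpa using congrArg Subtype.val hj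
    refine quad_mod (hDK' hd) (hTK' (hET he)) (hDpow d hd) ?_ hj' (Nat.Coprime.pow_right j hD)
    have hwY : ⁅d, e⁆ ∈ ((((E ⊓ C(D)) ⊔ K' : Subgroup G)) : Set G) := hEX (h hw)
    rw [Subgroup.coe_mul_of_left_le_normalizer_right _ _ ((inf_le_left.trans hET).trans hTK')] at hwY
    obtain ⟨c, hc, k, hk, hck⟩ := hwY
    simp only at hck
    rw [← hck]
    have hdc : d * c = c * d := (Subgroup.mem_centralizer_iff.1 hc.2 d hd)
    have e2 : ⁅d, c * k⁆ = c * ⁅d, k⁆ * c⁻¹ := by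
      have : ⁅d, c * k⁆ = (d * c) * k * d⁻¹ * k⁻¹ * c⁻¹ := by
        simp only [commutatorElement_def]; group
      rw [this, hdc]; simp only [commutatorElement_def]; group
    rw [e2]
    refine (Subgroup.mem_normalizer_iff.1 (hTK' (hET hc.1)) _).1 ?_
    rw [commutatorElement_def]
    exact K'.mul_mem ((Subgroup.mem_normalizer_iff.1 (hDK' hd) k).1 hk) (K'.inv_mem hk)
  have hKK' : K ≤ K' := hmin ⟨hK'K.trans hKE, hTK', hDK', hstep⟩ hK'K
  have hKbot : K = ⊥ := by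
    by_contra hne
    exact (commutator_lt_of_isPGroup (hE.to_le hKE) hTp hTK hne).not_ge hKK'
  rw [eq_bot_iff, ← hKbot]
  exact hEDK

end Cfsg.Agent.Lib.Helper4_PxQ
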