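import Cfsg.Prelude.Def_SylowChains
import Cfsg.Agent.Lib.Helper4_SPE

set_option autoImplicit false

namespace Cfsg.Agent.Lib.Helper4_SylGraph

open scoped Pointwise
open Cfsg Cfsg.Agent.Lib.Helper4_Syl Cfsg.Agent.Lib.Helper4_SPE

variable {G : Type*} [Group G] {p : ℕ}

/-- adjacency in the Sylow graph -/
def Adj (S T : Sylow p G) : Prop := S ≠ T ∧ (S : Subgroup G) ⊓ (T : Subgroup G) ≠ ⊥

/-- connectedness in the Sylow graph -/
def Conn (S T : Sylow p G) : Prop := Relation.ReflTransGen Adj S T

theorem Adj.symm {S T : Sylow p G} (h : Adj S T) : Adj T S :=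
  ⟨h.1.symm, by rw [inf_comm]; exact h.2⟩

theorem Conn.symm {S T : Sylow p G} (h : Conn S T) : Conn T S := by
  induction h with
  | refl => exact Relation.ReflTransGen.refl
  | tail _ h2 ih => exact Relation.ReflTransGen.head h2.symm ih

theorem Conn.trans {S T U : Sylow p G} (h : Conn S T) (h' : Conn T U) : Conn S U :=
  Relation.ReflTransGen.trans h h'

theorem Conn.refl (S : Sylow p G) : Conn S S := Relation.ReflTransGen.refl

theorem coe_smul_sylow (g : G) (S : Sylow p G) :
    ((g • S : Sylow p G) : Subgroup G) = MulAut.conj g • (S : Subgroup G) := rfl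

theorem Adj.smul {S T : Sylow p G} (h : Adj S T) (g : G) : Adj (g • S) (g • T) := by
  refine ⟨fun he => h.1 (smul_left_cancel g he), ?_⟩
  rw [coe_smul_sylow, coe_smul_sylow, ← Subgroup.smul_inf]
  intro hb
  apply h.2
  have := congrArg (fun K => MulAut.conj g⁻¹ • K) hb
  simpa [conj_inv_smul_smul] using this

theorem Conn.smul {S T : Sylow p G} (h : Conn S T) (g : G) : Conn (g • S) (g • T) := by
  induction h with
  | refl => exact Conn.refl _
  | tail _ h2 ih => exact Relation.ReflTransGen.tail ih (h2.smul g)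

theorem conn_of_inf_ne_bot {S T : Sylow p G} (h : (S : Subgroup G) ⊓ (T : Subgroup G) ≠ ⊥) :
    Conn S T := by
  by_cases he : S = T
  · subst he; exact Conn.refl _
  · exact Relation.ReflTransGen.single ⟨he, h⟩

/-- plain chains -/
def ChainP (S T : Sylow p G) : Prop :=
  ∃ (n : ℕ) (c : Fin (n + 1) → Sylow p G), c 0 = S ∧ c (Fin.last n) = T ∧
    ∀ i : Fin n, Adj (c i.castSucc) (c i.succ)

theorem ChainP.refl (S : Sylow p G) : ChainP S S :=
  ⟨0, fun _ => S, rfl, rfl, fun i => i.elim0⟩

theorem ChainP.cons {S S' T : Sylow p G} (h : Adj S S') (h' : ChainP S' T) : ChainP S T := by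
  obtain ⟨n, c, h0, hl, hc⟩ := h'
  refine ⟨n + 1, Fin.cons S c, rfl, ?_, ?_⟩
  · rw [← Fin.succ_last, Fin.cons_succ]; exact hl
  · intro i
    induction i using Fin.cases with
    | zero =>
      rw [Fin.castSucc_zero, Fin.cons_zero, Fin.cons_succ, h0]; exact h
    | succ j =>
      rw [← Fin.succ_castSucc, Fin.cons_succ, Fin.cons_succ]; exact hc j

theorem chainP_of_conn {S T : Sylow p G} (h : Conn S T) : ChainP S T := by
  induction h using Relation.ReflTransGen.head_induction_on with
  | refl => exact ChainP.refl _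
  | head h1 _ ih => exact ChainP.cons h1 ih

theorem conn_of_chain (n : ℕ) (c : Fin (n + 1) → Sylow p G)
    (hc : ∀ i : Fin n, Adj (c i.castSucc) (c i.succ)) : ∀ i : Fin (n + 1), Conn (c 0) (c i) := by
  intro i
  induction i using Fin.induction with
  | zero => exact Conn.refl _
  | succ j ih => exact Relation.ReflTransGen.tail ih (hc j)

theorem conn_of_chainP {S T : Sylow p G} (h : ChainP S T) : Conn S T := by
  obtain ⟨n, c, h0, hl, hc⟩ := h
  rw [← h0, ← hl]
  exact conn_of_chain n c hc _

theorem chainConnected_iff : IsSylowChainConnected p G ↔ ∀ S T : Sylow p G, Conn S T := by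
  constructor
  · intro h S T
    obtain ⟨n, c, h0, hl, -, hc⟩ := h S T
    exact conn_of_chainP ⟨n, c, h0, hl, hc⟩
  · intro h S T
    by_cases hb : (S : Subgroup G) ⊓ (T : Subgroup G) = ⊥
    · obtain ⟨n, c, h0, hl, hc⟩ := chainP_of_conn (h S T)
      exact ⟨n, c, h0, hl, fun i => by rw [hb]; exact bot_le, hc⟩
    · by_cases he : S = T
      · subst he
        exact ⟨0, fun _ => S, rfl, rfl, fun _ => inf_le_left, fun i => i.elim0⟩
      · refine ⟨1, ![S, T], rfl, rfl, ?_, ?_⟩
        · intro i
          fin_cases i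
          · exact inf_le_left
          · exact inf_le_right
        · intro i
          fin_cases i
          exact ⟨he, hb⟩

/-- the stabilizer of the connected component of `S`. -/
def compStab (S : Sylow p G) : Subgroup G where
  carrier := {g | Conn S (g • S)}
  one_mem' := by
    show Conn S ((1 : G) • S)
    rw [one_smul]; exact Conn.refl _
  mul_mem' := by
    intro a b ha hb
    show Conn S ((a * b) • S)
    rw [mul_smul]
    exact Conn.trans ha (Conn.smul hb a)
  inv_mem' := by
    intro a ha
    show Conn S (a⁻¹ • S)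
    have := (Conn.smul ha a⁻¹).symm
    rwa [inv_smul_smul] at this

theorem mem_compStab {S : Sylow p G} {g : G} : g ∈ compStab S ↔ Conn S (g • S) := Iff.rfl

theorem le_compStab (S : Sylow p G) : (S : Subgroup G) ≤ compStab S := by
  intro s hs
  rw [mem_compStab]
  have : s • S = S := by
    apply Sylow.ext
    rw [coe_smul_sylow]
    exact conj_smul_eq_of_mem hs
  rw [this]; exact Conn.refl _

theorem compStab_normCond [Finite G] [Fact p.Prime] (S : Sylow p G) : NormCond p (compStab S) := by
  intro A hAH hA hne n hn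
  have hS : IsSylIn p (S : Subgroup G) (compStab S) :=
    (IsSylIn.of_sylow_top S).mono (le_compStab S) le_top
  obtain ⟨S₁, hS₁, hAS₁⟩ := exists_isSylIn_ge hAH hA
  obtain ⟨h, hh, hhS⟩ := hS.conj hS₁
  have hAh : A ≤ ((h • S : Sylow p G) : Subgroup G) := by rw [coe_smul_sylow, hhS]; exact hAS₁
  have hAn : A ≤ ((n • h • S : Sylow p G) : Subgroup G) := by
    rw [coe_smul_sylow]
    rw [mem_normalizer_iff_conj_smul] at hn
    rw [← hn]
    exact Subgroup.pointwise_smul_le_pointwise_smul_iff.2 hAh
  have h1 : Conn (h • S) (n • h • S) := by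
    apply conn_of_inf_ne_bot
    intro hb
    apply hne
    rw [eq_bot_iff, ← hb]
    exact le_inf hAh hAn
  have h2 : n * h ∈ compStab S := by
    rw [mem_compStab, mul_smul]
    exact Conn.trans hh h1
  have := (compStab S).mul_mem h2 ((compStab S).inv_mem hh)
  simpa using this

theorem compStab_ne_top [Finite G] [Fact p.Prime] {S T : Sylow p G} (h : ¬ Conn S T) :
    compStab S ≠ ⊤ := by
  intro ht
  obtain ⟨g, rfl⟩ := MulAction.exists_smul_eq G S T
  apply h
  rw [← mem_compStab, ht]
  exact Subgroup.mem_top g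

theorem dvd_card_of_not_conn [Finite G] [hp : Fact p.Prime] {S T : Sylow p G} (h : ¬ Conn S T) :
    p ∣ Nat.card G := by
  by_contra hd
  apply h
  have : Subsingleton (Sylow p G) := by
    constructor
    intro A B
    apply Sylow.ext
    rw [(IsSylIn.of_sylow_top A).eq_bot_of_not_dvd (by rwa [Subgroup.card_top]),
      (IsSylIn.of_sylow_top B).eq_bot_of_not_dvd (by rwa [Subgroup.card_top])]
  rw [Subsingleton.elim S T]
  exact Conn.refl _

/-- if `M` satisfies the normalizer condition, Sylow subgroups connected to one in `M` are in `M`. -/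
theorem NormCond.le_of_conn [Finite G] [Fact p.Prime] {M : Subgroup G} (h : NormCond p M)
    {S T : Sylow p G} (hS : (S : Subgroup G) ≤ M) (hc : Conn S T) : (T : Subgroup G) ≤ M := by
  induction hc with
  | refl => exact hS
  | @tail B C _ h2 ih =>
    obtain ⟨g, rfl⟩ := MulAction.exists_smul_eq G B C
    have hg : g ∈ M := by
      apply h.mem_of_dvd
      refine (dvd_card_of_ne_bot (B.2.to_le inf_le_left) h2.2).trans (Subgroup.card_dvd_of_le ?_)
      refine le_inf (inf_le_left.trans ih) (inf_le_right.trans ?_)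
      rw [coe_smul_sylow]
      exact Subgroup.pointwise_smul_le_pointwise_smul_iff.2 ih
    rw [coe_smul_sylow, conj_smul_le_iff, conj_smul_eq_of_mem (M.inv_mem hg)]
    exact ih

/-- Not chain connected iff there is a proper subgroup of order divisible by `p` with the
normalizer condition. -/
theorem not_chainConnected_iff [Finite G] [Fact p.Prime] :
    ¬ IsSylowChainConnected p G ↔
      ∃ H : Subgroup G, H ≠ ⊤ ∧ p ∣ Nat.card H ∧ NormCond p H := by
  rw [chainConnected_iff]
  constructor
  · intro h
    push Not at h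
    obtain ⟨S, T, hST⟩ := h
    refine ⟨compStab S, compStab_ne_top hST, ?_, compStab_normCond S⟩
    exact (S.dvd_card_of_dvd_card (dvd_card_of_not_conn hST)).trans
      (Subgroup.card_dvd_of_le (le_compStab S))
  · rintro ⟨H, hH, hd, hn⟩ hc
    apply hH
    obtain ⟨S, hS⟩ := exists_isSylIn p H
    obtain ⟨P, hP⟩ := (hn.isSylIn_top hd hS).exists_sylow_top
    have hPH : (P : Subgroup G) ≤ H := hP ▸ hS.le
    rw [eq_top_iff]
    intro g _
    apply hn.mem_of_dvd
    have h1 : ((g • P : Sylow p G) : Subgroup G) ≤ H := NormCond.le_of_conn hn hPH (hc P (g • P))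
    have h2 : ((g • P : Sylow p G) : Subgroup G) ≤ MulAut.conj g • H := by
      rw [coe_smul_sylow]
      exact Subgroup.pointwise_smul_le_pointwise_smul_iff.2 hPH
    exact ((g • P).dvd_card_of_dvd_card (hd.trans (Subgroup.card_subgroup_dvd_card H))).trans
      (Subgroup.card_dvd_of_le (le_inf h1 h2))

end Cfsg.Agent.Lib.Helper4_SylGraph
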