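import Cfsg.Agent.Lib.Helper4_CD
import Cfsg.Agent.Lib.Helper4_Syl
import Cfsg.Agent.Lib.Helper4_Nilp

set_option autoImplicit false

namespace Cfsg.Agent.Lib.Helper4_Thompson

open scoped Pointwise commutatorElement
open Cfsg Cfsg.Agent.Lib.Helper4_CD Cfsg.Agent.Lib.Helper4_Prod Cfsg.Agent.Lib.Helper4_Syl
  Cfsg.Agent.Lib.Helper4_Nilp

variable {S : Type*} [Group S]

/-- Thompson's replacement theorem, for a normal abelian subgroup `D`. -/
theorem thompson_replacement [Finite S] [Group.IsNilpotent S] {D E : Subgroup S} [hDn : D.Normal]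
    (hD : IsMulCommutative ↥D) (hE : E ∈ maxAbelianSubgroups S)
    (hDE : ¬ D ≤ Subgroup.normalizer (E : Set S)) :
    ∃ E' ∈ maxAbelianSubgroups S, E ⊓ D < E' ⊓ D ∧ E' ≤ Subgroup.normalizer (E : Set S) := by
  have hpos : ∀ L : Subgroup S, 0 < Nat.card L := fun L => Nat.card_pos
  have hDc : ∀ a ∈ D, ∀ b ∈ D, a * b = b * a := fun a ha b hb =>
    congrArg Subtype.val (hD.is_comm.comm ⟨a, ha⟩ ⟨b, hb⟩)
  obtain ⟨x, hxD, hxN, hx⟩ := exists_comm_mem (Subgroup.normalizer (E : Set S)) E D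
    (by rw [Subgroup.normalizer_eq_top]; exact le_top) hDE
  have hcD : ∀ e : S, ⁅x, e⁆ ∈ D := fun e => by
    rw [commutatorElement_def, mul_assoc, mul_assoc]
    apply D.mul_mem hxD
    rw [← mul_assoc]
    exact hDn.conj_mem _ (D.inv_mem hxD) e
  set N := Subgroup.normalizer (E : Set S) with hN
  have hEN : E ≤ N := Subgroup.le_normalizer
  set Ex := MulAut.conj x • E with hEx
  have memEx : ∀ e ∈ E, x * e * x⁻¹ ∈ Ex := fun e he => conj_mem_conj_smul he
  have conj_eq : ∀ e : S, x * e * x⁻¹ = ⁅x, e⁆ * e := fun e => by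
    rw [commutatorElement_def]; group
  have a1 : Ex ≤ N := by
    intro y hy
    have he : x⁻¹ * y * x ∈ E := mem_conj_smul.1 hy
    have : y = ⁅x, x⁻¹ * y * x⁆ * (x⁻¹ * y * x) := by rw [← conj_eq]; group
    rw [this]
    exact N.mul_mem (hx _ he) (hEN he)
  have a2 : E ≤ Subgroup.normalizer (Ex : Set S) := by
    rw [hEx, normalizer_conj]
    intro e he
    rw [mem_conj_smul]
    have h1 : x⁻¹ * ⁅x, e⁻¹⁆ * x = ⁅x, e⁻¹⁆ := by
      rw [mul_assoc, hDc _ (hcD _) x hxD, inv_mul_cancel_left]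
    have h2 : x⁻¹ * e * x = e * (x⁻¹ * ⁅x, e⁻¹⁆ * x) := by
      rw [commutatorElement_def]; group
    rw [h2, h1]
    exact N.mul_mem (hEN he) (hx _ (E.inv_mem he))
  have hEc : E ≤ cen E := (isComm_iff E).1 hE.1
  have hExcomm : IsMulCommutative ↥Ex := by
    rw [hEx, ← map_conj_eq]
    have := hE.1
    exact Subgroup.map_isMulCommutative E _
  have hExc : Ex ≤ cen Ex := (isComm_iff Ex).1 hExcomm
  set H := Ex ⊔ E with hH
  have hHN : H ≤ N := sup_le a1 hEN
  have hHset : (H : Set S) = (Ex : Set S) * (E : Set S) :=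
    Subgroup.coe_mul_of_left_le_normalizer_right Ex E a1
  have c1 : Nat.card E * Nat.card E = Nat.card H * Nat.card ↥(Ex ⊓ E) := by
    have := card_mul_card_eq Ex E
    rw [← hHset, hEx, card_conj_smul, ← hEx] at this
    exact this
  have hHD : (H ⊓ D) ⊔ E = H := by
    apply le_antisymm (sup_le inf_le_left le_sup_right)
    refine sup_le ?_ le_sup_right
    intro y hy
    have he : x⁻¹ * y * x ∈ E := mem_conj_smul.1 hy
    have e1 : y = ⁅x, x⁻¹ * y * x⁆ * (x⁻¹ * y * x) := by rw [← conj_eq]; group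
    have e2 : ⁅x, x⁻¹ * y * x⁆ = y * (x⁻¹ * y * x)⁻¹ := by
      rw [eq_mul_inv_iff_mul_eq]; exact e1.symm
    rw [e1]
    refine Subgroup.mul_mem _ ((le_sup_left : H ⊓ D ≤ _) ⟨?_, hcD _⟩) ((le_sup_right : E ≤ _) he)
    rw [e2]
    exact H.mul_mem ((le_sup_left : Ex ≤ H) hy) (H.inv_mem ((le_sup_right : E ≤ H) he))
  have hHDset : (H : Set S) = ((H ⊓ D : Subgroup S) : Set S) * (E : Set S) := by
    rw [← Subgroup.coe_mul_of_left_le_normalizer_right (H ⊓ D) E (inf_le_left.trans hHN), hHD]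
  have i1 : (H ⊓ D) ⊓ E = E ⊓ D := by
    apply le_antisymm
    · exact le_inf inf_le_right (inf_le_left.trans inf_le_right)
    · exact le_inf (le_inf (inf_le_left.trans le_sup_right) inf_le_right) inf_le_left
  have c2 : Nat.card ↥(H ⊓ D) * Nat.card E = Nat.card H * Nat.card ↥(E ⊓ D) := by
    have := card_mul_card_eq (H ⊓ D) E
    rw [← hHDset, i1] at this
    exact this
  have hZ : Ex ⊓ E ≤ cen H := by
    rw [hH, cen_sup]
    exact le_inf (inf_le_left.trans hExc) (inf_le_right.trans hEc)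
  have hZ' : Ex ⊓ E ≤ cen (H ⊓ D) := hZ.trans (cen_anti inf_le_left)
  set E' := (Ex ⊓ E) ⊔ (H ⊓ D) with hE'
  have hE'c : IsMulCommutative ↥E' :=
    comm_sup (comm_of_le hE.1 inf_le_right) (comm_of_le hD inf_le_right)
      (Subgroup.le_centralizer_iff.1 hZ')
  have hE'set : (E' : Set S) = ((Ex ⊓ E : Subgroup S) : Set S) * ((H ⊓ D : Subgroup S) : Set S) :=
    coe_sup_of_le_cen hZ'
  have i2 : (Ex ⊓ E) ⊓ (H ⊓ D) = E ⊓ D := by
    apply le_antisymm
    · exact le_inf (inf_le_left.trans inf_le_right) (inf_le_right.trans inf_le_right)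
    · intro y hy
      have hyEx : y ∈ Ex := by
        rw [hEx, mem_conj_smul, mul_assoc, hDc y hy.2 x hxD, inv_mul_cancel_left]
        exact hy.1
      exact ⟨⟨hyEx, hy.1⟩, (le_sup_right : E ≤ H) hy.1, hy.2⟩
  have c3 : Nat.card ↥(Ex ⊓ E) * Nat.card ↥(H ⊓ D) = Nat.card E' * Nat.card ↥(E ⊓ D) := by
    have := card_mul_card_eq (Ex ⊓ E) (H ⊓ D)
    rw [← hE'set, i2] at this
    exact this
  have hcard : Nat.card E' = Nat.card E := by
    have k : Nat.card E' * (Nat.card ↥(E ⊓ D) * Nat.card H) =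
        Nat.card E * (Nat.card ↥(E ⊓ D) * Nat.card H) := by
      calc Nat.card E' * (Nat.card ↥(E ⊓ D) * Nat.card H)
          = (Nat.card E' * Nat.card ↥(E ⊓ D)) * Nat.card H := by ring
        _ = (Nat.card ↥(Ex ⊓ E) * Nat.card ↥(H ⊓ D)) * Nat.card H := by rw [c3]
        _ = (Nat.card H * Nat.card ↥(Ex ⊓ E)) * Nat.card ↥(H ⊓ D) := by ring
        _ = (Nat.card E * Nat.card E) * Nat.card ↥(H ⊓ D) := by rw [c1]
        _ = Nat.card E * (Nat.card ↥(H ⊓ D) * Nat.card E) := by ring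
        _ = Nat.card E * (Nat.card H * Nat.card ↥(E ⊓ D)) := by rw [c2]
        _ = Nat.card E * (Nat.card ↥(E ⊓ D) * Nat.card H) := by ring
    exact Nat.eq_of_mul_eq_mul_right (Nat.mul_pos (hpos _) (hpos _)) k
  refine ⟨E', maxAb_of_card hE hE'c hcard.ge, ?_, sup_le (inf_le_right.trans hEN) (inf_le_left.trans hHN)⟩
  have hle : E ⊓ D ≤ E' ⊓ D :=
    le_inf ((le_inf (inf_le_left.trans le_sup_right) inf_le_right).trans le_sup_right) inf_le_right
  refine lt_of_le_of_ne hle ?_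
  intro heq
  apply hxN
  rw [hN, mem_normalizer_iff_conj_smul]
  apply Subgroup.eq_of_le_of_card_ge _ (by rw [card_conj_smul])
  intro y hy
  have he : x⁻¹ * y * x ∈ E := mem_conj_smul.1 hy
  have e1 : y = ⁅x, x⁻¹ * y * x⁆ * (x⁻¹ * y * x) := by rw [← conj_eq]; group
  have e2 : ⁅x, x⁻¹ * y * x⁆ = y * (x⁻¹ * y * x)⁻¹ := by
    rw [eq_mul_inv_iff_mul_eq]; exact e1.symm
  have h3 : ⁅x, x⁻¹ * y * x⁆ ∈ E' ⊓ D := by
    refine ⟨(le_sup_right : H ⊓ D ≤ E') ⟨?_, hcD _⟩, hcD _⟩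
    rw [e2]
    exact H.mul_mem ((le_sup_left : Ex ≤ H) hy) (H.inv_mem ((le_sup_right : E ≤ H) he))
  rw [← heq] at h3
  rw [e1]
  exact E.mul_mem h3.1 he

/-- A normal abelian subgroup on which no element acts quadratically and nontrivially lies in
every abelian subgroup of largest order. -/
theorem le_maxAb_of_no_quadratic [Finite S] [Group.IsNilpotent S] {D : Subgroup S} [hDn : D.Normal]
    (hD : IsMulCommutative ↥D)
    (hq : ∀ E : Subgroup S, IsMulCommutative ↥E → D ≤ Subgroup.normalizer (E : Set S) → E ≤ cen D)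
    {E : Subgroup S} (hE : E ∈ maxAbelianSubgroups S) : D ≤ E := by
  by_contra hcon
  -- choose a counterexample with |E ⊓ D| maximal
  have hne : Nonempty {E : Subgroup S // E ∈ maxAbelianSubgroups S ∧ ¬ D ≤ E} := ⟨⟨E, hE, hcon⟩⟩
  obtain ⟨⟨E₀, hE₀, hc₀⟩, hmax⟩ := Finite.exists_max
    (fun E : {E : Subgroup S // E ∈ maxAbelianSubgroups S ∧ ¬ D ≤ E} => Nat.card ↥(E.1 ⊓ D))
  by_cases hn : D ≤ Subgroup.normalizer (E₀ : Set S)
  · apply hc₀
    have := hq E₀ hE₀.1 hn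
    rw [← maxAb_cen_eq hE₀]
    exact Subgroup.le_centralizer_iff.1 this
  · obtain ⟨E', hE', hlt, hE'n⟩ := thompson_replacement hD hE₀ hn
    by_cases hDE' : D ≤ E'
    · exact hn (hDE'.trans hE'n)
    · have h1 := hmax ⟨E', hE', hDE'⟩
      simp only at h1
      have h2 : E₀ ⊓ D = E' ⊓ D := Subgroup.eq_of_le_of_card_ge hlt.le h1
      exact hlt.ne h2

end Cfsg.Agent.Lib.Helper4_Thompson
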