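import Mathlib
import Cfsg.Prelude.Def_ClassicalGeometry

set_option autoImplicit false

namespace Cfsg.Agent.Lib.Helper5_Symp

open Module Matrix

variable (m : ℕ) (F : Type*) [Field F]

/-- the symplectic form as a bilinear form -/
noncomputable def sB : LinearMap.BilinForm F (Fin m ⊕ Fin m → F) := Matrix.toBilin' (Matrix.J (Fin m) F)

theorem sB_apply (u v : Fin m ⊕ Fin m → F) : sB m F u v = Cfsg.sympForm m F u v := by
  unfold sB Cfsg.sympForm
  rw [Matrix.toBilin'_apply']

theorem sympForm_eq (u v : Fin m ⊕ Fin m → F) :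
    Cfsg.sympForm m F u v = ∑ i : Fin m, (u (.inr i) * v (.inl i) - u (.inl i) * v (.inr i)) := by
  unfold Cfsg.sympForm
  simp only [dotProduct, Matrix.mulVec, Fintype.sum_sum_type, Matrix.J, Matrix.fromBlocks_apply₁₁,
    Matrix.fromBlocks_apply₁₂, Matrix.fromBlocks_apply₂₁, Matrix.fromBlocks_apply₂₂, Matrix.zero_apply,
    zero_mul, Finset.sum_const_zero, zero_add, add_zero, Matrix.neg_apply, Matrix.one_apply, neg_mul,
    ite_mul, one_mul, Finset.sum_neg_distrib, Finset.sum_ite_eq, Finset.mem_univ, if_true]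
  rw [add_comm, Finset.sum_sub_distrib]
  simp [sub_eq_add_neg]

theorem sB_eq (u v : Fin m ⊕ Fin m → F) :
    sB m F u v = ∑ i : Fin m, (u (.inr i) * v (.inl i) - u (.inl i) * v (.inr i)) := by
  rw [sB_apply, sympForm_eq]

theorem sB_self (u : Fin m ⊕ Fin m → F) : sB m F u u = 0 := by
  rw [sB_eq]
  apply Finset.sum_eq_zero
  intro i _
  ring

theorem sB_swap (u v : Fin m ⊕ Fin m → F) : sB m F u v = - sB m F v u := by
  rw [sB_eq, sB_eq, ← Finset.sum_neg_distrib]
  apply Finset.sum_congr rfl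
  intro i _
  ring

theorem sB_single_inl (i : Fin m) (v : Fin m ⊕ Fin m → F) : sB m F (Pi.single (.inl i) 1) v = - v (.inr i) := by
  rw [sB_eq]
  simp [Pi.single_apply]

theorem sB_single_inr (i : Fin m) (v : Fin m ⊕ Fin m → F) : sB m F (Pi.single (.inr i) 1) v = v (.inl i) := by
  rw [sB_eq]
  simp [Pi.single_apply]

theorem sB_nondeg (v : Fin m ⊕ Fin m → F) (h : ∀ u, sB m F u v = 0) : v = 0 := by
  funext s
  rcases s with i | i
  · have := h (Pi.single (.inr i) 1); rwa [sB_single_inr] at this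
  · have := h (Pi.single (.inl i) 1); rw [sB_single_inl] at this; simpa using this

theorem sB_nondegenerate : (sB m F).Nondegenerate := by
  constructor
  · intro x hx
    apply sB_nondeg m F x
    intro u
    rw [sB_swap, hx u, neg_zero]
  · intro x hx
    exact sB_nondeg m F x hx

variable {m F}

theorem sB_mulVec (A : Matrix.symplecticGroup (Fin m) F) (u v : Fin m ⊕ Fin m → F) :
    sB m F ((A : Matrix (Fin m ⊕ Fin m) (Fin m ⊕ Fin m) F).mulVec u)
      ((A : Matrix (Fin m ⊕ Fin m) (Fin m ⊕ Fin m) F).mulVec v) = sB m F u v := by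
  have hA := SymplecticGroup.mem_iff'.1 A.2
  rw [sB_apply, sB_apply]
  unfold Cfsg.sympForm
  rw [Matrix.mulVec_mulVec, Matrix.dotProduct_mulVec, Matrix.vecMul_mulVec, ← Matrix.dotProduct_mulVec,
    ← Matrix.mul_assoc, hA]

end Cfsg.Agent.Lib.Helper5_Symp
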