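import Mathlib
import Cfsg.Agent.Lib.Helper5_Symp

set_option autoImplicit false

namespace Cfsg.Agent.Lib.Helper5_Alt

open Module Cfsg.Agent.Lib.Helper5_Symp

variable {F V : Type*} [Field F] [AddCommGroup V] [Module F V]
variable (B : LinearMap.BilinForm F V)

theorem skew (hA : ∀ x, B x x = 0) (x y : V) : B x y = - B y x := by
  have := hA (x + y)
  simp only [map_add, LinearMap.add_apply, hA, zero_add, add_zero] at this
  linear_combination this

/-- the orthogonal complement of a pair inside `W` -/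
def cut2 (W : Submodule F V) (e f : V) : Submodule F V := W ⊓ (LinearMap.ker (B e) ⊓ LinearMap.ker (B f))

theorem mem_cut2 (W : Submodule F V) (e f x : V) : x ∈ cut2 B W e f ↔ x ∈ W ∧ B e x = 0 ∧ B f x = 0 := by
  simp [cut2]

theorem cut2_nondeg (hA : ∀ x, B x x = 0) (W : Submodule F V)
    (hW : ∀ x ∈ W, (∀ y ∈ W, B x y = 0) → x = 0) (e f : V) (he : e ∈ W) (hf : f ∈ W) (hef : B e f = 1) :
    ∀ x ∈ cut2 B W e f, (∀ y ∈ cut2 B W e f, B x y = 0) → x = 0 := by
  intro x hx hxy
  rw [mem_cut2] at hx
  apply hW x hx.1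
  intro y hy
  have hfe : B f e = -1 := by rw [skew B hA, hef]
  have h1 : y - B e y • f + B f y • e ∈ cut2 B W e f := by
    rw [mem_cut2]
    refine ⟨W.add_mem (W.sub_mem hy (W.smul_mem _ hf)) (W.smul_mem _ he), ?_, ?_⟩
    · simp only [map_add, map_sub, map_smul, smul_eq_mul, hef, hA]; ring
    · simp only [map_add, map_sub, map_smul, smul_eq_mul, hfe, hA]; ring
  have h3 := hxy _ h1
  have hxe : B x e = 0 := by rw [skew B hA, hx.2.1, neg_zero]
  have hxf : B x f = 0 := by rw [skew B hA, hx.2.2, neg_zero]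
  simp only [map_add, map_sub, map_smul, smul_eq_mul, hxe, hxf, mul_zero, sub_zero, add_zero] at h3
  exact h3

theorem finrank_cut2 [FiniteDimensional F V] (hA : ∀ x, B x x = 0) (W : Submodule F V) (e f : V) (he : e ∈ W)
    (hf : f ∈ W) (hef : B e f = 1) : finrank F (cut2 B W e f) + 2 = finrank F W := by
  have hfe : B f e = -1 := by rw [skew B hA, hef]
  let φ : W →ₗ[F] F × F := ((B e).prod (B f)).comp W.subtype
  have hsurj : LinearMap.range φ = ⊤ := by
    apply LinearMap.range_eq_top.2
    rintro ⟨c, d⟩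
    refine ⟨c • ⟨f, hf⟩ - d • ⟨e, he⟩, ?_⟩
    have e1 : φ (c • ⟨f, hf⟩ - d • ⟨e, he⟩) = (B e (c • f - d • e), B f (c • f - d • e)) := rfl
    rw [e1]
    simp only [map_sub, map_smul, smul_eq_mul, hef, hfe, hA]
    ext <;> simp
  have h1 := LinearMap.finrank_range_add_finrank_ker φ
  rw [hsurj, finrank_top, finrank_prod, finrank_self] at h1
  have h3 : finrank F (LinearMap.ker φ) = finrank F (cut2 B W e f) := by
    have : (LinearMap.ker φ).map W.subtype = cut2 B W e f := by
      ext x
      rw [mem_cut2]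
      constructor
      · rintro ⟨y, hy, rfl⟩
        have e1 : (B e y.1, B f y.1) = 0 := hy
        exact ⟨y.2, (Prod.mk_eq_zero.1 e1).1, (Prod.mk_eq_zero.1 e1).2⟩
      · rintro ⟨h, h1, h2⟩
        refine ⟨⟨x, h⟩, ?_, rfl⟩
        show (B e x, B f x) = 0
        rw [h1, h2]; rfl
    rw [← this]
    exact (LinearEquiv.finrank_eq (Submodule.equivMapOfInjective _ W.injective_subtype _))
  omega

/-- hyperbolic system in a nondegenerate alternating space -/
theorem exists_hyp [FiniteDimensional F V] (hA : ∀ x, B x x = 0) (n : ℕ) : ∀ (W : Submodule F V)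
    (_ : ∀ x ∈ W, (∀ y ∈ W, B x y = 0) → x = 0) (_ : finrank F W = n),
    ∃ (k : ℕ) (e f : Fin k → V), n = 2 * k ∧ (∀ i, e i ∈ W) ∧ (∀ i, f i ∈ W) ∧
      (∀ i j, B (e i) (f j) = if i = j then 1 else 0) ∧ (∀ i j, B (e i) (e j) = 0) ∧ (∀ i j, B (f i) (f j) = 0) := by
  induction n using Nat.strong_induction_on with
  | _ n ih =>
    intro W hW hdim
    by_cases hn : n = 0
    · exact ⟨0, Fin.elim0, Fin.elim0, by omega, fun i => i.elim0, fun i => i.elim0, fun i => i.elim0,
        fun i => i.elim0, fun i => i.elim0⟩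
    obtain ⟨e, he0⟩ : ∃ e : W, e ≠ 0 := by
      have : Nontrivial W := Module.nontrivial_of_finrank_pos (R := F) (by omega)
      exact exists_ne 0
    obtain ⟨f₀, hf₀, hef₀⟩ : ∃ f ∈ W, B e.1 f ≠ 0 := by
      by_contra hcon
      push Not at hcon
      exact he0 (Subtype.ext (hW e.1 e.2 hcon))
    obtain ⟨f, hf, hef⟩ : ∃ f ∈ W, B e.1 f = 1 :=
      ⟨(B e.1 f₀)⁻¹ • f₀, W.smul_mem _ hf₀, by rw [map_smul, smul_eq_mul, inv_mul_cancel₀ hef₀]⟩
    have hd := finrank_cut2 B hA W e.1 f e.2 hf hef
    obtain ⟨k, e', f', hk, he', hf', h1, h2, h3⟩ := ih (n - 2) (by omega) (cut2 B W e.1 f)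
      (cut2_nondeg B hA W hW e.1 f e.2 hf hef) (by omega)
    have me := fun i => (mem_cut2 B W e.1 f _).1 (he' i)
    have mf := fun i => (mem_cut2 B W e.1 f _).1 (hf' i)
    refine ⟨k + 1, Fin.cons e.1 e', Fin.cons f f', by omega, ?_, ?_, ?_, ?_, ?_⟩
    · intro i
      refine Fin.cases ?_ (fun i => ?_) i
      · simpa using e.2
      · simpa using (me i).1
    · intro i
      refine Fin.cases ?_ (fun i => ?_) i
      · simpa using hf
      · simpa using (mf i).1
    · intro i j
      refine Fin.cases ?_ (fun i => ?_) i <;> refine Fin.cases ?_ (fun j => ?_) j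
      · simpa using hef
      · simp only [Fin.cons_zero, Fin.cons_succ]
        rw [(mf j).2.1, if_neg (Fin.succ_ne_zero j).symm]
      · simp only [Fin.cons_zero, Fin.cons_succ]
        rw [skew B hA, (me i).2.2, if_neg (Fin.succ_ne_zero i), neg_zero]
      · simp only [Fin.cons_succ, h1, Fin.succ_inj]
    · intro i j
      refine Fin.cases ?_ (fun i => ?_) i <;> refine Fin.cases ?_ (fun j => ?_) j
      · simpa using hA _
      · simpa using (me j).2.1
      · simp only [Fin.cons_zero, Fin.cons_succ]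
        rw [skew B hA, (me i).2.1, neg_zero]
      · simpa using h2 i j
    · intro i j
      refine Fin.cases ?_ (fun i => ?_) i <;> refine Fin.cases ?_ (fun j => ?_) j
      · simpa using hA _
      · simpa using (mf j).2.2
      · simp only [Fin.cons_zero, Fin.cons_succ]
        rw [skew B hA, (mf i).2.2, neg_zero]
      · simpa using h3 i j

/-- the rank of an alternating form is even -/
theorem even_finrank_of_nondeg [FiniteDimensional F V] (hA : ∀ x, B x x = 0) (W : Submodule F V)
    (hW : ∀ x ∈ W, (∀ y ∈ W, B x y = 0) → x = 0) : Even (finrank F W) := by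
  obtain ⟨k, -, -, hk, -⟩ := exists_hyp B hA _ W hW rfl
  exact ⟨k, by omega⟩

/-- symplectic basis -/
theorem exists_symplectic_basis [FiniteDimensional F V] (hA : ∀ x, B x x = 0) (hB : B.Nondegenerate) {m : ℕ}
    (hdim : finrank F V = 2 * m) :
    ∃ b : Basis (Fin m ⊕ Fin m) F V, ∀ u v, B u v = Cfsg.sympForm m F (b.equivFun u) (b.equivFun v) := by
  obtain ⟨k, e, f, hk, -, -, h1, h2, h3⟩ := exists_hyp B hA (2 * m) ⊤
    (fun x _ hx => hB.1 x (fun y => hx y trivial)) (by rw [finrank_top, hdim])
  obtain rfl : m = k := by omega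
  let g : Fin m ⊕ Fin m → V := Sum.elim f e
  have hfe : ∀ i j, B (f i) (e j) = if i = j then -1 else 0 := by
    intro i j
    rw [skew B hA, h1]
    by_cases h : i = j
    · subst h; simp
    · rw [if_neg h, if_neg (fun h' => h h'.symm), neg_zero]
  have hg : ∀ s t, B (g s) (g t) = sB m F (Pi.single s 1) (Pi.single t 1) := by
    rintro (i | i) (j | j)
    · rw [sB_single_inl]; simpa [g] using h3 i j
    · rw [sB_single_inl]
      simp only [g, Sum.elim_inl, Sum.elim_inr, hfe, Pi.single_apply, Sum.inr.injEq]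
      by_cases h : i = j
      · subst h; simp
      · rw [if_neg h, if_neg h, neg_zero]
    · rw [sB_single_inr]
      simp only [g, Sum.elim_inl, Sum.elim_inr, h1, Pi.single_apply, Sum.inl.injEq]
    · rw [sB_single_inr]; simpa [g] using h2 i j
  have hli : LinearIndependent F g := by
    rw [Fintype.linearIndependent_iff]
    intro c hc s
    have key : ∀ t, B (g t) (∑ s, c s • g s) = sB m F (Pi.single t 1) c := by
      intro t
      rw [map_sum]
      have : c = ∑ s, c s • (Pi.single s 1 : Fin m ⊕ Fin m → F) := by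
        funext x
        simp [Finset.sum_apply, Pi.single_apply]
      conv_rhs => rw [this, map_sum]
      apply Finset.sum_congr rfl
      intro s _
      rw [map_smul, map_smul, hg]
    have hc0 : c = 0 := by
      apply sB_nondeg m F c
      intro u
      have hu : u = ∑ t, u t • (Pi.single t 1 : Fin m ⊕ Fin m → F) := by
        funext x
        simp [Finset.sum_apply, Pi.single_apply]
      rw [hu, map_sum, LinearMap.sum_apply]
      apply Finset.sum_eq_zero
      intro t _
      rw [map_smul, LinearMap.smul_apply, ← key, hc]; simp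
    rw [hc0]; rfl
  rcases Nat.eq_zero_or_pos m with rfl | hm
  · have hsub : Subsingleton V := Module.finrank_zero_iff.1 (by rw [hdim])
    refine ⟨Basis.empty V, fun u v => ?_⟩
    rw [Subsingleton.elim u 0]
    simp [← sB_apply]
  have hne : Nonempty (Fin m ⊕ Fin m) := ⟨Sum.inl ⟨0, hm⟩⟩
  let b := basisOfLinearIndependentOfCardEqFinrank hli (by simp [hdim]; omega)
  have hb : ∀ s, b s = g s := fun s => by simp [b]
  refine ⟨b, ?_⟩
  have : B = (sB m F).compl₁₂ b.equivFun.toLinearMap b.equivFun.toLinearMap := by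
    apply b.ext
    intro s
    apply b.ext
    intro t
    have e1 : ∀ s, b.equivFun (b s) = Pi.single s 1 := by
      intro s
      funext t
      rw [Basis.equivFun_self, Pi.single_apply]
      simp [eq_comm]
    simp only [LinearMap.compl₁₂_apply, LinearEquiv.coe_coe, e1]
    rw [hb, hb, hg]
  intro u v
  rw [← sB_apply]
  conv_lhs => rw [this]
  rfl

end Cfsg.Agent.Lib.Helper5_Alt
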