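import Mathlib

set_option autoImplicit false

namespace Cfsg.Agent.Lib.Helper5_IrrCent

open Module Polynomial
open scoped Matrix

variable {F : Type*} [Field F] {n : ℕ}

theorem commute_aeval {R A : Type*} [CommSemiring R] [Semiring A] [Algebra R A] (a b : A)
    (h : Commute a b) (p : R[X]) : Commute a (aeval b p) := by
  induction p using Polynomial.induction_on' with
  | add p q hp hq => rw [map_add]; exact hp.add_right hq
  | monomial n c =>
    rw [aeval_monomial]
    exact (Algebra.commute_algebraMap_right c a).mul_right (h.pow_right n)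

/-- irreducibility hypothesis -/
def Irr (X : Matrix (Fin n) (Fin n) F) : Prop :=
  ∀ W : Submodule F (Fin n → F), (∀ w ∈ W, X *ᵥ w ∈ W) → W = ⊥ ∨ W = ⊤

theorem isUnit_of_commute (X : Matrix (Fin n) (Fin n) F) (hirr : Irr X) (A : Matrix (Fin n) (Fin n) F)
    (hA : Commute A X) (hA0 : A ≠ 0) : IsUnit A := by
  rcases hirr (LinearMap.ker A.mulVecLin) (by
    intro w hw
    rw [LinearMap.mem_ker, Matrix.mulVecLin_apply] at hw ⊢
    rw [Matrix.mulVec_mulVec, hA.eq, ← Matrix.mulVec_mulVec, hw, Matrix.mulVec_zero]) with h | h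
  · rw [← Matrix.mulVec_injective_iff_isUnit]
    exact LinearMap.ker_eq_bot.1 h
  · exfalso
    apply hA0
    apply Matrix.mulVec_injective
    funext v
    have : v ∈ LinearMap.ker A.mulVecLin := by rw [h]; trivial
    rw [LinearMap.mem_ker, Matrix.mulVecLin_apply] at this
    rw [this, Matrix.zero_mulVec]

theorem exists_poly (X : Matrix (Fin n) (Fin n) F) (hirr : Irr X) (e : Fin n → F) (he : e ≠ 0) (v : Fin n → F) :
    ∃ p : F[X], (aeval X p) *ᵥ e = v := by
  let Φ : F[X] →ₗ[F] (Fin n → F) :=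
    { toFun := fun p => (aeval X p) *ᵥ e
      map_add' := by intro p q; rw [map_add, Matrix.add_mulVec]
      map_smul' := by intro c p; rw [map_smul, Matrix.smul_mulVec]; rfl }
  have hΦ : ∀ p, Φ p = (aeval X p) *ᵥ e := fun _ => rfl
  rcases hirr (LinearMap.range Φ) (by
    rintro _ ⟨p, rfl⟩
    refine ⟨Polynomial.X * p, ?_⟩
    rw [hΦ, hΦ, map_mul, aeval_X, Matrix.mulVec_mulVec]) with h | h
  · exfalso
    apply he
    have : e ∈ LinearMap.range Φ := ⟨1, by rw [hΦ]; simp⟩
    rw [h] at this
    exact (Submodule.mem_bot F).1 this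
  · have : v ∈ LinearMap.range Φ := by rw [h]; trivial
    obtain ⟨p, hp⟩ := this
    exact ⟨p, hp⟩

theorem eq_of_mulVec_eq (X : Matrix (Fin n) (Fin n) F) (hirr : Irr X) (e : Fin n → F) (he : e ≠ 0)
    (A B : Matrix (Fin n) (Fin n) F) (hA : Commute A X) (hB : Commute B X) (h : A *ᵥ e = B *ᵥ e) : A = B := by
  by_contra hne
  have h1 : IsUnit (A - B) := isUnit_of_commute X hirr (A - B) (hA.sub_left hB) (sub_ne_zero.2 hne)
  rw [← Matrix.mulVec_injective_iff_isUnit] at h1
  apply he
  apply h1
  rw [Matrix.sub_mulVec, h, sub_self, Matrix.mulVec_zero]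

theorem commute_of_mem (x g : GL (Fin n) F) (hg : g ∈ Subgroup.centralizer ({x} : Set (GL (Fin n) F))) :
    Commute (g : Matrix (Fin n) (Fin n) F) (x : Matrix (Fin n) (Fin n) F) := by
  rw [Subgroup.mem_centralizer_singleton_iff] at hg
  have := congrArg Units.val hg
  rw [Units.val_mul, Units.val_mul] at this
  exact this

theorem card_centralizer [Fintype F] (hn : 1 ≤ n) (x : GL (Fin n) F) (hirr : Irr (x : Matrix (Fin n) (Fin n) F)) :
    Nat.card (Subgroup.centralizer ({x} : Set (GL (Fin n) F))) = Fintype.card F ^ n - 1 := by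
  classical
  obtain ⟨e, he⟩ : ∃ e : Fin n → F, e ≠ 0 := by
    refine ⟨fun _ => 1, ?_⟩
    intro h
    have := congrFun h ⟨0, by omega⟩
    simp at this
  have h1 : Nat.card (Subgroup.centralizer ({x} : Set (GL (Fin n) F))) = Nat.card {v : Fin n → F // v ≠ 0} := by
    refine Nat.card_congr (Equiv.ofBijective (fun g => ⟨(g.1 : Matrix (Fin n) (Fin n) F) *ᵥ e, ?_⟩) ⟨?_, ?_⟩)
    · intro h
      apply he
      have hu := Matrix.mulVec_injective_iff_isUnit.2 g.1.isUnit
      apply hu
      rw [h, Matrix.mulVec_zero]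
    · intro g g' h
      apply Subtype.ext
      apply Units.ext
      exact eq_of_mulVec_eq _ hirr e he _ _ (commute_of_mem x _ g.2) (commute_of_mem x _ g'.2) (congrArg Subtype.val h)
    · rintro ⟨v, hv⟩
      obtain ⟨p, hp⟩ := exists_poly _ hirr e he v
      have hc : Commute (aeval (x : Matrix (Fin n) (Fin n) F) p) (x : Matrix (Fin n) (Fin n) F) :=
        (commute_aeval _ _ (Commute.refl _) p).symm
      have hne : aeval (x : Matrix (Fin n) (Fin n) F) p ≠ 0 := by
        intro h0
        rw [h0, Matrix.zero_mulVec] at hp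
        exact hv hp.symm
      obtain ⟨g, hg⟩ := isUnit_of_commute _ hirr _ hc hne
      refine ⟨⟨g, ?_⟩, ?_⟩
      · rw [Subgroup.mem_centralizer_singleton_iff]
        apply Units.ext
        rw [Units.val_mul, Units.val_mul, hg]
        exact hc.eq
      · apply Subtype.ext
        show (g : Matrix (Fin n) (Fin n) F) *ᵥ e = v
        rw [hg, hp]
  rw [h1, Nat.card_eq_fintype_card, Fintype.card_subtype_compl (fun v : Fin n → F => v = 0)]
  simp

theorem isCyclic_centralizer [Fintype F] (hn : 1 ≤ n) (x : GL (Fin n) F) (hirr : Irr (x : Matrix (Fin n) (Fin n) F)) :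
    IsCyclic (Subgroup.centralizer ({x} : Set (GL (Fin n) F))) := by
  classical
  obtain ⟨e, he⟩ : ∃ e : Fin n → F, e ≠ 0 := by
    refine ⟨fun _ => 1, ?_⟩
    intro h
    have := congrFun h ⟨0, by omega⟩
    simp at this
  set X := (x : Matrix (Fin n) (Fin n) F) with hX
  letI : CommRing (Algebra.adjoin F ({X} : Set (Matrix (Fin n) (Fin n) F))) :=
    Algebra.adjoinCommRingOfComm F (by
      intro a ha b hb
      rw [Set.mem_singleton_iff] at ha hb
      rw [ha, hb])
  have hcomm : ∀ a ∈ Algebra.adjoin F ({X} : Set (Matrix (Fin n) (Fin n) F)), Commute a X := by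
    intro a ha
    rw [Algebra.adjoin_singleton_eq_range_aeval] at ha
    obtain ⟨p, rfl⟩ := ha
    exact (commute_aeval _ _ (Commute.refl _) p).symm
  haveI : Nontrivial (Fin n → F) := ⟨⟨e, 0, he⟩⟩
  haveI : Nonempty (Fin n) := ⟨⟨0, by omega⟩⟩
  haveI : IsDomain (Algebra.adjoin F ({X} : Set (Matrix (Fin n) (Fin n) F))) := by
    haveI : NoZeroDivisors (Algebra.adjoin F ({X} : Set (Matrix (Fin n) (Fin n) F))) := by
      constructor
      intro a b hab
      by_cases ha : a = 0
      · exact Or.inl ha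
      · right
        have ha' : (a : Matrix (Fin n) (Fin n) F) ≠ 0 := fun h => ha (Subtype.ext h)
        have hu := isUnit_of_commute X hirr _ (hcomm a a.2) ha'
        have h1 : (a : Matrix (Fin n) (Fin n) F) * (b : Matrix (Fin n) (Fin n) F) = 0 := congrArg Subtype.val hab
        apply Subtype.ext
        exact (hu.mul_right_eq_zero).1 h1
    exact NoZeroDivisors.to_isDomain _
  have hmem : ∀ g : Subgroup.centralizer ({x} : Set (GL (Fin n) F)),
      ((g.1 : GL (Fin n) F) : Matrix (Fin n) (Fin n) F) ∈ Algebra.adjoin F ({X} : Set (Matrix (Fin n) (Fin n) F)) := by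
    intro g
    obtain ⟨p, hp⟩ := exists_poly X hirr e he (((g.1 : GL (Fin n) F) : Matrix (Fin n) (Fin n) F) *ᵥ e)
    have := eq_of_mulVec_eq X hirr e he _ _ ((commute_aeval _ _ (Commute.refl _) p).symm) (commute_of_mem x _ g.2) hp
    rw [← this, Algebra.adjoin_singleton_eq_range_aeval]
    exact ⟨p, rfl⟩
  let f : Subgroup.centralizer ({x} : Set (GL (Fin n) F)) →* Algebra.adjoin F ({X} : Set (Matrix (Fin n) (Fin n) F)) :=
    { toFun := fun g => ⟨_, hmem g⟩
      map_one' := rfl
      map_mul' := fun _ _ => rfl }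
  apply isCyclic_of_injective_ringHom f
  intro g g' h
  apply Subtype.ext
  apply Units.ext
  exact congrArg Subtype.val h

end Cfsg.Agent.Lib.Helper5_IrrCent
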