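import Cfsg.Agent.Lib.Helper5_SL2Cent
import Cfsg.Agent.Lib.Helper5_IrrCent

set_option autoImplicit false

namespace Cfsg.Agent.Lib.Helper5_SL2Tori

open Matrix Cfsg.Agent.Lib.Helper5_PSLSpec Cfsg.Agent.Lib.Helper5_GL2 Cfsg.Agent.Lib.Helper5_PSL2Prod
  Cfsg.Agent.Lib.Helper5_SL2Cent Cfsg.Agent.Lib.Helper5_IrrCent

variable {F : Type*} [Field F]

local notation "SL2" => Matrix.SpecialLinearGroup (Fin 2) F
local notation "M2" => Matrix (Fin 2) (Fin 2) F

theorem irr_comp (τ : F) (han : ∀ z : F × F, nf τ z = 0 → z = 0) : Irr (Helper5_GL2.comp τ 1) := by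
  intro W hW
  by_cases hbot : W = ⊥
  · exact Or.inl hbot
  right
  obtain ⟨w, hw, hw0⟩ := (Submodule.ne_bot_iff W).1 hbot
  have hu := hW w hw
  set u := Helper5_GL2.comp τ 1 *ᵥ w with hu_def
  have u0 : u 0 = -w 1 := by
    simp [hu_def, Helper5_GL2.comp, Matrix.mulVec, dotProduct, Fin.sum_univ_two]
  have u1 : u 1 = w 0 + τ * w 1 := by
    simp [hu_def, Helper5_GL2.comp, Matrix.mulVec, dotProduct, Fin.sum_univ_two]
  have hD : nf τ (w 0, w 1) ≠ 0 := by
    intro h
    have := han _ h
    apply hw0
    ext i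
    fin_cases i
    · exact congrArg Prod.fst this
    · exact congrArg Prod.snd this
  rw [eq_top_iff]
  intro v _
  have hv : v = ((v 0 * u 1 - v 1 * u 0) / nf τ (w 0, w 1)) • w + ((w 0 * v 1 - w 1 * v 0) / nf τ (w 0, w 1)) • u := by
    ext i
    fin_cases i
    · simp only [Pi.add_apply, Pi.smul_apply, smul_eq_mul]
      show v 0 = _ * w 0 + _ * u 0
      rw [u0, u1]
      field_simp
      unfold nf
      ring
    · simp only [Pi.add_apply, Pi.smul_apply, smul_eq_mul]
      show v 1 = _ * w 1 + _ * u 1
      rw [u0, u1]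
      field_simp
      unfold nf
      ring
  rw [hv]
  exact W.add_mem (W.smul_mem _ hw) (W.smul_mem _ hu)

theorem isCyclic_centralizer_aniso [Fintype F] (τ : F) (han : ∀ z : F × F, nf τ z = 0 → z = 0) :
    IsCyclic (Subgroup.centralizer ({compSL τ} : Set SL2)) := by
  haveI := isCyclic_centralizer (by norm_num) (Matrix.SpecialLinearGroup.toGL (compSL τ)) (irr_comp τ han)
  let f : Subgroup.centralizer ({compSL τ} : Set SL2) →*
      Subgroup.centralizer ({Matrix.SpecialLinearGroup.toGL (compSL τ)} : Set (GL (Fin 2) F)) :=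
    { toFun := fun h => ⟨Matrix.SpecialLinearGroup.toGL h.1, by
        have := Subgroup.mem_centralizer_singleton_iff.1 h.2
        rw [Subgroup.mem_centralizer_singleton_iff, ← map_mul, ← map_mul, this]⟩
      map_one' := by
        apply Subtype.ext
        simp
      map_mul' := by
        intro a b
        apply Subtype.ext
        simp }
  apply isCyclic_of_injective f
  intro a b hab
  apply Subtype.ext
  apply Matrix.SpecialLinearGroup.toGL_injective
  exact congrArg Subtype.val hab

theorem exists_fixed (h : SL2) (htr : (h : M2).trace = 2) : ∃ v : Fin 2 → F, v ≠ 0 ∧ (h : M2) *ᵥ v = v := by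
  have hd := h.2
  rw [Matrix.det_fin_two] at hd
  rw [Matrix.trace_fin_two] at htr
  by_cases hc : (h : M2) 0 1 = 0 ∧ (h : M2) 0 0 = 1
  · refine ⟨![0, 1], ?_, ?_⟩
    · intro h0
      have := congrFun h0 1
      simp at this
    · ext i
      fin_cases i
      · simp [Matrix.mulVec, dotProduct, Fin.sum_univ_two, hc.1]
      · simp [Matrix.mulVec, dotProduct, Fin.sum_univ_two]
        linear_combination htr - hc.2
  · refine ⟨![(h : M2) 0 1, 1 - (h : M2) 0 0], ?_, ?_⟩
    · intro h0
      apply hc
      have e0 := congrFun h0 0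
      have e1 := congrFun h0 1
      simp at e0 e1
      exact ⟨e0, by linear_combination -e1⟩
    · ext i
      fin_cases i
      · simp [Matrix.mulVec, dotProduct, Fin.sum_univ_two]
        ring
      · simp [Matrix.mulVec, dotProduct, Fin.sum_univ_two]
        linear_combination htr - hd

/-- upper unitriangular matrices -/
def uS (t : F) : SL2 := ⟨!![1, t; 0, 1], by simp [Matrix.det_fin_two_of]⟩

theorem uS_val (t : F) : (uS t : M2) = !![1, t; 0, 1] := rfl

theorem uS_add (s t : F) : uS (s + t) = uS s * uS t := by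
  apply Subtype.ext
  rw [Matrix.SpecialLinearGroup.coe_mul, uS_val, uS_val, uS_val]
  ext i j
  fin_cases i <;> fin_cases j <;> simp [Matrix.mul_apply, Fin.sum_univ_two, add_comm]

def uHom : Multiplicative F →* SL2 where
  toFun t := uS (Multiplicative.toAdd t)
  map_one' := by
    apply Subtype.ext
    rw [uS_val]
    ext i j
    fin_cases i <;> fin_cases j <;> simp
  map_mul' s t := by
    rw [toAdd_mul, uS_add]

theorem uHom_val (t : Multiplicative F) : (uHom t : M2) = !![1, Multiplicative.toAdd t; 0, 1] := rfl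

theorem uHom_injective : Function.Injective (uHom : Multiplicative F →* SL2) := by
  intro s t h
  have := congrFun (congrFun (congrArg Subtype.val h) 0) 1
  rw [uHom_val, uHom_val] at this
  simpa using this

theorem mem_range_uHom (k : SL2) (hk : (k : M2) *ᵥ ![1, 0] = ![1, 0]) : k ∈ (uHom : Multiplicative F →* SL2).range := by
  have e0 := congrFun hk 0
  have e1 := congrFun hk 1
  simp [Matrix.mulVec, dotProduct, Fin.sum_univ_two] at e0 e1
  have hd := k.2
  rw [Matrix.det_fin_two, e0, e1] at hd
  refine ⟨Multiplicative.ofAdd ((k : M2) 0 1), ?_⟩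
  apply Subtype.ext
  rw [uHom_val]
  ext i j
  fin_cases i <;> fin_cases j <;> simp [e0, e1]
  linear_combination -hd

/-- `x + y g` applied to the first basis vector, for the companion matrix -/
theorem lin_mulVec (τ : F) (z : F × F) (hz : nf ((compSL τ : SL2) : M2).trace z = 1) :
    (lin (compSL τ) z hz : M2) *ᵥ ![1, 0] = ![z.1, z.2] := by
  rw [lin_val]
  ext i
  fin_cases i <;> simp [Helper5_GL2.comp, Matrix.mulVec, dotProduct, Fin.sum_univ_two, Matrix.add_apply]

end Cfsg.Agent.Lib.Helper5_SL2Tori
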