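import Mathlib

set_option autoImplicit false

namespace Cfsg.Agent.Lib.Helper5_SLTrans

open Module

variable {K V : Type*} [Field K] [AddCommGroup V] [Module K V] [FiniteDimensional K V]

theorem exists_equiv_map_eq (U₁ U₂ : Submodule K V) (h : finrank K U₁ = finrank K U₂) :
    ∃ e : V ≃ₗ[K] V, U₁.map (e : V →ₗ[K] V) = U₂ := by
  obtain ⟨W₁, hW₁⟩ := Submodule.exists_isCompl U₁
  obtain ⟨W₂, hW₂⟩ := Submodule.exists_isCompl U₂
  have h1 := Submodule.finrank_add_eq_of_isCompl hW₁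
  have h2 := Submodule.finrank_add_eq_of_isCompl hW₂
  have hW : finrank K W₁ = finrank K W₂ := by omega
  let eU : U₁ ≃ₗ[K] U₂ := LinearEquiv.ofFinrankEq _ _ h
  let eW : W₁ ≃ₗ[K] W₂ := LinearEquiv.ofFinrankEq _ _ hW
  let e : V ≃ₗ[K] V := (Submodule.prodEquivOfIsCompl U₁ W₁ hW₁).symm ≪≫ₗ (eU.prodCongr eW) ≪≫ₗ
    (Submodule.prodEquivOfIsCompl U₂ W₂ hW₂)
  have he : ∀ x : U₁, e x = eU x := by
    intro x
    simp [e, Submodule.prodEquivOfIsCompl_symm_apply_left]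
  refine ⟨e, ?_⟩
  apply le_antisymm
  · rintro _ ⟨x, hx, rfl⟩
    have := he ⟨x, hx⟩
    simp only [LinearEquiv.coe_coe] at this ⊢
    rw [this]
    exact (eU ⟨x, hx⟩).2
  · intro y hy
    refine ⟨eU.symm ⟨y, hy⟩, (eU.symm ⟨y, hy⟩).2, ?_⟩
    simp only [LinearEquiv.coe_coe]
    rw [he]; simp

theorem map_eq_of_map_le (U : Submodule K V) (s : V ≃ₗ[K] V) (h : U.map (s : V →ₗ[K] V) ≤ U) :
    U.map (s : V →ₗ[K] V) = U := by
  apply Submodule.eq_of_le_of_finrank_eq h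
  exact LinearEquiv.finrank_map_eq s U

theorem exists_det_fix (U : Submodule K V) (hU : U ≠ ⊥) (δ : K) (hδ : δ ≠ 0) :
    ∃ s : V ≃ₗ[K] V, U.map (s : V →ₗ[K] V) = U ∧ LinearMap.det (s : V →ₗ[K] V) = δ := by
  obtain ⟨u, huU, hu0⟩ := Submodule.exists_mem_ne_zero_of_ne_bot hU
  obtain ⟨f, hf⟩ : ∃ f : Dual K V, f u = 1 := Module.Projective.exists_dual_eq_one K hu0
  have hunit : IsUnit (1 + f ((δ - 1) • u)) := by
    rw [map_smul, hf, smul_eq_mul, mul_one, add_sub_cancel]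
    exact hδ.isUnit
  refine ⟨LinearEquiv.dilatransvection hunit, ?_, ?_⟩
  · apply map_eq_of_map_le
    rintro _ ⟨x, hx, rfl⟩
    simp only [LinearEquiv.coe_coe]
    rw [LinearEquiv.dilatransvection.apply]
    exact U.add_mem hx (U.smul_mem _ (U.smul_mem _ huU))
  · rw [LinearEquiv.dilatransvection.coe_toLinearMap, LinearMap.transvection.det, map_smul, hf, smul_eq_mul,
      mul_one, add_sub_cancel]

/-- `SL` is transitive on subspaces of a given dimension. -/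
theorem exists_det_one_map_eq (U₁ U₂ : Submodule K V) (h : finrank K U₁ = finrank K U₂) :
    ∃ e : V ≃ₗ[K] V, U₁.map (e : V →ₗ[K] V) = U₂ ∧ LinearMap.det (e : V →ₗ[K] V) = 1 := by
  by_cases hU : U₂ = ⊥
  · refine ⟨LinearEquiv.refl K V, ?_, by simp⟩
    have h1 : U₁ = ⊥ := by
      rw [hU, finrank_bot] at h
      exact Submodule.finrank_eq_zero.1 h
    rw [h1, hU]; simp
  obtain ⟨e, he⟩ := exists_equiv_map_eq U₁ U₂ h
  have hdet : LinearMap.det (e : V →ₗ[K] V) ≠ 0 := (LinearEquiv.isUnit_det' e).ne_zero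
  obtain ⟨s, hs1, hs2⟩ := exists_det_fix U₂ hU (LinearMap.det (e : V →ₗ[K] V))⁻¹ (inv_ne_zero hdet)
  refine ⟨e ≪≫ₗ s, ?_, ?_⟩
  · rw [LinearEquiv.coe_trans, Submodule.map_comp, he, hs1]
  · rw [LinearEquiv.coe_trans, LinearMap.det_comp, hs2, inv_mul_cancel₀ hdet]

end Cfsg.Agent.Lib.Helper5_SLTrans
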