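import Mathlib

set_option autoImplicit false

namespace Cfsg.Agent.Lib.Helper5_Spectrum

open Polynomial Module

/-- A matrix of prime power order `r ^ (k+1)` (with `r` not the characteristic) forces
`r ^ (k+1) ∣ q ^ d - 1` for some `1 ≤ d ≤ n`. -/
theorem exists_dvd_pow_sub_one {F : Type*} [Field F] [Fintype F] {n : ℕ}
    (A : Matrix (Fin n) (Fin n) F) (r k : ℕ) (hr : r.Prime) (hrF : (r : F) ≠ 0)
    (h1 : A ^ r ^ (k + 1) = 1) (h2 : A ^ r ^ k ≠ 1) :
    ∃ d, 1 ≤ d ∧ d ≤ n ∧ r ^ (k + 1) ∣ Fintype.card F ^ d - 1 := by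
  haveI : Fact r.Prime := ⟨hr⟩
  set μ := minpoly F A with hμ
  set Ψ := cyclotomic (r ^ (k + 1)) F with hΨ
  have hΨA : aeval A Ψ * (A ^ r ^ k - 1) = 0 := by
    have := congrArg (aeval A) (cyclotomic_prime_pow_mul_X_pow_sub_one F r k)
    simp only [map_mul, map_sub, map_pow, aeval_X, map_one] at this
    rw [this, h1, sub_self]
  have hμ0 : μ ≠ 0 := minpoly.ne_zero (Matrix.isIntegral A)
  have hnc : ¬ IsCoprime μ Ψ := by
    rintro ⟨a, b, hab⟩
    apply h2
    have := congrArg (aeval A) hab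
    simp only [map_add, map_mul, map_one, hμ, minpoly.aeval, mul_zero, zero_add] at this
    have h3 : A ^ r ^ k - 1 = 0 := by
      calc A ^ r ^ k - 1 = (aeval A b * aeval A Ψ) * (A ^ r ^ k - 1) := by rw [this, one_mul]
        _ = 0 := by rw [mul_assoc, hΨA, mul_zero]
    exact sub_eq_zero.1 h3
  obtain ⟨π, hπ, hπμ, hπΨ⟩ : ∃ π : F[X], Irreducible π ∧ π ∣ μ ∧ π ∣ Ψ := by
    by_contra hcon
    push Not at hcon
    exact hnc (isCoprime_of_irreducible_dvd (fun h => hμ0 h.1) hcon)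
  haveI : Fact (Irreducible π) := ⟨hπ⟩
  have hπ0 : π ≠ 0 := hπ.ne_zero
  have hdeg : π.natDegree ≤ n := by
    have h3 : π ∣ A.charpoly := hπμ.trans (Matrix.minpoly_dvd_charpoly A)
    have := natDegree_le_of_dvd h3 (Matrix.charpoly_monic A).ne_zero
    rwa [Matrix.charpoly_natDegree_eq_dim, Fintype.card_fin] at this
  refine ⟨π.natDegree, hπ.natDegree_pos, hdeg, ?_⟩
  let K := AdjoinRoot π
  let x : K := AdjoinRoot.root π
  haveI : Module.Finite F K := (AdjoinRoot.powerBasis hπ0).finite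
  haveI : Finite K := Module.finite_of_finite F
  letI : Fintype K := Fintype.ofFinite K
  have hcard : Fintype.card K = Fintype.card F ^ π.natDegree := by
    rw [Module.card_eq_pow_finrank (K := F) (V := K), (AdjoinRoot.powerBasis hπ0).finrank,
      AdjoinRoot.powerBasis_dim]
  have hrK : ((r ^ (k + 1) : ℕ) : K) ≠ 0 := by
    have : ((r ^ (k + 1) : ℕ) : K) = algebraMap F K ((r : F) ^ (k + 1)) := by
      simp
    rw [this]
    intro h
    have := (map_eq_zero (algebraMap F K)).1 h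
    exact hrF (pow_eq_zero_iff (Nat.succ_ne_zero k) |>.1 this)
  haveI : NeZero ((r ^ (k + 1) : ℕ) : K) := ⟨hrK⟩
  have hroot : IsRoot (cyclotomic (r ^ (k + 1)) K) x := by
    obtain ⟨c, hc⟩ := hπΨ
    have h3 : aeval x Ψ = 0 := by
      rw [hc, map_mul]
      have : aeval x π = 0 := by
        rw [aeval_def]; exact AdjoinRoot.eval₂_root π
      rw [this, zero_mul]
    rw [IsRoot.def, ← map_cyclotomic (r ^ (k + 1)) (algebraMap F K), eval_map, ← aeval_def]
    exact h3
  have hprim : IsPrimitiveRoot x (r ^ (k + 1)) := isRoot_cyclotomic_iff.1 hroot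
  have hx0 : x ≠ 0 := hprim.ne_zero (pow_ne_zero _ hr.ne_zero)
  rw [hprim.eq_orderOf, ← hcard]
  exact orderOf_dvd_of_pow_eq_one (FiniteField.pow_card_sub_one_eq_one x hx0)

/-- There is an `n × n` matrix of order `q ^ d - 1` for `1 ≤ d ≤ n`. -/
theorem exists_matrix_orderOf {F : Type*} [Field F] [Fintype F] (n d : ℕ) (hd : 1 ≤ d) (hdn : d ≤ n) :
    ∃ A : Matrix (Fin n) (Fin n) F, orderOf A = Fintype.card F ^ d - 1 := by
  obtain ⟨p, hp⟩ := CharP.exists F
  haveI : Fact p.Prime := ⟨CharP.char_is_prime F p⟩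
  haveI : NeZero d := ⟨by omega⟩
  let K := FiniteField.Extension F p d
  letI : Fintype K := Fintype.ofFinite K
  let 𝒜 := K × (Fin (n - d) → F)
  have hfr : finrank F 𝒜 = n := by
    rw [Module.finrank_prod, FiniteField.finrank_extension, Module.finrank_fin_fun]
    omega
  let b : Basis (Fin n) F 𝒜 := finBasisOfFinrankEq F 𝒜 hfr
  obtain ⟨γ, hγ⟩ := IsCyclic.exists_generator (α := Kˣ)
  have hoγ : orderOf γ = Fintype.card F ^ d - 1 := by
    rw [orderOf_eq_card_of_forall_mem_zpowers hγ, Nat.card_units, FiniteField.natCard_extension,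
      Nat.card_eq_fintype_card]
  refine ⟨Algebra.leftMulMatrix b ((γ : K), 1), ?_⟩
  have h1 : orderOf (Algebra.leftMulMatrix b (((γ : K), 1) : 𝒜)) = orderOf (((γ : K), 1) : 𝒜) :=
    orderOf_injective (Algebra.leftMulMatrix b).toRingHom.toMonoidHom (Algebra.leftMulMatrix_injective b) _
  rw [h1, Prod.orderOf]
  simp only [orderOf_one, Nat.lcm_one_right]
  rw [orderOf_units, hoγ]

end Cfsg.Agent.Lib.Helper5_Spectrum
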