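import Mathlib
import Cfsg.Agent.Lib.Helper5_SLTrans

set_option autoImplicit false

namespace Cfsg.Agent.Lib.Helper5_SqZero

open Module Cfsg.Agent.Lib.Helper5_SLTrans

variable {K V : Type*} [Field K] [AddCommGroup V] [Module K V] [FiniteDimensional K V]

/-- Normal form of a square-zero endomorphism. -/
theorem exists_model (N : End K V) (hN : ∀ v, N (N v) = 0) (l k : ℕ) (hl : finrank K (LinearMap.range N) = l)
    (hk : k + 2 * l = finrank K V) :
    ∃ Φ : ((Fin l → K) × (Fin l → K) × (Fin k → K)) ≃ₗ[K] V, ∀ x y z, N (Φ (x, y, z)) = Φ (0, x, 0) := by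
  obtain ⟨C, hC⟩ := Submodule.exists_isCompl (LinearMap.ker N)
  have hle : LinearMap.range N ≤ LinearMap.ker N := by
    rintro _ ⟨v, rfl⟩
    exact hN v
  set I' : Submodule K (LinearMap.ker N) := (LinearMap.range N).comap (LinearMap.ker N).subtype with hI'
  obtain ⟨D, hD⟩ := Submodule.exists_isCompl I'
  have hrk := LinearMap.finrank_range_add_finrank_ker N
  have hCdim := Submodule.finrank_add_eq_of_isCompl hC
  have hDdim := Submodule.finrank_add_eq_of_isCompl hD
  have hI'dim : finrank K I' = l := by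
    rw [← hl]
    exact (Submodule.comapSubtypeEquivOfLe hle).finrank_eq
  have hCl : finrank K C = l := by omega
  have hDk : finrank K D = k := by omega
  let Ψ : (C × C × D) →ₗ[K] V :=
    LinearMap.coprod C.subtype (LinearMap.coprod (N ∘ₗ C.subtype) ((LinearMap.ker N).subtype ∘ₗ D.subtype))
  have hΨ : ∀ (x y : C) (z : D), Ψ (x, y, z) = (x : V) + (N (y : V) + ((z : LinearMap.ker N) : V)) := by
    intro x y z
    simp [Ψ]
  have hCker : ∀ x : C, N (x : V) = 0 → x = 0 := by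
    intro x hx
    have h1 : (x : V) ∈ LinearMap.ker N ⊓ C := ⟨hx, x.2⟩
    rw [hC.inf_eq_bot] at h1
    exact Subtype.ext ((Submodule.mem_bot K).1 h1)
  have hinj : Function.Injective Ψ := by
    rw [← LinearMap.ker_eq_bot, LinearMap.ker_eq_bot']
    rintro ⟨x, y, z⟩ h
    rw [hΨ] at h
    have h1 : N (x : V) = 0 := by
      have := congrArg N h
      rw [map_add, map_add, hN, (z : LinearMap.ker N).2, map_zero, add_zero, add_zero] at this
      exact this
    have hx : x = 0 := hCker x h1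
    subst hx
    rw [Submodule.coe_zero, zero_add] at h
    have h2 : (⟨N (y : V), hle ⟨_, rfl⟩⟩ : LinearMap.ker N) ∈ I' ⊓ D := by
      refine ⟨⟨_, rfl⟩, ?_⟩
      have : (⟨N (y : V), hle ⟨_, rfl⟩⟩ : LinearMap.ker N) = -(z : LinearMap.ker N) := by
        apply Subtype.ext
        simp only [Submodule.coe_neg]
        exact eq_neg_of_add_eq_zero_left h
      rw [this]
      exact D.neg_mem z.2
    rw [hD.inf_eq_bot] at h2
    have h3 : N (y : V) = 0 := congrArg Subtype.val ((Submodule.mem_bot K).1 h2)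
    have hy : y = 0 := hCker y h3
    subst hy
    rw [Submodule.coe_zero, map_zero, zero_add] at h
    have hz : z = 0 := Subtype.ext (Subtype.ext h)
    subst hz
    rfl
  have hdim : finrank K (C × C × D) = finrank K V := by
    rw [Module.finrank_prod, Module.finrank_prod]
    omega
  let Ψe : (C × C × D) ≃ₗ[K] V := Ψ.linearEquivOfInjective hinj hdim
  let eC : (Fin l → K) ≃ₗ[K] C := LinearEquiv.ofFinrankEq _ _ (by rw [hCl]; simp)
  let eD : (Fin k → K) ≃ₗ[K] D := LinearEquiv.ofFinrankEq _ _ (by rw [hDk]; simp)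
  refine ⟨(eC.prodCongr (eC.prodCongr eD)) ≪≫ₗ Ψe, ?_⟩
  intro x y z
  have h1 : ∀ x y z, ((eC.prodCongr (eC.prodCongr eD)) ≪≫ₗ Ψe) (x, y, z) = Ψ (eC x, eC y, eD z) := fun _ _ _ => rfl
  rw [h1, h1, hΨ, hΨ, map_add, map_add, hN, ((eD z : D) : LinearMap.ker N).2]
  simp

theorem two_mul_rank_le (N : End K V) (hN : ∀ v, N (N v) = 0) :
    2 * finrank K (LinearMap.range N) ≤ finrank K V := by
  have hle : LinearMap.range N ≤ LinearMap.ker N := by
    rintro _ ⟨v, rfl⟩
    exact hN v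
  have h1 := Submodule.finrank_mono hle
  have hrk := LinearMap.finrank_range_add_finrank_ker N
  omega

theorem exists_conj (N N' : End K V) (hN : ∀ v, N (N v) = 0) (hN' : ∀ v, N' (N' v) = 0)
    (hrank : finrank K (LinearMap.range N) = finrank K (LinearMap.range N')) :
    ∃ g : V ≃ₗ[K] V, ∀ v, g (N v) = N' (g v) := by
  have h2 := two_mul_rank_le N hN
  obtain ⟨Φ, hΦ⟩ := exists_model N hN (finrank K (LinearMap.range N)) (finrank K V - 2 * finrank K (LinearMap.range N))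
    rfl (by omega)
  obtain ⟨Φ', hΦ'⟩ := exists_model N' hN' (finrank K (LinearMap.range N)) (finrank K V - 2 * finrank K (LinearMap.range N))
    hrank.symm (by omega)
  refine ⟨Φ.symm ≪≫ₗ Φ', ?_⟩
  intro v
  obtain ⟨⟨x, y, z⟩, rfl⟩ := Φ.surjective v
  rw [hΦ]
  simp only [LinearEquiv.trans_apply, LinearEquiv.symm_apply_apply]
  rw [hΦ']

theorem exists_equiv_det (n : ℕ) (hn : 1 ≤ n) (δ : K) (hδ : δ ≠ 0) :
    ∃ A : (Fin n → K) ≃ₗ[K] (Fin n → K), LinearMap.det (A : (Fin n → K) →ₗ[K] (Fin n → K)) = δ := by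
  have hne : (⊤ : Submodule K (Fin n → K)) ≠ ⊥ := by
    intro h
    have h1 : finrank K (⊤ : Submodule K (Fin n → K)) = 0 := by rw [h]; simp
    rw [finrank_top] at h1
    simp at h1
    omega
  obtain ⟨s, -, hs⟩ := exists_det_fix (⊤ : Submodule K (Fin n → K)) hne δ hδ
  exact ⟨s, hs⟩

theorem exists_commuting_det (N : End K V) (hN : ∀ v, N (N v) = 0) (δ : K) (hδ : δ ≠ 0)
    (h : 2 * finrank K (LinearMap.range N) < finrank K V ∨ (IsSquare δ ∧ 1 ≤ finrank K (LinearMap.range N))) :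
    ∃ s : V ≃ₗ[K] V, (∀ v, s (N v) = N (s v)) ∧ LinearMap.det (s : V →ₗ[K] V) = δ := by
  have h2 := two_mul_rank_le N hN
  obtain ⟨Φ, hΦ⟩ := exists_model N hN (finrank K (LinearMap.range N)) (finrank K V - 2 * finrank K (LinearMap.range N))
    rfl (by omega)
  have key : ∀ (A : (Fin (finrank K (LinearMap.range N)) → K) ≃ₗ[K] (Fin (finrank K (LinearMap.range N)) → K))
      (B : (Fin (finrank K V - 2 * finrank K (LinearMap.range N)) → K) ≃ₗ[K] (Fin (finrank K V - 2 * finrank K (LinearMap.range N)) → K)),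
      ∃ s : V ≃ₗ[K] V, (∀ v, s (N v) = N (s v)) ∧ LinearMap.det (s : V →ₗ[K] V) =
        LinearMap.det A.toLinearMap * (LinearMap.det A.toLinearMap * LinearMap.det B.toLinearMap) := by
    intro A B
    refine ⟨Φ.symm ≪≫ₗ (A.prodCongr (A.prodCongr B)) ≪≫ₗ Φ, ?_, ?_⟩
    · intro v
      obtain ⟨⟨x, y, z⟩, rfl⟩ := Φ.surjective v
      rw [hΦ]
      simp only [LinearEquiv.trans_apply, LinearEquiv.symm_apply_apply, LinearEquiv.prodCongr_apply, map_zero]
      rw [hΦ]
    · have h3 : ((Φ.symm ≪≫ₗ (A.prodCongr (A.prodCongr B)) ≪≫ₗ Φ : V ≃ₗ[K] V) : V →ₗ[K] V) =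
          Φ.toLinearMap ∘ₗ (LinearMap.prodMap A.toLinearMap (LinearMap.prodMap A.toLinearMap B.toLinearMap)) ∘ₗ
            Φ.symm.toLinearMap := by
        ext v
        simp
      rw [h3, LinearMap.det_conj, LinearMap.det_prodMap, LinearMap.det_prodMap]
  rcases h with h | ⟨⟨c, hc⟩, h⟩
  · obtain ⟨B, hB⟩ := exists_equiv_det (K := K) (finrank K V - 2 * finrank K (LinearMap.range N)) (by omega) δ hδ
    obtain ⟨s, hs1, hs2⟩ := key (LinearEquiv.refl K _) B
    refine ⟨s, hs1, ?_⟩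
    rw [hs2, hB]
    simp
  · have hc0 : c ≠ 0 := by
      rintro rfl
      apply hδ
      rw [hc, mul_zero]
    obtain ⟨A, hA⟩ := exists_equiv_det (K := K) (finrank K (LinearMap.range N)) h c hc0
    obtain ⟨s, hs1, hs2⟩ := key A (LinearEquiv.refl K _)
    refine ⟨s, hs1, ?_⟩
    rw [hs2, hA, hc]
    simp

theorem exists_conj_det_one (N N' : End K V) (hN : ∀ v, N (N v) = 0) (hN' : ∀ v, N' (N' v) = 0)
    (hrank : finrank K (LinearMap.range N) = finrank K (LinearMap.range N'))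
    (h : 2 * finrank K (LinearMap.range N) < finrank K V ∨ ((∀ δ : K, IsSquare δ) ∧ 1 ≤ finrank K (LinearMap.range N))) :
    ∃ g : V ≃ₗ[K] V, (∀ v, g (N v) = N' (g v)) ∧ LinearMap.det (g : V →ₗ[K] V) = 1 := by
  obtain ⟨g, hg⟩ := exists_conj N N' hN hN' hrank
  have hdet : LinearMap.det (g : V →ₗ[K] V) ≠ 0 := (LinearEquiv.isUnit_det' g).ne_zero
  obtain ⟨s, hs1, hs2⟩ := exists_commuting_det N' hN' (LinearMap.det (g : V →ₗ[K] V))⁻¹ (inv_ne_zero hdet) (by
    rw [← hrank]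
    rcases h with h | ⟨h1, h2⟩
    · exact Or.inl h
    · exact Or.inr ⟨h1 _, h2⟩)
  refine ⟨g ≪≫ₗ s, ?_, ?_⟩
  · intro v
    simp only [LinearEquiv.trans_apply]
    rw [hg, hs1]
  · rw [LinearEquiv.coe_trans, LinearMap.det_comp, hs2, inv_mul_cancel₀ hdet]

open scoped Matrix

theorem sqzero_apply {n : ℕ} (A : Matrix (Fin n) (Fin n) K) (hA : A * A = 0) (v : Fin n → K) :
    A.mulVecLin (A.mulVecLin v) = 0 := by
  rw [Matrix.mulVecLin_apply, Matrix.mulVecLin_apply, Matrix.mulVec_mulVec, hA, Matrix.zero_mulVec]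

theorem matrix_rel {n : ℕ} (A B : Matrix (Fin n) (Fin n) K) (g : (Fin n → K) ≃ₗ[K] (Fin n → K))
    (hg : ∀ v, g (A.mulVecLin v) = B.mulVecLin (g v)) :
    LinearMap.toMatrix' g.toLinearMap * (1 + A) = (1 + B) * LinearMap.toMatrix' g.toLinearMap := by
  apply Matrix.mulVec_injective
  funext v
  have h := hg v
  simp only [Matrix.mulVecLin_apply] at h
  rw [← Matrix.mulVec_mulVec, ← Matrix.mulVec_mulVec, Matrix.add_mulVec, Matrix.add_mulVec, Matrix.one_mulVec,
    Matrix.one_mulVec, LinearMap.toMatrix'_mulVec, LinearMap.toMatrix'_mulVec]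
  simp only [LinearEquiv.coe_coe, map_add]
  rw [h]

theorem sl_conj {n : ℕ} (a b : Matrix.SpecialLinearGroup (Fin n) K)
    (ha : ((a : Matrix (Fin n) (Fin n) K) - 1) * ((a : Matrix (Fin n) (Fin n) K) - 1) = 0)
    (hb : ((b : Matrix (Fin n) (Fin n) K) - 1) * ((b : Matrix (Fin n) (Fin n) K) - 1) = 0)
    (hrank : ((a : Matrix (Fin n) (Fin n) K) - 1).rank = ((b : Matrix (Fin n) (Fin n) K) - 1).rank)
    (h : 2 * ((a : Matrix (Fin n) (Fin n) K) - 1).rank < n ∨
      ((∀ δ : K, IsSquare δ) ∧ 1 ≤ ((a : Matrix (Fin n) (Fin n) K) - 1).rank)) : IsConj a b := by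
  obtain ⟨g, hg1, hg2⟩ := exists_conj_det_one ((a : Matrix (Fin n) (Fin n) K) - 1).mulVecLin
    ((b : Matrix (Fin n) (Fin n) K) - 1).mulVecLin (sqzero_apply _ ha) (sqzero_apply _ hb) hrank
    (by
      have : finrank K (Fin n → K) = n := by simp
      rw [this]
      exact h)
  have hrel := matrix_rel _ _ g hg1
  rw [add_sub_cancel, add_sub_cancel] at hrel
  have hdet : (LinearMap.toMatrix' g.toLinearMap).det = 1 := by
    rw [LinearMap.det_toMatrix']; exact hg2
  rw [isConj_iff]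
  let c : Matrix.SpecialLinearGroup (Fin n) K := ⟨LinearMap.toMatrix' g.toLinearMap, hdet⟩
  refine ⟨c, ?_⟩
  rw [mul_inv_eq_iff_eq_mul]
  apply Subtype.ext
  exact hrel

theorem gl_conj {n : ℕ} (a b : GL (Fin n) K)
    (ha : ((a : Matrix (Fin n) (Fin n) K) - 1) * ((a : Matrix (Fin n) (Fin n) K) - 1) = 0)
    (hb : ((b : Matrix (Fin n) (Fin n) K) - 1) * ((b : Matrix (Fin n) (Fin n) K) - 1) = 0)
    (hrank : ((a : Matrix (Fin n) (Fin n) K) - 1).rank = ((b : Matrix (Fin n) (Fin n) K) - 1).rank) : IsConj a b := by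
  obtain ⟨g, hg1⟩ := exists_conj ((a : Matrix (Fin n) (Fin n) K) - 1).mulVecLin
    ((b : Matrix (Fin n) (Fin n) K) - 1).mulVecLin (sqzero_apply _ ha) (sqzero_apply _ hb) hrank
  have hrel := matrix_rel _ _ g hg1
  rw [add_sub_cancel, add_sub_cancel] at hrel
  have hdet : (LinearMap.toMatrix' g.toLinearMap).det ≠ 0 := by
    rw [LinearMap.det_toMatrix']; exact (LinearEquiv.isUnit_det' g).ne_zero
  rw [isConj_iff]
  refine ⟨Matrix.GeneralLinearGroup.mkOfDetNeZero _ hdet, ?_⟩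
  rw [mul_inv_eq_iff_eq_mul]
  apply Units.ext
  exact hrel

end Cfsg.Agent.Lib.Helper5_SqZero
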