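import Mathlib
import Cfsg.Agent.Lib.Helper1_CoprimeSylow
import Cfsg.Agent.Lib.Helper4_Syl
import Cfsg.Agent.Lib.Helper7_Max
import Cfsg.Agent.Lib.Helper7_Frat

set_option autoImplicit false

namespace Cfsg.Agent.Lib.Helper7_Herstein

open Pointwise Cfsg.Agent.Lib.Helper4_Syl Cfsg.Agent.Lib.Helper7_Max Cfsg.Agent.Lib.Helper7_Frat
  Cfsg.Agent.Lib.Helper1_CoprimeSylow

variable {G : Type*} [Group G]

theorem exists_compl [Finite G] {r : ℕ} [Fact r.Prime] (R : Sylow r G)
    (hNC : Subgroup.normalizer ((R : Subgroup G) : Set G) ≤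
      Subgroup.centralizer ((R : Subgroup G) : Set G)) :
    ∃ K : Subgroup G, K.Normal ∧ ¬ r ∣ Nat.card K ∧ commutator G ≤ K := by
  refine ⟨(MonoidHom.transferSylow R hNC).ker, inferInstance,
    MonoidHom.not_dvd_card_ker_transferSylow R hNC, ?_⟩
  rw [commutator_def, Subgroup.commutator_le]
  intro a _ b _
  rw [MonoidHom.mem_ker, commutatorElement_def]
  have hcomm : ∀ u v : ↥(R : Subgroup G), u * v = v * u := by
    intro u v
    have h1 : (u : G) ∈ Subgroup.centralizer ((R : Subgroup G) : Set G) :=
      hNC (Subgroup.le_normalizer u.2)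
    rw [Subgroup.mem_centralizer_iff] at h1
    exact Subtype.ext (h1 v v.2).symm
  rw [map_mul, map_mul, map_mul, map_inv, map_inv, hcomm (MonoidHom.transferSylow R hNC a)]
  group

theorem comm_eq_bot_of_comm {A : Subgroup G} (hab : ∀ a ∈ A, ∀ b ∈ A, a * b = b * a) :
    ⁅A, A⁆ = ⊥ := by
  rw [Subgroup.commutator_eq_bot_iff_le_centralizer]
  intro a ha
  rw [Subgroup.mem_centralizer_iff]
  intro b hb
  exact hab b hb a ha

theorem derived2_of_normal [Finite G] (A : Subgroup G) (hA : IsCoatom A)
    (hab : ∀ a ∈ A, ∀ b ∈ A, a * b = b * a) (hn : A.Normal) : derivedSeries G 2 = ⊥ := by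
  have hp := index_prime_of_isCoatom_normal A hA
  haveI : Fact A.index.Prime := ⟨hp⟩
  haveI : IsCyclic (G ⧸ A) := isCyclic_of_prime_card (p := A.index) rfl
  letI := IsCyclic.commGroup (α := G ⧸ A)
  have h1 : commutator G ≤ A := by
    have := Abelianization.commutator_subset_ker (QuotientGroup.mk' A)
    rwa [QuotientGroup.ker_mk'] at this
  have h2 : derivedSeries G 1 ≤ A := by
    rw [derivedSeries_succ, derivedSeries_zero, ← commutator_def]; exact h1
  rw [derivedSeries_succ, eq_bot_iff, ← comm_eq_bot_of_comm hab]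
  exact Subgroup.commutator_mono h2 h2

theorem derived2_of_TI [Finite G] (B : Subgroup G) (hB : IsCoatom B)
    (hab : ∀ a ∈ B, ∀ b ∈ B, a * b = b * a)
    (hTI : ∀ x : G, x ∉ B → B ⊓ MulAut.conj x • B = ⊥) : derivedSeries G 2 = ⊥ := by
  by_cases hn : B.Normal
  · exact derived2_of_normal B hB hab hn
  set D := commutator G with hD
  have hDn : D.Normal := inferInstance
  have hDB : D ⊔ B = ⊤ := by
    apply hB.2
    apply lt_of_le_of_ne le_sup_right
    intro h
    apply hn
    apply normal_of_commutator_le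
    rw [h]; exact le_sup_left
  have hcop : (Nat.card B).Coprime (Nat.card D) := by
    apply Nat.coprime_of_dvd
    intro p hp hpB hpD
    haveI : Fact p.Prime := ⟨hp⟩
    obtain ⟨S, hS⟩ := exists_isSylIn p B
    have hSne : S ≠ ⊥ := hS.ne_bot_of_dvd hpB
    have hNS : Subgroup.normalizer (S : Set G) ≤ B := by
      intro x hx
      by_contra hxB
      apply hSne
      rw [eq_bot_iff, ← hTI x hxB]
      refine le_inf hS.le ?_
      rw [mem_normalizer_iff_conj_smul] at hx
      rw [← hx]
      exact Subgroup.pointwise_smul_le_pointwise_smul_iff.mpr hS.le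
    have hStop : IsSylIn p S ⊤ := hS.of_normalizer_le le_top (inf_le_right.trans hNS)
    obtain ⟨R, hR⟩ := hStop.exists_sylow_top
    have hNC : Subgroup.normalizer ((R : Subgroup G) : Set G) ≤
        Subgroup.centralizer ((R : Subgroup G) : Set G) := by
      rw [hR]
      intro x hx
      rw [Subgroup.mem_centralizer_iff]
      intro s hs
      exact hab s (hS.le hs) x (hNS hx)
    obtain ⟨K, _, hK2, hK3⟩ := exists_compl R hNC
    exact hK2 (hpD.trans (Subgroup.card_dvd_of_le hK3))
  have hinf : D ⊓ B = ⊥ := Subgroup.inf_eq_bot_of_coprime hcop.symm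
  have hd1 : derivedSeries G 1 = D := by
    rw [derivedSeries_succ, derivedSeries_zero, ← commutator_def]
  have hd2 : derivedSeries G 2 = ⁅D, D⁆ := by
    rw [derivedSeries_succ, hd1]
  rw [hd2]
  by_cases hDbot : D = ⊥
  · rw [hDbot]; simp
  have hcard : Nat.card D ≠ 1 := by
    intro h
    exact hDbot (Subgroup.card_eq_one.mp h)
  obtain ⟨q, hq, hqD⟩ := Nat.exists_prime_and_dvd hcard
  haveI : Fact q.Prime := ⟨hq⟩
  have hBsolv : Group.IsSolvable B := by
    exact Group.isSolvable_of_comm (fun a b => Subtype.ext (hab a a.2 b b.2))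
  obtain ⟨Q, hQ, hBQ⟩ := exists_invariant_sylow (A := B) (K := D)
    (by rw [Subgroup.normalizer_eq_top_iff.mpr hDn]; exact le_top) hcop (Or.inl hBsolv) q
  have hQne : Q ≠ ⊥ := by
    intro h
    have h1 := hQ.2
    rw [h, Subgroup.card_bot] at h1
    have h2 : (Nat.card D).factorization q ≠ 0 := by
      have := (hq.dvd_iff_one_le_factorization Nat.card_pos.ne').mp hqD
      omega
    have h3 : 1 < q ^ (Nat.card D).factorization q := Nat.one_lt_pow h2 hq.one_lt
    omega
  have hQnB : ¬ Q ≤ B := by
    intro h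
    apply hQne
    rw [eq_bot_iff, ← hinf]
    exact le_inf hQ.1 h
  have hQn : Q.Normal := by
    rw [← Subgroup.normalizer_eq_top_iff]
    apply hB.2
    apply lt_of_le_of_ne hBQ
    intro h
    apply hQnB
    rw [h]; exact Subgroup.le_normalizer
  have hQB : Q ⊔ B = ⊤ := by
    apply hB.2
    apply lt_of_le_of_ne le_sup_right
    intro h
    apply hQnB
    rw [h]; exact le_sup_left
  have hDQ : D ≤ Q := by
    have := dedekind_le hQ.1 hQB
    rwa [hinf, sup_bot_eq] at this
  have hDp : IsPGroup q D := (isPGroup_of_mem_sylSet hQ).to_le hDQ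
  have hlt : ⁅D, D⁆ < D := by
    haveI : Nontrivial D := (Subgroup.nontrivial_iff_ne_bot D).mpr hDbot
    haveI : Group.IsNilpotent D := hDp.isNilpotent
    haveI : Group.IsSolvable D := inferInstance
    have h1 := Group.IsSolvable.commutator_lt_top_of_nontrivial D
    have h2 : ⁅D, D⁆ = (commutator D).map D.subtype := by
      rw [commutator_def, Subgroup.map_commutator, ← MonoidHom.range_eq_map, Subgroup.range_subtype]
    rw [h2]
    calc (commutator D).map D.subtype < (⊤ : Subgroup D).map D.subtype :=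
          (Subgroup.map_subtype_lt_map_subtype).mpr h1
      _ = D := by rw [← MonoidHom.range_eq_map, Subgroup.range_subtype]
  have hD2n : (⁅D, D⁆ : Subgroup G).Normal := inferInstance
  by_cases h3 : ⁅D, D⁆ ≤ B
  · rw [eq_bot_iff, ← hinf]
    exact le_inf hlt.le h3
  · exfalso
    have h4 : ⁅D, D⁆ ⊔ B = ⊤ := by
      apply hB.2
      apply lt_of_le_of_ne le_sup_right
      intro h
      apply h3
      rw [h]; exact le_sup_left
    have h5 := dedekind_le hlt.le h4
    rw [hinf, sup_bot_eq] at h5
    exact absurd h5 (not_le_of_gt hlt)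

theorem isCoatom_map [Finite G] (N A : Subgroup G) [N.Normal] (hNA : N ≤ A) (hA : IsCoatom A) :
    IsCoatom (A.map (QuotientGroup.mk' N)) := by
  have hsurj : Function.Surjective (QuotientGroup.mk' N) := QuotientGroup.mk'_surjective N
  have hcm : (A.map (QuotientGroup.mk' N)).comap (QuotientGroup.mk' N) = A := by
    rw [Subgroup.comap_map_eq, QuotientGroup.ker_mk', sup_eq_left.mpr hNA]
  refine ⟨?_, ?_⟩
  · intro h
    apply hA.1
    rw [← hcm, h, Subgroup.comap_top]
  · intro M hM
    have h1 : A < M.comap (QuotientGroup.mk' N) := by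
      apply lt_of_le_of_ne
      · rw [← hcm]; exact Subgroup.comap_mono hM.le
      · intro h
        apply hM.ne
        rw [h, Subgroup.map_comap_eq_self_of_surjective hsurj]
    have h2 := hA.2 _ h1
    rw [← Subgroup.map_comap_eq_self_of_surjective hsurj M, h2,
      Subgroup.map_top_of_surjective _ hsurj]

/-- Herstein: a finite group with an abelian maximal subgroup has derived length at most 3. -/
theorem herstein [Finite G] (A : Subgroup G) (hA : IsCoatom A)
    (hab : ∀ a ∈ A, ∀ b ∈ A, a * b = b * a) : derivedSeries G 3 = ⊥ := by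
  by_cases hn : A.Normal
  · rw [derivedSeries_succ, derived2_of_normal A hA hab hn]; simp
  have hZA : Subgroup.center G ≤ A := by
    by_contra h
    apply hn
    have h1 : A ⊔ Subgroup.center G = ⊤ := by
      apply hA.2
      apply lt_of_le_of_ne le_sup_left
      intro h2
      apply h
      rw [h2]; exact le_sup_right
    apply normal_of_sup_eq_top A (Subgroup.center G) A h1
    · intro a ha d hd
      exact A.mul_mem (A.mul_mem ha hd) (A.inv_mem ha)
    · intro b hb d hd
      rw [Subgroup.mem_center_iff] at hb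
      rw [← hb d]; simpa using hd
  have hNA : Subgroup.normalizer (A : Set G) = A := by
    by_contra h
    apply hn
    rw [← Subgroup.normalizer_eq_top_iff]
    exact hA.2 _ (lt_of_le_of_ne Subgroup.le_normalizer (Ne.symm h))
  have hTI : ∀ g : G, g ∉ A → A ⊓ MulAut.conj g • A ≤ Subgroup.center G := by
    intro g hg x hx
    obtain ⟨hx1, hx2⟩ := Subgroup.mem_inf.mp hx
    have hC1 : A ≤ Subgroup.centralizer ({x} : Set G) := by
      intro a ha
      rw [Subgroup.mem_centralizer_singleton_iff]
      first | exact hab a ha x hx1 | exact hab x hx1 a ha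
    have hC2 : MulAut.conj g • A ≤ Subgroup.centralizer ({x} : Set G) := by
      intro a ha
      rw [mem_conj_smul] at ha hx2
      have h1 := hab _ ha _ hx2
      have h2 : a * x = x * a := by
        calc a * x = g * ((g⁻¹ * a * g) * (g⁻¹ * x * g)) * g⁻¹ := by group
          _ = g * ((g⁻¹ * x * g) * (g⁻¹ * a * g)) * g⁻¹ := by rw [h1]
          _ = x * a := by group
      rw [Subgroup.mem_centralizer_singleton_iff]
      first | exact h2 | exact h2.symm
    have hnle : ¬ MulAut.conj g • A ≤ A := by
      intro h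
      apply hg
      rw [← hNA, mem_normalizer_iff_conj_smul]
      exact Subgroup.eq_of_le_of_card_ge h (by rw [card_conj_smul])
    have hCtop : Subgroup.centralizer ({x} : Set G) = ⊤ := by
      apply hA.2
      apply lt_of_le_of_ne hC1
      intro h
      apply hnle
      exact hC2.trans h.symm.le
    rw [Subgroup.mem_center_iff]
    intro y
    have hy : y ∈ Subgroup.centralizer ({x} : Set G) := by rw [hCtop]; trivial
    rw [Subgroup.mem_centralizer_singleton_iff] at hy
    first | exact hy | exact hy.symm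
  set Z := Subgroup.center G with hZ
  have hmemA : ∀ y : G, QuotientGroup.mk' Z y ∈ A.map (QuotientGroup.mk' Z) ↔ y ∈ A := by
    intro y
    rw [← Subgroup.mem_comap, Subgroup.comap_map_eq, QuotientGroup.ker_mk', sup_eq_left.mpr hZA]
  have h2 : derivedSeries (G ⧸ Z) 2 = ⊥ := by
    apply derived2_of_TI (A.map (QuotientGroup.mk' Z)) (isCoatom_map Z A hZA hA)
    · rintro _ ⟨a, ha, rfl⟩ _ ⟨b, hb, rfl⟩
      rw [← map_mul, ← map_mul, hab a ha b hb]
    · intro xb hxb
      obtain ⟨g, rfl⟩ := QuotientGroup.mk'_surjective Z xb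
      have hg : g ∉ A := fun h => hxb ((hmemA g).mpr h)
      rw [eq_bot_iff]
      intro yb hyb
      obtain ⟨hy1, hy2⟩ := Subgroup.mem_inf.mp hyb
      obtain ⟨a, ha, rfl⟩ := hy1
      rw [mem_conj_smul, ← map_inv, ← map_mul, ← map_mul, hmemA] at hy2
      have h3 : a ∈ A ⊓ MulAut.conj g • A :=
        Subgroup.mem_inf.mpr ⟨ha, by rw [mem_conj_smul]; exact hy2⟩
      have h4 := hTI g hg h3
      rw [Subgroup.mem_bot]
      exact (QuotientGroup.eq_one_iff a).mpr h4
  have h3 : derivedSeries G 2 ≤ Z := by
    have h4 := map_derivedSeries_eq (QuotientGroup.mk'_surjective Z) 2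
    rw [h2, Subgroup.map_eq_bot_iff, QuotientGroup.ker_mk'] at h4
    exact h4
  rw [derivedSeries_succ, Subgroup.commutator_eq_bot_iff_le_centralizer]
  exact h3.trans (Subgroup.center_le_centralizer _)

theorem herstein_solvable [Finite G] (A : Subgroup G) (hA : IsCoatom A)
    (hab : ∀ a ∈ A, ∀ b ∈ A, a * b = b * a) : Group.IsSolvable G :=
  ⟨⟨3, herstein A hA hab⟩⟩

end Cfsg.Agent.Lib.Helper7_Herstein
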