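import Mathlib
import Cfsg.Agent.Lib.Helper7_Herstein

set_option autoImplicit false

namespace Cfsg.Agent.Lib.Helper7_CentMax

open Pointwise Cfsg.Agent.Lib.Helper4_Syl Cfsg.Agent.Lib.Helper7_Herstein

variable {G : Type*} [Group G]

abbrev cen (g : G) : Subgroup G := Subgroup.centralizer ({g} : Set G)

theorem mem_cen {g w : G} : w ∈ cen g ↔ w * g = g * w := by
  rw [Subgroup.mem_centralizer_singleton_iff]

theorem self_mem_cen (g : G) : g ∈ cen g := mem_cen.mpr rfl

theorem center_le_cen (g : G) : Subgroup.center G ≤ cen g := Subgroup.center_le_centralizer _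

theorem cen_le_of_mem_zpowers {g a : G} (ha : a ∈ Subgroup.zpowers g) : cen g ≤ cen a := by
  obtain ⟨i, rfl⟩ := ha
  intro w hw
  rw [mem_cen] at hw ⊢
  exact ((show Commute w g from hw).zpow_right i)

theorem cen_le_of_pow {g a : G} {n : ℕ} (ha : g ^ n = a) : cen g ≤ cen a :=
  cen_le_of_mem_zpowers ⟨n, by simpa using ha⟩

theorem exists_decomp' [Finite G] (r : ℕ) [hr : Fact r.Prime] (g : G) :
    ∃ a b : G, a ∈ Subgroup.zpowers g ∧ b ∈ Subgroup.zpowers g ∧ a * b = g ∧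
      (∃ k : ℕ, orderOf a = r ^ k) ∧ ¬ r ∣ orderOf b := by
  have hn : orderOf g ≠ 0 := (orderOf_pos g).ne'
  obtain ⟨k, m, hm, hkm⟩ := Nat.exists_eq_pow_mul_and_not_dvd hn r hr.out.ne_one
  have hcop : IsCoprime ((r ^ k : ℕ) : ℤ) (m : ℤ) := by
    rw [Nat.isCoprime_iff_coprime]
    exact Nat.Coprime.pow_left k ((Nat.Prime.coprime_iff_not_dvd hr.out).mpr hm)
  obtain ⟨u, v, huv⟩ := hcop
  refine ⟨g ^ (v * (m : ℤ)), g ^ (u * ((r ^ k : ℕ) : ℤ)), ⟨_, rfl⟩, ⟨_, rfl⟩, ?_, ?_, ?_⟩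
  · rw [← zpow_add, add_comm, huv, zpow_one]
  · have h1 : (g ^ (v * (m : ℤ))) ^ (r ^ k) = 1 := by
      rw [← zpow_natCast, ← zpow_mul]
      have h2 : v * (m : ℤ) * ((r ^ k : ℕ) : ℤ) = ((orderOf g : ℕ) : ℤ) * v := by
        rw [hkm]; push_cast; ring
      rw [h2, zpow_mul, zpow_natCast, pow_orderOf_eq_one, one_zpow]
    obtain ⟨j, -, hj⟩ := (Nat.dvd_prime_pow hr.out).mp (orderOf_dvd_of_pow_eq_one h1)
    exact ⟨j, hj⟩
  · have h1 : (g ^ (u * ((r ^ k : ℕ) : ℤ))) ^ m = 1 := by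
      rw [← zpow_natCast, ← zpow_mul]
      have h2 : u * ((r ^ k : ℕ) : ℤ) * (m : ℤ) = ((orderOf g : ℕ) : ℤ) * u := by
        rw [hkm]; push_cast; ring
      rw [h2, zpow_mul, zpow_natCast, pow_orderOf_eq_one, one_zpow]
    intro hdvd
    exact hm (hdvd.trans (orderOf_dvd_of_pow_eq_one h1))

theorem commute_of_mem_zpowers {g a b : G} (ha : a ∈ Subgroup.zpowers g)
    (hb : b ∈ Subgroup.zpowers g) : Commute a b := by
  obtain ⟨i, rfl⟩ := ha
  obtain ⟨j, rfl⟩ := hb
  exact Commute.zpow_zpow_self g i j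

theorem solvable_of_center_quot (hq : Group.IsSolvable (G ⧸ Subgroup.center G)) :
    Group.IsSolvable G := by
  haveI : Group.IsSolvable (Subgroup.center G) :=
    Group.isSolvable_of_comm (fun a b => Subtype.ext (Subgroup.mem_center_iff.mp b.2 a))
  exact Group.isSolvable_of_ker_le_range (Subgroup.center G).subtype
    (QuotientGroup.mk' (Subgroup.center G)) (by
      rw [QuotientGroup.ker_mk', Subgroup.range_subtype])

section
variable [Finite G] (h : ∀ g : G, g ∉ Subgroup.center G → IsCoatom (cen g))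
include h

theorem cen_eq_of_le {g g' : G} (hg : g ∉ Subgroup.center G) (hg' : g' ∉ Subgroup.center G)
    (hle : cen g ≤ cen g') : cen g' = cen g := by
  rcases (h g hg).le_iff.mp hle with h1 | h1
  · exact absurd h1 (h g' hg').1
  · exact h1

theorem comm_of_coprime {r : ℕ} (hr : r.Prime) {a y : G} (ha : a ∉ Subgroup.center G)
    (hao : ∃ k : ℕ, orderOf a = r ^ k) (hy : y ∈ cen a) (hyo : ¬ r ∣ orderOf y) :
    y ∈ Subgroup.center G ∨ cen y = cen a := by
  by_cases hyZ : y ∈ Subgroup.center G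
  · exact Or.inl hyZ
  right
  obtain ⟨k, hk⟩ := hao
  have hcop : (orderOf y).Coprime (orderOf a) := by
    rw [hk]
    exact Nat.Coprime.pow_right k (Nat.coprime_comm.mp ((Nat.Prime.coprime_iff_not_dvd hr).mpr hyo))
  have hcomm : Commute a y := (mem_cen.mp hy).symm
  obtain ⟨t, ht⟩ := exists_pow_eq_self_of_coprime hcop
  obtain ⟨t', ht'⟩ := exists_pow_eq_self_of_coprime hcop.symm
  have h1 : (a * y) ^ (orderOf y * t) = a := by
    rw [hcomm.mul_pow, pow_mul, pow_mul, pow_orderOf_eq_one, one_pow, mul_one, ht]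
  have h2 : (a * y) ^ (orderOf a * t') = y := by
    rw [hcomm.mul_pow, pow_mul, pow_mul, pow_orderOf_eq_one, one_pow, one_mul, ht']
  have hayZ : a * y ∉ Subgroup.center G := fun hz => ha (h1 ▸ Subgroup.pow_mem _ hz _)
  have e1 := cen_eq_of_le h hayZ ha (cen_le_of_pow h1)
  have e2 := cen_eq_of_le h hayZ hyZ (cen_le_of_pow h2)
  exact e2.trans e1.symm

theorem comm_of_coprime' {r : ℕ} (hr : r.Prime) {a y w : G} (ha : a ∉ Subgroup.center G)
    (hao : ∃ k : ℕ, orderOf a = r ^ k) (hy : y ∈ cen a) (hyo : ¬ r ∣ orderOf y)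
    (hw : w ∈ cen a) : y * w = w * y := by
  rcases comm_of_coprime h hr ha hao hy hyo with h1 | h1
  · exact (Subgroup.mem_center_iff.mp h1 w).symm
  · rw [← h1] at hw
    exact (mem_cen.mp hw).symm

theorem exists_prime_power (x : G) (hx : x ∉ Subgroup.center G) :
    ∃ (r : ℕ) (a : G), r.Prime ∧ a ∉ Subgroup.center G ∧ (∃ k : ℕ, orderOf a = r ^ k) ∧
      orderOf a ∣ orderOf x ∧ cen a = cen x := by
  induction' hn : orderOf x using Nat.strong_induction_on with n ih generalizing x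
  subst hn
  have hx1 : orderOf x ≠ 1 := by
    intro h1
    rw [orderOf_eq_one_iff] at h1
    exact hx (h1 ▸ Subgroup.one_mem _)
  obtain ⟨r, hr, hrx⟩ := Nat.exists_prime_and_dvd hx1
  haveI : Fact r.Prime := ⟨hr⟩
  obtain ⟨u, v, hu, hv, huv, huo, hvo⟩ := exists_decomp' r x
  by_cases hvZ : v ∈ Subgroup.center G
  · have huZ : u ∉ Subgroup.center G := by
      intro huZ
      exact hx (huv ▸ Subgroup.mul_mem _ huZ hvZ)
    exact ⟨r, u, hr, huZ, huo, orderOf_dvd_of_mem_zpowers hu,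
      cen_eq_of_le h hx huZ (cen_le_of_mem_zpowers hu)⟩
  · have hvd : orderOf v ∣ orderOf x := orderOf_dvd_of_mem_zpowers hv
    have hlt : orderOf v < orderOf x := by
      apply lt_of_le_of_ne (Nat.le_of_dvd (orderOf_pos x) hvd)
      intro he
      exact hvo (he ▸ hrx)
    obtain ⟨r', a', hr', ha', hao', had', hac'⟩ := ih _ hlt v hvZ rfl
    exact ⟨r', a', hr', ha', hao', had'.trans hvd,
      hac'.trans (cen_eq_of_le h hx hvZ (cen_le_of_mem_zpowers hv))⟩

theorem pow_mem_center (hns : ¬ Group.IsSolvable G) {r : ℕ} (hr : r.Prime) {a : G}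
    (ha : a ∉ Subgroup.center G) (hao : ∃ k : ℕ, orderOf a = r ^ k) {m : G} (hm : m ∈ cen a) :
    ∃ k : ℕ, m ^ r ^ k ∈ Subgroup.center G := by
  haveI : Fact r.Prime := ⟨hr⟩
  obtain ⟨u, v, hu, hv, huv, ⟨k, hk⟩, hvo⟩ := exists_decomp' r m
  have hzm : Subgroup.zpowers m ≤ cen a := (Subgroup.zpowers_le).mpr hm
  have hvZ : v ∈ Subgroup.center G := by
    by_contra hvZ
    have e1 : cen v = cen a := (comm_of_coprime h hr ha hao (hzm hv) hvo).resolve_left hvZ
    obtain ⟨s, b, hs, hb, ⟨j, hj⟩, hbd, hbc⟩ := exists_prime_power h v hvZ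
    have hsr : s ≠ r := by
      rintro rfl
      apply hvo
      have hj0 : j ≠ 0 := by
        rintro rfl
        rw [pow_zero, orderOf_eq_one_iff] at hj
        exact hb (hj ▸ Subgroup.one_mem _)
      exact ((dvd_pow_self s hj0).trans (hj ▸ dvd_rfl)).trans hbd
    apply hns
    apply herstein_solvable (cen a) (h a ha)
    intro y hy w hw
    obtain ⟨y1, y2, hy1, hy2, hy12, ⟨i, hi⟩, hy2o⟩ := exists_decomp' r y
    have hzy : Subgroup.zpowers y ≤ cen a := (Subgroup.zpowers_le).mpr hy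
    have c2 : y2 * w = w * y2 := comm_of_coprime' h hr ha hao (hzy hy2) hy2o hw
    have hba : cen b = cen a := hbc.trans e1
    have c1 : y1 * w = w * y1 := by
      apply comm_of_coprime' h hs hb ⟨j, hj⟩ (by rw [hba]; exact hzy hy1) _ (by rw [hba]; exact hw)
      rw [hi]
      intro hd
      exact hsr ((Nat.prime_dvd_prime_iff_eq hs hr).mp (hs.dvd_of_dvd_pow hd))
    rw [← hy12]
    calc y1 * y2 * w = y1 * (y2 * w) := by group
      _ = y1 * (w * y2) := by rw [c2]
      _ = (y1 * w) * y2 := by group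
      _ = (w * y1) * y2 := by rw [c1]
      _ = w * (y1 * y2) := by group
  refine ⟨k, ?_⟩
  rw [← huv, (commute_of_mem_zpowers hu hv).mul_pow, ← hk, pow_orderOf_eq_one, one_mul]
  exact Subgroup.pow_mem _ hvZ _

theorem cen_conj (hns : ¬ Group.IsSolvable G) {r : ℕ} (hr : r.Prime) {a a' : G}
    (ha : a ∉ Subgroup.center G) (hao : ∃ k : ℕ, orderOf a = r ^ k)
    (ha' : a' ∉ Subgroup.center G) (hao' : ∃ k : ℕ, orderOf a' = r ^ k) :
    ∃ g : G, cen a' = MulAut.conj g • cen a := by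
  haveI : Fact r.Prime := ⟨hr⟩
  set Z := Subgroup.center G with hZ
  have hsyl : ∀ b : G, b ∉ Z → (∃ k : ℕ, orderOf b = r ^ k) →
      IsSylIn r ((cen b).map (QuotientGroup.mk' Z)) ⊤ := by
    intro b hb hbo
    refine ⟨le_top, ?_, ?_⟩
    · rintro ⟨x, hx⟩
      obtain ⟨m, hm, rfl⟩ := hx
      obtain ⟨k, hk⟩ := pow_mem_center h hns hr hb hbo hm
      refine ⟨k, Subtype.ext ?_⟩
      show (QuotientGroup.mk' Z m) ^ r ^ k = 1
      rw [← map_pow]
      exact (QuotientGroup.eq_one_iff _).mpr hk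
    · intro Q _ hQ hle
      rcases (isCoatom_map Z (cen b) (center_le_cen b) (h b hb)).le_iff.mp hle with h1 | h1
      · exfalso
        apply hns
        apply solvable_of_center_quot
        have h2 : IsPGroup r (G ⧸ Z) := by
          intro x
          obtain ⟨k, hk⟩ := hQ ⟨x, by rw [h1]; trivial⟩
          exact ⟨k, congrArg Subtype.val hk⟩
        haveI : Group.IsNilpotent (G ⧸ Z) := h2.isNilpotent
        infer_instance
      · exact h1
  obtain ⟨mb, -, hmb⟩ := (hsyl a ha hao).conj (hsyl a' ha' hao')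
  obtain ⟨g, rfl⟩ := QuotientGroup.mk'_surjective Z mb
  have hmem : ∀ (b y : G), QuotientGroup.mk' Z y ∈ (cen b).map (QuotientGroup.mk' Z) ↔
      y ∈ cen b := by
    intro b y
    rw [← Subgroup.mem_comap, Subgroup.comap_map_eq, QuotientGroup.ker_mk',
      sup_eq_left.mpr (center_le_cen b)]
  refine ⟨g, ?_⟩
  ext y
  rw [← hmem a' y, ← hmb, mem_conj_smul, mem_conj_smul, ← map_inv, ← map_mul, ← map_mul, hmem]

theorem sq_le_index_center (hns : ¬ Group.IsSolvable G) {r : ℕ} (hr : r.Prime) {a : G}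
    (ha : a ∉ Subgroup.center G) (hao : ∃ k : ℕ, orderOf a = r ^ k) :
    r ^ 2 ≤ (Subgroup.center ↥(cen a)).index := by
  haveI : Fact r.Prime := ⟨hr⟩
  have hp : IsPGroup r (↥(cen a) ⧸ Subgroup.center ↥(cen a)) := by
    intro q
    obtain ⟨m, rfl⟩ := QuotientGroup.mk'_surjective _ q
    obtain ⟨k, hk⟩ := pow_mem_center h hns hr ha hao m.2
    refine ⟨k, ?_⟩
    rw [← map_pow]
    apply (QuotientGroup.eq_one_iff _).mpr
    rw [Subgroup.mem_center_iff]
    intro w
    apply Subtype.ext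
    have := Subgroup.mem_center_iff.mp hk (w : G)
    simpa using this
  obtain ⟨j, hj⟩ := (IsPGroup.iff_card).mp hp
  have hidx : (Subgroup.center ↥(cen a)).index = r ^ j := hj
  have hnab : ¬ (∀ x y : ↥(cen a), x * y = y * x) := by
    intro hab
    apply hns
    apply herstein_solvable (cen a) (h a ha)
    intro x hx y hy
    exact congrArg Subtype.val (hab ⟨x, hx⟩ ⟨y, hy⟩)
  rw [hidx]
  apply Nat.pow_le_pow_right hr.pos
  by_contra hlt
  apply hnab
  have hj1 : j = 0 ∨ j = 1 := by omega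
  haveI : IsCyclic (↥(cen a) ⧸ Subgroup.center ↥(cen a)) := by
    rcases hj1 with rfl | rfl
    · rw [pow_zero] at hj
      haveI : Subsingleton (↥(cen a) ⧸ Subgroup.center ↥(cen a)) :=
        (Nat.card_eq_one_iff_unique.mp hj).1
      infer_instance
    · rw [pow_one] at hj
      exact isCyclic_of_prime_card hj
  exact commutative_of_cyclic_center_quotient (QuotientGroup.mk' (Subgroup.center ↥(cen a)))
    (by rw [QuotientGroup.ker_mk'])

end

theorem sum_inv_sq_le (S : Finset ℕ) (hS : ∀ r ∈ S, 2 ≤ r) :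
    ∑ r ∈ S, (1 : ℚ) / (r : ℚ) ^ 2 ≤ 1 := by
  have key : ∀ N : ℕ, ∑ n ∈ Finset.Icc 2 (N + 1), (1 : ℚ) / (n : ℚ) ^ 2 ≤
      1 - 1 / ((N : ℚ) + 1) := by
    intro N
    induction N with
    | zero => simp
    | succ N ih =>
      rw [Finset.sum_Icc_succ_top (by omega)]
      have h1 : (1 : ℚ) / (((N + 1 + 1 : ℕ) : ℚ)) ^ 2 ≤
          1 / ((N : ℚ) + 1) - 1 / ((N : ℚ) + 1 + 1) := by
        push_cast
        have hN : (0 : ℚ) ≤ N := Nat.cast_nonneg N
        rw [div_sub_div _ _ (by positivity) (by positivity),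
          div_le_div_iff₀ (by positivity) (by positivity)]
        nlinarith
      push_cast at ih h1 ⊢
      linarith
  calc ∑ r ∈ S, (1 : ℚ) / (r : ℚ) ^ 2
      ≤ ∑ n ∈ Finset.Icc 2 (S.sup id + 1), (1 : ℚ) / (n : ℚ) ^ 2 :=
        Finset.sum_le_sum_of_subset_of_nonneg (fun r hr => Finset.mem_Icc.mpr
          ⟨hS r hr, (Finset.le_sup (f := id) hr).trans (Nat.le_succ _)⟩)
          (fun _ _ _ => by positivity)
    _ ≤ 1 - 1 / (((S.sup id : ℕ) : ℚ) + 1) := key _
    _ ≤ 1 := by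
        have : (0 : ℚ) ≤ 1 / (((S.sup id : ℕ) : ℚ) + 1) := by positivity
        linarith

theorem ncard_conj_le [Finite G] (M : Subgroup G) (T : Set G)
    (hT : ∀ w ∈ T, ∀ m ∈ M, m * w = w * m) (Y : Set G)
    (hY : ∀ x ∈ Y, ∃ g : G, g⁻¹ * x * g ∈ T) : Y.ncard ≤ M.index * T.ncard := by
  classical
  let φ : (G ⧸ M) × G → G := fun q => q.1.out * q.2 * (q.1.out)⁻¹
  have hsub : Y ⊆ φ '' (Set.univ ×ˢ T) := by
    intro x hx
    obtain ⟨g, hg⟩ := hY x hx
    obtain ⟨m, hm⟩ := QuotientGroup.mk_out_eq_mul M g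
    refine ⟨((g : G ⧸ M), g⁻¹ * x * g), ⟨Set.mem_univ _, hg⟩, ?_⟩
    show (g : G ⧸ M).out * (g⁻¹ * x * g) * ((g : G ⧸ M).out)⁻¹ = x
    rw [hm]
    have h1 := hT _ hg m m.2
    calc g * m * (g⁻¹ * x * g) * (g * m)⁻¹
        = g * ((m : G) * (g⁻¹ * x * g)) * (m : G)⁻¹ * g⁻¹ := by group
      _ = g * ((g⁻¹ * x * g) * m) * (m : G)⁻¹ * g⁻¹ := by rw [h1]
      _ = x := by group
  calc Y.ncard ≤ (φ '' (Set.univ ×ˢ T)).ncard := Set.ncard_le_ncard hsub (Set.toFinite _)
    _ ≤ (Set.univ ×ˢ T : Set ((G ⧸ M) × G)).ncard := Set.ncard_image_le (Set.toFinite _)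
    _ = M.index * T.ncard := by rw [Set.ncard_prod, Set.ncard_univ]; rfl

theorem solvable [Finite G] (h : ∀ g : G, g ∉ Subgroup.center G → IsCoatom (cen g)) :
    Group.IsSolvable G := by
  classical
  by_contra hns
  set Z := Subgroup.center G with hZ
  haveI : Fintype G := Fintype.ofFinite G
  obtain ⟨x₀, hx₀⟩ : ∃ x₀ : G, x₀ ∉ Z := by
    by_contra hall
    push_neg at hall
    exact hns (Group.isSolvable_of_comm (fun a b => Subgroup.mem_center_iff.mp (hall b) a))
  let P : ℕ → G → Prop := fun r x =>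
    x ∉ Z ∧ ∃ a, a ∉ Z ∧ (∃ k : ℕ, orderOf a = r ^ k) ∧ cen a = cen x
  let X : ℕ → Finset G := fun r => Finset.univ.filter (P r)
  set S := (Nat.card G).primeFactors with hS
  have hcover : ∀ x, x ∉ Z → ∃ r ∈ S, x ∈ X r := by
    intro x hx
    obtain ⟨r, a, hr, ha, ⟨k, hk⟩, -, hac⟩ := exists_prime_power h x hx
    refine ⟨r, ?_, Finset.mem_filter.mpr ⟨Finset.mem_univ _, hx, a, ha, ⟨k, hk⟩, hac⟩⟩
    rw [hS, Nat.mem_primeFactors]
    refine ⟨hr, ?_, Nat.card_pos.ne'⟩
    have hk0 : k ≠ 0 := by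
      rintro rfl
      rw [pow_zero, orderOf_eq_one_iff] at hk
      exact ha (hk ▸ Subgroup.one_mem _)
    exact ((dvd_pow_self r hk0).trans (hk ▸ dvd_rfl)).trans (orderOf_dvd_natCard a)
  have hbound : ∀ r ∈ S, (X r).Nonempty →
      ((X r).card : ℚ) + 2 * (Nat.card Z : ℚ) ≤ (Nat.card G : ℚ) * (1 / (r : ℚ) ^ 2) := by
    intro r hrS hne
    have hr : r.Prime := (Nat.mem_primeFactors.mp hrS).1
    obtain ⟨x₁, hx₁⟩ := hne
    obtain ⟨-, -, a₁, ha₁, hao₁, -⟩ := Finset.mem_filter.mp hx₁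
    set M := cen a₁ with hM
    let W : Subgroup G := (Subgroup.center ↥M).map M.subtype
    let T : Set G := (W : Set G) \ (Z : Set G)
    have hT : ∀ w ∈ T, ∀ m ∈ M, m * w = w * m := by
      rintro w ⟨hw, -⟩ m hm
      obtain ⟨w', hw', rfl⟩ := hw
      have := Subgroup.mem_center_iff.mp hw' ⟨m, hm⟩
      exact congrArg Subtype.val this
    have hY : ∀ x ∈ (↑(X r) : Set G), ∃ g : G, g⁻¹ * x * g ∈ T := by
      intro x hx
      obtain ⟨-, hxZ, a, ha, hao, hac⟩ := Finset.mem_filter.mp (Finset.mem_coe.mp hx)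
      obtain ⟨g, hg⟩ := cen_conj h hns hr ha₁ hao₁ ha hao
      refine ⟨g, ?_, ?_⟩
      · have hxM : g⁻¹ * x * g ∈ M := by
          have h0 : x ∈ MulAut.conj g • M := by rw [← hg, hac]; exact self_mem_cen x
          rwa [mem_conj_smul] at h0
        refine ⟨⟨_, hxM⟩, ?_, rfl⟩
        rw [SetLike.mem_coe, Subgroup.mem_center_iff]
        intro m
        apply Subtype.ext
        show (m : G) * (g⁻¹ * x * g) = (g⁻¹ * x * g) * m
        have h1 : g * m * g⁻¹ ∈ cen x := by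
          rw [← hac, hg, mem_conj_smul]
          have e : g⁻¹ * (g * (m : G) * g⁻¹) * g = m := by group
          rw [e]; exact m.2
        have h2 := mem_cen.mp h1
        calc (m : G) * (g⁻¹ * x * g) = g⁻¹ * ((g * m * g⁻¹) * x) * g := by group
          _ = g⁻¹ * (x * (g * m * g⁻¹)) * g := by rw [h2]
          _ = (g⁻¹ * x * g) * m := by group
      · intro hz
        apply hxZ
        have h3 := (inferInstance : Z.Normal).conj_mem _ hz g
        have e : g * (g⁻¹ * x * g) * g⁻¹ = x := by group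
        rwa [e] at h3
    have h1 := ncard_conj_le M T hT _ hY
    rw [Set.ncard_coe_finset] at h1
    have hZW : (Z : Set G) ⊆ (W : Set G) := by
      intro z hz
      refine ⟨⟨z, center_le_cen a₁ hz⟩, ?_, rfl⟩
      rw [SetLike.mem_coe, Subgroup.mem_center_iff]
      intro m
      apply Subtype.ext
      exact Subgroup.mem_center_iff.mp hz m
    have hTc : T.ncard = Nat.card W - Nat.card Z := by
      show ((W : Set G) \ (Z : Set G)).ncard = _
      rw [Set.ncard_diff hZW (Set.toFinite _)]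
      rfl
    have hWc : Nat.card W = Nat.card (Subgroup.center ↥M) :=
      Subgroup.card_map_of_injective M.subtype_injective
    have hidx := sq_le_index_center h hns hr ha₁ hao₁
    have hc1 := Subgroup.card_mul_index (Subgroup.center ↥M)
    have hc2 := Subgroup.card_mul_index M
    have hM2 : 2 ≤ M.index := by
      have h3 : M.index ≠ 1 := by
        rw [Ne, Subgroup.index_eq_one]; exact (h a₁ ha₁).1
      have h4 : M.index ≠ 0 := Subgroup.index_ne_zero_of_finite
      omega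
    have hZWc : Nat.card Z ≤ Nat.card W := by
      have := Set.ncard_le_ncard hZW (Set.toFinite _)
      exact this
    have hn1 : (X r).card + 2 * Nat.card Z ≤ M.index * Nat.card W := by
      have h5 : M.index * (Nat.card W - Nat.card Z) + M.index * Nat.card Z =
          M.index * Nat.card W := by
        rw [← Nat.mul_add, Nat.sub_add_cancel hZWc]
      rw [hTc] at h1
      have h6 := Nat.mul_le_mul_right (Nat.card Z) hM2
      omega
    have hn2 : M.index * Nat.card W * r ^ 2 ≤ Nat.card G := by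
      rw [← hc2, ← hc1, hWc]
      calc M.index * Nat.card (Subgroup.center ↥M) * r ^ 2
          ≤ M.index * Nat.card (Subgroup.center ↥M) * (Subgroup.center ↥M).index :=
            Nat.mul_le_mul_left _ hidx
        _ = Nat.card (Subgroup.center ↥M) * (Subgroup.center ↥M).index * M.index := by ring
    have hrpos : (0 : ℚ) < (r : ℚ) ^ 2 := by
      have : (0 : ℚ) < r := by exact_mod_cast hr.pos
      positivity
    rw [mul_one_div, le_div_iff₀ hrpos]
    have hn1' : ((X r).card : ℚ) + 2 * (Nat.card Z : ℚ) ≤ (M.index : ℚ) * (Nat.card W : ℚ) := by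
      exact_mod_cast hn1
    have hn2' : (M.index : ℚ) * (Nat.card W : ℚ) * (r : ℚ) ^ 2 ≤ (Nat.card G : ℚ) := by
      exact_mod_cast hn2
    calc (((X r).card : ℚ) + 2 * (Nat.card Z : ℚ)) * (r : ℚ) ^ 2
        ≤ ((M.index : ℚ) * (Nat.card W : ℚ)) * (r : ℚ) ^ 2 :=
          mul_le_mul_of_nonneg_right hn1' hrpos.le
      _ ≤ (Nat.card G : ℚ) := hn2'
  have hb' : ∀ r ∈ S, ((X r).card : ℚ) ≤ (Nat.card G : ℚ) * (1 / (r : ℚ) ^ 2) := by
    intro r hr
    by_cases hne : (X r).Nonempty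
    · have h1 := hbound r hr hne
      have h2 : (0 : ℚ) ≤ 2 * (Nat.card Z : ℚ) := by positivity
      linarith
    · rw [Finset.not_nonempty_iff_eq_empty] at hne
      rw [hne, Finset.card_empty]
      positivity
  have hNC : Nat.card G ≤ ∑ r ∈ S, (X r).card + Nat.card Z := by
    have hsub : Finset.univ.filter (fun x : G => x ∉ Z) ⊆ S.biUnion X := by
      intro x hx
      obtain ⟨r, hr, hxr⟩ := hcover x (Finset.mem_filter.mp hx).2
      exact Finset.mem_biUnion.mpr ⟨r, hr, hxr⟩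
    have h1 := (Finset.card_le_card hsub).trans Finset.card_biUnion_le
    have h2 : (Finset.univ.filter (fun x : G => x ∈ Z)).card +
        (Finset.univ.filter (fun x : G => ¬ x ∈ Z)).card = Fintype.card G :=
      Finset.card_filter_add_card_filter_not _
    have h3 : (Finset.univ.filter (fun x : G => x ∈ Z)).card = Nat.card Z := by
      rw [Nat.card_eq_fintype_card, Fintype.card_subtype]
    rw [Nat.card_eq_fintype_card (α := G)]
    omega
  obtain ⟨r₀, hr₀, hx₀r⟩ := hcover x₀ hx₀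
  have hsum : (∑ r ∈ S, ((X r).card : ℚ)) + 2 * (Nat.card Z : ℚ) ≤ (Nat.card G : ℚ) := by
    have h1 := hbound r₀ hr₀ ⟨x₀, hx₀r⟩
    have h2 : ∑ r ∈ S.erase r₀, ((X r).card : ℚ) ≤
        ∑ r ∈ S.erase r₀, (Nat.card G : ℚ) * (1 / (r : ℚ) ^ 2) :=
      Finset.sum_le_sum (fun r hr => hb' r (Finset.mem_of_mem_erase hr))
    have h3 := Finset.add_sum_erase S (fun r => ((X r).card : ℚ)) hr₀
    have h4 := Finset.add_sum_erase S (fun r => (Nat.card G : ℚ) * (1 / (r : ℚ) ^ 2)) hr₀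
    have h5 : ∑ r ∈ S, (Nat.card G : ℚ) * (1 / (r : ℚ) ^ 2) ≤ (Nat.card G : ℚ) := by
      rw [← Finset.mul_sum]
      have h6 := sum_inv_sq_le S (fun r hr => (Nat.mem_primeFactors.mp hr).1.two_le)
      have h7 : (0 : ℚ) ≤ (Nat.card G : ℚ) := by positivity
      nlinarith
    linarith
  have hNC' : (Nat.card G : ℚ) ≤ (∑ r ∈ S, ((X r).card : ℚ)) + (Nat.card Z : ℚ) := by
    exact_mod_cast hNC
  have hZpos : (0 : ℚ) < (Nat.card Z : ℚ) := by
    exact_mod_cast (Nat.card_pos : 0 < Nat.card Z)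
  linarith

end Cfsg.Agent.Lib.Helper7_CentMax
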