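import Mathlib
import Cfsg.Agent.Lib.Helper1_SZ
import Cfsg.Agent.Lib.Helper9_FratGroup

set_option autoImplicit false

namespace Cfsg.Agent.Lib.Helper7_FratNPC

open Subgroup Cfsg.Agent.Lib.Helper1_SZ Cfsg.Agent.Lib.Helper9_FratGroup
open scoped Pointwise

variable {Γ : Type*} [Group Γ] [Finite Γ] {p : ℕ} [Fact p.Prime]

/-- `Q ⊴ Γ` inside a Sylow `p`-subgroup `P`, non-generating in `P`, with `N(P)` acting trivially
on `P/Q`: then `Γ` has a normal `p`-complement. -/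
theorem npc_of_frattini (P : Sylow p Γ) (Q : Subgroup Γ) [hQn : Q.Normal]
    (hQP : Q ≤ P)
    (hNc : ∀ g ∈ normalizer ((P : Subgroup Γ) : Set Γ), ∀ y ∈ P, y * g * y⁻¹ * g⁻¹ ∈ Q)
    (hfrat : ∀ Y : Subgroup Γ, (∀ s ∈ P, ∃ x ∈ Q, x⁻¹ * s ∈ Y) → (P : Subgroup Γ) ≤ Y) :
    ∃ H : Subgroup Γ, H.Normal ∧ (Nat.card H).Coprime p ∧ ∃ k : ℕ, H.index = p ^ k := by
  obtain ⟨f, hfdef⟩ : ∃ f : Γ →* Γ ⧸ Q, f = QuotientGroup.mk' Q := ⟨_, rfl⟩
  have hf : Function.Surjective f := hfdef ▸ QuotientGroup.mk'_surjective Q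
  have hker : f.ker = Q := hfdef ▸ QuotientGroup.ker_mk' Q
  obtain ⟨Pb, hPb⟩ : ∃ Pb : Sylow p (Γ ⧸ Q), (Pb : Subgroup (Γ ⧸ Q)) = (P : Subgroup Γ).map f :=
    ⟨P.mapSurjective hf, Sylow.coe_mapSurjective hf P⟩
  have hcomap : ((P : Subgroup Γ).map f).comap f = P := by
    rw [comap_map_eq, hker, sup_eq_left.2 hQP]
  have hmem : ∀ x : Γ, f x ∈ (P : Subgroup Γ).map f ↔ x ∈ (P : Subgroup Γ) := by
    intro x
    rw [← mem_comap, hcomap]
  have hNC : normalizer ((Pb : Subgroup (Γ ⧸ Q)) : Set (Γ ⧸ Q)) ≤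
      centralizer ((Pb : Subgroup (Γ ⧸ Q)) : Set (Γ ⧸ Q)) := by
    intro g hg
    obtain ⟨g, rfl⟩ := hf g
    have hgN : g ∈ normalizer ((P : Subgroup Γ) : Set Γ) := by
      rw [mem_normalizer_iff]
      intro x
      have h1 := (mem_normalizer_iff.1 hg) (f x)
      rw [hPb, ← map_inv, ← map_mul, ← map_mul, hmem, hmem] at h1
      exact h1
    refine mem_centralizer_iff.2 ?_
    intro y hy
    have hy' : y ∈ (Pb : Subgroup (Γ ⧸ Q)) := hy
    rw [hPb] at hy'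
    obtain ⟨y, hyP, rfl⟩ := hy'
    have h1 := hNc g hgN y hyP
    rw [← hker, MonoidHom.mem_ker, map_mul, map_mul, map_mul, map_inv, map_inv] at h1
    calc f y * f g = (f y * f g * (f y)⁻¹ * (f g)⁻¹) * (f g * f y) := by group
      _ = f g * f y := by rw [h1, one_mul]
  have hK := MonoidHom.ker_transferSylow_isComplement' Pb hNC
  have hKcop : ¬ p ∣ Nat.card (MonoidHom.transferSylow Pb hNC).ker :=
    MonoidHom.not_dvd_card_ker_transferSylow Pb hNC
  obtain ⟨Kb, hKb⟩ : ∃ Kb : Subgroup (Γ ⧸ Q), Kb = (MonoidHom.transferSylow Pb hNC).ker :=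
    ⟨_, rfl⟩
  have hKbn : Kb.Normal := hKb ▸ MonoidHom.normal_ker _
  rw [← hKb] at hK hKcop
  obtain ⟨L, hL⟩ : ∃ L : Subgroup Γ, L = Kb.comap f := ⟨_, rfl⟩
  have hLn : L.Normal := hL ▸ hKbn.comap f
  have hQL : Q ≤ L := by
    rw [hL]
    intro x hx
    have h1 : f x = 1 := by rw [← MonoidHom.mem_ker, hker]; exact hx
    rw [mem_comap, h1]
    exact Kb.one_mem
  have hcardL : Nat.card L = Nat.card Kb * Nat.card Q := by
    rw [hL, hfdef]
    exact card_comap_mk' Q Kb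
  have hrel : Q.relIndex L = Nat.card Kb := by
    have h1 := card_mul_relIndex hQL
    rw [hcardL, mul_comm] at h1
    exact Nat.eq_of_mul_eq_mul_right Nat.card_pos h1
  have hQp : IsPGroup p Q := P.2.to_le hQP
  have hcopp : ∀ X : Subgroup Γ, IsPGroup p X → (Nat.card X).Coprime (Nat.card Kb) := by
    intro X hX
    obtain ⟨k, hk⟩ := (IsPGroup.iff_card).1 hX
    rw [hk]
    exact Nat.Coprime.pow_left _ ((Nat.Prime.coprime_iff_not_dvd Fact.out).2 hKcop)
  have hnorm : L ≤ normalizer (Q : Set Γ) := by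
    rw [normalizer_eq_top]
    exact le_top
  have hcop : (Nat.card Q).Coprime (Q.relIndex L) := by
    rw [hrel]
    exact hcopp Q hQp
  obtain ⟨H, hHL, hHcard⟩ := SZ_rel_exists hQL hnorm hcop
  have hsolv : Group.IsSolvable Q := by
    have := hQp.isNilpotent
    infer_instance
  have hfr : ∀ g : Γ, ∃ x ∈ Q, x⁻¹ * g ∈ normalizer (H : Set Γ) := by
    intro g
    have h1 : MulAut.conj g • H ≤ L := by
      rintro _ ⟨h, hh, rfl⟩
      exact hLn.conj_mem h (hHL hh) g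
    have h2 : Nat.card (MulAut.conj g • H : Subgroup Γ) = Q.relIndex L := by
      rw [← hHcard]
      exact (Nat.card_congr (Subgroup.equivSMul (MulAut.conj g) H).toEquiv).symm
    obtain ⟨x, hx, hxe⟩ := SZ_rel_conj hQL hnorm hcop (Or.inl hsolv) hHL h1 hHcard h2
    refine ⟨x, hx, mem_normalizer_of_smul_eq ?_⟩
    rw [map_mul, mul_smul, ← hxe, ← mul_smul, ← map_mul, inv_mul_cancel, map_one, one_smul]
  have hPN : (P : Subgroup Γ) ≤ normalizer (H : Set Γ) := hfrat _ (fun s _ => hfr s)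
  have hHn : H.Normal := by
    rw [← normalizer_eq_top_iff, eq_top_iff]
    intro g _
    obtain ⟨x, hx, hxs⟩ := hfr g
    have e : g = x * (x⁻¹ * g) := by group
    rw [e]
    exact Subgroup.mul_mem _ (hPN (hQP hx)) hxs
  refine ⟨H, hHn, ?_, ?_⟩
  · rw [hHcard, hrel, Nat.coprime_comm]
    exact (Nat.Prime.coprime_iff_not_dvd Fact.out).2 hKcop
  · obtain ⟨a, ha⟩ := (IsPGroup.iff_card).1 hQp
    obtain ⟨b, hb⟩ := (IsPGroup.iff_card).1 Pb.isPGroup'
    refine ⟨a + b, ?_⟩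
    have h1 := H.card_mul_index
    have h2 := Subgroup.card_eq_card_quotient_mul_card_subgroup Q
    have h3 := hK.card_mul
    rw [hHcard, hrel, h2, ← h3, ha, hb] at h1
    have h4 : Nat.card Kb * H.index = Nat.card Kb * (p ^ a * p ^ b) := by
      rw [h1]; ring
    rw [pow_add]
    exact Nat.eq_of_mul_eq_mul_left Nat.card_pos h4

end Cfsg.Agent.Lib.Helper7_FratNPC
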