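import Mathlib

set_option autoImplicit false

namespace Cfsg.Agent.Lib.Helper7_InvSyl

open scoped Pointwise

variable {X : Type*} [Group X]

/-- an involution normalizes some Sylow `q`-subgroup of a normal subgroup of odd order. -/
theorem exists_invariant_sylow [Finite X] (N : Subgroup X) [hN : N.Normal] (hodd : Odd (Nat.card N))
    {d : X} (hd : d * d = 1) (q : ℕ) [Fact q.Prime] :
    ∃ Q : Sylow q N, ∀ y : N, y ∈ Q → (⟨d * y * d⁻¹, hN.conj_mem _ y.2 d⟩ : N) ∈ Q := by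
  haveI : Fact (Nat.Prime 2) := ⟨Nat.prime_two⟩
  set φ : MulAut N := MulAut.conjNormal d with hφ
  have hφ2 : φ * φ = 1 := by rw [hφ, ← map_mul, hd, map_one]
  have hA : IsPGroup 2 (Subgroup.zpowers φ) := by
    intro a
    refine ⟨1, ?_⟩
    obtain ⟨j, hj⟩ := Subgroup.mem_zpowers_iff.mp a.2
    apply Subtype.ext
    simp only [pow_one, Subgroup.coe_pow, Subgroup.coe_one]
    rw [← hj, ← zpow_natCast, ← zpow_mul, mul_comm, zpow_mul, zpow_natCast, pow_two, hφ2, one_zpow]
  have hcard : ¬ 2 ∣ Nat.card (Sylow q N) := by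
    intro h
    obtain ⟨Q0⟩ : Nonempty (Sylow q N) := inferInstance
    have h1 := h.trans (Q0.card_dvd_index.trans (Subgroup.index_dvd_card _))
    exact (Nat.not_even_iff_odd.mpr hodd) (even_iff_two_dvd.mpr h1)
  obtain ⟨Q, hQ⟩ := hA.nonempty_fixed_point_of_prime_not_dvd_card (Sylow q N) hcard
  refine ⟨Q, ?_⟩
  intro y hy
  have h1 : φ • Q = Q := hQ ⟨φ, Subgroup.mem_zpowers φ⟩
  have h2 : φ y ∈ ((φ • Q : Sylow q N) : Subgroup N) := by
    rw [Sylow.pointwise_smul_def]
    exact Subgroup.smul_mem_pointwise_smul y φ _ hy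
  rw [h1] at h2
  exact h2

end Cfsg.Agent.Lib.Helper7_InvSyl
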