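import Mathlib
import Cfsg.Agent.Lib.Helper7_ZStar2

set_option autoImplicit false

namespace Cfsg.Agent.Lib.Helper7_QR

open Cfsg

universe u

variable {G : Type u} [Group G]

theorem mem_sup_comm {Q R : Subgroup G} (hc : ∀ a ∈ Q, ∀ b ∈ R, a * b = b * a) {s : G}
    (hs : s ∈ Q ⊔ R) : ∃ q ∈ Q, ∃ r ∈ R, s = q * r := by
  rw [Subgroup.sup_eq_closure] at hs
  induction hs using Subgroup.closure_induction with
  | mem x hx =>
    rcases hx with hx | hx
    · exact ⟨x, hx, 1, R.one_mem, (mul_one x).symm⟩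
    · exact ⟨1, Q.one_mem, x, hx, (one_mul x).symm⟩
  | one => exact ⟨1, Q.one_mem, 1, R.one_mem, (mul_one 1).symm⟩
  | mul x y _ _ hx hy =>
    obtain ⟨q, hq, r, hr, rfl⟩ := hx
    obtain ⟨q', hq', r', hr', rfl⟩ := hy
    refine ⟨q * q', Q.mul_mem hq hq', r * r', R.mul_mem hr hr', ?_⟩
    calc q * r * (q' * r') = q * (r * q') * r' := by group
      _ = q * (q' * r) * r' := by rw [hc q' hq' r hr]
      _ = q * q' * (r * r') := by group
  | inv x _ hx =>
    obtain ⟨q, hq, r, hr, rfl⟩ := hx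
    refine ⟨q⁻¹, Q.inv_mem hq, r⁻¹, R.inv_mem hr, ?_⟩
    rw [hc q hq r hr, mul_inv_rev]


theorem orderOf_conj' (g y : G) : orderOf (g * y * g⁻¹) = orderOf y := by
  have : g * y * g⁻¹ = MulAut.conj g y := by simp
  rw [this, MulEquiv.orderOf_eq]

theorem sq_one_cases {y : G} (h : y * y = 1) : y = 1 ∨ orderOf y = 2 := by
  by_cases h1 : y = 1
  · exact Or.inl h1
  · exact Or.inr (orderOf_eq_prime (by rw [pow_two, h]) h1)

section
variable (S : Subgroup G) (Q R : Subgroup G)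
    (hc : ∀ a ∈ Q, ∀ b ∈ R, a * b = b * a) (hdisj : Q ⊓ R = ⊥)
    (hsup : Q ⊔ R = S) (z : G) (hzQ : z ∈ Q) (hz : orderOf z = 2)
    (huniq : ∀ y ∈ Q, orderOf y = 2 → y = z)
    (hR : ∀ r ∈ R, orderOf r = 2 → ∀ s ∈ R, r * s = s * r)

include hc hdisj hsup hzQ hz huniq hR in
theorem invol_central (y : G) (hy : y ∈ S) (hyo : orderOf y = 2) (s : G) (hs : s ∈ S) :
    y * s = s * y := by
  have hzc : ∀ q ∈ Q, Commute z q := by
    intro q hq
    have h1 := huniq (q * z * q⁻¹) (Q.mul_mem (Q.mul_mem hq hzQ) (Q.inv_mem hq))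
      (by rw [orderOf_conj', hz])
    exact (mul_inv_eq_iff_eq_mul.mp h1).symm
  obtain ⟨q, hq, r, hr, rfl⟩ := mem_sup_comm hc (hsup ▸ hy)
  obtain ⟨q', hq', r', hr', rfl⟩ := mem_sup_comm hc (hsup ▸ hs)
  have h1 : (q * r) * (q * r) = 1 := by rw [← pow_two, ← hyo, pow_orderOf_eq_one]
  have h2 : (q * q) * (r * r) = 1 := by
    calc (q * q) * (r * r) = q * (q * r) * r := by group
      _ = q * (r * q) * r := by rw [hc q hq r hr]
      _ = (q * r) * (q * r) := by group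
      _ = 1 := h1
  have h3 : q * q ∈ Q ⊓ R := by
    refine ⟨Q.mul_mem hq hq, ?_⟩
    rw [mul_eq_one_iff_eq_inv.mp h2]
    exact R.inv_mem (R.mul_mem hr hr)
  rw [hdisj, Subgroup.mem_bot] at h3
  have h4 : r * r = 1 := by rw [h3, one_mul] at h2; exact h2
  have c1 : Commute q q' := by
    rcases sq_one_cases h3 with h | h
    · rw [h]; exact Commute.one_left _
    · rw [huniq q hq h]; exact hzc q' hq'
  have c2 : Commute r r' := by
    rcases sq_one_cases h4 with h | h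
    · rw [h]; exact Commute.one_left _
    · exact hR r hr h r' hr'
  have c3 : Commute q r' := hc q hq r' hr'
  have c4 : Commute r q' := (hc q' hq' r hr).symm
  exact (c1.mul_right c3).mul_left (c4.mul_right c2)

include hc hsup hzQ hz huniq in
/-- a conjugate of `z` under the normalizer of `S` is `z` or lies in `R`. -/
theorem conj_cases (x q0 : G) (hxQ : x ∈ Q)
    (hx : ∀ q ∈ Q, q * x * q⁻¹ = x ∨ q * x * q⁻¹ = x * z) (hq0 : q0 ∈ Q)
    (hq0x : q0 * x * q0⁻¹ = x * z) (n : G) (hn : n ∈ Subgroup.normalizer (S : Set G)) :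
    n * z * n⁻¹ = z ∨ n * z * n⁻¹ ∈ R := by
  have hQS : Q ≤ S := hsup ▸ le_sup_left
  have hRS : R ≤ S := hsup ▸ le_sup_right
  have hn' : ∀ h, h ∈ S ↔ n * h * n⁻¹ ∈ S := fun h => Subgroup.mem_normalizer_iff.mp hn h
  set c := n * z * n⁻¹ with hcdef
  have hco : orderOf c = 2 := by rw [hcdef, orderOf_conj', hz]
  obtain ⟨a, ha, b, hb, hab⟩ := mem_sup_comm hc (hsup ▸ ((hn' x).mp (hQS hxQ)))
  -- conjugates of x' = n x n⁻¹ under S
  have key : ∀ s ∈ S, s * (a * b) * s⁻¹ = a * b ∨ s * (a * b) * s⁻¹ = a * b * c := by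
    intro s hs
    have hs0 : n⁻¹ * s * n ∈ S := by
      rw [hn']
      have : n * (n⁻¹ * s * n) * n⁻¹ = s := by group
      rw [this]; exact hs
    obtain ⟨q1, hq1, r1, hr1, e1⟩ := mem_sup_comm hc (hsup ▸ hs0)
    have e2 : (n⁻¹ * s * n) * x * (n⁻¹ * s * n)⁻¹ = q1 * x * q1⁻¹ := by
      rw [e1]
      calc q1 * r1 * x * (q1 * r1)⁻¹ = q1 * (r1 * x) * r1⁻¹ * q1⁻¹ := by group
        _ = q1 * (x * r1) * r1⁻¹ * q1⁻¹ := by rw [hc x hxQ r1 hr1]
        _ = q1 * x * q1⁻¹ := by group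
    have e3 : s * (a * b) * s⁻¹ = n * ((n⁻¹ * s * n) * x * (n⁻¹ * s * n)⁻¹) * n⁻¹ := by
      rw [← hab]; group
    rw [e3, e2, ← hab]
    rcases hx q1 hq1 with h | h
    · left; rw [h]
    · right; rw [h, hcdef]; group
  by_cases hcen : ∀ q ∈ Q, q * a * q⁻¹ = a
  · right
    have hs1 : n * q0 * n⁻¹ ∈ S := (hn' q0).mp (hQS hq0)
    obtain ⟨q1, hq1, r1, hr1, e1⟩ := mem_sup_comm hc (hsup ▸ hs1)
    have e2 : (n * q0 * n⁻¹) * (a * b) * (n * q0 * n⁻¹)⁻¹ = a * b * c := by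
      rw [← hab, hcdef]
      calc n * q0 * n⁻¹ * (n * x * n⁻¹) * (n * q0 * n⁻¹)⁻¹ = n * (q0 * x * q0⁻¹) * n⁻¹ := by group
        _ = n * (x * z) * n⁻¹ := by rw [hq0x]
        _ = n * x * n⁻¹ * (n * z * n⁻¹) := by group
    have e3 : (q1 * r1) * (a * b) * (q1 * r1)⁻¹ = a * (r1 * b * r1⁻¹) := by
      calc (q1 * r1) * (a * b) * (q1 * r1)⁻¹ = q1 * (r1 * a) * b * r1⁻¹ * q1⁻¹ := by group
        _ = q1 * (a * r1) * b * r1⁻¹ * q1⁻¹ := by rw [hc a ha r1 hr1]
        _ = q1 * a * ((r1 * b * r1⁻¹) * q1⁻¹) := by group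
        _ = q1 * a * (q1⁻¹ * (r1 * b * r1⁻¹)) := by
            rw [hc q1⁻¹ (Q.inv_mem hq1) _ (R.mul_mem (R.mul_mem hr1 hb) (R.inv_mem hr1))]
        _ = (q1 * a * q1⁻¹) * (r1 * b * r1⁻¹) := by group
        _ = a * (r1 * b * r1⁻¹) := by rw [hcen q1 hq1]
    rw [e1, e3, mul_assoc a b c] at e2
    have e4 : r1 * b * r1⁻¹ = b * c := mul_left_cancel e2
    have e5 : c = b⁻¹ * (r1 * b * r1⁻¹) := by rw [e4]; group
    rw [e5]
    exact R.mul_mem (R.inv_mem hb) (R.mul_mem (R.mul_mem hr1 hb) (R.inv_mem hr1))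
  · left
    push Not at hcen
    obtain ⟨q, hq, hqa⟩ := hcen
    have e1 : q * (a * b) * q⁻¹ = (q * a * q⁻¹) * b := by
      calc q * (a * b) * q⁻¹ = q * a * (b * q⁻¹) := by group
        _ = q * a * (q⁻¹ * b) := by rw [hc q⁻¹ (Q.inv_mem hq) b hb]
        _ = (q * a * q⁻¹) * b := by group
    rcases key q (hQS hq) with h | h
    · exfalso
      rw [e1] at h
      exact hqa (mul_right_cancel h)
    · rw [e1] at h
      have e2 : c = b⁻¹ * (a⁻¹ * (q * a * q⁻¹)) * b := by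
        have : a * b * c = (q * a * q⁻¹) * b := h.symm
        calc c = b⁻¹ * a⁻¹ * (a * b * c) := by group
          _ = b⁻¹ * a⁻¹ * ((q * a * q⁻¹) * b) := by rw [this]
          _ = b⁻¹ * (a⁻¹ * (q * a * q⁻¹)) * b := by group
      have hm : a⁻¹ * (q * a * q⁻¹) ∈ Q :=
        Q.mul_mem (Q.inv_mem ha) (Q.mul_mem (Q.mul_mem hq ha) (Q.inv_mem hq))
      have e3 : c = a⁻¹ * (q * a * q⁻¹) := by
        rw [e2, mul_assoc, hc _ hm b hb, inv_mul_cancel_left]
      apply huniq c _ hco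
      rw [e3]; exact hm

end


/-- product over the orbit of `z` under the normalizer of `S`. -/
theorem orbit_prod [Finite G] (S R : Subgroup G) (z : G) (hz : orderOf z = 2) (hzR : z ∉ R)
    (hcen : ∀ n ∈ Subgroup.normalizer (S : Set G),
      n * z * n⁻¹ ∈ S ⊓ Subgroup.centralizer (S : Set G))
    (hcase : ∀ n ∈ Subgroup.normalizer (S : Set G), n * z * n⁻¹ = z ∨ n * z * n⁻¹ ∈ R) :
    ∃ t : G, orderOf t = 2 ∧ t ∈ S ⊓ Subgroup.centralizer (S : Set G) ∧
      ∀ n ∈ Subgroup.normalizer (S : Set G), n * t * n⁻¹ = t := by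
  classical
  set ZS : Subgroup G := S ⊓ Subgroup.centralizer (S : Set G) with hZS
  letI : CommGroup ZS := { (inferInstance : Group ZS) with
    mul_comm := fun a b => Subtype.ext ((Subgroup.mem_centralizer_iff.mp b.2.2) a a.2.1) }
  haveI : Fintype ZS := Fintype.ofFinite _
  have hnZ : ∀ n ∈ Subgroup.normalizer (S : Set G), ∀ c ∈ ZS, n * c * n⁻¹ ∈ ZS := by
    intro n hn c hc
    have hn' : ∀ h, h ∈ S ↔ n * h * n⁻¹ ∈ S := fun h => Subgroup.mem_normalizer_iff.mp hn h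
    refine Subgroup.mem_inf.mpr ⟨(hn' c).mp hc.1, ?_⟩
    rw [Subgroup.mem_centralizer_iff]
    intro h hh
    have h0 : n⁻¹ * h * n ∈ S := by
      rw [hn']
      have : n * (n⁻¹ * h * n) * n⁻¹ = h := by group
      rw [this]; exact hh
    have h1 := (Subgroup.mem_centralizer_iff.mp hc.2) _ h0
    calc h * (n * c * n⁻¹) = n * ((n⁻¹ * h * n) * c) * n⁻¹ := by group
      _ = n * (c * (n⁻¹ * h * n)) * n⁻¹ := by rw [h1]
      _ = n * c * n⁻¹ * h := by group
  set F : Finset ZS := Finset.univ.filter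
    (fun c => ∃ n ∈ Subgroup.normalizer (S : Set G), (c : G) = n * z * n⁻¹) with hF
  have hzZ : z ∈ ZS := by
    have := hcen 1 (Subgroup.one_mem _)
    simpa using this
  set z' : ZS := ⟨z, hzZ⟩ with hz'
  have hzF : z' ∈ F := by
    rw [hF, Finset.mem_filter]
    exact ⟨Finset.mem_univ _, 1, Subgroup.one_mem _, by simp [hz']⟩
  set t : ZS := ∏ c ∈ F, c with ht
  have ht2 : t * t = 1 := by
    rw [ht, ← Finset.prod_mul_distrib]
    apply Finset.prod_eq_one
    intro c hc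
    rw [hF, Finset.mem_filter] at hc
    obtain ⟨-, n, -, e⟩ := hc
    apply Subtype.ext
    show (c : G) * (c : G) = 1
    rw [e]
    have : z * z = 1 := by rw [← pow_two, ← hz, pow_orderOf_eq_one]
    calc n * z * n⁻¹ * (n * z * n⁻¹) = n * (z * z) * n⁻¹ := by group
      _ = 1 := by rw [this]; group
  have hrest : ((∏ c ∈ F.erase z', c : ZS) : G) ∈ R := by
    have : (∏ c ∈ F.erase z', c : ZS) ∈ R.subgroupOf ZS := by
      apply Subgroup.prod_mem
      intro c hc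
      rw [Finset.mem_erase, hF, Finset.mem_filter] at hc
      obtain ⟨hne, -, n, hn, e⟩ := hc
      rw [Subgroup.mem_subgroupOf, e]
      rcases hcase n hn with h | h
      · exfalso; apply hne; apply Subtype.ext; rw [e, h]
      · exact h
    exact Subgroup.mem_subgroupOf.mp this
  have ht1 : t ≠ 1 := by
    intro h
    rw [ht, ← Finset.mul_prod_erase F (fun c => c) hzF] at h
    have h1 : z * ((∏ c ∈ F.erase z', c : ZS) : G) = 1 := congrArg Subtype.val h
    apply hzR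
    rw [mul_eq_one_iff_eq_inv.mp h1]
    exact R.inv_mem hrest
  refine ⟨(t : G), ?_, t.2, ?_⟩
  · rw [Subgroup.orderOf_coe]
    exact orderOf_eq_prime (by rw [pow_two, ht2]) ht1
  · intro n hn
    have hninv : n⁻¹ ∈ Subgroup.normalizer (S : Set G) := Subgroup.inv_mem _ hn
    let e : ZS ≃* ZS :=
      { toFun := fun c => ⟨n * c * n⁻¹, hnZ n hn c c.2⟩
        invFun := fun c => ⟨n⁻¹ * c * n, by
          have := hnZ n⁻¹ hninv c c.2
          rwa [inv_inv] at this⟩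
        left_inv := fun c => Subtype.ext (by show n⁻¹ * (n * (c : G) * n⁻¹) * n = c; group)
        right_inv := fun c => Subtype.ext (by show n * (n⁻¹ * (c : G) * n) * n⁻¹ = c; group)
        map_mul' := fun c d => Subtype.ext (by
          show n * ((c : G) * d) * n⁻¹ = (n * c * n⁻¹) * (n * d * n⁻¹); group) }
    have h1 : e t = t := by
      rw [ht, map_prod]
      apply Finset.prod_equiv e.toEquiv
      · intro c
        rw [hF, Finset.mem_filter, Finset.mem_filter]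
        constructor
        · rintro ⟨-, k, hk, ek⟩
          refine ⟨Finset.mem_univ _, n * k, Subgroup.mul_mem _ hn hk, ?_⟩
          show n * (c : G) * n⁻¹ = _
          rw [ek]; group
        · rintro ⟨-, k, hk, ek⟩
          refine ⟨Finset.mem_univ _, n⁻¹ * k, Subgroup.mul_mem _ hninv hk, ?_⟩
          have ek' : n * (c : G) * n⁻¹ = k * z * k⁻¹ := ek
          calc (c : G) = n⁻¹ * (n * (c : G) * n⁻¹) * n := by group
            _ = n⁻¹ * (k * z * k⁻¹) * n := by rw [ek']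
            _ = n⁻¹ * k * z * (n⁻¹ * k)⁻¹ := by group
      · intro c _
        rfl
    exact congrArg Subtype.val h1

end Cfsg.Agent.Lib.Helper7_QR
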