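import Mathlib
import Cfsg.Prelude.Def_FusionSystem
import Cfsg.Prelude.Def_FusionComponents
import Cfsg.Agent.Lib.Helper9_Constrained
import Cfsg.Agent.Lib.Helper9_GroupNormal

set_option autoImplicit false

namespace Cfsg.Agent.Lib.Helper9_Constrained2

open Cfsg Cfsg.FusionSystem Cfsg.Agent.Lib.Helper9_FusionBasic Cfsg.Agent.Lib.Helper9_FusionSat
  Cfsg.Agent.Lib.Helper9_FusionNormal Cfsg.Agent.Lib.Helper9_AlperinCor
  Cfsg.Agent.Lib.Helper9_Chain3 Cfsg.Agent.Lib.Helper9_Solvable Cfsg.Agent.Lib.Helper9_Sub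
  Cfsg.Agent.Lib.Helper9_Constrained Cfsg.Agent.Lib.Helper9_Factor3 Cfsg.Agent.Lib.Helper9_Image
  Cfsg.Agent.Lib.Helper9_FusionGroup Cfsg.Agent.Lib.Helper9_SubSat
  Cfsg.Agent.Lib.Helper9_HyperGroup Cfsg.Agent.Lib.Helper9_GroupNormal
  Cfsg.Agent.Lib.Helper4_Syl

open scoped Pointwise

section iso

variable {Ω : Type*} [Group Ω] {S : Subgroup Ω} {Ω' : Type*} [Group Ω'] {S' : Subgroup Ω'}

/-- normal subgroups pull back along isomorphisms of fusion systems -/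
theorem preimage_isNormal {F : FusionSystem S} {F' : FusionSystem S'} {α : S →* Ω'}
    (hα : F.IsSurjectiveMorphism F' α) (hinj : Function.Injective α) {Q' : Subgroup Ω'}
    (hQ' : F'.IsNormal Q') : F.IsNormal (preimageAlong α Q') := by
  apply isNormal_of F (preimageAlong_le α Q')
  intro P φ hφ
  obtain ⟨φ', hφ', hP, hφS, hP', hind⟩ := hα.1.2 P φ hφ
  obtain ⟨ψ', hψ', a1, a2, a3⟩ := isNormal_extend hQ' hφ'
  have hle' : imageAlong α P ⊔ Q' ≤ S' := le_of_hom F' hψ'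
  obtain ⟨ψ, hψ, hR, hψS, hR', hind2⟩ := hα.2.2 _ hle' ψ' hψ'
  have hPle : P ≤ preimageAlong α (imageAlong α P ⊔ Q') := by
    intro x hx
    exact (mem_preimageAlong α _ x).2 ⟨hP hx, Subgroup.mem_sup_left ⟨⟨x, hP hx⟩, hx, rfl⟩⟩
  have hQle : preimageAlong α Q' ≤ preimageAlong α (imageAlong α P ⊔ Q') := by
    intro x hx
    obtain ⟨hxS, h1⟩ := (mem_preimageAlong α _ x).1 hx
    exact (mem_preimageAlong α _ x).2 ⟨hxS, Subgroup.mem_sup_right h1⟩
  refine ⟨_, hPle, hQle, ψ, hψ, fun x => ?_, fun x => ?_, fun y hy => ?_⟩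
  · have h1 := hind2 (Subgroup.inclusion hPle x)
    have h2 := hind x
    have h3 := a1 ⟨α ⟨x, hP x.2⟩, hP' x⟩
    have h4 : α ⟨ψ (Subgroup.inclusion hPle x), hψS _⟩ = α ⟨φ x, hφS x⟩ := by
      rw [← h1, ← h2, ← h3]
      rfl
    exact congrArg (fun t : S => (t : Ω)) (hinj h4)
  · have h1 := hind2 (Subgroup.inclusion hQle x)
    obtain ⟨hxS, hx'⟩ := (mem_preimageAlong α _ _).1 x.2
    have h2 := a2 ⟨α ⟨x, hxS⟩, hx'⟩
    refine (mem_preimageAlong α _ _).2 ⟨hψS _, ?_⟩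
    rw [← h1]
    exact h2
  · obtain ⟨hyS, hy'⟩ := (mem_preimageAlong α _ _).1 hy
    obtain ⟨q', hq'⟩ := a3 _ hy'
    have hq'r : (q' : Ω') ∈ α.range := hα.2.1 ▸ hQ'.1 q'.2
    obtain ⟨q, hq⟩ := hq'r
    have hqm : (q : Ω) ∈ preimageAlong α Q' :=
      (mem_preimageAlong α _ _).2 ⟨q.2, by rw [show (⟨(q : Ω), q.2⟩ : S) = q from rfl, hq]; exact q'.2⟩
    refine ⟨⟨q, hqm⟩, ?_⟩
    have h1 := hind2 (Subgroup.inclusion hQle ⟨q, hqm⟩)
    have h4 : α ⟨ψ (Subgroup.inclusion hQle ⟨q, hqm⟩), hψS _⟩ = α ⟨y, hyS⟩ := by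
      rw [← h1, ← hq']
      congr 1
      exact Subtype.ext hq
    exact congrArg (fun t : S => (t : Ω)) (hinj h4)

theorem constrained_of_iso [Finite S] {p : ℕ} {F : FusionSystem S} {F' : FusionSystem S'}
    {α : S →* Ω'} (hα : F.IsSurjectiveMorphism F' α) (hinj : Function.Injective α)
    (hF : F.IsSaturated p) (hF' : F'.IsConstrained p) : F.IsConstrained p := by
  obtain ⟨-, Q', hQ', hQc'⟩ := hF'
  have hnor := preimage_isNormal hα hinj hQ'
  refine ⟨hF, _, hnor, hnor.1, ?_⟩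
  rintro Q₁ ⟨φ, hφ, rfl⟩
  rw [(weaklyClosed_of_stronglyClosed (stronglyClosed_of_isNormal hnor)).2 φ hφ]
  have h1 : centralizerIn S' Q' ≤ Q' := hQc'.2 Q' ⟨_, id_mem F' hQ'.1, by
    ext y
    constructor
    · rintro ⟨x, rfl⟩
      exact x.2
    · intro hy
      exact ⟨⟨y, hy⟩, rfl⟩⟩
  rintro s ⟨hsS, hsc⟩
  refine (mem_preimageAlong α _ _).2 ⟨hsS, h1 ⟨hα.1.1 _, Subgroup.mem_centralizer_iff.2 ?_⟩⟩
  intro q' hq'
  have hq'r : (q' : Ω') ∈ α.range := hα.2.1 ▸ hQ'.1 hq'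
  obtain ⟨q, rfl⟩ := hq'r
  have hqm : (q : Ω) ∈ preimageAlong α Q' := (mem_preimageAlong α _ _).2 ⟨q.2, hq'⟩
  have h2 := (Subgroup.mem_centralizer_iff.1 hsc) q hqm
  have h3 : q * ⟨s, hsS⟩ = ⟨s, hsS⟩ * q := Subtype.ext h2
  rw [← map_mul, h3, map_mul]

end iso

section grp

variable {G : Type*} [Group G] {p : ℕ}

theorem inf_normal_rel [Finite G] [Fact p.Prime] {P K N : Subgroup G} (hP : IsSylIn p P K)
    (hNK : N ≤ K) (hnorm : ∀ k ∈ K, MulAut.conj k • N = N) : IsSylIn p (P ⊓ N) N := by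
  obtain ⟨R, hR, hle⟩ := exists_isSylIn_ge (Q := P ⊓ N) (M := N) inf_le_right
    (hP.isPGroup.to_le inf_le_left)
  obtain ⟨P', hP', hRP'⟩ := exists_isSylIn_ge (Q := R) (M := K) (hR.le.trans hNK) hR.isPGroup
  obtain ⟨a, haK, ha⟩ := hP'.conj hP
  have h1 : MulAut.conj a • R ≤ P ⊓ N := by
    refine le_inf ?_ ?_
    · rw [← ha]; exact Subgroup.pointwise_smul_le_pointwise_smul_iff.2 hRP'
    · rw [← hnorm a haK]; exact Subgroup.pointwise_smul_le_pointwise_smul_iff.2 hR.le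
  have h2 : MulAut.conj a • R = R :=
    Subgroup.eq_of_le_of_card_ge (h1.trans hle) (by rw [card_conj_smul])
  have h3 : P ⊓ N = R := le_antisymm hle (h2 ▸ h1)
  rw [h3]; exact hR

theorem subnormal_constrained [Finite G] [Fact p.Prime] (S : Sylow p G)
    (hF : (groupFusionSystem (S : Subgroup G)).IsConstrained p) {H : Subgroup G}
    (hH : H.IsSubnormal) :
    IsSylIn p ((S : Subgroup G) ⊓ H) H ∧
      (fusionSystemOfSubgroup H ((S : Subgroup G) ⊓ H) inf_le_right).IsConstrained p := by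
  induction hH with
  | top =>
    have key : ∀ (T : Subgroup G) (_ : T = (S : Subgroup G)) (h : T ≤ ⊤),
        IsSylIn p T ⊤ ∧ (fusionSystemOfSubgroup ⊤ T h).IsConstrained p := by
      rintro T rfl h
      exact ⟨IsSylIn.of_sylow_top S, group_eq_subgroup_top (S : Subgroup G) ▸ hF⟩
    exact key _ (inf_top_eq _) _
  | step H K hHK hK hN ih =>
    obtain ⟨hsylK, hcK⟩ := ih
    have hconj : ∀ k ∈ K, ∀ x ∈ H, k * x * k⁻¹ ∈ H := fun k hk x hx =>
      hN.conj_mem ⟨x, hHK hx⟩ hx ⟨k, hk⟩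
    have hnorm : ∀ k ∈ K, MulAut.conj k • H = H := by
      intro k hk
      ext x
      rw [mem_conj_smul]
      constructor
      · intro h
        have := hconj k hk _ h
        have e : k * (k⁻¹ * x * k) * k⁻¹ = x := by group
        rwa [e] at this
      · intro h
        have := hconj k⁻¹ (K.inv_mem hk) x h
        rwa [inv_inv] at this
    have hsylH : IsSylIn p ((S : Subgroup G) ⊓ H) H := by
      have := inf_normal_rel hsylK hHK hnorm
      rwa [inf_assoc, inf_eq_right.2 hHK] at this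
    refine ⟨hsylH, ?_⟩
    have hle : (S : Subgroup G) ⊓ H ≤ (S : Subgroup G) ⊓ K := inf_le_inf_left _ hHK
    apply constrained_sub p hsylK.isPGroup _ hcK (T := (S : Subgroup G) ⊓ H)
    · refine ⟨hle, ?_⟩
      rintro R hR φ ⟨-, hφ, g, hg, hgx⟩ x
      refine ⟨(hφ x).1, ?_⟩
      rw [hgx]
      exact hconj g hg _ (hR x.2).2
    · exact subgroup_saturated _ _ _ (sylIn_of_isSylIn hsylH)
    · rintro P φ ⟨h1, h2, g, hg, hgx⟩
      exact ⟨h1.trans hle, fun x => hle (h2 x), g, hHK hg, hgx⟩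

/-- S5115 (for any prime) -/
theorem subnormal_constrained' [Finite G] [Fact p.Prime] (S : Sylow p G)
    (hF : (groupFusionSystem (S : Subgroup G)).IsConstrained p) {H : Subgroup G}
    (hH : H.IsSubnormal) :
    (groupFusionSystem ((S : Subgroup G).subgroupOf H)).IsConstrained p := by
  obtain ⟨hsyl, hc⟩ := subnormal_constrained S hF hH
  obtain ⟨R, hR⟩ := sylIn_of_isSylIn hsyl
  rw [Subgroup.inf_subgroupOf_right] at hR
  have hmor := subgroup_surjectiveMorphism H ((S : Subgroup G) ⊓ H) inf_le_right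
    ((S : Subgroup G).subgroupOf H) (Subgroup.inf_subgroupOf_right _ _).symm
  have hsat := group_saturated R
  rw [hR] at hsat
  exact constrained_of_iso hmor
    (fun a b hab => Subtype.ext (Subtype.ext hab)) hsat hc

end grp

end Cfsg.Agent.Lib.Helper9_Constrained2
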