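import Mathlib
import Cfsg.Prelude.Def_FusionSystem
import Cfsg.Prelude.Def_FusionComponents
import Cfsg.Agent.Lib.Helper9_Constrained2

set_option autoImplicit false

namespace Cfsg.Agent.Lib.Helper9_Constrained3

open Cfsg Cfsg.FusionSystem Cfsg.Agent.Lib.Helper9_FusionBasic Cfsg.Agent.Lib.Helper9_FusionSat
  Cfsg.Agent.Lib.Helper9_FusionNormal Cfsg.Agent.Lib.Helper9_AlperinCor
  Cfsg.Agent.Lib.Helper9_Chain3 Cfsg.Agent.Lib.Helper9_Solvable Cfsg.Agent.Lib.Helper9_Sub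
  Cfsg.Agent.Lib.Helper9_Constrained Cfsg.Agent.Lib.Helper9_Factor3 Cfsg.Agent.Lib.Helper9_Image
  Cfsg.Agent.Lib.Helper9_Factor4

open scoped commutatorElement

variable {Ω : Type*} [Group Ω] {S : Subgroup Ω} {Ω' : Type*} [Group Ω'] {S' : Subgroup Ω'}

theorem isNormal_of_isCentral {F : FusionSystem S} {Z : Subgroup Ω} (hZ : F.IsCentral Z) :
    F.IsNormal Z := by
  apply isNormal_of F hZ.1
  intro P φ hφ
  obtain ⟨ψ, hψ, h1, h2⟩ := hZ.2 P φ hφ
  refine ⟨_, le_sup_left, le_sup_right, ψ, hψ, h1, fun x => ?_, fun y hy => ⟨⟨y, hy⟩, h2 ⟨y, hy⟩⟩⟩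
  rw [h2 x]
  exact x.2

/-- images of normal subgroups under surjective morphisms are normal -/
theorem image_isNormal {F : FusionSystem S} {F' : FusionSystem S'} {α : S →* Ω'}
    (hα : F.IsSurjectiveMorphism F' α) {Q : Subgroup Ω} (hQ : F.IsNormal Q) :
    F'.IsNormal (imageAlong α Q) := by
  have hle : imageAlong α Q ≤ S' := by
    rintro _ ⟨s, -, rfl⟩
    exact hα.1.1 s
  apply isNormal_of F' hle
  intro P' φ' hφ'
  have hP'S := le_of_hom F' hφ'
  obtain ⟨φ, hφ, hP, hφS, hP', hind⟩ := hα.2.2 P' hP'S φ' hφ'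
  obtain ⟨ψ, hψ, a1, a2, a3⟩ := isNormal_extend hQ hφ
  obtain ⟨ψ', hψ', hR, hψS, hR', hind2⟩ := hα.1.2 _ ψ hψ
  have hP'le : P' ≤ imageAlong α (preimageAlong α P' ⊔ Q) := by
    intro y hy
    obtain ⟨x, hx⟩ := exists_preimage α (hα.2.1 ▸ hP'S) y hy
    exact ⟨⟨x, hP x.2⟩, Subgroup.mem_sup_left x.2, hx⟩
  have hQle : imageAlong α Q ≤ imageAlong α (preimageAlong α P' ⊔ Q) := by
    rintro _ ⟨x, hx, rfl⟩
    exact ⟨x, Subgroup.mem_sup_right hx, rfl⟩
  refine ⟨_, hP'le, hQle, ψ', hψ', fun y => ?_, ?_, ?_⟩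
  · obtain ⟨x, hx⟩ := exists_preimage α (hα.2.1 ▸ hP'S) y y.2
    have e1 : y = ⟨α ⟨x, hP x.2⟩, hP' x⟩ := Subtype.ext hx.symm
    have h1 := hind2 (Subgroup.inclusion le_sup_left x)
    have e2 : Subgroup.inclusion hP'le y =
        ⟨α ⟨(Subgroup.inclusion (le_sup_left : preimageAlong α P' ≤ preimageAlong α P' ⊔ Q) x : _),
          hR (Subgroup.inclusion le_sup_left x).2⟩, hR' _⟩ := Subtype.ext hx.symm
    rw [e2, h1, e1, hind x]
    congr 1
    exact Subtype.ext (a1 x)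
  · rintro ⟨_, q, hq, rfl⟩
    have h1 := hind2 (Subgroup.inclusion le_sup_right ⟨q, hq⟩)
    have e2 : Subgroup.inclusion hQle ⟨α q, ⟨q, hq, rfl⟩⟩ =
        ⟨α ⟨(Subgroup.inclusion (le_sup_right : Q ≤ preimageAlong α P' ⊔ Q) ⟨q, hq⟩ : _),
          hR (Subgroup.inclusion le_sup_right ⟨(q : Ω), hq⟩).2⟩, hR' _⟩ := rfl
    rw [e2, h1]
    exact ⟨_, a2 ⟨q, hq⟩, rfl⟩
  · rintro _ ⟨q, hq, rfl⟩
    obtain ⟨x, hx⟩ := a3 q hq
    refine ⟨⟨α ⟨x, hQ.1 x.2⟩, ⟨⟨x, hQ.1 x.2⟩, x.2, rfl⟩⟩, ?_⟩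
    have h1 := hind2 (Subgroup.inclusion le_sup_right x)
    have e2 : Subgroup.inclusion hQle ⟨α ⟨x, hQ.1 x.2⟩, ⟨⟨x, hQ.1 x.2⟩, x.2, rfl⟩⟩ =
        ⟨α ⟨(Subgroup.inclusion (le_sup_right : Q ≤ preimageAlong α P' ⊔ Q) x : _),
          hR (Subgroup.inclusion le_sup_right x).2⟩, hR' _⟩ := rfl
    rw [e2, h1]
    congr 1
    exact Subtype.ext hx

theorem isNormal_of_chain4 [Finite S] (p : ℕ) [Fact p.Prime] (hS : IsPGroup p S)
    (F : FusionSystem S) (hF : F.IsSaturated p) {A B X : Subgroup Ω} (hA : F.StronglyClosed A)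
    (hB : F.StronglyClosed B) (hX : F.StronglyClosed X) (hAB : A ≤ B) (hBX : B ≤ X)
    (h1 : ⁅X, A⁆ ≤ ⊥) (h2 : ⁅X, B⁆ ≤ A) (h3 : ⁅X, X⁆ ≤ B) : F.IsNormal X := by
  rw [isNormal_iff_chain p hS F hF]
  refine ⟨3, ![⊥, A, B, X], rfl, rfl, ?_, ?_⟩
  · intro i j hij
    fin_cases i <;> fin_cases j <;>
      first
        | exact le_rfl
        | exact bot_le
        | exact hAB
        | exact hBX
        | exact hAB.trans hBX
        | (exfalso; simp at hij)
  · intro i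
    fin_cases i
    · exact ⟨hA, h1⟩
    · exact ⟨hB, h2⟩
    · exact ⟨hX, h3⟩

/-- the factor system of a constrained system modulo a central subgroup is constrained -/
theorem constrained_factor_central [Finite S] (p : ℕ) [Fact p.Prime] (hS : IsPGroup p S)
    (F : FusionSystem S) (hF : F.IsConstrained p) {Z : Subgroup Ω} (hZ : F.IsCentral Z)
    (θ : S →* Ω') (D : FusionSystem S') (hD : F.IsFactorSystem Z θ D) : D.IsConstrained p := by
  have hFsat := hF.1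
  have hZn := isNormal_of_isCentral hZ
  have hZsc := stronglyClosed_of_isNormal hZn
  have hmor := surjectiveMorphism_of_factor p hS F hFsat Z hZsc θ D hD
  have hDsat := image_saturated p hS hFsat hmor
  have hrange : θ.range = S' := hD.2.2.1
  have hker := hD.2.1
  have hfin : Finite S' := by
    rw [← hrange]
    exact Finite.of_surjective θ.rangeRestrict θ.rangeRestrict_surjective
  have hc := centralizer_core_le hF
  have hQ : F.IsNormal F.core := isNormal_core F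
  have hcoremax : ∀ X : Subgroup Ω, F.IsNormal X → X ≤ F.core := fun X hX => le_sSup hX
  generalize F.core = Q at hc hQ hcoremax
  have hQsc := stronglyClosed_of_isNormal hQ
  have hZQ : Z ≤ Q := hcoremax Z hZn
  have hZcen : Z ≤ Subgroup.centralizer (S : Set Ω) :=
    (le_sSup (a := Z) hZ).trans (center_le_centralizer F)
  have hQ' := image_isNormal hmor hQ
  have hX := preimage_stronglyClosed hmor.1 (centralizerIn_stronglyClosed hQ')
  generalize hXdef : preimageAlong θ (centralizerIn S' (imageAlong θ Q)) = X at hX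
  have hZX : Z ≤ X := hXdef ▸ le_preimageAlong θ hZ.1 hker _
  have hXZ : ⁅X, Z⁆ ≤ ⊥ := by
    rw [Subgroup.commutator_comm, le_bot_iff, Subgroup.commutator_eq_bot_iff_le_centralizer]
    exact hZcen.trans (Subgroup.centralizer_le hX.1)
  have hXQ : ⁅X, Q⁆ ≤ Z := by
    rw [Subgroup.commutator_le]
    intro x hx q hq
    have hx' : x ∈ preimageAlong θ (centralizerIn S' (imageAlong θ Q)) := hXdef ▸ hx
    obtain ⟨hxS, hxc⟩ := (mem_preimageAlong θ _ x).1 hx'
    have hqS := hQ.1 hq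
    have e : (⁅x, q⁆ : Ω) = ((⁅(⟨x, hxS⟩ : S), ⟨q, hqS⟩⁆ : S) : Ω) := rfl
    rw [e, ← hker, map_commutatorElement, commutatorElement_eq_one_iff_mul_comm]
    exact ((Subgroup.mem_centralizer_iff.1 hxc.2) _ ⟨⟨q, hqS⟩, hq, rfl⟩).symm
  have h3 : ⁅⁅X, X⁆, Q⁆ = ⊥ := by
    apply Subgroup.commutator_commutator_eq_bot_of_rotate
    · rw [eq_bot_iff]
      refine le_trans ?_ hXZ
      rw [Subgroup.commutator_comm]
      exact Subgroup.commutator_mono le_rfl hXQ
    · rw [eq_bot_iff]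
      refine le_trans ?_ hXZ
      rw [Subgroup.commutator_comm, Subgroup.commutator_comm Q]
      exact Subgroup.commutator_mono le_rfl hXQ
  have hXX : ⁅X, X⁆ ≤ X ⊓ Q := by
    apply le_inf (commutator_self_le _)
    intro x hx
    exact hc ⟨hX.1 (commutator_self_le _ hx),
      (Subgroup.commutator_eq_bot_iff_le_centralizer.1 h3) hx⟩
  have hXnor : F.IsNormal X :=
    isNormal_of_chain4 p hS F hFsat hZsc (stronglyClosed_inf hX hQsc) hX (le_inf hZX hZQ)
      inf_le_left hXZ ((Subgroup.commutator_mono le_rfl inf_le_right).trans hXQ) hXX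
  have hXle : X ≤ Q := hcoremax _ hXnor
  refine ⟨hDsat, _, hQ', hQ'.1, ?_⟩
  rintro Q₁ ⟨φ, hφ, rfl⟩
  rw [(weaklyClosed_of_stronglyClosed (stronglyClosed_of_isNormal hQ')).2 φ hφ]
  intro y hy
  have hyr : y ∈ θ.range := hrange ▸ hy.1
  obtain ⟨s, rfl⟩ := hyr
  have hsX : (s : Ω) ∈ X := by
    rw [← hXdef]
    exact (mem_preimageAlong θ _ _).2 ⟨s.2, hy⟩
  exact ⟨s, hXle hsX, rfl⟩

end Cfsg.Agent.Lib.Helper9_Constrained3
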