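import Mathlib
import Cfsg.Prelude.Def_FusionSystem
import Cfsg.Agent.Lib.Helper9_Abelian
import Cfsg.Agent.Lib.Helper9_Omega
import Cfsg.Agent.Lib.Helper9_AlperinCor

set_option autoImplicit false

namespace Cfsg.Agent.Lib.Helper9_DistinctCyc

open Cfsg Cfsg.FusionSystem Cfsg.Agent.Lib.Helper9_FusionBasic Cfsg.Agent.Lib.Helper9_FusionSat
open Cfsg.Agent.Lib.Helper9_Abelian Cfsg.Agent.Lib.Helper9_Omega Cfsg.Agent.Lib.Helper9_AlperinCor

theorem zmod_two_torsion {m : ℕ} (hm : 1 ≤ m) (c : ZMod (2 ^ m)) (hc : 2 * c = 0) :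
    c = 0 ∨ c = 2 ^ (m - 1) := by
  have : NeZero (2 ^ m) := ⟨by positivity⟩
  have h1 : ((2 * c.val : ℕ) : ZMod (2 ^ m)) = 0 := by
    push_cast
    rw [ZMod.natCast_zmod_val]
    exact hc
  rw [ZMod.natCast_eq_zero_iff] at h1
  obtain ⟨k, rfl⟩ : ∃ k, m = k + 1 := ⟨m - 1, by omega⟩
  have h1' : 2 * 2 ^ k ∣ 2 * c.val := by
    have e : 2 * 2 ^ k = 2 ^ (k + 1) := by rw [pow_succ, mul_comm]
    rw [e]; exact h1
  have h2 : 2 ^ k ∣ c.val := Nat.dvd_of_mul_dvd_mul_left (by norm_num) h1'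
  obtain ⟨t, ht⟩ := h2
  have h3 : c.val < 2 ^ (k + 1) := ZMod.val_lt c
  have h4 : t < 2 := by
    by_contra hcon
    rw [not_lt] at hcon
    have : 2 ^ k * 2 ≤ 2 ^ k * t := Nat.mul_le_mul_left _ hcon
    have e : 2 ^ (k + 1) = 2 ^ k * 2 := pow_succ 2 k
    omega
  have h5 : c = ((c.val : ℕ) : ZMod (2 ^ (k + 1))) := (ZMod.natCast_zmod_val c).symm
  interval_cases t
  · left
    rw [h5, ht]
    simp
  · right
    rw [h5, ht]
    simp

variable {n : ℕ} {a : Fin n → ℕ}

/-- the additive version: an injective additive endomorphism-like map preserving the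
characteristic conditions -/
theorem coord_eq_zero_of_smul (ha : StrictMono a) (j : Fin n) (d : (i : Fin n) → ZMod (2 ^ a i))
    (i : Fin n) (hij : i < j) : ((2 : ℕ) ^ (a j - 1) • d) i = 0 := by
  have h1 : a i ≤ a j - 1 := by
    have := ha hij
    omega
  rw [Pi.smul_apply, nsmul_eq_mul]
  have : (((2 : ℕ) ^ (a j - 1) : ℕ) : ZMod (2 ^ a i)) = 0 := by
    rw [ZMod.natCast_eq_zero_iff]
    exact pow_dvd_pow 2 h1
  rw [this, zero_mul]

theorem exists_smul_eq (ha : StrictMono a) (ha1 : ∀ i, 1 ≤ a i) (j : Fin n)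
    (c : (i : Fin n) → ZMod (2 ^ a i)) (hc : (2 : ℕ) • c = 0) (h0 : ∀ i < j, c i = 0) :
    ∃ d : (i : Fin n) → ZMod (2 ^ a i), (2 : ℕ) ^ (a j - 1) • d = c := by
  have hci : ∀ i, c i = 0 ∨ c i = 2 ^ (a i - 1) := by
    intro i
    apply zmod_two_torsion (ha1 i)
    have := congrFun hc i
    rw [Pi.smul_apply, nsmul_eq_mul] at this
    exact_mod_cast this
  refine ⟨fun i => if c i = 0 then 0 else 2 ^ (a i - a j), ?_⟩
  funext i
  rw [Pi.smul_apply, nsmul_eq_mul]
  by_cases h : c i = 0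
  · simp [h]
  · rw [if_neg h]
    have hji : j ≤ i := by
      by_contra hcon
      exact h (h0 i (not_le.1 hcon))
    have h2 : a j ≤ a i := ha.monotone hji
    have h3 := (hci i).resolve_left h
    rw [h3]
    push_cast
    rw [← pow_add]
    congr 1
    have := ha1 j
    omega


section aut

variable {T : Type*} [Group T] (e : T ≃* Multiplicative ((i : Fin n) → ZMod (2 ^ a i)))

/-- coordinates -/
def co (x : T) : (i : Fin n) → ZMod (2 ^ a i) := Multiplicative.toAdd (e x)

theorem co_mul (x y : T) : co e (x * y) = co e x + co e y := by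
  unfold co
  rw [map_mul]
  rfl

theorem co_one : co e (1 : T) = 0 := by
  unfold co
  rw [map_one]
  rfl

theorem co_inv (x : T) : co e x⁻¹ = - co e x := by
  unfold co
  rw [map_inv]
  rfl

theorem co_pow (x : T) (k : ℕ) : co e (x ^ k) = k • co e x := by
  unfold co
  rw [map_pow]
  rfl

theorem co_injective : Function.Injective (co e) := by
  intro x y h
  exact e.injective (Multiplicative.toAdd.injective h)

theorem co_surjective (d : (i : Fin n) → ZMod (2 ^ a i)) : ∃ y : T, co e y = d :=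
  ⟨e.symm (Multiplicative.ofAdd d), by unfold co; simp⟩

include e in
theorem comm_of_equiv (x y : T) : x * y = y * x := by
  apply co_injective e
  rw [co_mul, co_mul, add_comm]

include e in
theorem isPGroup_of_equiv : IsPGroup 2 T := by
  intro x
  refine ⟨∑ i, a i, ?_⟩
  apply co_injective e
  rw [co_pow, co_one]
  funext i
  rw [Pi.smul_apply, nsmul_eq_mul]
  have : (((2 : ℕ) ^ (∑ i, a i) : ℕ) : ZMod (2 ^ a i)) = 0 := by
    rw [ZMod.natCast_eq_zero_iff]
    exact pow_dvd_pow 2 (Finset.single_le_sum (f := a) (fun _ _ => Nat.zero_le _) (Finset.mem_univ i))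
  rw [this, zero_mul]
  rfl

/-- the flag in `Ω₁` -/
def flag (j : ℕ) : Subgroup T where
  carrier := {x | (2 : ℕ) • co e x = 0 ∧ ∀ i : Fin n, (i : ℕ) < j → co e x i = 0}
  one_mem' := by
    refine ⟨by rw [co_one, smul_zero], fun i _ => by rw [co_one]; rfl⟩
  mul_mem' := by
    rintro x y ⟨hx1, hx2⟩ ⟨hy1, hy2⟩
    refine ⟨by rw [co_mul, smul_add, hx1, hy1, add_zero], fun i hi => ?_⟩
    rw [co_mul, Pi.add_apply, hx2 i hi, hy2 i hi, add_zero]
  inv_mem' := by
    rintro x ⟨hx1, hx2⟩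
    refine ⟨by rw [co_inv, smul_neg, hx1, neg_zero], fun i hi => ?_⟩
    rw [co_inv, Pi.neg_apply, hx2 i hi, neg_zero]

theorem mem_flag (j : ℕ) (x : T) : x ∈ flag e j ↔
    (2 : ℕ) • co e x = 0 ∧ ∀ i : Fin n, (i : ℕ) < j → co e x i = 0 := Iff.rfl

theorem flag_invariant (ha : StrictMono a) (ha1 : ∀ i, 1 ≤ a i) (α : MulAut T) (j : Fin n) {x : T}
    (hx : x ∈ flag e (j : ℕ)) : α x ∈ flag e (j : ℕ) := by
  obtain ⟨h1, h2⟩ := hx
  obtain ⟨d, hd⟩ := exists_smul_eq ha ha1 j (co e x) h1 (fun i hi => h2 i hi)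
  obtain ⟨y, rfl⟩ := co_surjective e d
  have hxy : x = y ^ (2 ^ (a j - 1)) := by
    apply co_injective e
    rw [co_pow, hd]
  constructor
  · have h3 : x ^ 2 = 1 := by
      apply co_injective e
      rw [co_pow, h1, co_one]
    rw [← co_pow, ← map_pow, h3, map_one, co_one]
  · intro i hi
    rw [hxy, map_pow, co_pow]
    exact coord_eq_zero_of_smul ha j _ i hi

theorem fix_flag (ha : StrictMono a) (ha1 : ∀ i, 1 ≤ a i) (α : MulAut T)
    (hα : (orderOf α).Coprime 2) : ∀ k : ℕ, k ≤ n → ∀ x ∈ flag e (n - k), α x = x := by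
  intro k
  induction k with
  | zero =>
    intro _ x hx
    have : x = 1 := by
      apply co_injective e
      rw [co_one]
      funext i
      exact hx.2 i (by simp)
    rw [this, map_one]
  | succ k ih =>
    intro hk x hx
    have ih' := ih (by omega)
    obtain ⟨j, hj⟩ : ∃ j : Fin n, (j : ℕ) = n - (k + 1) := ⟨⟨n - (k + 1), by omega⟩, rfl⟩
    have hj1 : n - k = (j : ℕ) + 1 := by omega
    rw [← hj] at hx
    rw [hj1] at ih'
    have hαx := flag_invariant e ha ha1 α j hx
    have up : ∀ y ∈ flag e (j : ℕ), co e y j = 0 → y ∈ flag e ((j : ℕ) + 1) := by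
      intro y hy h0
      refine ⟨hy.1, fun i hi => ?_⟩
      rcases Nat.lt_succ_iff_lt_or_eq.1 hi with h | h
      · exact hy.2 i h
      · have : i = j := Fin.ext h
        rw [this]; exact h0
    have tors : ∀ y ∈ flag e (j : ℕ), co e y j = 0 ∨ co e y j = 2 ^ (a j - 1) := by
      intro y hy
      apply zmod_two_torsion (ha1 j)
      have := congrFun hy.1 j
      rw [Pi.smul_apply, nsmul_eq_mul] at this
      exact_mod_cast this
    by_cases hu : co e x j = 0
    · exact ih' x (up x hx hu)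
    by_cases hv : co e (α x) j = 0
    · have := ih' (α x) (up _ hαx hv)
      exact α.injective this
    apply fix_of_fix_mod (isPGroup_of_equiv e) α hα (flag e ((j : ℕ) + 1)) ih' x
    apply up _ ((flag e (j : ℕ)).mul_mem hαx ((flag e (j : ℕ)).inv_mem hx))
    rw [co_mul, co_inv, Pi.add_apply, Pi.neg_apply, (tors x hx).resolve_left hu,
      (tors _ hαx).resolve_left hv, add_neg_cancel]

include e in
theorem aut_trivial [Finite T] (ha : StrictMono a) (ha1 : ∀ i, 1 ≤ a i) (α : MulAut T)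
    (hα : (orderOf α).Coprime 2) (x : T) : α x = x := by
  apply fix_of_fix_small_abelian (isPGroup_of_equiv e) α hα ⊤ (fun _ _ => Subgroup.mem_top _)
    (fun x _ y _ => comm_of_equiv e x y) _ x (Subgroup.mem_top _)
  intro y _ hy
  apply fix_flag e ha ha1 α hα n le_rfl
  rw [Nat.sub_self]
  refine ⟨?_, fun i hi => absurd hi (Nat.not_lt_zero _)⟩
  rw [← co_pow, hy, co_one]

end aut

/-- S5331 -/
theorem inner_of_distinct {Ω : Type*} [Group Ω] {S : Subgroup Ω} [Finite S] (ha : StrictMono a)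
    (ha1 : ∀ i, 1 ≤ a i) (e : ↥S ≃* Multiplicative ((i : Fin n) → ZMod (2 ^ a i)))
    (F : FusionSystem S) (hF : F.IsSaturated 2) (P : Subgroup Ω) :
    F.Hom P = (innerFusionSystem S).Hom P := by
  have hS : IsPGroup 2 S := isPGroup_of_equiv e
  have hab : IsMulCommutative S := ⟨⟨fun x y => comm_of_equiv e x y⟩⟩
  apply Set.Subset.antisymm _ (inner_le F P)
  intro φ hφ
  obtain ⟨α, hα, h⟩ := exists_aut_extend 2 hS F hF hab hφ
  have hfin : Finite (F.autGroup S) := finite_autGroup F le_rfl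
  have hord : (orderOf α).Coprime 2 := by
    have h1 : orderOf α ∣ Nat.card (F.autGroup S) := by
      have := orderOf_dvd_natCard (⟨α, hα⟩ : F.autGroup S)
      rwa [Subgroup.orderOf_mk] at this
    have h2 := not_dvd_card_autGroup 2 hS F hF hab
    exact Nat.Coprime.coprime_dvd_left h1
      ((Nat.Prime.coprime_iff_not_dvd Nat.prime_two).2 h2).symm
  refine ⟨le_of_hom F hφ, 1, S.one_mem, fun x => ?_⟩
  rw [← h x, aut_trivial e ha ha1 α hord]
  simp

end Cfsg.Agent.Lib.Helper9_DistinctCyc
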