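import Cfsg.Agent.Lib.Helper9_Factor4
import Cfsg.Agent.Lib.Helper9_Image
import Cfsg.Agent.Lib.Helper9_PResidual2
set_option autoImplicit false

namespace Cfsg.Agent.Lib.Helper9_Factor5

open Cfsg Cfsg.FusionSystem Cfsg.Agent.Lib.Helper9_FusionBasic Cfsg.Agent.Lib.Helper9_FusionSat
  Cfsg.Agent.Lib.Helper9_FusionNormal Cfsg.Agent.Lib.Helper9_AlperinCor
  Cfsg.Agent.Lib.Helper9_Factor Cfsg.Agent.Lib.Helper9_Factor3 Cfsg.Agent.Lib.Helper9_Factor4
  Cfsg.Agent.Lib.Helper9_Image Cfsg.Agent.Lib.Helper9_Focal Cfsg.Agent.Lib.Helper9_PResidual2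

variable {Ω : Type*} [Group Ω] {S : Subgroup Ω} {Ω' : Type*} [Group Ω'] {S' : Subgroup Ω'}

/-- hyperfocal subgroup of the image of a surjective morphism -/
theorem hyperfocal_image [Finite S] (p : ℕ) [Fact p.Prime] {F : FusionSystem S}
    {E : FusionSystem S'} {θ : S →* Ω'} (hmor : F.IsSurjectiveMorphism E θ) :
    E.hyperfocalSubgroup p = ((F.hyperfocalSubgroup p).subgroupOf S).map θ := by
  have hTsc := ker_stronglyClosed hmor.1
  apply le_antisymm
  · conv_lhs => unfold hyperfocalSubgroup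
    rw [Subgroup.closure_le]
    rintro _ ⟨P', β', y, hP', hβ', rfl⟩
    obtain ⟨P, hPS, hTP, rfl⟩ : ∃ P, P ≤ S ∧ (θ.ker).map S.subtype ≤ P ∧ imageAlong θ P = P' :=
      ⟨preimageAlong θ P', preimageAlong_le θ P', le_preimageAlong θ hTsc.1 (ker_iff θ) P',
        image_preimage θ (hmor.2.1 ▸ hP')⟩
    have := finite_autGroup F hPS
    let π : F.autGroup P →* E.autGroup (imageAlong θ P) :=
      (autMap hmor.1 hPS).codRestrict _ (autMap_mem hmor.1 hPS)
    have hπ : Function.Surjective π := by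
      rintro ⟨γ', hγ'⟩
      obtain ⟨γ, hγ⟩ := autMap_surj hmor hPS hTP γ' hγ'
      exact ⟨γ, Subtype.ext hγ⟩
    obtain ⟨β, hβ, rfl⟩ := pResidual_le_map_of_surjective π hπ hβ'
    obtain ⟨x, rfl⟩ := resHom_surjective θ P hPS y
    have hmem := hyperfocal_gen_mem F p hPS β hβ x
    refine ⟨⟨_, hyperfocal_le F p hmem⟩, hmem, ?_⟩
    have e1 : (((π β : E.autGroup (imageAlong θ P)) : MulAut (imageAlong θ P)) (resHom θ P hPS x) :
        imageAlong θ P) = autMap hmor.1 hPS β (resHom θ P hPS x) := rfl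
    rw [e1, autMap_coe, resHom_coe, ← map_inv, ← map_mul]
    rfl
  · have hle : F.hyperfocalSubgroup p ≤ ((E.hyperfocalSubgroup p).comap θ).map S.subtype := by
      conv_lhs => unfold hyperfocalSubgroup
      rw [Subgroup.closure_le]
      rintro _ ⟨P, β, x, hPS, hβ, rfl⟩
      let π : F.autGroup P →* E.autGroup (imageAlong θ P) :=
        (autMap hmor.1 hPS).codRestrict _ (autMap_mem hmor.1 hPS)
      have hP' : imageAlong θ P ≤ S' := hmor.2.1 ▸ imageAlong_le_range θ P
      have h1 := hyperfocal_gen_mem E p hP' (π β) (hom_mem_pResidual π hβ) (resHom θ P hPS x)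
      have e1 : (((π β : E.autGroup (imageAlong θ P)) : MulAut (imageAlong θ P)) (resHom θ P hPS x) :
          imageAlong θ P) = autMap hmor.1 hPS β (resHom θ P hPS x) := rfl
      rw [e1, autMap_coe, resHom_coe, ← map_inv, ← map_mul] at h1
      exact ⟨_, h1, rfl⟩
    rw [Subgroup.map_le_iff_le_comap]
    intro s hs
    obtain ⟨s', hs', heq⟩ := hle hs
    have : s' = s := Subtype.ext heq
    rw [← this]
    exact hs'

end Cfsg.Agent.Lib.Helper9_Factor5
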