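import Cfsg.Agent.Lib.Helper9_Factor
import Cfsg.Agent.Lib.Helper9_PResidual2
set_option autoImplicit false

namespace Cfsg.Agent.Lib.Helper9_Factor6

open Cfsg Cfsg.FusionSystem Cfsg.Agent.Lib.Helper9_FusionBasic Cfsg.Agent.Lib.Helper9_FusionSat
  Cfsg.Agent.Lib.Helper9_FusionNormal Cfsg.Agent.Lib.Helper9_AlperinCor
  Cfsg.Agent.Lib.Helper9_Factor Cfsg.Agent.Lib.Helper9_Focal Cfsg.Agent.Lib.Helper9_PResidual
  Cfsg.Agent.Lib.Helper9_PResidual2 Cfsg.Agent.Lib.Helper9_Alperin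

variable {Ω : Type*} [Group Ω] {S : Subgroup Ω}

/-- `γ'` covers `γ` modulo `T` -/
def Cov (T : Subgroup Ω) {P R : Subgroup Ω} (hPR : P ≤ R) (γ' : MulAut R) (γ : MulAut P) : Prop :=
  (∀ x : P, ((γ x : P) : Ω)⁻¹ * (γ' (Subgroup.inclusion hPR x) : R) ∈ T) ∧
    ∀ z : R, (z : Ω) ∈ T → ((γ' z : R) : Ω) ∈ T

theorem Cov.one (T : Subgroup Ω) {P R : Subgroup Ω} (hPR : P ≤ R) : Cov T hPR 1 1 := by
  refine ⟨fun x => ?_, fun z hz => hz⟩
  have : (((1 : MulAut P) x : P) : Ω)⁻¹ * ((1 : MulAut R) (Subgroup.inclusion hPR x) : R) = 1 := by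
    show (x : Ω)⁻¹ * (x : Ω) = 1
    group
  rw [this]
  exact T.one_mem

theorem Cov.mul {T : Subgroup Ω} {P R : Subgroup Ω} {hPR : P ≤ R} (hTR : T ≤ R) {a' b' : MulAut R}
    {a b : MulAut P} (ha : Cov T hPR a' a) (hb : Cov T hPR b' b) : Cov T hPR (a' * b') (a * b) := by
  refine ⟨fun x => ?_, fun z hz => ha.2 _ (hb.2 z hz)⟩
  have ht := hb.1 x
  have e1 : b' (Subgroup.inclusion hPR x) = Subgroup.inclusion hPR (b x) *
      ⟨((b x : P) : Ω)⁻¹ * (b' (Subgroup.inclusion hPR x) : R), hTR ht⟩ := by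
    apply Subtype.ext
    show _ = ((b x : P) : Ω) * (((b x : P) : Ω)⁻¹ * (b' (Subgroup.inclusion hPR x) : R))
    group
  rw [MulAut.mul_apply, MulAut.mul_apply, e1, map_mul]
  have h2 := ha.1 (b x)
  have h3 := ha.2 ⟨((b x : P) : Ω)⁻¹ * (b' (Subgroup.inclusion hPR x) : R), hTR ht⟩ ht
  have e2 : ((a (b x) : P) : Ω)⁻¹ * ((a' (Subgroup.inclusion hPR (b x)) *
      a' ⟨((b x : P) : Ω)⁻¹ * (b' (Subgroup.inclusion hPR x) : R), hTR ht⟩ : R) : Ω) =
      (((a (b x) : P) : Ω)⁻¹ * (a' (Subgroup.inclusion hPR (b x)) : R)) *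
      (a' ⟨((b x : P) : Ω)⁻¹ * (b' (Subgroup.inclusion hPR x) : R), hTR ht⟩ : R) := by
    rw [Subgroup.coe_mul, mul_assoc]
  rw [e2]
  exact T.mul_mem h2 h3

theorem Cov.pow {T : Subgroup Ω} {P R : Subgroup Ω} {hPR : P ≤ R} (hTR : T ≤ R) {a' : MulAut R}
    {a : MulAut P} (ha : Cov T hPR a' a) (k : ℕ) : Cov T hPR (a' ^ k) (a ^ k) := by
  induction k with
  | zero => simpa using Cov.one T hPR
  | succ k ih =>
    rw [pow_succ, pow_succ]
    exact Cov.mul hTR ih ha

/-- conjugation action of `S` on a strongly closed subgroup -/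
noncomputable def conjOn {F : FusionSystem S} {T : Subgroup Ω} (hT : F.StronglyClosed T) :
    S →* MulAut T :=
  (conjAut S T).comp (Subgroup.inclusion (le_inf le_rfl (stronglyClosed_le_normalizer hT)))

theorem conjOn_apply {F : FusionSystem S} {T : Subgroup Ω} (hT : F.StronglyClosed T) (s : S) (t : T) :
    ((conjOn hT s t : T) : Ω) = (s : Ω) * t * (s : Ω)⁻¹ := rfl

theorem conjOn_mem {F : FusionSystem S} {T : Subgroup Ω} (hT : F.StronglyClosed T) (s : S) :
    conjOn hT s ∈ F.autGroup T :=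
  autInducedBy_le_autGroup F hT.1 (conjAut_mem_autInducedBy S T _)

/-- a `p'`-automorphism of `P` is covered by a `p'`-automorphism of `P T` -/
theorem exists_cov_coprime [Finite S] (p : ℕ) [hp : Fact p.Prime] (hS : IsPGroup p S)
    (F : FusionSystem S) (hF : F.IsSaturated p) {T : Subgroup Ω} (hT : F.StronglyClosed T)
    {P : Subgroup Ω} (hP : P ≤ S) (β : MulAut P) (hβ : β ∈ F.autGroup P)
    (hβp : Nat.Coprime (orderOf β) p) :
    ∃ β' ∈ F.autGroup (P ⊔ T), Cov T le_sup_left β' β ∧ Nat.Coprime (orderOf β') p := by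
  have hβF := (mem_autGroup_iff F hP β).mp hβ
  obtain ⟨ψ, hψ, h⟩ := exists_cover p hS F hF hT hβF
  have hPT : P ⊔ T ≤ S := sup_le hP hT.1
  have : Finite (P ⊔ T : Subgroup Ω) := finite_of_le hPT
  have hval : ∀ z : (P ⊔ T : Subgroup Ω), ψ z ∈ P ⊔ T := by
    have := map_sup_mem (C := P ⊔ T) ψ le_sup_left le_sup_right (fun x => ?_) (fun t => ?_)
    · exact this
    · have e : ψ (Subgroup.inclusion le_sup_left x) = ((β x : P) : Ω) *
          (((β x : P) : Ω)⁻¹ * ψ (Subgroup.inclusion le_sup_left x)) := by group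
      rw [e]
      exact Subgroup.mul_mem_sup (β x).2 (h x)
    · exact le_sup_right (a := P) (stronglyClosed_map_mem hT hψ _ t.2)
  have hr : ψ.range = P ⊔ T := by
    apply Subgroup.eq_of_le_of_card_ge
    · rintro _ ⟨z, rfl⟩
      exact hval z
    · rw [Nat.card_congr (MonoidHom.ofInjective (F.injective_of_mem hψ)).toEquiv]
  obtain ⟨b, hb, hbe⟩ := exists_autGroup_of_range_eq F hψ hr
  have hcov : Cov T le_sup_left b β := by
    refine ⟨fun x => ?_, fun z hz => ?_⟩
    · rw [hbe]; exact h x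
    · rw [hbe]; exact stronglyClosed_map_mem hT hψ z hz
  have : Finite (MulAut (P ⊔ T : Subgroup Ω)) :=
    Finite.of_injective (fun a : MulAut (P ⊔ T : Subgroup Ω) => (a : _ → _))
      (fun a b h => by ext x; exact congrArg Subtype.val (congrFun h x))
  obtain ⟨a, m, hm, ham⟩ := Nat.exists_eq_pow_mul_and_not_dvd (orderOf_pos b).ne' p hp.out.ne_one
  have hc : Nat.Coprime (p ^ a) (orderOf β) := (Nat.Coprime.pow_right a hβp).symm
  obtain ⟨j, hj⟩ := exists_pow_eq_self_of_coprime hc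
  refine ⟨(b ^ p ^ a) ^ j, Subgroup.pow_mem _ (Subgroup.pow_mem _ hb _) _, ?_, ?_⟩
  · have := Cov.pow le_sup_right (Cov.pow le_sup_right hcov (p ^ a)) j
    rwa [hj] at this
  · have h1 : ((b ^ p ^ a) ^ j) ^ m = 1 := by
      rw [← pow_mul, ← pow_mul]
      have : p ^ a * (j * m) = orderOf b * j := by rw [ham]; ring
      rw [this, pow_mul, pow_orderOf_eq_one, one_pow]
    exact Nat.Coprime.coprime_dvd_left (orderOf_dvd_of_pow_eq_one h1)
      ((Nat.Prime.coprime_iff_not_dvd hp.out).mpr hm).symm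

/-- S5198 -/
theorem hyperfocal_acts [Finite S] (p : ℕ) [hp : Fact p.Prime] (hS : IsPGroup p S)
    (F : FusionSystem S) (hF : F.IsSaturated p) (T : Subgroup Ω) (hT : F.StronglyClosed T) :
    ∀ x ∈ F.hyperfocalSubgroup p,
      ∃ α ∈ ((pResidual p ↥(F.autGroup T)).map (F.autGroup T).subtype ⊔ Inn ↥T : Subgroup (MulAut ↥T)),
        ∀ t : ↥T, ((α t : ↥T) : Ω) = x * (t : Ω) * x⁻¹ := by
  set B : Subgroup (MulAut T) := (pResidual p ↥(F.autGroup T)).map (F.autGroup T).subtype ⊔ Inn ↥T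
    with hB
  have hOn := pResidual_normal p (F.autGroup T)
  have key : ∀ (P : Subgroup Ω) (hP : P ≤ S) (α : F.autGroup P), α ∈ pResidual p (F.autGroup P) →
      ∀ x : P, conjOn hT ⟨(x : Ω)⁻¹ * ((α : MulAut P) x : P),
        S.mul_mem (S.inv_mem (hP x.2)) (hP ((α : MulAut P) x).2)⟩ ∈ B := by
    intro P hP α hα
    induction hα using Subgroup.closure_induction with
    | mem β hβ =>
      intro x
      have hβp : Nat.Coprime (orderOf (β : MulAut P)) p := by
        rw [Subgroup.orderOf_coe]; exact hβ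
      obtain ⟨β', hβ', hcov, hβ'p⟩ := exists_cov_coprime p hS F hF hT hP β β.2 hβp
      have hPT : P ⊔ T ≤ S := sup_le hP hT.1
      have hβ'F := (mem_autGroup_iff F hPT β').mp hβ'
      have hres := restrict_mem F hβ'F (le_sup_right : T ≤ P ⊔ T)
      have : Finite T := finite_of_le hT.1
      have hr : (((P ⊔ T).subtype.comp (MulEquiv.toMonoidHom β')).comp
          (Subgroup.inclusion (le_sup_right : T ≤ P ⊔ T))).range = T := by
        apply Subgroup.eq_of_le_of_card_ge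
        · rintro _ ⟨z, rfl⟩
          exact hcov.2 _ z.2
        · rw [Nat.card_congr (MonoidHom.ofInjective (F.injective_of_mem hres)).toEquiv]
      obtain ⟨τ, hτ, hτe⟩ := exists_autGroup_of_range_eq F hres hr
      have hτe' : ∀ t : T, ((τ t : T) : Ω) = (β' (Subgroup.inclusion le_sup_right t) : (P ⊔ T : Subgroup Ω)) :=
        hτe
      have hτpow : ∀ (i : ℕ) (t : T), (((τ ^ i) t : T) : Ω) =
          ((β' ^ i) (Subgroup.inclusion le_sup_right t) : (P ⊔ T : Subgroup Ω)) := by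
        intro i
        induction i with
        | zero => intro t; rfl
        | succ i ih =>
          intro t
          rw [pow_succ, pow_succ, MulAut.mul_apply, MulAut.mul_apply, ih]
          congr 2
          exact Subtype.ext (hτe' t)
      have hτp : Nat.Coprime (orderOf τ) p := by
        apply Nat.Coprime.coprime_dvd_left _ hβ'p
        apply orderOf_dvd_of_pow_eq_one
        ext t
        rw [hτpow, pow_orderOf_eq_one]
        rfl
      have hτO : (⟨τ, hτ⟩ : F.autGroup T) ∈ pResidual p (F.autGroup T) := by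
        apply mem_pResidual_of_coprime
        rw [Subgroup.orderOf_mk]
        exact hτp
      -- u = β' x
      have huS : ((β' (Subgroup.inclusion le_sup_left x) : (P ⊔ T : Subgroup Ω)) : Ω) ∈ S :=
        hPT (β' _).2
      have hcu : conjOn hT ⟨_, huS⟩ = τ * conjOn hT ⟨x, hP x.2⟩ * τ⁻¹ := by
        ext t
        rw [conjOn_apply, MulAut.mul_apply, MulAut.mul_apply, hτe']
        have e1 : Subgroup.inclusion (le_sup_right : T ≤ P ⊔ T) (conjOn hT ⟨x, hP x.2⟩ (τ⁻¹ t)) =
            Subgroup.inclusion le_sup_left x * Subgroup.inclusion le_sup_right (τ⁻¹ t) *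
              (Subgroup.inclusion le_sup_left x)⁻¹ := rfl
        rw [e1, map_mul, map_mul, map_inv]
        have e2 : β' (Subgroup.inclusion le_sup_right (τ⁻¹ t)) = Subgroup.inclusion le_sup_right t := by
          apply Subtype.ext
          rw [← hτe', MulAut.apply_inv_self]
          rfl
        rw [e2]
        rfl
      have h1 : (conjOn hT ⟨x, hP x.2⟩)⁻¹ * conjOn hT ⟨_, huS⟩ ∈
          (pResidual p ↥(F.autGroup T)).map (F.autGroup T).subtype := by
        rw [hcu]
        have h2 := hOn.conj_mem _ hτO (⟨conjOn hT ⟨x, hP x.2⟩, conjOn_mem hT _⟩ : F.autGroup T)⁻¹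
        have h3 := Subgroup.mul_mem _ h2 (Subgroup.inv_mem _ hτO)
        refine ⟨_, h3, ?_⟩
        simp only [Subgroup.subtype_apply, Subgroup.coe_mul, Subgroup.coe_inv, inv_inv]
        group
      have ht := hcov.1 x
      have e3 : (⟨(x : Ω)⁻¹ * ((β : MulAut P) x : P), S.mul_mem (S.inv_mem (hP x.2))
          (hP ((β : MulAut P) x).2)⟩ : S) = (⟨x, hP x.2⟩ : S)⁻¹ * ⟨_, huS⟩ *
          (⟨_, hT.1 ht⟩ : S)⁻¹ := by
        apply Subtype.ext
        show (x : Ω)⁻¹ * ((β : MulAut P) x : P) = (x : Ω)⁻¹ *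
          (β' (Subgroup.inclusion le_sup_left x) : (P ⊔ T : Subgroup Ω)) *
          ((((β : MulAut P) x : P) : Ω)⁻¹ * (β' (Subgroup.inclusion le_sup_left x) : (P ⊔ T : Subgroup Ω)))⁻¹
        group
      rw [e3, map_mul, map_mul, map_inv, map_inv]
      apply Subgroup.mul_mem _ (le_sup_left (a := (pResidual p ↥(F.autGroup T)).map
        (F.autGroup T).subtype) h1)
      apply Subgroup.inv_mem
      apply le_sup_right (a := (pResidual p ↥(F.autGroup T)).map (F.autGroup T).subtype)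
      refine ⟨⟨_, ht⟩, ?_⟩
      ext t
      rfl
    | one =>
      intro x
      have : (⟨(x : Ω)⁻¹ * (((1 : F.autGroup P) : MulAut P) x : P), S.mul_mem (S.inv_mem (hP x.2))
          (hP (((1 : F.autGroup P) : MulAut P) x).2)⟩ : S) = 1 := by
        apply Subtype.ext
        show (x : Ω)⁻¹ * (x : Ω) = 1
        group
      rw [this, map_one]
      exact Subgroup.one_mem _
    | mul a b _ _ iha ihb =>
      intro x
      have : (⟨(x : Ω)⁻¹ * (((a * b : F.autGroup P) : MulAut P) x : P), S.mul_mem (S.inv_mem (hP x.2))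
          (hP (((a * b : F.autGroup P) : MulAut P) x).2)⟩ : S) =
          ⟨(x : Ω)⁻¹ * ((b : MulAut P) x : P), S.mul_mem (S.inv_mem (hP x.2)) (hP ((b : MulAut P) x).2)⟩ *
          ⟨(((b : MulAut P) x : P) : Ω)⁻¹ * ((a : MulAut P) ((b : MulAut P) x) : P),
            S.mul_mem (S.inv_mem (hP ((b : MulAut P) x).2)) (hP ((a : MulAut P) ((b : MulAut P) x)).2)⟩ := by
        apply Subtype.ext
        show (x : Ω)⁻¹ * ((a : MulAut P) ((b : MulAut P) x) : P) = ((x : Ω)⁻¹ * ((b : MulAut P) x : P)) *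
          ((((b : MulAut P) x : P) : Ω)⁻¹ * ((a : MulAut P) ((b : MulAut P) x) : P))
        group
      rw [this, map_mul]
      exact Subgroup.mul_mem _ (ihb x) (iha _)
    | inv a _ iha =>
      intro x
      have h1 := iha ((a : MulAut P)⁻¹ x)
      have : (⟨(x : Ω)⁻¹ * (((a⁻¹ : F.autGroup P) : MulAut P) x : P), S.mul_mem (S.inv_mem (hP x.2))
          (hP (((a⁻¹ : F.autGroup P) : MulAut P) x).2)⟩ : S) =
          (⟨((((a : MulAut P)⁻¹ x : P)) : Ω)⁻¹ * ((a : MulAut P) ((a : MulAut P)⁻¹ x) : P),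
            S.mul_mem (S.inv_mem (hP ((a : MulAut P)⁻¹ x).2))
              (hP ((a : MulAut P) ((a : MulAut P)⁻¹ x)).2)⟩ : S)⁻¹ := by
        apply Subtype.ext
        show (x : Ω)⁻¹ * ((a : MulAut P)⁻¹ x : P) =
          (((((a : MulAut P)⁻¹ x : P)) : Ω)⁻¹ * ((a : MulAut P) ((a : MulAut P)⁻¹ x) : P))⁻¹
        rw [MulAut.apply_inv_self]
        group
      rw [this, map_inv]
      exact Subgroup.inv_mem _ h1
  have hle : F.hyperfocalSubgroup p ≤ (B.comap (conjOn hT)).map S.subtype := by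
    conv_lhs => unfold hyperfocalSubgroup
    rw [Subgroup.closure_le]
    rintro _ ⟨P, α, x, hP, hα, rfl⟩
    exact ⟨_, key P hP α hα x, rfl⟩
  intro x hx
  obtain ⟨s, hs, rfl⟩ := hle hx
  exact ⟨conjOn hT s, hs, fun t => conjOn_apply hT s t⟩

end Cfsg.Agent.Lib.Helper9_Factor6
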