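import Mathlib
import Cfsg.Prelude.Def_FusionSystem
import Cfsg.Agent.Lib.Helper9_OmegaChain
import Cfsg.Agent.Lib.Helper9_Metacyclic
import Cfsg.Agent.Lib.Helper9_Misc1

set_option autoImplicit false

namespace Cfsg.Agent.Lib.Helper9_FocalCyc

open Cfsg Cfsg.FusionSystem Cfsg.Agent.Lib.Helper9_FusionBasic Cfsg.Agent.Lib.Helper9_FusionSat
open Cfsg.Agent.Lib.Helper9_FusionNormal Cfsg.Agent.Lib.Helper9_Alperin
open Cfsg.Agent.Lib.Helper9_AlperinCor Cfsg.Agent.Lib.Helper9_Omega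
open Cfsg.Agent.Lib.Helper9_OmegaChain Cfsg.Agent.Lib.Helper9_Metacyclic
open Cfsg.Agent.Lib.Helper9_Misc1 Cfsg.Agent.Lib.Helper4_Cop

variable {Ω : Type*} [Group Ω] {S : Subgroup Ω}

/-- automorphisms fixing the elements of order `p` of `R` and normalising the cyclic subgroups of
order `4` -/
def cycStab {P : Type*} [Group P] (p : ℕ) (R : Subgroup P) : Subgroup (MulAut P) where
  carrier := {γ | ∀ x ∈ R, (x ^ p = 1 → γ x = x ∧ γ⁻¹ x = x) ∧
    (x ^ 4 = 1 → γ x ∈ Subgroup.zpowers x ∧ γ⁻¹ x ∈ Subgroup.zpowers x)}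
  one_mem' := by
    intro x _
    simp
  mul_mem' := by
    intro γ δ hγ hδ x hx
    constructor
    · intro hxp
      rw [MulAut.mul_apply, mul_inv_rev, MulAut.mul_apply, ((hδ x hx).1 hxp).1,
        ((hγ x hx).1 hxp).1, ((hγ x hx).1 hxp).2, ((hδ x hx).1 hxp).2]
      exact ⟨rfl, rfl⟩
    · intro hx4
      have key : ∀ a b : MulAut P, (∀ y ∈ R, y ^ 4 = 1 → a y ∈ Subgroup.zpowers y) →
          (∀ y ∈ R, y ^ 4 = 1 → b y ∈ Subgroup.zpowers y) → a (b x) ∈ Subgroup.zpowers x := by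
        intro a b ha hb
        obtain ⟨k, hk⟩ := Subgroup.mem_zpowers_iff.1 (hb x hx hx4)
        rw [← hk, map_zpow]
        exact Subgroup.zpow_mem _ (ha x hx hx4) k
      constructor
      · rw [MulAut.mul_apply]
        exact key γ δ (fun y hy h => ((hγ y hy).2 h).1) (fun y hy h => ((hδ y hy).2 h).1)
      · rw [mul_inv_rev, MulAut.mul_apply]
        exact key δ⁻¹ γ⁻¹ (fun y hy h => ((hδ y hy).2 h).2) (fun y hy h => ((hγ y hy).2 h).2)
  inv_mem' := by
    intro γ hγ x hx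
    refine ⟨fun h => ⟨((hγ x hx).1 h).2, ?_⟩, fun h => ⟨((hγ x hx).2 h).2, ?_⟩⟩
    · rw [inv_inv]; exact ((hγ x hx).1 h).1
    · rw [inv_inv]; exact ((hγ x hx).2 h).1

theorem focal_gen_mem (F : FusionSystem S) {P : Subgroup Ω} {φ : P →* Ω} (hφ : φ ∈ F.Hom P)
    (x : P) : (x : Ω)⁻¹ * φ x ∈ F.focalSubgroup :=
  Subgroup.subset_closure ⟨P, φ, x, hφ, rfl⟩

/-- S5300 -/
theorem isNormal_self_of_focal_cyclic [Finite S] (p : ℕ) [hp : Fact p.Prime] (hS : IsPGroup p S)
    (F : FusionSystem S) (hF : F.IsSaturated p)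
    (hnorm : ∀ x ∈ F.focalSubgroup, (x ^ p = 1 ∨ (p = 2 ∧ x ^ 4 = 1)) →
      ∀ s ∈ S, s * x * s⁻¹ ∈ Subgroup.zpowers x) : F.IsNormal S := by
  apply isNormal_self_of_normal_sylow p hS F hF
  intro P hfn hc hrad
  have hPS := hc.1
  have : Finite P := finite_of_le hPS
  have hPp : IsPGroup p P := isPGroup_of_le hS hPS
  obtain ⟨⟨-, R, hR⟩, -⟩ := sat_fullyNormalized p hS F hF hfn
  refine ⟨R, ?_⟩
  have hfoc : ∀ α ∈ F.autGroup P, ∀ x : P, ((x⁻¹ * α x : P) : Ω) ∈ F.focalSubgroup := by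
    intro α hα x
    exact focal_gen_mem F ((mem_autGroup_iff F hPS α).mp hα) x
  have hinv : ∀ α ∈ F.autGroup P, ∀ x ∈ F.focalSubgroup.subgroupOf P,
      α x ∈ F.focalSubgroup.subgroupOf P := by
    intro α hα x hx
    have h1 : α x = x * (x⁻¹ * α x) := by group
    rw [h1]
    exact Subgroup.mul_mem _ hx (hfoc α hα x)
  have hK : cycStab p (F.focalSubgroup.subgroupOf P) ⊓ F.autGroup P ≤ Inn P := by
    apply le_inn_of_normal_pgroup hrad _ inf_le_right
    · have : Finite (MulAut P) := Finite.of_injective (fun α : MulAut P => (α : P → P))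
        (fun a b h => by ext x; exact congrArg Subtype.val (congrFun h x))
      apply isPGroup_of_pprime_trivial
      rintro γ ⟨h1, h2⟩ hcop
      have hfix : ∀ x ∈ F.focalSubgroup.subgroupOf P, γ x = x := by
        apply fix_of_fix_small hPp γ hcop _ (hinv γ h2)
        intro x hx hsmall
        rcases hsmall with h | ⟨hp2, h4⟩
        · exact ((h1 x hx).1 h).1
        · -- `γ x ∈ ⟨x⟩`, so `γ² x = x`
          obtain ⟨k, hk⟩ := Subgroup.mem_zpowers_iff.1 ((h1 x hx).2 h4).1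
          have hx2 : (x ^ 2) ^ p = 1 := by rw [hp2, ← pow_mul]; exact h4
          have hfx2 := ((h1 (x ^ 2) (Subgroup.pow_mem _ hx 2)).1 hx2).1
          -- `γ x * x⁻¹` has square one and lies in the focal subgroup, so is fixed
          have hc : (γ x * x⁻¹) ^ p = 1 := by
            rw [hp2, ← hk]
            have hcomm : Commute (x ^ k) x⁻¹ := ((Commute.refl x).zpow_left k).inv_right
            rw [hcomm.mul_pow, hk, ← map_pow, hfx2, inv_pow, mul_inv_cancel]
          have hcm : γ x * x⁻¹ ∈ F.focalSubgroup.subgroupOf P :=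
            Subgroup.mul_mem _ (hinv γ h2 x hx) (Subgroup.inv_mem _ hx)
          have hcf := ((h1 _ hcm).1 hc).1
          exact fix_of_fix_mod hPp γ hcop (Subgroup.zpowers (γ x * x⁻¹)) (by
            intro d hd
            obtain ⟨j, rfl⟩ := Subgroup.mem_zpowers_iff.1 hd
            rw [map_zpow, hcf]) x (Subgroup.mem_zpowers _)
      ext x
      have h4 : γ x = x := by
        apply fix_of_fix_mod hPp γ hcop _ hfix
        have h5 := hfoc γ h2 x⁻¹
        have h6 : γ x * x⁻¹ = (x⁻¹⁻¹ * γ x⁻¹)⁻¹ := by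
          rw [map_inv]; group
        rw [h6]
        exact Subgroup.inv_mem _ h5
      rw [h4]
      rfl
    · rintro α hα k ⟨h1, h2⟩
      refine ⟨?_, Subgroup.mul_mem _ (Subgroup.mul_mem _ hα h2) (Subgroup.inv_mem _ hα)⟩
      intro x hx
      have hy := hinv α⁻¹ (Subgroup.inv_mem _ hα) x hx
      have e1 : (α * k * α⁻¹) x = α (k (α⁻¹ x)) := rfl
      have e2 : (α * k * α⁻¹)⁻¹ x = α (k⁻¹ (α⁻¹ x)) := by
        simp [MulAut.mul_apply, mul_assoc]
      constructor
      · intro hxp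
        have hyp : (α⁻¹ x) ^ p = 1 := by rw [← map_pow, hxp, map_one]
        rw [e1, e2, ((h1 _ hy).1 hyp).1, ((h1 _ hy).1 hyp).2]
        simp
      · intro hx4
        have hy4 : (α⁻¹ x) ^ 4 = 1 := by rw [← map_pow, hx4, map_one]
        have key : ∀ w ∈ Subgroup.zpowers (α⁻¹ x), α w ∈ Subgroup.zpowers x := by
          intro w hw
          obtain ⟨j, rfl⟩ := Subgroup.mem_zpowers_iff.1 hw
          rw [map_zpow, MulAut.apply_inv_self]
          exact Subgroup.zpow_mem _ (Subgroup.mem_zpowers x) j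
        rw [e1, e2]
        exact ⟨key _ ((h1 _ hy).2 hy4).1, key _ ((h1 _ hy).2 hy4).2⟩
  have hT : autInducedBy S P ≤ Inn P := by
    intro τ hτ
    apply hK
    refine ⟨?_, autInducedBy_le_autGroup F hPS hτ⟩
    have key : ∀ τ ∈ autInducedBy S P, ∀ x ∈ F.focalSubgroup.subgroupOf P,
        (x ^ p = 1 → τ x = x) ∧ (x ^ 4 = 1 → τ x ∈ Subgroup.zpowers x) := by
      intro τ hτ x hx
      obtain ⟨s, hs, hsx⟩ := (mem_autInducedBy_iff _ _ _).1 hτ
      have hzp : ∀ y : P, (y : Ω) ∈ Subgroup.zpowers (x : Ω) → y ∈ Subgroup.zpowers x := by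
        intro y hy
        obtain ⟨j, hj⟩ := Subgroup.mem_zpowers_iff.1 hy
        exact Subgroup.mem_zpowers_iff.2 ⟨j, Subtype.ext hj⟩
      have hfirst : x ^ p = 1 → τ x = x := by
        intro hxp
        have hxp' : (x : Ω) ^ p = 1 := congrArg Subtype.val hxp
        have hxS : (x : Ω) ∈ S := hPS x.2
        -- `⟨x⟩` is a normal cyclic subgroup of `S`
        have hN : (Subgroup.zpowers (⟨x, hxS⟩ : S)).Normal := by
          constructor
          intro n hn g
          obtain ⟨j, rfl⟩ := Subgroup.mem_zpowers_iff.1 hn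
          have h1 := hnorm x hx (Or.inl hxp') g g.2
          obtain ⟨i, hi⟩ := Subgroup.mem_zpowers_iff.1 h1
          have h2 : g * (⟨x, hxS⟩ : S) * g⁻¹ = (⟨x, hxS⟩ : S) ^ i := Subtype.ext hi.symm
          rw [← conj_zpow, h2]
          exact Subgroup.zpow_mem _ (Subgroup.zpow_mem _ (Subgroup.mem_zpowers _) i) j
        have h3 := central_of_pow hS (Subgroup.zpowers (⟨x, hxS⟩ : S))
          (Subgroup.mem_zpowers _) (Subtype.ext hxp') ⟨s, hs⟩
        apply Subtype.ext
        rw [hsx]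
        exact congrArg Subtype.val h3
      refine ⟨hfirst, fun hx4 => ?_⟩
      by_cases hp2 : p = 2
      · apply hzp
        rw [hsx]
        exact hnorm x hx (Or.inr ⟨hp2, congrArg Subtype.val hx4⟩) s hs
      · -- `x` is a `p`-element with `x⁴ = 1`, `p` odd: `x = 1`
        obtain ⟨k, hk⟩ := hPp x
        have hcop : Nat.Coprime 4 (p ^ k) := by
          apply Nat.Coprime.pow_right
          have : Nat.Coprime 2 p := (Nat.coprime_primes Nat.prime_two hp.out).2 (Ne.symm hp2)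
          exact Nat.Coprime.pow_left 2 this
        have hx1 : x = 1 := eq_one_of_coprime_pow hx4 hk hcop
        rw [hx1, map_one]
        exact Subgroup.one_mem _
    intro x hx
    have k1 := key τ hτ x hx
    have k2 := key τ⁻¹ (Subgroup.inv_mem _ hτ) x hx
    exact ⟨fun h => ⟨k1.1 h, k2.1 h⟩, fun h => ⟨k1.2 h, k2.2 h⟩⟩
  have hEq : autInducedBy S P = Inn P := le_antisymm hT (inn_le_autInducedBy hPS)
  rw [hR, hEq]
  infer_instance

end Cfsg.Agent.Lib.Helper9_FocalCyc
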