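import Mathlib
import Cfsg.Prelude.Def_FusionSystem
import Cfsg.Agent.Lib.Helper9_ModelF

set_option autoImplicit false

namespace Cfsg.Agent.Lib.Helper9_ModelL

open Cfsg Cfsg.FusionSystem Cfsg.Agent.Lib.Helper9_FusionBasic Cfsg.Agent.Lib.Helper9_FusionSat
open Cfsg.Agent.Lib.Helper9_FusionNormal Cfsg.Agent.Lib.Helper9_Alperin
open Cfsg.Agent.Lib.Helper9_AlperinCor Cfsg.Agent.Lib.Helper9_Centric
open Cfsg.Agent.Lib.Helper9_ModelB Cfsg.Agent.Lib.Helper9_ModelA Cfsg.Agent.Lib.Helper9_ModelF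

universe u

variable {Ω : Type u} [Group Ω] {S : Subgroup Ω}

/-- the "local model": for a centric subgroup `Q` normal in `S`, a finite group containing `S` as a
Sylow subgroup, with `Q` normal and self-centralizing, inducing `Aut_F(Q)` on `Q`. -/
theorem exists_local_model [Finite S] (p : ℕ) [Fact p.Prime] (hS : IsPGroup p S)
    (F : FusionSystem S) (hsat : F.IsSaturated p) {Q : Subgroup Ω} (hQS : Q ≤ S)
    (hSN : S ≤ Subgroup.normalizer (Q : Set Ω)) (hQ : F.IsCentric Q) :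
    ∃ (G : Type u) (_ : Group G) (_ : Finite G) (ι : S →* G) (π : G →* F.autGroup Q),
      Function.Injective ι ∧ Function.Surjective π ∧
      (∀ x, π (ι x) = cHom F Q hQS hSN x) ∧
      (∀ g, π g = 1 → ∃ z : S, (z : Ω) ∈ Q ∧ (z : Ω) ∈ Subgroup.centralizer (Q : Set Ω) ∧ g = ι z) ∧
      (∀ (g : G) (x : S) (hx : (x : Ω) ∈ Q),
        g * ι x * g⁻¹ = ι ⟨(((π g : F.autGroup Q) : MulAut Q) ⟨x, hx⟩ : Q),
          hQS (((π g : F.autGroup Q) : MulAut Q) ⟨x, hx⟩).2⟩) ∧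
      (∀ g : G, ∃ f : S → S, IsF F (NN (cHom F Q hQS hSN) (π g)) f ∧
        ∀ x ∈ NN (cHom F Q hQS hSN) (π g), g * ι x * g⁻¹ = ι (f x)) ∧
      (∃ T : Sylow p G, (T : Subgroup G) = ι.range) := by
  have hfn : F.IsFullyNormalized Q := by
    refine ⟨hQS, fun Q' _ => ?_⟩
    have h1 : normalizerIn S Q = S := le_antisymm inf_le_left (le_inf le_rfl hSN)
    rw [h1]
    exact card_normalizerIn_le Q'
  obtain ⟨⟨-, R, hR⟩, hrec⟩ := sat_fullyNormalized p hS F hsat hfn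
  obtain ⟨E, hD, hE1, hE2⟩ := exists_data p hS hsat hQS hSN hQ hrec
  have hfinA : Finite (F.autGroup Q) := finite_autGroup F hQS
  obtain ⟨c, hc⟩ : ∃ c : S →* F.autGroup Q, c = cHom F Q hQS hSN := ⟨_, rfl⟩
  rw [← hc] at hD hE1 ⊢
  have hc1 : ∀ z : S, c z = 1 ↔ (z : Ω) ∈ Subgroup.centralizer (Q : Set Ω) := by
    intro z; rw [hc]; exact cHom_eq_one_iff F Q hQS hSN z
  have hcQ : ∀ z : S, c z = 1 → (z : Ω) ∈ Q := fun z hz =>
    hQ.2 Q (isConj_refl F hQS) ⟨z.2, (hc1 z).1 hz⟩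
  have hcomm : IsMulCommutative c.ker := ⟨⟨fun z w => by
    apply Subtype.ext
    apply Subtype.ext
    have h1 := Subgroup.mem_centralizer_iff.1 ((hc1 z).1 z.2) w (hcQ w w.2)
    exact h1.symm⟩⟩
  have hrange : c.range = (R : Subgroup (F.autGroup Q)) := by
    rw [hR, hc]; exact cHom_range F Q hQS hSN
  have hnd : ¬ p ∣ c.range.index := by
    rw [hrange]; exact R.not_dvd_index
  have hcop : (Nat.card c.ker).Coprime c.range.index := by
    obtain ⟨k, hk⟩ := (IsPGroup.iff_card).1 (hS.to_subgroup c.ker)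
    rw [hk]
    exact Nat.Coprime.pow_left _ ((Nat.Prime.coprime_iff_not_dvd Fact.out).2 hnd)
  obtain ⟨G, _, hfinG, ι, π, hinj, hπι, hker, hlift⟩ := exists_model_group' hD hcop
  have hQNN : ∀ a (x : S), (x : Ω) ∈ Q → x ∈ NN c a := by
    intro a x hx; rw [hc]; exact mem_NN_of_mem hQS hSN a hx
  have hdec : ∀ g : G, ∃ g₀ z, c z = 1 ∧ g = g₀ * ι z ∧
      ∀ x ∈ NN c (π g), g₀ * ι x * g₀⁻¹ = ι (E (π g) x) := by
    intro g
    obtain ⟨g₀, h1, h2⟩ := hlift (π g)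
    obtain ⟨z, hz, hz'⟩ := hker (g₀⁻¹ * g) (by rw [_root_.map_mul, _root_.map_inv, h1]; group)
    exact ⟨g₀, z, hz, by rw [← hz']; group, h2⟩
  have hconj : ∀ (g : G), ∃ z, c z = 1 ∧ ∀ (x : S), x ∈ NN c (π g) →
      g * ι x * g⁻¹ = ι (E (π g) (z * x * z⁻¹)) := by
    intro g
    obtain ⟨g₀, z, hz, hg, H⟩ := hdec g
    refine ⟨z, hz, fun x hx => ?_⟩
    have hzN := ker_mem_NN hz (π g)
    rw [← H _ (Subgroup.mul_mem _ (Subgroup.mul_mem _ hzN hx) (Subgroup.inv_mem _ hzN))]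
    conv_lhs => rw [hg]
    rw [_root_.map_mul, _root_.map_mul, _root_.map_inv]
    group
  have hconjQ : ∀ (g : G) (x : S) (hx : (x : Ω) ∈ Q),
      g * ι x * g⁻¹ = ι ⟨(((π g : F.autGroup Q) : MulAut Q) ⟨x, hx⟩ : Q),
        hQS (((π g : F.autGroup Q) : MulAut Q) ⟨x, hx⟩).2⟩ := by
    intro g x hx
    obtain ⟨z, hz, h⟩ := hconj g
    have hzx : z * x * z⁻¹ = x := by
      apply Subtype.ext
      have h1 := Subgroup.mem_centralizer_iff.1 ((hc1 z).1 hz) x hx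
      show (z : Ω) * x * (z : Ω)⁻¹ = x
      rw [← h1]; group
    rw [h x (hQNN _ x hx), hzx]
    congr 1
    exact Subtype.ext (hE2 _ x hx)
  have hsurj : Function.Surjective π := fun a => by
    obtain ⟨g, hg, -⟩ := hlift a
    exact ⟨g, hg⟩
  have hcomap : ι.range = c.range.comap π := by
    ext g
    constructor
    · rintro ⟨x, rfl⟩
      exact ⟨x, (hπι x).symm⟩
    · rintro ⟨x, hx⟩
      obtain ⟨z, -, hz'⟩ := hker (g * (ι x)⁻¹) (by
        rw [_root_.map_mul, _root_.map_inv, hπι, hx]; group)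
      exact ⟨z * x, by rw [_root_.map_mul, ← hz']; group⟩
  refine ⟨G, inferInstance, hfinG, ι, π, hinj, hsurj, hπι, ?_, hconjQ, ?_, ?_⟩
  · intro g hg
    obtain ⟨z, hz, hz'⟩ := hker g hg
    exact ⟨z, hcQ z hz, (hc1 z).1 hz, hz'⟩
  · intro g
    obtain ⟨z, hz, h⟩ := hconj g
    have hzN := ker_mem_NN hz (π g)
    exact ⟨fun x => E (π g) (z * x * z⁻¹), (isF_conj F z _).comp (hE1 (π g)) (fun x hx =>
          Subgroup.mul_mem _ (Subgroup.mul_mem _ hzN hx) (Subgroup.inv_mem _ hzN)), h⟩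
  · have hp : IsPGroup p ι.range := hS.of_surjective ι.rangeRestrict ι.rangeRestrict_surjective
    have hidx : ¬ p ∣ ι.range.index := by
      rw [hcomap, Subgroup.index_comap_of_surjective _ hsurj]
      exact hnd
    exact ⟨hp.toSylow hidx, rfl⟩

end Cfsg.Agent.Lib.Helper9_ModelL
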