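import Mathlib
import Cfsg.Prelude.Def_FusionSystem
import Cfsg.Agent.Lib.Helper9_ModelL
import Cfsg.Agent.Lib.Helper9_FratGroup
import Cfsg.Agent.Lib.Helper9_KNorm3
import Cfsg.Agent.Lib.Helper9_NormCR

set_option autoImplicit false

namespace Cfsg.Agent.Lib.Helper9_FratFus

open Cfsg Cfsg.FusionSystem Cfsg.Agent.Lib.Helper9_FusionBasic Cfsg.Agent.Lib.Helper9_FusionSat
open Cfsg.Agent.Lib.Helper9_FusionNormal Cfsg.Agent.Lib.Helper9_Alperin
open Cfsg.Agent.Lib.Helper9_AlperinCor Cfsg.Agent.Lib.Helper9_Centric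
open Cfsg.Agent.Lib.Helper9_ModelB Cfsg.Agent.Lib.Helper9_ModelA Cfsg.Agent.Lib.Helper9_ModelF
open Cfsg.Agent.Lib.Helper9_ModelL Cfsg.Agent.Lib.Helper9_FratGroup

universe u

variable {Ω : Type u} [Group Ω] {S : Subgroup Ω}

theorem IsF.exists_aut [Finite S] {F : FusionSystem S} {D : Subgroup S} {f : S → S}
    (hf : IsF F D f) (hD : ∀ x, x ∈ D) :
    ∃ α ∈ F.autGroup S, ∀ x : S, α x = f x := by
  obtain ⟨φ, hφ, H⟩ := hf.exists_hom
  have hle : S ≤ D.map S.subtype := fun x hx => ⟨⟨x, hx⟩, hD _, rfl⟩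
  have hψ := restrict_mem F hφ hle
  have hr : (φ.comp (Subgroup.inclusion hle)).range = S := by
    apply Subgroup.eq_of_le_of_card_ge (range_le_of_hom F hψ)
    rw [Nat.card_congr (MonoidHom.ofInjective (F.injective_of_mem hψ)).toEquiv]
  obtain ⟨α, hα, h⟩ := exists_autGroup_of_range_eq F hψ hr
  refine ⟨α, hα, fun x => Subtype.ext ?_⟩
  rw [h x, H x (hD x)]
  rfl

theorem inner_of_frattini [Finite S] (p : ℕ) [Fact p.Prime] (hS : IsPGroup p S)
    (F : FusionSystem S) (hF : F.IsSaturated p) {Q : Subgroup Ω} (hQ : F.IsNormal Q)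
    (h1 : (commutator S).map S.subtype ≤ Q) (h2 : Q ≤ (frattini S).map S.subtype)
    (hA : F.autGroup S ≤ autInducedBy S S) : F = innerFusionSystem S := by
  apply fusionSystem_le_antisymm _ (inner_le F)
  apply alperin p hS F hF
  intro P hP
  rcases hP with hP | hess
  · rw [hP]
    exact hA.trans (autInducedBy_le_autGroup (innerFusionSystem S) le_rfl)
  · exfalso
    have hc := hess.1
    have hrad := radical_of_essential p hS F hess
    have hQP : Q ≤ P := isNormal_le_of_centric_radical hS hQ hc hrad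
    have hPS := hc.1
    have hcomm' : ∀ x y : S, ((x * y * x⁻¹ * y⁻¹ : S) : Ω) ∈ Q := by
      intro x y
      apply h1
      refine ⟨x * y * x⁻¹ * y⁻¹, ?_, rfl⟩
      rw [← commutatorElement_def, SetLike.mem_coe, commutator_def]
      exact Subgroup.commutator_mem_commutator (Subgroup.mem_top _) (Subgroup.mem_top _)
    have hSN : S ≤ Subgroup.normalizer (P : Set Ω) := by
      intro s hs
      apply mem_normalizer_of_forall
      · intro x hx
        have h3 := hQP (hcomm' ⟨s, hs⟩ ⟨x, hPS hx⟩)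
        have e : s * x * s⁻¹ = (s * x * s⁻¹ * x⁻¹) * x := by group
        rw [e]
        exact P.mul_mem h3 hx
      · intro x hx
        have h3 := hQP (hcomm' ⟨s, hs⟩⁻¹ ⟨x, hPS hx⟩)
        have e : s⁻¹ * x * s = (s⁻¹ * x * s⁻¹⁻¹ * x⁻¹) * x := by group
        rw [e]
        exact P.mul_mem h3 hx
    obtain ⟨G, _, _, ι, π, hinj, hsurj, hπι, hker, hconjP, hF', ⟨T, hT⟩⟩ :=
      exists_local_model p hS F hF hPS hSN hc
    have hsc := stronglyClosed_of_isNormal hQ
    have hQn : ((Q.subgroupOf S).map ι).Normal := by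
      constructor
      rintro _ ⟨x, hx, rfl⟩ g
      rw [hconjP g x (hQP hx)]
      exact ⟨_, stronglyClosed_aut_mem hsc hPS (π g).2 ⟨x, hQP hx⟩ hx, rfl⟩
    have hRn : ((P.subgroupOf S).map ι).Normal := by
      constructor
      rintro _ ⟨x, hx, rfl⟩ g
      rw [hconjP g x hx]
      exact ⟨_, (((π g : F.autGroup P) : MulAut P) ⟨x, hx⟩).2, rfl⟩
    have hC : Subgroup.centralizer (((P.subgroupOf S).map ι : Subgroup G) : Set G) ≤
        (P.subgroupOf S).map ι := by
      intro g hg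
      have hg' : ∀ x : S, (x : Ω) ∈ P → g * ι x * g⁻¹ = ι x := by
        intro x hx
        have h1 := Subgroup.mem_centralizer_iff.1 hg (ι x) ⟨x, hx, rfl⟩
        rw [← h1]; group
      have hπg : π g = 1 := by
        apply Subtype.ext
        ext x
        have h1 := hconjP g ⟨x, hPS x.2⟩ x.2
        rw [hg' _ x.2] at h1
        exact (congrArg (fun t : S => (t : Ω)) (hinj h1)).symm
      obtain ⟨z, hz, -, rfl⟩ := hker g hπg
      exact ⟨z, hz, rfl⟩
    have hle : ∀ X : Subgroup S, X.map ι ≤ T := by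
      intro X
      rw [hT]
      rintro _ ⟨x, -, rfl⟩
      exact ⟨x, rfl⟩
    have htop : (T : Subgroup G) = ⊤ := by
      apply eq_top_of_frattini T ((Q.subgroupOf S).map ι) ((P.subgroupOf S).map ι) (hle _) (hle _) hC
      · intro x hx y hy
        have hx' : x ∈ (T : Subgroup G) := hx
        have hy' : y ∈ (T : Subgroup G) := hy
        rw [hT] at hx' hy'
        obtain ⟨a, rfl⟩ := hx'
        obtain ⟨b, rfl⟩ := hy'
        exact ⟨a * b * a⁻¹ * b⁻¹, hcomm' a b, by simp⟩
      · have hmem : ∀ x : S, ι x ∈ (T : Subgroup G) := fun x => by rw [hT]; exact ⟨x, rfl⟩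
        have hφs : Function.Surjective (ι.codRestrict (T : Subgroup G) hmem) := by
          rintro ⟨y, hy⟩
          have hy' := hy
          rw [hT] at hy'
          obtain ⟨x, rfl⟩ := hy'
          exact ⟨x, rfl⟩
        have h3 := frattini_le_comap_frattini_of_surjective hφs
        rintro ⟨_, hy⟩ ⟨x, hx, rfl⟩
        obtain ⟨x', hx', hxx'⟩ := h2 hx
        have e : x' = x := Subtype.ext hxx'
        rw [e] at hx'
        exact h3 hx'
      · intro g hg
        have hgm : ∀ x : S, ∃ y : S, g * ι x * g⁻¹ = ι y := by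
          intro x
          have h3 := (Subgroup.mem_normalizer_iff.1 hg (ι x)).1 (by rw [hT]; exact ⟨x, rfl⟩)
          rw [hT] at h3
          obtain ⟨y, hy⟩ := h3
          exact ⟨y, hy.symm⟩
        obtain ⟨f, hf, hfg⟩ := hF' g
        have hD : ∀ x : S, x ∈ NN (cHom F P hPS hSN) (π g) := by
          intro x
          obtain ⟨y, hy⟩ := hgm x
          rw [mem_NN]
          refine ⟨y, ?_⟩
          rw [← hπι, ← hy, map_mul, map_mul, map_inv, hπι]
        obtain ⟨α, hα, hαf⟩ := IsF.exists_aut hf hD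
        have h4 := hA hα
        rw [mem_autInducedBy_iff] at h4
        obtain ⟨s, hs, hsα⟩ := h4
        have h5 : ∀ x : S, g * ι x * g⁻¹ = ι ⟨s, hs⟩ * ι x * (ι ⟨s, hs⟩)⁻¹ := by
          intro x
          rw [hfg x (hD x), ← hαf, ← map_inv, ← map_mul, ← map_mul]
          congr 1
          exact Subtype.ext (hsα x)
        have h6 : (ι ⟨s, hs⟩)⁻¹ * g ∈ (P.subgroupOf S).map ι := by
          apply hC
          refine Subgroup.mem_centralizer_iff.2 ?_
          rintro _ ⟨x, -, rfl⟩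
          have h7 := h5 x
          calc ι x * ((ι ⟨s, hs⟩)⁻¹ * g)
              = (ι ⟨s, hs⟩)⁻¹ * (ι ⟨s, hs⟩ * ι x * (ι ⟨s, hs⟩)⁻¹) * g := by group
            _ = (ι ⟨s, hs⟩)⁻¹ * (g * ι x * g⁻¹) * g := by rw [h7]
            _ = _ := by group
        have h8 := hle _ h6
        have e : g = ι ⟨s, hs⟩ * ((ι ⟨s, hs⟩)⁻¹ * g) := by group
        rw [e]
        exact Subgroup.mul_mem _ (by rw [hT]; exact ⟨_, rfl⟩) h8
    have hpG : IsPGroup p G := by
      have h3 : IsPGroup p (⊤ : Subgroup G) := htop ▸ T.2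
      exact h3.of_equiv Subgroup.topEquiv
    have hp : IsPGroup p (F.autGroup P) := hpG.of_surjective π hsurj
    obtain ⟨-, -, hn, E, hE⟩ := hess
    have := finite_autGroup F hPS
    exact not_spe_of_isPGroup (hp.to_quotient _) E hE

theorem autGroup_le_of_eq {F : FusionSystem S} {T : Subgroup Ω} (hTS : T = S)
    (N : FusionSystem T) (hNF : ∀ P, N.Hom P ⊆ F.Hom P)
    (hAS : F.autGroup S ≤ autInducedBy S S) : N.autGroup T ≤ autInducedBy T T := by
  subst hTS
  intro α hα
  apply hAS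
  rw [mem_autGroup_iff _ le_rfl] at hα ⊢
  exact hNF _ hα

theorem comm_frat_of_eq {T Q : Subgroup Ω} (hTS : T = S)
    (h1 : (commutator S).map S.subtype ≤ Q) (h2 : Q ≤ (frattini S).map S.subtype) :
    (commutator T).map T.subtype ≤ Q ∧ Q ≤ (frattini T).map T.subtype := by
  subst hTS
  exact ⟨h1, h2⟩

/-- S5222 -/
theorem normalizer_inner_of_frattini [Finite S] (p : ℕ) [Fact p.Prime] (hS : IsPGroup p S)
    (F : FusionSystem S) (hF : F.IsSaturated p)
    (hN : ∀ N : FusionSystem (normalizerIn S S), F.IsNormalizerSystem S N →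
      ∀ P : Subgroup Ω, N.Hom P = (innerFusionSystem (normalizerIn S S)).Hom P)
    (Q : Subgroup Ω) (h1 : (commutator S).map S.subtype ≤ Q)
    (h2 : Q ≤ (frattini S).map S.subtype) :
    ∀ N : FusionSystem (normalizerIn S Q), F.IsNormalizerSystem Q N →
      ∀ P : Subgroup Ω, N.Hom P = (innerFusionSystem (normalizerIn S Q)).Hom P := by
  intro N hNQ P
  have hQS : Q ≤ S := h2.trans (Subgroup.map_subtype_le _)
  have hcomm' : ∀ x y : S, ((x * y * x⁻¹ * y⁻¹ : S) : Ω) ∈ Q := by
    intro x y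
    apply h1
    refine ⟨x * y * x⁻¹ * y⁻¹, ?_, rfl⟩
    rw [← commutatorElement_def, SetLike.mem_coe, commutator_def]
    exact Subgroup.commutator_mem_commutator (Subgroup.mem_top _) (Subgroup.mem_top _)
  have hSN : S ≤ Subgroup.normalizer (Q : Set Ω) := by
    intro s hs
    apply mem_normalizer_of_forall
    · intro x hx
      have h3 := (hcomm' ⟨s, hs⟩ ⟨x, hQS hx⟩)
      have e : s * x * s⁻¹ = (s * x * s⁻¹ * x⁻¹) * x := by group
      rw [e]
      exact Q.mul_mem h3 hx
    · intro x hx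
      have h3 := (hcomm' ⟨s, hs⟩⁻¹ ⟨x, hQS hx⟩)
      have e : s⁻¹ * x * s = (s⁻¹ * x * s⁻¹⁻¹ * x⁻¹) * x := by group
      rw [e]
      exact Q.mul_mem h3 hx
  have hT : normalizerIn S Q = S := le_antisymm inf_le_left (le_inf le_rfl hSN)
  have hfn : F.IsFullyNormalized Q := by
    refine ⟨hQS, fun Q' _ => ?_⟩
    rw [hT]
    exact card_normalizerIn_le Q'
  have hsat := Cfsg.Agent.Lib.Helper9_KNorm3.normalizer_saturated p hS F hF Q hfn N hNQ
  have hQn := Cfsg.Agent.Lib.Helper9_NormCR.normalizer_isNormal hQS hNQ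
  have hfin : Finite (normalizerIn S Q) := finite_of_le inf_le_left
  have hp : IsPGroup p (normalizerIn S Q) := isPGroup_of_le hS inf_le_left
  obtain ⟨h1', h2'⟩ := comm_frat_of_eq hT h1 h2
  have hAS : F.autGroup S ≤ autInducedBy S S := by
    intro α hα
    obtain ⟨N₀, hN₀⟩ := exists_normalizerSystem F S le_rfl
    have h3 := (mem_autGroup_iff F le_rfl α).mp hα
    have h4 : S.subtype.comp α.toMonoidHom ∈ F.normalizerHom S S := by
      refine mem_normalizerHom_of F h3 (le_normalizerIn le_rfl)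
        (fun x => le_normalizerIn le_rfl (α x).2) S le_rfl le_rfl _ h3 (fun x => rfl)
        (fun x => (α x).2) (fun y hy => ⟨α.symm ⟨y, hy⟩, ?_⟩)
      show ((α (α.symm ⟨y, hy⟩) : S) : Ω) = y
      rw [MulEquiv.apply_symm_apply]
    rw [← hN₀, hN N₀ hN₀] at h4
    obtain ⟨-, g, hg, hgx⟩ := h4
    rw [mem_autInducedBy_iff]
    exact ⟨g, hg.1, fun x => hgx x⟩
  have hA := autGroup_le_of_eq hT N (fun P φ hφ => by
    rw [hNQ] at hφ
    exact hφ.1) hAS
  rw [inner_of_frattini p hp N hsat hQn h1' h2' hA]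

end Cfsg.Agent.Lib.Helper9_FratFus
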