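import Mathlib
import Cfsg.Prelude.Def_Transfer
import Cfsg.Agent.S0012
import Cfsg.Agent.S0013

set_option autoImplicit false

namespace Cfsg.Agent.Lib.Helper9_GenExtraA

open Cfsg

/-- a nonabelian group of order `p ^ 3` is extraspecial -/
theorem isExtraspecial_of_card {E : Type*} [Group E] {p : ℕ} [hp : Fact p.Prime]
    (hcard : Nat.card E = p ^ 3) (hna : ∃ a b : E, a * b ≠ b * a) : IsExtraspecial p E := by
  have hfin : Finite E := Nat.finite_of_card_ne_zero (by rw [hcard]; exact pow_ne_zero _ hp.out.ne_zero)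
  have hE : IsPGroup p E := IsPGroup.of_card hcard
  have hnc : ¬ IsMulCommutative E := by
    intro h
    obtain ⟨a, b, hab⟩ := hna
    exact hab (h.is_comm.comm a b)
  obtain ⟨k, hk0, hk⟩ := IsPGroup.card_center_eq_prime_pow hcard (by norm_num)
  have hidx := Subgroup.card_mul_index (Subgroup.center E)
  rw [hk, hcard] at hidx
  have hk3 : k ≤ 3 := by
    have h1 : p ^ k ∣ p ^ 3 := ⟨_, hidx.symm⟩
    exact (Nat.pow_dvd_pow_iff_le_right hp.out.one_lt).1 h1
  have hidx' : (Subgroup.center E).index = p ^ (3 - k) := by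
    have : p ^ k * p ^ (3 - k) = p ^ 3 := by rw [← pow_add]; congr 1; omega
    rw [← this] at hidx
    exact Nat.eq_of_mul_eq_mul_left (pow_pos hp.out.pos _) hidx
  have hk1 : k = 1 := by
    by_contra hne
    have : k = 2 ∨ k = 3 := by omega
    rcases this with rfl | rfl
    · have h1 : Nat.card (E ⧸ Subgroup.center E) = p := by
        rw [← Subgroup.index_eq_card, hidx']; simp
      have : IsCyclic (E ⧸ Subgroup.center E) := isCyclic_of_prime_card h1
      exact hnc (isMulCommutative_of_isCyclic_quotient_center_self E)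
    · have h1 : (Subgroup.center E).index = 1 := by rw [hidx']; simp
      have h2 : Subgroup.center E = ⊤ := Subgroup.index_eq_one.1 h1
      apply hnc
      refine ⟨⟨fun a b => ?_⟩⟩
      have : b ∈ Subgroup.center E := h2 ▸ Subgroup.mem_top b
      exact Subgroup.mem_center_iff.1 this a
  subst hk1
  rw [pow_one] at hk
  have hq : Nat.card (E ⧸ Subgroup.center E) = p ^ 2 := by
    rw [← Subgroup.index_eq_card, hidx']
  have hqc : IsMulCommutative (E ⧸ Subgroup.center E) := IsPGroup.isMulCommutative_of_card_eq_prime_sq hq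
  have hcomm_le : commutator E ≤ Subgroup.center E := by
    rw [← QuotientGroup.ker_mk' (Subgroup.center E)]
    rw [commutator_eq_closure, Subgroup.closure_le]
    rintro _ ⟨a, b, rfl⟩
    rw [SetLike.mem_coe, MonoidHom.mem_ker, map_commutatorElement, commutatorElement_eq_one_iff_mul_comm]
    exact hqc.is_comm.comm _ _
  have hcomm_ne : commutator E ≠ ⊥ := by
    intro h
    obtain ⟨a, b, hab⟩ := hna
    apply hab
    rw [← commutatorElement_eq_one_iff_mul_comm, ← Subgroup.mem_bot, ← h]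
    exact Subgroup.commutator_mem_commutator (Subgroup.mem_top a) (Subgroup.mem_top b)
  have hcomm_eq : commutator E = Subgroup.center E := by
    apply Subgroup.eq_of_le_of_card_ge hcomm_le
    rw [hk]
    have h1 : Nat.card (commutator E) ∣ p := hk ▸ Subgroup.card_dvd_of_le hcomm_le
    rcases (Nat.dvd_prime hp.out).1 h1 with h | h
    · exact absurd (Subgroup.card_eq_one.1 h) hcomm_ne
    · exact h.ge
  have hpow : ∀ x : E, x ^ p ∈ Subgroup.center E := by
    intro x
    rw [← QuotientGroup.eq_one_iff, QuotientGroup.mk_pow]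
    by_contra hne
    have h1 : orderOf (x : E ⧸ Subgroup.center E) ∣ p ^ 2 := hq ▸ orderOf_dvd_natCard _
    obtain ⟨j, hj, hj2⟩ := (Nat.dvd_prime_pow hp.out).1 h1
    have hj' : j = 2 := by
      by_contra hcon
      have hj1 : j ≤ 1 := by omega
      apply hne
      have : orderOf (x : E ⧸ Subgroup.center E) ∣ p := by
        rw [hj2]
        calc p ^ j ∣ p ^ 1 := pow_dvd_pow p hj1
          _ = p := pow_one p
      exact orderOf_dvd_iff_pow_eq_one.1 this
    rw [hj', ← hq] at hj2
    have : IsCyclic (E ⧸ Subgroup.center E) := isCyclic_of_orderOf_eq_card _ hj2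
    exact hnc (isMulCommutative_of_isCyclic_quotient_center_self E)
  refine ⟨⟨hE, ?_, hcomm_eq⟩, hk⟩
  apply le_antisymm
  · exact Cfsg.Agent.S0013.result p hE (Subgroup.center E) hcomm_le hpow
  · rw [← hcomm_eq]
    exact (Cfsg.Agent.S0012.result p hE).1

/-- recognition of the dihedral group of order 8 -/
theorem dihedral_of_gens {E : Type*} [Group E] (hcard : Nat.card E = 8) (ρ σ : E)
    (hρ4 : ρ ^ 4 = 1) (hρ2 : ρ ^ 2 ≠ 1) (hσ : σ * σ = 1) (hσρ : σ * ρ * σ⁻¹ = ρ⁻¹)
    (hσn : σ ∉ Subgroup.zpowers ρ) : Nonempty (E ≃* DihedralGroup 4) := by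
  have hfin : Finite E := Nat.finite_of_card_ne_zero (by rw [hcard]; norm_num)
  have h4 : zmultiplesHom (Additive E) (Additive.ofMul ρ) 4 = 0 := by
    show (4 : ℤ) • Additive.ofMul ρ = 0
    have : (4 : ℤ) • Additive.ofMul ρ = Additive.ofMul (ρ ^ (4 : ℤ)) := rfl
    rw [this]
    have h2 : ρ ^ (4 : ℤ) = ρ ^ (4 : ℕ) := by norm_cast
    rw [h2, hρ4]
    rfl
  let g : ZMod 4 →+ Additive E := ZMod.lift 4 ⟨zmultiplesHom (Additive E) (Additive.ofMul ρ), h4⟩
  let γ : ZMod 4 → E := fun i => Additive.toMul (g i)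
  have γadd : ∀ i j, γ (i + j) = γ i * γ j := fun i j => by
    show Additive.toMul (g (i + j)) = _
    rw [map_add]; rfl
  have γzero : γ 0 = 1 := by
    show Additive.toMul (g 0) = _
    rw [map_zero]; rfl
  have γneg : ∀ i, γ (-i) = (γ i)⁻¹ := fun i => by
    show Additive.toMul (g (-i)) = _
    rw [map_neg]; rfl
  have γsub : ∀ i j, γ (i - j) = γ i * (γ j)⁻¹ := fun i j => by
    rw [sub_eq_add_neg, γadd, γneg]
  have γone : γ 1 = ρ := by
    show Additive.toMul (g 1) = _
    have : g 1 = zmultiplesHom (Additive E) (Additive.ofMul ρ) 1 := by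
      have := ZMod.lift_coe 4 (⟨zmultiplesHom (Additive E) (Additive.ofMul ρ), h4⟩ :
        { f : ℤ →+ Additive E // f 4 = 0 }) 1
      simpa using this
    rw [this]
    simp
  have γmem : ∀ i, γ i ∈ Subgroup.zpowers ρ := by
    intro i
    have : ∀ k : ℕ, γ (k : ZMod 4) ∈ Subgroup.zpowers ρ := by
      intro k
      induction k with
      | zero => simp [γzero]
      | succ k ih =>
        rw [Nat.cast_succ, γadd, γone]
        exact Subgroup.mul_mem _ ih (Subgroup.mem_zpowers ρ)
    have h := this i.val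
    rwa [ZMod.natCast_zmod_val] at h
  have conjγ : ∀ i, σ * γ i * σ⁻¹ = (γ i)⁻¹ := by
    intro i
    obtain ⟨k, hk⟩ := γmem i
    rw [← hk]
    show σ * ρ ^ k * σ⁻¹ = (ρ ^ k)⁻¹
    rw [← conj_zpow, hσρ, inv_zpow]
  have hσinv : σ⁻¹ = σ := inv_eq_of_mul_eq_one_left hσ
  have swap : ∀ i, γ i * σ = σ * (γ i)⁻¹ := by
    intro i
    have := conjγ i
    rw [hσinv] at this
    calc γ i * σ = σ * (σ * γ i * σ) := by
          rw [mul_assoc σ, ← mul_assoc σ σ, hσ, one_mul]
      _ = σ * (γ i)⁻¹ := by rw [this]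
  let f : DihedralGroup 4 → E := fun d => match d with
    | DihedralGroup.r i => γ i
    | DihedralGroup.sr i => σ * γ i
  have hf : ∀ a b, f (a * b) = f a * f b := by
    rintro (i | i) (j | j)
    · show γ (i + j) = γ i * γ j
      exact γadd i j
    · show σ * γ (j - i) = γ i * (σ * γ j)
      rw [← mul_assoc, swap, γsub, mul_assoc]
      congr 1
      obtain ⟨k, hk⟩ := γmem i
      obtain ⟨l, hl⟩ := γmem j
      rw [← hk, ← hl]
      show ρ ^ l * (ρ ^ k)⁻¹ = (ρ ^ k)⁻¹ * ρ ^ l
      rw [← zpow_neg, ← zpow_add, ← zpow_add, add_comm]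
    · show σ * γ (i + j) = σ * γ i * γ j
      rw [γadd, mul_assoc]
    · show γ (j - i) = σ * γ i * (σ * γ j)
      rw [mul_assoc, ← mul_assoc (γ i), swap, mul_assoc, ← mul_assoc σ σ, hσ, one_mul, γsub]
      obtain ⟨k, hk⟩ := γmem i
      obtain ⟨l, hl⟩ := γmem j
      rw [← hk, ← hl]
      show ρ ^ l * (ρ ^ k)⁻¹ = (ρ ^ k)⁻¹ * ρ ^ l
      rw [← zpow_neg, ← zpow_add, ← zpow_add, add_comm]
  let F : DihedralGroup 4 →* E := MonoidHom.mk' f hf
  have γinj : ∀ i, γ i = 1 → i = 0 := by
    intro i hi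
    have h2 : γ 2 = ρ ^ 2 := by
      have : (2 : ZMod 4) = 1 + 1 := by decide
      rw [this, γadd, γone, sq]
    have h1ne : ρ ≠ 1 := by
      rintro rfl
      simp at hρ2
    have h3 : γ 3 = ρ ^ 3 := by
      have : (3 : ZMod 4) = 2 + 1 := by decide
      rw [this, γadd, h2, γone]
      exact (pow_succ ρ 2).symm
    have h3ne : ρ ^ 3 ≠ 1 := by
      intro h
      apply h1ne
      have : ρ ^ 4 = ρ ^ 3 * ρ := pow_succ ρ 3
      rw [hρ4, h, one_mul] at this
      exact this.symm
    fin_cases i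
    · rfl
    · exact absurd (γone ▸ hi) h1ne
    · exact absurd (h2 ▸ hi) hρ2
    · exact absurd (h3 ▸ hi) h3ne
  have hinj : Function.Injective F := by
    rw [injective_iff_map_eq_one]
    rintro (i | i) h
    · have : γ i = 1 := h
      rw [γinj i this]
      rfl
    · exfalso
      have h1 : σ * γ i = 1 := h
      apply hσn
      have : σ = (γ i)⁻¹ := eq_inv_of_mul_eq_one_left h1
      rw [this]
      exact Subgroup.inv_mem _ (γmem i)
  have hbij : Function.Bijective F := by
    rw [Nat.bijective_iff_injective_and_card]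
    exact ⟨hinj, by rw [DihedralGroup.nat_card, hcard]⟩
  exact ⟨(MulEquiv.ofBijective F hbij).symm⟩

end Cfsg.Agent.Lib.Helper9_GenExtraA
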