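import Mathlib
import Cfsg.Prelude.Def_Transfer
import Cfsg.Agent.Lib.Helper9_GenExtraA
import Cfsg.Agent.Lib.Helper9_Metacyclic
import Cfsg.Agent.Lib.Helper9_Omega
import Cfsg.Agent.Lib.Helper7_Frat
import Cfsg.Agent.Lib.Helper3_PComp

set_option autoImplicit false

namespace Cfsg.Agent.Lib.Helper9_GenExtraB

open Cfsg Cfsg.Agent.Lib.Helper9_GenExtraA
open scoped commutatorElement

variable {G : Type*} [Group G]

theorem isCoatom_of_index_prime [Finite G] {p : ℕ} (hp : p.Prime) {M : Subgroup G}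
    (hM : M.index = p) : IsCoatom M := by
  constructor
  · intro h
    rw [h, Subgroup.index_top] at hM
    exact hp.one_lt.ne hM
  · intro K hK
    have h1 : K.index ∣ p := hM ▸ Subgroup.index_dvd_of_le hK.le
    rcases (Nat.dvd_prime hp).1 h1 with h | h
    · exact Subgroup.index_eq_one.1 h
    · exfalso
      have h2 := Subgroup.card_mul_index K
      have h3 := Subgroup.card_mul_index M
      rw [h] at h2
      rw [hM, ← h2] at h3
      have h4 : Nat.card M = Nat.card K := Nat.eq_of_mul_eq_mul_right hp.pos h3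
      exact hK.ne (Subgroup.eq_of_le_of_card_ge hK.le h4.ge)

section

variable [Finite G] {p : ℕ} [hp : Fact p.Prime] (hG : IsPGroup p G)
  (hcard : Nat.card (commutator G) = p)

include hG hcard in
theorem comm_central {d : G} (hd : d ∈ commutator G) (g : G) : g * d = d * g := by
  have : IsCyclic (commutator G) := isCyclic_of_prime_card hcard
  have h1 : d ^ p = 1 := by
    have := pow_card_eq_one' (G := commutator G) (x := ⟨d, hd⟩)
    rw [hcard] at this
    exact congrArg Subtype.val this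
  have := Cfsg.Agent.Lib.Helper9_Metacyclic.central_of_pow hG (commutator G) hd h1 g
  rw [mul_inv_eq_iff_eq_mul] at this
  exact this

theorem commEl_mem (a b : G) : ⁅a, b⁆ ∈ commutator G :=
  Subgroup.commutator_mem_commutator (Subgroup.mem_top a) (Subgroup.mem_top b)

include hcard in
theorem pow_eq_one_of_mem_comm {d : G} (hd : d ∈ commutator G) : d ^ p = 1 := by
  have := pow_card_eq_one' (G := commutator G) (x := ⟨d, hd⟩)
  rw [hcard] at this
  exact congrArg Subtype.val this

include hcard in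
theorem mem_zpowers_of_comm {d e : G} (hd : d ∈ commutator G) (hd1 : d ≠ 1)
    (he : e ∈ commutator G) : e ∈ Subgroup.zpowers d := by
  have h := mem_zpowers_of_prime_card (G := commutator G) hcard (g := ⟨d, hd⟩) (g' := ⟨e, he⟩)
    (fun h => hd1 (congrArg Subtype.val h))
  obtain ⟨k, hk⟩ := h
  exact ⟨k, congrArg Subtype.val hk⟩

include hG hcard in
/-- `(a b)^p = a^p b^p` for odd `p` -/
theorem mul_pow_p (hp2 : p ≠ 2) (a b : G) : (a * b) ^ p = a ^ p * b ^ p := by
  have hc : b * a = ⁅b, a⁆ * a * b := by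
    rw [commutatorElement_def]; group
  have hcm := commEl_mem b a
  have h := Cfsg.Agent.Lib.Helper9_Omega.mul_pow_of_central (x := a) (y := b) (c := ⁅b, a⁆)
    (comm_central hG hcard hcm a).symm (comm_central hG hcard hcm b).symm hc p
  rw [h]
  have hdvd : p ∣ p.choose 2 := by
    apply hp.out.dvd_choose_self (by norm_num)
    have := hp.out.two_le
    omega
  obtain ⟨k, hk⟩ := hdvd
  rw [hk, pow_mul, pow_eq_one_of_mem_comm hcard hcm, one_pow, mul_one]

end


section decomp

variable [Finite G] {p : ℕ} [hp : Fact p.Prime] (hG : IsPGroup p G)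
  (hfrat : frattini G = commutator G) (hcard : Nat.card (commutator G) = p)
  (M : Subgroup G) (hab : ∀ a ∈ M, ∀ b ∈ M, a * b = b * a) (hex : ∀ a ∈ M, a ^ p = 1)
  (hidx : M.index = p)

include hfrat hidx in
theorem comm_le_M : commutator G ≤ M :=
  hfrat ▸ frattini_le_coatom (isCoatom_of_index_prime hp.out hidx)

include hidx in
theorem sup_zpowers_eq_top {x : G} (hx : x ∉ M) : M ⊔ Subgroup.zpowers x = ⊤ :=
  (isCoatom_of_index_prime hp.out hidx).2 _ (lt_of_le_of_ne le_sup_left
    (fun h => hx (h ▸ (le_sup_right : Subgroup.zpowers x ≤ M ⊔ Subgroup.zpowers x)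
      (Subgroup.mem_zpowers x))))

include hcard in
theorem not_comm : ∃ a b : G, a * b ≠ b * a := by
  by_contra hcon
  push Not at hcon
  have : commutator G = ⊥ := by
    rw [eq_bot_iff, commutator_eq_closure, Subgroup.closure_le]
    rintro _ ⟨a, b, rfl⟩
    rw [SetLike.mem_coe, Subgroup.mem_bot, commutatorElement_eq_one_iff_mul_comm]
    exact hcon a b
  rw [this, Subgroup.card_bot] at hcard
  exact hp.out.one_lt.ne hcard

include hab hidx in
theorem mem_center_of {x m : G} (hx : x ∉ M) (hm : m ∈ M) (h : x * m = m * x) :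
    m ∈ Subgroup.center G := by
  have h1 : M ⊔ Subgroup.zpowers x ≤ Subgroup.centralizer {m} := by
    apply sup_le
    · intro a ha
      rw [Subgroup.mem_centralizer_singleton_iff]
      exact hab a ha m hm
    · rw [Subgroup.zpowers_le, Subgroup.mem_centralizer_singleton_iff]
      exact h
  rw [sup_zpowers_eq_top M hidx hx] at h1
  rw [Subgroup.mem_center_iff]
  intro g
  have := h1 (Subgroup.mem_top g)
  rw [Subgroup.mem_centralizer_singleton_iff] at this
  exact this

include hcard hab hidx in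
theorem center_le : Subgroup.center G ≤ M := by
  intro c hc
  by_contra hcM
  have h1 : M ≤ Subgroup.center G := fun m hm =>
    mem_center_of M hab hidx hcM hm ((Subgroup.mem_center_iff.1 hc m).symm)
  have h2 : M ⊔ Subgroup.zpowers c ≤ Subgroup.center G :=
    sup_le h1 (by rw [Subgroup.zpowers_le]; exact hc)
  rw [sup_zpowers_eq_top M hidx hcM] at h2
  obtain ⟨a, b, hne⟩ := not_comm (p := p) hcard
  exact hne (Subgroup.mem_center_iff.1 (h2 (Subgroup.mem_top b)) a)

include hidx in
theorem exists_not_mem : ∃ x : G, x ∉ M := by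
  by_contra hcon
  push Not at hcon
  have : M = ⊤ := eq_top_iff.2 (fun x _ => hcon x)
  rw [this, Subgroup.index_top] at hidx
  exact hp.out.one_lt.ne hidx

include hG hcard in
theorem commEl_mul (x a b : G) : ⁅x, a * b⁆ = ⁅x, a⁆ * ⁅x, b⁆ := by
  have h1 : ⁅x, a * b⁆ = ⁅x, a⁆ * (a * ⁅x, b⁆ * a⁻¹) := by
    simp only [commutatorElement_def]; group
  rw [h1, comm_central hG hcard (commEl_mem x b) a, mul_inv_cancel_right]

include hG hcard hab hidx in
theorem card_M : Nat.card M = p * Nat.card (Subgroup.center G) := by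
  obtain ⟨x, hx⟩ := exists_not_mem (p := p) M hidx
  let f : M →* G := MonoidHom.mk' (fun m => ⁅x, (m : G)⁆)
    (fun a b => commEl_mul hG hcard x a b)
  have hker : f.ker = (Subgroup.center G).subgroupOf M := by
    ext m
    rw [MonoidHom.mem_ker, Subgroup.mem_subgroupOf]
    show ⁅x, (m : G)⁆ = 1 ↔ _
    rw [commutatorElement_eq_one_iff_mul_comm]
    constructor
    · exact fun h => mem_center_of M hab hidx hx m.2 h
    · exact fun h => Subgroup.mem_center_iff.1 h x
  have hrle : f.range ≤ commutator G := by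
    rintro _ ⟨m, rfl⟩
    exact commEl_mem x m
  have hrne : f.range ≠ ⊥ := by
    intro h
    have h1 : ∀ m ∈ M, x * m = m * x := by
      intro m hm
      have : f ⟨m, hm⟩ ∈ f.range := ⟨_, rfl⟩
      rw [h, Subgroup.mem_bot] at this
      exact commutatorElement_eq_one_iff_mul_comm.1 this
    have h2 : M ⊔ Subgroup.zpowers x ≤ Subgroup.centralizer {x} := by
      apply sup_le
      · intro a ha
        rw [Subgroup.mem_centralizer_singleton_iff]
        exact (h1 a ha).symm
      · rw [Subgroup.zpowers_le, Subgroup.mem_centralizer_singleton_iff]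
    rw [sup_zpowers_eq_top M hidx hx] at h2
    apply hx
    apply center_le hcard M hab hidx
    rw [Subgroup.mem_center_iff]
    intro g
    have := h2 (Subgroup.mem_top g)
    rw [Subgroup.mem_centralizer_singleton_iff] at this
    exact this
  have hrc : Nat.card f.range = p := by
    have h1 : Nat.card f.range ∣ p := hcard ▸ Subgroup.card_dvd_of_le hrle
    rcases (Nat.dvd_prime hp.out).1 h1 with h | h
    · exact absurd (Subgroup.card_eq_one.1 h) hrne
    · exact h
  have h1 := Subgroup.card_mul_index f.ker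
  rw [Subgroup.index_ker, hrc, hker,
    Nat.card_congr (Subgroup.subgroupOfEquivOfLe (center_le hcard M hab hidx)).toEquiv] at h1
  rw [← h1, mul_comm]

theorem frattini_eq_bot_of {H : Type*} [Group H] [Finite H] (hH : IsPGroup p H)
    (hc : ∀ a b : H, a * b = b * a) (he : ∀ a : H, a ^ p = 1) : frattini H = ⊥ := by
  rw [eq_bot_iff]
  apply Cfsg.Agent.S0013.result p hH ⊥
  · rw [commutator_eq_closure, Subgroup.closure_le]
    rintro _ ⟨a, b, rfl⟩
    rw [SetLike.mem_coe, Subgroup.mem_bot, commutatorElement_eq_one_iff_mul_comm]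
    exact hc a b
  · intro x
    rw [Subgroup.mem_bot]
    exact he x

include hG hfrat hcard hab hex hidx in
theorem exists_decomp : ∃ E A : Subgroup G, A ≤ Subgroup.center G ∧ E ⊓ A = ⊥ ∧
    Nat.card E = p ^ 3 ∧ Nat.card E * Nat.card A = Nat.card G := by
  have hZM := center_le hcard M hab hidx
  have hDZ : commutator G ≤ Subgroup.center G := by
    intro d hd
    rw [Subgroup.mem_center_iff]
    exact fun g => comm_central hG hcard hd g
  have hΦZ : frattini (Subgroup.center G) = ⊥ :=
    frattini_eq_bot_of (hG.to_subgroup _)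
      (fun a b => Subtype.ext (Subgroup.mem_center_iff.1 b.2 a))
      (fun a => Subtype.ext (hex a (hZM a.2)))
  have hDn : ((commutator G).subgroupOf (Subgroup.center G)).Normal := inferInstance
  have hDc : IsMulCommutative ((commutator G).subgroupOf (Subgroup.center G)) :=
    ⟨⟨fun a b => Subtype.ext (Subtype.ext (Subgroup.mem_center_iff.1 (b : Subgroup.center G).2 a))⟩⟩
  obtain ⟨H, hH⟩ := Cfsg.Agent.Lib.Helper7_Frat.exists_complement_of_frattini_eq_bot hΦZ
    ((commutator G).subgroupOf (Subgroup.center G))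
  obtain ⟨A, hA⟩ : ∃ A : Subgroup G, A = H.map (Subgroup.center G).subtype := ⟨_, rfl⟩
  have hAZ : A ≤ Subgroup.center G := hA ▸ Subgroup.map_subtype_le H
  have hcA : Nat.card A = Nat.card H := by
    rw [hA, Subgroup.card_map_of_injective (Subgroup.subtype_injective _)]
  have hc1 : p * Nat.card A = Nat.card (Subgroup.center G) := by
    have := hH.card_mul_card
    rwa [Nat.card_congr (Subgroup.subgroupOfEquivOfLe hDZ).toEquiv, hcard, ← hcA] at this
  have hAD : ∀ a ∈ A, a ∈ commutator G → a = 1 := by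
    intro a ha hd
    rw [hA] at ha
    obtain ⟨h, hh, rfl⟩ := ha
    have : h ∈ (commutator G).subgroupOf (Subgroup.center G) ⊓ H := ⟨hd, hh⟩
    rw [hH.disjoint.eq_bot, Subgroup.mem_bot] at this
    rw [this]; rfl
  -- the quotient
  have hΦQ : frattini (G ⧸ commutator G) = ⊥ := by
    apply frattini_eq_bot_of (hG.to_quotient _)
    · intro a b
      obtain ⟨a, rfl⟩ := QuotientGroup.mk_surjective a
      obtain ⟨b, rfl⟩ := QuotientGroup.mk_surjective b
      rw [← QuotientGroup.mk_mul, ← QuotientGroup.mk_mul, QuotientGroup.eq]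
      have : (a * b)⁻¹ * (b * a) = ⁅b⁻¹, a⁻¹⁆ := by
        rw [commutatorElement_def]; group
      rw [this]
      exact commEl_mem _ _
    · intro a
      obtain ⟨a, rfl⟩ := QuotientGroup.mk_surjective a
      rw [← QuotientGroup.mk_pow, QuotientGroup.eq_one_iff, ← hfrat]
      exact (Cfsg.Agent.S0012.result p hG).2 a
  have hAn : A.Normal := by
    constructor
    intro a ha g
    rw [Subgroup.mem_center_iff.1 (hAZ ha) g, mul_inv_cancel_right]
    exact ha
  have hAbn : (A.map (QuotientGroup.mk' (commutator G))).Normal :=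
    hAn.map _ (QuotientGroup.mk'_surjective _)
  have hAbc : IsMulCommutative (A.map (QuotientGroup.mk' (commutator G))) := by
    refine ⟨⟨?_⟩⟩
    rintro ⟨_, a, ha, rfl⟩ ⟨_, b, hb, rfl⟩
    apply Subtype.ext
    show QuotientGroup.mk' (commutator G) a * QuotientGroup.mk' (commutator G) b =
      QuotientGroup.mk' (commutator G) b * QuotientGroup.mk' (commutator G) a
    rw [← map_mul, ← map_mul, Subgroup.mem_center_iff.1 (hAZ hb) a]
  obtain ⟨K, hK⟩ := Cfsg.Agent.Lib.Helper7_Frat.exists_complement_of_frattini_eq_bot hΦQ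
    (A.map (QuotientGroup.mk' (commutator G)))
  have hcAb : Nat.card (A.map (QuotientGroup.mk' (commutator G))) = Nat.card A := by
    have hinj : Function.Injective ((QuotientGroup.mk' (commutator G)).comp A.subtype) := by
      rw [injective_iff_map_eq_one]
      intro a ha
      apply Subtype.ext
      exact hAD a a.2 ((QuotientGroup.eq_one_iff _).1 ha)
    have hr : ((QuotientGroup.mk' (commutator G)).comp A.subtype).range =
        A.map (QuotientGroup.mk' (commutator G)) := by
      rw [MonoidHom.range_comp, Subgroup.range_subtype]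
    rw [← hr]
    exact (Nat.card_congr (MonoidHom.ofInjective hinj).toEquiv).symm
  have hc2 : Nat.card A * Nat.card K = Nat.card (G ⧸ commutator G) := by
    have := hK.card_mul_card
    rwa [hcAb] at this
  have hc3 : p * Nat.card (G ⧸ commutator G) = Nat.card G := by
    rw [← Subgroup.index_eq_card, ← hcard]
    exact Subgroup.card_mul_index _
  have hc4 : Nat.card M * p = Nat.card G := hidx ▸ Subgroup.card_mul_index M
  have hc5 := card_M hG hcard M hab hidx
  have hApos : 0 < Nat.card A := Nat.card_pos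
  have hppos : 0 < p := hp.out.pos
  have hk : Nat.card K = p ^ 2 := by
    have e1 : p * (Nat.card A * Nat.card K) = p * (Nat.card A * p ^ 2) := by
      rw [hc2, hc3, ← hc4, hc5, ← hc1]; ring
    exact Nat.eq_of_mul_eq_mul_left hApos (Nat.eq_of_mul_eq_mul_left hppos e1)
  have hcE : Nat.card (K.comap (QuotientGroup.mk' (commutator G))) = p ^ 3 := by
    rw [Cfsg.Agent.Lib.Helper3_PComp.card_comap_of_surjective _
      (QuotientGroup.mk'_surjective _), QuotientGroup.ker_mk', hcard, hk]
    ring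
  refine ⟨K.comap (QuotientGroup.mk' (commutator G)), A, hAZ, ?_, hcE, ?_⟩
  · rw [eq_bot_iff]
    rintro x ⟨hxE, hxA⟩
    have h1 : QuotientGroup.mk' (commutator G) x ∈
        A.map (QuotientGroup.mk' (commutator G)) ⊓ K := ⟨⟨x, hxA, rfl⟩, hxE⟩
    rw [hK.disjoint.eq_bot, Subgroup.mem_bot] at h1
    rw [Subgroup.mem_bot]
    exact hAD x hxA ((QuotientGroup.eq_one_iff _).1 h1)
  · rw [hcE, ← hc4, hc5, ← hc1]; ring

/-- internal direct product -/
theorem equiv_prod_of {E A : Subgroup G} (hA : A ≤ Subgroup.center G) (hEA : E ⊓ A = ⊥)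
    (hc : Nat.card E * Nat.card A = Nat.card G) : Nonempty (G ≃* E × A) := by
  let φ : E × A →* G := MonoidHom.noncommCoprod E.subtype A.subtype
    (fun e a => (Subgroup.mem_center_iff.1 (hA a.2) e))
  have hinj : Function.Injective φ := by
    rw [injective_iff_map_eq_one]
    rintro ⟨e, a⟩ h
    have h1 : (e : G) * (a : G) = 1 := h
    have h2 : (e : G) = (a : G)⁻¹ := eq_inv_of_mul_eq_one_left h1
    have h3 : (e : G) ∈ E ⊓ A := ⟨e.2, h2 ▸ A.inv_mem a.2⟩
    rw [hEA, Subgroup.mem_bot] at h3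
    have h4 : (a : G) = 1 := by rw [h3, one_mul] at h1; exact h1
    exact Prod.ext (Subtype.ext h3) (Subtype.ext h4)
  have hbij : Function.Bijective φ := by
    rw [Nat.bijective_iff_injective_and_card]
    exact ⟨hinj, by rw [Nat.card_prod, hc]⟩
  exact ⟨(MulEquiv.ofBijective φ hbij).symm⟩


include hG hfrat hcard hab hex hidx in
theorem exists_nonabelian_decomp : ∃ E A : Subgroup G, A ≤ Subgroup.center G ∧ E ⊓ A = ⊥ ∧
    Nat.card E = p ^ 3 ∧ Nat.card E * Nat.card A = Nat.card G ∧
    ∃ a ∈ E, ∃ b ∈ E, a * b ≠ b * a := by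
  obtain ⟨E, A, hA, hEA, hE, hc⟩ := exists_decomp hG hfrat hcard M hab hex hidx
  refine ⟨E, A, hA, hEA, hE, hc, ?_⟩
  by_contra hcon
  push Not at hcon
  obtain ⟨e⟩ := equiv_prod_of hA hEA hc
  obtain ⟨a, b, hne⟩ := not_comm (p := p) hcard
  apply hne
  apply e.injective
  rw [map_mul, map_mul]
  apply Prod.ext
  · exact Subtype.ext (hcon _ (e a).1.2 _ (e b).1.2)
  · exact Subtype.ext (Subgroup.mem_center_iff.1 (hA (e b).2.2) _)

include hG hfrat hcard hab hex hidx in
theorem exists_odd (hexp : ∀ g : G, g ^ p = 1) :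
    ∃ (E : Type) (_ : Group E) (A : Type) (_ : CommGroup A), IsExtraspecial p E ∧
      Nat.card E = p ^ 3 ∧ Monoid.exponent E = p ∧ (∀ a : A, a ^ p = 1) ∧
      Nonempty (G ≃* E × A) := by
  obtain ⟨E₀, A₀, hA, hEA, hE, hc, a, ha, b, hb, hne⟩ :=
    exists_nonabelian_decomp hG hfrat hcard M hab hex hidx
  obtain ⟨e₀⟩ := equiv_prod_of hA hEA hc
  obtain ⟨E, gE, _, ⟨eE⟩⟩ := Finite.exists_type_univ_nonempty_mulEquiv.{_, 0} E₀
  obtain ⟨A, gA, _, ⟨eA⟩⟩ := Finite.exists_type_univ_nonempty_mulEquiv.{_, 0} A₀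
  have hAc : ∀ x y : A, x * y = y * x := by
    intro x y
    apply eA.symm.injective
    rw [map_mul, map_mul]
    exact Subtype.ext (Subgroup.mem_center_iff.1 (hA (eA.symm y).2) _)
  let cA : CommGroup A := { gA with mul_comm := hAc }
  have hcE : Nat.card E = p ^ 3 := by rw [← Nat.card_congr eE.toEquiv, hE]
  have hpowE : ∀ g : E, g ^ p = 1 := by
    intro g
    apply eE.symm.injective
    rw [map_pow, map_one]
    exact Subtype.ext (hexp _)
  refine ⟨E, gE, A, cA, ?_, hcE, ?_, ?_, ⟨e₀.trans (MulEquiv.prodCongr eE eA)⟩⟩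
  · apply isExtraspecial_of_card hcE
    refine ⟨eE ⟨a, ha⟩, eE ⟨b, hb⟩, fun h => hne ?_⟩
    rw [← map_mul, ← map_mul] at h
    exact congrArg Subtype.val (eE.injective h)
  · have h1 : Monoid.exponent E ∣ p := Monoid.exponent_dvd_of_forall_pow_eq_one hpowE
    rcases (Nat.dvd_prime hp.out).1 h1 with h | h
    · exfalso
      have : Subsingleton E := Monoid.exp_eq_one_iff.1 h
      have h2 : Nat.card E = 1 := Nat.card_of_subsingleton 1
      rw [hcE] at h2
      have := Nat.one_lt_pow (n := 3) (by norm_num) hp.out.one_lt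
      omega
    · exact h
  · intro x
    apply eA.symm.injective
    rw [map_pow, map_one]
    exact Subtype.ext (hexp _)

include hG hcard hex hidx in
theorem mem_of_pow_eq_one (hp2 : p ≠ 2) (hne : ¬ ∀ g : G, g ^ p = 1) {g : G} (hg : g ^ p = 1) :
    g ∈ M := by
  by_contra hgM
  let K : Subgroup G :=
    { carrier := {x | x ^ p = 1}
      one_mem' := one_pow p
      mul_mem' := by
        intro a b ha hb
        show (a * b) ^ p = 1
        rw [mul_pow_p hG hcard hp2, ha, hb, one_mul]
      inv_mem' := by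
        intro a ha
        show a⁻¹ ^ p = 1
        rw [inv_pow, ha, inv_one] }
  have hMK : M < K := by
    refine lt_of_le_of_ne (fun m hm => hex m hm) (fun h => hgM ?_)
    rw [h]; exact hg
  have hK := (isCoatom_of_index_prime hp.out hidx).2 K hMK
  exact hne (fun x => (hK ▸ Subgroup.mem_top x : x ∈ K))

end decomp

section two

variable [Finite G]

theorem dih_aux {E : Subgroup G} (hE : Nat.card E = 8) {x v : G} (hx : x ∈ E) (hv : v ∈ E)
    (hxx : x * x = 1) (hvv : v * v = 1) (hne : x * v ≠ v * x)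
    (hz : ∀ g : G, g * ⁅x, v⁆ = ⁅x, v⁆ * g) (hzz : ⁅x, v⁆ * ⁅x, v⁆ = 1) :
    Nonempty (E ≃* DihedralGroup 4) := by
  have hxi : x⁻¹ = x := inv_eq_of_mul_eq_one_left hxx
  have hvi : v⁻¹ = v := inv_eq_of_mul_eq_one_left hvv
  have hz1 : ⁅x, v⁆ ≠ 1 := fun h => hne (commutatorElement_eq_one_iff_mul_comm.1 h)
  have hsq : (x * v) * (x * v) = ⁅x, v⁆ := by
    rw [commutatorElement_def, hxi, hvi]
    simp only [mul_assoc]
  apply dihedral_of_gens hE (⟨x * v, E.mul_mem hx hv⟩ : E) ⟨x, hx⟩
  · apply Subtype.ext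
    show (x * v) ^ 4 = 1
    have : (x * v) ^ 4 = ((x * v) * (x * v)) * ((x * v) * (x * v)) := by
      rw [show (4 : ℕ) = 2 + 2 from rfl, pow_add, sq]
    rw [this, hsq, hzz]
  · intro h
    have h1 : (x * v) ^ 2 = 1 := congrArg Subtype.val h
    rw [sq, hsq] at h1
    exact hz1 h1
  · exact Subtype.ext hxx
  · apply Subtype.ext
    show x * (x * v) * x⁻¹ = (x * v)⁻¹
    rw [mul_inv_rev, hvi, ← mul_assoc, hxx, one_mul]
  · rintro ⟨k, hk⟩
    have hk' : (x * v) ^ k = x := congrArg Subtype.val hk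
    have hc : Commute (x * v) x := by
      have : Commute (x * v) ((x * v) ^ k) := (Commute.refl _).zpow_right k
      rwa [hk'] at this
    apply hne
    have h1 : x * v * x = x * (x * v) := hc
    rw [mul_assoc] at h1
    exact (mul_left_cancel h1).symm

theorem exists_two (hG : IsPGroup 2 G) (hfrat : frattini G = commutator G)
    (hcard : Nat.card (commutator G) = 2) (M : Subgroup G)
    (hab : ∀ a ∈ M, ∀ b ∈ M, a * b = b * a) (hex : ∀ a ∈ M, a ^ 2 = 1) (hidx : M.index = 2) :
    ∃ (A : Type) (_ : CommGroup A), (∀ a : A, a ^ 2 = 1) ∧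
      Nonempty (G ≃* DihedralGroup 4 × A) := by
  obtain ⟨E₀, A₀, hA, hEA, hE, hc, a, ha, b, hb, hne⟩ :=
    exists_nonabelian_decomp hG hfrat hcard M hab hex hidx
  obtain ⟨e₀⟩ := equiv_prod_of hA hEA hc
  obtain ⟨A, gA, _, ⟨eA⟩⟩ := Finite.exists_type_univ_nonempty_mulEquiv.{_, 0} A₀
  have hAc : ∀ x y : A, x * y = y * x := by
    intro x y
    apply eA.symm.injective
    rw [map_mul, map_mul]
    exact Subtype.ext (Subgroup.mem_center_iff.1 (hA (eA.symm y).2) _)
  let cA : CommGroup A := { gA with mul_comm := hAc }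
  have hZM := center_le hcard M hab hidx
  -- a noncommuting pair with one element in `M`
  obtain ⟨x, hx, hxM, v, hv, hvM, hxv⟩ : ∃ x ∈ E₀, x ∉ M ∧ ∃ v ∈ E₀, v ∈ M ∧ x * v ≠ v * x := by
    by_cases haM : a ∈ M
    · by_cases hbM : b ∈ M
      · exact absurd (hab a haM b hbM) hne
      · exact ⟨b, hb, hbM, a, ha, haM, fun h => hne h.symm⟩
    · by_cases hbM : b ∈ M
      · exact ⟨a, ha, haM, b, hb, hbM, hne⟩
      · refine ⟨a, ha, haM, a⁻¹ * b, E₀.mul_mem (E₀.inv_mem ha) hb, ?_, ?_⟩
        · rw [Subgroup.mul_mem_iff_of_index_two hidx, Subgroup.inv_mem_iff]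
          exact iff_of_false haM hbM
        · intro h
          apply hne
          rw [mul_inv_cancel_left] at h
          calc a * b = a * (a⁻¹ * b * a) := by rw [← h]
            _ = b * a := by group
  have hzc : ∀ x v g : G, g * ⁅x, v⁆ = ⁅x, v⁆ * g := fun x v g =>
    comm_central hG hcard (commEl_mem x v) g
  have hzz : ∀ x v : G, ⁅x, v⁆ * ⁅x, v⁆ = 1 := fun x v => by
    rw [← sq]; exact pow_eq_one_of_mem_comm hcard (commEl_mem x v)
  have hvv : v * v = 1 := by rw [← sq]; exact hex v hvM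
  have hE8 : Nat.card E₀ = 8 := by rw [hE]; norm_num
  have key : Nonempty (E₀ ≃* DihedralGroup 4) := by
    by_cases hxx : x * x = 1
    · exact dih_aux hE8 hx hv hxx hvv hxv (hzc x v) (hzz x v)
    · -- then `x * x = ⁅x, v⁆`
      have hz1 : ⁅x, v⁆ ≠ 1 := fun h => hxv (commutatorElement_eq_one_iff_mul_comm.1 h)
      have hx2 : x * x ∈ commutator G := by
        rw [← sq, ← hfrat]; exact (Cfsg.Agent.S0012.result 2 hG).2 x
      have hx2z : x * x = ⁅x, v⁆ := by
        obtain ⟨k, hk⟩ := mem_zpowers_of_comm hcard (commEl_mem x v) hz1 hx2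
        have hk' : ⁅x, v⁆ ^ k = x * x := hk
        rcases Int.even_or_odd' k with ⟨m, rfl | rfl⟩
        · exfalso
          apply hxx
          rw [← hk', zpow_mul, zpow_two, hzz, one_zpow]
        · rw [← hk', zpow_add, zpow_mul, zpow_two, hzz, one_zpow, one_mul, zpow_one]
      have hvi : v⁻¹ = v := inv_eq_of_mul_eq_one_left hvv
      have hxvx : x * v = ⁅x, v⁆ * v * x := by
        rw [commutatorElement_def]; group
      have hsq : (x * v) * (x * v) = 1 := by
        calc (x * v) * (x * v) = (⁅x, v⁆ * v * x) * (x * v) := by rw [← hxvx]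
          _ = ⁅x, v⁆ * v * (x * x) * v := by group
          _ = ⁅x, v⁆ * (v * ⁅x, v⁆) * v := by rw [hx2z]; group
          _ = ⁅x, v⁆ * (⁅x, v⁆ * v) * v := by rw [hzc x v v]
          _ = (⁅x, v⁆ * ⁅x, v⁆) * (v * v) := by group
          _ = 1 := by rw [hzz, hvv, one_mul]
      have hne' : (x * v) * v ≠ v * (x * v) := by
        intro h
        apply hxv
        rw [← mul_assoc] at h
        exact mul_right_cancel h
      exact dih_aux hE8 (E₀.mul_mem hx hv) hv hsq hvv hne' (hzc _ v) (hzz _ v)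
  obtain ⟨eE⟩ := key
  refine ⟨A, cA, ?_, ⟨e₀.trans (MulEquiv.prodCongr eE eA)⟩⟩
  intro y
  apply eA.symm.injective
  rw [map_pow, map_one]
  exact Subtype.ext (hex _ (hZM (hA (eA.symm y).2)))

end two


section more

variable [Finite G] {p : ℕ} [hp : Fact p.Prime] (hG : IsPGroup p G)
  (hcard : Nat.card (commutator G) = p)

include hG hcard in
theorem commEl_mul_left (a b y : G) : ⁅a * b, y⁆ = ⁅a, y⁆ * ⁅b, y⁆ := by
  have h1 : ⁅a * b, y⁆ = (a * ⁅b, y⁆ * a⁻¹) * ⁅a, y⁆ := by
    simp only [commutatorElement_def]; group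
  rw [h1, comm_central hG hcard (commEl_mem b y) a, mul_inv_cancel_right,
    comm_central hG hcard (commEl_mem a y)]

/-- `g ↦ ⁅g, y⁆` -/
noncomputable def commHom (y : G) : G →* G :=
  MonoidHom.mk' (fun g => ⁅g, y⁆) (fun a b => commEl_mul_left hG hcard a b y)

theorem commHom_apply (y g : G) : commHom hG hcard y g = ⁅g, y⁆ := rfl

theorem commHom_range (y : G) (hy : y ∉ Subgroup.center G) :
    (commHom hG hcard y).range = commutator G := by
  have hle : (commHom hG hcard y).range ≤ commutator G := by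
    rintro _ ⟨g, rfl⟩
    exact commEl_mem g y
  apply Subgroup.eq_of_le_of_card_ge hle
  rw [hcard]
  have h1 : Nat.card (commHom hG hcard y).range ∣ p := by
    have := Subgroup.card_dvd_of_le hle
    rwa [hcard] at this
  rcases (Nat.dvd_prime hp.out).1 h1 with h | h
  · exfalso
    apply hy
    rw [Subgroup.mem_center_iff]
    intro g
    have h2 : commHom hG hcard y g ∈ (commHom hG hcard y).range := ⟨g, rfl⟩
    rw [Subgroup.card_eq_one.1 h, Subgroup.mem_bot] at h2
    exact commutatorElement_eq_one_iff_mul_comm.1 h2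
  · exact h.ge

include hG hcard in
theorem index_centralizer (y : G) (hy : y ∉ Subgroup.center G) :
    (Subgroup.centralizer {y}).index = p := by
  have hker : (commHom hG hcard y).ker = Subgroup.centralizer {y} := by
    ext g
    rw [MonoidHom.mem_ker, Subgroup.mem_centralizer_singleton_iff, commHom_apply,
      commutatorElement_eq_one_iff_mul_comm]
  rw [← hker, Subgroup.index_ker, commHom_range hG hcard y hy, hcard]

include hG hcard in
theorem exists_comm_eq (y : G) (hy : y ∉ Subgroup.center G) {d : G} (hd : d ∈ commutator G) :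
    ∃ g : G, ⁅g, y⁆ = d := by
  rw [← commHom_range hG hcard y hy] at hd
  exact hd

include hp in
theorem exists_zpow_mul (hfrat : frattini G = commutator G) (M : Subgroup G) (hidx : M.index = p)
    {x : G} (hx : x ∉ M) (g : G) : ∃ i : ℤ, ∃ m ∈ M, g = x ^ i * m := by
  have hMn : M.Normal := by
    constructor
    intro m hm g
    have : g * m * g⁻¹ = ⁅g, m⁆ * m := by rw [commutatorElement_def]; group
    rw [this]
    exact M.mul_mem (comm_le_M hfrat M hidx (commEl_mem g m)) hm
  have h1 : g ∈ Subgroup.zpowers x ⊔ M := by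
    rw [sup_comm, sup_zpowers_eq_top M hidx hx]
    exact Subgroup.mem_top g
  rw [← SetLike.mem_coe, Subgroup.mul_normal] at h1
  obtain ⟨a, ⟨i, rfl⟩, m, hm, rfl⟩ := Set.mem_mul.1 h1
  exact ⟨i, m, hm, rfl⟩

end more

/-- the `SL₂` computation -/
theorem sl2_lemma {V : Type*} [CommGroup V] (t t₂ : MulAut V) (z y : V) (h1 : t z = z)
    (h2 : t y = z * y) (h3 : t₂ y = y) (h4 : t₂ z = y⁻¹ * z)
    (h5 : ∀ m, ∃ k : ℤ, t m = z ^ k * m) (h6 : ∀ m, ∃ l : ℤ, t₂ m = y ^ l * m) :
    ((t * t₂ * t) ^ 2) z = z⁻¹ ∧ (t * t₂ * t) ^ 2 * t = t * (t * t₂ * t) ^ 2 := by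
  have wz : (t * t₂ * t) z = y⁻¹ := by
    simp only [MulAut.mul_apply, h1, h4, map_mul, map_inv, h2]
    rw [mul_inv, mul_comm z⁻¹, mul_assoc, inv_mul_cancel, mul_one]
  have wy : (t * t₂ * t) y = z := by
    simp only [MulAut.mul_apply, h2, map_mul, h4, h3, map_inv, h1]
    rw [mul_inv, mul_comm z⁻¹ y⁻¹, mul_assoc, mul_assoc, inv_mul_cancel_left, mul_comm z y,
      inv_mul_cancel_left]
  have ιz : ((t * t₂ * t) ^ 2) z = z⁻¹ := by
    rw [sq, MulAut.mul_apply, wz, map_inv, wy]
  have ιy : ((t * t₂ * t) ^ 2) y = y⁻¹ := by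
    rw [sq, MulAut.mul_apply, wy, wz]
  refine ⟨ιz, ?_⟩
  ext m
  obtain ⟨k, hk⟩ := h5 m
  obtain ⟨l, hl⟩ := h6 m
  obtain ⟨w, hw⟩ : ∃ w, w = y ^ k * z ^ (-l) := ⟨_, rfl⟩
  obtain ⟨h, hh⟩ : ∃ h, h = m * w⁻¹ := ⟨_, rfl⟩
  have hm : m = w * h := by rw [hh, mul_comm m, mul_inv_cancel_left]
  have tw : t w = z ^ k * w := by
    rw [hw, map_mul, map_zpow, map_zpow, h1, h2, mul_zpow, mul_assoc]
  have t2w : t₂ w = y ^ l * w := by
    rw [hw, map_mul, map_zpow, map_zpow, h3, h4, mul_zpow, inv_zpow, zpow_neg, inv_inv]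
    rw [mul_comm (y ^ k), mul_assoc, mul_comm (z ^ (-l)), zpow_neg]
  have th : t h = h := by
    rw [hh, map_mul, map_inv, hk, tw, mul_inv, mul_comm (z ^ k) m, mul_assoc, mul_inv_cancel_left]
  have t2h : t₂ h = h := by
    rw [hh, map_mul, map_inv, hl, t2w, mul_inv, mul_comm (y ^ l) m, mul_assoc,
      mul_inv_cancel_left]
  have ιh : ((t * t₂ * t) ^ 2) h = h := by
    simp only [sq, MulAut.mul_apply, th, t2h]
  have ιw : ((t * t₂ * t) ^ 2) w = w⁻¹ := by
    rw [hw, map_mul, map_zpow, map_zpow, ιz, ιy, mul_inv, inv_zpow, inv_zpow]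
  have ιzk : ((t * t₂ * t) ^ 2) (z ^ k) = (z ^ k)⁻¹ := by
    rw [map_zpow, ιz, inv_zpow]
  rw [MulAut.mul_apply, MulAut.mul_apply, hm, map_mul t, tw, th, map_mul, map_mul, ιzk, ιw, ιh,
    map_mul, ιw, ιh, map_mul, map_inv, tw, th, mul_inv]

end Cfsg.Agent.Lib.Helper9_GenExtraB
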