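import Mathlib
import Cfsg.Prelude.Def_FusionSystem
import Cfsg.Prelude.Def_Transfer
import Cfsg.Agent.Lib.Helper9_GenExtraB
import Cfsg.Agent.Lib.Helper9_Solvable
import Cfsg.Agent.Lib.Helper9_Factor

set_option autoImplicit false

namespace Cfsg.Agent.Lib.Helper9_GenExtraC

open Cfsg Cfsg.FusionSystem Cfsg.Agent.Lib.Helper9_FusionBasic Cfsg.Agent.Lib.Helper9_FusionSat
open Cfsg.Agent.Lib.Helper9_FusionNormal Cfsg.Agent.Lib.Helper9_Alperin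
open Cfsg.Agent.Lib.Helper9_AlperinCor Cfsg.Agent.Lib.Helper9_Factor
open Cfsg.Agent.Lib.Helper9_GenExtraB Cfsg.Agent.Lib.Helper9_Solvable
open scoped commutatorElement

variable {Ω : Type*} [Group Ω] {S : Subgroup Ω}

theorem zpow_eq_one_of_mem {p : ℕ} [hp : Fact p.Prime] {D : Subgroup Ω} {w : Ω} (hw : w ^ p = 1)
    (hwD : w ∉ D) (k : ℤ) (h : w ^ k ∈ D) : w ^ k = 1 := by
  by_contra hne
  apply hwD
  have hw1 : w ≠ 1 := by
    rintro rfl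
    simp at hne
  have ho : orderOf w = p := orderOf_eq_prime hw hw1
  have hc : Nat.card (Subgroup.zpowers w) = p := by rw [Nat.card_zpowers, ho]
  have h1 := mem_zpowers_of_prime_card (G := Subgroup.zpowers w) hc
    (g := ⟨w ^ k, ⟨k, rfl⟩⟩) (g' := ⟨w, Subgroup.mem_zpowers w⟩)
    (fun h => hne (congrArg Subtype.val h))
  obtain ⟨j, hj⟩ := h1
  have hj' : (w ^ k) ^ j = w := congrArg Subtype.val hj
  rw [← hj']
  exact D.zpow_mem h j

theorem fullyNormalized_of_normal [Finite S] (F : FusionSystem S) {D : Subgroup Ω} (hDS : D ≤ S)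
    (hDn : S ≤ Subgroup.normalizer (D : Set Ω)) : F.IsFullyNormalized D := by
  refine ⟨hDS, fun Q _ => ?_⟩
  have : normalizerIn S D = S := le_antisymm inf_le_left (le_inf le_rfl hDn)
  rw [this]
  exact card_normalizerIn_le Q

theorem tool [Finite S] (p : ℕ) [Fact p.Prime] (hS : IsPGroup p S) (F : FusionSystem S)
    (hF : F.IsSaturated p) {D Y : Subgroup Ω} (hDS : D ≤ S)
    (hDn : S ≤ Subgroup.normalizer (D : Set Ω)) (hconj : F.IsConj Y D)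
    (hYD : ∀ d ∈ D, d ∈ Y → d = 1) :
    ∃ θ : normalizerIn S Y →* Ω, θ ∈ F.Hom (normalizerIn S Y) ∧
      ∀ d : normalizerIn S Y, (d : Ω) ∈ D → θ d ∈ D → (d : Ω) = 1 := by
  obtain ⟨haut, hrec⟩ := sat_fullyNormalized p hS F hF (fullyNormalized_of_normal F hDS hDn)
  obtain ⟨ψ, e, hψ, he, hψe⟩ := exists_hom_normalizer p hS F haut hrec hconj
  have hYS : Y ≤ S := he.le_left
  refine ⟨(normalizerIn S D).subtype.comp ψ, hψ, fun d hdD hθ => ?_⟩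
  have h1 := hψe (Subgroup.inclusion (le_normalizerIn hYS) (e.symm ⟨_, hθ⟩)) (e.symm ⟨_, hθ⟩).2
  have h2 : ((normalizerIn S D).subtype.comp ψ)
      (Subgroup.inclusion (le_normalizerIn hYS) (e.symm ⟨_, hθ⟩)) =
      ((normalizerIn S D).subtype.comp ψ) d := by
    show ((ψ _ : normalizerIn S D) : Ω) = _
    rw [h1]
    simp
  have h3 := F.injective_of_mem hψ h2
  apply hYD _ hdD
  rw [← h3]
  exact (e.symm ⟨_, hθ⟩).2

/-- the centralizer in `P` of an element conjugate into `D` is elementary abelian -/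
theorem centralizer_elementary [Finite S] (p : ℕ) [Fact p.Prime] (hS : IsPGroup p S)
    (F : FusionSystem S) (hF : F.IsSaturated p) {P D : Subgroup Ω} (hP : F.StronglyClosed P)
    (hDS : D ≤ S) (hDn : S ≤ Subgroup.normalizer (D : Set Ω))
    (hcomm : ∀ a ∈ P, ∀ b ∈ P, ⁅a, b⁆ ∈ D) (hpow : ∀ a ∈ P, a ^ p ∈ D) {y : Ω}
    (hconj : F.IsConj (Subgroup.zpowers y) D) (hYD : ∀ d ∈ D, d ∈ Subgroup.zpowers y → d = 1) :
    (∀ a ∈ P, a * y = y * a → ∀ b ∈ P, b * y = y * b → a * b = b * a) ∧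
      ∀ a ∈ P, a * y = y * a → a ^ p = 1 := by
  obtain ⟨θ, hθ, H⟩ := tool p hS F hF hDS hDn hconj hYD
  have hN : ∀ a ∈ P, a * y = y * a → a ∈ normalizerIn S (Subgroup.zpowers y) := by
    intro a ha hay
    refine ⟨hP.1 ha, ?_⟩
    apply Cfsg.Agent.Lib.Helper4_Syl.centralizer_singleton_le_normalizer_zpowers y
    rw [Subgroup.mem_centralizer_singleton_iff]
    exact hay
  constructor
  · intro a ha hay b hb hby
    rw [← commutatorElement_eq_one_iff_mul_comm]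
    have h1 := H ⁅(⟨a, hN a ha hay⟩ : normalizerIn S (Subgroup.zpowers y)), ⟨b, hN b hb hby⟩⁆
      (hcomm a ha b hb) (by
        rw [map_commutatorElement]
        exact hcomm _ (stronglyClosed_map_mem hP hθ _ ha) _ (stronglyClosed_map_mem hP hθ _ hb))
    exact h1
  · intro a ha hay
    have h1 := H ((⟨a, hN a ha hay⟩ : normalizerIn S (Subgroup.zpowers y)) ^ p)
      (hpow a ha) (by
        rw [map_pow]
        exact hpow _ (stronglyClosed_map_mem hP hθ _ ha))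
    exact h1

theorem sl2_lemma' {V : Type*} [Group V] (hc : ∀ a b : V, a * b = b * a) (t t₂ : MulAut V)
    (z y : V) (h1 : t z = z) (h2 : t y = z * y) (h3 : t₂ y = y) (h4 : t₂ z = y⁻¹ * z)
    (h5 : ∀ m, ∃ k : ℤ, t m = z ^ k * m) (h6 : ∀ m, ∃ l : ℤ, t₂ m = y ^ l * m) :
    ((t * t₂ * t) ^ 2) z = z⁻¹ ∧ (t * t₂ * t) ^ 2 * t = t * (t * t₂ * t) ^ 2 := by
  let _ : CommGroup V := { (inferInstance : Group V) with mul_comm := hc }
  exact sl2_lemma t t₂ z y h1 h2 h3 h4 h5 h6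


/-- S5233 -/
theorem isNormal_of_genExtra [Finite S] (p : ℕ) [hp : Fact p.Prime] (hS : IsPGroup p S)
    (F : FusionSystem S) (hF : F.IsSaturated p) (P : Subgroup Ω) (hP : F.StronglyClosed P)
    (hge : frattini ↥P = commutator ↥P ∧ Nat.card ↥(commutator ↥P) = p)
    (h2 : p = 2 → ¬ ∃ (A : Type) (_ : CommGroup A), (∀ a : A, a ^ 2 = 1) ∧
      Nonempty (↥P ≃* DihedralGroup 4 × A))
    (hodd : p ≠ 2 → ¬ ∃ (E : Type) (_ : Group E) (A : Type) (_ : CommGroup A),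
      IsExtraspecial p E ∧ Nat.card E = p ^ 3 ∧ Monoid.exponent E = p ∧ (∀ a : A, a ^ p = 1) ∧
      Nonempty (↥P ≃* E × A)) : F.IsNormal P := by
  obtain ⟨hfrat, hcard⟩ := hge
  have hPS := hP.1
  have hfinP : Finite P := finite_of_le hPS
  have hPp : IsPGroup p P := isPGroup_of_le hS hPS
  obtain ⟨D, hD⟩ : ∃ D : Subgroup Ω, D = (commutator P).map P.subtype := ⟨_, rfl⟩
  have hDP : D ≤ P := hD ▸ Subgroup.map_subtype_le _
  have hDS : D ≤ S := hDP.trans hPS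
  have hmemD : ∀ (a : P), a ∈ commutator P ↔ (a : Ω) ∈ D := by
    intro a
    rw [hD]
    constructor
    · exact fun h => ⟨a, h, rfl⟩
    · rintro ⟨b, hb, hba⟩
      have : b = a := Subtype.ext hba
      rwa [← this]
  have hDcard : Nat.card D = p := by
    rw [hD, Subgroup.card_map_of_injective P.subtype_injective, hcard]
  have hcomm : ∀ a ∈ P, ∀ b ∈ P, ⁅a, b⁆ ∈ D := by
    intro a ha b hb
    exact (hmemD ⁅(⟨a, ha⟩ : P), ⟨b, hb⟩⁆).1 (commEl_mem _ _)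
  have hpow : ∀ a ∈ P, a ^ p ∈ D := by
    intro a ha
    apply (hmemD ((⟨a, ha⟩ : P) ^ p)).1
    rw [← hfrat]
    exact (Cfsg.Agent.S0012.result p hPp).2 _
  have hcent : ∀ d ∈ D, ∀ g ∈ P, g * d = d * g := by
    intro d hd g hg
    have := comm_central hPp hcard ((hmemD ⟨d, hDP hd⟩).2 hd) ⟨g, hg⟩
    exact congrArg Subtype.val this
  have hDgen : ∀ d ∈ D, d ≠ 1 → ∀ e ∈ D, e ∈ Subgroup.zpowers d := by
    intro d hd hd1 e he
    have h := mem_zpowers_of_prime_card (G := D) hDcard (g := ⟨d, hd⟩) (g' := ⟨e, he⟩)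
      (fun h => hd1 (congrArg Subtype.val h))
    obtain ⟨k, hk⟩ := h
    exact ⟨k, congrArg Subtype.val hk⟩
  obtain ⟨a₀, b₀, hna⟩ := not_comm (p := p) hcard
  have hDn : S ≤ Subgroup.normalizer (D : Set Ω) := by
    have hc0 : ⁅(a₀ : Ω), (b₀ : Ω)⁆ ≠ 1 := by
      intro h
      apply hna
      exact Subtype.ext (commutatorElement_eq_one_iff_mul_comm.1 h)
    have key : ∀ s ∈ S, ∀ d ∈ D, s * d * s⁻¹ ∈ D := by
      intro s hs d hd
      obtain ⟨k, rfl⟩ := hDgen _ (hcomm _ a₀.2 _ b₀.2) hc0 d hd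
      show s * ⁅(a₀ : Ω), (b₀ : Ω)⁆ ^ k * s⁻¹ ∈ D
      rw [← conj_zpow]
      apply D.zpow_mem
      have : s * ⁅(a₀ : Ω), (b₀ : Ω)⁆ * s⁻¹ = ⁅s * a₀ * s⁻¹, s * b₀ * s⁻¹⁆ := by
        simp only [commutatorElement_def]; group
      rw [this]
      exact hcomm _ (stronglyClosed_conj_mem hP hs a₀.2) _ (stronglyClosed_conj_mem hP hs b₀.2)
    intro s hs
    apply mem_normalizer_of_forall (key s hs)
    intro d hd
    have := key s⁻¹ (S.inv_mem hs) d hd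
    rwa [inv_inv] at this
  apply isNormal_of_chain3 p hS F hF (A := D) ?_ hP hDP ?_ ?_
  rotate_left
  · rw [Subgroup.commutator_le]
    intro g hg d hd
    rw [Subgroup.mem_bot, commutatorElement_eq_one_iff_mul_comm]
    exact hcent d hd g hg
  · rw [Subgroup.commutator_le]
    exact fun a ha b hb => hcomm a ha b hb
  -- `D` is strongly closed
  refine ⟨hDS, ?_⟩
  by_contra hcon
  push Not at hcon
  obtain ⟨R, hR, φ, hφ, x₀, hx₀⟩ := hcon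
  obtain ⟨z, hz⟩ : ∃ z : Ω, z = (x₀ : Ω) := ⟨_, rfl⟩
  have hzD : z ∈ D := hz ▸ hR x₀.2
  have hz1 : z ≠ 1 := by
    intro h
    apply hx₀
    have : x₀ = 1 := Subtype.ext (hz ▸ h)
    rw [this, map_one]
    exact D.one_mem
  have hRD : D = R := le_antisymm (fun d hd => by
    obtain ⟨k, rfl⟩ := hDgen z hzD hz1 d hd
    exact R.zpow_mem (hz ▸ x₀.2) k) hR
  subst hRD
  obtain ⟨y, hy⟩ : ∃ y : Ω, y = φ x₀ := ⟨_, rfl⟩
  have hyP : y ∈ P := hy ▸ hP.2 D hDP φ hφ x₀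
  have hyD : y ∉ D := hy ▸ hx₀
  have hyp : y ^ p = 1 := by
    have h1 : x₀ ^ p = 1 := by
      have := pow_card_eq_one' (G := D) (x := x₀)
      rwa [hDcard] at this
    rw [hy, ← map_pow, h1, map_one]
  have hφz : ∀ k : ℤ, ∀ h : z ^ k ∈ D, φ ⟨z ^ k, h⟩ = y ^ k := by
    intro k h
    have : (⟨z ^ k, h⟩ : D) = x₀ ^ k := Subtype.ext (by
      show z ^ k = (x₀ : Ω) ^ k
      rw [hz])
    rw [this, map_zpow, hy]
  have hrange : φ.range = Subgroup.zpowers y := by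
    apply le_antisymm
    · rintro _ ⟨d, rfl⟩
      obtain ⟨k, hk⟩ := hDgen z hzD hz1 d d.2
      have hk' : z ^ k = (d : Ω) := hk
      have : d = ⟨z ^ k, hk' ▸ d.2⟩ := Subtype.ext hk'.symm
      rw [this, hφz]
      exact ⟨k, rfl⟩
    · rw [Subgroup.zpowers_le]
      exact ⟨x₀, hy.symm⟩
  have hconj : F.IsConj (Subgroup.zpowers y) D := isConj_symm F ⟨φ, hφ, hrange⟩
  have hYD : ∀ d ∈ D, d ∈ Subgroup.zpowers y → d = 1 := by
    rintro d hd ⟨k, rfl⟩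
    exact zpow_eq_one_of_mem hyp hyD k hd
  obtain ⟨hMab, hMex⟩ := centralizer_elementary p hS F hF hP hDS hDn hcomm hpow hconj hYD
  have hy'c : (⟨y, hyP⟩ : P) ∉ Subgroup.center P := by
    intro h
    apply hna
    have ha : (a₀ : Ω) * y = y * a₀ := congrArg Subtype.val (Subgroup.mem_center_iff.1 h a₀)
    have hb : (b₀ : Ω) * y = y * b₀ := congrArg Subtype.val (Subgroup.mem_center_iff.1 h b₀)
    exact Subtype.ext (hMab a₀ a₀.2 ha b₀ b₀.2 hb)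
  obtain ⟨M', hM'⟩ : ∃ M' : Subgroup P, M' = Subgroup.centralizer {(⟨y, hyP⟩ : P)} := ⟨_, rfl⟩
  have hM'mem : ∀ a : P, a ∈ M' ↔ (a : Ω) * y = y * a := by
    intro a
    rw [hM', Subgroup.mem_centralizer_singleton_iff]
    constructor
    · exact fun h => congrArg Subtype.val h
    · exact fun h => Subtype.ext h
  have hab' : ∀ a ∈ M', ∀ b ∈ M', a * b = b * a := fun a ha b hb =>
    Subtype.ext (hMab a a.2 ((hM'mem a).1 ha) b b.2 ((hM'mem b).1 hb))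
  have hex' : ∀ a ∈ M', a ^ p = 1 := fun a ha => Subtype.ext (hMex a a.2 ((hM'mem a).1 ha))
  have hidx' : M'.index = p := hM' ▸ index_centralizer hPp hcard _ hy'c
  by_cases hp2 : p = 2
  · subst hp2
    exact h2 rfl (exists_two hPp hfrat hcard M' hab' hex' hidx')
  by_cases hexp : ∀ g : P, g ^ p = 1
  · exact hodd hp2 (exists_odd hPp hfrat hcard M' hab' hex' hidx' hexp)
  have hΩ : ∀ g ∈ P, g ^ p = 1 → g * y = y * g := by
    intro g hg hgp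
    apply (hM'mem ⟨g, hg⟩).1
    exact mem_of_pow_eq_one hPp hcard M' hex' hidx' hp2 hexp (Subtype.ext hgp)
  -- the subgroup `M`
  obtain ⟨M, hM⟩ : ∃ M : Subgroup Ω, M = P ⊓ Subgroup.centralizer {y} := ⟨_, rfl⟩
  have hMmem : ∀ a, a ∈ M ↔ a ∈ P ∧ a * y = y * a := by
    intro a
    rw [hM, Subgroup.mem_inf, Subgroup.mem_centralizer_singleton_iff]
  have hMP : M ≤ P := hM ▸ inf_le_left
  have hMS : M ≤ S := hMP.trans hPS
  have hMab' : ∀ a ∈ M, ∀ b ∈ M, a * b = b * a := fun a ha b hb =>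
    hMab a ((hMmem a).1 ha).1 ((hMmem a).1 ha).2 b ((hMmem b).1 hb).1 ((hMmem b).1 hb).2
  have hMex' : ∀ a ∈ M, a ^ p = 1 := fun a ha => hMex a ((hMmem a).1 ha).1 ((hMmem a).1 ha).2
  have hMΩ : ∀ g ∈ P, g ^ p = 1 → g ∈ M := fun g hg h => (hMmem g).2 ⟨hg, hΩ g hg h⟩
  have hMsc : F.StronglyClosed M := by
    refine ⟨hMS, fun R hR ψ hψ x => ?_⟩
    apply hMΩ _ (hP.2 R (hR.trans hMP) ψ hψ x)
    rw [← map_pow]
    have : x ^ p = 1 := Subtype.ext (hMex' x (hR x.2))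
    rw [this, map_one]
  have hMc : IsMulCommutative M := ⟨⟨fun a b => Subtype.ext (hMab' a a.2 b b.2)⟩⟩
  have hMn : F.IsNormal M := isNormal_of_abelian_stronglyClosed p hS F hF hMc hMsc
  have hDM : D ≤ M := fun d hd => (hMmem d).2 ⟨hDP hd, (hcent d hd y hyP).symm⟩
  obtain ⟨α, hα, hαφ⟩ := (isNormal_iff_restrict_aut p hS F hF M hMS).1 hMn D hDM φ hφ
  have hyM : y ∈ M := (hMmem y).2 ⟨hyP, rfl⟩
  have hzM : z ∈ M := hDM hzD
  have hαz : α ⟨z, hzM⟩ = ⟨y, hyM⟩ := by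
    apply Subtype.ext
    have h1 := hαφ x₀
    have h2 : Subgroup.inclusion hDM x₀ = ⟨z, hzM⟩ := Subtype.ext hz.symm
    rw [h2] at h1
    rw [h1]
    exact hy.symm
  obtain ⟨vM, hvM⟩ : ∃ vM : M, vM = α.symm ⟨z, hzM⟩ := ⟨_, rfl⟩
  have hαv : α vM = ⟨z, hzM⟩ := by rw [hvM]; simp
  have hvD : (vM : Ω) ∉ D := by
    intro h
    obtain ⟨k, hk⟩ := hDgen z hzD hz1 _ h
    have h1 : vM = (⟨z, hzM⟩ : M) ^ k := Subtype.ext hk.symm
    have h2 : (⟨z, hzM⟩ : M) = (⟨y, hyM⟩ : M) ^ k := by rw [← hαv, h1, map_zpow, hαz]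
    have h3 : z = y ^ k := congrArg Subtype.val h2
    exact hz1 (hYD z hzD ⟨k, h3.symm⟩)
  have hvp : (vM : Ω) ^ p = 1 := hMex' _ vM.2
  have hconjv : F.IsConj (Subgroup.zpowers (vM : Ω)) D := by
    have h1 := (mem_autGroup_iff F hMS α).1 hα
    have hle : Subgroup.zpowers (vM : Ω) ≤ M := by
      rw [Subgroup.zpowers_le]; exact vM.2
    have hval : ∀ (k : ℤ) (h : (vM : Ω) ^ k ∈ M), ((α ⟨(vM : Ω) ^ k, h⟩ : M) : Ω) = z ^ k := by
      intro k h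
      have : (⟨(vM : Ω) ^ k, h⟩ : M) = vM ^ k := Subtype.ext rfl
      rw [this, map_zpow, hαv]
      rfl
    refine ⟨_, restrict_mem F h1 hle, ?_⟩
    apply le_antisymm
    · rintro _ ⟨⟨_, k, rfl⟩, rfl⟩
      have := hval k (hle ⟨k, rfl⟩)
      show ((α ⟨(vM : Ω) ^ k, _⟩ : M) : Ω) ∈ D
      rw [this]
      exact D.zpow_mem hzD k
    · intro d hd
      obtain ⟨k, hk⟩ := hDgen z hzD hz1 d hd
      refine ⟨⟨(vM : Ω) ^ k, ⟨k, rfl⟩⟩, ?_⟩
      have := hval k (hle ⟨k, rfl⟩)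
      show ((α ⟨(vM : Ω) ^ k, _⟩ : M) : Ω) = d
      rw [this]
      exact hk
  have hYDv : ∀ d ∈ D, d ∈ Subgroup.zpowers (vM : Ω) → d = 1 := by
    rintro d hd ⟨k, rfl⟩
    exact zpow_eq_one_of_mem hvp hvD k hd
  obtain ⟨hVab, -⟩ := centralizer_elementary p hS F hF hP hDS hDn hcomm hpow hconjv hYDv
  have hv'c : (⟨vM, hMP vM.2⟩ : P) ∉ Subgroup.center P := by
    intro h
    apply hna
    have ha : (a₀ : Ω) * vM = vM * a₀ := congrArg Subtype.val (Subgroup.mem_center_iff.1 h a₀)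
    have hb : (b₀ : Ω) * vM = vM * b₀ := congrArg Subtype.val (Subgroup.mem_center_iff.1 h b₀)
    exact Subtype.ext (hVab a₀ a₀.2 ha b₀ b₀.2 hb)
  have hz' : (⟨z, hDP hzD⟩ : P) ∈ commutator P := (hmemD _).2 hzD
  obtain ⟨x', hx'⟩ := exists_comm_eq hPp hcard _ hy'c hz'
  obtain ⟨g', hg'⟩ := exists_comm_eq hPp hcard _ hv'c ((commutator P).inv_mem hz')
  have hx : ⁅(x' : Ω), y⁆ = z := congrArg Subtype.val hx'
  have hg : ⁅(g' : Ω), (vM : Ω)⁆ = z⁻¹ := congrArg Subtype.val hg'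
  have hMnS : S ≤ Subgroup.normalizer (M : Set Ω) := stronglyClosed_le_normalizer hMsc
  obtain ⟨nx, hnx⟩ : ∃ nx : normalizerIn S M, (nx : Ω) = x' :=
    ⟨⟨x', hPS x'.2, hMnS (hPS x'.2)⟩, rfl⟩
  obtain ⟨ng, hng⟩ : ∃ ng : normalizerIn S M, (ng : Ω) = g' :=
    ⟨⟨g', hPS g'.2, hMnS (hPS g'.2)⟩, rfl⟩
  obtain ⟨t, ht⟩ : ∃ t, t = conjAut S M nx := ⟨_, rfl⟩
  obtain ⟨c, hc⟩ : ∃ c, c = conjAut S M ng := ⟨_, rfl⟩
  obtain ⟨t₂, ht₂⟩ : ∃ t₂, t₂ = α * c * α⁻¹ := ⟨_, rfl⟩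
  have htF : t ∈ F.autGroup M := ht ▸ (mem_autGroup_iff_isHom F hMS _).2 (conjAut_isHom F hMS nx)
  have hcF : c ∈ F.autGroup M := hc ▸ (mem_autGroup_iff_isHom F hMS _).2 (conjAut_isHom F hMS ng)
  have ht₂F : t₂ ∈ F.autGroup M :=
    ht₂ ▸ Subgroup.mul_mem _ (Subgroup.mul_mem _ hα hcF) (Subgroup.inv_mem _ hα)
  have tapp : ∀ m : M, ((t m : M) : Ω) = ⁅(x' : Ω), (m : Ω)⁆ * m := by
    intro m
    rw [ht, conjAut_apply, hnx, commutatorElement_def]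
    group
  have capp : ∀ m : M, ((c m : M) : Ω) = ⁅(g' : Ω), (m : Ω)⁆ * m := by
    intro m
    rw [hc, conjAut_apply, hng, commutatorElement_def]
    group
  have t₂app : ∀ m : M, t₂ m = α (c (α.symm m)) := by
    intro m
    rw [ht₂]
    rfl
  have hαsy : α.symm ⟨y, hyM⟩ = ⟨z, hzM⟩ := by rw [← hαz]; simp
  have H := sl2_lemma' (fun a b : M => Subtype.ext (hMab' a a.2 b b.2)) t t₂ ⟨z, hzM⟩ ⟨y, hyM⟩
    (by
      apply Subtype.ext
      rw [tapp]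
      show ⁅(x' : Ω), z⁆ * z = z
      rw [commutatorElement_eq_one_iff_mul_comm.2 (hcent z hzD x' x'.2), one_mul])
    (by
      apply Subtype.ext
      rw [tapp]
      show ⁅(x' : Ω), y⁆ * y = z * y
      rw [hx])
    (by
      rw [t₂app, hαsy]
      have : c ⟨z, hzM⟩ = ⟨z, hzM⟩ := by
        apply Subtype.ext
        rw [capp]
        show ⁅(g' : Ω), z⁆ * z = z
        rw [commutatorElement_eq_one_iff_mul_comm.2 (hcent z hzD g' g'.2), one_mul]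
      rw [this, hαz])
    (by
      rw [t₂app, ← hvM]
      have : c vM = (⟨z, hzM⟩ : M)⁻¹ * vM := by
        apply Subtype.ext
        rw [capp, hg]
        rfl
      rw [this, map_mul, map_inv, hαz, hαv])
    (by
      intro m
      obtain ⟨k, hk⟩ := hDgen z hzD hz1 _ (hcomm x' x'.2 m (hMP m.2))
      refine ⟨k, Subtype.ext ?_⟩
      rw [tapp]
      show _ = z ^ k * (m : Ω)
      have hk' : z ^ k = ⁅(x' : Ω), (m : Ω)⁆ := hk
      rw [hk'])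
    (by
      intro m
      obtain ⟨k, hk⟩ := hDgen z hzD hz1 _ (hcomm g' g'.2 (α.symm m) (hMP (α.symm m).2))
      refine ⟨k, ?_⟩
      rw [t₂app]
      have : c (α.symm m) = (⟨z, hzM⟩ : M) ^ k * α.symm m := by
        apply Subtype.ext
        rw [capp]
        show _ = z ^ k * ((α.symm m : M) : Ω)
        have hk' : z ^ k = ⁅(g' : Ω), ((α.symm m : M) : Ω)⁆ := hk
        rw [hk']
      rw [this, map_mul, map_zpow, hαz]
      simp)
  obtain ⟨ι, hι⟩ : ∃ ι, ι = (t * t₂ * t) ^ 2 := ⟨_, rfl⟩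
  rw [← hι] at H
  obtain ⟨hιz, hιt⟩ := H
  have hιF : ι ∈ F.autGroup M :=
    hι ▸ Subgroup.pow_mem _ (Subgroup.mul_mem _ (Subgroup.mul_mem _ htF ht₂F) htF) 2
  obtain ⟨-, hrecM⟩ := sat_fullyNormalized p hS F hF (fullyNormalized_of_normal F hMS hMnS)
  have hx'M : x' ∉ M' := by
    intro h
    apply hz1
    rw [← hx]
    exact commutatorElement_eq_one_iff_mul_comm.2 ((hM'mem x').1 h)
  have hcommι : ∀ i : ℤ, ι * t ^ i = t ^ i * ι := fun i =>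
    Commute.zpow_right (show Commute ι t from hιt) i
  have tpow : ∀ (i : ℤ) (m : M), (((t ^ i) m : M) : Ω) = (x' : Ω) ^ i * m * ((x' : Ω) ^ i)⁻¹ := by
    intro i m
    rw [ht, ← map_zpow, conjAut_apply]
    have : ((nx ^ i : normalizerIn S M) : Ω) = (x' : Ω) ^ i := by
      rw [← hnx]; rfl
    rw [this]
  obtain ⟨Φ, hΦ, hΦM⟩ := extend_aut F hrecM ι hιF P hMP (by
    intro g hg
    refine ⟨⟨hPS hg, hMnS (hPS hg)⟩, g, hPS hg, fun m hx => ?_⟩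
    obtain ⟨i, m₀, hm₀, hgi⟩ := exists_zpow_mul hfrat M' hidx' hx'M ⟨g, hg⟩
    have hgi' : g = (x' : Ω) ^ i * m₀ := congrArg Subtype.val hgi
    have hm₀M : (m₀ : Ω) ∈ M := (hMmem _).2 ⟨m₀.2, (hM'mem m₀).1 hm₀⟩
    have e1 : ∀ m : M, g * m * g⁻¹ = (((t ^ i) m : M) : Ω) := by
      intro m
      rw [tpow, hgi']
      have h1 := hMab' m₀ hm₀M m m.2
      calc (x' : Ω) ^ i * m₀ * m * ((x' : Ω) ^ i * m₀)⁻¹
          = (x' : Ω) ^ i * ((m₀ : Ω) * m) * (m₀ : Ω)⁻¹ * ((x' : Ω) ^ i)⁻¹ := by group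
        _ = (x' : Ω) ^ i * ((m : Ω) * m₀) * (m₀ : Ω)⁻¹ * ((x' : Ω) ^ i)⁻¹ := by rw [h1]
        _ = (x' : Ω) ^ i * m * ((x' : Ω) ^ i)⁻¹ := by group
    have e2 : (⟨g * m * g⁻¹, hx⟩ : M) = (t ^ i) m := Subtype.ext (e1 m)
    rw [e2, e1 (ι m)]
    have := congrArg (fun f : MulAut M => ((f m : M) : Ω)) (hcommι i)
    exact this)
  obtain ⟨x₁, hx₁⟩ : ∃ x₁, x₁ = Φ x' := ⟨_, rfl⟩
  have hx₁P : x₁ ∈ P := hx₁ ▸ hP.2 P le_rfl Φ hΦ x'
  obtain ⟨m, hm⟩ : ∃ m : M, ι m = ⟨y, hyM⟩ := ⟨ι.symm ⟨y, hyM⟩, by simp⟩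
  have e1 : Φ (x' * Subgroup.inclusion hMP m * x'⁻¹) = x₁ * y * x₁⁻¹ := by
    rw [map_mul, map_mul, map_inv, hΦM, hm, ← hx₁]
  have e2 : x' * Subgroup.inclusion hMP m * x'⁻¹ = Subgroup.inclusion hMP (t m) := by
    apply Subtype.ext
    show (x' : Ω) * m * (x' : Ω)⁻¹ = ((t m : M) : Ω)
    rw [ht, conjAut_apply, hnx]
  have e3 : Φ (Subgroup.inclusion hMP (t m)) = (x' : Ω) * y * (x' : Ω)⁻¹ := by
    rw [hΦM]
    have h1 := congrArg (fun f : MulAut M => ((f m : M) : Ω)) hιt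
    have h2 : ((ι (t m) : M) : Ω) = ((t (ι m) : M) : Ω) := h1
    rw [h2, hm, ht, conjAut_apply, hnx]
  have e4 : x₁ * y * x₁⁻¹ = (x' : Ω) * y * (x' : Ω)⁻¹ := by rw [← e1, e2, e3]
  obtain ⟨m₁, hm₁⟩ : ∃ m₁ : Ω, m₁ = (x' : Ω)⁻¹ * x₁ := ⟨_, rfl⟩
  have hm₁P : m₁ ∈ P := hm₁ ▸ P.mul_mem (P.inv_mem x'.2) hx₁P
  have hm₁y : m₁ * y = y * m₁ := by
    rw [hm₁]
    calc (x' : Ω)⁻¹ * x₁ * y = (x' : Ω)⁻¹ * (x₁ * y * x₁⁻¹) * x₁ := by group
      _ = (x' : Ω)⁻¹ * ((x' : Ω) * y * (x' : Ω)⁻¹) * x₁ := by rw [e4]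
      _ = y * ((x' : Ω)⁻¹ * x₁) := by group
  have hm₁p : m₁ ^ p = 1 := hMex m₁ hm₁P hm₁y
  have hx₁p : x₁ ^ p = (x' : Ω) ^ p := by
    have h1 := mul_pow_p hPp hcard hp2 x' ⟨m₁, hm₁P⟩
    have h2 : ((x' : Ω) * m₁) ^ p = (x' : Ω) ^ p * m₁ ^ p := congrArg Subtype.val h1
    rw [hm₁p, mul_one] at h2
    rw [← h2, hm₁, mul_inv_cancel_left]
  obtain ⟨k, hk⟩ := hDgen z hzD hz1 _ (hpow x' x'.2)
  have hk' : z ^ k = (x' : Ω) ^ p := hk
  have e5 : Φ (x' ^ p) = ((x' : Ω) ^ p)⁻¹ := by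
    have h1 : x' ^ p = Subgroup.inclusion hMP ((⟨z, hzM⟩ : M) ^ k) := Subtype.ext hk'.symm
    rw [h1, hΦM, map_zpow, hιz, ← hk']
    show (z⁻¹) ^ k = (z ^ k)⁻¹
    rw [inv_zpow]
  have e6 : (x' : Ω) ^ p = ((x' : Ω) ^ p)⁻¹ := by
    rw [← e5, map_pow, ← hx₁, hx₁p]
  have e7 : ((x' : Ω) ^ p) ^ 2 = 1 := by
    rw [sq]
    nth_rewrite 1 [e6]
    rw [inv_mul_cancel]
  have e8 : ((x' : Ω) ^ p) ^ p = 1 := by
    have := pow_card_eq_one' (G := D) (x := ⟨(x' : Ω) ^ p, hpow x' x'.2⟩)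
    rw [hDcard] at this
    exact congrArg Subtype.val this
  have e9 : (x' : Ω) ^ p = 1 := by
    have d1 := orderOf_dvd_of_pow_eq_one e7
    have d2 := orderOf_dvd_of_pow_eq_one e8
    have d3 := Nat.dvd_gcd d1 d2
    rw [(Nat.coprime_primes Nat.prime_two hp.out).2 (Ne.symm hp2)] at d3
    exact orderOf_eq_one_iff.1 (Nat.dvd_one.1 d3)
  exact hx'M ((hM'mem x').2 (hΩ x' x'.2 e9))

end Cfsg.Agent.Lib.Helper9_GenExtraC
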