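import Mathlib
import Cfsg.Prelude.Def_FusionSystem
import Cfsg.Prelude.Def_FusionComponents
import Cfsg.Agent.Lib.Helper9_Constrained3
import Cfsg.Agent.Lib.Helper9_CenterFactor
import Cfsg.Agent.Lib.Helper9_Focal

set_option autoImplicit false

namespace Cfsg.Agent.Lib.Helper9_Grun

open Cfsg Cfsg.FusionSystem Cfsg.Agent.Lib.Helper9_FusionBasic Cfsg.Agent.Lib.Helper9_FusionSat
  Cfsg.Agent.Lib.Helper9_FusionNormal Cfsg.Agent.Lib.Helper9_AlperinCor
  Cfsg.Agent.Lib.Helper9_Chain3 Cfsg.Agent.Lib.Helper9_Solvable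
  Cfsg.Agent.Lib.Helper9_Constrained Cfsg.Agent.Lib.Helper9_Factor3 Cfsg.Agent.Lib.Helper9_Image
  Cfsg.Agent.Lib.Helper9_Factor4 Cfsg.Agent.Lib.Helper9_Constrained3
  Cfsg.Agent.Lib.Helper9_CenterFactor Cfsg.Agent.Lib.Helper9_Focal

open scoped commutatorElement

variable {Ω : Type*} [Group Ω] {S : Subgroup Ω} {Ω' : Type*} [Group Ω'] {S' : Subgroup Ω'}

/-- maps of the system fix the centre elementwise -/
theorem hom_center_fix [Finite S] (p : ℕ) [Fact p.Prime] (hS : IsPGroup p S)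
    (F : FusionSystem S) (hF : F.IsSaturated p) {R : Subgroup Ω} {ψ : R →* Ω} (hψ : ψ ∈ F.Hom R)
    (z : R) (hz : (z : Ω) ∈ F.center) : ψ z = z := by
  have h1 := ((isCentral_iff p hS F hF _).1 (isCentral_center F)).2 z hz
  have hle : Subgroup.zpowers (z : Ω) ≤ R := by
    rw [Subgroup.zpowers_le]; exact z.2
  exact h1 _ ⟨_, restrict_mem F hψ hle, rfl⟩

/-- S5315 in general form -/
theorem center_factor_eq_bot [Finite S] (p : ℕ) [Fact p.Prime] (hS : IsPGroup p S)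
    (F : FusionSystem S) (hF : F.IsSaturated p) (hperf : F.hyperfocalSubgroup p = S)
    (θ : S →* Ω') (E : FusionSystem S') (hE : F.IsFactorSystem F.center θ E) :
    E.center = ⊥ := by
  have hZ : F.IsCentral F.center := isCentral_center F
  have hZn := isNormal_of_isCentral hZ
  have hZsc := stronglyClosed_of_isNormal hZn
  have hmor := surjectiveMorphism_of_factor p hS F hF _ hZsc θ E hE
  have hEsat := image_saturated p hS hF hmor
  have hrange : θ.range = S' := hE.2.2.1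
  have hker := hE.2.1
  have hfin : Finite S' := by
    rw [← hrange]
    exact Finite.of_surjective θ.rangeRestrict θ.rangeRestrict_surjective
  have hS'p : IsPGroup p S' := by
    rw [← hrange]
    exact hS.of_surjective θ.rangeRestrict θ.rangeRestrict_surjective
  have hZcen : F.center ≤ Subgroup.centralizer (S : Set Ω) := center_le_centralizer F
  have hE'c : E.IsCentral E.center := isCentral_center E
  have hW := preimage_stronglyClosed hmor.1
    (stronglyClosed_of_isNormal (isNormal_of_isCentral hE'c))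
  have hmemW : ∀ x : Ω, x ∈ preimageAlong θ E.center ↔ ∃ hx : x ∈ S, θ ⟨x, hx⟩ ∈ E.center :=
    mem_preimageAlong θ E.center
  have hZW : F.center ≤ preimageAlong θ E.center := le_preimageAlong θ hZ.1 hker _
  generalize preimageAlong θ E.center = W at hW hmemW hZW
  -- commutators with `W` land in the centre
  have hSW : ∀ x ∈ S, ∀ w ∈ W, x * w * x⁻¹ * w⁻¹ ∈ F.center := by
    intro x hx w hw
    obtain ⟨hwS, hwc⟩ := (hmemW w).1 hw
    have e : x * w * x⁻¹ * w⁻¹ = ((⁅(⟨x, hx⟩ : S), ⟨w, hwS⟩⁆ : S) : Ω) := rfl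
    rw [e, ← hker, map_commutatorElement, commutatorElement_eq_one_iff_mul_comm]
    exact (Subgroup.mem_centralizer_iff.1 (center_le_centralizer E hwc)) _ (hmor.1.1 _)
  have hWn : F.IsNormal W := by
    apply isNormal_of_chain3 p hS F hF hZsc hW hZW
    · rw [Subgroup.commutator_comm, le_bot_iff, Subgroup.commutator_eq_bot_iff_le_centralizer]
      exact hZcen.trans (Subgroup.centralizer_le hW.1)
    · rw [Subgroup.commutator_le]
      intro a ha b hb
      exact hSW a (hW.1 ha) b hb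
  -- maps of `F` move elements of `W` only by central elements
  have hmove : ∀ (R : Subgroup Ω) (ψ : R →* Ω), ψ ∈ F.Hom R → ∀ w : R, (w : Ω) ∈ W →
      (w : Ω)⁻¹ * ψ w ∈ F.center := by
    intro R ψ hψ w hw
    obtain ⟨hwS, hwc⟩ := (hmemW w).1 hw
    obtain ⟨ψ', hψ', hR, hψS, hR', hind⟩ := hmor.1.2 R ψ hψ
    have h1 := ((isCentral_iff p hS'p E hEsat _).1 hE'c).2 _ hwc
    have hle : Subgroup.zpowers (θ ⟨w, hwS⟩) ≤ imageAlong θ R := by
      rw [Subgroup.zpowers_le]; exact hR' w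
    have h2 := h1 _ ⟨_, restrict_mem E hψ' hle, rfl⟩
    have h3 : ψ' ⟨θ ⟨w, hR w.2⟩, hR' w⟩ = θ ⟨w, hwS⟩ := h2
    rw [hind w] at h3
    have e : (w : Ω)⁻¹ * ψ w = (((⟨w, hwS⟩ : S)⁻¹ * ⟨ψ w, hψS w⟩ : S) : Ω) := rfl
    rw [e, ← hker, map_mul, map_inv, h3, inv_mul_cancel]
  -- the focal subgroup centralizes `W`
  have hfoc : F.focalSubgroup ≤ Subgroup.centralizer (W : Set Ω) := by
    unfold focalSubgroup
    rw [Subgroup.closure_le]
    rintro _ ⟨P, φ, x, hφ, rfl⟩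
    rw [SetLike.mem_coe, Subgroup.mem_centralizer_iff]
    intro w hw
    obtain ⟨ψ, hψ, a1, -, -⟩ := isNormal_extend hWn hφ
    have hPS := le_of_hom F hφ
    have hφS := map_mem_of_hom F hφ x
    have hu := hSW x (hPS x.2) w hw
    have hfix := hom_center_fix p hS F hF hψ
      (Subgroup.inclusion le_sup_left x * Subgroup.inclusion le_sup_right ⟨w, hw⟩ *
        (Subgroup.inclusion le_sup_left x)⁻¹ * (Subgroup.inclusion le_sup_right ⟨w, hw⟩)⁻¹) hu
    rw [map_mul, map_mul, map_mul, map_inv, map_inv, a1] at hfix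
    have hz := hmove _ ψ hψ (Subgroup.inclusion le_sup_right ⟨w, hw⟩) hw
    generalize ψ (Subgroup.inclusion le_sup_right ⟨w, hw⟩) = w' at hfix hz
    have hz' : (w : Ω)⁻¹ * w' ∈ F.center := hz
    have hcomm := (Subgroup.mem_centralizer_iff.1 (hZcen hz')) _ (S.inv_mem hφS)
    have hfix' : φ x * w' * (φ x)⁻¹ * w'⁻¹ = (x : Ω) * w * (x : Ω)⁻¹ * w⁻¹ := hfix
    have e1 : φ x * w' * (φ x)⁻¹ * w'⁻¹ = φ x * w * ((w⁻¹ * w') * (φ x)⁻¹) * w'⁻¹ := by group
    rw [e1, ← hcomm] at hfix'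
    have e2 : φ x * w * ((φ x)⁻¹ * (w⁻¹ * w')) * w'⁻¹ = φ x * w * (φ x)⁻¹ * w⁻¹ := by group
    rw [e2] at hfix'
    have e3 : φ x * w * (φ x)⁻¹ = (x : Ω) * w * (x : Ω)⁻¹ := mul_right_cancel hfix'
    calc w * ((x : Ω)⁻¹ * φ x) = (x : Ω)⁻¹ * ((x : Ω) * w * (x : Ω)⁻¹) * φ x := by group
      _ = (x : Ω)⁻¹ * (φ x * w * (φ x)⁻¹) * φ x := by rw [e3]
      _ = (x : Ω)⁻¹ * φ x * w := by group
  have hSc : S ≤ Subgroup.centralizer (W : Set Ω) :=
    hperf.ge.trans ((hyperfocal_le_focal F p).trans hfoc)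
  -- `Aut_F(W)` is a `p`-group
  have hwc := weaklyClosed_of_stronglyClosed hW
  obtain ⟨⟨-, R, hR⟩, -⟩ := sat_fullyNormalized p hS F hF (fullyNormalized_of_weaklyClosed hwc)
  have : Finite F.center := finite_of_le hZ.1
  obtain ⟨k, hk⟩ := (isPGroup_of_le hS hZ.1).exists_card_eq
  have hpow : ∀ α ∈ F.autGroup W, α ^ p ^ k = 1 := by
    intro α hα
    have hαF := (mem_autGroup_iff F hW.1 α).1 hα
    ext w
    have hz : ((w⁻¹ * α w : W) : Ω) ∈ F.center := hmove W _ hαF w w.2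
    have hαz : α (w⁻¹ * α w) = w⁻¹ * α w :=
      Subtype.ext (hom_center_fix p hS F hF hαF (w⁻¹ * α w) hz)
    have hind : ∀ n : ℕ, (α ^ n) w = w * (w⁻¹ * α w) ^ n := by
      intro n
      induction n with
      | zero => simp
      | succ n ih =>
        rw [pow_succ', MulAut.mul_apply, ih, map_mul, map_pow, hαz, pow_succ', ← mul_assoc,
          mul_inv_cancel_left]
    rw [hind]
    have h1 : (⟨((w⁻¹ * α w : W) : Ω), hz⟩ : F.center) ^ p ^ k = 1 := by
      rw [← hk]; exact pow_card_eq_one'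
    have h2 : (w⁻¹ * α w) ^ p ^ k = 1 :=
      Subtype.ext (congrArg (fun t : F.center => (t : Ω)) h1)
    rw [h2, mul_one]
    rfl
  have hAp : IsPGroup p (F.autGroup W) := fun α => ⟨k, Subtype.ext (hpow α α.2)⟩
  have hRtop : (⊤ : Subgroup (F.autGroup W)) = R := R.is_maximal' (hAp.to_subgroup ⊤) le_top
  have htriv : ∀ α ∈ F.autGroup W, ∀ w : W, α w = w := by
    intro α hα w
    have h1 : (⟨α, hα⟩ : F.autGroup W) ∈ (R : Subgroup (F.autGroup W)) :=
      hRtop ▸ Subgroup.mem_top _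
    rw [hR] at h1
    obtain ⟨g, hg, hgx⟩ := (mem_autInducedBy_iff _ _ _).1 h1
    apply Subtype.ext
    have h2 : ((α w : W) : Ω) = g * w * g⁻¹ := hgx w
    rw [h2, ← (Subgroup.mem_centralizer_iff.1 (hSc hg)) w w.2]
    group
  have hWZ : W ≤ F.center := fun w hw =>
    (mem_center_iff_of_isNormal p hS F hF hWn ⟨w, hw⟩).2 (fun α hα => htriv α hα _)
  rw [eq_bot_iff]
  intro y hy
  have hyr : y ∈ θ.range := hrange ▸ hE'c.1 hy
  obtain ⟨s, rfl⟩ := hyr
  exact Subgroup.mem_bot.2 ((hker s).2 (hWZ ((hmemW s).2 ⟨s.2, hy⟩)))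

end Cfsg.Agent.Lib.Helper9_Grun
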