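import Mathlib
import Cfsg.Prelude.Def_Transfer
import Cfsg.Prelude.Def_Solvable

set_option autoImplicit false

namespace Cfsg.Agent.Lib.Helper9_LargeEx

open Cfsg
open scoped commutatorElement

variable {G : Type*} [Group G]

/-- `O_p(H)` inside `G` -/
def coreOf (p : ℕ) (H : Subgroup G) : Subgroup G := (pCore p H).map H.subtype

theorem coreOf_le (p : ℕ) (H : Subgroup G) : coreOf p H ≤ H := Subgroup.map_subtype_le _

theorem coreOf_isPGroup (p : ℕ) (H : Subgroup G) : IsPGroup p (coreOf p H) :=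
  (Sylow.sSup_of_normal _ (fun _ h => h.2) (fun _ h => h.1) : IsPGroup p (pCore p H)).map _

theorem coreOf_conj {p : ℕ} {H : Subgroup G} {h n : G} (hh : h ∈ H) (hn : n ∈ coreOf p H) :
    h * n * h⁻¹ ∈ coreOf p H := by
  obtain ⟨k, hk, rfl⟩ := hn
  have hN : (pCore p H).Normal := Subgroup.sSup_normal _ (fun _ h => h.1)
  exact ⟨⟨h, hh⟩ * k * ⟨h, hh⟩⁻¹, hN.conj_mem k hk _, rfl⟩

theorem le_coreOf {p : ℕ} {H N : Subgroup G} (hNH : N ≤ H)
    (hnorm : ∀ h ∈ H, ∀ n ∈ N, h * n * h⁻¹ ∈ N) (hN : IsPGroup p N) : N ≤ coreOf p H := by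
  have h1 : (N.subgroupOf H).Normal := ⟨fun n hn h => hnorm h h.2 n hn⟩
  have h2 : IsPGroup p (N.subgroupOf H) :=
    hN.of_injective ((H.subtype.comp (N.subgroupOf H).subtype).codRestrict N (fun x => x.2))
      (fun _ _ hab => Subtype.ext (Subtype.ext (congrArg (fun t : N => (t : G)) hab)))
  have h3 : N.subgroupOf H ≤ pCore p H := le_sSup ⟨h1, h2⟩
  intro n hn
  exact ⟨⟨n, hNH hn⟩, h3 hn, rfl⟩

abbrev cen (x : G) : Subgroup G := Subgroup.centralizer ({x} : Set G)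

theorem mem_cen {x y : G} : y ∈ cen x ↔ x * y = y * x := by
  rw [Subgroup.mem_centralizer_iff]
  simp

/-- `Q x` -/
def QQ (x : G) : Subgroup G := coreOf 2 (cen x)

theorem QQ_conj {x y : G} (g : G) (hy : y ∈ QQ x) : g * y * g⁻¹ ∈ QQ (g * x * g⁻¹) := by
  have : (QQ x).map (MulAut.conj g).toMonoidHom ≤ QQ (g * x * g⁻¹) := by
    apply le_coreOf
    · rintro _ ⟨k, hk, rfl⟩
      have h1 := mem_cen.1 (coreOf_le _ _ hk)
      rw [mem_cen]
      show g * x * g⁻¹ * (g * k * g⁻¹) = g * k * g⁻¹ * (g * x * g⁻¹)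
      calc g * x * g⁻¹ * (g * k * g⁻¹) = g * (x * k) * g⁻¹ := by group
        _ = g * (k * x) * g⁻¹ := by rw [h1]
        _ = _ := by group
    · rintro h hh _ ⟨k, hk, rfl⟩
      have h1 : g⁻¹ * h * g ∈ cen x := by
        rw [mem_cen] at hh ⊢
        calc x * (g⁻¹ * h * g) = g⁻¹ * (g * x * g⁻¹ * h) * g := by group
          _ = g⁻¹ * (h * (g * x * g⁻¹)) * g := by rw [hh]
          _ = _ := by group
      refine ⟨_, coreOf_conj h1 hk, ?_⟩
      show g * (g⁻¹ * h * g * k * (g⁻¹ * h * g)⁻¹) * g⁻¹ = h * (g * k * g⁻¹) * h⁻¹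
      group
    · exact (coreOf_isPGroup _ _).map _
  exact this ⟨y, hy, rfl⟩

/-- the properties of `Q v` that we use -/
structure Good (v : G) : Prop where
  comm : ∀ a ∈ QQ v, ∀ b ∈ QQ v, a * b * a⁻¹ * b⁻¹ = 1 ∨ a * b * a⁻¹ * b⁻¹ = v
  move : ∀ u ∈ QQ v, u ≠ 1 → u ≠ v → ∃ h ∈ QQ v, h * u * h⁻¹ * u⁻¹ = v

theorem self_mem {z : G} (hz : orderOf z = 2) : z ∈ QQ z := by
  have : Subgroup.zpowers z ≤ QQ z := by
    apply le_coreOf
    · rw [Subgroup.zpowers_le, mem_cen]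
    · intro h hh n hn
      have h1 : Subgroup.zpowers z ≤ Subgroup.centralizer ({h} : Set G) := by
        rw [Subgroup.zpowers_le, mem_cen]
        exact (mem_cen.1 hh).symm
      have h2 := mem_cen.1 (h1 hn)
      rw [h2, mul_inv_cancel_right]
      exact hn
    · apply IsPGroup.of_card (n := 1)
      rw [Nat.card_zpowers, hz, pow_one]
  exact this (Subgroup.mem_zpowers z)

theorem good_self {z : G} (hz : orderOf z = 2) (hE : IsExtraspecial 2 ↥(QQ z)) : Good z := by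
  have hzQ := self_mem hz
  have hz1 : z ≠ 1 := by
    rintro rfl
    simp at hz
  have hzc : (⟨z, hzQ⟩ : QQ z) ∈ Subgroup.center (QQ z) := by
    rw [Subgroup.mem_center_iff]
    intro y
    exact Subtype.ext (mem_cen.1 (coreOf_le _ _ y.2)).symm
  obtain ⟨y₀, -, huniq⟩ := (Nat.card_eq_two_iff' (1 : Subgroup.center (QQ z))).1 hE.2
  have hcen : ∀ c ∈ Subgroup.center (QQ z), c = 1 ∨ (c : G) = z := by
    intro c hc
    by_cases h1 : c = 1
    · exact Or.inl h1
    · right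
      have e1 : (⟨c, hc⟩ : Subgroup.center (QQ z)) = y₀ := huniq _ (fun h => h1 (congrArg Subtype.val h))
      have e2 : (⟨⟨z, hzQ⟩, hzc⟩ : Subgroup.center (QQ z)) = y₀ :=
        huniq _ (fun h => hz1 (congrArg (fun t : Subgroup.center (QQ z) => ((t : QQ z) : G)) h))
      exact congrArg (fun t : Subgroup.center (QQ z) => ((t : QQ z) : G)) (e1.trans e2.symm)
  have hcomm : ∀ a ∈ QQ z, ∀ b ∈ QQ z, a * b * a⁻¹ * b⁻¹ = 1 ∨ a * b * a⁻¹ * b⁻¹ = z := by
    intro a ha b hb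
    have h1 : ⁅(⟨a, ha⟩ : QQ z), ⟨b, hb⟩⁆ ∈ commutator (QQ z) :=
      Subgroup.commutator_mem_commutator (Subgroup.mem_top _) (Subgroup.mem_top _)
    rw [hE.1.2.2] at h1
    rcases hcen _ h1 with h | h
    · left
      exact congrArg Subtype.val h
    · right
      exact h
  refine ⟨hcomm, fun u hu hu1 huz => ?_⟩
  have hnc : (⟨u, hu⟩ : QQ z) ∉ Subgroup.center (QQ z) := by
    intro hc
    rcases hcen _ hc with h | h
    · exact hu1 (congrArg Subtype.val h)
    · exact huz h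
  rw [Subgroup.mem_center_iff] at hnc
  push Not at hnc
  obtain ⟨h, hh⟩ := hnc
  refine ⟨h, h.2, ?_⟩
  rcases hcomm h h.2 u hu with e | e
  · exfalso
    apply hh
    apply Subtype.ext
    show (h : G) * u = u * h
    have : (h : G) * u = ((h : G) * u * (h : G)⁻¹ * u⁻¹) * (u * h) := by group
    rw [this, e, one_mul]
  · exact e

theorem Good.conj {x : G} (h : Good x) (g : G) : Good (g * x * g⁻¹) := by
  have back : ∀ a ∈ QQ (g * x * g⁻¹), g⁻¹ * a * g ∈ QQ x := by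
    intro a ha
    have := QQ_conj g⁻¹ ha
    have e : g⁻¹ * (g * x * g⁻¹) * g⁻¹⁻¹ = x := by group
    rw [e, inv_inv] at this
    exact this
  constructor
  · intro a ha b hb
    have e : a * b * a⁻¹ * b⁻¹ =
        g * ((g⁻¹ * a * g) * (g⁻¹ * b * g) * (g⁻¹ * a * g)⁻¹ * (g⁻¹ * b * g)⁻¹) * g⁻¹ := by group
    rcases h.comm _ (back a ha) _ (back b hb) with k | k
    · left
      rw [e, k]
      group
    · right
      rw [e, k]
  · intro u hu hu1 hux
    obtain ⟨k, hk, e⟩ := h.move _ (back u hu) (fun h1 => hu1 (by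
        have : u = g * (g⁻¹ * u * g) * g⁻¹ := by group
        rw [this, h1]; group)) (fun h1 => hux (by
        have : u = g * (g⁻¹ * u * g) * g⁻¹ := by group
        rw [this, h1]))
    refine ⟨g * k * g⁻¹, QQ_conj g hk, ?_⟩
    rw [← e]
    group

/-- the key step -/
theorem mem_mul {U : Subgroup G} (hgood : ∀ u ∈ U, u ≠ 1 → Good u)
    (hO : ∀ u ∈ U, ∀ v ∈ U, u ≠ 1 → v ≠ 1 → v ∈ QQ u) {u v w : G} (hu : u ∈ U) (hv : v ∈ U)
    (hu1 : u ≠ 1) (hv1 : v ≠ 1) (huv : u ≠ v) (hvu1 : v * u ≠ 1) (hwu : w ∈ QQ u) (hwv : w ∈ QQ v) :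
    w ∈ QQ (v * u) := by
  obtain ⟨h, hh, e⟩ := (hgood v hv hv1).move u (hO v hv u hu hv1 hu1) hu1 huv
  have e1 : h * u * h⁻¹ = v * u := by
    rw [← e]; group
  have h1 := QQ_conj h hwu
  rw [e1] at h1
  rcases (hgood v hv hv1).comm h hh w hwv with k | k
  · have : h * w * h⁻¹ = w := by
      have : h * w * h⁻¹ = (h * w * h⁻¹ * w⁻¹) * w := by group
      rw [this, k, one_mul]
    rwa [this] at h1
  · have e2 : h * w * h⁻¹ = v * w := by
      have : h * w * h⁻¹ = (h * w * h⁻¹ * w⁻¹) * w := by group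
      rw [this, k]
    rw [e2] at h1
    have h2 : v ∈ QQ (v * u) := hO _ (U.mul_mem hv hu) v hv hvu1 hv1
    have := (QQ (v * u)).mul_mem ((QQ (v * u)).inv_mem h2) h1
    rwa [inv_mul_cancel_left] at this

theorem main [Finite G] (z : G) (hz : orderOf z = 2) (hE : IsExtraspecial 2 ↥(QQ z))
    (U : Subgroup G) (hU2 : ∀ u ∈ U, u * u = 1)
    (hS : ∀ u ∈ U, u ≠ 1 → ∃ g : G, g * z * g⁻¹ = u)
    (hO : ∀ u ∈ U, ∀ v ∈ U, u ≠ 1 → v ≠ 1 → v ∈ QQ u)
    (T : Set G) (hT : Subgroup.closure T = U) (hT1 : (1 : G) ∉ T) :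
    (⨅ u ∈ ((U : Set G) \ {1}), QQ u) = ⨅ t ∈ T, QQ t := by
  have hgood : ∀ u ∈ U, u ≠ 1 → Good u := by
    intro u hu hu1
    obtain ⟨g, rfl⟩ := hS u hu hu1
    exact (good_self hz hE).conj g
  have hTU : T ⊆ U := by
    rw [← hT]
    exact Subgroup.subset_closure
  apply le_antisymm
  · refine le_iInf₂ (fun t ht => ?_)
    exact iInf₂_le t ⟨hTU ht, fun h => hT1 (by rw [← Set.mem_singleton_iff.1 h]; exact ht)⟩
  · intro w hw
    have hw' : ∀ t ∈ T, w ∈ QQ t := by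
      intro t ht
      have := (Subgroup.mem_iInf.1 hw) t
      exact (Subgroup.mem_iInf.1 this) ht
    have key : ∀ u ∈ Subgroup.closure T, u ∈ U ∧ (u ≠ 1 → w ∈ QQ u) := by
      intro u hu
      induction hu using Subgroup.closure_induction with
      | mem t ht => exact ⟨hTU ht, fun _ => hw' t ht⟩
      | one => exact ⟨U.one_mem, fun h => absurd rfl h⟩
      | mul a b _ _ iha ihb =>
        refine ⟨U.mul_mem iha.1 ihb.1, fun hab => ?_⟩
        by_cases ha : a = 1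
        · rw [ha, one_mul] at hab ⊢
          exact ihb.2 hab
        by_cases hb : b = 1
        · rw [hb, mul_one] at hab ⊢
          exact iha.2 hab
        have hne : b ≠ a := by
          rintro rfl
          exact hab (hU2 _ iha.1)
        exact mem_mul hgood hO ihb.1 iha.1 hb ha hne hab (ihb.2 hb) (iha.2 ha)
      | inv a _ iha =>
        have : a⁻¹ = a := inv_eq_of_mul_eq_one_left (hU2 a iha.1)
        rw [this]
        exact iha
    rw [Subgroup.mem_iInf]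
    intro u
    rw [Subgroup.mem_iInf]
    intro hu
    exact (key u (by rw [hT]; exact hu.1)).2 (fun h => hu.2 (Set.mem_singleton_iff.2 h))

end Cfsg.Agent.Lib.Helper9_LargeEx
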