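import Mathlib
import Cfsg.Agent.Lib.Helper9_LargeEx

set_option autoImplicit false

namespace Cfsg.Agent.Lib.Helper9_LargeEx2

open Cfsg Cfsg.Agent.Lib.Helper9_LargeEx

variable {G : Type*} [Group G]

theorem comm_v {v y : G} (hy : y ∈ QQ v) : v * y = y * v := mem_cen.1 (coreOf_le _ _ hy)

theorem alt {v : G} (hg : Good v) {g y : G} (h : g ∈ QQ v) (hy : y ∈ QQ v) :
    g * y * g⁻¹ = y ∨ g * y * g⁻¹ = v * y := by
  have e : g * y * g⁻¹ = (g * y * g⁻¹ * y⁻¹) * y := by group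
  rcases hg.comm g h y hy with k | k
  · left; rw [e, k, one_mul]
  · right; rw [e, k]

theorem exists_cent {v : G} (hg : Good v) (hv2 : v * v = 1) (s : Finset G) :
    (∀ a ∈ s, a ∈ QQ v) → ∀ x ∈ QQ v, x ∉ Subgroup.closure ((s : Set G) ∪ {v}) →
    ∃ g ∈ QQ v, (∀ a ∈ s, g * a * g⁻¹ = a) ∧ g * x * g⁻¹ = v * x := by
  classical
  induction s using Finset.induction_on with
  | empty =>
    intro _ x hx hxn
    have h1 : x ≠ 1 := by
      rintro rfl
      exact hxn (Subgroup.one_mem _)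
    have h2 : x ≠ v := by
      rintro rfl
      exact hxn (Subgroup.subset_closure (Or.inr rfl))
    obtain ⟨h, hh, e⟩ := hg.move x hx h1 h2
    refine ⟨h, hh, fun a ha => absurd ha (Finset.notMem_empty a), ?_⟩
    rw [← e]; group
  | insert a s _ ih =>
    intro hs x hx hxn
    have haQ : a ∈ QQ v := hs a (Finset.mem_insert_self a s)
    have hsQ : ∀ b ∈ s, b ∈ QQ v := fun b hb => hs b (Finset.mem_insert_of_mem hb)
    have hmono : Subgroup.closure ((s : Set G) ∪ {v}) ≤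
        Subgroup.closure (((insert a s : Finset G) : Set G) ∪ {v}) := by
      apply Subgroup.closure_mono
      apply Set.union_subset_union_left
      intro b hb
      exact Finset.mem_coe.2 (Finset.mem_insert_of_mem (Finset.mem_coe.1 hb))
    have haC : a ∈ Subgroup.closure (((insert a s : Finset G) : Set G) ∪ {v}) :=
      Subgroup.subset_closure (Or.inl (Finset.mem_coe.2 (Finset.mem_insert_self a s)))
    have h1 : x ∉ Subgroup.closure ((s : Set G) ∪ {v}) := fun h => hxn (hmono h)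
    have h2 : x * a ∉ Subgroup.closure ((s : Set G) ∪ {v}) := by
      intro h
      apply hxn
      have := Subgroup.mul_mem _ (hmono h) (Subgroup.inv_mem _ haC)
      rwa [mul_inv_cancel_right] at this
    obtain ⟨g, hgQ, gs, gx⟩ := ih hsQ x hx h1
    obtain ⟨g', hgQ', gs', gx'⟩ := ih hsQ (x * a) ((QQ v).mul_mem hx haQ) h2
    rcases alt hg hgQ haQ with ga | ga
    · refine ⟨g, hgQ, fun b hb => ?_, gx⟩
      rcases Finset.mem_insert.1 hb with rfl | hb
      · exact ga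
      · exact gs b hb
    rcases alt hg hgQ' haQ with ga' | ga'
    · refine ⟨g', hgQ', fun b hb => ?_, ?_⟩
      · rcases Finset.mem_insert.1 hb with rfl | hb
        · exact ga'
        · exact gs' b hb
      · have : g' * x * g'⁻¹ = (g' * (x * a) * g'⁻¹) * (g' * a * g'⁻¹)⁻¹ := by group
        rw [this, gx', ga']
        group
    · have gx'' : g' * x * g'⁻¹ = x := by
        have : g' * x * g'⁻¹ = (g' * (x * a) * g'⁻¹) * (g' * a * g'⁻¹)⁻¹ := by group
        rw [this, gx', ga']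
        have : v * (x * a) * (v * a)⁻¹ = (v * x) * v⁻¹ := by group
        rw [this, comm_v hx, mul_inv_cancel_right]
      have gv : g * v * g⁻¹ = v := by
        rw [← comm_v hgQ, mul_inv_cancel_right]
      refine ⟨g * g', (QQ v).mul_mem hgQ hgQ', fun b hb => ?_, ?_⟩
      · rcases Finset.mem_insert.1 hb with rfl | hb
        · have : g * g' * b * (g * g')⁻¹ = g * (g' * b * g'⁻¹) * g⁻¹ := by group
          rw [this, ga']
          have : g * (v * b) * g⁻¹ = (g * v * g⁻¹) * (g * b * g⁻¹) := by group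
          rw [this, gv, ga, ← mul_assoc, hv2, one_mul]
        · have : g * g' * b * (g * g')⁻¹ = g * (g' * b * g'⁻¹) * g⁻¹ := by group
          rw [this, gs' b hb, gs b hb]
      · have : g * g' * x * (g * g')⁻¹ = g * (g' * x * g'⁻¹) * g⁻¹ := by group
        rw [this, gx'', gx]

theorem exists_cent' [Finite G] {v : G} (hg : Good v) (hv2 : v * v = 1) (A : Subgroup G)
    (hA : A ≤ QQ v) (hvA : v ∈ A) {x : G} (hx : x ∈ QQ v) (hxA : x ∉ A) :
    ∃ g ∈ QQ v, (∀ a ∈ A, g * a * g⁻¹ = a) ∧ g * x * g⁻¹ = v * x := by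
  obtain ⟨g, hgQ, h1, h2⟩ := exists_cent hg hv2 (Set.toFinite (A : Set G)).toFinset
    (fun a ha => hA ((Set.Finite.mem_toFinset _).1 ha)) x hx (fun h => hxA (by
      have : Subgroup.closure ((((Set.toFinite (A : Set G)).toFinset : Finset G) : Set G) ∪ {v}) ≤ A := by
        rw [Subgroup.closure_le]
        rintro b (hb | hb)
        · exact (Set.Finite.mem_toFinset _).1 (Finset.mem_coe.1 hb)
        · rw [Set.mem_singleton_iff.1 hb]; exact hvA
      exact this h))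
  exact ⟨g, hgQ, fun a ha => h1 a ((Set.Finite.mem_toFinset _).2 ha), h2⟩

section Setup

variable (U : Subgroup G)

def QU : Subgroup G := ⨅ u ∈ ((U : Set G) \ {1}), QQ u
def LU : Subgroup G := ⨆ u ∈ ((U : Set G) \ {1}), QQ u

variable {U}

theorem mem_QU {w : G} : w ∈ QU U ↔ ∀ u ∈ U, u ≠ 1 → w ∈ QQ u := by
  unfold QU
  simp only [Subgroup.mem_iInf]
  constructor
  · intro h u hu hu1
    exact h u ⟨hu, fun h' => hu1 (Set.mem_singleton_iff.1 h')⟩
  · intro h u hu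
    exact h u hu.1 (fun h' => hu.2 (Set.mem_singleton_iff.2 h'))

theorem QQ_le_LU {u : G} (hu : u ∈ U) (hu1 : u ≠ 1) : QQ u ≤ LU U :=
  le_iSup₂ (f := fun u (_ : u ∈ ((U : Set G) \ {1})) => QQ u) u
    ⟨hu, fun h' => hu1 (Set.mem_singleton_iff.1 h')⟩

theorem U_le_QU (hO : ∀ u ∈ U, ∀ v ∈ U, u ≠ 1 → v ≠ 1 → v ∈ QQ u) : U ≤ QU U := by
  intro w hw
  rw [mem_QU]
  intro u hu hu1
  by_cases hw1 : w = 1
  · rw [hw1]; exact Subgroup.one_mem _
  · exact hO u hu w hw hu1 hw1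

def PP (U : Subgroup G) (g : G) : Prop := ∀ x ∈ QU U, g * x * g⁻¹ * x⁻¹ ∈ U

theorem PP_mul (hUQ : U ≤ QU U) {g₁ g₂ : G} (h₁ : PP U g₁) (h₂ : PP U g₂) : PP U (g₁ * g₂) := by
  intro x hx
  have c := h₂ x hx
  have c' := h₁ _ (hUQ c)
  have c'' : g₁ * (g₂ * x * g₂⁻¹ * x⁻¹) * g₁⁻¹ ∈ U := by
    have := U.mul_mem c' c
    rwa [inv_mul_cancel_right] at this
  have := U.mul_mem c'' (h₁ x hx)
  have e : g₁ * (g₂ * x * g₂⁻¹ * x⁻¹) * g₁⁻¹ * (g₁ * x * g₁⁻¹ * x⁻¹) =
      g₁ * g₂ * x * (g₁ * g₂)⁻¹ * x⁻¹ := by group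
  rwa [e] at this

def MM (U : Subgroup G) (hUQ : U ≤ QU U) : Subgroup G where
  carrier := {g | PP U g ∧ PP U g⁻¹}
  mul_mem' := fun {a b} ha hb => ⟨PP_mul hUQ ha.1 hb.1, by
    rw [mul_inv_rev]; exact PP_mul hUQ hb.2 ha.2⟩
  one_mem' := by
    constructor
    · intro x _
      simp
    · intro x _
      simp
  inv_mem' := fun {a} ha => ⟨ha.2, by rw [inv_inv]; exact ha.1⟩

theorem LU_le_MM (hgood : ∀ u ∈ U, u ≠ 1 → Good u) (hUQ : U ≤ QU U) : LU U ≤ MM U hUQ := by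
  refine iSup₂_le (fun u hu => ?_)
  have hu1 : u ≠ 1 := fun h' => hu.2 (Set.mem_singleton_iff.2 h')
  have key : ∀ g ∈ QQ u, PP U g := by
    intro g hg x hx
    rcases (hgood u hu.1 hu1).comm g hg x (mem_QU.1 hx u hu.1 hu1) with k | k
    · rw [k]; exact U.one_mem
    · rw [k]; exact hu.1
  intro g hg
  exact ⟨key g hg, key _ ((QQ u).inv_mem hg)⟩

theorem LU_comm (hgood : ∀ u ∈ U, u ≠ 1 → Good u) (hUQ : U ≤ QU U) {g x : G} (hg : g ∈ LU U)
    (hx : x ∈ QU U) : g * x * g⁻¹ * x⁻¹ ∈ U := (LU_le_MM hgood hUQ hg).1 x hx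

theorem LU_le_normalizer (hgood : ∀ u ∈ U, u ≠ 1 → Good u) (hUQ : U ≤ QU U) :
    LU U ≤ Subgroup.normalizer (U : Set G) := by
  intro g hg
  have h := LU_le_MM hgood hUQ hg
  rw [Subgroup.mem_normalizer_iff]
  intro u
  constructor
  · intro hu
    have := U.mul_mem (h.1 u (hUQ hu)) hu
    rwa [inv_mul_cancel_right] at this
  · intro hu
    have := U.mul_mem (h.2 _ (hUQ hu)) hu
    rw [inv_mul_cancel_right, inv_inv] at this
    have e : g⁻¹ * (g * u * g⁻¹) * g = u := by group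
    rwa [e] at this

theorem trans_coset [Finite G] (hgood : ∀ u ∈ U, u ≠ 1 → Good u) (hU2 : ∀ u ∈ U, u * u = 1)
    (hUQ : U ≤ QU U) {x : G} (hx : x ∈ QU U) (hxU : x ∉ U) {u : G} (hu : u ∈ U) :
    ∃ g ∈ LU U ⊓ Subgroup.centralizer (U : Set G), g * x * g⁻¹ = x * u := by
  by_cases hu1 : u = 1
  · exact ⟨1, Subgroup.one_mem _, by rw [hu1]; simp⟩
  have hUu : U ≤ QQ u := fun w hw => mem_QU.1 (hUQ hw) u hu hu1
  obtain ⟨g, hgQ, h1, h2⟩ := exists_cent' (hgood u hu hu1) (hU2 u hu) U hUu hu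
    (mem_QU.1 hx u hu hu1) hxU
  refine ⟨g, ⟨QQ_le_LU hu hu1 hgQ, ?_⟩, ?_⟩
  · show g ∈ Subgroup.centralizer (U : Set G)
    rw [Subgroup.mem_centralizer_iff]
    intro a ha
    have := h1 a ha
    calc a * g = (g * a * g⁻¹) * g := by rw [this]
      _ = g * a := by group
  · rw [h2, comm_v (mem_QU.1 hx u hu hu1)]

end Setup

end Cfsg.Agent.Lib.Helper9_LargeEx2
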