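import Mathlib
import Cfsg.Agent.Lib.Helper9_LargeEx2

set_option autoImplicit false

namespace Cfsg.Agent.Lib.Helper9_LargeEx3

open Cfsg Cfsg.Agent.Lib.Helper9_LargeEx Cfsg.Agent.Lib.Helper9_LargeEx2

variable {G : Type*} [Group G] {U : Subgroup G}

theorem induce_all [Finite G] (hgood : ∀ u ∈ U, u ≠ 1 → Good u) (hU2 : ∀ u ∈ U, u * u = 1)
    (hUQ : U ≤ QU U) : ∀ (k : ℕ) (φ : U ≃* U), {u : U | φ u ≠ u}.ncard ≤ k →
    ∃ g ∈ LU U, ∀ u : U, g * (u : G) * g⁻¹ = ((φ u : U) : G) := by
  have h2 : ∀ a : U, a * a = 1 := fun a => Subtype.ext (hU2 a a.2)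
  have hinv : ∀ a : U, a⁻¹ = a := fun a => inv_eq_of_mul_eq_one_left (h2 a)
  have hc : ∀ a b : U, a * b = b * a := by
    intro a b
    have h := h2 (a * b)
    have : a * b = (a * b)⁻¹ := (hinv _).symm
    rw [this, mul_inv_rev, hinv, hinv]
  intro k
  induction k with
  | zero =>
    intro φ hφ
    have h0 : {u : U | φ u ≠ u} = ∅ := by
      have := Nat.le_zero.1 hφ
      exact (Set.ncard_eq_zero (Set.toFinite _)).1 this
    refine ⟨1, Subgroup.one_mem _, fun u => ?_⟩
    have : ¬ (φ u ≠ u) := fun h => by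
      have : u ∈ ({u : U | φ u ≠ u} : Set U) := h
      rw [h0] at this
      exact this
    push Not at this
    rw [this]; simp
  | succ k ih =>
    intro φ hφ
    by_cases hx : ∃ x, φ x ≠ x
    swap
    · push Not at hx
      refine ⟨1, Subgroup.one_mem _, fun u => ?_⟩
      rw [hx u]; simp
    obtain ⟨x, hx⟩ := hx
    obtain ⟨y, hy⟩ : ∃ y, y = φ x := ⟨_, rfl⟩
    obtain ⟨v, hv⟩ : ∃ v : U, v = x * y := ⟨_, rfl⟩
    have hv1 : v ≠ 1 := by
      intro h
      apply hx
      rw [hv] at h
      have : x = y⁻¹ := eq_inv_of_mul_eq_one_left h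
      rw [hinv] at this
      rw [← hy]
      exact this.symm
    have hv1' : (v : G) ≠ 1 := fun h => hv1 (Subtype.ext h)
    let A : Subgroup U := Subgroup.closure ({u : U | φ u = u} ∪ {v})
    have hA : ∀ w ∈ A, φ w = w ∨ φ (w * v) = w * v := by
      intro w hw
      induction hw using Subgroup.closure_induction with
      | mem t ht =>
        rcases ht with ht | ht
        · exact Or.inl ht
        · right
          rw [Set.mem_singleton_iff.1 ht, h2, map_one]
      | one => left; exact map_one φ
      | mul a b _ _ iha ihb =>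
        rcases iha with ha | ha <;> rcases ihb with hb | hb
        · left; rw [map_mul, ha, hb]
        · right; rw [mul_assoc, map_mul, ha, hb]
        · right
          have : a * b * v = (a * v) * b := by rw [mul_assoc, hc b v, mul_assoc]
          rw [this, map_mul, ha, hb]
        · left
          have : a * b = (a * v) * (b * v) := by
            rw [mul_assoc, ← mul_assoc v b v, hc v b, mul_assoc b v v, h2, mul_one]
          rw [this, map_mul, ha, hb]
      | inv a _ iha => rw [hinv]; exact iha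
    have hyA : y ∉ A := by
      intro h
      rcases hA y h with h | h
      · exact hx (φ.injective (by rw [← hy]; exact h))
      · have e : y * v = x := by
          rw [hv, hc x y, ← mul_assoc, h2, one_mul]
        rw [e] at h
        exact hx h
    have hUv : U ≤ QQ (v : G) := fun w hw => mem_QU.1 (hUQ hw) v v.2 hv1'
    obtain ⟨g, hgQ, g1, g2⟩ := exists_cent' (hgood v v.2 hv1') (hU2 v v.2) (A.map U.subtype)
      ((Subgroup.map_subtype_le A).trans hUv)
      ⟨v, Subgroup.subset_closure (Or.inr rfl), rfl⟩ (hUv y.2)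
      (by
        rintro ⟨y', hy', e⟩
        have : y' = y := Subtype.ext e
        rw [this] at hy'
        exact hyA hy')
    have hgL : g ∈ LU U := QQ_le_LU v.2 hv1' hgQ
    have hgN := LU_le_normalizer hgood hUQ hgL
    let τ : MulAut U := U.normalizerMonoidHom ⟨g, hgN⟩
    have hτ : ∀ u : U, ((τ u : U) : G) = g * u * g⁻¹ := fun _ => rfl
    let ψ : U ≃* U := φ.trans τ
    have hψ : ∀ u : U, ((ψ u : U) : G) = g * (φ u : U) * g⁻¹ := fun _ => rfl
    have hsub : {u : U | ψ u ≠ u} ⊂ {u : U | φ u ≠ u} := by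
      rw [Set.ssubset_iff_of_subset]
      · refine ⟨x, hx, ?_⟩
        intro h
        apply h
        apply Subtype.ext
        rw [hψ, ← hy, g2]
        have e : v * y = x := by rw [hv, mul_assoc, h2, mul_one]
        exact congrArg Subtype.val e
      · intro u hu hφu
        apply hu
        apply Subtype.ext
        rw [hψ, hφu]
        exact g1 u ⟨u, Subgroup.subset_closure (Or.inl hφu), rfl⟩
    have hlt := Set.ncard_lt_ncard hsub (Set.toFinite _)
    obtain ⟨g', hg', e'⟩ := ih ψ (by omega)
    refine ⟨g⁻¹ * g', (LU U).mul_mem ((LU U).inv_mem hgL) hg', fun u => ?_⟩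
    have := e' u
    rw [hψ] at this
    calc g⁻¹ * g' * (u : G) * (g⁻¹ * g')⁻¹ = g⁻¹ * (g' * u * g'⁻¹) * g := by group
      _ = g⁻¹ * (g * (φ u : U) * g⁻¹) * g := by rw [this]
      _ = _ := by group

end Cfsg.Agent.Lib.Helper9_LargeEx3
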