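import Mathlib
import Cfsg.Prelude.Def_FusionSystem
import Cfsg.Prelude.Def_OddOrderLocal
import Cfsg.Agent.Lib.Helper9_OmegaChain
import Cfsg.Agent.Lib.Helper9_Metacyclic
import Cfsg.Agent.Lib.Helper9_Factor
import Cfsg.Agent.Lib.Helper9_CenterFactor

set_option autoImplicit false

namespace Cfsg.Agent.Lib.Helper9_MetaNormal

open Cfsg Cfsg.FusionSystem Cfsg.Agent.Lib.Helper9_FusionBasic Cfsg.Agent.Lib.Helper9_FusionSat
open Cfsg.Agent.Lib.Helper9_FusionNormal Cfsg.Agent.Lib.Helper9_Alperin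
open Cfsg.Agent.Lib.Helper9_AlperinCor Cfsg.Agent.Lib.Helper9_Omega
open Cfsg.Agent.Lib.Helper9_OmegaChain Cfsg.Agent.Lib.Helper9_Metacyclic
open Cfsg.Agent.Lib.Helper9_Factor Cfsg.Agent.Lib.Helper9_CenterFactor
open Cfsg.Agent.Lib.Helper9_Chain3
open scoped commutatorElement

variable {Ω : Type*} [Group Ω] {S : Subgroup Ω}

/-- if the inversion of the strongly closed abelian subgroup `E = Ω₁(P)` lies in `Aut_F(E)` then
the strongly closed subgroup `P` is abelian (`p` odd) -/
theorem comm_of_inversion [Finite S] (p : ℕ) [Fact p.Prime] (hS : IsPGroup p S)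
    (F : FusionSystem S) (hF : F.IsSaturated p) (hp : p ≠ 2) (P : Subgroup Ω)
    (hP : F.StronglyClosed P) (E : Subgroup Ω) (hEsc : F.StronglyClosed E)
    (hEmem : ∀ x ∈ P, x ^ p = 1 → x ∈ E) (ι : MulAut E) (hι : ι ∈ F.autGroup E)
    (hinv : ∀ y, ι y = y⁻¹) : ∀ a b : P, a * b = b * a := by
  have hPS := hP.1
  have hES := hEsc.1
  have : Finite P := finite_of_le hPS
  have hPp : IsPGroup p P := isPGroup_of_le hS hPS
  have hfn := fullyNormalized_of_weaklyClosed (weaklyClosed_of_stronglyClosed hEsc)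
  obtain ⟨-, hrec⟩ := sat_fullyNormalized p hS F hF hfn
  obtain ⟨φ, hφ, hφx⟩ := extend_of_normalizes F hrec ι hι (autInducedBy S E) le_rfl (by
    intro r hr
    have : ι * r * ι⁻¹ = r := by
      have h1 : ι * r = r * ι := by
        ext y
        simp only [MulAut.mul_apply, hinv, map_inv]
      rw [h1]; group
    rw [this]
    exact hr) S hES (by
    intro g hg
    exact ⟨⟨hg, stronglyClosed_le_normalizer hEsc hg⟩, conjAut_mem_autInducedBy S E _⟩)
  have hmem : ∀ x : P, φ (Subgroup.inclusion hPS x) ∈ P := by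
    intro x
    exact hP.2 P le_rfl _ (restrict_mem F hφ hPS) x
  let f : P →* P := (φ.comp (Subgroup.inclusion hPS)).codRestrict P hmem
  have hfinj : Function.Injective f := by
    intro a b hab
    have h1 : φ (Subgroup.inclusion hPS a) = φ (Subgroup.inclusion hPS b) :=
      congrArg Subtype.val hab
    exact Subgroup.inclusion_injective hPS (F.injective_of_mem hφ h1)
  have hfbij : Function.Bijective f := Finite.injective_iff_bijective.1 hfinj
  apply commutative_of_inverting hp hPp (MulEquiv.ofBijective f hfbij)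
  intro x hx
  apply Subtype.ext
  have hxE : (x : Ω) ∈ E := hEmem x x.2 (congrArg Subtype.val hx)
  have h1 := hφx ⟨x, hxE⟩
  rw [hinv] at h1
  exact h1

/-- S5234 -/
theorem metacyclic_normal [Finite S] (p : ℕ) [Fact p.Prime] (hS : IsPGroup p S)
    (F : FusionSystem S) (hF : F.IsSaturated p) (P : Subgroup Ω) (hP : F.StronglyClosed P)
    (hp : p ≠ 2) (hm : IsMetacyclic ↥P) : F.IsNormal P := by
  have hPS := hP.1
  have : Finite P := finite_of_le hPS
  have hPp : IsPGroup p P := isPGroup_of_le hS hPS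
  by_cases hab : ∀ a b : P, a * b = b * a
  · exact isNormal_of_abelian_stronglyClosed p hS F hF ⟨⟨hab⟩⟩ hP
  have hexpP := pow_eq_one_of_mem_omega hp hPp hm
  obtain ⟨E, hE⟩ : ∃ E, E = omegaOne p P := ⟨_, rfl⟩
  have hEeq : E = (omegaIn p P).map P.subtype := hE.trans (omegaOne_eq_map p P)
  have hEP : E ≤ P := by rw [hEeq]; exact Subgroup.map_subtype_le _
  have hEexp : ∀ x ∈ E, x ^ p = 1 := by
    intro x hx
    rw [hEeq] at hx
    obtain ⟨y, hy, rfl⟩ := hx
    exact congrArg Subtype.val (hexpP y hy)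
  have hEmem : ∀ x ∈ P, x ^ p = 1 → x ∈ E := fun x hx h => hE ▸ Subgroup.subset_closure ⟨hx, h⟩
  have hEsc : F.StronglyClosed E := by
    refine ⟨hEP.trans hPS, fun R hR φ hφ x => ?_⟩
    apply hEmem
    · exact hP.2 R (hR.trans hEP) φ hφ x
    · rw [← map_pow]
      have : x ^ p = 1 := Subtype.ext (hEexp x (hR x.2))
      rw [this, map_one]
  have hES := hEsc.1
  have : Finite E := finite_of_le hES
  have hEcard : Nat.card E ∣ p ^ 2 := by
    have h1 : Nat.card E = Nat.card (omegaIn p P) := by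
      rw [hEeq]
      exact Subgroup.card_map_of_injective P.subtype_injective
    rw [h1]
    exact card_omega_dvd hp hPp hm
  have hEab := comm_of_card_dvd_sq hEcard
  have hEN : F.IsNormal E := isNormal_of_abelian_stronglyClosed p hS F hF ⟨⟨hEab⟩⟩ hEsc
  obtain ⟨C, hC⟩ : ∃ C, C = E ⊓ Subgroup.centralizer (P : Set Ω) := ⟨_, rfl⟩
  have hCE : C ≤ E := hC ▸ inf_le_left
  -- commutators of `E` with `P` lie in `C`
  have hcomm : ∀ x ∈ E, ∀ g ∈ P, g * x * g⁻¹ * x⁻¹ ∈ C := by
    intro x hx g hg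
    rw [hC]
    refine ⟨E.mul_mem (stronglyClosed_conj_mem hEsc (hPS hg) hx) (E.inv_mem hx), ?_⟩
    refine Subgroup.mem_centralizer_iff.2 ?_
    intro h hh
    have h1 := comm_central hp hPp hm (x := (⟨x, hEP hx⟩ : P)) (Subtype.ext (hEexp x hx))
      ⟨g, hg⟩ ⟨h, hh⟩
    have h2 : h * (g * x * g⁻¹ * x⁻¹) * h⁻¹ = g * x * g⁻¹ * x⁻¹ := congrArg Subtype.val h1
    calc h * (g * x * g⁻¹ * x⁻¹) = (h * (g * x * g⁻¹ * x⁻¹) * h⁻¹) * h := by group
      _ = _ := by rw [h2]
  have hCsc : F.StronglyClosed C := by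
    refine ⟨hCE.trans hES, fun R hR φ hφ x => ?_⟩
    by_contra hnot
    obtain ⟨α, hα, hαx⟩ := (isNormal_iff_restrict_aut p hS F hF E hES).1 hEN R (hR.trans hCE) φ hφ
    have hx := hαx x
    rw [← hx] at hnot
    obtain ⟨e₁, he₁⟩ : ∃ e₁ : E, e₁ = Subgroup.inclusion (hR.trans hCE) x := ⟨_, rfl⟩
    rw [← he₁] at hnot
    have he₁C : (e₁ : Ω) ∈ C := by rw [he₁]; exact hR x.2
    have h1 : ¬ ((α e₁ : E) : Ω) ∈ Subgroup.centralizer (P : Set Ω) := by
      intro h
      apply hnot
      rw [hC]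
      exact ⟨(α e₁).2, h⟩
    rw [Subgroup.mem_centralizer_iff] at h1
    push Not at h1
    obtain ⟨g, hg, hgne⟩ := h1
    have hgN : g ∈ normalizerIn S E := ⟨hPS hg, stronglyClosed_le_normalizer hEsc (hPS hg)⟩
    obtain ⟨ι, hι, hinv⟩ := exists_inversion (p := p) hEcard
      (fun y => Subtype.ext (hEexp y y.2)) hEab (F.autGroup E)
      (u := conjAut S E ⟨g, hgN⟩) (α := α)
      (autInducedBy_le_autGroup F hES (conjAut_mem_autInducedBy S E _)) hα (C.subgroupOf E)
      (by
        intro c hc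
        apply Subtype.ext
        rw [conjAut_apply]
        have hc' : (c : Ω) ∈ E ⊓ Subgroup.centralizer (P : Set Ω) := hC ▸ hc
        have h2 := (Subgroup.mem_centralizer_iff.1 hc'.2) g hg
        show g * (c : Ω) * g⁻¹ = c
        rw [h2]; group)
      (by
        intro y
        exact hcomm y y.2 g hg)
      (e₁ := e₁) he₁C
      (by
        intro h
        apply hgne
        have h2 : g * ((α e₁ : E) : Ω) * g⁻¹ = ((α e₁ : E) : Ω) := congrArg Subtype.val h
        calc g * ((α e₁ : E) : Ω) = (g * ((α e₁ : E) : Ω) * g⁻¹) * g := by group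
          _ = _ := by rw [h2])
    exact hab (comm_of_inversion p hS F hF hp P hP E hEsc hEmem ι hι hinv)
  rw [isNormal_iff_omega_chain p hS F hF hp P hP]
  refine ⟨2, ![⊥, C, E], rfl, hE, ?_, ?_, ?_⟩
  · rw [Fin.monotone_iff_le_succ]
    intro i
    fin_cases i
    · exact bot_le
    · exact hCE
  · intro i
    fin_cases i
    · exact stronglyClosed_bot F
    · exact hCsc
    · exact hEsc
  · intro i
    fin_cases i
    · show ⁅C, P⁆ ≤ ⊥
      rw [Subgroup.commutator_le]
      intro c hc g hg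
      rw [Subgroup.mem_bot, commutatorElement_eq_one_iff_mul_comm]
      have hc' : c ∈ E ⊓ Subgroup.centralizer (P : Set Ω) := hC ▸ hc
      exact ((Subgroup.mem_centralizer_iff.1 hc'.2) g hg).symm
    · show ⁅E, P⁆ ≤ C
      rw [Subgroup.commutator_le]
      intro x hx g hg
      have h1 := C.inv_mem (hcomm x hx g hg)
      have h2 : ⁅x, g⁆ = (g * x * g⁻¹ * x⁻¹)⁻¹ := by
        rw [commutatorElement_def]; group
      rw [h2]
      exact h1

end Cfsg.Agent.Lib.Helper9_MetaNormal
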