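import Mathlib
import Cfsg.Prelude.Def_FusionSystem
import Cfsg.Prelude.Def_LocalEven
import Cfsg.Agent.Lib.Helper9_PStable
import Cfsg.Agent.Lib.Helper9_FusionGroup
import Cfsg.Agent.Lib.Helper9_NotRad

set_option autoImplicit false

namespace Cfsg.Agent.Lib.Helper9_PStableGroup

open Cfsg Cfsg.FusionSystem Cfsg.Agent.Lib.Helper9_FusionBasic Cfsg.Agent.Lib.Helper9_FusionSat
  Cfsg.Agent.Lib.Helper9_FusionGroup Cfsg.Agent.Lib.Helper9_PStable Cfsg.Agent.Lib.Helper9_Alperin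
  Cfsg.Agent.Lib.Helper9_NotRad
open scoped commutatorElement

variable {G : Type*} [Group G]

theorem pCore_equiv {A B : Type*} [Group A] [Group B] (p : ℕ) (e : A ≃* B) {x : A}
    (hx : x ∈ pCore p A) : e x ∈ pCore p B := by
  have : (pCore p A).map e.toMonoidHom ≤ pCore p B := by
    apply le_pCore
    · exact (pCore_normal p A).map e.toMonoidHom e.surjective
    · exact (pCore_isPGroup p A).map _
  exact this ⟨x, hx, rfl⟩

noncomputable def piN (Q : Subgroup G) :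
    Subgroup.normalizer (Q : Set G) →* ↥(autInducedBy ⊤ Q) :=
  Q.normalizerMonoidHom.codRestrict _ (fun n => by
    rw [mem_autInducedBy_iff]
    exact ⟨n, Subgroup.mem_top _, fun x => rfl⟩)

theorem piN_surj (Q : Subgroup G) : Function.Surjective (piN Q) := by
  rintro ⟨α, hα⟩
  obtain ⟨n, hn⟩ := (mem_autInducedBy_iff_conjAut ⊤ Q α).mp hα
  exact ⟨⟨n, n.2.2⟩, Subtype.ext hn⟩

theorem piN_ker (Q : Subgroup G) : (piN Q).ker =
    (Subgroup.centralizer (Q : Set G)).subgroupOf (Subgroup.normalizer (Q : Set G)) := by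
  rw [← Subgroup.normalizerMonoidHom_ker]
  ext n
  rw [MonoidHom.mem_ker, MonoidHom.mem_ker]
  constructor
  · intro h
    exact congrArg Subtype.val h
  · intro h
    exact Subtype.ext h

noncomputable def eqv (Q : Subgroup G) :
    (↥(Subgroup.normalizer (Q : Set G)) ⧸
      (Subgroup.centralizer (Q : Set G)).subgroupOf (Subgroup.normalizer (Q : Set G))) ≃*
    ↥(autInducedBy ⊤ Q) :=
  (QuotientGroup.quotientMulEquivOfEq (piN_ker Q).symm).trans
    (QuotientGroup.quotientKerEquivOfSurjective (piN Q) (piN_surj Q))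

theorem eqv_mk (Q : Subgroup G) (n : Subgroup.normalizer (Q : Set G)) :
    eqv Q (QuotientGroup.mk n) = piN Q n := rfl

theorem mk_mem_iff (p : ℕ) (Q : Subgroup G) (n : Subgroup.normalizer (Q : Set G)) :
    (QuotientGroup.mk (s := (Subgroup.centralizer (Q : Set G)).subgroupOf
      (Subgroup.normalizer (Q : Set G))) n) ∈ pCore p (↥(Subgroup.normalizer (Q : Set G)) ⧸
          (Subgroup.centralizer (Q : Set G)).subgroupOf (Subgroup.normalizer (Q : Set G))) ↔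
    Q.normalizerMonoidHom n ∈ (pCore p ↥(autInducedBy ⊤ Q)).map (autInducedBy ⊤ Q).subtype := by
  constructor
  · intro h
    have := pCore_equiv p (eqv Q) h
    rw [eqv_mk] at this
    exact ⟨_, this, rfl⟩
  · rintro ⟨y, hy, hyx⟩
    have e1 : y = piN Q n := Subtype.ext hyx
    rw [e1, ← eqv_mk] at hy
    have := pCore_equiv p (eqv Q).symm hy
    rwa [MulEquiv.symm_apply_apply] at this

/-- the elementwise quadratic condition -/
def Q1 (Q : Subgroup G) (g : G) : Prop :=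
  ∀ a ∈ Q, g * (a * g * a⁻¹ * g⁻¹) = (a * g * a⁻¹ * g⁻¹) * g

theorem quad_iff (Q : Subgroup G) (n : Subgroup.normalizer (Q : Set G)) :
    Quad (Q.normalizerMonoidHom n) ↔ Q1 Q n := by
  obtain ⟨g, hg⟩ := n
  constructor
  · intro h a ha
    have h1 := congrArg Subtype.val (h ⟨a, ha⟩)
    have h2 : g * a⁻¹ * g⁻¹ * a * (g * a⁻¹ * g⁻¹) * (g * (g * a * g⁻¹) * g⁻¹) = 1 := h1
    show g * (a * g * a⁻¹ * g⁻¹) = (a * g * a⁻¹ * g⁻¹) * g
    have h3 : (a * g * a⁻¹ * g⁻¹) * g = (g * a * g⁻¹) *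
        (g * a⁻¹ * g⁻¹ * a * (g * a⁻¹ * g⁻¹) * (g * (g * a * g⁻¹) * g⁻¹)) * (g * g * a⁻¹ * g⁻¹) := by
      group
    rw [h3, h2]
    group
  · intro h a
    apply Subtype.ext
    show g * (a : G)⁻¹ * g⁻¹ * a * (g * (a : G)⁻¹ * g⁻¹) * (g * (g * a * g⁻¹) * g⁻¹) = 1
    have h1 := h a a.2
    have h1' : g * ((a : G) * g * (a : G)⁻¹ * g⁻¹) = ((a : G) * g * (a : G)⁻¹ * g⁻¹) * g := h1
    calc g * (a : G)⁻¹ * g⁻¹ * a * (g * (a : G)⁻¹ * g⁻¹) * (g * (g * a * g⁻¹) * g⁻¹)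
        = (g * (a : G)⁻¹ * g⁻¹) * (((a : G) * g * (a : G)⁻¹ * g⁻¹) * g) * (g * a * g⁻¹ * g⁻¹) := by
          group
      _ = (g * (a : G)⁻¹ * g⁻¹) * (g * ((a : G) * g * (a : G)⁻¹ * g⁻¹)) * (g * a * g⁻¹ * g⁻¹) := by
          rw [h1']
      _ = 1 := by group

theorem comm_iff [Finite G] (Q : Subgroup G) (g : G) :
    ⁅⁅Q, Subgroup.zpowers g⁆, Subgroup.zpowers g⁆ = ⊥ ↔ Q1 Q g := by
  constructor
  · intro h a ha
    have h1 : ⁅a, g⁆ ∈ ⁅Q, Subgroup.zpowers g⁆ :=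
      Subgroup.commutator_mem_commutator ha (Subgroup.mem_zpowers g)
    have h2 : ⁅⁅a, g⁆, g⁆ ∈ ⁅⁅Q, Subgroup.zpowers g⁆, Subgroup.zpowers g⁆ :=
      Subgroup.commutator_mem_commutator h1 (Subgroup.mem_zpowers g)
    rw [h, Subgroup.mem_bot] at h2
    have h3 : (a * g * a⁻¹ * g⁻¹) * g * (a * g * a⁻¹ * g⁻¹)⁻¹ * g⁻¹ = 1 := h2
    calc g * (a * g * a⁻¹ * g⁻¹)
        = ((a * g * a⁻¹ * g⁻¹) * g * (a * g * a⁻¹ * g⁻¹)⁻¹ * g⁻¹)⁻¹ * ((a * g * a⁻¹ * g⁻¹) * g) := by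
          group
      _ = _ := by rw [h3]; group
  · intro h
    have key : ∀ (n : ℕ), ∀ a ∈ Q, g * (a * g ^ n * a⁻¹ * (g ^ n)⁻¹) =
        (a * g ^ n * a⁻¹ * (g ^ n)⁻¹) * g := by
      intro n
      induction n with
      | zero => intro a _; simp
      | succ n ih =>
        intro a ha
        have c := h a ha
        have cn : g ^ n * (a * g * a⁻¹ * g⁻¹) = (a * g * a⁻¹ * g⁻¹) * g ^ n :=
          (Commute.pow_left (show Commute g (a * g * a⁻¹ * g⁻¹) from c) n)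
        have e : a * g ^ (n + 1) * a⁻¹ * (g ^ (n + 1))⁻¹ =
            (a * g ^ n * a⁻¹ * (g ^ n)⁻¹) * (a * g * a⁻¹ * g⁻¹) := by
          calc a * g ^ (n + 1) * a⁻¹ * (g ^ (n + 1))⁻¹
              = (a * g ^ n * a⁻¹ * (g ^ n)⁻¹) * (g ^ n * (a * g * a⁻¹ * g⁻¹)) * (g ^ n)⁻¹ := by
                rw [pow_succ]; group
            _ = _ := by rw [cn]; group
        rw [e]
        exact (Commute.mul_right (show Commute g (a * g ^ n * a⁻¹ * (g ^ n)⁻¹) from ih a ha)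
          (show Commute g (a * g * a⁻¹ * g⁻¹) from c))
    rw [Subgroup.commutator_eq_bot_iff_le_centralizer, Subgroup.commutator_le]
    intro a ha k hk
    obtain ⟨n, rfl⟩ := Submonoid.mem_powers_iff _ _ |>.1 (mem_powers_iff_mem_zpowers.2 hk)
    rw [Subgroup.mem_centralizer_iff]
    intro l hl
    obtain ⟨m, rfl⟩ := Subgroup.mem_zpowers_iff.1 hl
    exact (Commute.zpow_left (show Commute g ⁅a, g ^ n⁆ from key n a ha) m)

theorem main [Finite G] {p : ℕ} [Fact p.Prime] (P : Sylow p G) :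
    IsNormalizerPStable p G ↔ PS p (groupFusionSystem (P : Subgroup G)) := by
  constructor
  · intro h Q hfn χ hχ hq
    have hQ : Q ≤ P := hfn.1
    rw [group_autGroup_eq _ hQ] at hχ
    obtain ⟨n, rfl⟩ := (mem_autInducedBy_iff_conjAut ⊤ Q χ).mp hχ
    have hq' : Quad (Q.normalizerMonoidHom ⟨n, n.2.2⟩) := hq
    have h1 := h Q (isPGroup_of_le P.isPGroup' hQ) n n.2.2
      ((comm_iff Q n).2 ((quad_iff Q ⟨n, n.2.2⟩).1 hq'))
    have h2 := (mk_mem_iff p Q ⟨n, n.2.2⟩).1 h1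
    unfold InOp
    rw [group_autGroup_eq _ hQ]
    exact h2
  · intro h R hR g hg hcomm
    obtain ⟨x, hx⟩ := sylow_exists_conj P hR
    let e : R ≃* R.map (MulAut.conj x).toMonoidHom := (MulAut.conj x).subgroupMap R
    have hR'P : R.map (MulAut.conj x).toMonoidHom ≤ P := by
      rintro _ ⟨r, hr, rfl⟩
      exact hx r hr
    have he : IsHom (groupFusionSystem (⊤ : Subgroup G)) e.toMonoidHom :=
      isHom_of_conj _ le_top (Subgroup.mem_top x) _ (fun _ => rfl)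
    have hq : Quad (R.normalizerMonoidHom ⟨g, hg⟩) :=
      (quad_iff R ⟨g, hg⟩).2 ((comm_iff R g).1 hcomm)
    have hχ : R.normalizerMonoidHom ⟨g, hg⟩ ∈ (groupFusionSystem (⊤ : Subgroup G)).autGroup R := by
      rw [group_autGroup_eq _ le_top, mem_autInducedBy_iff]
      exact ⟨g, Subgroup.mem_top _, fun _ => rfl⟩
    have hχ' := congr_mem_autGroup _ e he hχ
    rw [group_autGroup_eq _ le_top, ← group_autGroup_eq (P : Subgroup G) hR'P] at hχ'
    have h' := inOp_of_PS h hR'P hχ' (quad_congr e hq)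
    unfold InOp at h'
    rw [group_autGroup_eq _ hR'P, ← group_autGroup_eq (⊤ : Subgroup G) le_top] at h'
    have h2 := pCore_congr_of_mem _ e.symm he.symm h'
    rw [congr_symm_congr, group_autGroup_eq _ le_top] at h2
    exact (mk_mem_iff p R ⟨g, hg⟩).2 h2

end Cfsg.Agent.Lib.Helper9_PStableGroup
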