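import Mathlib
import Cfsg.Prelude.Def_FusionComponents
import Cfsg.Agent.Lib.Helper9_FusionBasic
import Cfsg.Agent.Lib.Helper9_FusionSat

set_option autoImplicit false

namespace Cfsg.Agent.Lib.Helper9_Prod

open Cfsg Cfsg.FusionSystem Cfsg.Agent.Lib.Helper9_FusionBasic Cfsg.Agent.Lib.Helper9_FusionSat

variable {Ω₁ Ω₂ : Type*} [Group Ω₁] [Group Ω₂] {S₁ : Subgroup Ω₁} {S₂ : Subgroup Ω₂}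

abbrev pr1 (P : Subgroup (Ω₁ × Ω₂)) : Subgroup Ω₁ := P.map (MonoidHom.fst Ω₁ Ω₂)
abbrev pr2 (P : Subgroup (Ω₁ × Ω₂)) : Subgroup Ω₂ := P.map (MonoidHom.snd Ω₁ Ω₂)

theorem fst_mem {P : Subgroup (Ω₁ × Ω₂)} {x : Ω₁ × Ω₂} (hx : x ∈ P) : x.1 ∈ pr1 P := ⟨x, hx, rfl⟩
theorem snd_mem {P : Subgroup (Ω₁ × Ω₂)} {x : Ω₁ × Ω₂} (hx : x ∈ P) : x.2 ∈ pr2 P := ⟨x, hx, rfl⟩

def prodHom (P : Subgroup (Ω₁ × Ω₂)) (φ₁ : pr1 P →* Ω₁) (φ₂ : pr2 P →* Ω₂) : P →* Ω₁ × Ω₂ :=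
  (φ₁.comp ((MonoidHom.fst Ω₁ Ω₂).subgroupMap P)).prod
    (φ₂.comp ((MonoidHom.snd Ω₁ Ω₂).subgroupMap P))

theorem prodHom_apply (P : Subgroup (Ω₁ × Ω₂)) (φ₁ : pr1 P →* Ω₁) (φ₂ : pr2 P →* Ω₂) (x : P) :
    prodHom P φ₁ φ₂ x = (φ₁ ⟨(x : Ω₁ × Ω₂).1, fst_mem x.2⟩, φ₂ ⟨(x : Ω₁ × Ω₂).2, snd_mem x.2⟩) := rfl

theorem pr1_le {P : Subgroup (Ω₁ × Ω₂)} (h : P ≤ S₁.prod S₂) : pr1 P ≤ S₁ := by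
  rintro _ ⟨x, hx, rfl⟩
  exact (h hx).1

theorem pr2_le {P : Subgroup (Ω₁ × Ω₂)} (h : P ≤ S₁.prod S₂) : pr2 P ≤ S₂ := by
  rintro _ ⟨x, hx, rfl⟩
  exact (h hx).2

theorem pr1_mono {P Q : Subgroup (Ω₁ × Ω₂)} (h : P ≤ Q) : pr1 P ≤ pr1 Q := Subgroup.map_mono h
theorem pr2_mono {P Q : Subgroup (Ω₁ × Ω₂)} (h : P ≤ Q) : pr2 P ≤ pr2 Q := Subgroup.map_mono h

theorem pr1_range (P : Subgroup (Ω₁ × Ω₂)) (φ₁ : pr1 P →* Ω₁) (φ₂ : pr2 P →* Ω₂) :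
    φ₁.range = pr1 (prodHom P φ₁ φ₂).range := by
  ext y
  constructor
  · rintro ⟨⟨_, x, hx, rfl⟩, rfl⟩
    exact ⟨_, ⟨⟨x, hx⟩, rfl⟩, rfl⟩
  · rintro ⟨_, ⟨x, rfl⟩, rfl⟩
    exact ⟨_, rfl⟩

theorem pr2_range (P : Subgroup (Ω₁ × Ω₂)) (φ₁ : pr1 P →* Ω₁) (φ₂ : pr2 P →* Ω₂) :
    φ₂.range = pr2 (prodHom P φ₁ φ₂).range := by
  ext y
  constructor
  · rintro ⟨⟨_, x, hx, rfl⟩, rfl⟩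
    exact ⟨_, ⟨⟨x, hx⟩, rfl⟩, rfl⟩
  · rintro ⟨_, ⟨x, rfl⟩, rfl⟩
    exact ⟨_, rfl⟩

/-- the product system -/
def prodSystem (F₁ : FusionSystem S₁) (F₂ : FusionSystem S₂) : FusionSystem (S₁.prod S₂) where
  Hom P := {φ | P ≤ S₁.prod S₂ ∧ ∃ φ₁ ∈ F₁.Hom (pr1 P), ∃ φ₂ ∈ F₂.Hom (pr2 P), φ = prodHom P φ₁ φ₂}
  le_of_mem := by
    rintro P φ ⟨hP, φ₁, h₁, φ₂, h₂, rfl⟩
    exact ⟨hP, fun x => ⟨(F₁.le_of_mem h₁).2 _, (F₂.le_of_mem h₂).2 _⟩⟩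
  injective_of_mem := by
    rintro P φ ⟨hP, φ₁, h₁, φ₂, h₂, rfl⟩ x y hxy
    rw [prodHom_apply, prodHom_apply] at hxy
    have e1 := F₁.injective_of_mem h₁ (congrArg Prod.fst hxy)
    have e2 := F₂.injective_of_mem h₂ (congrArg Prod.snd hxy)
    exact Subtype.ext (Prod.ext (congrArg Subtype.val e1) (congrArg Subtype.val e2))
  conj_mem := by
    intro P g hP hg
    exact ⟨hP, conjHom (pr1 P) g.1, F₁.conj_mem (pr1_le hP) hg.1, conjHom (pr2 P) g.2,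
      F₂.conj_mem (pr2_le hP) hg.2, rfl⟩
  comp_mem := by
    rintro P Q φ ψ ⟨hP, φ₁, h₁, φ₂, h₂, rfl⟩ ⟨hQ, ψ₁, k₁, ψ₂, k₂, rfl⟩ h
    have m1 : ∀ x : pr1 P, φ₁ x ∈ pr1 Q := by
      rintro ⟨_, x, hx, rfl⟩
      exact fst_mem (h ⟨x, hx⟩)
    have m2 : ∀ x : pr2 P, φ₂ x ∈ pr2 Q := by
      rintro ⟨_, x, hx, rfl⟩
      exact snd_mem (h ⟨x, hx⟩)
    exact ⟨hP, _, F₁.comp_mem h₁ k₁ m1, _, F₂.comp_mem h₂ k₂ m2, rfl⟩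
  inv_mem := by
    rintro P φ ⟨hP, φ₁, h₁, φ₂, h₂, rfl⟩
    obtain ⟨ψ₁, k₁, e₁, -, -⟩ := exists_inv F₁ h₁ (pr1_range P φ₁ φ₂)
    obtain ⟨ψ₂, k₂, e₂, -, -⟩ := exists_inv F₂ h₂ (pr2_range P φ₁ φ₂)
    refine ⟨prodHom _ ψ₁ ψ₂, ⟨?_, ψ₁, k₁, ψ₂, k₂, rfl⟩, fun x => ?_⟩
    · rintro _ ⟨x, rfl⟩
      exact ⟨(F₁.le_of_mem h₁).2 _, (F₂.le_of_mem h₂).2 _⟩
    · rw [prodHom_apply]
      exact Prod.ext (e₁ _ _) (e₂ _ _)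

theorem eq_prodHom_iff (P : Subgroup (Ω₁ × Ω₂)) (φ : P →* Ω₁ × Ω₂) (φ₁ : pr1 P →* Ω₁)
    (φ₂ : pr2 P →* Ω₂) :
    (∀ (x : P) (h₁ : (x : Ω₁ × Ω₂).1 ∈ P.map (MonoidHom.fst Ω₁ Ω₂))
          (h₂ : (x : Ω₁ × Ω₂).2 ∈ P.map (MonoidHom.snd Ω₁ Ω₂)),
          φ x = (φ₁ ⟨(x : Ω₁ × Ω₂).1, h₁⟩, φ₂ ⟨(x : Ω₁ × Ω₂).2, h₂⟩)) ↔ φ = prodHom P φ₁ φ₂ := by
  constructor
  · intro h
    ext x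
    · rw [h x (fst_mem x.2) (snd_mem x.2)]
      rfl
    · rw [h x (fst_mem x.2) (snd_mem x.2)]
      rfl
  · rintro rfl x h₁ h₂
    rfl

theorem mem_iff {F₁ : FusionSystem S₁} {F₂ : FusionSystem S₂} {E : FusionSystem (S₁.prod S₂)}
    (hE : IsProductSystem F₁ F₂ E) (P : Subgroup (Ω₁ × Ω₂)) (φ : P →* Ω₁ × Ω₂) :
    φ ∈ E.Hom P ↔ P ≤ S₁.prod S₂ ∧ ∃ φ₁ ∈ F₁.Hom (pr1 P), ∃ φ₂ ∈ F₂.Hom (pr2 P),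
      φ = prodHom P φ₁ φ₂ := by
  rw [hE P φ]
  simp only [eq_prodHom_iff]

theorem prodSystem_isProduct (F₁ : FusionSystem S₁) (F₂ : FusionSystem S₂) :
    IsProductSystem F₁ F₂ (prodSystem F₁ F₂) := by
  intro P φ
  simp only [eq_prodHom_iff]
  rfl

theorem prodHom_mem {F₁ : FusionSystem S₁} {F₂ : FusionSystem S₂} {E : FusionSystem (S₁.prod S₂)}
    (hE : IsProductSystem F₁ F₂ E) {P : Subgroup (Ω₁ × Ω₂)} (hP : P ≤ S₁.prod S₂)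
    {φ₁ : pr1 P →* Ω₁} {φ₂ : pr2 P →* Ω₂} (h₁ : φ₁ ∈ F₁.Hom (pr1 P)) (h₂ : φ₂ ∈ F₂.Hom (pr2 P)) :
    prodHom P φ₁ φ₂ ∈ E.Hom P :=
  (mem_iff hE P _).2 ⟨hP, φ₁, h₁, φ₂, h₂, rfl⟩

end Cfsg.Agent.Lib.Helper9_Prod
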