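import Mathlib
import Cfsg.Prelude.Def_FusionComponents
import Cfsg.Agent.Lib.Helper9_Prod
import Cfsg.Agent.Lib.Helper9_KNorm
import Cfsg.Agent.Lib.Helper9_PStable

set_option autoImplicit false

namespace Cfsg.Agent.Lib.Helper9_Prod2

open Cfsg Cfsg.FusionSystem Cfsg.Agent.Lib.Helper9_FusionBasic Cfsg.Agent.Lib.Helper9_FusionSat
  Cfsg.Agent.Lib.Helper9_Prod Cfsg.Agent.Lib.Helper9_FusionGroup Cfsg.Agent.Lib.Helper9_KNorm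
  Cfsg.Agent.Lib.Helper9_AlperinCor Cfsg.Agent.Lib.Helper9_PStable
  Cfsg.Agent.Lib.Helper9_GroupNormal

variable {Ω₁ Ω₂ : Type*} [Group Ω₁] [Group Ω₂] {S₁ : Subgroup Ω₁} {S₂ : Subgroup Ω₂}

theorem fst_mem_normalizer {R : Subgroup (Ω₁ × Ω₂)} {g : Ω₁ × Ω₂}
    (hg : g ∈ Subgroup.normalizer (R : Set (Ω₁ × Ω₂))) :
    g.1 ∈ Subgroup.normalizer (pr1 R : Set Ω₁) := by
  apply mem_normalizer_of_forall
  · rintro _ ⟨x, hx, rfl⟩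
    exact ⟨g * x * g⁻¹, (Subgroup.mem_normalizer_iff.1 hg x).1 hx, rfl⟩
  · rintro _ ⟨x, hx, rfl⟩
    exact ⟨g⁻¹ * x * g, ((Subgroup.mem_normalizer_iff'').1 hg x).1 hx, rfl⟩

theorem snd_mem_normalizer {R : Subgroup (Ω₁ × Ω₂)} {g : Ω₁ × Ω₂}
    (hg : g ∈ Subgroup.normalizer (R : Set (Ω₁ × Ω₂))) :
    g.2 ∈ Subgroup.normalizer (pr2 R : Set Ω₂) := by
  apply mem_normalizer_of_forall
  · rintro _ ⟨x, hx, rfl⟩
    exact ⟨g * x * g⁻¹, (Subgroup.mem_normalizer_iff.1 hg x).1 hx, rfl⟩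
  · rintro _ ⟨x, hx, rfl⟩
    exact ⟨g⁻¹ * x * g, ((Subgroup.mem_normalizer_iff'').1 hg x).1 hx, rfl⟩

theorem receptive {F₁ : FusionSystem S₁} {F₂ : FusionSystem S₂} {E : FusionSystem (S₁.prod S₂)}
    (hE : IsProductSystem F₁ F₂ E) {Q : Subgroup (Ω₁ × Ω₂)} (hQ : Q ≤ S₁.prod S₂)
    (h₁ : F₁.IsReceptive (pr1 Q)) (h₂ : F₂.IsReceptive (pr2 Q)) : E.IsReceptive Q := by
  refine ⟨hQ, fun R φ hφ hr => ?_⟩
  obtain ⟨hR, φ₁, k₁, φ₂, k₂, rfl⟩ := (mem_iff hE R φ).1 hφ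
  have r₁ : φ₁.range = pr1 Q := by rw [pr1_range R φ₁ φ₂, hr]
  have r₂ : φ₂.range = pr2 Q := by rw [pr2_range R φ₁ φ₂, hr]
  obtain ⟨ψ₁, m₁, e₁⟩ := h₁.2 _ φ₁ k₁ r₁
  obtain ⟨ψ₂, m₂, e₂⟩ := h₂.2 _ φ₂ k₂ r₂
  set N := extender (S₁.prod S₂) R (prodHom R φ₁ φ₂) with hN
  have hNS : N ≤ S₁.prod S₂ := (extender_le _ _ _).trans inf_le_left
  have n₁ : pr1 N ≤ extender S₁ (pr1 R) φ₁ := by
    rintro _ ⟨g, hg, rfl⟩
    rw [SetLike.mem_coe, hN, mem_extender_iff] at hg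
    obtain ⟨hgS, hgN, h, hh, H⟩ := hg
    rw [mem_extender_iff]
    refine ⟨hgS.1, fst_mem_normalizer hgN, h.1, hh.1, ?_⟩
    rintro ⟨_, x, hx, rfl⟩ hx'
    have := H ⟨x, hx⟩ ((Subgroup.mem_normalizer_iff.1 hgN x).1 hx)
    exact congrArg Prod.fst this
  have n₂ : pr2 N ≤ extender S₂ (pr2 R) φ₂ := by
    rintro _ ⟨g, hg, rfl⟩
    rw [SetLike.mem_coe, hN, mem_extender_iff] at hg
    obtain ⟨hgS, hgN, h, hh, H⟩ := hg
    rw [mem_extender_iff]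
    refine ⟨hgS.2, snd_mem_normalizer hgN, h.2, hh.2, ?_⟩
    rintro ⟨_, x, hx, rfl⟩ hx'
    have := H ⟨x, hx⟩ ((Subgroup.mem_normalizer_iff.1 hgN x).1 hx)
    exact congrArg Prod.snd this
  refine ⟨prodHom N _ _, prodHom_mem hE hNS (restrict_mem F₁ m₁ n₁) (restrict_mem F₂ m₂ n₂), ?_⟩
  intro x hxR hxN
  rw [prodHom_apply, prodHom_apply]
  exact Prod.ext (e₁ _ (fst_mem hxR) _) (e₂ _ (snd_mem hxR) _)

/-- the stabilizer of `Q` in `Aut A₁ × Aut A₂` -/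
def stab (A₁ : Subgroup Ω₁) (A₂ : Subgroup Ω₂) (Q : Subgroup (Ω₁ × Ω₂)) :
    Subgroup (MulAut A₁ × MulAut A₂) where
  carrier := {a | ∀ (x : A₁) (y : A₂), ((x : Ω₁), (y : Ω₂)) ∈ Q ↔
    (((a.1 x : A₁) : Ω₁), ((a.2 y : A₂) : Ω₂)) ∈ Q}
  mul_mem' := fun {a b} ha hb x y => (hb x y).trans (ha _ _)
  one_mem' := fun _ _ => Iff.rfl
  inv_mem' := fun {a} ha x y => by
    have := ha (a.1⁻¹ x) (a.2⁻¹ y)
    rw [MulAut.apply_inv_self, MulAut.apply_inv_self] at this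
    exact this.symm

theorem mem_stab {A₁ : Subgroup Ω₁} {A₂ : Subgroup Ω₂} {Q : Subgroup (Ω₁ × Ω₂)}
    {a : MulAut A₁ × MulAut A₂} : a ∈ stab A₁ A₂ Q ↔
    ∀ (x : A₁) (y : A₂), ((x : Ω₁), (y : Ω₂)) ∈ Q ↔
    (((a.1 x : A₁) : Ω₁), ((a.2 y : A₂) : Ω₂)) ∈ Q := Iff.rfl

/-- restriction of an element of the stabilizer -/
def resAut (Q : Subgroup (Ω₁ × Ω₂)) (a : stab (pr1 Q) (pr2 Q) Q) : MulAut Q where
  toFun x := ⟨(((a.1.1 ⟨x.1.1, fst_mem x.2⟩ : pr1 Q) : Ω₁), ((a.1.2 ⟨x.1.2, snd_mem x.2⟩ : pr2 Q) : Ω₂)),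
    (a.2 ⟨x.1.1, fst_mem x.2⟩ ⟨x.1.2, snd_mem x.2⟩).1 x.2⟩
  invFun x := ⟨(((a.1.1⁻¹ ⟨x.1.1, fst_mem x.2⟩ : pr1 Q) : Ω₁),
      ((a.1.2⁻¹ ⟨x.1.2, snd_mem x.2⟩ : pr2 Q) : Ω₂)),
    ((stab (pr1 Q) (pr2 Q) Q).inv_mem a.2 ⟨x.1.1, fst_mem x.2⟩ ⟨x.1.2, snd_mem x.2⟩).1 x.2⟩
  left_inv x := by
    apply Subtype.ext
    apply Prod.ext
    · show ((a.1.1⁻¹ (a.1.1 ⟨x.1.1, fst_mem x.2⟩) : pr1 Q) : Ω₁) = x.1.1
      rw [MulAut.inv_apply_self]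
    · show ((a.1.2⁻¹ (a.1.2 ⟨x.1.2, snd_mem x.2⟩) : pr2 Q) : Ω₂) = x.1.2
      rw [MulAut.inv_apply_self]
  right_inv x := by
    apply Subtype.ext
    apply Prod.ext
    · show ((a.1.1 (a.1.1⁻¹ ⟨x.1.1, fst_mem x.2⟩) : pr1 Q) : Ω₁) = x.1.1
      rw [MulAut.apply_inv_self]
    · show ((a.1.2 (a.1.2⁻¹ ⟨x.1.2, snd_mem x.2⟩) : pr2 Q) : Ω₂) = x.1.2
      rw [MulAut.apply_inv_self]
  map_mul' x y := by
    apply Subtype.ext
    apply Prod.ext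
    · show ((a.1.1 (⟨x.1.1, fst_mem x.2⟩ * ⟨y.1.1, fst_mem y.2⟩) : pr1 Q) : Ω₁) = _
      rw [map_mul]
      rfl
    · show ((a.1.2 (⟨x.1.2, snd_mem x.2⟩ * ⟨y.1.2, snd_mem y.2⟩) : pr2 Q) : Ω₂) = _
      rw [map_mul]
      rfl

theorem resAut_apply (Q : Subgroup (Ω₁ × Ω₂)) (a : stab (pr1 Q) (pr2 Q) Q) (x : Q) :
    ((resAut Q a x : Q) : Ω₁ × Ω₂) = (((a.1.1 ⟨x.1.1, fst_mem x.2⟩ : pr1 Q) : Ω₁),
      ((a.1.2 ⟨x.1.2, snd_mem x.2⟩ : pr2 Q) : Ω₂)) := rfl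

def resHom (Q : Subgroup (Ω₁ × Ω₂)) : stab (pr1 Q) (pr2 Q) Q →* MulAut Q where
  toFun := resAut Q
  map_one' := rfl
  map_mul' _ _ := rfl

theorem sylIn_prod {X Y : Type*} [Group X] [Group Y] {p : ℕ} {T H : Subgroup X} {T' H' : Subgroup Y}
    (hT : IsPGroup p T) (hT' : IsPGroup p T')
    (h : SylIn p T H) (h' : SylIn p T' H') : SylIn p (T.prod T') (H.prod H') := by
  have hp : IsPGroup p (T.prod T') := by
    rintro ⟨⟨x, y⟩, hx, hy⟩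
    obtain ⟨k, hk⟩ := hT ⟨x, hx⟩
    obtain ⟨l, hl⟩ := hT' ⟨y, hy⟩
    have hk' : x ^ p ^ k = 1 := congrArg Subtype.val hk
    have hl' : y ^ p ^ l = 1 := congrArg Subtype.val hl
    refine ⟨k + l, Subtype.ext (Prod.ext ?_ ?_)⟩
    · show x ^ p ^ (k + l) = 1
      rw [pow_add, pow_mul, hk', one_pow]
    · show y ^ p ^ (k + l) = 1
      rw [pow_add, mul_comm, pow_mul, hl', one_pow]
  apply sylIn_of_max hp
  intro U hU hUp hle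
  have a1 : U.map (MonoidHom.fst X Y) ≤ T := by
    apply h.max _ _ (hUp.map _)
    · intro t ht
      exact ⟨(t, 1), hle ⟨⟨ht.1, T'.one_mem⟩, ⟨ht.2, H'.one_mem⟩⟩, rfl⟩
    · rintro _ ⟨u, hu, rfl⟩
      exact (hU hu).1
  have a2 : U.map (MonoidHom.snd X Y) ≤ T' := by
    apply h'.max _ _ (hUp.map _)
    · intro t ht
      exact ⟨(1, t), hle ⟨⟨T.one_mem, ht.1⟩, ⟨H.one_mem, ht.2⟩⟩, rfl⟩
    · rintro _ ⟨u, hu, rfl⟩
      exact (hU hu).2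
  intro u hu
  exact ⟨a1 ⟨u, hu, rfl⟩, a2 ⟨u, hu, rfl⟩⟩


theorem finite_mulAut' {Ω : Type*} [Group Ω] (A : Subgroup Ω) [Finite A] : Finite (MulAut A) :=
  Finite.of_injective (fun α : MulAut A => (α : A → A)) (fun _ _ h => MulEquiv.ext (congrFun h))

theorem fullyAutomized [Finite S₁] [Finite S₂] {p : ℕ} [Fact p.Prime]
    {F₁ : FusionSystem S₁} {F₂ : FusionSystem S₂} {E : FusionSystem (S₁.prod S₂)}
    (hE : IsProductSystem F₁ F₂ E) {Q : Subgroup (Ω₁ × Ω₂)} (hQ : Q ≤ S₁.prod S₂)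
    (h : SylIn p ((autInducedBy S₁ (pr1 Q)).prod (autInducedBy S₂ (pr2 Q)))
      (stab (pr1 Q) (pr2 Q) Q ⊓ (F₁.autGroup (pr1 Q)).prod (F₂.autGroup (pr2 Q)))) :
    E.IsFullyAutomized p Q := by
  refine ⟨hQ, ?_⟩
  have hQ₁ := pr1_le hQ
  have hQ₂ := pr2_le hQ
  have : Finite (pr1 Q) := finite_of_le hQ₁
  have : Finite (pr2 Q) := finite_of_le hQ₂
  have := finite_mulAut' (pr1 Q)
  have := finite_mulAut' (pr2 Q)
  show SylIn p (autInducedBy (S₁.prod S₂) Q) (E.autGroup Q)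
  refine SylIn.map_surj ((resHom Q).comp (Subgroup.inclusion inf_le_left)) ?_ ?_ h
  · intro y
    constructor
    · intro hy
      rw [mem_autGroup_iff E hQ, mem_iff hE] at hy
      obtain ⟨-, α₁, k₁, α₂, k₂, e⟩ := hy
      have ey : ∀ x : Q, ((y x : Q) : Ω₁ × Ω₂) = prodHom Q α₁ α₂ x := fun x => by
        rw [← e]; rfl
      have m₁ : ∀ x : pr1 Q, α₁ x ∈ pr1 Q := by
        rintro ⟨_, x, hx, rfl⟩
        have := fst_mem (y ⟨x, hx⟩).2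
        rw [ey] at this
        exact this
      have m₂ : ∀ x : pr2 Q, α₂ x ∈ pr2 Q := by
        rintro ⟨_, x, hx, rfl⟩
        have := snd_mem (y ⟨x, hx⟩).2
        rw [ey] at this
        exact this
      obtain ⟨a₁, ha₁, f₁⟩ := exists_aut_of_maps_into F₁ k₁ m₁
      obtain ⟨a₂, ha₂, f₂⟩ := exists_aut_of_maps_into F₂ k₂ m₂
      have key : ∀ x : Q, ((y x : Q) : Ω₁ × Ω₂) = (((a₁ ⟨x.1.1, fst_mem x.2⟩ : pr1 Q) : Ω₁),
          ((a₂ ⟨x.1.2, snd_mem x.2⟩ : pr2 Q) : Ω₂)) := fun x => by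
        rw [ey, prodHom_apply, f₁, f₂]
      have hst : (a₁, a₂) ∈ stab (pr1 Q) (pr2 Q) Q := by
        intro u v
        constructor
        · intro huv
          have := (y ⟨_, huv⟩).2
          rw [key] at this
          exact this
        · intro huv
          obtain ⟨q, hq⟩ := y.surjective ⟨_, huv⟩
          have h1 := key q
          rw [hq] at h1
          have h2 : u = ⟨q.1.1, fst_mem q.2⟩ := a₁.injective (Subtype.ext (congrArg Prod.fst h1))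
          have h3 : v = ⟨q.1.2, snd_mem q.2⟩ := a₂.injective (Subtype.ext (congrArg Prod.snd h1))
          rw [h2, h3]
          exact q.2
      refine ⟨⟨(a₁, a₂), hst, ha₁, ha₂⟩, ?_⟩
      ext x : 2
      exact (key x).symm
    · rintro ⟨⟨a, hst, ha₁, ha₂⟩, rfl⟩
      have ha₁' := (mem_autGroup_iff F₁ hQ₁ a.1).1 ha₁
      have ha₂' := (mem_autGroup_iff F₂ hQ₂ a.2).1 ha₂
      exact mem_autGroup_of E (prodHom_mem hE hQ ha₁' ha₂') _ (fun x => rfl)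
  · intro y _
    rw [mem_autInducedBy_iff]
    constructor
    · rintro ⟨s, hs, hy⟩
      have hsN : s ∈ Subgroup.normalizer (Q : Set (Ω₁ × Ω₂)) := by
        have : Finite Q := by
          refine Finite.of_injective (fun x : Q => ((⟨x.1.1, fst_mem x.2⟩, ⟨x.1.2, snd_mem x.2⟩) :
            pr1 Q × pr2 Q)) (fun a b hab => ?_)
          exact Subtype.ext (Prod.ext (congrArg (fun t : pr1 Q × pr2 Q => (t.1 : Ω₁)) hab)
            (congrArg (fun t : pr1 Q × pr2 Q => (t.2 : Ω₂)) hab))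
        apply mem_normalizer_of_finite
        intro x hx
        rw [← hy ⟨x, hx⟩]
        exact (y ⟨x, hx⟩).2
      let n₁ : normalizerIn S₁ (pr1 Q) := ⟨s.1, hs.1, fst_mem_normalizer hsN⟩
      let n₂ : normalizerIn S₂ (pr2 Q) := ⟨s.2, hs.2, snd_mem_normalizer hsN⟩
      have hst : (conjAut S₁ (pr1 Q) n₁, conjAut S₂ (pr2 Q) n₂) ∈ stab (pr1 Q) (pr2 Q) Q := by
        intro u v
        exact Subgroup.mem_normalizer_iff.1 hsN ((u : Ω₁), (v : Ω₂))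
      refine ⟨⟨(conjAut S₁ (pr1 Q) n₁, conjAut S₂ (pr2 Q) n₂), hst,
        autInducedBy_le_autGroup F₁ hQ₁ (conjAut_mem_autInducedBy _ _ _),
        autInducedBy_le_autGroup F₂ hQ₂ (conjAut_mem_autInducedBy _ _ _)⟩,
        ⟨conjAut_mem_autInducedBy _ _ _, conjAut_mem_autInducedBy _ _ _⟩, ?_⟩
      ext x : 2
      exact (hy x).symm
    · rintro ⟨⟨a, ha⟩, hSg, rfl⟩
      obtain ⟨s₁, hs₁, e₁⟩ := (mem_autInducedBy_iff S₁ (pr1 Q) a.1).1 hSg.1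
      obtain ⟨s₂, hs₂, e₂⟩ := (mem_autInducedBy_iff S₂ (pr2 Q) a.2).1 hSg.2
      exact ⟨(s₁, s₂), ⟨hs₁, hs₂⟩, fun x => Prod.ext (e₁ _) (e₂ _)⟩


theorem exists_conj_stab [Finite S₁] [Finite S₂] {p : ℕ} [Fact p.Prime]
    (hS₁ : IsPGroup p S₁) (hS₂ : IsPGroup p S₂)
    {F₁ : FusionSystem S₁} {F₂ : FusionSystem S₂} {E : FusionSystem (S₁.prod S₂)}
    (hE : IsProductSystem F₁ F₂ E) {P : Subgroup (Ω₁ × Ω₂)} (hP : P ≤ S₁.prod S₂)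
    (h₁ : F₁.IsFullyAutomized p (pr1 P)) (h₂ : F₂.IsFullyAutomized p (pr2 P)) :
    ∃ Q, E.IsConj P Q ∧ pr1 Q = pr1 P ∧ pr2 Q = pr2 P ∧
      SylIn p ((autInducedBy S₁ (pr1 P)).prod (autInducedBy S₂ (pr2 P)))
        (stab (pr1 P) (pr2 P) Q ⊓ (F₁.autGroup (pr1 P)).prod (F₂.autGroup (pr2 P))) := by
  have hP₁ := pr1_le hP
  have hP₂ := pr2_le hP
  have : Finite (pr1 P) := finite_of_le hP₁
  have : Finite (pr2 P) := finite_of_le hP₂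
  have := finite_mulAut' (pr1 P)
  have := finite_mulAut' (pr2 P)
  have hSg : SylIn p ((autInducedBy S₁ (pr1 P)).prod (autInducedBy S₂ (pr2 P)))
      ((F₁.autGroup (pr1 P)).prod (F₂.autGroup (pr2 P))) :=
    sylIn_prod (isPGroup_autInducedBy hS₁ _) (isPGroup_autInducedBy hS₂ _) h₁.2 h₂.2
  have hSgp : IsPGroup p ((autInducedBy S₁ (pr1 P)).prod (autInducedBy S₂ (pr2 P)) :
      Subgroup (MulAut (pr1 P) × MulAut (pr2 P))) := by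
    rintro ⟨⟨x, y⟩, hx, hy⟩
    obtain ⟨k, hk⟩ := isPGroup_autInducedBy hS₁ _ ⟨x, hx⟩
    obtain ⟨l, hl⟩ := isPGroup_autInducedBy hS₂ _ ⟨y, hy⟩
    have hk' : x ^ p ^ k = 1 := congrArg Subtype.val hk
    have hl' : y ^ p ^ l = 1 := congrArg Subtype.val hl
    refine ⟨k + l, Subtype.ext (Prod.ext ?_ ?_)⟩
    · show x ^ p ^ (k + l) = 1
      rw [pow_add, pow_mul, hk', one_pow]
    · show y ^ p ^ (k + l) = 1
      rw [pow_add, mul_comm, pow_mul, hl', one_pow]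
  obtain ⟨g, hg, H⟩ := exists_conj_sylIn hSgp hSg
    (inf_le_right : stab (pr1 P) (pr2 P) P ⊓ (F₁.autGroup (pr1 P)).prod (F₂.autGroup (pr2 P)) ≤ _)
  have g₁ := (mem_autGroup_iff F₁ hP₁ g.1).1 hg.1
  have g₂ := (mem_autGroup_iff F₂ hP₂ g.2).1 hg.2
  set γ := prodHom P ((pr1 P).subtype.comp g.1.toMonoidHom) ((pr2 P).subtype.comp g.2.toMonoidHom)
    with hγ
  have hmem : ∀ (x : pr1 P) (y : pr2 P), ((x : Ω₁), (y : Ω₂)) ∈ γ.range ↔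
      (((g.1⁻¹ x : pr1 P) : Ω₁), ((g.2⁻¹ y : pr2 P) : Ω₂)) ∈ P := by
    intro x y
    constructor
    · rintro ⟨q, hq⟩
      have e1 : g.1 ⟨q.1.1, fst_mem q.2⟩ = x := Subtype.ext (congrArg Prod.fst hq)
      have e2 : g.2 ⟨q.1.2, snd_mem q.2⟩ = y := Subtype.ext (congrArg Prod.snd hq)
      rw [← e1, ← e2, MulAut.inv_apply_self, MulAut.inv_apply_self]
      exact q.2
    · intro hq
      refine ⟨⟨_, hq⟩, ?_⟩
      apply Prod.ext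
      · show ((g.1 (g.1⁻¹ x) : pr1 P) : Ω₁) = x
        rw [MulAut.apply_inv_self]
      · show ((g.2 (g.2⁻¹ y) : pr2 P) : Ω₂) = y
        rw [MulAut.apply_inv_self]
  refine ⟨γ.range, ⟨γ, prodHom_mem hE hP g₁ g₂, rfl⟩, ?_, ?_, ?_⟩
  · rw [hγ, ← pr1_range]
    ext y
    constructor
    · rintro ⟨x, rfl⟩
      exact (g.1 x).2
    · intro hy
      exact ⟨g.1⁻¹ ⟨y, hy⟩, by
        show ((g.1 (g.1⁻¹ ⟨y, hy⟩) : pr1 P) : Ω₁) = y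
        rw [MulAut.apply_inv_self]⟩
  · rw [hγ, ← pr2_range]
    ext y
    constructor
    · rintro ⟨x, rfl⟩
      exact (g.2 x).2
    · intro hy
      exact ⟨g.2⁻¹ ⟨y, hy⟩, by
        show ((g.2 (g.2⁻¹ ⟨y, hy⟩) : pr2 P) : Ω₂) = y
        rw [MulAut.apply_inv_self]⟩
  · apply H
    intro h
    have hA : h ∈ (F₁.autGroup (pr1 P)).prod (F₂.autGroup (pr2 P)) ↔
        g⁻¹ * h * g ∈ (F₁.autGroup (pr1 P)).prod (F₂.autGroup (pr2 P)) := by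
      constructor
      · intro hh
        exact Subgroup.mul_mem _ (Subgroup.mul_mem _ (Subgroup.inv_mem _ hg) hh) hg
      · intro hh
        have := Subgroup.mul_mem _ (Subgroup.mul_mem _ hg hh) (Subgroup.inv_mem _ hg)
        have e : g * (g⁻¹ * h * g) * g⁻¹ = h := by group
        rwa [e] at this
    have hB : h ∈ stab (pr1 P) (pr2 P) γ.range ↔ g⁻¹ * h * g ∈ stab (pr1 P) (pr2 P) P := by
      rw [mem_stab, mem_stab]
      constructor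
      · intro hh x y
        have := hh (g.1 x) (g.2 y)
        rw [hmem, hmem, MulAut.inv_apply_self, MulAut.inv_apply_self] at this
        exact this
      · intro hh x y
        have := hh (g.1⁻¹ x) (g.2⁻¹ y)
        rw [hmem, hmem, this]
        show (((g.1⁻¹ (h.1 (g.1 (g.1⁻¹ x))) : pr1 P) : Ω₁),
          ((g.2⁻¹ (h.2 (g.2 (g.2⁻¹ y))) : pr2 P) : Ω₂)) ∈ P ↔ _
        rw [MulAut.apply_inv_self, MulAut.apply_inv_self]
    rw [Subgroup.mem_inf, Subgroup.mem_inf, hA, hB]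

theorem saturated [Finite S₁] [Finite S₂] {p : ℕ} [Fact p.Prime]
    (hS₁ : IsPGroup p S₁) (hS₂ : IsPGroup p S₂)
    {F₁ : FusionSystem S₁} {F₂ : FusionSystem S₂} (hF₁ : F₁.IsSaturated p) (hF₂ : F₂.IsSaturated p)
    {E : FusionSystem (S₁.prod S₂)}
    (hE : IsProductSystem F₁ F₂ E) : E.IsSaturated p := by
  intro P hP
  obtain ⟨A₁, ⟨φ₁, k₁, r₁⟩, fa₁, rc₁⟩ := hF₁ (pr1 P) (pr1_le hP)
  obtain ⟨A₂, ⟨φ₂, k₂, r₂⟩, fa₂, rc₂⟩ := hF₂ (pr2 P) (pr2_le hP)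
  have c1 : E.IsConj P (prodHom P φ₁ φ₂).range := ⟨_, prodHom_mem hE hP k₁ k₂, rfl⟩
  set P' := (prodHom P φ₁ φ₂).range with hP'
  have hP'S : P' ≤ S₁.prod S₂ := by
    rintro _ ⟨x, rfl⟩
    exact (E.le_of_mem (prodHom_mem hE hP k₁ k₂)).2 x
  have e₁ : A₁ = pr1 P' := by rw [← r₁, pr1_range P φ₁ φ₂]
  have e₂ : A₂ = pr2 P' := by rw [← r₂, pr2_range P φ₁ φ₂]
  subst e₁ e₂
  obtain ⟨Q, c2, q₁, q₂, hs⟩ := exists_conj_stab hS₁ hS₂ hE hP'S fa₁ fa₂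
  have hQS : Q ≤ S₁.prod S₂ := by
    obtain ⟨ψ, hψ, rfl⟩ := c2
    rintro _ ⟨x, rfl⟩
    exact (E.le_of_mem hψ).2 x
  refine ⟨Q, isConj_trans E c1 c2, ?_, ?_⟩
  · apply fullyAutomized hE hQS
    rw [q₁, q₂]
    exact hs
  · apply receptive hE hQS
    · rw [q₁]; exact rc₁
    · rw [q₂]; exact rc₂

end Cfsg.Agent.Lib.Helper9_Prod2
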