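import Cfsg.Agent.Lib.Helper9_Factor4
import Cfsg.Agent.Lib.Helper9_Abelian2
set_option autoImplicit false

namespace Cfsg.Agent.Lib.Helper9_Quasi

open Cfsg Cfsg.FusionSystem Cfsg.Agent.Lib.Helper9_FusionBasic Cfsg.Agent.Lib.Helper9_FusionSat
  Cfsg.Agent.Lib.Helper9_FusionNormal Cfsg.Agent.Lib.Helper9_AlperinCor
  Cfsg.Agent.Lib.Helper9_Factor Cfsg.Agent.Lib.Helper9_Factor3 Cfsg.Agent.Lib.Helper9_Factor4
  Cfsg.Agent.Lib.Helper9_Abelian Cfsg.Agent.Lib.Helper9_Abelian2 Cfsg.Agent.Lib.Helper9_Focal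

variable {Ω : Type*} [Group Ω] {S : Subgroup Ω}

/-- S5148 -/
theorem quasisimple_nonabelian [Finite S] (p : ℕ) [Fact p.Prime] (hS : IsPGroup p S)
    (F : FusionSystem S) (hq : F.Quasisimple p) : ¬ IsMulCommutative S := by
  intro hab
  obtain ⟨hF, hhyp, hfac⟩ := hq
  obtain ⟨h1, h2⟩ := center_focal_decomp p hS F hF
  have hfoc : S ≤ F.focalSubgroup := hhyp.ge.trans (hyperfocal_le_focal F p)
  have hZS : F.center ≤ S := le_sup_left.trans h2.le
  have hZ : F.center = ⊥ := by
    rw [eq_bot_iff, ← h1]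
    exact le_inf le_rfl (hZS.trans hfoc)
  have hsc : F.StronglyClosed F.center := by rw [hZ]; exact stronglyClosed_bot F
  have hker : ∀ s : S, (QuotientGroup.mk' ((F.center).subgroupOf S)) s = 1 ↔ (s : Ω) ∈ F.center := by
    intro s
    rw [QuotientGroup.mk'_apply, QuotientGroup.eq_one_iff]
    exact Subgroup.mem_subgroupOf
  have hrange : (QuotientGroup.mk' ((F.center).subgroupOf S)).range = ⊤ :=
    MonoidHom.range_eq_top.2 (QuotientGroup.mk'_surjective _)
  have hfs := isFactorSystem_factorSystem F F.center hsc _ hker ⊤ hrange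
  have hEs := hfac _ hfs
  generalize factorSystem F F.center hsc _ hker ⊤ hrange = E at hfs hEs
  have hmor := surjectiveMorphism_of_factor p hS F hF _ hsc _ E hfs
  have hcomm : ∀ x ∈ (⊤ : Subgroup (S ⧸ (F.center).subgroupOf S)), ∀ y ∈ (⊤ : Subgroup (S ⧸ (F.center).subgroupOf S)),
      x * y = y * x := by
    intro x _ y _
    induction x using QuotientGroup.induction_on with
    | H a =>
      induction y using QuotientGroup.induction_on with
      | H b =>
        rw [← QuotientGroup.mk_mul, ← QuotientGroup.mk_mul, mul_comm' a b]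
  have hpT : IsPGroup p (⊤ : Subgroup (S ⧸ (F.center).subgroupOf S)) :=
    (hS.to_quotient _).to_subgroup ⊤
  obtain ⟨-, hinner⟩ := (simple_abelian_iff p hpT E hEs.1 hcomm).1 hEs
  -- all automorphisms of `S` in `F` are trivial
  have htriv : ∀ β ∈ F.autGroup S, ∀ x : S, β x = x := by
    intro β hβ x
    have hβ' := (mem_autGroup_iff F le_rfl β).mp hβ
    obtain ⟨φ', hφ', hP, hφS, hP', h⟩ := hmor.1.2 S _ hβ'
    rw [hinner] at hφ'
    obtain ⟨-, g, hg, hg'⟩ := hφ'
    have h3 := h x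
    rw [hg', hcomm g hg _ (Subgroup.mem_top _), mul_inv_cancel_right] at h3
    have h4 : (QuotientGroup.mk' ((F.center).subgroupOf S)) (x⁻¹ * β x) = 1 := by
      rw [map_mul, map_inv, inv_mul_eq_one]
      exact h3
    have h5 := (hker _).1 h4
    rw [hZ, Subgroup.mem_bot] at h5
    have h6 : x⁻¹ * β x = 1 := Subtype.ext h5
    exact (inv_mul_eq_one.1 h6).symm
  have hhyp0 : F.hyperfocalSubgroup p = ⊥ := by
    rw [eq_bot_iff]
    unfold hyperfocalSubgroup
    rw [Subgroup.closure_le]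
    rintro _ ⟨P, α, x, hP, -, rfl⟩
    have hα := (mem_autGroup_iff F hP _).mp α.2
    obtain ⟨β, hβ, hβe⟩ := exists_aut_extend p hS F hF hab hα
    have h3 := hβe x
    rw [htriv β hβ] at h3
    have h4 : (((α : MulAut P) x : P) : Ω) = x := h3.symm
    show (x : Ω)⁻¹ * (((α : MulAut P) x : P) : Ω) = 1
    rw [h4, inv_mul_cancel]
  have hSbot : S ≤ ⊥ := hhyp.ge.trans hhyp0.le
  apply hEs.2.1
  rw [eq_bot_iff]
  intro y _
  induction y using QuotientGroup.induction_on with
  | H a =>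
    have : a = 1 := by
      apply Subtype.ext
      exact Subgroup.mem_bot.1 (hSbot a.2)
    rw [this]
    exact Subgroup.one_mem _

end Cfsg.Agent.Lib.Helper9_Quasi
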