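import Cfsg.Agent.Lib.Helper9_AlperinCor
set_option autoImplicit false

namespace Cfsg.Agent.Lib.Helper9_Transport

open Cfsg Cfsg.FusionSystem Cfsg.Agent.Lib.Helper9_FusionBasic Cfsg.Agent.Lib.Helper9_FusionSat
  Cfsg.Agent.Lib.Helper9_FusionNormal Cfsg.Agent.Lib.Helper9_AlperinCor

variable {Ω : Type*} [Group Ω] {S : Subgroup Ω}

/-- image of a subgroup under an automorphism of `T` -/
def imgAut {T : Subgroup Ω} (α : MulAut T) (P : Subgroup Ω) : Subgroup Ω :=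
  (P.subgroupOf T).map (T.subtype.comp α.toMonoidHom)

theorem mem_imgAut {T : Subgroup Ω} (α : MulAut T) (P : Subgroup Ω) (y : Ω) :
    y ∈ imgAut α P ↔ ∃ x : T, (x : Ω) ∈ P ∧ ((α x : T) : Ω) = y := Iff.rfl

theorem apply_mem_imgAut {T : Subgroup Ω} (α : MulAut T) {P : Subgroup Ω} (x : T) (hx : (x : Ω) ∈ P) :
    ((α x : T) : Ω) ∈ imgAut α P := ⟨x, hx, rfl⟩

theorem imgAut_le {T : Subgroup Ω} (α : MulAut T) (P : Subgroup Ω) : imgAut α P ≤ T := by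
  rintro _ ⟨x, -, rfl⟩
  exact (α x).2

theorem imgAut_mono {T : Subgroup Ω} (α : MulAut T) {P Q : Subgroup Ω} (h : P ≤ Q) :
    imgAut α P ≤ imgAut α Q := by
  rintro _ ⟨x, hx, rfl⟩
  exact ⟨x, h hx, rfl⟩

/-- the invariance condition, abstractly -/
def InvCond {T : Subgroup Ω} (E : FusionSystem T) (A : Subgroup (MulAut T)) : Prop :=
  ∀ (P : Subgroup Ω) (hPT : P ≤ T) (φ : P →* Ω), φ ∈ E.Hom P → ∀ α ∈ A,
      ∃ χ ∈ E.Hom (imgAut α P),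
        ∀ (x : P) (hφx : φ x ∈ T) (hαx : ((α ⟨x, hPT x.2⟩ : T) : Ω) ∈ imgAut α P),
          χ ⟨(α ⟨x, hPT x.2⟩ : T), hαx⟩ = ((α ⟨φ x, hφx⟩ : T) : Ω)

theorem invCond_of_invariant {T : Subgroup Ω} {E : FusionSystem T} {F : FusionSystem S}
    (h : E.IsInvariantIn F) : InvCond E (F.autGroup T) := h.2.2.1

theorem isNormal_imgAut {T : Subgroup Ω} {E : FusionSystem T} {A : Subgroup (MulAut T)}
    (hinv : InvCond E A) {R : Subgroup Ω} (hR : E.IsNormal R) {α : MulAut T} (hα : α ∈ A) :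
    E.IsNormal (imgAut α R) := by
  refine isNormal_of E (imgAut_le α R) (fun P φ hφ => ?_)
  have hPT : P ≤ T := le_of_hom E hφ
  obtain ⟨χ, hχ, hχe⟩ := hinv P hPT φ hφ α⁻¹ (A.inv_mem hα)
  obtain ⟨ψ0, hψ0, a1, a2, a3⟩ := isNormal_extend hR hχ
  have hP1T : imgAut α⁻¹ P ⊔ R ≤ T := le_of_hom E hψ0
  obtain ⟨ψ1, hψ1, hψ1e⟩ := hinv _ hP1T ψ0 hψ0 α hα
  have hP : P ≤ imgAut α (imgAut α⁻¹ P ⊔ R) := by
    intro x hx
    refine ⟨α⁻¹ ⟨x, hPT hx⟩, le_sup_left (a := imgAut α⁻¹ P)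
      (apply_mem_imgAut α⁻¹ (⟨x, hPT hx⟩ : T) hx), ?_⟩
    simp
  have hRle : imgAut α R ≤ imgAut α (imgAut α⁻¹ P ⊔ R) := imgAut_mono α le_sup_right
  refine ⟨_, hP, hRle, ψ1, hψ1, ?_, ?_, ?_⟩
  · intro x
    have hx1 : ((α⁻¹ ⟨x, hPT x.2⟩ : T) : Ω) ∈ imgAut α⁻¹ P :=
      apply_mem_imgAut α⁻¹ (⟨x, hPT x.2⟩ : T) x.2
    have e1 := hχe x (map_mem_of_hom E hφ x) hx1
    have e2 := a1 ⟨_, hx1⟩
    have e3 := hψ1e (Subgroup.inclusion le_sup_left ⟨_, hx1⟩) (map_mem_of_hom E hψ0 _)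
    have hcoe : (α ⟨((Subgroup.inclusion (le_sup_left : imgAut α⁻¹ P ≤ imgAut α⁻¹ P ⊔ R)
        ⟨_, hx1⟩ : (imgAut α⁻¹ P ⊔ R : Subgroup Ω)) : Ω), hP1T (Subgroup.inclusion
          (le_sup_left : imgAut α⁻¹ P ≤ imgAut α⁻¹ P ⊔ R) ⟨_, hx1⟩).2⟩ : T) = ⟨x, hPT x.2⟩ := by
      have : (⟨((Subgroup.inclusion (le_sup_left : imgAut α⁻¹ P ≤ imgAut α⁻¹ P ⊔ R)
        ⟨_, hx1⟩ : (imgAut α⁻¹ P ⊔ R : Subgroup Ω)) : Ω), hP1T (Subgroup.inclusion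
          (le_sup_left : imgAut α⁻¹ P ≤ imgAut α⁻¹ P ⊔ R) ⟨_, hx1⟩).2⟩ : T) = α⁻¹ ⟨x, hPT x.2⟩ := rfl
      rw [this]
      simp
    have hmem : ((α ⟨((Subgroup.inclusion (le_sup_left : imgAut α⁻¹ P ≤ imgAut α⁻¹ P ⊔ R)
        ⟨_, hx1⟩ : (imgAut α⁻¹ P ⊔ R : Subgroup Ω)) : Ω), hP1T (Subgroup.inclusion
          (le_sup_left : imgAut α⁻¹ P ≤ imgAut α⁻¹ P ⊔ R) ⟨_, hx1⟩).2⟩ : T) : Ω) ∈
          imgAut α (imgAut α⁻¹ P ⊔ R) := by
      rw [hcoe]; exact hP x.2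
    have e4 := e3 hmem
    have hl : (Subgroup.inclusion hP x : imgAut α (imgAut α⁻¹ P ⊔ R)) = ⟨_, hmem⟩ := by
      apply Subtype.ext
      exact (congrArg (fun t : T => (t : Ω)) hcoe).symm
    rw [hl, e4]
    have : (⟨ψ0 (Subgroup.inclusion le_sup_left ⟨_, hx1⟩), map_mem_of_hom E hψ0 _⟩ : T) =
        α⁻¹ ⟨φ x, map_mem_of_hom E hφ x⟩ := by
      apply Subtype.ext
      show ψ0 _ = _
      rw [e2, e1]
    rw [this]
    simp
  · rintro ⟨_, r, hr, rfl⟩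
    have e3 := hψ1e (Subgroup.inclusion le_sup_right ⟨r, hr⟩) (map_mem_of_hom E hψ0 _)
      (hRle (apply_mem_imgAut α r hr))
    have hl : (Subgroup.inclusion hRle ⟨(T.subtype.comp α.toMonoidHom) r, ⟨r, hr, rfl⟩⟩ :
        imgAut α (imgAut α⁻¹ P ⊔ R)) = ⟨((α r : T) : Ω), hRle (apply_mem_imgAut α r hr)⟩ := rfl
    rw [hl]
    have e5 : ψ1 ⟨((α r : T) : Ω), hRle (apply_mem_imgAut α r hr)⟩ = _ := e3
    rw [e5]
    exact apply_mem_imgAut α _ (a2 ⟨r, hr⟩)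
  · rintro _ ⟨r', hr', rfl⟩
    obtain ⟨r, hr⟩ := a3 r' hr'
    have hrT : (r : Ω) ∈ T := hR.1 r.2
    refine ⟨⟨((α ⟨r, hrT⟩ : T) : Ω), apply_mem_imgAut α (⟨r, hrT⟩ : T) r.2⟩, ?_⟩
    have e3 := hψ1e (Subgroup.inclusion le_sup_right r) (map_mem_of_hom E hψ0 _)
      (hRle (apply_mem_imgAut α (⟨r, hrT⟩ : T) r.2))
    have e5 : ψ1 (Subgroup.inclusion hRle ⟨((α ⟨r, hrT⟩ : T) : Ω),
        apply_mem_imgAut α (⟨r, hrT⟩ : T) r.2⟩) = _ := e3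
    rw [e5]
    have : (⟨ψ0 (Subgroup.inclusion le_sup_right r), map_mem_of_hom E hψ0 _⟩ : T) = r' :=
      Subtype.ext hr
    rw [this]
    rfl

/-- the join of a family of normal subgroups is normal -/
theorem isNormal_sSup [Finite S] (F : FusionSystem S) (𝒜 : Set (Subgroup Ω))
    (h : ∀ Q ∈ 𝒜, F.IsNormal Q) : F.IsNormal (sSup 𝒜) := by
  have h1 := sSup_mem_of_sup_closed {Q | F.IsNormal Q ∧ Q ≤ sSup 𝒜} (fun _ hQ => hQ.1.1)
    ⟨isNormal_bot F, bot_le⟩ (fun _ h₁ _ h₂ => ⟨isNormal_sup h₁.1 h₂.1, sup_le h₁.2 h₂.2⟩)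
  have h2 : sSup {Q | F.IsNormal Q ∧ Q ≤ sSup 𝒜} = sSup 𝒜 := by
    apply le_antisymm
    · exact sSup_le (fun Q hQ => hQ.2)
    · exact sSup_le (fun Q hQ => le_sSup ⟨h Q hQ, le_sSup hQ⟩)
  rw [h2] at h1
  exact h1.1

/-- An automorphism of `T` stabilizing `Q` stabilizes the characteristic subgroups of `Q`. -/
theorem char_invariant {T Q U : Subgroup Ω} (hQT : Q ≤ T) (β : MulAut T)
    (h1 : ∀ x : T, (x : Ω) ∈ Q → ((β x : T) : Ω) ∈ Q)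
    (h2 : ∀ x : T, (x : Ω) ∈ Q → ((β⁻¹ x : T) : Ω) ∈ Q)
    (hUQ : U ≤ Q) (hU : (U.subgroupOf Q).Characteristic) :
    ∀ x : T, (x : Ω) ∈ U → ((β x : T) : Ω) ∈ U := by
  let γ : Q ≃* Q :=
    { toFun := fun q => ⟨β ⟨q, hQT q.2⟩, h1 _ q.2⟩
      invFun := fun q => ⟨β⁻¹ ⟨q, hQT q.2⟩, h2 _ q.2⟩
      left_inv := by
        intro q
        apply Subtype.ext
        simp
      right_inv := by
        intro q
        apply Subtype.ext
        simp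
      map_mul' := by
        intro a b
        apply Subtype.ext
        have : (⟨((a * b : Q) : Ω), hQT (a * b).2⟩ : T) = ⟨a, hQT a.2⟩ * ⟨b, hQT b.2⟩ := rfl
        simp only [this, map_mul]
        rfl }
  have hγ := (Subgroup.characteristic_iff_map_eq.mp hU) γ
  intro x hx
  have h3 : γ ⟨x, hUQ hx⟩ ∈ (U.subgroupOf Q).map γ.toMonoidHom := ⟨⟨x, hUQ hx⟩, hx, rfl⟩
  rw [hγ] at h3
  exact h3

/-- S5291 -/
theorem isNormal_closure_images [Finite S] (p : ℕ) [Fact p.Prime] (hS : IsPGroup p S)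
    (F : FusionSystem S) (hF : F.IsSaturated p) {T : Subgroup Ω} (E : FusionSystem T)
    (hE : E.IsWeaklyNormalIn F p) (R : Subgroup Ω) (hR : E.IsNormal R) :
    F.IsNormal (Subgroup.closure {x : Ω | ∃ φ ∈ F.Hom R, ∃ r : R, x = φ r}) := by
  obtain ⟨hEsat, -, hsub, hT, hinv, hfrat⟩ := hE
  have hTS := hT.1
  have hRT := hR.1
  have hfinT : Finite T := finite_of_le hTS
  have hRsc := stronglyClosed_of_isNormal hR
  have hEq : Subgroup.closure {x : Ω | ∃ φ ∈ F.Hom R, ∃ r : R, x = φ r} =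
      sSup {Q | ∃ α ∈ F.autGroup T, Q = imgAut α R} := by
    apply le_antisymm
    · rw [Subgroup.closure_le]
      rintro _ ⟨φ, hφ, r, rfl⟩
      obtain ⟨α, hα, φ0, hφ0, h⟩ := hfrat R hRT φ hφ
      have h0 : φ0 r ∈ R := hRsc.2 R le_rfl φ0 hφ0 r
      have h1 := h r (hRT h0)
      show φ r ∈ sSup {Q | ∃ α ∈ F.autGroup T, Q = imgAut α R}
      rw [h1]
      exact (le_sSup ⟨α, hα, rfl⟩ : imgAut α R ≤ sSup {Q | ∃ α ∈ F.autGroup T, Q = imgAut α R})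
        (apply_mem_imgAut α _ h0)
    · apply sSup_le
      rintro _ ⟨α, hα, rfl⟩
      rintro _ ⟨x, hx, rfl⟩
      apply Subgroup.subset_closure
      have h1 := (mem_autGroup_iff F hTS α).mp hα
      exact ⟨_, restrict_mem F h1 hRT, ⟨x, hx⟩, rfl⟩
  have hRsE : E.IsNormal (Subgroup.closure {x : Ω | ∃ φ ∈ F.Hom R, ∃ r : R, x = φ r}) := by
    rw [hEq]
    apply isNormal_sSup
    rintro _ ⟨α, hα, rfl⟩
    exact isNormal_imgAut hinv hR hα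
  generalize hRs : Subgroup.closure {x : Ω | ∃ φ ∈ F.Hom R, ∃ r : R, x = φ r} = Rs at hRsE hEq ⊢
  have hRsT := hRsE.1
  have hinvRs : ∀ β ∈ F.autGroup T, ∀ x : T, (x : Ω) ∈ Rs → ((β x : T) : Ω) ∈ Rs := by
    intro β hβ
    have hle : Rs ≤ ((Rs.subgroupOf T).comap β.toMonoidHom).map T.subtype := by
      conv_lhs => rw [← hRs]
      rw [Subgroup.closure_le]
      rintro _ ⟨φ, hφ, r, rfl⟩
      have hφT : ∀ r : R, φ r ∈ T := fun r => hT.2 R hRT φ hφ r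
      refine ⟨⟨φ r, hφT r⟩, ?_, rfl⟩
      show ((β ⟨φ r, hφT r⟩ : T) : Ω) ∈ Rs
      rw [← hRs]
      apply Subgroup.subset_closure
      have h1 := (mem_autGroup_iff F hTS β).mp hβ
      exact ⟨_, F.comp_mem hφ h1 hφT, r, rfl⟩
    intro x hx
    obtain ⟨y, hy, hyx⟩ := hle hx
    have : y = x := Subtype.ext hyx
    rw [← this]
    exact hy
  have hsc : ∀ U : Subgroup Ω, U ≤ Rs → (U.subgroupOf Rs).Characteristic → F.StronglyClosed U := by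
    intro U hU hchar
    have hUE := stronglyClosed_of_isNormal (isNormal_of_characteristic E hRsE hU hchar)
    refine ⟨(hU.trans hRsT).trans hTS, fun P hP φ hφ x => ?_⟩
    obtain ⟨α, hα, φ0, hφ0, h⟩ := hfrat P ((hP.trans hU).trans hRsT) φ hφ
    have h0 : φ0 x ∈ U := hUE.2 P hP φ0 hφ0 x
    rw [h x (hRsT (hU h0))]
    exact char_invariant hRsT α (hinvRs α hα) (hinvRs α⁻¹ (Subgroup.inv_mem _ hα)) hU hchar _ h0
  rw [isNormal_iff_chain p hS F hF]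
  apply exists_chain_of_ucs hS F (hRsT.trans hTS)
  intro k
  apply hsc _ (Subgroup.map_subtype_le _)
  have : ((Subgroup.upperCentralSeries Rs k).map Rs.subtype).subgroupOf Rs =
      Subgroup.upperCentralSeries Rs k :=
    Subgroup.comap_map_eq_self_of_injective Rs.subtype_injective _
  rw [this]
  infer_instance

end Cfsg.Agent.Lib.Helper9_Transport
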