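import Mathlib
import Cfsg.Prelude.Def_FusionSystem
import Cfsg.Agent.Lib.Helper9_RealNormal
import Cfsg.Agent.Lib.Helper9_ModelF
import Cfsg.Agent.Lib.Helper9_ZJ3

set_option autoImplicit false

namespace Cfsg.Agent.Lib.Helper9_XSparse

open Cfsg Cfsg.FusionSystem Cfsg.Agent.Lib.Helper9_FusionBasic Cfsg.Agent.Lib.Helper9_FusionSat
  Cfsg.Agent.Lib.Helper9_FusionGroup Cfsg.Agent.Lib.Helper9_FusionNormal
  Cfsg.Agent.Lib.Helper9_HyperGroup Cfsg.Agent.Lib.Helper9_GroupNormal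
  Cfsg.Agent.Lib.Helper9_Realized Cfsg.Agent.Lib.Helper9_RealNormal
  Cfsg.Agent.Lib.Helper9_AlperinCor Cfsg.Agent.Lib.Helper9_Alperin
open Cfsg.Agent.Lib.Helper9_PStable (exists_aut_of_maps_into)
open Cfsg.Agent.Lib.Helper9_Factor (exists_mul_of_mem_sup)
open Cfsg.Agent.Lib.Helper9_ZJ3 (chainQ chainQ_mono)
open Cfsg.Agent.Lib.Helper9_Induct (centric_self)
open Cfsg.Agent.Lib.Helper9_NormCR (normalizer_autGroup_eq)
open Cfsg.Agent.Lib.Helper9_Focal (hyperfocal_gen_mem hyperfocal_stronglyClosed hyperfocal_le_focal)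

universe u

theorem false_of_order {G : Type*} [Group G] {p q : ℕ} [hp : Fact p.Prime] (hq : q.Prime)
    (hqp : q ≠ p) {x : G} (hx : orderOf x = q) {k : ℕ} (hk : x ^ (p ^ k) = 1) : False := by
  have h1 : q ∣ p ^ k := hx ▸ orderOf_dvd_of_pow_eq_one hk
  exact hqp ((Nat.prime_dvd_prime_iff_eq hq hp.out).1 (hq.dvd_of_dvd_pow h1))

theorem inf_le_of_prime {G : Type*} [Group G] {p q : ℕ} [hp : Fact p.Prime] (hq : q.Prime)
    (hqp : q ≠ p) {U : Subgroup G} {x : G} (hx : orderOf x = q)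
    (hxU : x ∈ Subgroup.normalizer (U : Set G)) (T' : Subgroup G) (hT' : IsPGroup p T')
    (hUT' : U ≤ T') : T' ⊓ (U ⊔ Subgroup.zpowers x) ≤ U := by
  rintro g ⟨hgT, hgH⟩
  rw [sup_comm] at hgH
  obtain ⟨t, ht, u, hu, rfl⟩ := exists_mul_of_mem_sup ((Subgroup.zpowers_le).2 hxU) hgH
  have htT : t ∈ T' := by
    have := T'.mul_mem hgT (T'.inv_mem (hUT' hu))
    rwa [mul_inv_cancel_right] at this
  have h1 : orderOf t ∣ q := by
    obtain ⟨j, rfl⟩ := Subgroup.mem_zpowers_iff.1 ht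
    apply orderOf_dvd_of_pow_eq_one
    rw [← zpow_natCast, ← zpow_mul, mul_comm, zpow_mul, zpow_natCast, ← hx, pow_orderOf_eq_one,
      one_zpow]
  obtain ⟨k, hk⟩ := hT' ⟨t, htT⟩
  have h2 : orderOf t ∣ p ^ k :=
    orderOf_dvd_of_pow_eq_one (congrArg (fun z : T' => (z : G)) hk)
  have hcop : Nat.Coprime q (p ^ k) := Nat.Coprime.pow_right k ((Nat.coprime_primes hq hp.out).2 hqp)
  have h3 : orderOf t ∣ 1 := by
    have := Nat.dvd_gcd h1 h2
    rwa [hcop] at this
  have h4 : t = 1 := orderOf_eq_one_iff.1 (Nat.dvd_one.1 h3)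
  rw [h4, one_mul]
  exact hu

variable {Ω : Type u} [Group Ω] {S : Subgroup Ω} {G : Type*} [Group G]

theorem subN_facts [Finite G] [Finite S] {p q : ℕ} [Fact p.Prime] {F : FusionSystem S}
    {ι : S →* G} (hreal : F.IsRealizedBy ι) (T : Sylow p G) (hT : (T : Subgroup G) = ι.range)
    {V : Subgroup Ω} (hVS : V ≤ S) {x : G} (hq : q.Prime) (hqp : q ≠ p) (hx : orderOf x = q)
    (hxV : x ∈ Subgroup.normalizer (((V.subgroupOf S).map ι : Subgroup G) : Set G)) :
    pre ι ((V.subgroupOf S).map ι ⊔ Subgroup.zpowers x) = V ∧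
      (subN F ι ((V.subgroupOf S).map ι ⊔ Subgroup.zpowers x)).IsSaturated p ∧
      ((∀ P, (subN F ι ((V.subgroupOf S).map ι ⊔ Subgroup.zpowers x)).Hom P =
        (innerFusionSystem (pre ι ((V.subgroupOf S).map ι ⊔ Subgroup.zpowers x))).Hom P) →
        x ∈ Subgroup.centralizer (((V.subgroupOf S).map ι : Subgroup G) : Set G)) := by
  have hUT : (V.subgroupOf S).map ι ≤ (T : Subgroup G) := by
    rw [hT]
    rintro _ ⟨s, -, rfl⟩
    exact ⟨s, rfl⟩
  have hUp : IsPGroup p ↥((V.subgroupOf S).map ι) := T.isPGroup'.to_le hUT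
  have hpre : pre ι ((V.subgroupOf S).map ι ⊔ Subgroup.zpowers x) = V := by
    apply le_antisymm
    · intro s hs
      obtain ⟨hsS, h1⟩ := mem_pre.1 hs
      have h2 := inf_le_of_prime hq hqp hx hxV T T.isPGroup' hUT ⟨hT ▸ ⟨_, rfl⟩, h1⟩
      obtain ⟨v, hv, hvs⟩ := h2
      have h3 := hreal.1 hvs
      have h4 : (v : Ω) = s := congrArg (fun t : S => (t : Ω)) h3
      rw [← h4]
      exact hv
    · intro v hv
      exact mem_pre.2 ⟨hVS hv, Subgroup.mem_sup_left ⟨⟨v, hVS hv⟩, hv, rfl⟩⟩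
  have hrange : ((V.subgroupOf S).map ι).subgroupOf ((V.subgroupOf S).map ι ⊔ Subgroup.zpowers x) =
      (ιN ι ((V.subgroupOf S).map ι ⊔ Subgroup.zpowers x)).range := by
    ext ⟨y, hy⟩
    constructor
    · rintro ⟨v, hv, hvy⟩
      exact ⟨⟨v, hpre.ge hv⟩, Subtype.ext hvy⟩
    · rintro ⟨z, hz⟩
      have h1 : ι ⟨z, pre_le ι _ z.2⟩ = y :=
        congrArg (fun t : ↥((V.subgroupOf S).map ι ⊔ Subgroup.zpowers x) => (t : G)) hz
      exact ⟨⟨z, pre_le ι _ z.2⟩, hpre.le z.2, h1⟩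
  have hrealN := subN_realized hreal ((V.subgroupOf S).map ι ⊔ Subgroup.zpowers x)
  refine ⟨hpre, ?_, ?_⟩
  · obtain ⟨R, hR⟩ : SylIn p ((V.subgroupOf S).map ι)
        ((V.subgroupOf S).map ι ⊔ Subgroup.zpowers x) := by
      apply sylIn_of_max hUp
      intro T' hT'H hp' hle
      have h1 := inf_le_of_prime hq hqp hx hxV T' hp' (fun u hu => hle ⟨hu, Subgroup.mem_sup_left hu⟩)
      exact fun y hy => h1 ⟨hy, hT'H hy⟩
    exact realized_saturated hrealN R (hR.trans hrange)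
  · intro hinner
    have hxH : x ∈ (V.subgroupOf S).map ι ⊔ Subgroup.zpowers x :=
      Subgroup.mem_sup_right (Subgroup.mem_zpowers x)
    obtain ⟨ψ, hψ, hψT, hψy⟩ := exists_hom_of_realized hrealN (le_refl _)
      (⟨x, hxH⟩ : ↥((V.subgroupOf S).map ι ⊔ Subgroup.zpowers x)) (by
        intro y
        rw [← hrange]
        have h1 : ι ⟨y, pre_le ι _ y.2⟩ ∈ (V.subgroupOf S).map ι :=
          ⟨⟨y, pre_le ι _ y.2⟩, hpre.le y.2, rfl⟩
        exact conj_mem_of_mem_normalizer hxV h1)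
    rw [hinner] at hψ
    obtain ⟨-, g, hg, hgy⟩ := hψ
    have hgS := pre_le ι _ hg
    have hvU : ι ⟨g, hgS⟩ ∈ (V.subgroupOf S).map ι := ⟨⟨g, hgS⟩, hpre.le hg, rfl⟩
    have hconj : ∀ u ∈ (V.subgroupOf S).map ι, x * u * x⁻¹ = ι ⟨g, hgS⟩ * u * (ι ⟨g, hgS⟩)⁻¹ := by
      rintro _ ⟨s, hs, rfl⟩
      have hs' : (s : Ω) ∈ pre ι ((V.subgroupOf S).map ι ⊔ Subgroup.zpowers x) := hpre.ge hs
      have h1 : ι ⟨ψ ⟨s, hs'⟩, pre_le ι _ (hψT _)⟩ = x * ι s * x⁻¹ :=
        congrArg (fun t : ↥((V.subgroupOf S).map ι ⊔ Subgroup.zpowers x) => (t : G))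
          (hψy ⟨s, hs'⟩)
      rw [← h1, ← map_inv, ← map_mul, ← map_mul]
      congr 1
      exact Subtype.ext (hgy ⟨s, hs'⟩)
    have hc : (ι ⟨g, hgS⟩)⁻¹ * x ∈
        Subgroup.centralizer (((V.subgroupOf S).map ι : Subgroup G) : Set G) := by
      rw [Subgroup.mem_centralizer_iff]
      intro u hu
      have h1 := hconj u hu
      have h2 : x * u = ι ⟨g, hgS⟩ * u * (ι ⟨g, hgS⟩)⁻¹ * x := by rw [← h1]; group
      calc u * ((ι ⟨g, hgS⟩)⁻¹ * x)
          = (ι ⟨g, hgS⟩)⁻¹ * (ι ⟨g, hgS⟩ * u * (ι ⟨g, hgS⟩)⁻¹ * x) := by group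
        _ = (ι ⟨g, hgS⟩)⁻¹ * (x * u) := by rw [h2]
        _ = _ := by group
    have hcomm : Commute (ι ⟨g, hgS⟩) ((ι ⟨g, hgS⟩)⁻¹ * x) :=
      (Subgroup.mem_centralizer_iff.1 hc) _ hvU
    obtain ⟨k, hk⟩ := hUp ⟨_, hvU⟩
    have hk' : (ι ⟨g, hgS⟩) ^ (p ^ k) = 1 :=
      congrArg (fun z : ↥((V.subgroupOf S).map ι) => (z : G)) hk
    have hxpow : x ^ (p ^ k) ∈
        Subgroup.centralizer (((V.subgroupOf S).map ι : Subgroup G) : Set G) := by
      have e : x = ι ⟨g, hgS⟩ * ((ι ⟨g, hgS⟩)⁻¹ * x) := by group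
      rw [e, hcomm.mul_pow, hk', one_mul]
      exact Subgroup.pow_mem _ hc _
    have hcop : Nat.Coprime (p ^ k) (orderOf x) := by
      rw [hx]
      exact Nat.Coprime.pow_left k ((Nat.coprime_primes Fact.out hq).2 hqp.symm)
    obtain ⟨m, hm⟩ := exists_pow_eq_self_of_coprime hcop
    rw [← hm]
    exact Subgroup.pow_mem _ hxpow _


theorem main {Ω : Type u} [Group Ω] {S : Subgroup Ω} [Finite S] (p : ℕ) [Fact p.Prime]
    (hS : IsPGroup p S) (F : FusionSystem S)
    (hF : F.IsSaturated p)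
    (hxs : ¬ (∀ P : Subgroup Ω, F.Hom P = (innerFusionSystem S).Hom P) ∧
      ∀ (T : Subgroup Ω) (E : FusionSystem T), E.IsSaturated p → E.IsSubsystemOf F →
        (T = S ∧ ∀ P : Subgroup Ω, E.Hom P = F.Hom P) ∨
          (∀ P : Subgroup Ω, E.Hom P = (innerFusionSystem T).Hom P)) :
    F.IsNormal S ∧ F.focalSubgroup = S ∧ F.hyperfocalSubgroup p = S ∧
      ∃ (q : ℕ) (β : MulAut ↥S), q.Prime ∧ q ≠ p ∧ β ∈ F.autGroup S ∧ orderOf β = q ∧
        (F.autGroup S : Subgroup (MulAut ↥S)) = Cfsg.Inn ↥S ⊔ Subgroup.zpowers β := by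
  obtain ⟨hne, hall⟩ := hxs
  have hex : ∃ P, (P = S ∨ F.IsEssential p P) ∧
      ¬ F.autGroup P ≤ (innerFusionSystem S).autGroup P := by
    by_contra hcon
    push Not at hcon
    apply hne
    have h1 : F ≤ innerFusionSystem S := alperin p hS F hF _ hcon
    intro P
    exact Set.Subset.antisymm (h1 P) (inner_le F P)
  obtain ⟨P, hP, hPn⟩ := hex
  have hPfn : F.IsFullyNormalized P := by
    rcases hP with rfl | h
    · exact fullyNormalized_self F
    · exact h.2.1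
  have hPc : F.IsCentric P := by
    rcases hP with rfl | h
    · exact centric_self F
    · exact h.1
  have hPS := hPfn.1
  have hNsat := Cfsg.Agent.Lib.Helper9_KNorm3.normalizer_saturated p hS F hF P hPfn
    (normalizerSystem F P hPS) (fun _ => rfl)
  have hPnorm : F.IsNormal P := by
    rcases hall _ (normalizerSystem F P hPS) hNsat (fun R φ h => h.1) with ⟨-, h⟩ | h
    · refine ⟨hPS, fun R φ hφ => ?_⟩
      rw [← h R] at hφ
      exact hφ.2.2.2
    · exfalso
      apply hPn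
      intro α hα
      rw [mem_autGroup_iff _ hPS]
      have h1 : α ∈ (normalizerSystem F P hPS).autGroup P := by
        rw [normalizer_autGroup_eq hPS (fun _ => rfl)]
        exact hα
      have h2 := (mem_autGroup_iff _ (le_normalizerIn hPS) α).mp h1
      rw [h P] at h2
      obtain ⟨-, g, hg, hgx⟩ := h2
      exact ⟨hPS, g, hg.1, hgx⟩
  obtain ⟨G, _, ι, hG⟩ := Cfsg.Agent.Lib.Helper9_ModelF.exists_model p hS F ⟨hF, P, hPnorm, hPc⟩
  obtain ⟨hfin, hreal, ⟨T, hT⟩, hcent⟩ := hG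
  have hexq : ∃ q : ℕ, q.Prime ∧ q ∣ Nat.card G ∧ q ≠ p := by
    by_contra hcon
    push Not at hcon
    have hcard := Nat.eq_prime_pow_of_unique_prime_dvd (Nat.card_pos (α := G)).ne'
      (fun {d} hd hdvd => hcon d hd hdvd)
    have hGp : IsPGroup p G := IsPGroup.of_card hcard
    have hTtop : (⊤ : Subgroup G) = T := T.3 (hGp.to_subgroup ⊤) le_top
    apply hne
    intro R
    apply Set.Subset.antisymm _ (inner_le F R)
    intro φ hφ
    obtain ⟨g, hg⟩ := exists_elt_of_hom hreal hφ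
    have hgr : g ∈ ι.range := by
      rw [← hT, ← hTtop]
      exact Subgroup.mem_top g
    obtain ⟨s, rfl⟩ := hgr
    refine ⟨le_of_hom F hφ, s, s.2, fun y => ?_⟩
    have h1 := hg y
    rw [← map_inv, ← map_mul, ← map_mul] at h1
    exact congrArg (fun t : S => (t : Ω)) (hreal.1 h1)
  obtain ⟨q, hq, hqd, hqp⟩ := hexq
  have hqf := Fact.mk hq
  obtain ⟨x, hx⟩ := exists_prime_orderOf_dvd_card' q hqd
  have hcn := pCore_normal p G
  have hcp := pCore_isPGroup p G
  have hcr : pCore p G ≤ ι.range := hT ▸ normal_pGroup_le_sylow T hcn hcp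
  have hxnot : x ∉ pCore p G := by
    intro hxc
    obtain ⟨k, hk⟩ := hcp ⟨x, hxc⟩
    exact false_of_order hq hqp hx (congrArg (fun z : pCore p G => (z : G)) hk)
  have hU : ((pre ι (pCore p G)).subgroupOf S).map ι = pCore p G := by
    ext y
    constructor
    · rintro ⟨s, hs, rfl⟩
      exact apply_mem_of_pre hs s.2
    · intro hy
      obtain ⟨s, rfl⟩ := hcr hy
      exact ⟨s, mem_pre.2 ⟨s.2, hy⟩, rfl⟩
  have hxV : x ∈ Subgroup.normalizer
      ((((pre ι (pCore p G)).subgroupOf S).map ι : Subgroup G) : Set G) := by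
    rw [hU, Subgroup.normalizer_eq_top]
    exact Subgroup.mem_top x
  obtain ⟨hpre, hsat, hcen⟩ := subN_facts (F := F) hreal T hT (pre_le ι (pCore p G)) hq hqp hx hxV
  rcases hall _ _ hsat (fun R φ h => h.1.1) with ⟨hTS, hhom⟩ | hinner
  swap
  · exfalso
    have h1 := hcen hinner
    rw [hU] at h1
    exact hxnot (hcent h1)
  have hVS : pre ι (pCore p G) = S := hpre.symm.trans hTS
  have hιc : ∀ s : S, ι s ∈ pCore p G := fun s => by
    have hs : (s : Ω) ∈ pre ι (pCore p G) := hVS.ge s.2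
    exact apply_mem_of_pre hs s.2
  have hSn : F.IsNormal S := by
    have h1 := realized_isNormal hreal (pCore p G) hcr
    have h2 : ((pCore p G).comap ι).map S.subtype = S := hVS
    rwa [h2] at h1
  obtain ⟨ψ, hψ, hψS, hψy⟩ := exists_hom_of_realized hreal (le_refl S) x
    (fun y => hcr (hcn.conj_mem _ (hιc _) x))
  obtain ⟨β, hβ, hβy⟩ := exists_aut_of_maps_into F hψ hψS
  have hβι : ∀ y : S, ι (β y) = x * ι y * x⁻¹ := fun y => by
    have h1 := hψy y
    have e : (⟨ψ y, hψS y⟩ : S) = β y := Subtype.ext (hβy y).symm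
    rw [e] at h1
    exact h1
  have hpow : ∀ n : ℕ, ∀ y : S, ι ((β ^ n) y) = x ^ n * ι y * (x ^ n)⁻¹ := by
    intro n
    induction n with
    | zero => intro y; simp
    | succ n ih =>
      intro y
      rw [pow_succ, MulAut.mul_apply, ih, hβι, pow_succ]
      group
  have hβq : β ^ q = 1 := MulEquiv.ext (fun y => hreal.1 (by
    rw [hpow, ← hx, pow_orderOf_eq_one]
    simp))
  have hβ1 : β ≠ 1 := by
    intro h1
    apply hxnot
    apply hcent
    rw [Subgroup.mem_centralizer_iff]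
    intro u hu
    obtain ⟨s, rfl⟩ := hcr hu
    have h2 := hβι s
    rw [h1] at h2
    have h3 : ι s = x * ι s * x⁻¹ := h2
    calc ι s * x = (x * ι s * x⁻¹) * x := by rw [← h3]
      _ = x * ι s := by group
  have hβo : orderOf β = q := orderOf_eq_prime hβq hβ1
  have hcopβ : Nat.Coprime (orderOf β) p := by
    rw [hβo]
    exact (Nat.coprime_primes hq Fact.out).2 hqp
  -- the hyperfocal subgroup
  have hT0sc := hyperfocal_stronglyClosed p hS F hF
  have hhyp : F.hyperfocalSubgroup p = S := by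
    have hxV0 : x ∈ Subgroup.normalizer
        ((((F.hyperfocalSubgroup p).subgroupOf S).map ι : Subgroup G) : Set G) := by
      apply mem_normalizer_of_finite
      rintro _ ⟨s, hs, rfl⟩
      rw [← hβι]
      exact ⟨β s, stronglyClosed_aut_mem hT0sc le_rfl hβ s hs, rfl⟩
    obtain ⟨hpre0, hsat0, hcen0⟩ := subN_facts (F := F) hreal T hT hT0sc.1 hq hqp hx hxV0
    rcases hall _ _ hsat0 (fun R φ h => h.1.1) with ⟨h, -⟩ | hinner
    · exact hpre0.symm.trans h
    · exfalso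
      have hxc := hcen0 hinner
      have hfix : ∀ s : S, (s : Ω) ∈ F.hyperfocalSubgroup p → β s = s := by
        intro s hs
        apply hreal.1
        rw [hβι]
        have h1 := (Subgroup.mem_centralizer_iff.1 hxc) (ι s) ⟨s, hs, rfl⟩
        rw [← h1]
        group
      have hfix' : ∀ s : S, (s : Ω) ∈ F.hyperfocalSubgroup p → β⁻¹ s = s := by
        intro s hs
        have h1 := congrArg (fun t => (β⁻¹ : MulAut S) t) (hfix s hs)
        rw [MulAut.inv_apply_self] at h1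
        exact h1.symm
      have hres : ∀ γ : MulAut S, γ ∈ F.autGroup S → Nat.Coprime (orderOf γ) p → ∀ s : S,
          (s : Ω)⁻¹ * (γ s : S) ∈ F.hyperfocalSubgroup p := by
        intro γ hγ hc s
        refine hyperfocal_gen_mem F p le_rfl ⟨γ, hγ⟩ (Subgroup.subset_closure ?_) s
        show Nat.Coprime (orderOf (⟨γ, hγ⟩ : F.autGroup S)) p
        rw [Subgroup.orderOf_mk]
        exact hc
      have hstab : β ∈ chainStab (chainQ (F.hyperfocalSubgroup p) S)
          (chainQ_mono (F.hyperfocalSubgroup p) S) := by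
        intro j s hs
        match j, hs with
        | 0, hs =>
          have hs' : (s : Ω) ∈ F.hyperfocalSubgroup p := hs
          rw [hfix s hs', hfix' s hs']
          simp [chainQ]
        | 1, _ =>
          exact ⟨hres β hβ hcopβ s, hres β⁻¹ (Subgroup.inv_mem _ hβ) (by rw [orderOf_inv]; exact hcopβ) s⟩
        | _ + 2, _ => exact ⟨Subgroup.mem_top _, Subgroup.mem_top _⟩
      obtain ⟨k, hk⟩ := isPGroup_chainStab hS (chainQ (F.hyperfocalSubgroup p) S)
        (chainQ_mono (F.hyperfocalSubgroup p) S) rfl 2 rfl ⟨β, hstab⟩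
      exact false_of_order hq hqp hβo (congrArg (fun t : chainStab
        (chainQ (F.hyperfocalSubgroup p) S) (chainQ_mono (F.hyperfocalSubgroup p) S) =>
          (t : MulAut S)) hk)
  have hfoc : F.focalSubgroup = S := by
    apply le_antisymm
    · unfold focalSubgroup
      rw [Subgroup.closure_le]
      rintro _ ⟨R, φ, y, hφ, rfl⟩
      exact S.mul_mem (S.inv_mem (le_of_hom F hφ y.2)) (map_mem_of_hom F hφ y)
    · exact hhyp.ge.trans (hyperfocal_le_focal F p)
  refine ⟨hSn, hfoc, hhyp, q, β, hq, hqp, hβ, hβo, ?_⟩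
  apply le_antisymm
  · intro α hα
    have h1 := (mem_autGroup_iff F le_rfl α).mp hα
    rw [← hhom S] at h1
    obtain ⟨-, h, hh, H⟩ := h1
    rw [sup_comm] at hh
    obtain ⟨t, ht, u, hu, rfl⟩ := exists_mul_of_mem_sup ((Subgroup.zpowers_le).2 hxV) hh
    obtain ⟨n, rfl⟩ := (isOfFinOrder_of_finite x).mem_powers_iff_mem_zpowers.2 ht
    obtain ⟨s, -, rfl⟩ := hu
    have e : α = β ^ n * MulAut.conj s := MulEquiv.ext (fun y => hreal.1 (by
      rw [MulAut.mul_apply, hpow, MulAut.conj_apply, map_mul, map_mul, map_inv]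
      have h2 := H y y.2 (α y).2
      have h3 : ι (α y) = x ^ n * ι s * ι y * (x ^ n * ι s)⁻¹ := h2
      rw [h3]
      group))
    rw [e]
    exact Subgroup.mul_mem _ (Subgroup.mem_sup_right (Subgroup.pow_mem _ (Subgroup.mem_zpowers β) n))
      (Subgroup.mem_sup_left ⟨s, rfl⟩)
  · exact sup_le (inn_le_autGroup F le_rfl) ((Subgroup.zpowers_le).2 hβ)

end Cfsg.Agent.Lib.Helper9_XSparse
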