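import Mathlib

set_option autoImplicit false

namespace Cfsg.Agent.Lib.helper6_Burnside

open MulAction

variable {G Ω : Type*} [Group G] [MulAction G Ω]

theorem burnside [Fintype G] [Finite Ω] :
    ∑ g : G, Nat.card (fixedBy Ω g) = Nat.card (orbitRel.Quotient G Ω) * Nat.card G := by
  classical
  have := Fintype.ofFinite Ω
  have : Fintype (orbitRel.Quotient G Ω) := Fintype.ofFinite _
  have h := sum_card_fixedBy_eq_card_orbits_mul_card_group G Ω
  simp only [Nat.card_eq_fintype_card]
  exact h

theorem burnside_subgroup [Fintype G] [Finite Ω] (D : Subgroup G) [DecidablePred (· ∈ D)] :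
    ∑ g ∈ Finset.univ.filter (· ∈ D), Nat.card (fixedBy Ω g)
      = Nat.card (orbitRel.Quotient D Ω) * Nat.card D := by
  classical
  rw [← burnside (G := D) (Ω := Ω)]
  rw [Finset.sum_subtype (Finset.univ.filter (· ∈ D)) (p := (· ∈ D)) (by simp)]
  rfl

/-- number of orbits is one for a transitive action on a nonempty set -/
theorem card_orbits_eq_one [IsPretransitive G Ω] [Nonempty Ω] :
    Nat.card (orbitRel.Quotient G Ω) = 1 := by
  have : Subsingleton (orbitRel.Quotient G Ω) := (pretransitive_iff_subsingleton_quotient G Ω).1 ‹_›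
  have : Nonempty (orbitRel.Quotient G Ω) := ⟨Quotient.mk'' (Classical.arbitrary Ω)⟩
  exact Nat.card_unique

theorem pretransitive_of_card_orbits_le_one [Finite Ω]
    (h : Nat.card (orbitRel.Quotient G Ω) ≤ 1) : IsPretransitive G Ω := by
  rw [pretransitive_iff_subsingleton_quotient]
  have : Finite (orbitRel.Quotient G Ω) := Quotient.finite _
  exact Finite.card_le_one_iff_subsingleton.1 h

/-- The subgroup generated by derangements. -/
def der (G Ω : Type*) [Group G] [MulAction G Ω] : Subgroup G :=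
  Subgroup.closure {g : G | ∀ ω : Ω, g • ω ≠ ω}

theorem one_le_fix_of_not_mem {g : G} [Finite Ω] (hg : g ∉ der G Ω) :
    1 ≤ Nat.card (fixedBy Ω g) := by
  by_contra hlt
  apply hg
  apply Subgroup.subset_closure
  intro ω hω
  have : Nonempty (fixedBy Ω g) := ⟨⟨ω, hω⟩⟩
  exact hlt Nat.card_pos

theorem derangement_main [Finite G] [Finite Ω] [Nonempty Ω] [IsPretransitive G Ω] :
    Nat.card (orbitRel.Quotient (der G Ω) Ω) = 1 ∧
      ∀ g : G, g ∉ der G Ω → Nat.card (fixedBy Ω g) = 1 := by
  classical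
  have := Fintype.ofFinite G
  set D := der G Ω with hD
  have h1 := burnside (G := G) (Ω := Ω)
  rw [card_orbits_eq_one, one_mul] at h1
  have h2 := burnside_subgroup (G := G) (Ω := Ω) D
  have h3 := Finset.sum_filter_add_sum_filter_not (Finset.univ : Finset G) (· ∈ D)
    (fun g => Nat.card (fixedBy Ω g))
  rw [h1, h2] at h3
  have hk : 1 ≤ Nat.card (orbitRel.Quotient D Ω) := by
    have : Nonempty (orbitRel.Quotient D Ω) := ⟨Quotient.mk'' (Classical.arbitrary Ω)⟩
    have : Finite (orbitRel.Quotient D Ω) := Quotient.finite _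
    exact Nat.card_pos
  have h4 : ∑ g ∈ Finset.univ.filter (fun g => ¬ g ∈ D), 1
      ≤ ∑ g ∈ Finset.univ.filter (fun g => ¬ g ∈ D), Nat.card (fixedBy Ω g) := by
    apply Finset.sum_le_sum
    intro g hg
    exact one_le_fix_of_not_mem (Finset.mem_filter.1 hg).2
  have h5 : (Finset.univ.filter (· ∈ D)).card + (Finset.univ.filter (fun g => ¬ g ∈ D)).card
      = Nat.card G := by
    rw [Finset.card_filter_add_card_filter_not, Finset.card_univ, Nat.card_eq_fintype_card]
  have h6 : (Finset.univ.filter (· ∈ D)).card = Nat.card D := by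
    rw [Nat.card_eq_fintype_card, Fintype.card_subtype]
  have hDpos : 0 < Nat.card D := Nat.card_pos
  simp only [Finset.sum_const, smul_eq_mul, mul_one] at h4
  have hk1 : Nat.card (orbitRel.Quotient D Ω) = 1 := by
    by_contra hne
    have : 2 ≤ Nat.card (orbitRel.Quotient D Ω) := by omega
    nlinarith
  refine ⟨hk1, ?_⟩
  rw [hk1, one_mul] at h3
  have h7 : ∑ g ∈ Finset.univ.filter (fun g => ¬ g ∈ D), Nat.card (fixedBy Ω g)
      = ∑ g ∈ Finset.univ.filter (fun g => ¬ g ∈ D), 1 := by
    simp only [Finset.sum_const, smul_eq_mul, mul_one]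
    omega
  intro g hg
  have h8 := (Finset.sum_eq_sum_iff_of_le (s := Finset.univ.filter (fun g => ¬ g ∈ D))
    (f := fun _ => 1) (g := fun g => Nat.card (fixedBy Ω g)) (by
      intro g hg
      exact one_le_fix_of_not_mem (Finset.mem_filter.1 hg).2)).1 h7.symm
  exact (h8 g (Finset.mem_filter.2 ⟨Finset.mem_univ _, hg⟩)).symm

end Cfsg.Agent.Lib.helper6_Burnside
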