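import Mathlib
import Cfsg.Agent.Lib.helper6_Burnside

set_option autoImplicit false

namespace Cfsg.Agent.Lib.helper6_Derange

open MulAction Cfsg.Agent.Lib.helper6_Burnside

/-- If all orbits inside an invariant finite set have size divisible by `m`, so has the set. -/
theorem dvd_ncard_of_orbits {K Ω : Type*} [Group K] [MulAction K Ω] (m : ℕ) :
    ∀ (n : ℕ) (Y : Set Ω), Y.Finite → Y.ncard = n → (∀ k : K, ∀ y ∈ Y, k • y ∈ Y) →
      (∀ y ∈ Y, m ∣ (orbit K y).ncard) → m ∣ Y.ncard := by
  intro n
  induction n using Nat.strong_induction_on with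
  | _ n ih =>
    intro Y hfin hn hinv hdiv
    rcases Y.eq_empty_or_nonempty with rfl | ⟨y, hy⟩
    · simp
    · have hO : orbit K y ⊆ Y := by
        rintro _ ⟨k, rfl⟩
        exact hinv k y hy
      have hsplit : (Y \ orbit K y).ncard + (orbit K y).ncard = Y.ncard :=
        Set.ncard_sdiff_add_ncard_of_subset hO hfin
      have hOpos : 0 < (orbit K y).ncard :=
        (Set.ncard_pos (hfin.subset hO)).2 ⟨y, mem_orbit_self y⟩
      have h1 : m ∣ (Y \ orbit K y).ncard := by
        apply ih (Y \ orbit K y).ncard (by omega) _ (hfin.subset Set.sdiff_subset) rfl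
        · intro k z hz
          refine ⟨hinv k z hz.1, fun hkz => hz.2 ?_⟩
          obtain ⟨j, hj⟩ := hkz
          replace hj : j • y = k • z := hj
          refine ⟨k⁻¹ * j, ?_⟩
          show (k⁻¹ * j) • y = z
          rw [mul_smul, hj, inv_smul_smul]
        · intro z hz
          exact hdiv z hz.1
      rw [← hsplit]
      exact Dvd.dvd.add h1 (hdiv y hy)

variable {G Ω : Type*} [Group G] [MulAction G Ω]

theorem der_normal : (der G Ω).Normal := by
  refine ⟨fun x hx g => ?_⟩
  induction hx using Subgroup.closure_induction with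
  | mem x hx =>
    apply Subgroup.subset_closure
    intro ω hω
    apply hx (g⁻¹ • ω)
    rw [mul_smul, mul_smul] at hω
    exact (eq_inv_smul_iff.2 hω)
  | one => simp
  | mul x y _ _ hx hy =>
    have : g * (x * y) * g⁻¹ = (g * x * g⁻¹) * (g * y * g⁻¹) := by group
    rw [this]
    exact Subgroup.mul_mem _ hx hy
  | inv x _ hx =>
    have : g * x⁻¹ * g⁻¹ = (g * x * g⁻¹)⁻¹ := by group
    rw [this]
    exact Subgroup.inv_mem _ hx

/-- an element fixing two distinct points lies in `der`. -/
theorem mem_der_of_two_fix [Finite G] [Finite Ω] [IsPretransitive G Ω] {g : G} {a b : Ω}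
    (hab : a ≠ b) (ha : g • a = a) (hb : g • b = b) : g ∈ der G Ω := by
  have : Nonempty Ω := ⟨a⟩
  by_contra hg
  have h1 := (derangement_main (G := G) (Ω := Ω)).2 g hg
  rw [Nat.card_eq_one_iff_unique] at h1
  obtain ⟨hs, _⟩ := h1
  have := hs.elim (⟨a, ha⟩ : fixedBy Ω g) ⟨b, hb⟩
  exact hab (congrArg Subtype.val this)

theorem der_pretransitive [Finite G] [Finite Ω] [IsPretransitive G Ω] :
    IsPretransitive (der G Ω) Ω := by
  rcases isEmpty_or_nonempty Ω with hE | hN
  · exact ⟨fun x => (hE.false x).elim⟩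
  · exact pretransitive_of_card_orbits_le_one (derangement_main (G := G) (Ω := Ω)).1.le

theorem stab_sup_der [Finite G] [Finite Ω] [IsPretransitive G Ω] (a : Ω) :
    stabilizer G a ⊔ der G Ω = ⊤ := by
  rw [eq_top_iff]
  intro g _
  have := der_pretransitive (G := G) (Ω := Ω)
  obtain ⟨d, hd⟩ := exists_smul_eq (der G Ω) a (g⁻¹ • a)
  have hd' : (d : G) • a = g⁻¹ • a := hd
  have h1 : g * d ∈ stabilizer G a := by
    rw [mem_stabilizer_iff, mul_smul, hd', smul_inv_smul]
  have : g = (g * d) * (d : G)⁻¹ := by group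
  rw [this]
  exact Subgroup.mul_mem _ (Subgroup.mem_sup_left h1)
    (Subgroup.mem_sup_right (Subgroup.inv_mem _ d.2))

theorem der_relIndex_stab [Finite G] [Finite Ω] [IsPretransitive G Ω] (a : Ω) :
    (der G Ω).relIndex (stabilizer G a) = (der G Ω).index := by
  have := der_normal (G := G) (Ω := Ω)
  rw [← Subgroup.relIndex_sup_right, stab_sup_der, Subgroup.relIndex_top_right]

theorem ncard_orbit_stab (a b : Ω) :
    (orbit (stabilizer G a) b).ncard = (stabilizer G b).relIndex (stabilizer G a) := by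
  rw [← index_stabilizer]
  rfl

/-- factorisation of the suborbit length -/
theorem ncard_orbit_stab_eq [Finite G] [Finite Ω] [IsPretransitive G Ω] {a b : Ω} (hab : a ≠ b) :
    (orbit (stabilizer G a) b).ncard =
      (stabilizer G b ⊓ stabilizer G a).relIndex (der G Ω ⊓ stabilizer G a) * (der G Ω).index := by
  rw [ncard_orbit_stab, ← der_relIndex_stab a, ← Subgroup.inf_relIndex_right (der G Ω),
    ← Subgroup.inf_relIndex_right (stabilizer G b),
    Subgroup.relIndex_mul_relIndex _ _ _ _ inf_le_right]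
  intro g hg
  exact ⟨mem_der_of_two_fix hab hg.2 hg.1, hg.2⟩

theorem index_dvd_ncard [Finite G] [Finite Ω] [IsPretransitive G Ω] (a : Ω) (Y : Set Ω)
    (haY : a ∉ Y) (hinv : ∀ k : stabilizer G a, ∀ y ∈ Y, k • y ∈ Y) :
    (der G Ω).index ∣ Y.ncard := by
  apply dvd_ncard_of_orbits (K := stabilizer G a) _ _ Y (Set.toFinite Y) rfl hinv
  intro y hy
  have hay : a ≠ y := fun h => haY (h ▸ hy)
  rw [ncard_orbit_stab_eq hay]
  exact Dvd.intro_left _ rfl

end Cfsg.Agent.Lib.helper6_Derange
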