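import Mathlib
import Cfsg.Prelude.Def_Transfer
import Cfsg.Agent.Lib.Helper4_Nilp
import Cfsg.Agent.Lib.Helper1_Class2

/-!
# Normal elementary abelian subgroups of order `p ^ 2` in non-cyclic `p`-groups, `p` odd
-/

set_option autoImplicit false

namespace Cfsg.Agent.Lib.helper6_EANormal
open Cfsg Subgroup
open scoped commutatorElement

theorem coprime_mem' {K : Type*} [Group K] (V : Subgroup K) {m n : ℕ} (hc : m.Coprime n) {w : K}
    (h1 : w ^ m ∈ V) (h2 : w ^ n ∈ V) : w ∈ V := by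
  have h3 : w ^ (Nat.gcd m n : ℤ) ∈ V := by
    rw [Nat.gcd_eq_gcd_ab, zpow_add, zpow_mul, zpow_mul, zpow_natCast, zpow_natCast]
    exact V.mul_mem (V.zpow_mem h1 _) (V.zpow_mem h2 _)
  rw [hc] at h3
  simpa using h3

theorem card_sup_of_inf {G : Type*} [Group G] (S N : Subgroup G) [S.Normal] (h0 : S ⊓ N = ⊥) :
    Nat.card S * Nat.card N = Nat.card (N ⊔ S : Subgroup G) := by
  have h1 := Subgroup.relIndex_sup_right N S
  have h2 : S.relIndex N = Nat.card N := by
    rw [← Subgroup.inf_relIndex_right, h0, Subgroup.relIndex_bot_left]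
  have h3 : Nat.card S * S.relIndex (N ⊔ S) = Nat.card (N ⊔ S : Subgroup G) := by
    rw [← Subgroup.relIndex_bot_left, ← Subgroup.relIndex_bot_left,
      Subgroup.relIndex_mul_relIndex _ _ _ bot_le le_sup_right]
  rw [← h3, h1, h2]

/-- in a group of prime order generated by `z`, a nontrivial power generates. -/
theorem mem_zpowers_of_prime {G : Type*} [Group G] {p : ℕ} (hp : p.Prime) {z w : G}
    (hz : z ^ p = 1) (hw : w ∈ zpowers z) (hw1 : w ≠ 1) : z ∈ zpowers w := by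
  obtain ⟨i, rfl⟩ := hw
  have hi : ¬ (p : ℤ) ∣ i := by
    rintro ⟨k, rfl⟩
    apply hw1
    show z ^ ((p : ℤ) * k) = 1
    rw [zpow_mul, zpow_natCast, hz, one_zpow]
  have hc : IsCoprime i (p : ℤ) := by
    rw [isCoprime_comm]
    exact (Nat.prime_iff_prime_int.1 hp).coprime_iff_not_dvd.2 hi
  obtain ⟨a, b, hab⟩ := hc
  have : z = (z ^ i) ^ a := by
    have h1 : z ^ (a * i + b * p) = z := by rw [hab, zpow_one]
    rw [zpow_add, zpow_mul' z b, zpow_natCast, hz, one_zpow, mul_one, mul_comm,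
      zpow_mul] at h1
    exact h1.symm
  exact ⟨a, this.symm⟩

theorem final {R : Type*} [Group R] [Finite R] {p : ℕ} [hp : Fact p.Prime] (hR : IsPGroup p R)
    {z : R} (hzc : z ∈ center R) (hzo : orderOf z = p) (Ω : Subgroup R) [hΩn : Ω.Normal]
    (hzΩ : z ∈ Ω) (hΩ : ¬ Ω ≤ zpowers z) (hexp : ∀ a ∈ Ω, a ^ p = 1) :
    ∃ A : Subgroup R, A ≤ Ω ∧ A.Normal ∧ IsElementaryAbelian p A ∧ Nat.card A = p ^ 2 := by
  haveI := hR.isNilpotent
  obtain ⟨x, hxΩ, hxZ, hxc⟩ := Cfsg.Agent.Lib.Helper4_Nilp.exists_central_mod (zpowers z) Ω hΩ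
  have hZc : ∀ c ∈ zpowers z, ∀ g : R, g * c = c * g := by
    intro c hc g
    have : zpowers z ≤ center R := by rwa [zpowers_le]
    exact mem_center_iff.1 (this hc) g
  haveI hZn : (zpowers z).Normal := by
    constructor
    intro c hc g
    rw [hZc c hc g, mul_inv_cancel_right]
    exact hc
  set A := zpowers x ⊔ zpowers z with hA
  have hmem : ∀ a, a ∈ A ↔ ∃ y ∈ zpowers x, ∃ c ∈ zpowers z, y * c = a :=
    fun a => mem_sup_of_normal_right
  have hxA : x ∈ A := (le_sup_left : zpowers x ≤ A) (mem_zpowers x)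
  have hZA : zpowers z ≤ A := le_sup_right
  have hAΩ : A ≤ Ω := sup_le (by rwa [zpowers_le]) (by rwa [zpowers_le])
  have hx1 : x ≠ 1 := fun h => hxZ (h ▸ one_mem _)
  have hxo : orderOf x = p := orderOf_eq_prime (hexp x hxΩ) hx1
  refine ⟨A, hAΩ, ?_, ⟨?_, fun a ha => hexp a (hAΩ ha)⟩, ?_⟩
  · constructor
    intro a ha g
    obtain ⟨_, ⟨i, rfl⟩, c, hc, rfl⟩ := (hmem a).1 ha
    have h1 : g * x * g⁻¹ ∈ A := by
      have : g * x * g⁻¹ = ⁅x, g⁆⁻¹ * x := by rw [commutatorElement_def]; group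
      rw [this]
      exact A.mul_mem (A.inv_mem (hZA (hxc g))) hxA
    have h2 : g * ((fun k : ℤ => x ^ k) i * c) * g⁻¹ = (g * x * g⁻¹) ^ i * (g * c * g⁻¹) := by
      rw [conj_zpow]; group
    rw [h2]
    exact A.mul_mem (A.zpow_mem h1 i) (hZA (hZn.conj_mem c hc g))
  · have hcx : ∀ a ∈ A, Commute a x := by
      intro a ha
      obtain ⟨_, ⟨i, rfl⟩, c, hc, rfl⟩ := (hmem a).1 ha
      have h1 : Commute (x ^ i) x := (Commute.refl x).zpow_left i
      have h2 : Commute c x := (hZc c hc x).symm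
      exact h1.mul_left h2
    refine ⟨⟨fun a b => Subtype.ext ?_⟩⟩
    obtain ⟨_, ⟨i, rfl⟩, c, hc, e⟩ := (hmem b).1 b.2
    show (a : R) * b = b * a
    rw [← e]
    have h1 : Commute (a : R) (x ^ i) := (hcx a a.2).zpow_right i
    have h2 : Commute (a : R) c := hZc c hc a
    exact (h1.mul_right h2).eq
  · have h0 : zpowers z ⊓ zpowers x = ⊥ := by
      rw [eq_bot_iff]
      rintro w ⟨hwz, hwx⟩
      rw [mem_bot]
      by_contra hw1
      apply hxZ
      have h1 : x ∈ zpowers w := mem_zpowers_of_prime hp.out (hexp x hxΩ) hwx hw1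
      exact (zpowers_le.2 hwz) h1
    rw [hA, ← card_sup_of_inf _ _ h0, Nat.card_zpowers, Nat.card_zpowers, hzo, hxo, pow_two]

universe u

theorem main {p : ℕ} [hp : Fact p.Prime] (hp2 : p ≠ 2) : ∀ (n : ℕ) (R : Type u) [Group R] [Finite R],
    Nat.card R = n → IsPGroup p R → ∀ (S : Subgroup R) [S.Normal], ¬ IsCyclic S →
    ∃ A : Subgroup R, A ≤ S ∧ A.Normal ∧ IsElementaryAbelian p A ∧ Nat.card A = p ^ 2 := by
  intro n
  induction n using Nat.strong_induction_on with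
  | _ n ih =>
  intro R _ _ hn hR S hSn hS
  haveI := hR.isNilpotent
  have hSbot : S ≠ ⊥ := by
    rintro rfl
    exact hS inferInstance
  have h1 := Cfsg.Agent.Lib.Helper4_Nilp.normal_inf_center_ne_bot S hSbot
  have hpg : IsPGroup p (S ⊓ center R : Subgroup R) := hR.to_subgroup _
  obtain ⟨k, hk⟩ := IsPGroup.iff_card.1 hpg
  have hk0 : k ≠ 0 := by
    rintro rfl
    rw [pow_zero] at hk
    exact h1 (eq_bot_of_card_eq _ hk)
  obtain ⟨z', hz'⟩ := exists_prime_orderOf_dvd_card' (G := (S ⊓ center R : Subgroup R)) p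
    (by rw [hk]; exact dvd_pow_self p hk0)
  obtain ⟨z, hzS, hzc, hzo⟩ : ∃ z : R, z ∈ S ∧ z ∈ center R ∧ orderOf z = p :=
    ⟨z', z'.2.1, z'.2.2, by rw [Subgroup.orderOf_coe, hz']⟩
  set Z := zpowers z with hZ
  have hzp : z ^ p = 1 := by rw [← hzo, pow_orderOf_eq_one]
  have hZc : ∀ c ∈ Z, ∀ g : R, g * c = c * g := by
    intro c hc g
    have : Z ≤ center R := by rwa [hZ, zpowers_le]
    exact mem_center_iff.1 (this hc) g
  have hZp : ∀ c ∈ Z, c ^ p = 1 := by
    rintro _ ⟨i, rfl⟩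
    show (z ^ i) ^ p = 1
    rw [← zpow_natCast, ← zpow_mul, mul_comm, zpow_mul, zpow_natCast, hzp, one_zpow]
  haveI hZn : Z.Normal := by
    constructor
    intro c hc g
    rw [hZc c hc g, mul_inv_cancel_right]
    exact hc
  have hZS : Z ≤ S := by rwa [hZ, zpowers_le]
  have hZcard : Nat.card Z = p := by rw [hZ, Nat.card_zpowers, hzo]
  suffices ∃ Ω : Subgroup R, Ω.Normal ∧ Ω ≤ S ∧ z ∈ Ω ∧ ¬ Ω ≤ Z ∧ ∀ a ∈ Ω, a ^ p = 1 by
    obtain ⟨Ω, hΩn, hΩS, hzΩ, hΩZ, hexp⟩ := this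
    obtain ⟨A, hA, h⟩ := final hR hzc hzo Ω hzΩ hΩZ hexp
    exact ⟨A, hA.trans hΩS, h⟩
  set π := QuotientGroup.mk' Z with hπ
  have hπs : Function.Surjective π := QuotientGroup.mk'_surjective Z
  have hπ1 : ∀ x, π x = 1 ↔ x ∈ Z := fun x => QuotientGroup.eq_one_iff x
  by_cases hcyc : IsCyclic (S.map π)
  · obtain ⟨⟨ybar, hybar⟩, hgen⟩ := hcyc.exists_generator
    obtain ⟨y, hyS, rfl⟩ := hybar
    have hdecomp : ∀ s ∈ S, ∃ i : ℤ, ∃ c ∈ Z, s = y ^ i * c := by
      intro s hs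
      obtain ⟨i, hi⟩ := hgen ⟨π s, s, hs, rfl⟩
      have h2 : π y ^ i = π s := by
        have := congrArg Subtype.val hi
        simpa using this
      refine ⟨i, (y ^ i)⁻¹ * s, ?_, by group⟩
      rw [← hπ1, map_mul, map_inv, map_zpow, h2, inv_mul_cancel]
    have hScomm : ∀ a ∈ S, ∀ b ∈ S, Commute a b := by
      intro a ha b hb
      obtain ⟨i, c, hc, rfl⟩ := hdecomp a ha
      obtain ⟨j, d, hd, rfl⟩ := hdecomp b hb
      have h1 : Commute (y ^ i) (y ^ j) := ((Commute.refl y).zpow_left i).zpow_right j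
      have h2 : Commute (y ^ i) d := hZc d hd _
      have h3 : Commute c (y ^ j) := (hZc c hc _).symm
      have h4 : Commute c d := hZc d hd _
      exact (h1.mul_right h2).mul_left (h3.mul_right h4)
    let Ω : Subgroup R :=
      { carrier := {s | s ∈ S ∧ s ^ p = 1}
        one_mem' := ⟨S.one_mem, one_pow _⟩
        mul_mem' := by
          rintro a b ⟨ha, ha'⟩ ⟨hb, hb'⟩
          exact ⟨S.mul_mem ha hb, by rw [(hScomm a ha b hb).mul_pow, ha', hb', one_mul]⟩
        inv_mem' := by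
          rintro a ⟨ha, ha'⟩
          exact ⟨S.inv_mem ha, by rw [inv_pow, ha', inv_one]⟩ }
    have hΩ : ∀ s, s ∈ Ω ↔ s ∈ S ∧ s ^ p = 1 := fun s => Iff.rfl
    refine ⟨Ω, ⟨fun a ha g => ?_⟩, fun a ha => ha.1, ⟨hzS, hzp⟩, ?_, fun a ha => ha.2⟩
    · exact ⟨hSn.conj_mem a ha.1 g, by rw [conj_pow, ha.2]; simp⟩
    · intro hle
      apply hS
      by_cases hy1 : y = 1
      · refine ⟨⟨⟨z, hzS⟩, fun s => ?_⟩⟩
        obtain ⟨i, c, ⟨j, hj⟩, e⟩ := hdecomp s s.2
        refine ⟨j, Subtype.ext ?_⟩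
        rw [e, hy1, one_zpow, one_mul, ← hj]
        simp
      · obtain ⟨k, hk⟩ := (IsPGroup.iff_orderOf.1 hR) y
        have hk0 : k ≠ 0 := by
          rintro rfl
          rw [pow_zero, orderOf_eq_one_iff] at hk
          exact hy1 hk
        obtain ⟨k, rfl⟩ := Nat.exists_eq_succ_of_ne_zero hk0
        have hw1 : y ^ (p ^ k) ≠ 1 := by
          apply pow_ne_one_of_lt_orderOf (pow_pos hp.out.pos k).ne'
          rw [hk]
          exact Nat.pow_lt_pow_right hp.out.one_lt (Nat.lt_succ_self k)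
        have hwΩ : y ^ (p ^ k) ∈ Ω := by
          rw [hΩ]
          refine ⟨S.pow_mem hyS _, ?_⟩
          rw [← pow_mul, ← pow_succ, ← hk, pow_orderOf_eq_one]
        have hzy : z ∈ zpowers y :=
          (zpowers_le.2 (pow_mem (mem_zpowers y) _)) (mem_zpowers_of_prime hp.out hzp (hle hwΩ) hw1)
        refine ⟨⟨⟨y, hyS⟩, fun s => ?_⟩⟩
        obtain ⟨i, c, hc, e⟩ := hdecomp s s.2
        have hs : (s : R) ∈ zpowers y := by
          rw [e]
          exact mul_mem (zpow_mem (mem_zpowers y) i) ((zpowers_le.2 hzy) hc)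
        obtain ⟨j, hj⟩ := hs
        refine ⟨j, Subtype.ext ?_⟩
        rw [← hj]
        simp
  · haveI : (S.map π).Normal := hSn.map π hπs
    have hlt : Nat.card (R ⧸ Z) < n := by
      have h2 := card_eq_card_quotient_mul_card_subgroup Z
      rw [hn, hZcard] at h2
      rw [h2]
      have h3 : 0 < Nat.card (R ⧸ Z) := Nat.card_pos
      have := hp.out.one_lt
      nlinarith
    obtain ⟨Ab, hAbS, hAbn, ⟨hAbc, hAbe⟩, hAbcard⟩ :=
      ih _ hlt (R ⧸ Z) rfl (hR.to_quotient Z) (S.map π) hcyc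
    set A₁ := Ab.comap π with hA₁
    have hA₁S : A₁ ≤ S := by
      intro a ha
      obtain ⟨s, hs, e⟩ := hAbS (mem_comap.1 ha)
      have h2 : s⁻¹ * a ∈ Z := by rw [← hπ1, map_mul, map_inv, e, inv_mul_cancel]
      have : a = s * (s⁻¹ * a) := by group
      rw [this]
      exact S.mul_mem hs (hZS h2)
    have hA₁n : A₁.Normal := hAbn.comap π
    have hcomm : ∀ a ∈ A₁, ∀ b ∈ A₁, ⁅a, b⁆ ∈ Z := by
      intro a ha b hb
      rw [← hπ1, map_commutatorElement, commutatorElement_eq_one_iff_mul_comm]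
      exact congrArg Subtype.val (hAbc.is_comm.comm ⟨π a, ha⟩ ⟨π b, hb⟩)
    have hpow : ∀ a ∈ A₁, a ^ p ∈ Z := by
      intro a ha
      rw [← hπ1, map_pow]
      exact hAbe _ ha
    have hcl2 : Cfsg.Agent.Lib.Helper1_Class2.Cl2 A₁ := by
      intro x y
      rw [mem_center_iff]
      intro g
      apply Subtype.ext
      exact hZc _ (hcomm x x.2 y y.2) g
    let f : A₁ →* Z := MonoidHom.mk' (fun a => ⟨(a : R) ^ p, hpow a a.2⟩) (by
      intro a b
      apply Subtype.ext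
      have h2 : ⁅b, a⁆ ^ p = 1 := by
        apply Subtype.ext
        exact hZp _ (hcomm b b.2 a a.2)
      have h3 := congrArg Subtype.val
        (Cfsg.Agent.Lib.Helper1_Class2.mul_pow_prime hcl2 hp.out hp2 a b h2)
      exact h3)
    have hf : ∀ a : A₁, a ∈ f.ker ↔ (a : R) ^ p = 1 := by
      intro a
      rw [MonoidHom.mem_ker]
      exact ⟨fun h => congrArg Subtype.val h, fun h => Subtype.ext h⟩
    set Ω := f.ker.map A₁.subtype with hΩdef
    have hΩ : ∀ s, s ∈ Ω ↔ s ∈ A₁ ∧ s ^ p = 1 := by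
      intro s
      constructor
      · rintro ⟨a, ha, rfl⟩
        exact ⟨a.2, (hf a).1 ha⟩
      · rintro ⟨hs, hs'⟩
        exact ⟨⟨s, hs⟩, (hf _).2 hs', rfl⟩
    have hZA₁ : Z ≤ A₁ := by
      intro c hc
      rw [hA₁, mem_comap, (hπ1 c).2 hc]
      exact one_mem _
    refine ⟨Ω, ⟨fun a ha g => ?_⟩, fun a ha => hA₁S ((hΩ a).1 ha).1,
      (hΩ z).2 ⟨hZA₁ (mem_zpowers z), hzp⟩, ?_, fun a ha => ((hΩ a).1 ha).2⟩
    · rw [hΩ] at ha ⊢
      exact ⟨hA₁n.conj_mem a ha.1 g, by rw [conj_pow, ha.2]; simp⟩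
    · intro hle
      have c1 : Nat.card Ω ≤ p := by
        rw [← hZcard]
        exact Nat.le_of_dvd Nat.card_pos (card_dvd_of_le hle)
      have c2 : Nat.card Ω = Nat.card f.ker :=
        card_map_of_injective A₁.subtype_injective
      have c3 := f.ker.card_mul_index
      have c4 : f.ker.index ≤ p := by
        rw [index_ker, ← hZcard]
        exact card_le_card_group _
      have c5 : Nat.card A₁ = p * p ^ 2 := by
        have e1 : Z.relIndex A₁ = Nat.card Ab := by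
          have h5 := relIndex_comap (⊥ : Subgroup (R ⧸ Z)) π A₁
          rw [hA₁, map_comap_eq_self_of_surjective hπs, relIndex_bot_left] at h5
          have h6 : comap π (⊥ : Subgroup (R ⧸ Z)) = Z := by
            ext x
            rw [mem_comap, mem_bot, hπ1]
          rw [h6] at h5
          exact h5
        have e2 : Nat.card Z * Z.relIndex A₁ = Nat.card A₁ := by
          rw [← Subgroup.relIndex_bot_left, ← Subgroup.relIndex_bot_left,
            Subgroup.relIndex_mul_relIndex _ _ _ bot_le hZA₁]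
        rw [← e2, e1, hZcard, hAbcard]
      rw [c5, ← c2] at c3
      have hp1 := hp.out.one_lt
      have : Nat.card Ω * f.ker.index ≤ p * p := Nat.mul_le_mul c1 c4
      nlinarith

end Cfsg.Agent.Lib.helper6_EANormal
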