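import Mathlib
import Cfsg.Agent.Lib.Helper1_FrobPNil
import Cfsg.Agent.Lib.Helper7_Max

/-!
# Minimal failures of Frobenius' normal `p`-complement criterion
-/

set_option autoImplicit false

namespace Cfsg.Agent.Lib.helper6_MinAut
open Subgroup Cfsg.Agent.Lib.Helper1_FrobPNil
open scoped commutatorElement

/-- a `p`-group `U` with a nontrivial `p'`-automorphism fixing every proper invariant subgroup
pointwise. -/
structure MinAut (p : ℕ) {U : Type*} [Group U] (φ : MulAut U) : Prop where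
  hU : IsPGroup p U
  hm : ∃ m : ℕ, m.Coprime p ∧ φ ^ m = 1
  hne : ∃ u : U, φ u ≠ u
  hmin : ∀ W : Subgroup U, W ≠ ⊤ → (∀ w ∈ W, φ w ∈ W) → ∀ w ∈ W, φ w = w

section general
variable {p : ℕ} {U : Type*} [Group U] {φ : MulAut U}

theorem MinAut.eq_of_fix (h : MinAut p φ) (u : U) (hc : φ (u⁻¹ * φ u) = u⁻¹ * φ u) : φ u = u := by
  obtain ⟨m, hm, hφ⟩ := h.hm
  set c := u⁻¹ * φ u with hcdef
  have hu : φ u = u * c := by rw [hcdef]; group
  have hpow : ∀ k : ℕ, (φ ^ k) u = u * c ^ k := by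
    intro k
    induction k with
    | zero => simp
    | succ k ih =>
      rw [pow_succ', MulAut.mul_apply, ih, map_mul, map_pow, hc, hu, pow_succ', mul_assoc]
  have h1 := hpow m
  rw [hφ, MulAut.one_apply] at h1
  have h2 : c ^ m = 1 := by
    have := congrArg (fun w => u⁻¹ * w) h1
    simpa using this.symm
  obtain ⟨j, hj⟩ := h.hU c
  have h3 : orderOf c = 1 :=
    Nat.eq_one_of_dvd_coprimes (Nat.Coprime.pow_right j hm) (orderOf_dvd_of_pow_eq_one h2)
      (orderOf_dvd_of_pow_eq_one hj)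
  rw [hu, orderOf_eq_one_iff.1 h3, mul_one]

theorem MinAut.eq_top (h : MinAut p φ) (W : Subgroup U) (hW : ∀ w ∈ W, φ w ∈ W) {x : U}
    (hx : x ∈ W) (hφx : φ x ≠ x) : W = ⊤ := by
  by_contra hne
  exact hφx (h.hmin W hne hW x hx)

theorem MinAut.eq_top' (h : MinAut p φ) (W : Subgroup U) (hW : ∀ w ∈ W, φ w ∈ W)
    (hc : ∀ u : U, u⁻¹ * φ u ∈ W) : W = ⊤ := by
  by_contra hne
  obtain ⟨u, hu⟩ := h.hne
  exact hu (h.eq_of_fix u (h.hmin W hne hW _ (hc u)))

variable [Finite U] [hp : Fact p.Prime]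

theorem MinAut.fix_commutator (h : MinAut p φ) {w : U} (hw : w ∈ commutator U) : φ w = w := by
  haveI : Nontrivial U := by
    obtain ⟨u, hu⟩ := h.hne
    exact ⟨⟨φ u, u, hu⟩⟩
  haveI : Group.IsNilpotent U := h.hU.isNilpotent
  have h1 : commutator U ≠ ⊤ := (Group.IsSolvable.commutator_lt_top_of_nontrivial U).ne
  refine h.hmin _ h1 ?_ w hw
  intro v hv
  have h2 : (commutator U).map φ.toMonoidHom = commutator U :=
    (Subgroup.characteristic_iff_map_eq.1 inferInstance) φ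
  rw [← h2]
  exact ⟨v, hv, rfl⟩

theorem MinAut.commutator_central (h : MinAut p φ) {w : U} (hw : w ∈ commutator U) (u : U) :
    u * w = w * u := by
  have htop : centralizer (commutator U : Set U) = ⊤ := by
    apply h.eq_top'
    · intro v hv
      rw [mem_centralizer_iff] at hv ⊢
      intro d hd
      have h1 := hv d hd
      have h2 := congrArg φ h1
      rw [map_mul, map_mul, h.fix_commutator hd] at h2
      exact h2
    · intro v
      rw [mem_centralizer_iff]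
      intro d hd
      have h1 : v * d * v⁻¹ ∈ commutator U := (inferInstance : (commutator U).Normal).conj_mem d hd v
      have h2 := h.fix_commutator h1
      rw [map_mul, map_mul, map_inv, h.fix_commutator hd] at h2
      -- `φ v * d * (φ v)⁻¹ = v * d * v⁻¹`
      have := congrArg (fun t => v⁻¹ * t * φ v) h2
      have e1 : v⁻¹ * (φ v * d * (φ v)⁻¹) * φ v = v⁻¹ * φ v * d := by group
      have e2 : v⁻¹ * (v * d * v⁻¹) * φ v = d * (v⁻¹ * φ v) := by group
      rw [e1, e2] at this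
      exact this.symm
  have hu : u ∈ centralizer (commutator U : Set U) := by rw [htop]; trivial
  exact ((mem_centralizer_iff.1 hu) w hw).symm

omit [Finite U] hp in
theorem comm_mem (a b : U) : a * b * a⁻¹ * b⁻¹ ∈ commutator U := by
  rw [_root_.commutator_def, ← commutatorElement_def]
  exact Subgroup.commutator_mem_commutator (mem_top _) (mem_top _)

end general

section two
variable {U : Type*} [Group U] [Finite U] {φ : MulAut U}

theorem MinAut.fix_sq (h : MinAut 2 φ) (u : U) : φ (u ^ 2) = u ^ 2 := by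
  haveI : Fact (Nat.Prime 2) := ⟨Nat.prime_two⟩
  haveI : Nontrivial U := by
    obtain ⟨u, hu⟩ := h.hne
    exact ⟨⟨φ u, u, hu⟩⟩
  obtain ⟨n, hn⟩ := IsPGroup.iff_card.1 h.hU
  have hn0 : n ≠ 0 := by
    rintro rfl
    rw [pow_zero] at hn
    exact (Finite.one_lt_card (α := U)).ne' hn
  obtain ⟨k, rfl⟩ := Nat.exists_eq_succ_of_ne_zero hn0
  obtain ⟨M, hM⟩ := Sylow.exists_subgroup_card_pow_prime (G := U) 2 (n := k)
    (by rw [hn]; exact pow_dvd_pow 2 (Nat.le_succ k))
  have hidx : M.index = 2 := by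
    have := M.card_mul_index
    rw [hM, hn, pow_succ] at this
    exact Nat.eq_of_mul_eq_mul_left (pow_pos two_pos k) this
  set W : Subgroup U := closure (Set.range (fun v : U => v ^ 2)) with hW
  have hWM : W ≤ M := by
    rw [hW, closure_le]
    rintro _ ⟨v, rfl⟩
    exact Subgroup.sq_mem_of_index_two hidx v
  have hWtop : W ≠ ⊤ := by
    intro h0
    rw [h0, top_le_iff] at hWM
    rw [hWM, index_top] at hidx
    exact absurd hidx (by norm_num)
  refine h.hmin W hWtop ?_ _ (Subgroup.subset_closure ⟨u, rfl⟩)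
  intro w hw
  induction hw using Subgroup.closure_induction with
  | mem w hw =>
    obtain ⟨v, rfl⟩ := hw
    apply Subgroup.subset_closure
    exact ⟨φ v, (map_pow φ v 2).symm⟩
  | one => rw [map_one]; exact one_mem _
  | mul a b _ _ iha ihb => rw [map_mul]; exact mul_mem iha ihb
  | inv a _ iha => rw [map_inv]; exact inv_mem iha

/-- a non-fixed real element. -/
theorem MinAut.exists_real (h : MinAut 2 φ) : ∃ x u : U, φ x ≠ x ∧ u * x * u⁻¹ = x⁻¹ := by
  haveI : Fact (Nat.Prime 2) := ⟨Nat.prime_two⟩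
  obtain ⟨u₀, hu₀⟩ := h.hne
  set x := u₀⁻¹ * φ u₀ with hx
  have hφx : φ x ≠ x := fun h0 => hu₀ (h.eq_of_fix u₀ h0)
  have hcen := fun {w : U} (hw : w ∈ commutator U) (u : U) => h.commutator_central hw u
  have hx2 : x ^ 2 ∈ commutator U := by
    have h1 : (φ u₀) ^ 2 = u₀ ^ 2 := by rw [← map_pow, h.fix_sq]
    have h2 : x ^ 2 = u₀⁻¹ * (φ u₀ * u₀⁻¹ * (φ u₀)⁻¹ * u₀⁻¹⁻¹) * u₀⁻¹ * (φ u₀) ^ 2 := by
      rw [hx, pow_two, pow_two]; group
    rw [h2, h1]
    have h3 : u₀⁻¹ * (φ u₀ * u₀⁻¹ * (φ u₀)⁻¹ * u₀⁻¹⁻¹) * u₀⁻¹ * u₀ ^ 2 =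
        u₀⁻¹ * (φ u₀ * u₀⁻¹ * (φ u₀)⁻¹ * u₀⁻¹⁻¹) * u₀⁻¹⁻¹ := by rw [pow_two]; group
    rw [h3]
    exact (inferInstance : (commutator U).Normal).conj_mem _ (comm_mem _ _) _
  -- the commutator map with `x`
  let K : Subgroup U :=
    { carrier := {w | ∃ u : U, w = x * u * x⁻¹ * u⁻¹}
      one_mem' := ⟨1, by group⟩
      mul_mem' := by
        rintro _ _ ⟨a, rfl⟩ ⟨b, rfl⟩
        refine ⟨a * b, ?_⟩
        have h1 := hcen (comm_mem x b) a
        calc x * a * x⁻¹ * a⁻¹ * (x * b * x⁻¹ * b⁻¹)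
            = x * a * x⁻¹ * a⁻¹ * ((x * b * x⁻¹ * b⁻¹) * a) * a⁻¹ := by group
          _ = x * a * x⁻¹ * a⁻¹ * (a * (x * b * x⁻¹ * b⁻¹)) * a⁻¹ := by rw [h1]
          _ = x * (a * b) * x⁻¹ * (a * b)⁻¹ := by group
      inv_mem' := by
        rintro _ ⟨a, rfl⟩
        refine ⟨a⁻¹, ?_⟩
        have h1 := hcen (comm_mem x a) a⁻¹
        calc (x * a * x⁻¹ * a⁻¹)⁻¹ = a * x * a⁻¹ * x⁻¹ := by group
          _ = (a⁻¹ * (x * a * x⁻¹ * a⁻¹) * a)⁻¹ * 1 := by
              rw [h1]; group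
          _ = x * a⁻¹ * x⁻¹ * a⁻¹⁻¹ := by group }
  have hK : ∀ w, w ∈ K ↔ ∃ u : U, w = x * u * x⁻¹ * u⁻¹ := fun w => Iff.rfl
  let R : Subgroup U :=
    { carrier := {v | ∀ u : U, v * u * v⁻¹ * u⁻¹ ∈ K}
      one_mem' := by
        intro u
        have : (1 : U) * u * 1⁻¹ * u⁻¹ = 1 := by group
        rw [this]; exact K.one_mem
      mul_mem' := by
        intro a b ha hb u
        have h1 := hcen (comm_mem b u) a
        have : a * b * u * (a * b)⁻¹ * u⁻¹ = (b * u * b⁻¹ * u⁻¹) * (a * u * a⁻¹ * u⁻¹) := by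
          calc a * b * u * (a * b)⁻¹ * u⁻¹ = (a * (b * u * b⁻¹ * u⁻¹)) * u * a⁻¹ * u⁻¹ := by group
            _ = ((b * u * b⁻¹ * u⁻¹) * a) * u * a⁻¹ * u⁻¹ := by rw [h1]
            _ = _ := by group
        rw [this]
        exact K.mul_mem (hb u) (ha u)
      inv_mem' := by
        intro a ha u
        have h1 := hcen (comm_mem a u) a⁻¹
        have : a⁻¹ * u * a⁻¹⁻¹ * u⁻¹ = (a * u * a⁻¹ * u⁻¹)⁻¹ := by
          calc a⁻¹ * u * a⁻¹⁻¹ * u⁻¹ = (a⁻¹ * (a * u * a⁻¹ * u⁻¹) * a)⁻¹ := by group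
            _ = ((a * u * a⁻¹ * u⁻¹) * a⁻¹ * a)⁻¹ := by rw [h1]
            _ = _ := by group
        rw [this]
        exact K.inv_mem (ha u) }
  have hR : ∀ v, v ∈ R ↔ ∀ u : U, v * u * v⁻¹ * u⁻¹ ∈ K := fun v => Iff.rfl
  have hRtop : R = ⊤ := by
    apply h.eq_top R ?_ (x := x) ?_ hφx
    · intro v hv
      rw [hR] at hv ⊢
      intro u
      have h1 := hv (φ⁻¹ u)
      have h2 := h.fix_commutator (comm_mem v (φ⁻¹ u))
      rw [map_mul, map_mul, map_mul, map_inv, map_inv, MulAut.apply_inv_self] at h2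
      rw [h2]
      exact h1
    · rw [hR]
      intro u
      exact ⟨u, rfl⟩
  have hle : commutator U ≤ K := by
    rw [_root_.commutator_def, Subgroup.commutator_le]
    intro a _ b _
    have ha : a ∈ R := by rw [hRtop]; trivial
    rw [commutatorElement_def]
    exact (hR a).1 ha b
  obtain ⟨u, hu⟩ := (hK _).1 (hle hx2)
  refine ⟨x, u, hφx, ?_⟩
  -- `x^2 = x u x⁻¹ u⁻¹`
  have h1 : x = u * x⁻¹ * u⁻¹ := by
    have := congrArg (fun t => x⁻¹ * t) hu
    have e1 : x⁻¹ * x ^ 2 = x := by rw [pow_two]; group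
    have e2 : x⁻¹ * (x * u * x⁻¹ * u⁻¹) = u * x⁻¹ * u⁻¹ := by group
    rw [e1, e2] at this
    exact this
  have h2 : x⁻¹ = u * x * u⁻¹ := by
    conv_lhs => rw [h1]
    group
  exact h2.symm

end two

/-- minimal counterexample to Frobenius' hypothesis. -/
theorem exists_minAut {G : Type*} [Group G] [Finite G] {p : ℕ} (h : ¬ FrobHyp p G) :
    ∃ (U : Subgroup G) (g : G) (hg : g ∈ normalizer (U : Set G)),
      (orderOf g).Coprime p ∧ MinAut p (U.normalizerMonoidHom ⟨g, hg⟩) := by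
  classical
  let S : Set (Subgroup G) := {Q | IsPGroup p Q ∧ ∃ g ∈ normalizer (Q : Set G),
    (orderOf g).Coprime p ∧ g ∉ centralizer (Q : Set G)}
  have hS : S.Nonempty := by
    unfold FrobHyp at h
    push Not at h
    obtain ⟨Q, hQ, g, hg, ho, hc⟩ := h
    exact ⟨Q, hQ, g, hg, ho, hc⟩
  obtain ⟨U, hUS, hUmin⟩ := WellFounded.has_min (wellFounded_lt (α := Subgroup G)) S hS
  obtain ⟨hU, g, hg, ho, hc⟩ := hUS
  refine ⟨U, g, hg, ho, hU, ⟨orderOf g, ho, ?_⟩, ?_, ?_⟩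
  · rw [← map_pow]
    have : (⟨g, hg⟩ : normalizer (U : Set G)) ^ orderOf g = 1 := by
      ext
      simp [pow_orderOf_eq_one]
    rw [this, map_one]
  · rw [mem_centralizer_iff] at hc
    push Not at hc
    obtain ⟨u, hu, hne⟩ := hc
    refine ⟨⟨u, hu⟩, ?_⟩
    intro h0
    apply hne
    have h1 : g * u * g⁻¹ = u := congrArg Subtype.val h0
    have := congrArg (fun t => t * g) h1
    simpa using this.symm
  · intro W hW hinv w hw
    have hlt : W.map U.subtype < U := by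
      refine lt_of_le_of_ne (map_subtype_le W) ?_
      intro h0
      apply hW
      rw [eq_top_iff]
      intro u _
      have hu : (u : G) ∈ W.map U.subtype := by rw [h0]; exact u.2
      obtain ⟨u', hu', e⟩ := hu
      have : u' = u := Subtype.ext e
      rwa [← this]
    have hgW : g ∈ normalizer ((W.map U.subtype : Subgroup G) : Set G) := by
      apply Cfsg.Agent.Lib.Helper7_Max.mem_normalizer_of_conj_mem
      rintro _ ⟨d, hd, rfl⟩
      exact ⟨_, hinv d hd, rfl⟩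
    have hcW : g ∈ centralizer ((W.map U.subtype : Subgroup G) : Set G) := by
      by_contra hcon
      exact hUmin (W.map U.subtype) ⟨hU.to_le (map_subtype_le W), g, hgW, ho, hcon⟩ hlt
    have h1 := (mem_centralizer_iff.1 hcW) (w : G) ⟨w, hw, rfl⟩
    ext
    change g * (w : G) * g⁻¹ = w
    rw [← h1]; group

end Cfsg.Agent.Lib.helper6_MinAut
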