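import Mathlib

set_option autoImplicit false

namespace Cfsg.Agent.Lib.helper6_PrimeGraph

/-- Extensions by an elementary abelian 2-group on which elements with nontrivial fixed points
act as involutions do not change adjacency in the prime graph. -/
theorem adj_iff_of_ext {S H : Type*} [Group S] [Group H] [Finite H] (ρ : H →* S) (ι : S →* H)
    (hι : Function.Injective ι)
    (h2 : ∀ n ∈ ρ.ker, n ^ 2 = 1)
    (hfix : ∀ x : H, ∀ n ∈ ρ.ker, n ≠ 1 → x * n = n * x → (ρ x) ^ 2 = 1)
    (p q : ℕ) (hp : p.Prime) (hq : q.Prime) (hpq : p ≠ q) :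
    (∃ g : S, orderOf g = p * q) ↔ (∃ g : H, orderOf g = p * q) := by
  constructor
  · rintro ⟨g, hg⟩
    exact ⟨ι g, by rw [orderOf_injective ι hι, hg]⟩
  · rintro ⟨x, hx⟩
    refine ⟨ρ x, ?_⟩
    set m := orderOf (ρ x) with hm
    have hmdvd : m ∣ p * q := by rw [← hx]; exact orderOf_map_dvd ρ x
    have hy : x ^ m ∈ ρ.ker := by
      rw [MonoidHom.mem_ker, map_pow, hm, pow_orderOf_eq_one]
    by_cases hy1 : x ^ m = 1
    · have : p * q ∣ m := by rw [← hx]; exact orderOf_dvd_of_pow_eq_one hy1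
      exact Nat.dvd_antisymm hmdvd this
    · exfalso
      have hcomm : x * x ^ m = x ^ m * x := by rw [← pow_succ, ← pow_succ']
      have h3 := hfix x _ hy hy1 hcomm
      have h4 : m ∣ 2 := orderOf_dvd_of_pow_eq_one h3
      have h5 : x ^ (m * 2) = 1 := by rw [pow_mul]; exact h2 _ hy
      have h6 : p * q ∣ m * 2 := by rw [← hx]; exact orderOf_dvd_of_pow_eq_one h5
      have h7 : p * q ∣ 2 * 2 := h6.trans (Nat.mul_dvd_mul_right h4 2)
      have hp2 : p ∣ 2 * 2 := (Dvd.intro _ rfl).trans h7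
      have hq2 : q ∣ 2 * 2 := (Dvd.intro_left _ rfl).trans h7
      have hp2' : p = 2 := by
        rcases (Nat.Prime.dvd_mul hp).1 hp2 with h | h <;>
          exact (Nat.prime_dvd_prime_iff_eq hp Nat.prime_two).1 h
      have hq2' : q = 2 := by
        rcases (Nat.Prime.dvd_mul hq).1 hq2 with h | h <;>
          exact (Nat.prime_dvd_prime_iff_eq hq Nat.prime_two).1 h
      exact hpq (hp2'.trans hq2'.symm)

end Cfsg.Agent.Lib.helper6_PrimeGraph
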