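import Mathlib
import Cfsg.Agent.Lib.helper6_Sylow

/-!
# Involutions in groups whose Sylow 2-subgroups have a unique involution
-/

set_option autoImplicit false

namespace Cfsg.Agent.Lib.helper6_QuatInv

open Subgroup Cfsg.Agent.Lib.helper6_Sylow

variable {G : Type*} [Group G] [Finite G] (S : Sylow 2 G) (t : G)

theorem orderOf_conj' (k a : G) : orderOf (k * a * k⁻¹) = orderOf a :=
  orderOf_injective (MulAut.conj k).toMonoidHom (MulAut.conj k).injective a

theorem eq_of_mem_two_subgroup (hS : ∀ s ∈ (S : Subgroup G), orderOf s = 2 → s = t)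
    (T : Subgroup G) (hT : IsPGroup 2 T) {a b : G} (ha : a ∈ T) (hb : b ∈ T)
    (oa : orderOf a = 2) (ob : orderOf b = 2) : a = b := by
  obtain ⟨Q, hQ⟩ := hT.exists_le_sylow
  obtain ⟨k, hk⟩ := sylow_conj S Q
  have h1 := hS _ (hk a (hQ ha)) ((orderOf_conj' k a).trans oa)
  have h2 := hS _ (hk b (hQ hb)) ((orderOf_conj' k b).trans ob)
  have h3 : k * a * k⁻¹ = k * b * k⁻¹ := h1.trans h2.symm
  simpa using h3

theorem isPGroup_zpowers_invol {a : G} (oa : orderOf a = 2) : IsPGroup 2 (zpowers a) :=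
  IsPGroup.of_card (n := 1) (by rw [Nat.card_zpowers, oa, pow_one])

theorem invol_conj (hS : ∀ s ∈ (S : Subgroup G), orderOf s = 2 → s = t)
    {a : G} (oa : orderOf a = 2) : ∃ k : G, k * a * k⁻¹ = t := by
  obtain ⟨Q, hQ⟩ := (isPGroup_zpowers_invol oa).exists_le_sylow
  obtain ⟨k, hk⟩ := sylow_conj S Q
  exact ⟨k, hS _ (hk a (hQ (mem_zpowers a))) ((orderOf_conj' k a).trans oa)⟩

theorem commuting_invol_eq (hS : ∀ s ∈ (S : Subgroup G), orderOf s = 2 → s = t)
    {a z : G} (oa : orderOf a = 2) (oz : orderOf z = 2) (hc : Commute a z) : a = z := by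
  have hn : zpowers a ≤ normalizer ((zpowers z : Subgroup G) : Set G) := by
    rw [zpowers_le]
    rw [Subgroup.mem_normalizer_iff]
    intro d
    constructor
    · intro hd
      obtain ⟨j, rfl⟩ := mem_zpowers_iff.1 hd
      have : a * z ^ j * a⁻¹ = z ^ j := by
        rw [mul_inv_eq_iff_eq_mul]; exact (hc.zpow_right j).eq
      rw [this]; exact hd
    · intro hd
      obtain ⟨j, hj⟩ := mem_zpowers_iff.1 hd
      have : d = z ^ j := by
        have h1 : d = a⁻¹ * (a * d * a⁻¹) * a := by group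
        rw [h1, ← hj]
        rw [mul_assoc, ← (hc.zpow_right j).eq]; group
      rw [this]; exact zpow_mem (mem_zpowers z) j
  have hT := IsPGroup.to_sup_of_normal_right' (isPGroup_zpowers_invol oa)
    (isPGroup_zpowers_invol oz) hn
  exact eq_of_mem_two_subgroup S t hS _ hT
    ((le_sup_left : zpowers a ≤ _) (mem_zpowers a)) ((le_sup_right : zpowers z ≤ _) (mem_zpowers z))
    oa oz

theorem invol_mul_self {a : G} (oa : orderOf a = 2) : a * a = 1 := by
  rw [← pow_two, ← oa, pow_orderOf_eq_one]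

theorem invol_inv {a : G} (oa : orderOf a = 2) : a⁻¹ = a :=
  inv_eq_of_mul_eq_one_left (invol_mul_self oa)

/-- The product of two involutions has odd order. -/
theorem odd_orderOf_mul_invol (hS : ∀ s ∈ (S : Subgroup G), orderOf s = 2 → s = t)
    {a b : G} (oa : orderOf a = 2) (ob : orderOf b = 2) : ¬ 2 ∣ orderOf (a * b) := by
  rintro ⟨r, hr⟩
  set w := a * b with hw
  have hpos : 0 < orderOf w := orderOf_pos w
  have hr0 : 0 < r := by
    rcases Nat.eq_zero_or_pos r with h | h
    · rw [h] at hr; omega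
    · exact h
  have oz : orderOf (w ^ r) = 2 := by
    rw [orderOf_pow' w hr0.ne', hr, Nat.gcd_eq_right (Dvd.intro_left 2 rfl)]
    exact Nat.mul_div_cancel _ hr0
  have hinv : a * w * a⁻¹ = w⁻¹ := by
    rw [hw, mul_inv_rev, invol_inv oa, invol_inv ob, ← mul_assoc, invol_mul_self oa, one_mul]
  have hc : Commute a (w ^ r) := by
    have h1 : a * w ^ r * a⁻¹ = (w ^ r)⁻¹ := by
      rw [← conj_pow, hinv, inv_pow]
    rw [invol_inv oz] at h1
    exact mul_inv_eq_iff_eq_mul.1 h1
  have haz := commuting_invol_eq S t hS oa oz hc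
  have hcw : Commute a w := by
    rw [haz]
    exact (Commute.refl w).pow_left r
  have hcb : Commute a b := by
    have h1 : b = a * w := by rw [hw, ← mul_assoc, invol_mul_self oa, one_mul]
    rw [h1]
    exact (Commute.refl a).mul_right hcw
  have hab := commuting_invol_eq S t hS oa ob hcb
  have hw1 : w = 1 := by rw [hw, ← hab, invol_mul_self oa]
  rw [hw1, orderOf_one] at hr
  omega

end Cfsg.Agent.Lib.helper6_QuatInv
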