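import Mathlib

set_option autoImplicit false

namespace Cfsg.Agent.Lib.helper6_SL2Mod

open Matrix

variable (F : Type*) [Field F]

/-- The action of `SL(2,F)` on `k` copies of the natural module, written multiplicatively. -/
noncomputable def act (k : ℕ) :
    Matrix.SpecialLinearGroup (Fin 2) F →* MulAut (Multiplicative (Fin k → Fin 2 → F)) where
  toFun g := AddEquiv.toMultiplicative
    { toFun := fun w i => (g : Matrix (Fin 2) (Fin 2) F) *ᵥ w i
      invFun := fun w i => ((g⁻¹ : Matrix.SpecialLinearGroup (Fin 2) F) : Matrix (Fin 2) (Fin 2) F) *ᵥ w i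
      left_inv := by
        intro w
        funext i
        simp only [mulVec_mulVec, ← Matrix.SpecialLinearGroup.coe_mul, inv_mul_cancel,
          Matrix.SpecialLinearGroup.coe_one, one_mulVec]
      right_inv := by
        intro w
        funext i
        simp only [mulVec_mulVec, ← Matrix.SpecialLinearGroup.coe_mul, mul_inv_cancel,
          Matrix.SpecialLinearGroup.coe_one, one_mulVec]
      map_add' := by
        intro v w
        funext i
        simp only [Pi.add_apply, mulVec_add] }
  map_one' := by
    refine MulEquiv.ext fun w => ?_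
    apply Multiplicative.toAdd.injective
    funext i
    show ((1 : Matrix.SpecialLinearGroup (Fin 2) F) : Matrix (Fin 2) (Fin 2) F) *ᵥ
      (Multiplicative.toAdd w i) = Multiplicative.toAdd w i
    rw [Matrix.SpecialLinearGroup.coe_one, one_mulVec]
  map_mul' := by
    intro g h
    refine MulEquiv.ext fun w => ?_
    apply Multiplicative.toAdd.injective
    funext i
    show ((g * h : Matrix.SpecialLinearGroup (Fin 2) F) : Matrix (Fin 2) (Fin 2) F) *ᵥ
      (Multiplicative.toAdd w i) = (g : Matrix (Fin 2) (Fin 2) F) *ᵥ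
        ((h : Matrix (Fin 2) (Fin 2) F) *ᵥ (Multiplicative.toAdd w i))
    rw [Matrix.SpecialLinearGroup.coe_mul, mulVec_mulVec]

theorem act_apply (k : ℕ) (g : Matrix.SpecialLinearGroup (Fin 2) F)
    (w : Multiplicative (Fin k → Fin 2 → F)) (i : Fin k) :
    Multiplicative.toAdd (act F k g w) i
      = (g : Matrix (Fin 2) (Fin 2) F) *ᵥ (Multiplicative.toAdd w i) := rfl

variable {F}

/-- In characteristic 2 an element of `SL(2,F)` fixing a nonzero vector is an involution. -/
theorem sq_eq_one_of_fix [CharP F 2] (g : Matrix.SpecialLinearGroup (Fin 2) F) (w : Fin 2 → F)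
    (hw : w ≠ 0) (hg : (g : Matrix (Fin 2) (Fin 2) F) *ᵥ w = w) : g ^ 2 = 1 := by
  have hdet : (g : Matrix (Fin 2) (Fin 2) F) 0 0 * (g : Matrix (Fin 2) (Fin 2) F) 1 1
      - (g : Matrix (Fin 2) (Fin 2) F) 0 1 * (g : Matrix (Fin 2) (Fin 2) F) 1 0 = 1 := by
    have := g.det_coe
    rwa [det_fin_two] at this
  have e0 := congrFun hg 0
  have e1 := congrFun hg 1
  simp only [mulVec, dotProduct, Fin.sum_univ_two] at e0 e1
  set a := (g : Matrix (Fin 2) (Fin 2) F) 0 0
  set b := (g : Matrix (Fin 2) (Fin 2) F) 0 1
  set c := (g : Matrix (Fin 2) (Fin 2) F) 1 0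
  set d := (g : Matrix (Fin 2) (Fin 2) F) 1 1
  have h2 : (2 : F) = 0 := CharP.cast_eq_zero F 2
  have htr : a + d = 0 := by
    have hne : w 0 ≠ 0 ∨ w 1 ≠ 0 := by
      by_contra hcon
      push Not at hcon
      apply hw
      funext i
      fin_cases i
      · exact hcon.1
      · exact hcon.2
    rcases hne with h | h
    · have : (a + d) * w 0 = 0 := by
        linear_combination (-(d - 1)) * e0 + b * e1 + (w 0) * hdet + (w 0) * h2
      exact (mul_eq_zero.1 this).resolve_right h
    · have : (a + d) * w 1 = 0 := by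
        linear_combination (-(a - 1)) * e1 + c * e0 + (w 1) * hdet + (w 1) * h2
      exact (mul_eq_zero.1 this).resolve_right h
  apply Matrix.SpecialLinearGroup.ext
  intro i j
  rw [pow_two, Matrix.SpecialLinearGroup.coe_mul, Matrix.SpecialLinearGroup.coe_one, mul_apply,
    Fin.sum_univ_two]
  fin_cases i <;> fin_cases j <;> simp only [Fin.zero_eta, Fin.mk_one, one_apply_eq, ne_eq,
    zero_ne_one, one_ne_zero, not_false_eq_true, one_apply_ne, Fin.isValue]
  · show a * a + b * c = 1
    linear_combination a * htr - hdet - h2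
  · show a * b + b * d = 0
    linear_combination b * htr
  · show c * a + d * c = 0
    linear_combination c * htr
  · show c * b + d * d = 1
    linear_combination d * htr - hdet - h2

end Cfsg.Agent.Lib.helper6_SL2Mod
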