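import Mathlib
import Cfsg.Agent.Lib.Helper3_PComp
import Cfsg.Agent.Lib.Helper4_Core
import Cfsg.Agent.Lib.Helper7_Max

/-!
# Groups with a self-centralizing element of prime order
-/

set_option autoImplicit false

namespace Cfsg.Agent.Lib.helper6_SelfCent
open Subgroup
open scoped commutatorElement

universe u
variable {G : Type u} [Group G]

/-- `x` has prime order `p` and `C_G(x) = ⟨x⟩`. -/
structure SC (p : ℕ) (x : G) : Prop where
  hp : p.Prime
  hx : orderOf x = p
  hC : centralizer ({x} : Set G) = zpowers x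

variable {p : ℕ} {x : G}

theorem SC.card (h : SC p x) : Nat.card (zpowers x) = p := by
  rw [Nat.card_zpowers, h.hx]

theorem SC.comm_iff (h : SC p x) (g : G) : g * x = x * g ↔ g ∈ zpowers x := by
  rw [← h.hC, mem_centralizer_singleton_iff]

theorem SC.ne_one (h : SC p x) : x ≠ 1 := by
  intro h1
  have := h.hx
  rw [h1, orderOf_one] at this
  exact h.hp.one_lt.ne this

variable [Finite G]

theorem SC.zpowers_eq (h : SC p x) {z : G} (hz : z ∈ zpowers x) (h1 : z ≠ 1) :
    zpowers z = zpowers x := by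
  have hle : zpowers z ≤ zpowers x := by rwa [zpowers_le]
  apply Subgroup.eq_of_le_of_card_ge hle
  have hd := Subgroup.card_dvd_of_le hle
  rw [h.card] at hd ⊢
  rcases (Nat.dvd_prime h.hp).1 hd with h2 | h2
  · exfalso
    rw [Nat.card_zpowers, orderOf_eq_one_iff] at h2
    exact h1 h2
  · exact h2.ge

theorem SC.of_mem (h : SC p x) {z : G} (hz : z ∈ zpowers x) (h1 : z ≠ 1) : SC p z := by
  have he := h.zpowers_eq hz h1
  refine ⟨h.hp, ?_, ?_⟩
  · rw [← Nat.card_zpowers, he, h.card]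
  · rw [he]
    ext g
    rw [mem_centralizer_singleton_iff]
    constructor
    · intro hg
      rw [← h.comm_iff]
      have hx : x ∈ zpowers z := by rw [he]; exact mem_zpowers x
      obtain ⟨k, rfl⟩ := hx
      exact ((Commute.zpow_right (show Commute g z from hg) k)).eq
    · intro hg
      obtain ⟨k, rfl⟩ := hg
      obtain ⟨l, rfl⟩ := hz
      rw [← zpow_add, ← zpow_add, add_comm]

theorem SC.isPGroup (h : SC p x) : IsPGroup p (zpowers x) :=
  IsPGroup.of_card (n := 1) (by rw [h.card, pow_one])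

theorem SC.exists_sylow (h : SC p x) : ∃ P : Sylow p G, (P : Subgroup G) = zpowers x := by
  haveI := Fact.mk h.hp
  obtain ⟨Q, hQ⟩ := h.isPGroup.exists_le_sylow
  refine ⟨Q, le_antisymm ?_ hQ⟩
  have hxQ : x ∈ (Q : Subgroup G) := hQ (mem_zpowers x)
  haveI : Nontrivial (Q : Subgroup G) := ⟨⟨⟨x, hxQ⟩, 1, fun h1 => h.ne_one (congrArg Subtype.val h1)⟩⟩
  haveI := Q.2.center_nontrivial
  obtain ⟨z, hz⟩ := exists_ne (1 : center (Q : Subgroup G))
  have hz1 : ((z : (Q : Subgroup G)) : G) ≠ 1 := by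
    intro h1
    apply hz
    ext
    exact h1
  have hzc : ∀ q : (Q : Subgroup G), q * z = z * q := fun q => (mem_center_iff.1 z.2 q)
  have hzx : ((z : (Q : Subgroup G)) : G) ∈ zpowers x := by
    rw [← h.comm_iff]
    exact (congrArg Subtype.val (hzc ⟨x, hxQ⟩)).symm
  have he := h.zpowers_eq hzx hz1
  have hx : x ∈ zpowers ((z : (Q : Subgroup G)) : G) := by rw [he]; exact mem_zpowers x
  obtain ⟨k, hk⟩ := hx
  intro q hq
  rw [← h.comm_iff, ← hk]
  have : Commute q ((z : (Q : Subgroup G)) : G) := congrArg Subtype.val (hzc ⟨q, hq⟩)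
  exact (this.zpow_right k).eq

/-- every element of order `p` is conjugate into `⟨x⟩`. -/
theorem SC.exists_conj (h : SC p x) {y : G} (hy : orderOf y = p) :
    ∃ g : G, g * y * g⁻¹ ∈ zpowers x := by
  haveI := Fact.mk h.hp
  obtain ⟨P, hP⟩ := h.exists_sylow
  have hyp : IsPGroup p (zpowers y) :=
    IsPGroup.of_card (n := 1) (by rw [Nat.card_zpowers, hy, pow_one])
  obtain ⟨Q, hQ⟩ := hyp.exists_le_sylow
  obtain ⟨k, hk⟩ := MulAction.exists_smul_eq G Q P
  refine ⟨k, ?_⟩
  rw [← hP, ← hk, Sylow.coe_subgroup_smul]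
  exact ⟨y, hQ (mem_zpowers y), rfl⟩

theorem SC.mem_normalizer_iff (_h : SC p x) (n : G) :
    n ∈ normalizer (zpowers x : Set G) ↔ n * x * n⁻¹ ∈ zpowers x := by
  constructor
  · intro hn
    exact (Subgroup.mem_normalizer_iff.1 hn x).1 (mem_zpowers x)
  · intro hn
    apply Cfsg.Agent.Lib.Helper7_Max.mem_normalizer_of_conj_mem
    rintro d ⟨k, rfl⟩
    have : n * x ^ k * n⁻¹ = (n * x * n⁻¹) ^ k := by rw [conj_zpow]
    simp only
    rw [this]
    exact zpow_mem hn k

theorem SC.commutator_normalizer (h : SC p x) {a b : G}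
    (ha : a ∈ normalizer (zpowers x : Set G)) (hb : b ∈ normalizer (zpowers x : Set G)) :
    ⁅a, b⁆ ∈ zpowers x := by
  obtain ⟨i, hi⟩ := (h.mem_normalizer_iff a).1 ha
  obtain ⟨j, hj⟩ := (h.mem_normalizer_iff b).1 hb
  simp only at hi hj
  have h1 : (a * b) * x * (a * b)⁻¹ = x ^ (i * j) := by
    have : (a * b) * x * (a * b)⁻¹ = a * (b * x * b⁻¹) * a⁻¹ := by group
    rw [this, ← hj, ← conj_zpow, ← hi, ← zpow_mul]
  have h2 : (b * a) * x * (b * a)⁻¹ = x ^ (i * j) := by
    have : (b * a) * x * (b * a)⁻¹ = b * (a * x * a⁻¹) * b⁻¹ := by group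
    rw [this, ← hi, ← conj_zpow, ← hj, ← zpow_mul, mul_comm]
  rw [← h.comm_iff, commutatorElement_def]
  have h3 : (a * b) * x * (a * b)⁻¹ = (b * a) * x * (b * a)⁻¹ := h1.trans h2.symm
  have h4 : (b * a)⁻¹ * (a * b) * x = x * ((b * a)⁻¹ * (a * b)) := by
    have := congrArg (fun w => (b * a)⁻¹ * w * (a * b)) h3
    have e1 : (b * a)⁻¹ * ((a * b) * x * (a * b)⁻¹) * (a * b) = (b * a)⁻¹ * (a * b) * x := by group
    have e2 : (b * a)⁻¹ * ((b * a) * x * (b * a)⁻¹) * (a * b) = x * ((b * a)⁻¹ * (a * b)) := by group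
    rw [e1, e2] at this
    exact this
  -- `(ba)⁻¹(ab) ∈ ⟨x⟩`, and `[a,b] = (ba)·that·(ba)⁻¹`
  have h5 : (b * a)⁻¹ * (a * b) ∈ zpowers x := (h.comm_iff _).1 h4
  have h6 : a * b * a⁻¹ * b⁻¹ = (b * a) * ((b * a)⁻¹ * (a * b)) * (b * a)⁻¹ := by group
  have h7 : a * b * a⁻¹ * b⁻¹ ∈ zpowers x := by
    rw [h6]
    exact (Subgroup.mem_normalizer_iff.1 (mul_mem hb ha) _).1 h5
  exact (h.comm_iff _).2 h7


theorem SC.subgroup (h : SC p x) (H : Subgroup G) (hxH : x ∈ H) : SC p (⟨x, hxH⟩ : H) := by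
  refine ⟨h.hp, ?_, ?_⟩
  · rw [← h.hx, ← Subgroup.orderOf_coe]
  · ext g
    rw [mem_centralizer_singleton_iff]
    constructor
    · intro hg
      have h1 : (g : G) * x = x * g := congrArg Subtype.val hg
      obtain ⟨k, hk⟩ := (h.comm_iff _).1 h1
      exact ⟨k, Subtype.ext (by simpa using hk)⟩
    · rintro ⟨k, rfl⟩
      simp only
      rw [← zpow_add_one, ← zpow_one_add, add_comm]

theorem SC.mem_of_dvd (h : SC p x) (S : Subgroup G) [S.Normal] (hd : p ∣ Nat.card S) : x ∈ S := by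
  haveI := Fact.mk h.hp
  obtain ⟨y, hy⟩ := exists_prime_orderOf_dvd_card' (G := S) p hd
  have hy' : orderOf (y : G) = p := by rw [Subgroup.orderOf_coe, hy]
  obtain ⟨g, hg⟩ := h.exists_conj hy'
  have h1 : g * (y : G) * g⁻¹ ≠ 1 := by
    intro h1
    have h2 : (y : G) = 1 := by
      have := congrArg (fun w => g⁻¹ * w * g) h1
      simpa [mul_assoc] using this
    rw [h2, orderOf_one] at hy'
    exact h.hp.one_lt.ne hy'
  have he := h.zpowers_eq hg h1
  have h2 : zpowers (g * (y : G) * g⁻¹) ≤ S := by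
    rw [zpowers_le]
    exact ‹S.Normal›.conj_mem _ y.2 g
  rw [he] at h2
  exact h2 (mem_zpowers x)

theorem SC.eq_one_of_mem (h : SC p x) (S : Subgroup G) (hd : ¬ p ∣ Nat.card S) {z : G}
    (hz : z ∈ zpowers x) (hzS : z ∈ S) : z = 1 := by
  by_contra h1
  have h2 := (h.of_mem hz h1).hx
  apply hd
  rw [← h2]
  have := orderOf_dvd_natCard (⟨z, hzS⟩ : S)
  rwa [← Subgroup.orderOf_coe] at this

theorem SC.frattini (h : SC p x) (S : Subgroup G) [S.Normal] (hxS : x ∈ S) (g : G) :
    ∃ s ∈ S, ∃ n ∈ normalizer (zpowers x : Set G), g = s * n := by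
  have hS := h.subgroup S hxS
  have hm : g * x * g⁻¹ ∈ S := ‹S.Normal›.conj_mem _ hxS g
  have ho : orderOf (⟨g * x * g⁻¹, hm⟩ : S) = p := by
    rw [← Subgroup.orderOf_coe]
    simp only
    rw [← h.hx]
    exact (MulAut.conj g).orderOf_eq x
  obtain ⟨s, k, hk⟩ := hS.exists_conj ho
  have hk' : x ^ k = (s : G) * (g * x * g⁻¹) * (s : G)⁻¹ := by
    have := congrArg Subtype.val hk
    simpa using this
  refine ⟨(s : G)⁻¹, S.inv_mem s.2, (s : G) * g, ?_, by group⟩
  rw [h.mem_normalizer_iff]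
  refine ⟨k, ?_⟩
  simp only
  rw [hk']
  group

theorem SC.commutator_le (h : SC p x) (S : Subgroup G) [S.Normal] (hd : p ∣ Nat.card S) :
    commutator G ≤ S := by
  have hxS := h.mem_of_dvd S hd
  rw [commutator_def, Subgroup.commutator_le]
  intro g₁ _ g₂ _
  obtain ⟨s₁, hs₁, n₁, hn₁, rfl⟩ := h.frattini S hxS g₁
  obtain ⟨s₂, hs₂, n₂, hn₂, rfl⟩ := h.frattini S hxS g₂
  rw [← QuotientGroup.eq_one_iff]
  have e1 : ((s₁ : G) : G ⧸ S) = 1 := (QuotientGroup.eq_one_iff _).2 hs₁
  have e2 : ((s₂ : G) : G ⧸ S) = 1 := (QuotientGroup.eq_one_iff _).2 hs₂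
  have e3 : ((n₁ * n₂ * n₁⁻¹ * n₂⁻¹ : G) : G ⧸ S) = 1 := by
    rw [QuotientGroup.eq_one_iff]
    have := h.commutator_normalizer hn₁ hn₂
    rw [commutatorElement_def] at this
    exact (zpowers_le.2 hxS) this
  rw [commutatorElement_def]
  simp only [QuotientGroup.mk_mul, QuotientGroup.mk_inv, e1, e2, one_mul] at e3 ⊢
  exact e3

theorem SC.fpf (h : SC p x) (S : Subgroup G) [S.Normal] (hd : ¬ p ∣ Nat.card S) {s : G}
    (hs : s ∈ S) : ∃ k ∈ S, s = k * x * k⁻¹ * x⁻¹ := by
  have hm : ∀ k : S, (k : G) * x * (k : G)⁻¹ * x⁻¹ ∈ S := by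
    intro k
    have : (k : G) * x * (k : G)⁻¹ * x⁻¹ = k * (x * (k : G)⁻¹ * x⁻¹) := by group
    rw [this]
    exact S.mul_mem k.2 (‹S.Normal›.conj_mem _ (S.inv_mem k.2) x)
  let f : S → S := fun k => ⟨_, hm k⟩
  have hinj : Function.Injective f := by
    intro k l hkl
    have h1 : (k : G) * x * (k : G)⁻¹ * x⁻¹ = (l : G) * x * (l : G)⁻¹ * x⁻¹ :=
      congrArg Subtype.val hkl
    have h2 : ((l : G)⁻¹ * k) * x = x * ((l : G)⁻¹ * k) := by
      have := congrArg (fun w => (l : G)⁻¹ * w * x * k) h1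
      have e1 : (l : G)⁻¹ * ((k : G) * x * (k : G)⁻¹ * x⁻¹) * x * k = ((l : G)⁻¹ * k) * x := by group
      have e2 : (l : G)⁻¹ * ((l : G) * x * (l : G)⁻¹ * x⁻¹) * x * k = x * ((l : G)⁻¹ * k) := by group
      rw [e1, e2] at this
      exact this
    have h3 := h.eq_one_of_mem S hd ((h.comm_iff _).1 h2) (S.mul_mem (S.inv_mem l.2) k.2)
    ext
    exact (inv_mul_eq_one.1 h3).symm
  obtain ⟨k, hk⟩ := (Finite.injective_iff_surjective.1 hinj) ⟨s, hs⟩
  exact ⟨k, k.2, (congrArg Subtype.val hk).symm⟩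

theorem SC.le_commutator (h : SC p x) (S : Subgroup G) [S.Normal] (hd : ¬ p ∣ Nat.card S) :
    S ≤ commutator G := by
  intro s hs
  obtain ⟨k, _, rfl⟩ := h.fpf S hd hs
  rw [commutator_def, ← commutatorElement_def]
  exact Subgroup.commutator_mem_commutator (mem_top _) (mem_top _)

theorem SC.normalizer_inf (h : SC p x) (S : Subgroup G) [S.Normal] (hd : ¬ p ∣ Nat.card S) {n : G}
    (hn : n ∈ normalizer (zpowers x : Set G)) (hnS : n ∈ S) : n = 1 := by
  have h1 : n * x * n⁻¹ * x⁻¹ ∈ S := by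
    have : n * x * n⁻¹ * x⁻¹ = n * (x * n⁻¹ * x⁻¹) := by group
    rw [this]
    exact S.mul_mem hnS (‹S.Normal›.conj_mem _ (S.inv_mem hnS) x)
  have h2 : n * x * n⁻¹ * x⁻¹ ∈ zpowers x :=
    mul_mem ((h.mem_normalizer_iff n).1 hn) (inv_mem (mem_zpowers x))
  have h3 := h.eq_one_of_mem S hd h2 h1
  have h4 : n * x = x * n := by
    have := congrArg (fun w => w * x * n) h3
    simpa [mul_assoc] using this
  exact h.eq_one_of_mem S hd ((h.comm_iff _).1 h4) hnS

theorem SC.cent_quot (h : SC p x) (S : Subgroup G) [S.Normal] (hd : ¬ p ∣ Nat.card S) {g : G}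
    (hg : g * x * g⁻¹ * x⁻¹ ∈ S) : ∃ s ∈ S, ∃ z ∈ zpowers x, g = s * z := by
  set H : Subgroup G := S ⊔ zpowers x with hH
  have hxH : x ∈ H := (le_sup_right : zpowers x ≤ H) (mem_zpowers x)
  have hSH := h.subgroup H hxH
  have hm : g * x * g⁻¹ ∈ H := by
    have : g * x * g⁻¹ = (g * x * g⁻¹ * x⁻¹) * x := by group
    rw [this]
    exact H.mul_mem ((le_sup_left : S ≤ H) hg) hxH
  have ho : orderOf (⟨g * x * g⁻¹, hm⟩ : H) = p := by
    rw [← Subgroup.orderOf_coe]
    simp only
    rw [← h.hx]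
    exact (MulAut.conj g).orderOf_eq x
  obtain ⟨a, k, hk⟩ := hSH.exists_conj ho
  have hk' : x ^ k = (a : G) * (g * x * g⁻¹) * (a : G)⁻¹ := by
    have := congrArg Subtype.val hk
    simpa using this
  have ha : (a : G) ∈ S ⊔ zpowers x := a.2
  rw [Subgroup.mem_sup_of_normal_left] at ha
  obtain ⟨s, hs, z, hz, hsz⟩ := ha
  -- `a = s z`; write `a = z s'`
  obtain ⟨l, rfl⟩ := hz
  simp only at hsz
  set s' : G := (x ^ l)⁻¹ * s * x ^ l with hs'
  have hs'S : s' ∈ S := by
    have := ‹S.Normal›.conj_mem _ hs (x ^ l)⁻¹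
    rwa [inv_inv] at this
  have h1 : s' * (g * x * g⁻¹) * s'⁻¹ = x ^ k := by
    have e : s' * (g * x * g⁻¹) * s'⁻¹ = (x ^ l)⁻¹ * ((a : G) * (g * x * g⁻¹) * (a : G)⁻¹) * x ^ l := by
      rw [← hsz, hs']; group
    rw [e, ← hk', ← zpow_neg, ← zpow_add, ← zpow_add]
    congr 1
    ring
  set n : G := s' * g with hn
  have h2 : n * x * n⁻¹ = x ^ k := by
    rw [← h1, hn]; group
  have h3 : n * x * n⁻¹ * x⁻¹ ∈ S := by
    have : n * x * n⁻¹ * x⁻¹ = s' * (g * x * g⁻¹ * x⁻¹) * (x * s'⁻¹ * x⁻¹) := by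
      rw [hn]; group
    rw [this]
    exact S.mul_mem (S.mul_mem hs'S hg) (‹S.Normal›.conj_mem _ (S.inv_mem hs'S) x)
  have h4 : n * x * n⁻¹ * x⁻¹ ∈ zpowers x := by
    rw [h2]
    exact mul_mem (zpow_mem (mem_zpowers x) k) (inv_mem (mem_zpowers x))
  have h5 := h.eq_one_of_mem S hd h4 h3
  have h6 : n * x = x * n := by
    have := congrArg (fun w => w * x * n) h5
    simpa [mul_assoc] using this
  refine ⟨s'⁻¹, S.inv_mem hs'S, n, (h.comm_iff _).1 h6, ?_⟩
  rw [hn]; group


omit [Finite G] in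
/-- orbit-stabilizer by hand -/
theorem card_range_conj (N P : Subgroup G) (y : G) (h : ∀ n ∈ N, (n * y = y * n ↔ n ∈ P)) :
    Nat.card (Set.range (fun n : N => (n : G) * y * (n : G)⁻¹)) = P.relIndex N := by
  set f : N → G := fun n => (n : G) * y * (n : G)⁻¹ with hf
  have h1 : QuotientGroup.leftRel (P.subgroupOf N) = Setoid.ker f := by
    ext a b
    rw [QuotientGroup.leftRel_apply, Setoid.ker_def, mem_subgroupOf,
      ← h _ (a⁻¹ * b).2]
    simp only [hf, Subgroup.coe_mul, Subgroup.coe_inv]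
    constructor
    · intro h2
      have := congrArg (fun w => (a : G) * w * (b : G)⁻¹) h2
      have e1 : (a : G) * ((a : G)⁻¹ * b * y) * (b : G)⁻¹ = b * y * (b : G)⁻¹ := by group
      have e2 : (a : G) * (y * ((a : G)⁻¹ * b)) * (b : G)⁻¹ = a * y * (a : G)⁻¹ := by group
      rw [e1, e2] at this
      exact this.symm
    · intro h2
      have := congrArg (fun w => (a : G)⁻¹ * w * (b : G)) h2
      have e1 : (a : G)⁻¹ * ((b : G) * y * (b : G)⁻¹) * b = (a : G)⁻¹ * b * y := by group
      have e2 : (a : G)⁻¹ * ((a : G) * y * (a : G)⁻¹) * b = y * ((a : G)⁻¹ * b) := by group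
      rw [e1, e2] at this
      exact this.symm
  rw [← Nat.card_congr (Setoid.quotientKerEquivRange f), ← h1]
  rfl

/-- `e = |N_G(⟨x⟩) : ⟨x⟩|`. -/
noncomputable def eN (x : G) : ℕ := (zpowers x).relIndex (normalizer (zpowers x : Set G))

theorem SC.count (h : SC p x) :
    Nat.card {C : ConjClasses G // ∃ g ∈ C.carrier, orderOf g = p} * eN x = p - 1 := by
  classical
  set A : Set G := (zpowers x : Set G) \ {1} with hA
  have hcardA : Nat.card A = p - 1 := by
    rw [Nat.card_coe_set_eq, hA, Set.ncard_sdiff_singleton_of_mem (one_mem (zpowers x)),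
      ← Nat.card_coe_set_eq]
    exact congrArg (· - 1) h.card
  let φ : A → {C : ConjClasses G // ∃ g ∈ C.carrier, orderOf g = p} := fun a =>
    ⟨ConjClasses.mk (a : G), a, ConjClasses.mem_carrier_mk, (h.of_mem a.2.1 a.2.2).hx⟩
  haveI : Fintype {C : ConjClasses G // ∃ g ∈ C.carrier, orderOf g = p} := Fintype.ofFinite _
  rw [← hcardA, Nat.card_congr (Equiv.sigmaFiberEquiv φ).symm, Nat.card_sigma]
  have key : ∀ c : {C : ConjClasses G // ∃ g ∈ C.carrier, orderOf g = p},
      Nat.card {a : A // φ a = c} = eN x := by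
    rintro ⟨C, g, hgC, hgo⟩
    obtain ⟨k, hk⟩ := h.exists_conj hgo
    set y := k * g * k⁻¹ with hy
    have hy1 : y ≠ 1 := by
      intro h1
      have h2 : g = 1 := by
        have := congrArg (fun w => k⁻¹ * w * k) h1
        simpa [hy, mul_assoc] using this
      rw [h2, orderOf_one] at hgo
      exact h.hp.one_lt.ne hgo
    have hC : C = ConjClasses.mk y := by
      rw [ConjClasses.mem_carrier_iff_mk_eq] at hgC
      rw [← hgC, ConjClasses.mk_eq_mk_iff_isConj, isConj_iff]
      exact ⟨k, rfl⟩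
    have hSy := h.of_mem hk hy1
    have he := h.zpowers_eq hk hy1
    have hr := card_range_conj (normalizer (zpowers x : Set G)) (zpowers x) y (by
      intro n _
      rw [← he]
      exact hSy.comm_iff n)
    rw [eN, ← hr]
    have hm : ∀ a : {a : A // φ a = ⟨C, g, hgC, hgo⟩},
        ((a : A) : G) ∈ Set.range (fun n : normalizer (zpowers x : Set G) =>
          (n : G) * y * (n : G)⁻¹) := by
      rintro ⟨a, ha⟩
      have h1 : ConjClasses.mk (a : G) = C := congrArg Subtype.val ha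
      rw [hC, eq_comm, ConjClasses.mk_eq_mk_iff_isConj, isConj_iff] at h1
      obtain ⟨c, hc⟩ := h1
      have hcN : c ∈ normalizer (zpowers x : Set G) := by
        rw [← he, hSy.mem_normalizer_iff, hc, he]
        exact a.2.1
      exact ⟨⟨c, hcN⟩, hc⟩
    refine Nat.card_congr (Equiv.ofBijective (fun a => ⟨((a : A) : G), hm a⟩) ⟨?_, ?_⟩)
    · intro a b hab
      have h1 : ((a : A) : G) = ((b : A) : G) := by
        simpa using hab
      exact Subtype.ext (Subtype.ext h1)
    · rintro ⟨z, n, rfl⟩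
      have hz : (n : G) * y * (n : G)⁻¹ ∈ A := by
        refine ⟨(Subgroup.mem_normalizer_iff.1 n.2 y).1 hk, ?_⟩
        intro h1
        apply hy1
        have := congrArg (fun w => (n : G)⁻¹ * w * n) (Set.mem_singleton_iff.1 h1)
        simpa [mul_assoc] using this
      refine ⟨⟨⟨_, hz⟩, ?_⟩, rfl⟩
      apply Subtype.ext
      change ConjClasses.mk ((n : G) * y * (n : G)⁻¹) = C
      rw [hC, eq_comm, ConjClasses.mk_eq_mk_iff_isConj, isConj_iff]
      exact ⟨n, rfl⟩
  rw [Finset.sum_congr rfl (fun c _ => key c), Finset.sum_const, Finset.card_univ, smul_eq_mul,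
    Nat.card_eq_fintype_card]


theorem SC.mem_commutator (h : SC p x) (he : eN x ≠ 1) : x ∈ commutator G := by
  rw [eN, Ne, Subgroup.relIndex_eq_one] at he
  obtain ⟨n, hn, hnx⟩ := SetLike.not_le_iff_exists.1 he
  have h2 : n * x * n⁻¹ * x⁻¹ ∈ zpowers x :=
    mul_mem ((h.mem_normalizer_iff n).1 hn) (inv_mem (mem_zpowers x))
  have h3 : n * x * n⁻¹ * x⁻¹ ≠ 1 := by
    intro h3
    apply hnx
    rw [← h.comm_iff]
    have := congrArg (fun w => w * x * n) h3
    simpa [mul_assoc] using this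
  have h4 := h.zpowers_eq h2 h3
  have h5 : zpowers (n * x * n⁻¹ * x⁻¹) ≤ commutator G := by
    rw [zpowers_le, commutator_def, ← commutatorElement_def]
    exact Subgroup.commutator_mem_commutator (mem_top _) (mem_top _)
  rw [h4] at h5
  exact h5 (mem_zpowers x)

theorem SC.sup_eq_top (h : SC p x) (S : Subgroup G) [S.Normal] (hxS : x ∈ S) :
    normalizer (zpowers x : Set G) ⊔ S = ⊤ := by
  rw [eq_top_iff]
  intro g _
  obtain ⟨s, hs, n, hn, rfl⟩ := h.frattini S hxS g
  exact mul_mem ((le_sup_right : S ≤ _) hs) ((le_sup_left : normalizer (zpowers x : Set G) ≤ _) hn)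

theorem SC.index_dvd' (h : SC p x) (S : Subgroup G) [S.Normal] (hxS : x ∈ S) :
    S.index ∣ eN x := by
  have h1 := Subgroup.relIndex_sup_right (normalizer (zpowers x : Set G)) S
  rw [h.sup_eq_top S hxS, Subgroup.relIndex_top_right] at h1
  rw [h1, eN]
  exact Subgroup.relIndex_dvd_of_le_left _ (zpowers_le.2 hxS)

theorem SC.index_dvd (h : SC p x) (he : eN x ≠ 1) : (commutator G).index ∣ eN x :=
  h.index_dvd' _ (h.mem_commutator he)

theorem eN_pos (x : G) : 0 < eN x :=
  Nat.pos_of_ne_zero ((zpowers x).subgroupOf (normalizer (zpowers x : Set G))).index_ne_zero_of_finite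

theorem SC.burnside (h : SC p x) (he : eN x = 1) :
    (commutator G).index = p ∧ ¬ p ∣ Nat.card (commutator G) := by
  haveI := Fact.mk h.hp
  rw [eN, Subgroup.relIndex_eq_one] at he
  obtain ⟨P, hPx⟩ := h.exists_sylow
  have hcomm : ∀ u v : (P : Subgroup G), u * v = v * u := by
    intro u v
    have hu : (u : G) ∈ zpowers x := hPx ▸ u.2
    have hv : (v : G) ∈ zpowers x := hPx ▸ v.2
    obtain ⟨i, hi⟩ := hu
    obtain ⟨j, hj⟩ := hv
    ext
    rw [Subgroup.coe_mul, Subgroup.coe_mul, ← hi, ← hj]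
    simp only
    rw [← zpow_add, ← zpow_add, add_comm]
  have hP : normalizer ((P : Subgroup G) : Set G) ≤ centralizer ((P : Subgroup G) : Set G) := by
    intro n hn
    rw [hPx] at hn
    have hn' : n ∈ (P : Subgroup G) := by rw [hPx]; exact he hn
    rw [mem_centralizer_iff]
    intro u hu
    exact congrArg Subtype.val (hcomm ⟨u, hu⟩ ⟨n, hn'⟩)
  have hc := MonoidHom.ker_transferSylow_isComplement' P hP
  have hK := MonoidHom.not_dvd_card_ker_transferSylow P hP
  set f := MonoidHom.transferSylow P hP with hf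
  have h1 : f.ker ≤ commutator G := h.le_commutator _ hK
  have h2 : commutator G ≤ f.ker := by
    rw [_root_.commutator_def, Subgroup.commutator_le]
    intro a _ b _
    rw [MonoidHom.mem_ker, commutatorElement_def, map_mul, map_mul, map_mul, map_inv, map_inv,
      hcomm (f a) (f b)]
    group
  have h3 : commutator G = f.ker := le_antisymm h2 h1
  rw [h3]
  refine ⟨?_, hK⟩
  rw [hc.symm.index_eq_card, hPx, h.card]


theorem SC.card_subgroups (h : SC p x) :
    Nat.card {H : Subgroup G // Nat.card H = p} = (normalizer (zpowers x : Set G)).index := by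
  haveI := Fact.mk h.hp
  obtain ⟨P, hPx⟩ := h.exists_sylow
  rw [← hPx]
  refine Eq.trans ?_ (Sylow.card_eq_index_normalizer P)
  have hcard : ∀ Q : Sylow p G, Nat.card (Q : Subgroup G) = p := by
    intro Q
    rw [Sylow.card_eq_multiplicity Q, ← Sylow.card_eq_multiplicity P, hPx, h.card]
  refine (Nat.card_congr (Equiv.ofBijective
    (fun Q : Sylow p G => (⟨Q, hcard Q⟩ : {H : Subgroup G // Nat.card H = p})) ⟨?_, ?_⟩)).symm
  · intro Q Q' hQ
    exact Sylow.ext (congrArg Subtype.val hQ)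
  · rintro ⟨H, hH⟩
    have hHp : IsPGroup p H := IsPGroup.of_card (n := 1) (by rw [hH, pow_one])
    obtain ⟨Q, hQ⟩ := hHp.exists_le_sylow
    refine ⟨Q, Subtype.ext ?_⟩
    exact (Subgroup.eq_of_le_of_card_ge hQ (by rw [hcard Q, hH])).symm

theorem SC.card_mul_card (h : SC p x) (S : Subgroup G) [S.Normal] (hd : ¬ p ∣ Nat.card S) :
    Nat.card S * Nat.card (normalizer (zpowers x : Set G)) =
      Nat.card (normalizer (zpowers x : Set G) ⊔ S : Subgroup G) := by
  set N := normalizer (zpowers x : Set G) with hN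
  have h1 := Subgroup.relIndex_sup_right N S
  have h0 : S ⊓ N = ⊥ := by
    rw [eq_bot_iff]
    intro n hn
    exact h.normalizer_inf S hd hn.2 hn.1
  have h2 : S.relIndex N = Nat.card N := by
    rw [← Subgroup.inf_relIndex_right, h0, Subgroup.relIndex_bot_left]
  have h3 : Nat.card S * S.relIndex (N ⊔ S) = Nat.card (N ⊔ S : Subgroup G) := by
    rw [← Subgroup.relIndex_bot_left, ← Subgroup.relIndex_bot_left,
      Subgroup.relIndex_mul_relIndex _ _ _ bot_le le_sup_right]
  rw [← h3, h1, h2]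

theorem SC.card_dvd_index (h : SC p x) (S : Subgroup G) [S.Normal] (hd : ¬ p ∣ Nat.card S) :
    Nat.card S ∣ (normalizer (zpowers x : Set G)).index := by
  have h3 := h.card_mul_card S hd
  have h4 : Nat.card (normalizer (zpowers x : Set G) ⊔ S : Subgroup G) ∣ Nat.card G :=
    Subgroup.card_subgroup_dvd_card _
  rw [← h3, ← (normalizer (zpowers x : Set G)).card_mul_index, mul_comm] at h4
  exact Nat.dvd_of_mul_dvd_mul_left Nat.card_pos h4

theorem SC.card_mod (h : SC p x) (S : Subgroup G) [S.Normal] (hd : ¬ p ∣ Nat.card S) :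
    Nat.card S % p = 1 := by
  haveI := Fact.mk h.hp
  letI : MulAction (zpowers x) S :=
    MulAction.compHom S ((MulAut.conjNormal (H := S)).comp (zpowers x).subtype)
  have h1 := h.isPGroup.card_modEq_card_fixedPoints S
  have h2 : Nat.card (MulAction.fixedPoints (zpowers x) S) = 1 := by
    rw [Nat.card_eq_one_iff_unique]
    refine ⟨⟨?_⟩, ⟨⟨1, ?_⟩⟩⟩
    · have key : ∀ s : MulAction.fixedPoints (zpowers x) S, (s : S) = 1 := by
        rintro ⟨s, hs⟩
        have h3 := hs ⟨x, mem_zpowers x⟩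
        have h4 : x * (s : G) * x⁻¹ = s := congrArg Subtype.val h3
        have h5 : (s : G) * x = x * s := by
          have := congrArg (fun w => w * x) h4
          simpa [mul_assoc] using this.symm
        ext
        exact h.eq_one_of_mem S hd ((h.comm_iff _).1 h5) s.2
      intro a b
      ext
      rw [key a, key b]
    · intro g
      exact map_one (MulAut.conjNormal (H := S) (g : G))
  rw [h2] at h1
  rw [h1, Nat.mod_eq_of_lt h.hp.one_lt]

theorem SC.quot (h : SC p x) (S : Subgroup G) [S.Normal] (hd : ¬ p ∣ Nat.card S) :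
    SC p (QuotientGroup.mk x : G ⧸ S) := by
  haveI := Fact.mk h.hp
  refine ⟨h.hp, ?_, ?_⟩
  · apply orderOf_eq_prime
    · rw [← QuotientGroup.mk_pow, ← h.hx, pow_orderOf_eq_one]
      rfl
    · intro h1
      rw [QuotientGroup.eq_one_iff] at h1
      exact h.ne_one (h.eq_one_of_mem S hd (mem_zpowers x) h1)
  · ext q
    induction q using QuotientGroup.induction_on with
    | H g =>
      rw [mem_centralizer_singleton_iff]
      constructor
      · intro hg
        have h1 : ((g * x * g⁻¹ * x⁻¹ : G) : G ⧸ S) = 1 := by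
          rw [QuotientGroup.mk_mul, QuotientGroup.mk_mul, QuotientGroup.mk_mul, hg,
            QuotientGroup.mk_inv, QuotientGroup.mk_inv]
          group
        rw [QuotientGroup.eq_one_iff] at h1
        obtain ⟨s, hs, z, ⟨k, rfl⟩, rfl⟩ := h.cent_quot S hd h1
        refine ⟨k, ?_⟩
        simp only
        rw [QuotientGroup.mk_mul, (QuotientGroup.eq_one_iff s).2 hs, one_mul, QuotientGroup.mk_zpow]
      · rintro ⟨k, hk⟩
        rw [← hk]
        simp only
        rw [← zpow_add_one, ← zpow_one_add, add_comm]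


theorem core_normal (p : ℕ) (G : Type u) [Group G] : (Cfsg.pPrimeCore p G).Normal :=
  Subgroup.sSup_normal _ (fun _ h => h.1)

theorem SC.core_not_dvd (h : SC p x) : ¬ p ∣ Nat.card (Cfsg.pPrimeCore p G) :=
  (Nat.Prime.coprime_iff_not_dvd h.hp).1
    (Cfsg.Agent.Lib.Helper3_PComp.pPrimeCore_coprime p G).symm

theorem SC.core_le (h : SC p x) : Cfsg.pPrimeCore p G ≤ commutator G := by
  haveI := core_normal p G
  exact h.le_commutator _ h.core_not_dvd

theorem SC.le_core (h : SC p x) (S : Subgroup G) [hS : S.Normal] (hd : ¬ p ∣ Nat.card S) :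
    S ≤ Cfsg.pPrimeCore p G :=
  Cfsg.Agent.Lib.Helper4_Core.le_pPrimeCore hS ((Nat.Prime.coprime_iff_not_dvd h.hp).2 hd).symm

theorem SC.simple (h : SC p x) (he : eN x ≠ 1)
    (hn : ((Cfsg.pPrimeCore p G).subgroupOf (commutator G)).Normal) :
    IsSimpleGroup (↥(commutator G) ⧸ (Cfsg.pPrimeCore p G).subgroupOf (commutator G)) := by
  haveI := Fact.mk h.hp
  haveI hOn := core_normal p G
  set D := commutator G with hD
  set O := Cfsg.pPrimeCore p G with hO
  have hxD : x ∈ D := h.mem_commutator he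
  have hSD := h.subgroup D hxD
  have hOD : O ≤ D := h.core_le
  have hOd : ¬ p ∣ Nat.card O := h.core_not_dvd
  haveI : Nontrivial (D ⧸ O.subgroupOf D) := by
    refine ⟨⟨((⟨x, hxD⟩ : D) : D ⧸ O.subgroupOf D), 1, ?_⟩⟩
    intro h1
    rw [QuotientGroup.eq_one_iff, Subgroup.mem_subgroupOf] at h1
    exact h.ne_one (h.eq_one_of_mem O hOd (mem_zpowers x) h1)
  refine ⟨?_⟩
  · intro Hb hHb
    set M : Subgroup D := Hb.comap (QuotientGroup.mk' (O.subgroupOf D)) with hM
    haveI hMn : M.Normal := hHb.comap _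
    have hOM : O.subgroupOf D ≤ M := by
      intro d hd
      rw [hM, Subgroup.mem_comap]
      have : QuotientGroup.mk' (O.subgroupOf D) d = 1 := (QuotientGroup.eq_one_iff d).2 hd
      rw [this]
      exact one_mem _
    have hHM : Hb = M.map (QuotientGroup.mk' (O.subgroupOf D)) :=
      (Subgroup.map_comap_eq_self_of_surjective (QuotientGroup.mk'_surjective _) Hb).symm
    by_cases hd : p ∣ Nat.card M
    · right
      have hxM := hSD.mem_of_dvd M hd
      have hcM := hSD.commutator_le M hd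
      have hMtop : M = ⊤ := by
        rw [eq_top_iff]
        intro d _
        by_cases hd2 : p ∣ Nat.card (⁅D, D⁆ : Subgroup G)
        · have h1 : D ≤ ⁅D, D⁆ := h.commutator_le _ hd2
          have h2 : ⁅D, D⁆ ≤ M.map D.subtype := by
            rw [Subgroup.commutator_le]
            intro g₁ hg₁ g₂ hg₂
            refine ⟨⁅(⟨g₁, hg₁⟩ : D), ⟨g₂, hg₂⟩⁆, hcM ?_, rfl⟩
            rw [_root_.commutator_def]
            exact Subgroup.commutator_mem_commutator (mem_top _) (mem_top _)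
          obtain ⟨d', hd', hdd⟩ := h2 (h1 d.2)
          have : d' = d := Subtype.ext hdd
          rw [← this]
          exact hd'
        · have h1 : ⁅D, D⁆ ≤ O := h.le_core _ hd2
          have h2 : (d : G) * x * (d : G)⁻¹ * x⁻¹ ∈ O := by
            apply h1
            rw [← commutatorElement_def]
            exact Subgroup.commutator_mem_commutator d.2 hxD
          obtain ⟨s, hs, z, ⟨k, hk⟩, hsz⟩ := h.cent_quot O hOd h2
          have h3 : d = (⟨s, hOD hs⟩ : D) * (⟨x, hxD⟩ : D) ^ k := by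
            ext
            rw [hsz, ← hk]
            simp
          rw [h3]
          exact M.mul_mem (hOM (Subgroup.mem_subgroupOf.2 hs)) (M.zpow_mem hxM k)
      rw [hHM, hMtop, ← MonoidHom.range_eq_map, MonoidHom.range_eq_top]
      exact QuotientGroup.mk'_surjective _
    · left
      have h1 : M ≤ Cfsg.pPrimeCore p D := hSD.le_core M hd
      have hDn : D.Normal := by rw [hD]; infer_instance
      rw [Cfsg.Agent.Lib.Helper3_PComp.pPrimeCore_subgroup_eq hDn.isSubnormal] at h1
      rw [hHM, eq_bot_iff]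
      refine (Subgroup.map_mono h1).trans ?_
      rw [le_bot_iff, Subgroup.map_eq_bot_iff, QuotientGroup.ker_mk']


omit [Finite G] in
theorem card_sup_of_inf_bot (S K : Subgroup G) [S.Normal] (h0 : S ⊓ K = ⊥) :
    Nat.card S * Nat.card K = Nat.card (K ⊔ S : Subgroup G) := by
  have h1 := Subgroup.relIndex_sup_right K S
  have h2 : S.relIndex K = Nat.card K := by
    rw [← Subgroup.inf_relIndex_right, h0, Subgroup.relIndex_bot_left]
  have h3 : Nat.card S * S.relIndex (K ⊔ S) = Nat.card (K ⊔ S : Subgroup G) := by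
    rw [← Subgroup.relIndex_bot_left, ← Subgroup.relIndex_bot_left,
      Subgroup.relIndex_mul_relIndex _ _ _ bot_le le_sup_right]
  rw [← h3, h1, h2]

theorem SC.card_commutator_of_one (h : SC p x) (he : eN x = 1) :
    Nat.card (commutator G) = (normalizer (zpowers x : Set G)).index := by
  have hb := (h.burnside he).1
  rw [eN, Subgroup.relIndex_eq_one] at he
  have hN : normalizer (zpowers x : Set G) = zpowers x := le_antisymm he Subgroup.le_normalizer
  have h1 := (commutator G).card_mul_index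
  have h2 := (normalizer (zpowers x : Set G)).card_mul_index
  rw [hb] at h1
  rw [hN, h.card, ← h1, mul_comm] at h2
  rw [hN]
  exact (Nat.eq_of_mul_eq_mul_right h.hp.pos h2).symm

theorem SC.isCyclic_of_one (h : SC p x) (he : eN x = 1) : IsCyclic (G ⧸ commutator G) := by
  haveI := Fact.mk h.hp
  exact isCyclic_of_prime_card (p := p) (h.burnside he).1

theorem SC.second (h : SC p x) (he : eN x ≠ 1)
    (hne : (⁅commutator G, commutator G⁆ : Subgroup G) ≠ commutator G) :
    Nat.card (⁅commutator G, commutator G⁆ : Subgroup G) = (normalizer (zpowers x : Set G)).index ∧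
    Nat.card (commutator G) = p * (normalizer (zpowers x : Set G)).index := by
  haveI hOn := core_normal p G
  set D := commutator G with hD
  set O := Cfsg.pPrimeCore p G with hO
  have hxD : x ∈ D := h.mem_commutator he
  have hOD : O ≤ D := h.core_le
  have hOd : ¬ p ∣ Nat.card O := h.core_not_dvd
  have hle : ⁅D, D⁆ ≤ D := Subgroup.commutator_le_left D D
  have hd2 : ¬ p ∣ Nat.card (⁅D, D⁆ : Subgroup G) := by
    intro hd2
    exact hne (le_antisymm hle (h.commutator_le _ hd2))
  have h1 : ⁅D, D⁆ ≤ O := h.le_core _ hd2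
  have h2 : O ≤ ⁅D, D⁆ := by
    intro s hs
    obtain ⟨k, hk, rfl⟩ := h.fpf O hOd hs
    rw [← commutatorElement_def]
    exact Subgroup.commutator_mem_commutator (hOD hk) hxD
  have h3 : ⁅D, D⁆ = O := le_antisymm h1 h2
  have h4 : D = zpowers x ⊔ O := by
    apply le_antisymm
    · intro d hd
      have h5 : d * x * d⁻¹ * x⁻¹ ∈ O := by
        apply h1
        rw [← commutatorElement_def]
        exact Subgroup.commutator_mem_commutator hd hxD
      obtain ⟨s, hs, z, hz, rfl⟩ := h.cent_quot O hOd h5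
      exact mul_mem ((le_sup_right : O ≤ _) hs) ((le_sup_left : zpowers x ≤ _) hz)
    · exact sup_le (zpowers_le.2 hxD) hOD
  have h5 : normalizer (zpowers x : Set G) ⊔ O = ⊤ := by
    rw [eq_top_iff, ← h.sup_eq_top D hxD]
    refine sup_le le_sup_left ?_
    rw [h4]
    exact sup_le (Subgroup.le_normalizer.trans le_sup_left) le_sup_right
  have h6 := h.card_mul_card O hOd
  rw [h5, Subgroup.card_top, ← (normalizer (zpowers x : Set G)).card_mul_index, mul_comm] at h6
  have h7 : Nat.card O = (normalizer (zpowers x : Set G)).index :=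
    Nat.eq_of_mul_eq_mul_left Nat.card_pos h6
  refine ⟨by rw [h3, h7], ?_⟩
  have h8 : O ⊓ zpowers x = ⊥ := by
    rw [eq_bot_iff]
    intro z hz
    exact h.eq_one_of_mem O hOd hz.2 hz.1
  have h9 := card_sup_of_inf_bot O (zpowers x) h8
  rw [← h4, h.card, h7, mul_comm] at h9
  exact h9.symm

theorem SC.second_ne (h : SC p x) (he : eN x ≠ 1) (S : Subgroup G) [S.Normal]
    (hd : ¬ p ∣ Nat.card S) (hS : Nat.card S = (normalizer (zpowers x : Set G)).index) :
    (⁅commutator G, commutator G⁆ : Subgroup G) ≠ commutator G := by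
  intro heq
  have hxD : x ∈ commutator G := h.mem_commutator he
  have h1 := h.card_mul_card S hd
  rw [hS, mul_comm, Subgroup.card_mul_index] at h1
  have h2 : normalizer (zpowers x : Set G) ⊔ S = ⊤ := Subgroup.eq_top_of_card_eq _ h1.symm
  have c1 : commutator G ≤ (zpowers (QuotientGroup.mk' S x)).comap (QuotientGroup.mk' S) := by
    rw [_root_.commutator_def, Subgroup.commutator_le]
    intro g₁ _ g₂ _
    have hg₁ : g₁ ∈ normalizer (zpowers x : Set G) ⊔ S := by rw [h2]; trivial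
    have hg₂ : g₂ ∈ normalizer (zpowers x : Set G) ⊔ S := by rw [h2]; trivial
    rw [Subgroup.mem_sup_of_normal_right] at hg₁ hg₂
    obtain ⟨n₁, hn₁, s₁, hs₁, rfl⟩ := hg₁
    obtain ⟨n₂, hn₂, s₂, hs₂, rfl⟩ := hg₂
    rw [Subgroup.mem_comap, map_commutatorElement, map_mul, map_mul]
    have e1 : QuotientGroup.mk' S s₁ = 1 := (QuotientGroup.eq_one_iff _).2 hs₁
    have e2 : QuotientGroup.mk' S s₂ = 1 := (QuotientGroup.eq_one_iff _).2 hs₂
    rw [e1, e2, mul_one, mul_one, ← map_commutatorElement]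
    obtain ⟨k, hk⟩ := h.commutator_normalizer hn₁ hn₂
    rw [← hk]
    simp only
    rw [map_zpow]
    exact zpow_mem (mem_zpowers _) k
  have c2 : (⁅commutator G, commutator G⁆ : Subgroup G) ≤ S := by
    rw [Subgroup.commutator_le]
    intro d₁ hd₁ d₂ hd₂
    obtain ⟨i, hi⟩ := c1 hd₁
    obtain ⟨j, hj⟩ := c1 hd₂
    simp only at hi hj
    rw [← QuotientGroup.eq_one_iff]
    change QuotientGroup.mk' S ⁅d₁, d₂⁆ = 1
    rw [map_commutatorElement, ← hi, ← hj, commutatorElement_def, ← zpow_add, ← zpow_neg,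
      ← zpow_neg, ← zpow_add, ← zpow_add]
    have : i + j + -i + -j = 0 := by ring
    rw [this, zpow_zero]
  rw [heq] at c2
  exact h.ne_one (h.eq_one_of_mem S hd (mem_zpowers x) (c2 hxD))

end Cfsg.Agent.Lib.helper6_SelfCent
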