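import Mathlib

set_option autoImplicit false

namespace Cfsg.Agent.Lib.helper6_UniqueFix

/-- If every nonidentity element of a finite group fixes exactly one point of a finite nonempty
set, then the whole group fixes a point. -/
theorem exists_global_fixed {K Ω : Type*} [Group K] [Finite K] [MulAction K Ω] [Finite Ω]
    [Nonempty Ω] (h : ∀ k : K, k ≠ 1 → ∃! ω : Ω, k • ω = ω) : ∃ ω : Ω, ∀ k : K, k • ω = ω := by
  classical
  by_contra hcon
  push Not at hcon
  letI := Fintype.ofFinite K
  letI := Fintype.ofFinite Ω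
  letI : Fintype (Quotient (MulAction.orbitRel K Ω)) := Fintype.ofFinite _
  have hB := MulAction.sum_card_fixedBy_eq_card_orbits_mul_card_group K Ω
  have hC := MulAction.card_eq_sum_card_group_div_card_stabilizer K Ω
  have hn : 0 < Fintype.card K := Fintype.card_pos
  -- left side of Burnside's lemma
  have hL : ∑ g : K, Fintype.card (MulAction.fixedBy Ω g) = Fintype.card Ω + (Fintype.card K - 1) := by
    rw [← Finset.add_sum_erase Finset.univ _ (Finset.mem_univ (1 : K))]
    congr 1
    · rw [Fintype.card_congr (Equiv.subtypeUnivEquiv (fun ω => by simp))]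
    · rw [Finset.sum_congr rfl (g := fun _ => 1)]
      · rw [Finset.sum_const, Finset.card_erase_of_mem (Finset.mem_univ _), Finset.card_univ,
          smul_eq_mul, mul_one]
      · intro g hg
        obtain ⟨ω, hω, huniq⟩ := h g (Finset.ne_of_mem_erase hg)
        rw [Fintype.card_eq_one_iff]
        exact ⟨⟨ω, hω⟩, fun y => Subtype.ext (huniq y.1 y.2)⟩
  rw [hL, hC] at hB
  obtain ⟨s, hs⟩ : ∃ s : Quotient (MulAction.orbitRel K Ω) → ℕ,
    s = fun ω => Fintype.card (MulAction.stabilizer K ω.out) := ⟨_, rfl⟩
  have hsd : ∀ o, s o ∣ Fintype.card K := by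
    intro o
    rw [hs]
    have := Subgroup.card_subgroup_dvd_card (MulAction.stabilizer K o.out)
    simpa [Nat.card_eq_fintype_card] using this
  have hsne : ∀ o, s o ≠ Fintype.card K := by
    intro o ho
    obtain ⟨k, hk⟩ := hcon o.out
    apply hk
    have htop : MulAction.stabilizer K o.out = ⊤ := by
      apply Subgroup.eq_top_of_card_eq
      rw [Nat.card_eq_fintype_card, Nat.card_eq_fintype_card]
      rw [hs] at ho
      exact ho
    have : k ∈ MulAction.stabilizer K o.out := by rw [htop]; trivial
    exact this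
  have hB' : ∑ o, Fintype.card K / s o + (Fintype.card K - 1) =
      ∑ _o : Quotient (MulAction.orbitRel K Ω), Fintype.card K := by
    rw [Finset.sum_const, Finset.card_univ, smul_eq_mul, ← hB, hs]
  -- the quotients
  have hq : ∀ o, 2 ≤ Fintype.card K / s o ∧ Fintype.card K / s o ≤ Fintype.card K ∧
      (s o ≠ 1 → 2 * (Fintype.card K / s o) ≤ Fintype.card K) := by
    intro o
    obtain ⟨c, hc⟩ := hsd o
    have hs0 : 0 < s o := Nat.pos_of_dvd_of_pos (hsd o) hn
    have hdiv : Fintype.card K / s o = c := by rw [hc, Nat.mul_div_cancel_left _ hs0]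
    rw [hdiv]
    have hc0 : c ≠ 0 := by
      rintro rfl
      omega
    have hc1 : c ≠ 1 := by
      rintro rfl
      exact hsne o (by rw [hc, mul_one])
    refine ⟨by omega, ?_, ?_⟩
    · rw [hc]
      exact Nat.le_mul_of_pos_left c hs0
    · intro h1
      rw [hc]
      exact Nat.mul_le_mul_right c (by omega)
  obtain ⟨f, hf⟩ : ∃ f : Quotient (MulAction.orbitRel K Ω) → ℕ,
    f = fun o => Fintype.card K - Fintype.card K / s o := ⟨_, rfl⟩
  have hsum : ∑ o, f o = Fintype.card K - 1 := by
    have h1 : ∑ o, f o + ∑ o, Fintype.card K / s o =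
        ∑ _o : Quotient (MulAction.orbitRel K Ω), Fintype.card K := by
      rw [← Finset.sum_add_distrib]
      apply Finset.sum_congr rfl
      intro o _
      rw [hf]
      have := (hq o).2.1
      simp only
      omega
    omega
  have hK2 : 2 ≤ Fintype.card K := by
    obtain ⟨ω⟩ : Nonempty Ω := inferInstance
    have := hq (Quotient.mk _ ω)
    omega
  have hf1 : ∀ o, f o ≤ Fintype.card K - 2 := by
    intro o
    rw [hf]
    have := (hq o).1
    simp only
    omega
  have hf2 : ∀ o, f o ≠ 0 → Fintype.card K ≤ 2 * f o := by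
    intro o ho
    have h1 : s o ≠ 1 := by
      intro h1
      apply ho
      rw [hf]
      simp [h1]
    have := (hq o).2.2 h1
    rw [hf]
    simp only
    omega
  obtain ⟨o1, -, ho1⟩ := Finset.exists_ne_zero_of_sum_ne_zero (s := Finset.univ) (f := f)
    (by rw [hsum]; omega)
  have hsplit := Finset.add_sum_erase Finset.univ f (Finset.mem_univ o1)
  have h3 := hf1 o1
  obtain ⟨o2, ho2m, ho2⟩ := Finset.exists_ne_zero_of_sum_ne_zero (s := Finset.univ.erase o1) (f := f)
    (by omega)
  have h4 : f o2 ≤ ∑ x ∈ Finset.univ.erase o1, f x :=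
    Finset.single_le_sum (fun _ _ => Nat.zero_le _) ho2m
  have h5 := hf2 o1 ho1
  have h6 := hf2 o2 ho2
  omega

end Cfsg.Agent.Lib.helper6_UniqueFix
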