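import Mathlib
import Cfsg.Prelude.Def_Blocks
import Cfsg.Prelude.Def_BlockRank
import Cfsg.Agent.Lib.helper8_SubSec
import Cfsg.Agent.Lib.Helper2_BlockOrtho

set_option autoImplicit false

namespace Cfsg.Agent.Lib.helper8_Broue

open Cfsg Cfsg.Agent.Lib.CharBasic Cfsg.Agent.Lib.CharOrtho
  Cfsg.Agent.Lib.CharComplete Cfsg.Agent.Lib.CharIntegral Cfsg.Agent.Lib.CharMore
  Cfsg.Agent.Lib.helper8_BlockRank Cfsg.Agent.Lib.helper8_RegularPart
  Cfsg.Agent.Lib.helper8_BlockSum Cfsg.Agent.Lib.helper8_Defect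
  Cfsg.Agent.Lib.Helper2_BlockLocal Cfsg.Agent.Lib.Helper2_BlockOm
  Cfsg.Agent.Lib.helper8_Height Cfsg.Agent.Lib.helper8_Height2
  Cfsg.Agent.Lib.Helper2_PPart Cfsg.Agent.Lib.helper8_SubSec
  Cfsg.Agent.Lib.Helper2_BlockOrtho
open scoped ComplexConjugate Classical

universe u

variable {G : Type u} [Group G] [Fintype G] {p : ℕ} {M : Ideal AlgInt}

/-- Evaluating at `1` a combination of irreducible characters vanishing on the `p`-singular
elements. -/
theorem exists_tt (hp : p.Prime) : ∃ t : IrrCharacter G → ℕ, ∀ c : IrrCharacter G → ℂ,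
    (∀ g : G, p ∣ orderOf g → ∑ χ : IrrCharacter G, c χ * (χ : G → ℂ) g = 0) →
    ∑ χ : IrrCharacter G, c χ * (χ : G → ℂ) 1 =
      ((p ^ (Nat.card G).factorization p : ℕ) : ℂ) * ∑ χ : IrrCharacter G, c χ * (t χ : ℂ) := by
  have : Fact p.Prime := ⟨hp⟩
  obtain ⟨P⟩ : Nonempty (Sylow p G) := inferInstance
  choose t ht using fun χ : IrrCharacter G =>
    sum_subgroup_nat (isCharacter_of_isIrr χ.2) (P : Subgroup G)
  have hcard : Nat.card (P : Subgroup G) = p ^ (Nat.card G).factorization p :=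
    Sylow.card_eq_multiplicity P
  refine ⟨t, fun c hc => ?_⟩
  have h1 := sum_pgroup_of_vanish hp (fun g => ∑ χ : IrrCharacter G, c χ * (χ : G → ℂ) g) hc
    (P : Subgroup G) P.2
  rw [← h1, Finset.sum_comm, Finset.mul_sum]
  refine Finset.sum_congr rfl fun χ _ => ?_
  rw [← Finset.mul_sum, ht χ, hcard]
  ring

/-- The multiplicities of the trivial character of a Sylow subgroup. -/
noncomputable def tt (hp : p.Prime) : IrrCharacter G → ℕ := (exists_tt (G := G) hp).choose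

theorem tt_spec (hp : p.Prime) (c : IrrCharacter G → ℂ)
    (hc : ∀ g : G, p ∣ orderOf g → ∑ χ : IrrCharacter G, c χ * (χ : G → ℂ) g = 0) :
    ∑ χ : IrrCharacter G, c χ * (χ : G → ℂ) 1 =
      ((p ^ (Nat.card G).factorization p : ℕ) : ℂ) * ∑ χ : IrrCharacter G, c χ * (tt hp χ : ℂ) :=
  (exists_tt (G := G) hp).choose_spec c hc

/-- The weighted degree sum of a block. -/
noncomputable def WW (hp : p.Prime) (B : Set (IrrCharacter G)) : ℂ :=
  ∑ χ ∈ Finset.univ.filter (fun χ : IrrCharacter G => χ ∈ B),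
    (charDegree (χ : G → ℂ) : ℂ) * (tt hp χ : ℂ)

theorem rho_vanish (hM : IsPModular p M) {B : Set (IrrCharacter G)} (hB : IsPBlock M B) {g : G}
    (hg : p ∣ orderOf g) :
    ∑ χ : IrrCharacter G, (if χ ∈ B then (χ : G → ℂ) 1 else 0) * (χ : G → ℂ) g = 0 := by
  have hG : (Nat.card G : ℂ) ≠ 0 := by exact_mod_cast Nat.card_pos.ne'
  have h1 := blockCoeff_singular hM hB (y := g⁻¹) (by rw [orderOf_inv]; exact hg)
  unfold blockCoeff at h1
  have h2 := (mul_eq_zero.mp h1).resolve_left (inv_ne_zero hG)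
  rw [finsum_block, Finset.sum_filter] at h2
  refine Eq.trans ?_ h2
  refine Finset.sum_congr rfl fun χ _ => ?_
  rw [inv_of_isCharacter (isCharacter_of_isIrr χ.2), Complex.conj_conj]
  split_ifs <;> simp

/-- The sum of the squares of the degrees in terms of the weighted degree sum. -/
theorem sum_sq_eq (hM : IsPModular p M) {B : Set (IrrCharacter G)} (hB : IsPBlock M B) :
    ((∑ χ ∈ Finset.univ.filter (fun χ : IrrCharacter G => χ ∈ B),
      charDegree (χ : G → ℂ) ^ 2 : ℕ) : ℂ) =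
      ((p ^ (Nat.card G).factorization p : ℕ) : ℂ) * WW hM.1 B := by
  have h1 := tt_spec hM.1 (fun χ : IrrCharacter G => if χ ∈ B then (χ : G → ℂ) 1 else 0)
    (fun g hg => rho_vanish hM hB hg)
  unfold WW
  rw [Finset.sum_filter, Finset.sum_filter, Nat.cast_sum]
  refine Eq.trans ?_ (h1.trans ?_)
  · refine Finset.sum_congr rfl fun χ _ => ?_
    obtain ⟨-, hd1, -⟩ := irr_charDegree χ.2
    split_ifs
    · rw [hd1]; push_cast; ring
    · simp
  · congr 1
    refine Finset.sum_congr rfl fun χ _ => ?_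
    obtain ⟨-, hd1, -⟩ := irr_charDegree χ.2
    split_ifs
    · rw [hd1]
    · simp

/-- The weighted degree sum of a block has exact valuation `mu`. -/
theorem WW_unit (hM : IsPModular p M) {B : Set (IrrCharacter G)} (hB : IsPBlock M B) :
    ∃ w : ℕ, ¬ p ∣ w ∧ WW hM.1 B = (p : ℂ) ^ mu p B * (w : ℂ) := by
  have hP := isPrime_of_modular hM
  have hp := hM.1
  have hp0 : (p : ℂ) ≠ 0 := by exact_mod_cast hp.ne_zero
  obtain ⟨χ0, hχ0, hmin⟩ := exists_min hP p hB
  -- the reduced degrees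
  have hdv : ∀ χ : IrrCharacter G, χ ∈ B → p ^ mu p B ∣ charDegree (χ : G → ℂ) := by
    intro χ hχ
    exact (pow_dvd_pow p (mu_le p hχ)).trans (Nat.ordProj_dvd _ p)
  set δ : IrrCharacter G → ℕ := fun χ => charDegree (χ : G → ℂ) / p ^ mu p B with hδ
  have hδ' : ∀ χ : IrrCharacter G, χ ∈ B →
      (charDegree (χ : G → ℂ) : ℂ) = (p : ℂ) ^ mu p B * (δ χ : ℂ) := by
    intro χ hχ
    have := Nat.mul_div_cancel' (hdv χ hχ)
    have h2 : ((p ^ mu p B * (charDegree (χ : G → ℂ) / p ^ mu p B) : ℕ) : ℂ) =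
        (charDegree (χ : G → ℂ) : ℂ) := by rw [this]
    rw [← h2]
    push_cast
    rfl
  set S := Finset.univ.filter (fun χ : IrrCharacter G => χ ∈ B) with hS
  refine ⟨∑ χ ∈ S, δ χ * tt hp χ, ?_, ?_⟩
  swap
  · unfold WW
    rw [Nat.cast_sum, Finset.mul_sum]
    refine Finset.sum_congr rfl fun χ hχ => ?_
    rw [hδ' χ (Finset.mem_filter.mp hχ).2]
    push_cast
    ring
  intro hdvd
  -- the degree of `χ0`
  have hcf := pRegularPart_classFunction p (irr_classFunction χ0)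
  have hexp := classFunction_expansion _ hcf
  have h1 := tt_spec hp (fun χ : IrrCharacter G =>
    classInner (pRegularPart p (χ0 : G → ℂ)) (χ : G → ℂ)) (by
      intro g hg
      have := congrFun hexp g
      rw [pRegularPart_singular _ hg, Finset.sum_apply] at this
      exact this.symm)
  have h2 : ∑ χ : IrrCharacter G, classInner (pRegularPart p (χ0 : G → ℂ)) (χ : G → ℂ) *
      (χ : G → ℂ) 1 = (χ0 : G → ℂ) 1 := by
    have := congrFun hexp 1
    rw [pRegularPart_regular _ (by rw [orderOf_one]; exact hp.one_lt.ne' ∘ Nat.dvd_one.mp),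
      Finset.sum_apply] at this
    exact this.symm
  rw [h2, Finset.mul_sum] at h1
  obtain ⟨c0, c1, -⟩ := irr_charDegree χ0.2
  set m' := Nat.card G / p ^ (Nat.card G).factorization p with hm'
  have h3 : (m' : ℂ) * (δ χ0 : ℂ) = ∑ χ ∈ S, (δ χ : ℂ) * Q p χ χ0 * (tt hp χ : ℂ) := by
    have h4 : (p : ℂ) ^ mu p B * ((m' : ℂ) * (δ χ0 : ℂ)) =
        (p : ℂ) ^ mu p B * ∑ χ ∈ S, (δ χ : ℂ) * Q p χ χ0 * (tt hp χ : ℂ) := by
      rw [← mul_assoc, mul_comm ((p : ℂ) ^ mu p B), mul_assoc, ← hδ' χ0 hχ0, ← c1, h1,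
        Finset.mul_sum, Finset.mul_sum, hS, Finset.sum_filter]
      refine Finset.sum_congr rfl fun χ _ => ?_
      have e1 : (m' : ℂ) * (((p ^ (Nat.card G).factorization p : ℕ) : ℂ) *
          (classInner (pRegularPart p (χ0 : G → ℂ)) (χ : G → ℂ) * (tt hp χ : ℂ))) =
          (m' : ℂ) * ((nn hp χ0 χ : ℤ) : ℂ) * (tt hp χ : ℂ) := by
        rw [nn_spec hp]; ring
      rw [e1]
      split_ifs with hχ
      · have := Q_eq hp χ χ0
        rw [hδ' χ hχ] at this
        rw [nn_symm, ← this]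
        ring
      · rw [nn_eq_zero hM hB hχ0 hχ]
        simp
    exact mul_left_cancel₀ (pow_ne_zero _ hp0) h4
  have h5 : MemLocalIdeal M ((m' : ℂ) * (δ χ0 : ℂ)) := by
    have e : (m' : ℂ) * (δ χ0 : ℂ) = Q p χ0 χ0 * ((∑ χ ∈ S, δ χ * tt hp χ : ℕ) : ℂ) +
        ∑ χ ∈ S, (Q p χ χ0 - Q p χ0 χ0) * ((δ χ * tt hp χ : ℕ) : ℂ) := by
      rw [h3, Nat.cast_sum, Finset.mul_sum, ← Finset.sum_add_distrib]
      refine Finset.sum_congr rfl fun χ _ => ?_
      push_cast
      ring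
    rw [e]
    apply ideal_add hP
    · exact ideal_mul_left hP (Q_ring hP p χ0 χ0) ((ideal_natCast_iff hM _).mpr hdvd)
    · refine ideal_sum hP _ _ fun χ hχ => ?_
      exact ideal_mul_right hP
        (Q_congr hP p (sameBlock_of_mem hP hB (Finset.mem_filter.mp hχ).2 hχ0) χ0)
        (ring_natCast hP _)
  rw [← Nat.cast_mul, ideal_natCast_iff hM] at h5
  rcases (Nat.Prime.dvd_mul hp).mp h5 with h | h
  · exact Nat.not_dvd_ordCompl hp Nat.card_pos.ne' h
  · rw [hδ, ← hmin] at h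
    exact Nat.not_dvd_ordCompl hp c0.ne' h

end Cfsg.Agent.Lib.helper8_Broue
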