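import Mathlib
import Cfsg.Prelude.Def_Blocks
import Cfsg.Prelude.Def_BlockRank
import Cfsg.Agent.Lib.helper8_Broue
import Cfsg.Agent.Lib.helper8_Center

set_option autoImplicit false

namespace Cfsg.Agent.Lib.helper8_Broue2

open Cfsg Cfsg.Agent.Lib.CharBasic Cfsg.Agent.Lib.CharOrtho
  Cfsg.Agent.Lib.CharComplete Cfsg.Agent.Lib.CharIntegral Cfsg.Agent.Lib.CharMore
  Cfsg.Agent.Lib.helper8_BlockRank Cfsg.Agent.Lib.helper8_RegularPart
  Cfsg.Agent.Lib.helper8_BlockSum Cfsg.Agent.Lib.helper8_Defect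
  Cfsg.Agent.Lib.Helper2_BlockLocal Cfsg.Agent.Lib.Helper2_BlockOm
  Cfsg.Agent.Lib.helper8_Height Cfsg.Agent.Lib.helper8_Height2
  Cfsg.Agent.Lib.Helper2_PPart Cfsg.Agent.Lib.helper8_SubSec
  Cfsg.Agent.Lib.Helper2_BlockOrtho Cfsg.Agent.Lib.Helper2_BlockOrtho2
  Cfsg.Agent.Lib.helper8_Broue Cfsg.Agent.Lib.helper8_Center
open scoped ComplexConjugate Classical

universe u

variable {G : Type u} [Group G] [Fintype G] {p : ℕ} {M : Ideal AlgInt}

theorem Om_ideal (hP : M.IsPrime) {c : G → ℂ}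
    (hc : IsClassFunction G c) (hJ : ∀ g, MemLocalIdeal M (c g)) {χ : G → ℂ}
    (hχ : IsIrrCharacter G χ) : MemLocalIdeal M (Om c χ) := by
  rw [Om_eq_sum_classes hc (isClassFunction_of_isCharacter (isCharacter_of_isIrr hχ))]
  exact ideal_sum hP _ _ fun C _ =>
    ideal_mul_right hP (hJ _) (ring_of_isIntegral hP (centralChar_isIntegral hχ _))

/-- The normalised generalized decomposition coefficient. -/
noncomputable def uu (p : ℕ) (y : G) (H : Subgroup G) (χ : IrrCharacter G) (ξ : IrrCharacter H) : ℂ :=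
  (Nat.card H : ℂ) * aa p y H χ ξ / (ξ : H → ℂ) 1

theorem uu_sub_QH (hM : IsPModular p M) {y : G} {H : Subgroup G}
    (hH : H = Subgroup.centralizer ({y} : Set G)) (hy : ∃ k : ℕ, orderOf y = p ^ k)
    (χ : IrrCharacter G) (ξ : IrrCharacter H) :
    MemLocalIdeal M (uu p y H χ ξ - QH p H ξ χ) := by
  have hP := isPrime_of_modular hM
  have hχc := isCharacter_of_isIrr χ.2
  have hHc : (Nat.card H : ℂ) ≠ 0 := by exact_mod_cast Nat.card_pos.ne'
  set δ : H → ℂ := pRegularPart p (fun h : H => (χ : G → ℂ) (y * (h : G)⁻¹) - (χ : G → ℂ) (h : G)⁻¹)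
    with hδ
  have hδc : IsClassFunction H δ := by
    apply pRegularPart_classFunction
    intro h t
    have ht := Subgroup.mem_centralizer_singleton_iff.mp (by rw [← hH]; exact t.2)
    have hcf := isClassFunction_of_isCharacter hχc
    have e1 : y * ((t * h * t⁻¹ : H) : G)⁻¹ = (t : G) * (y * (h : G)⁻¹) * (t : G)⁻¹ := by
      simp only [Subgroup.coe_mul, Subgroup.coe_inv, mul_inv_rev, inv_inv]
      calc y * ((t : G) * ((h : G)⁻¹ * (t : G)⁻¹)) = (y * (t : G)) * ((h : G)⁻¹ * (t : G)⁻¹) := by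
            group
        _ = ((t : G) * y) * ((h : G)⁻¹ * (t : G)⁻¹) := by rw [ht]
        _ = _ := by group
    have e2 : ((t * h * t⁻¹ : H) : G)⁻¹ = (t : G) * (h : G)⁻¹ * (t : G)⁻¹ := by
      simp only [Subgroup.coe_mul, Subgroup.coe_inv, mul_inv_rev, inv_inv]
      group
    show (χ : G → ℂ) (y * ((t * h * t⁻¹ : H) : G)⁻¹) - (χ : G → ℂ) ((t * h * t⁻¹ : H) : G)⁻¹ = _
    rw [e1, e2, hcf, hcf]
  have hδJ : ∀ h : H, MemLocalIdeal M (δ h) := by
    intro h
    by_cases hh : p ∣ orderOf h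
    · rw [hδ, pRegularPart_singular _ hh]; exact ideal_zero hP
    · rw [hδ, pRegularPart_regular _ hh]
      have hc : Commute y (h : G)⁻¹ := by
        have := Subgroup.mem_centralizer_singleton_iff.mp (by rw [← hH]; exact h.2)
        exact (Commute.inv_right (show Commute y (h : G) from this.symm))
      have := Cfsg.Agent.Lib.Helper2_BlockSection.char_congr_pPart hM hχc hc hy
        (by rw [orderOf_inv, Subgroup.orderOf_coe]; exact hh)
      exact ideal_sub_comm this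
  have hOm := Om_ideal hP hδc hδJ ξ.2
  have key : Om δ (ξ : H → ℂ) = uu p y H χ ξ - QH p H ξ χ := by
    rw [QH_eq]
    unfold uu aa Om classInner
    rw [← sub_div]
    congr 1
    rw [← mul_assoc, mul_inv_cancel₀ hHc, one_mul, ← mul_assoc, mul_inv_cancel₀ hHc, one_mul,
      ← Finset.sum_sub_distrib, ← Equiv.sum_comp (Equiv.inv H)]
    refine Finset.sum_congr rfl fun h _ => ?_
    simp only [Equiv.inv_apply]
    have ho : orderOf (h⁻¹ : H) = orderOf h := orderOf_inv h
    by_cases hh : p ∣ orderOf h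
    · rw [hδ, pRegularPart_singular _ (by rw [ho]; exact hh), pRegularPart_singular _ hh,
        pRegularPart_singular _ hh]
      simp
    · rw [hδ, pRegularPart_regular _ (by rw [ho]; exact hh), pRegularPart_regular _ hh,
        pRegularPart_regular _ hh, inv_of_isCharacter (isCharacter_of_isIrr ξ.2), sh_apply]
      simp only [Subgroup.coe_inv, inv_inv]
      ring
  rw [← key]
  exact hOm

theorem uu_congr (hM : IsPModular p M) {y : G} {H : Subgroup G}
    (hH : H = Subgroup.centralizer ({y} : Set G)) (hy : ∃ k : ℕ, orderOf y = p ^ k)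
    {b : Set (IrrCharacter H)} {B : Set (IrrCharacter G)} (hind : IsInducedBlock M H b B)
    {ξ : IrrCharacter H} (hξ : ξ ∈ b) {χ0 : IrrCharacter G} (hχ0 : χ0 ∈ B) (χ : IrrCharacter G) :
    MemLocalIdeal M (uu p y H χ ξ - Q p χ0 χ) := by
  have hP := isPrime_of_modular hM
  exact ideal_sub_trans hP (uu_sub_QH hM hH hy χ ξ) (QH_congr hP hind hξ hχ0 χ)

theorem aa_eq_uu (y : G) (H : Subgroup G) (χ : IrrCharacter G) (ξ : IrrCharacter H) :
    (Nat.card H : ℂ) * aa p y H χ ξ = uu p y H χ ξ * (charDegree (ξ : H → ℂ) : ℂ) := by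
  obtain ⟨d0, d1, -⟩ := irr_charDegree ξ.2
  have hd0' : (charDegree (ξ : H → ℂ) : ℂ) ≠ 0 := by exact_mod_cast d0.ne'
  unfold uu
  rw [d1]
  field_simp

omit [Fintype G] in
theorem singular_of_isPPart (hp : p.Prime) {u z : G} (h : IsPPart p u z) (hz : z ≠ 1) :
    p ∣ orderOf u := by
  obtain ⟨y, hxy, hc, ⟨k, hk⟩, hy⟩ := h
  have hk0 : k ≠ 0 := by
    rintro rfl
    rw [pow_zero, orderOf_eq_one_iff] at hk
    exact hz hk
  have hcop : Nat.Coprime (orderOf z) (orderOf y) := by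
    rw [hk]
    exact Nat.Coprime.pow_left _ ((Nat.Prime.coprime_iff_not_dvd hp).mpr hy)
  rw [← hxy, hc.orderOf_mul_eq_mul_orderOf_of_coprime hcop, hk]
  exact Dvd.dvd.mul_right (dvd_pow_self p hk0) _

omit [Fintype G] in
theorem isPPart_ne_one {u z : G} (h : IsPPart p u z) (hu : p ∣ orderOf u) : z ≠ 1 := by
  rintro rfl
  obtain ⟨y, hxy, -, -, hy⟩ := h
  rw [one_mul] at hxy
  rw [hxy] at hy
  exact hy hu

/-- The block part of a function vanishing on the singular elements vanishes there. -/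
theorem FF_vanish (hM : IsPModular p M) {b : Set (IrrCharacter G)} (hb : IsPBlock M b) (ϑ : G → ℂ)
    (hv : ∀ u, p ∣ orderOf u → ϑ u = 0) {u : G} (hu : p ∣ orderOf u) :
    ∑ ξ : IrrCharacter G, (if ξ ∈ b then classInner ϑ (ξ : G → ℂ) else 0) * (ξ : G → ℂ) u = 0 := by
  have hp := hM.1
  obtain ⟨a, ha⟩ := exists_isPPart hp u
  have hz := isPPart_ne_one ha hu
  have h1 := blockPart_section hM (ϑ := ϑ) (x := u ^ a) (by
    intro u' z' hu' hc
    apply hv
    apply singular_of_isPPart hp hu'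
    rintro rfl
    exact hz (isConj_one_left.mp hc)) hb ha (IsConj.refl _)
  rw [blockPart_apply, Finset.sum_filter] at h1
  refine Eq.trans ?_ h1
  refine Finset.sum_congr rfl fun ξ _ => ?_
  split_ifs <;> simp

theorem deg_eq {b : Set (IrrCharacter G)} {ξ : IrrCharacter G} (hξ : ξ ∈ b) :
    (charDegree (ξ : G → ℂ) : ℂ) =
      (p : ℂ) ^ mu p b * ((charDegree (ξ : G → ℂ) / p ^ mu p b : ℕ) : ℂ) := by
  have hdv : p ^ mu p b ∣ charDegree (ξ : G → ℂ) :=
    (pow_dvd_pow p (mu_le p hξ)).trans (Nat.ordProj_dvd _ p)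
  have := Nat.mul_div_cancel' hdv
  have h2 : ((p ^ mu p b * (charDegree (ξ : G → ℂ) / p ^ mu p b) : ℕ) : ℂ) =
      (charDegree (ξ : G → ℂ) : ℂ) := by rw [this]
  rw [← h2]
  push_cast
  rfl

theorem card_eq_mul (hp : p.Prime) : (Nat.card G : ℂ) =
    ((p ^ (Nat.card G).factorization p : ℕ) : ℂ) *
      ((Nat.card G / p ^ (Nat.card G).factorization p : ℕ) : ℂ) := by
  rw [← Nat.cast_mul, Nat.ordProj_mul_ordCompl_eq_self]

theorem Q_unit (hM : IsPModular p M) {B : Set (IrrCharacter G)} (hB : IsPBlock M B)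
    {χ : IrrCharacter G} (hχ : χ ∈ B) (h0 : blockHeight p B (χ : G → ℂ) = 0) :
    ¬ MemLocalIdeal M (Q p χ χ) := by
  rw [unit_iff hM]
  apply height_zero_val hM hB hχ hχ
  intro φ hφ
  rw [blockHeight_eq] at h0
  have := mu_le p hφ
  omega

/-- The value at `1` of the `b`-part of the shifted character has exact valuation `mu b`. -/
theorem UU_unit (hM : IsPModular p M) {y : G} {H : Subgroup G}
    (hH : H = Subgroup.centralizer ({y} : Set G)) (hy : ∃ k : ℕ, orderOf y = p ^ k)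
    {b : Set (IrrCharacter H)} {B : Set (IrrCharacter G)} (hind : IsInducedBlock M H b B)
    {χ : IrrCharacter G} (hχ : χ ∈ B) (h0 : blockHeight p B (χ : G → ℂ) = 0) :
    ∃ r : ℂ, MemLocalRing M r ∧ ¬ MemLocalIdeal M r ∧
      ∑ ξ ∈ Finset.univ.filter (fun ξ : IrrCharacter H => ξ ∈ b),
        aa p y H χ ξ * (charDegree (ξ : H → ℂ) : ℂ) = (p : ℂ) ^ mu p b * r := by
  have hP := isPrime_of_modular hM
  have hp := hM.1
  have hp0 : (p : ℂ) ≠ 0 := by exact_mod_cast hp.ne_zero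
  obtain ⟨w, hw, hW⟩ := WW_unit hM hind.1
  set S := Finset.univ.filter (fun ξ : IrrCharacter H => ξ ∈ b) with hS
  set q := Q p χ χ with hq
  have hqu := Q_unit hM hind.2.1 hχ h0
  set mH := Nat.card H / p ^ (Nat.card H).factorization p with hmH
  have hmH' : ¬ p ∣ mH := Nat.not_dvd_ordCompl hp Nat.card_pos.ne'
  have hmH0 : (mH : ℂ) ≠ 0 := by
    intro h
    have : mH = 0 := by exact_mod_cast h
    exact hmH' (this ▸ dvd_zero p)
  set E := ∑ ξ ∈ S, (uu p y H χ ξ - q) *
    (((charDegree (ξ : H → ℂ) / p ^ mu p b * tt hp ξ : ℕ)) : ℂ) with hE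
  have hEJ : MemLocalIdeal M E := by
    refine ideal_sum hP _ _ fun ξ hξ => ?_
    exact ideal_mul_right hP (uu_congr hM hH hy hind (Finset.mem_filter.mp hξ).2 hχ χ)
      (ring_natCast hP _)
  have hnum : ¬ MemLocalIdeal M (q * (w : ℂ) + E) := by
    intro h
    have h2 : MemLocalIdeal M (q * (w : ℂ)) := by
      have := ideal_sub hP h hEJ
      rwa [add_sub_cancel_right] at this
    exact not_ideal_mul hP (Q_ring hP p χ χ) (ring_natCast hP w) hqu
      (fun h3 => hw ((ideal_natCast_iff hM w).mp h3)) h2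
  have hnumR : MemLocalRing M (q * (w : ℂ) + E) :=
    ring_add hP (ring_mul hP (Q_ring hP p χ χ) (ring_natCast hP w)) (ideal_ring hEJ)
  refine ⟨(q * (w : ℂ) + E) * (mH : ℂ)⁻¹, ring_mul hP hnumR (ring_inv_natCast hM hmH'), ?_, ?_⟩
  · intro h
    apply hnum
    have := ideal_mul_right hP h (ring_natCast hP mH)
    rwa [mul_assoc, inv_mul_cancel₀ hmH0, mul_one] at this
  have h1 := tt_spec (G := H) hp (fun ξ : IrrCharacter H => if ξ ∈ b then aa p y H χ ξ else 0)
    (fun g hg => FF_vanish hM hind.1 _ (fun u hu => pRegularPart_singular _ hu) hg)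
  have h2 : ∑ ξ ∈ S, aa p y H χ ξ * (charDegree (ξ : H → ℂ) : ℂ) =
      ∑ ξ : IrrCharacter H, (if ξ ∈ b then aa p y H χ ξ else 0) * (ξ : H → ℂ) 1 := by
    rw [hS, Finset.sum_filter]
    refine Finset.sum_congr rfl fun ξ _ => ?_
    obtain ⟨-, d1, -⟩ := irr_charDegree ξ.2
    split_ifs
    · rw [d1]
    · simp
  rw [h2, h1]
  have h3 : (mH : ℂ) * (((p ^ (Nat.card H).factorization p : ℕ) : ℂ) *
      ∑ ξ : IrrCharacter H, (if ξ ∈ b then aa p y H χ ξ else 0) * (tt hp ξ : ℂ)) =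
      (p : ℂ) ^ mu p b * (q * (w : ℂ) + E) := by
    rw [← mul_assoc, mul_comm (mH : ℂ), ← card_eq_mul hp, Finset.mul_sum, mul_add, ← mul_assoc,
      mul_comm ((p : ℂ) ^ mu p b) q, mul_assoc, ← hW, hE, Finset.mul_sum]
    unfold WW
    rw [Finset.mul_sum, ← Finset.sum_add_distrib, ← hS, hS, Finset.sum_filter]
    refine Finset.sum_congr rfl fun ξ _ => ?_
    split_ifs with hξ
    · rw [← mul_assoc, aa_eq_uu]
      have := deg_eq (p := p) hξ
      push_cast
      push_cast at this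
      rw [this]
      ring
    · simp
  field_simp
  rw [← h3]
  ring

end Cfsg.Agent.Lib.helper8_Broue2
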