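import Mathlib
import Cfsg.Prelude.Def_Blocks
import Cfsg.Prelude.Def_BlockRank
import Cfsg.Agent.Lib.helper8_SubSec
import Cfsg.Agent.Lib.helper8_Center
import Cfsg.Agent.Lib.Helper2_BlockThird

set_option autoImplicit false

namespace Cfsg.Agent.Lib.helper8_Major

open Cfsg Cfsg.Agent.Lib.CharBasic Cfsg.Agent.Lib.CharOrtho
  Cfsg.Agent.Lib.CharComplete Cfsg.Agent.Lib.CharIntegral Cfsg.Agent.Lib.CharMore
  Cfsg.Agent.Lib.CharInd Cfsg.Agent.Lib.CharGen
  Cfsg.Agent.Lib.helper8_BlockRank Cfsg.Agent.Lib.helper8_RegularPart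
  Cfsg.Agent.Lib.helper8_BlockSum Cfsg.Agent.Lib.helper8_Defect
  Cfsg.Agent.Lib.Helper2_BlockLocal Cfsg.Agent.Lib.Helper2_BlockOm
  Cfsg.Agent.Lib.helper8_Height Cfsg.Agent.Lib.helper8_Height2
  Cfsg.Agent.Lib.Helper2_PPart Cfsg.Agent.Lib.Helper2_SecondMain2
  Cfsg.Agent.Lib.Helper2_BlockOrtho2 Cfsg.Agent.Lib.Helper2_BlockBrauer
  Cfsg.Agent.Lib.Helper2_BlockFMT Cfsg.Agent.Lib.helper8_SubSec Cfsg.Agent.Lib.helper8_Center
  Cfsg.Agent.Lib.Helper2_BlockDefOrder Cfsg.Agent.Lib.Helper2_BlockDefect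
open scoped ComplexConjugate Classical

universe u

variable {G : Type u} [Group G] [Fintype G] {p : ℕ} {M : Ideal AlgInt}

/-- The defect of an induced block. -/
theorem defect_le_induced [Fact p.Prime] (hM : IsPModular p M) {H : Subgroup G}
    {b : Set (IrrCharacter H)} {B : Set (IrrCharacter G)} (hind : IsInducedBlock M H b B) :
    blockDefect p b ≤ blockDefect p B := by
  have hPr := isPrime_of_modular hM
  obtain ⟨D, hD⟩ := exists_defectGroup (p := p) hPr hind.1
  obtain ⟨E, hE, hDE⟩ := defect_le_of_induced hM hind hD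
  have h1 := card_defectGroup hM hind.1 hD
  have h2 := card_defectGroup hM hind.2.1 hE
  have h3 : Nat.card (D.map H.subtype) = Nat.card D :=
    Subgroup.card_map_of_injective (Subgroup.subtype_injective _)
  have h4 : Nat.card (D.map H.subtype) ≤ Nat.card E :=
    Nat.card_le_card_of_injective _ (Subgroup.inclusion_injective hDE)
  rw [h3, h1, h2] at h4
  exact (Nat.pow_le_pow_iff_right hM.1.one_lt).mp h4

/-- The coefficients of a shifted character: a central character value times a multiplicity. -/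
theorem inner_sh {x : G} {H : Subgroup G} (hH : H = Subgroup.centralizer ({x} : Set G))
    (χ : G → ℂ) (ψ : IrrCharacter H) (hxH : x ∈ H) :
    classInner (sh x H χ) (ψ : H → ℂ) =
      ((ψ : H → ℂ) ⟨x, hxH⟩ / (ψ : H → ℂ) 1) * classInner (fun h : H => χ h) (ψ : H → ℂ) := by
  have hψc := isCharacter_of_isIrr ψ.2
  set xH : H := ⟨x, hxH⟩ with hxHdef
  have hcen : ∀ g : H, g * xH⁻¹ = xH⁻¹ * g := by
    intro g
    have h1 := Subgroup.mem_centralizer_singleton_iff.mp
      (show (g : G) ∈ Subgroup.centralizer {x} by rw [← hH]; exact g.2)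
    have h2 : g * xH = xH * g := Subtype.ext h1
    calc g * xH⁻¹ = xH⁻¹ * (xH * g) * xH⁻¹ := by group
      _ = xH⁻¹ * (g * xH) * xH⁻¹ := by rw [h2]
      _ = xH⁻¹ * g := by group
  unfold classInner
  rw [mul_left_comm]
  congr 1
  rw [Finset.mul_sum, ← Equiv.sum_comp (Equiv.mulLeft xH)
    (fun h : H => (ψ : H → ℂ) xH / (ψ : H → ℂ) 1 * (χ h * conj ((ψ : H → ℂ) h)))]
  refine Finset.sum_congr rfl fun c _ => ?_
  rw [Equiv.coe_mulLeft, sh_apply]
  have e1 : (ψ : H → ℂ) c = (ψ : H → ℂ) (xH * c) * ((ψ : H → ℂ) xH⁻¹ / (ψ : H → ℂ) 1) := by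
    rw [← central_mul ψ.2 hcen]
    rw [hcen]; group
  obtain ⟨hd0, hd1, -⟩ := irr_charDegree ψ.2
  have hd0' : (charDegree (ψ : H → ℂ) : ℂ) ≠ 0 := by exact_mod_cast hd0.ne'
  conv_lhs => rw [e1]
  rw [map_mul, map_div₀, inv_of_isCharacter hψc, Complex.conj_conj, hd1, Complex.conj_natCast]
  show χ (x * (c : G)) * _ = _ * (χ (x * (c : G)) * _)
  ring

theorem inner_sh_ring (hPr : M.IsPrime) {x : G} {H : Subgroup G}
    (hH : H = Subgroup.centralizer ({x} : Set G))
    {χ : G → ℂ} (hχ : IsCharacter G χ) (ψ : IrrCharacter H) :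
    MemLocalRing M (classInner (sh x H χ) (ψ : H → ℂ)) := by
  have hxH : x ∈ H := by
    rw [hH, Subgroup.mem_centralizer_singleton_iff]
  rw [inner_sh hH χ ψ hxH]
  obtain ⟨m, hm, -⟩ := exists_mult (isCharacter_restrict H hχ)
  rw [hm ψ]
  refine ring_mul hPr (ring_of_isIntegral hPr ?_) (ring_natCast hPr _)
  have h1 := centralChar_isIntegral ψ.2 (⟨x, hxH⟩ : H)
  unfold centralChar at h1
  have h2 : Subgroup.centralizer ({(⟨x, hxH⟩ : H)} : Set H) = ⊤ := by
    rw [eq_top_iff]
    intro g _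
    rw [Subgroup.mem_centralizer_singleton_iff]
    have h1 := Subgroup.mem_centralizer_singleton_iff.mp
      (show (g : G) ∈ Subgroup.centralizer {x} by rw [← hH]; exact g.2)
    exact Subtype.ext h1
  rw [h2, Subgroup.index_top, Nat.cast_one, one_mul] at h1
  exact h1

/-- If an irreducible character is a unit at `g`, its degree has small valuation. -/
theorem degree_val_le_of_unit (hM : IsPModular p M) (ψ : IrrCharacter G) {g : G}
    (hg : ¬ MemLocalIdeal M ((ψ : G → ℂ) g)) :
    (charDegree (ψ : G → ℂ)).factorization p ≤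
      (Subgroup.centralizer ({g} : Set G)).index.factorization p := by
  have hPr := isPrime_of_modular hM
  by_contra hlt
  push Not at hlt
  obtain ⟨hd0, hd1, -⟩ := irr_charDegree ψ.2
  have hd0' : (charDegree (ψ : G → ℂ) : ℂ) ≠ 0 := by exact_mod_cast hd0.ne'
  have hi0 : ((Subgroup.centralizer ({g} : Set G)).index : ℂ) ≠ 0 := by
    exact_mod_cast Subgroup.index_ne_zero_of_finite
  apply hg
  have h1 := ideal_of_ratio hM (A := charDegree (ψ : G → ℂ))
    (B := (Subgroup.centralizer ({g} : Set G)).index) hd0.ne' Subgroup.index_ne_zero_of_finite hlt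
  have h2 := ideal_mul_right hPr h1 (ring_of_isIntegral hPr (centralChar_isIntegral ψ.2 g))
  convert h2 using 1
  unfold centralChar
  rw [hd1]
  field_simp

/-- Existence of major subsections. -/
theorem exists_major [Fact p.Prime] (hM : IsPModular p M) {B : Set (IrrCharacter G)}
    (hB : IsPBlock M B) {D : Subgroup G} (hD : IsDefectGroup p M B D) {y : G} (hyD : y ∈ D)
    (hyc : ∀ d ∈ D, d * y = y * d) :
    ∃ b : Set (IrrCharacter (Subgroup.centralizer ({y} : Set G))),
      IsInducedBlock M (Subgroup.centralizer ({y} : Set G)) b B ∧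
        blockDefect p B ≤ blockDefect p b := by
  have hPr := isPrime_of_modular hM
  have hp := hM.1
  obtain ⟨g0, hg0, hDg, hcard⟩ := isDefectGroup_iff.mp hD
  obtain ⟨χ, hχ, hmin⟩ := exists_min hPr p hB
  have hχc := isCharacter_of_isIrr χ.2
  have h0 : blockHeight p B (χ : G → ℂ) = 0 := by
    rw [blockHeight_eq, hmin, Nat.sub_self]
  have hy : ∃ k : ℕ, orderOf y = p ^ k := by
    obtain ⟨k, hk⟩ := (IsPGroup.iff_orderOf.mp (isPGroup_of_defect hD)) ⟨y, hyD⟩
    exact ⟨k, by rw [← hk, Subgroup.orderOf_mk]⟩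
  have hcomm : Commute y g0 := Subgroup.mem_centralizer_singleton_iff.mp (hDg hyD)
  have hval := Cfsg.Agent.Lib.Helper2_BlockSection.value_mul_not_ideal hM hB hg0 hχ
    (Cfsg.Agent.Lib.Helper2_BlockSection.height_zero_val hM hB hg0 h0) hcomm hy
  have hreg := regular_of_coeff hM hB hg0.2.1
  set H := Subgroup.centralizer ({y} : Set G) with hH
  have hg0H : g0 ∈ H := by
    rw [hH, Subgroup.mem_centralizer_singleton_iff]
    exact hcomm.symm
  have hreg' : ¬ p ∣ orderOf (⟨g0, hg0H⟩ : H) := by rwa [Subgroup.orderOf_mk]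
  have hsum := sum_induced_blocks hM hy hB χ ⟨g0, hg0H⟩ hreg'
  rw [if_pos hχ] at hsum
  -- some block contributes a unit
  have hex : ∃ b ∈ (blocks M H).filter (fun b => IsInducedBlock M H b B),
      ¬ MemLocalIdeal M (blockPart b (sh y H (χ : G → ℂ)) ⟨g0, hg0H⟩) := by
    by_contra hcon
    push Not at hcon
    apply hval
    show MemLocalIdeal M ((χ : G → ℂ) (y * ((⟨g0, hg0H⟩ : H) : G)))
    rw [← hsum]
    refine ideal_sum hPr _ _ fun b hb => ?_
    rw [← blockPart_shift]
    exact hcon b hb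
  obtain ⟨b, hb, hbu⟩ := hex
  have hind := (Finset.mem_filter.mp hb).2
  refine ⟨b, hind, ?_⟩
  rw [blockPart_apply] at hbu
  have hex2 : ∃ ψ ∈ b, ¬ MemLocalIdeal M ((ψ : H → ℂ) ⟨g0, hg0H⟩) := by
    by_contra hcon
    push Not at hcon
    apply hbu
    refine ideal_sum hPr _ _ fun ψ hψ => ?_
    exact ideal_mul_left hPr (inner_sh_ring hPr rfl hχc ψ) (hcon ψ (Finset.mem_filter.mp hψ).2)
  obtain ⟨ψ, hψ, hψu⟩ := hex2
  have h1 := degree_val_le_of_unit hM ψ hψu
  have h2 : mu p b ≤ ee p ψ := mu_le p hψ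
  rw [blockDefect_eq' p b]
  -- the centralizer of `g0` in `H` contains `D`
  have hDH : D ≤ H := by
    intro d hd
    rw [hH, Subgroup.mem_centralizer_singleton_iff]
    exact hyc d hd
  have hle : D.subgroupOf H ≤ Subgroup.centralizer ({(⟨g0, hg0H⟩ : H)} : Set H) := by
    intro d hd
    rw [Subgroup.mem_centralizer_singleton_iff]
    exact Subtype.ext (Subgroup.mem_centralizer_singleton_iff.mp (hDg (Subgroup.mem_subgroupOf.mp hd)))
  have hc1 : Nat.card (D.subgroupOf H) = p ^ blockDefect p B := by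
    rw [← card_defectGroup hM hB hD]
    exact Nat.card_congr (Subgroup.subgroupOfEquivOfLe hDH).toEquiv
  have hc2 : p ^ blockDefect p B ∣ Nat.card (Subgroup.centralizer ({(⟨g0, hg0H⟩ : H)} : Set H)) := by
    rw [← hc1]
    exact Subgroup.card_dvd_of_le hle
  have hc3 : blockDefect p B ≤
      (Nat.card (Subgroup.centralizer ({(⟨g0, hg0H⟩ : H)} : Set H))).factorization p :=
    (hp.pow_dvd_iff_le_factorization Nat.card_pos.ne').mp hc2
  have hc4 := (Subgroup.centralizer ({(⟨g0, hg0H⟩ : H)} : Set H)).card_mul_index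
  have hc5 : (Nat.card H).factorization p =
      (Nat.card (Subgroup.centralizer ({(⟨g0, hg0H⟩ : H)} : Set H))).factorization p +
      (Subgroup.centralizer ({(⟨g0, hg0H⟩ : H)} : Set H)).index.factorization p := by
    rw [← hc4, Nat.factorization_mul Nat.card_pos.ne' Subgroup.index_ne_zero_of_finite,
      Finsupp.add_apply]
  have h3 : ee p ψ = (charDegree (ψ : H → ℂ)).factorization p := rfl
  omega

end Cfsg.Agent.Lib.helper8_Major
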