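import Mathlib
import Cfsg.Prelude.Def_Blocks
import Cfsg.Prelude.Def_BlockRank
import Cfsg.Agent.Lib.helper8_Broue2
import Cfsg.Agent.Lib.helper8_Major
import Cfsg.Agent.Lib.CharGalois

set_option autoImplicit false

namespace Cfsg.Agent.Lib.helper8_Broue3

open Cfsg Cfsg.Agent.Lib.CharBasic Cfsg.Agent.Lib.CharOrtho
  Cfsg.Agent.Lib.CharComplete Cfsg.Agent.Lib.CharIntegral Cfsg.Agent.Lib.CharMore
  Cfsg.Agent.Lib.helper8_BlockRank Cfsg.Agent.Lib.helper8_RegularPart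
  Cfsg.Agent.Lib.helper8_BlockSum Cfsg.Agent.Lib.helper8_Defect
  Cfsg.Agent.Lib.Helper2_BlockLocal Cfsg.Agent.Lib.Helper2_BlockOm
  Cfsg.Agent.Lib.helper8_Height Cfsg.Agent.Lib.helper8_Height2
  Cfsg.Agent.Lib.Helper2_PPart Cfsg.Agent.Lib.helper8_SubSec
  Cfsg.Agent.Lib.Helper2_BlockOrtho Cfsg.Agent.Lib.Helper2_BlockOrtho2
  Cfsg.Agent.Lib.helper8_Broue Cfsg.Agent.Lib.helper8_Center Cfsg.Agent.Lib.helper8_Broue2
  Cfsg.Agent.Lib.helper8_Major Cfsg.Agent.Lib.CharGalois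
open scoped ComplexConjugate Classical

universe u

/-- Integral combinations of roots of unity: the average of the squared absolute values of the
conjugates of a nonzero one is at least `1`. -/
theorem card_le_sum_comb (n : ℕ) [NeZero n] {ι : Type*} [Fintype ι] (c : ι → ℤ) (μ : ι → ℂ)
    (hμ : ∀ i, μ i ^ n = 1) (h0 : ∑ i, (c i : ℂ) * μ i ≠ 0) :
    (Fintype.card (K n ≃ₐ[ℚ] K n) : ℝ) ≤
      ∑ τ : K n ≃ₐ[ℚ] K n, ‖∑ i, (c i : ℂ) * μ i ^ expo n τ‖ ^ 2 := by
  choose e _ he using fun i => (emb_zet_spec n).eq_pow_of_pow_eq_one (hμ i)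
  set a : K n := ∑ i, (c i : K n) * zet n ^ e i with ha
  have haI : IsIntegral ℤ a := by
    refine IsIntegral.sum _ fun i _ => IsIntegral.mul ?_ (IsIntegral.pow ?_ _)
    · exact isIntegral_algebraMap (R := ℤ) (A := K n) (x := c i)
    · exact (zet_spec n).isIntegral (NeZero.pos n)
  have hτ : ∀ (τ : K n ≃ₐ[ℚ] K n) (k : ℕ), τ (zet n) = zet n ^ k →
      emb n (τ a) = ∑ i, (c i : ℂ) * μ i ^ k := by
    intro τ k hk
    rw [ha, map_sum, map_sum]
    refine Finset.sum_congr rfl fun i _ => ?_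
    rw [map_mul, map_mul, map_intCast, map_intCast, map_pow, hk, map_pow, map_pow, ← he i,
      ← pow_mul, ← pow_mul, mul_comm (e i)]
  have h1 : emb n a = ∑ i, (c i : ℂ) * μ i := by
    have := hτ AlgEquiv.refl 1 (by simp)
    simpa using this
  have ha0 : a ≠ 0 := by
    intro h
    rw [h, map_zero] at h1
    exact h0 h1.symm
  have hval : ∀ τ : K n ≃ₐ[ℚ] K n, ∑ i, (c i : ℂ) * μ i ^ expo n τ = emb n (τ a) :=
    fun τ => (hτ τ _ (expo_spec _ τ)).symm
  have hne : ∀ τ : K n ≃ₐ[ℚ] K n, ∑ i, (c i : ℂ) * μ i ^ expo n τ ≠ 0 := by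
    intro τ
    rw [hval τ]
    exact fun h => ha0 (by simpa using h)
  have hnorm := Algebra.norm_eq_prod_automorphisms ℚ a
  have hint : IsIntegral ℤ (Algebra.norm ℚ a) := Algebra.isIntegral_norm ℚ haI
  obtain ⟨z, hz⟩ := IsIntegrallyClosed.isIntegral_iff.mp hint
  have hz0 : z ≠ 0 := by
    rintro rfl
    rw [map_zero] at hz
    exact ha0 (Algebra.norm_eq_zero_iff.mp hz.symm)
  have hprod : ∏ τ : K n ≃ₐ[ℚ] K n, ∑ i, (c i : ℂ) * μ i ^ expo n τ = (z : ℂ) := by
    simp only [hval]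
    rw [← map_prod, ← hnorm, emb_algebraMap, ← hz]
    simp
  have hone : (1 : ℝ) ≤ ∏ τ : K n ≃ₐ[ℚ] K n, ‖∑ i, (c i : ℂ) * μ i ^ expo n τ‖ ^ 2 := by
    rw [Finset.prod_pow, ← norm_prod, hprod, Complex.norm_intCast]
    have : (1 : ℝ) ≤ |(z : ℝ)| := by exact_mod_cast Int.one_le_abs hz0
    nlinarith
  have := card_le_sum_of_one_le_prod Finset.univ
    (fun τ : K n ≃ₐ[ℚ] K n => ‖∑ i, (c i : ℂ) * μ i ^ expo n τ‖ ^ 2)
    (fun τ _ => by positivity [norm_pos_iff.mpr (hne τ)]) hone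
  simpa using this

variable {G : Type u} [Group G] [Fintype G] {p : ℕ} {M : Ideal AlgInt}

theorem central_pow {χ : G → ℂ} (h : IsIrrCharacter G χ) {z : G}
    (hz : ∀ g, g * z = z * g) (k : ℕ) : χ (z ^ k) / χ 1 = (χ z / χ 1) ^ k := by
  obtain ⟨d0, d1, -⟩ := irr_charDegree h
  have h1 : χ 1 ≠ 0 := by rw [d1]; exact_mod_cast d0.ne'
  induction k with
  | zero => simp [h1]
  | succ k ih => rw [pow_succ, central_mul h hz, pow_succ, ← ih]; ring

/-- The contribution of a subsection. -/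
noncomputable def mm (p : ℕ) (y : G) (H : Subgroup G) (b : Set (IrrCharacter H))
    (χ χ' : IrrCharacter G) : ℂ :=
  ∑ ξ ∈ Finset.univ.filter (fun ξ : IrrCharacter H => ξ ∈ b),
    aa p y H χ ξ * conj (aa p y H χ' ξ)

theorem inner_comb (c : IrrCharacter G → ℂ) (g : G → ℂ) :
    classInner (fun u => ∑ ξ : IrrCharacter G, c ξ * (ξ : G → ℂ) u) g =
      ∑ ξ : IrrCharacter G, c ξ * conj (classInner g (ξ : G → ℂ)) := by
  unfold classInner
  simp only [map_mul, map_inv₀, Complex.conj_natCast, map_sum, Complex.conj_conj, Finset.sum_mul,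
    Finset.mul_sum]
  rw [Finset.sum_comm]
  refine Finset.sum_congr rfl fun ξ _ => Finset.sum_congr rfl fun u _ => ?_
  ring

theorem inner_regular_of_vanish {F : G → ℂ} (hF : ∀ u, p ∣ orderOf u → F u = 0) (g : G → ℂ) :
    classInner F (pRegularPart p g) = classInner F g := by
  unfold classInner
  congr 1
  refine Finset.sum_congr rfl fun u _ => ?_
  by_cases hu : p ∣ orderOf u
  · rw [hF u hu, zero_mul, zero_mul]
  · rw [pRegularPart_regular _ hu]

theorem mm_eq (hM : IsPModular p M) (y : G) {H : Subgroup G} {b : Set (IrrCharacter H)}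
    (hb : IsPBlock M b) (χ χ' : IrrCharacter G) :
    mm p y H b χ χ' = ∑ ξ ∈ Finset.univ.filter (fun ξ : IrrCharacter H => ξ ∈ b),
      aa p y H χ ξ * conj (classInner (sh y H (χ' : G → ℂ)) (ξ : H → ℂ)) := by
  have h1 := inner_regular_of_vanish (p := p)
    (F := fun u : H => ∑ ξ : IrrCharacter H, (if ξ ∈ b then aa p y H χ ξ else 0) * (ξ : H → ℂ) u)
    (fun u hu => FF_vanish hM hb _ (fun u hu => pRegularPart_singular _ hu) hu)
    (sh y H (χ' : G → ℂ))
  rw [inner_comb, inner_comb] at h1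
  unfold mm
  rw [Finset.sum_filter, Finset.sum_filter]
  refine Eq.trans ?_ (h1.trans ?_)
  · refine Finset.sum_congr rfl fun ξ _ => ?_
    split_ifs
    · rfl
    · simp
  · refine Finset.sum_congr rfl fun ξ _ => ?_
    split_ifs
    · rfl
    · simp

theorem mm_eq_zero_left (hM : IsPModular p M) {y : G} {H : Subgroup G}
    (hH : H = Subgroup.centralizer ({y} : Set G)) (hy : ∃ k : ℕ, orderOf y = p ^ k)
    {b : Set (IrrCharacter H)} {B : Set (IrrCharacter G)} (hind : IsInducedBlock M H b B)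
    {χ : IrrCharacter G} (hχ : χ ∉ B) (χ' : IrrCharacter G) : mm p y H b χ χ' = 0 := by
  unfold mm
  refine Finset.sum_eq_zero fun ξ hξ => ?_
  unfold aa
  rw [inner_shift_eq_zero hM hH hy hind hχ (Finset.mem_filter.mp hξ).2, zero_mul]

theorem mm_eq_zero_right (hM : IsPModular p M) {y : G} {H : Subgroup G}
    (hH : H = Subgroup.centralizer ({y} : Set G)) (hy : ∃ k : ℕ, orderOf y = p ^ k)
    {b : Set (IrrCharacter H)} {B : Set (IrrCharacter G)} (hind : IsInducedBlock M H b B)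
    (χ : IrrCharacter G) {χ' : IrrCharacter G} (hχ : χ' ∉ B) : mm p y H b χ χ' = 0 := by
  unfold mm
  refine Finset.sum_eq_zero fun ξ hξ => ?_
  unfold aa
  rw [inner_shift_eq_zero hM hH hy hind hχ (Finset.mem_filter.mp hξ).2, map_zero, mul_zero]

theorem sum_regular_sq (hM : IsPModular p M) {b : Set (IrrCharacter G)} (hb : IsPBlock M b)
    {ξ : IrrCharacter G} (hξ : ξ ∈ b) :
    ∑ ξ' ∈ Finset.univ.filter (fun ξ : IrrCharacter G => ξ ∈ b),
      classInner (pRegularPart p (ξ' : G → ℂ)) (ξ : G → ℂ) *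
        classInner (pRegularPart p (ξ : G → ℂ)) (ξ' : G → ℂ) =
    classInner (pRegularPart p (ξ : G → ℂ)) (ξ : G → ℂ) := by
  have hcf := pRegularPart_classFunction p
    (isClassFunction_of_isCharacter (isCharacter_of_isIrr ξ.2))
  have h1 := classInner_eq_sum (pRegularPart p (ξ : G → ℂ)) (pRegularPart p (ξ : G → ℂ)) hcf
  rw [inner_regular_of_vanish (fun u hu => pRegularPart_singular _ hu)] at h1
  rw [h1, Finset.sum_filter]
  refine Finset.sum_congr rfl fun ξ' _ => ?_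
  split_ifs with h
  · rw [inner_regular_symm (ξ' : G → ℂ), mul_comm]
  · rw [classInner_regular_eq_zero hM hb hξ h, zero_mul]

/-- The contributions of a subsection have square sum `l(b)`. -/
theorem sum_mm (hM : IsPModular p M) {y : G} {H : Subgroup G}
    (hH : H = Subgroup.centralizer ({y} : Set G)) (hy : ∃ k : ℕ, orderOf y = p ^ k)
    {b : Set (IrrCharacter H)} {B : Set (IrrCharacter G)} (hind : IsInducedBlock M H b B) :
    ∑ χ ∈ Finset.univ.filter (fun χ : IrrCharacter G => χ ∈ B),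
      ∑ χ' ∈ Finset.univ.filter (fun χ : IrrCharacter G => χ ∈ B),
        mm p y H b χ χ' * conj (mm p y H b χ χ') = (blockRank p b : ℂ) := by
  set S := Finset.univ.filter (fun ξ : IrrCharacter H => ξ ∈ b) with hS
  have e1 : ∑ χ ∈ Finset.univ.filter (fun χ : IrrCharacter G => χ ∈ B),
      ∑ χ' ∈ Finset.univ.filter (fun χ : IrrCharacter G => χ ∈ B),
        mm p y H b χ χ' * conj (mm p y H b χ χ') =
      ∑ χ : IrrCharacter G, ∑ χ' : IrrCharacter G, mm p y H b χ χ' * conj (mm p y H b χ χ') := by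
    rw [Finset.sum_filter]
    refine Finset.sum_congr rfl fun χ _ => ?_
    split_ifs with hχ
    · rw [Finset.sum_filter]
      refine Finset.sum_congr rfl fun χ' _ => ?_
      split_ifs with hχ'
      · rfl
      · rw [mm_eq_zero_right hM hH hy hind χ hχ', zero_mul]
    · symm
      refine Finset.sum_eq_zero fun χ' _ => ?_
      rw [mm_eq_zero_left hM hH hy hind hχ, zero_mul]
  rw [e1]
  have e2 : ∀ χ χ' : IrrCharacter G, mm p y H b χ χ' * conj (mm p y H b χ χ') =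
      ∑ ξ ∈ S, ∑ ξ' ∈ S, (aa p y H χ ξ * conj (aa p y H χ ξ')) *
        (aa p y H χ' ξ' * conj (aa p y H χ' ξ)) := by
    intro χ χ'
    unfold mm
    rw [map_sum, Finset.sum_mul_sum]
    refine Finset.sum_congr rfl fun ξ _ => Finset.sum_congr rfl fun ξ' _ => ?_
    rw [map_mul, Complex.conj_conj]
    ring
  simp only [e2]
  have e3 : ∑ χ : IrrCharacter G, ∑ χ' : IrrCharacter G, ∑ ξ ∈ S, ∑ ξ' ∈ S,
      (aa p y H χ ξ * conj (aa p y H χ ξ')) * (aa p y H χ' ξ' * conj (aa p y H χ' ξ)) =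
      ∑ ξ ∈ S, ∑ ξ' ∈ S, (∑ χ : IrrCharacter G, aa p y H χ ξ * conj (aa p y H χ ξ')) *
        (∑ χ' : IrrCharacter G, aa p y H χ' ξ' * conj (aa p y H χ' ξ)) := by
    simp only [Finset.sum_mul_sum]
    calc _ = ∑ χ : IrrCharacter G, ∑ ξ ∈ S, ∑ χ' : IrrCharacter G, ∑ ξ' ∈ S,
          (aa p y H χ ξ * conj (aa p y H χ ξ')) * (aa p y H χ' ξ' * conj (aa p y H χ' ξ)) :=
          Finset.sum_congr rfl fun χ _ => Finset.sum_comm
      _ = ∑ ξ ∈ S, ∑ χ : IrrCharacter G, ∑ χ' : IrrCharacter G, ∑ ξ' ∈ S,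
          (aa p y H χ ξ * conj (aa p y H χ ξ')) * (aa p y H χ' ξ' * conj (aa p y H χ' ξ)) :=
          Finset.sum_comm
      _ = ∑ ξ ∈ S, ∑ χ : IrrCharacter G, ∑ ξ' ∈ S, ∑ χ' : IrrCharacter G,
          (aa p y H χ ξ * conj (aa p y H χ ξ')) * (aa p y H χ' ξ' * conj (aa p y H χ' ξ)) :=
          Finset.sum_congr rfl fun ξ _ => Finset.sum_congr rfl fun χ _ => Finset.sum_comm
      _ = _ := Finset.sum_congr rfl fun ξ _ => Finset.sum_comm
  rw [e3]
  have e4 : ∀ ξ ξ' : IrrCharacter H, ∑ χ : IrrCharacter G, aa p y H χ ξ * conj (aa p y H χ ξ') =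
      classInner (pRegularPart p (ξ' : H → ℂ)) (ξ : H → ℂ) :=
    fun ξ ξ' => sum_inner_shift hM.1 hH hy ξ ξ'
  simp only [e4]
  rw [blockRank_eq_trace hM hind.1, ← sum_filter_eq_sum_subtype b
    (fun ξ => classInner (pRegularPart p (ξ : H → ℂ)) (ξ : H → ℂ))]
  refine Finset.sum_congr rfl fun ξ hξ => ?_
  exact sum_regular_sq hM hind.1 (Finset.mem_filter.mp hξ).2

theorem conj_inner_sh (y : G) (H : Subgroup G) (χ : IrrCharacter G) (ξ : IrrCharacter H) :
    conj (classInner (sh y H (χ : G → ℂ)) (ξ : H → ℂ)) =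
      classInner (sh y⁻¹ H (χ : G → ℂ)) (ξ : H → ℂ) := by
  unfold classInner
  rw [map_mul, map_inv₀, Complex.conj_natCast, map_sum]
  congr 1
  rw [← Equiv.sum_comp (Equiv.inv H)]
  refine Finset.sum_congr rfl fun c _ => ?_
  simp only [Equiv.inv_apply, map_mul, Complex.conj_conj, sh_apply]
  rw [← inv_of_isCharacter (isCharacter_of_isIrr χ.2), inv_of_isCharacter (isCharacter_of_isIrr ξ.2)]
  congr 1
  have hcf := isClassFunction_of_isCharacter (isCharacter_of_isIrr χ.2)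
  have e : (y * ((c⁻¹ : H) : G))⁻¹ = y * (y⁻¹ * (c : G)) * y⁻¹ := by
    simp only [Subgroup.coe_inv]
    group
  rw [e, hcf]

omit [Fintype G] in
theorem centralizer_inv (y : G) :
    Subgroup.centralizer ({y⁻¹} : Set G) = Subgroup.centralizer ({y} : Set G) := by
  ext g
  rw [Subgroup.mem_centralizer_singleton_iff, Subgroup.mem_centralizer_singleton_iff]
  constructor
  · intro h
    have : Commute g y⁻¹ := h
    exact (Commute.inv_right_iff.mp this)
  · intro h
    have : Commute g y := h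
    exact this.inv_right

theorem sum_deg_inner (hM : IsPModular p M) {b : Set (IrrCharacter G)} (hb : IsPBlock M b)
    (g : G → ℂ) :
    ∑ ξ ∈ Finset.univ.filter (fun ξ : IrrCharacter G => ξ ∈ b),
      classInner (pRegularPart p g) (ξ : G → ℂ) * (charDegree (ξ : G → ℂ) : ℂ) =
    ∑ ξ ∈ Finset.univ.filter (fun ξ : IrrCharacter G => ξ ∈ b),
      classInner g (ξ : G → ℂ) * (charDegree (ξ : G → ℂ) : ℂ) := by
  have h1 := inner_regular_of_vanish (p := p)
    (F := fun u : G => ∑ ξ : IrrCharacter G, (if ξ ∈ b then (ξ : G → ℂ) 1 else 0) * (ξ : G → ℂ) u)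
    (fun u hu => rho_vanish hM hb hu) g
  rw [inner_comb, inner_comb] at h1
  have h2 := congrArg conj h1
  rw [map_sum, map_sum] at h2
  rw [Finset.sum_filter, Finset.sum_filter]
  refine Eq.trans ?_ (h2.trans ?_)
  · refine Finset.sum_congr rfl fun ξ _ => ?_
    obtain ⟨-, d1, -⟩ := irr_charDegree ξ.2
    split_ifs
    · rw [map_mul, Complex.conj_conj, d1, Complex.conj_natCast, mul_comm]
    · simp
  · refine Finset.sum_congr rfl fun ξ _ => ?_
    obtain ⟨-, d1, -⟩ := irr_charDegree ξ.2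
    split_ifs
    · rw [map_mul, Complex.conj_conj, d1, Complex.conj_natCast, mul_comm]
    · simp

/-- The contributions of characters of height zero do not vanish. -/
theorem mm_ne_zero (hM : IsPModular p M) {y : G} {H : Subgroup G}
    (hH : H = Subgroup.centralizer ({y} : Set G)) (hy : ∃ k : ℕ, orderOf y = p ^ k)
    {b : Set (IrrCharacter H)} {B : Set (IrrCharacter G)} (hind : IsInducedBlock M H b B)
    {χ χ' : IrrCharacter G} (hχ : χ ∈ B) (hχ' : χ' ∈ B)
    (h0 : blockHeight p B (χ : G → ℂ) = 0) (h0' : blockHeight p B (χ' : G → ℂ) = 0) :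
    mm p y H b χ χ' ≠ 0 := by
  have hP := isPrime_of_modular hM
  have hp := hM.1
  have hp0 : (p : ℂ) ≠ 0 := by exact_mod_cast hp.ne_zero
  have hH' : H = Subgroup.centralizer ({y⁻¹} : Set G) := by rw [centralizer_inv]; exact hH
  have hy' : ∃ k : ℕ, orderOf y⁻¹ = p ^ k := by rw [orderOf_inv]; exact hy
  obtain ⟨r, hrR, hrU, hr⟩ := UU_unit hM hH' hy' hind hχ' h0'
  set S := Finset.univ.filter (fun ξ : IrrCharacter H => ξ ∈ b) with hS
  set q := Q p χ χ with hq
  have hqu := Q_unit hM hind.2.1 hχ h0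
  set mH := Nat.card H / p ^ (Nat.card H).factorization p with hmH
  set δ : IrrCharacter H → ℕ := fun ξ => charDegree (ξ : H → ℂ) / p ^ mu p b with hδ
  set w : IrrCharacter H → ℂ := fun ξ => classInner (sh y⁻¹ H (χ' : G → ℂ)) (ξ : H → ℂ) with hw
  have hwR : ∀ ξ, MemLocalRing M (w ξ) := fun ξ =>
    inner_sh_ring hP hH' (isCharacter_of_isIrr χ'.2) ξ
  set db := (Nat.card H).factorization p - mu p b with hdb
  have hle : mu p b ≤ (Nat.card H).factorization p := by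
    obtain ⟨ξ, hξ⟩ := block_nonempty hP hind.1
    exact (mu_le p hξ).trans (ee_le p ξ)
  have key1 : ∀ ξ ∈ S, (p : ℂ) ^ db * (mH : ℂ) * aa p y H χ ξ = uu p y H χ ξ * (δ ξ : ℂ) := by
    intro ξ hξ
    have h1 := aa_eq_uu (p := p) y H χ ξ
    rw [deg_eq (p := p) (Finset.mem_filter.mp hξ).2, card_eq_mul hp] at h1
    have h2 : ((p ^ (Nat.card H).factorization p : ℕ) : ℂ) = (p : ℂ) ^ mu p b * (p : ℂ) ^ db := by
      rw [← pow_add, hdb, Nat.add_sub_cancel' hle]
      push_cast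
      rfl
    rw [h2] at h1
    have h3 : (p : ℂ) ^ mu p b ≠ 0 := pow_ne_zero _ hp0
    apply mul_left_cancel₀ h3
    refine Eq.trans ?_ (h1.trans ?_)
    · ring
    · ring
  have key2 : ∑ ξ ∈ S, (δ ξ : ℂ) * w ξ = r := by
    have h3 : (p : ℂ) ^ mu p b ≠ 0 := pow_ne_zero _ hp0
    apply mul_left_cancel₀ h3
    rw [← hr]
    have := sum_deg_inner hM hind.1 (sh y⁻¹ H (χ' : G → ℂ))
    unfold aa
    rw [this, Finset.mul_sum]
    refine Finset.sum_congr rfl fun ξ hξ => ?_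
    rw [deg_eq (p := p) (Finset.mem_filter.mp hξ).2]
    ring
  set E := ∑ ξ ∈ S, (uu p y H χ ξ - q) * ((δ ξ : ℂ) * w ξ) with hE
  have hEJ : MemLocalIdeal M E := by
    refine ideal_sum hP _ _ fun ξ hξ => ?_
    exact ideal_mul_right hP (uu_congr hM hH hy hind (Finset.mem_filter.mp hξ).2 hχ χ)
      (ring_mul hP (ring_natCast hP _) (hwR ξ))
  have key3 : (p : ℂ) ^ db * (mH : ℂ) * mm p y H b χ χ' = q * r + E := by
    rw [mm_eq hM y hind.1, ← key2, hE, Finset.mul_sum, Finset.mul_sum, ← Finset.sum_add_distrib]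
    refine Finset.sum_congr rfl fun ξ hξ => ?_
    rw [← mul_assoc, key1 ξ hξ, conj_inner_sh]
    ring
  intro h
  rw [h, mul_zero] at key3
  apply not_ideal_mul hP (Q_ring hP p χ χ) hrR hqu hrU
  have : q * r = -E := by linear_combination -key3
  rw [this]
  exact ideal_neg hEJ

theorem exists_zz (hp : p.Prime) {b : Set (IrrCharacter G)} (η : IrrCharacter G)
    {ξ : IrrCharacter G} (hξ : ξ ∈ b) :
    ∃ z : ℤ, (p : ℂ) ^ blockDefect p b * classInner (pRegularPart p (η : G → ℂ)) (ξ : G → ℂ) = z := by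
  have hp0 : (p : ℂ) ≠ 0 := by exact_mod_cast hp.ne_zero
  have hle : mu p b ≤ (Nat.card G).factorization p := (mu_le p hξ).trans (ee_le p ξ)
  obtain ⟨z, hz⟩ := (pow_dvd_pow (p : ℤ) (mu_le p hξ)).trans (dvd_nn' hp η ξ)
  refine ⟨z, ?_⟩
  have h1 := nn_spec hp η ξ
  rw [hz] at h1
  have h2 : ((p ^ (Nat.card G).factorization p : ℕ) : ℂ) =
      (p : ℂ) ^ mu p b * (p : ℂ) ^ blockDefect p b := by
    rw [← pow_add, blockDefect_eq', Nat.add_sub_cancel' hle]
    push_cast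
    rfl
  rw [h2] at h1
  push_cast at h1
  have h3 : (p : ℂ) ^ mu p b ≠ 0 := pow_ne_zero _ hp0
  apply mul_left_cancel₀ h3
  rw [h1]
  ring

theorem aa_expand {x : G} {H : Subgroup G} (hH : H = Subgroup.centralizer ({x} : Set G))
    (hxH : x ∈ H) (χ : IrrCharacter G) (ξ : IrrCharacter H) :
    aa p x H χ ξ = ∑ η : IrrCharacter H, classInner (pRegularPart p (η : H → ℂ)) (ξ : H → ℂ) *
      (((η : H → ℂ) ⟨x, hxH⟩ / (η : H → ℂ) 1) *
        classInner (fun h : H => (χ : G → ℂ) h) (η : H → ℂ)) := by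
  unfold aa
  rw [inner_regular_symm, classInner_eq_sum _ _ (pRegularPart_classFunction p
    (isClassFunction_of_isCharacter (isCharacter_of_isIrr ξ.2))), map_sum]
  refine Finset.sum_congr rfl fun η _ => ?_
  rw [map_mul, Complex.conj_conj, ← inner_regular_symm, inner_sh hH _ η hxH]

/-- The scaled contributions are integral combinations of roots of unity, compatibly with
power maps. -/
theorem exists_comb (hM : IsPModular p M) {y : G} {H : Subgroup G}
    (hH : H = Subgroup.centralizer ({y} : Set G))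
    {b : Set (IrrCharacter H)} (hb : IsPBlock M b) (χ χ' : IrrCharacter G) :
    ∃ (c : IrrCharacter H × IrrCharacter H → ℤ) (μ : IrrCharacter H × IrrCharacter H → ℂ),
      (∀ i, μ i ^ Nat.card G = 1) ∧
      ∀ k : ℕ, H = Subgroup.centralizer ({y ^ k} : Set G) →
        (p : ℂ) ^ blockDefect p b * mm p (y ^ k) H b χ χ' = ∑ i, (c i : ℂ) * μ i ^ k := by
  have hp := hM.1
  have hyH : y ∈ H := by rw [hH, Subgroup.mem_centralizer_singleton_iff]
  set yH : H := ⟨y, hyH⟩ with hyHdef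
  have hcen : ∀ g : H, g * yH = yH * g := by
    intro g
    have h1 := Subgroup.mem_centralizer_singleton_iff.mp
      (show (g : G) ∈ Subgroup.centralizer {y} by rw [← hH]; exact g.2)
    exact Subtype.ext h1
  obtain ⟨n, hn, -⟩ := exists_mult (isCharacter_restrict H (isCharacter_of_isIrr χ.2))
  obtain ⟨n', hn', -⟩ := exists_mult (isCharacter_restrict H (isCharacter_of_isIrr χ'.2))
  set lam : IrrCharacter H → ℂ := fun η => (η : H → ℂ) yH / (η : H → ℂ) 1 with hlam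
  have hlam1 : ∀ η, lam η ^ Nat.card G = 1 := by
    intro η
    obtain ⟨d0, d1, -⟩ := irr_charDegree η.2
    have h1 : (η : H → ℂ) 1 ≠ 0 := by rw [d1]; exact_mod_cast d0.ne'
    rw [hlam]
    show ((η : H → ℂ) yH / (η : H → ℂ) 1) ^ Nat.card G = 1
    rw [← central_pow η.2 hcen]
    have : yH ^ Nat.card G = 1 := Subtype.ext (by
      show y ^ Nat.card G = 1
      exact pow_card_eq_one')
    rw [this, div_self h1]
  choose! z hz using fun (η ξ : IrrCharacter H) (hξ : ξ ∈ b) => exists_zz (p := p) hp η hξ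
  refine ⟨fun i => if i.1 ∈ b then z i.2 i.1 * n i.2 * n' i.1 else 0,
    fun i => lam i.2 * conj (lam i.1), ?_, ?_⟩
  · intro i
    rw [mul_pow, ← map_pow, hlam1, hlam1, map_one, mul_one]
  · intro k hk
    have hykH : y ^ k ∈ H := H.pow_mem hyH k
    have hval : ∀ η : IrrCharacter H, (η : H → ℂ) ⟨y ^ k, hykH⟩ / (η : H → ℂ) 1 = lam η ^ k := by
      intro η
      rw [hlam]
      show _ = ((η : H → ℂ) yH / (η : H → ℂ) 1) ^ k
      rw [← central_pow η.2 hcen]
      rfl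
    rw [mm_eq hM _ hb, Fintype.sum_prod_type, Finset.mul_sum, Finset.sum_filter]
    refine Finset.sum_congr rfl fun ξ _ => ?_
    split_ifs with hξ
    · rw [aa_expand hk hykH, inner_sh hk _ ξ hykH, hval, hn', Finset.sum_mul, Finset.mul_sum]
      refine Finset.sum_congr rfl fun η _ => ?_
      rw [hval, hn, map_mul, Complex.conj_natCast, map_pow, mul_pow]
      simp only [if_pos hξ]
      push_cast
      rw [← hz η ξ hξ]
      ring
    · simp [hξ]

theorem sum_mm_real (hM : IsPModular p M) {y : G} {H : Subgroup G}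
    (hH : H = Subgroup.centralizer ({y} : Set G)) (hy : ∃ k : ℕ, orderOf y = p ^ k)
    {b : Set (IrrCharacter H)} {B : Set (IrrCharacter G)} (hind : IsInducedBlock M H b B) :
    ∑ χ ∈ Finset.univ.filter (fun χ : IrrCharacter G => χ ∈ B),
      ∑ χ' ∈ Finset.univ.filter (fun χ : IrrCharacter G => χ ∈ B),
        ‖mm p y H b χ χ'‖ ^ 2 = (blockRank p b : ℝ) := by
  have h := sum_mm hM hH hy hind
  have h3 : ((∑ χ ∈ Finset.univ.filter (fun χ : IrrCharacter G => χ ∈ B),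
      ∑ χ' ∈ Finset.univ.filter (fun χ : IrrCharacter G => χ ∈ B),
        ‖mm p y H b χ χ'‖ ^ 2 : ℝ) : ℂ) = ((blockRank p b : ℝ) : ℂ) := by
    rw [Complex.ofReal_natCast, ← h]
    push_cast
    refine Finset.sum_congr rfl fun χ _ => Finset.sum_congr rfl fun χ' _ => ?_
    rw [Complex.mul_conj, Complex.normSq_eq_norm_sq]
    push_cast
    rfl
  exact_mod_cast h3

omit [Fintype G] in
theorem centralizer_pow [Finite G] (y : G) {k : ℕ} (hk : k.Coprime (Nat.card G)) :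
    Subgroup.centralizer ({y ^ k} : Set G) = Subgroup.centralizer ({y} : Set G) := by
  have hk' : k.Coprime (orderOf y) := Nat.Coprime.coprime_dvd_right (orderOf_dvd_natCard y) hk
  obtain ⟨m, hm⟩ := exists_pow_eq_self_of_coprime hk'
  ext g
  rw [Subgroup.mem_centralizer_singleton_iff, Subgroup.mem_centralizer_singleton_iff]
  constructor
  · intro h
    have h1 : Commute g (y ^ k) := h
    have h2 := h1.pow_right m
    rw [hm] at h2
    exact h2
  · intro h
    have h1 : Commute g y := h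
    exact h1.pow_right k

/-- The number of characters of height zero is bounded in terms of any subsection. -/
theorem card_height_zero_sq_le (hM : IsPModular p M) {y : G} {H : Subgroup G}
    (hH : H = Subgroup.centralizer ({y} : Set G)) (hy : ∃ k : ℕ, orderOf y = p ^ k)
    {b : Set (IrrCharacter H)} {B : Set (IrrCharacter G)} (hind : IsInducedBlock M H b B) :
    (Finset.univ.filter (fun χ : IrrCharacter G => χ ∈ B ∧
      blockHeight p B (χ : G → ℂ) = 0)).card ^ 2 ≤ p ^ (2 * blockDefect p b) * blockRank p b := by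
  set S0 := Finset.univ.filter (fun χ : IrrCharacter G => χ ∈ B ∧
      blockHeight p B (χ : G → ℂ) = 0) with hS0
  set SB := Finset.univ.filter (fun χ : IrrCharacter G => χ ∈ B) with hSB
  have hsub : S0 ⊆ SB := by
    intro χ hχ
    exact Finset.mem_filter.mpr ⟨Finset.mem_univ _, (Finset.mem_filter.mp hχ).2.1⟩
  set N := Nat.card G with hN
  set Γ := K N ≃ₐ[ℚ] K N with hΓ
  have hΓpos : (0 : ℝ) < Fintype.card Γ := by exact_mod_cast Fintype.card_pos
  set db := blockDefect p b with hdb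
  have hHk : ∀ τ : Γ, H = Subgroup.centralizer ({y ^ expo N τ} : Set G) := by
    intro τ
    rw [centralizer_pow y (expo_coprime N τ)]
    exact hH
  have hyk : ∀ τ : Γ, ∃ j : ℕ, orderOf (y ^ expo N τ) = p ^ j := by
    intro τ
    obtain ⟨j, hj⟩ := hy
    refine ⟨j, ?_⟩
    rw [← hj]
    apply Nat.Coprime.orderOf_pow
    exact (Nat.Coprime.coprime_dvd_right (orderOf_dvd_natCard y) (expo_coprime N τ)).symm
  have h1 : ∀ χ ∈ S0, ∀ χ' ∈ S0, (Fintype.card Γ : ℝ) ≤
      ∑ τ : Γ, ((p : ℝ) ^ db) ^ 2 * ‖mm p (y ^ expo N τ) H b χ χ'‖ ^ 2 := by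
    intro χ hχ χ' hχ'
    obtain ⟨-, hχB, hχ0⟩ := Finset.mem_filter.mp hχ
    obtain ⟨-, hχB', hχ0'⟩ := Finset.mem_filter.mp hχ'
    obtain ⟨c, μ, hμ, hc⟩ := exists_comb hM hH hind.1 χ χ'
    have hne := mm_ne_zero hM hH hy hind hχB hχB' hχ0 hχ0'
    have hp0 : (p : ℂ) ≠ 0 := by exact_mod_cast hM.1.ne_zero
    have h0 : ∑ i, (c i : ℂ) * μ i ≠ 0 := by
      have := hc 1 (by rw [pow_one]; exact hH)
      simp only [pow_one] at this
      rw [← this]
      exact mul_ne_zero (pow_ne_zero _ hp0) hne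
    have h2 := card_le_sum_comb N c μ hμ h0
    refine h2.trans (le_of_eq ?_)
    refine Finset.sum_congr rfl fun τ _ => ?_
    rw [← hc _ (hHk τ), norm_mul, norm_pow, Complex.norm_natCast, mul_pow]
  have h2 : ((S0.card : ℝ) ^ 2) * (Fintype.card Γ : ℝ) ≤
      ∑ χ ∈ S0, ∑ χ' ∈ S0, ∑ τ : Γ, ((p : ℝ) ^ db) ^ 2 * ‖mm p (y ^ expo N τ) H b χ χ'‖ ^ 2 := by
    have h3 : ∀ χ ∈ S0, (S0.card : ℝ) * (Fintype.card Γ : ℝ) ≤
        ∑ χ' ∈ S0, ∑ τ : Γ, ((p : ℝ) ^ db) ^ 2 * ‖mm p (y ^ expo N τ) H b χ χ'‖ ^ 2 := by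
      intro χ hχ
      have := Finset.card_nsmul_le_sum S0 _ _ (h1 χ hχ)
      rwa [nsmul_eq_mul] at this
    have := Finset.card_nsmul_le_sum S0 _ _ h3
    rw [nsmul_eq_mul] at this
    calc ((S0.card : ℝ) ^ 2) * (Fintype.card Γ : ℝ) =
        (S0.card : ℝ) * ((S0.card : ℝ) * (Fintype.card Γ : ℝ)) := by ring
      _ ≤ _ := this
  have h4 : ∑ χ ∈ S0, ∑ χ' ∈ S0, ∑ τ : Γ,
      ((p : ℝ) ^ db) ^ 2 * ‖mm p (y ^ expo N τ) H b χ χ'‖ ^ 2 ≤
      ∑ χ ∈ SB, ∑ χ' ∈ SB, ∑ τ : Γ,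
      ((p : ℝ) ^ db) ^ 2 * ‖mm p (y ^ expo N τ) H b χ χ'‖ ^ 2 := by
    refine (Finset.sum_le_sum fun χ _ => Finset.sum_le_sum_of_subset_of_nonneg hsub
      fun χ' _ _ => Finset.sum_nonneg fun τ _ => by positivity).trans ?_
    exact Finset.sum_le_sum_of_subset_of_nonneg hsub fun χ _ _ =>
      Finset.sum_nonneg fun χ' _ => Finset.sum_nonneg fun τ _ => by positivity
  have h5 : ∑ χ ∈ SB, ∑ χ' ∈ SB, ∑ τ : Γ,
      ((p : ℝ) ^ db) ^ 2 * ‖mm p (y ^ expo N τ) H b χ χ'‖ ^ 2 =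
      (Fintype.card Γ : ℝ) * (((p : ℝ) ^ db) ^ 2 * (blockRank p b : ℝ)) := by
    calc _ = ∑ χ ∈ SB, ∑ τ : Γ, ∑ χ' ∈ SB,
          ((p : ℝ) ^ db) ^ 2 * ‖mm p (y ^ expo N τ) H b χ χ'‖ ^ 2 :=
          Finset.sum_congr rfl fun χ _ => Finset.sum_comm
      _ = ∑ τ : Γ, ∑ χ ∈ SB, ∑ χ' ∈ SB,
          ((p : ℝ) ^ db) ^ 2 * ‖mm p (y ^ expo N τ) H b χ χ'‖ ^ 2 := Finset.sum_comm
      _ = ∑ τ : Γ, ((p : ℝ) ^ db) ^ 2 * (blockRank p b : ℝ) := by
          refine Finset.sum_congr rfl fun τ _ => ?_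
          rw [← sum_mm_real hM (hHk τ) (hyk τ) hind, Finset.mul_sum]
          refine Finset.sum_congr rfl fun χ _ => ?_
          rw [Finset.mul_sum]
      _ = _ := by rw [Finset.sum_const, Finset.card_univ, nsmul_eq_mul]
  have h6 : ((S0.card : ℝ) ^ 2) * (Fintype.card Γ : ℝ) ≤
      (Fintype.card Γ : ℝ) * (((p : ℝ) ^ db) ^ 2 * (blockRank p b : ℝ)) :=
    h2.trans (h4.trans (le_of_eq h5))
  have h7 : (S0.card : ℝ) ^ 2 ≤ ((p : ℝ) ^ db) ^ 2 * (blockRank p b : ℝ) := by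
    rw [mul_comm] at h6
    exact le_of_mul_le_mul_left h6 hΓpos
  have h8 : ((S0.card ^ 2 : ℕ) : ℝ) ≤ ((p ^ (2 * db) * blockRank p b : ℕ) : ℝ) := by
    push_cast
    rw [mul_comm 2 db, pow_mul]
    exact h7
  exact_mod_cast h8

end Cfsg.Agent.Lib.helper8_Broue3
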