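import Mathlib
import Cfsg.Prelude.Def_Blocks
import Cfsg.Prelude.Def_BlockRank
import Cfsg.Agent.Lib.helper8_Broue3
import Cfsg.Agent.Lib.helper8_ModP

set_option autoImplicit false

namespace Cfsg.Agent.Lib.helper8_Broue4

open Cfsg Cfsg.Agent.Lib.CharBasic Cfsg.Agent.Lib.CharOrtho
  Cfsg.Agent.Lib.CharComplete Cfsg.Agent.Lib.CharIntegral Cfsg.Agent.Lib.CharMore
  Cfsg.Agent.Lib.helper8_BlockRank Cfsg.Agent.Lib.helper8_RegularPart
  Cfsg.Agent.Lib.helper8_BlockSum Cfsg.Agent.Lib.helper8_Defect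
  Cfsg.Agent.Lib.Helper2_BlockLocal Cfsg.Agent.Lib.Helper2_BlockOm
  Cfsg.Agent.Lib.helper8_Height Cfsg.Agent.Lib.helper8_Height2
  Cfsg.Agent.Lib.Helper2_PPart Cfsg.Agent.Lib.helper8_SubSec
  Cfsg.Agent.Lib.Helper2_BlockOrtho Cfsg.Agent.Lib.Helper2_BlockOrtho2
  Cfsg.Agent.Lib.helper8_Broue Cfsg.Agent.Lib.helper8_Center Cfsg.Agent.Lib.helper8_Broue2
  Cfsg.Agent.Lib.helper8_Major Cfsg.Agent.Lib.CharGalois Cfsg.Agent.Lib.helper8_Broue3
open scoped ComplexConjugate Classical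

universe u

section galois

variable (n : ℕ) [NeZero n]

theorem pow_eq_of_zet {a b : ℕ} (h : zet n ^ a = zet n ^ b) {μ : ℂ} (hμ : μ ^ n = 1) :
    μ ^ a = μ ^ b := by
  obtain ⟨e, -, he⟩ := (emb_zet_spec n).eq_pow_of_pow_eq_one hμ
  have h2 := congrArg (emb n) h
  rw [map_pow, map_pow] at h2
  rw [← he, ← pow_mul, ← pow_mul, mul_comm e a, mul_comm e b, pow_mul, pow_mul, h2]

theorem expo_mul (τ σ : K n ≃ₐ[ℚ] K n) {μ : ℂ} (hμ : μ ^ n = 1) :
    μ ^ expo n (τ * σ) = (μ ^ expo n σ) ^ expo n τ := by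
  rw [← pow_mul]
  apply pow_eq_of_zet n _ hμ
  rw [← expo_spec, AlgEquiv.mul_apply, expo_spec n σ, map_pow, expo_spec n τ, ← pow_mul, mul_comm]

theorem expo_odd {j : ℕ} (hn : n = 2 ^ (j + 1)) (τ : K n ≃ₐ[ℚ] K n) : Odd (expo n τ) := by
  have h := expo_coprime n τ
  have h2 : (expo n τ).Coprime 2 :=
    Nat.Coprime.coprime_dvd_right (by rw [hn]; exact dvd_pow_self 2 (by omega)) h
  exact Nat.Coprime.odd_of_right h2

theorem sum_expo_eq_zero {j : ℕ} (hn : n = 2 ^ j) {μ : ℂ} (hμ : μ ^ n = 1) (h2 : μ ^ 2 ≠ 1) :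
    ∑ τ : K n ≃ₐ[ℚ] K n, μ ^ expo n τ = 0 := by
  have hex : ∃ e : ℕ, μ ^ 2 ^ e = 1 := ⟨j, by rw [← hn]; exact hμ⟩
  set e := Nat.find hex with he
  have he1 : μ ^ 2 ^ e = 1 := Nat.find_spec hex
  have hmin : ∀ m < e, μ ^ 2 ^ m ≠ 1 := fun m hm => Nat.find_min hex hm
  have he2 : 2 ≤ e := by
    by_contra hlt
    push Not at hlt
    interval_cases e
    · apply h2
      rw [pow_zero, pow_one] at he1
      rw [he1, one_pow]
    · apply h2
      rwa [pow_one] at he1
  obtain ⟨e', he'⟩ : ∃ e', e = e' + 1 := ⟨e - 1, by omega⟩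
  have hν : μ ^ 2 ^ e' = -1 := by
    have h3 : (μ ^ 2 ^ e') ^ 2 = 1 := by rw [← pow_mul, ← pow_succ, ← he', he1]
    rcases sq_eq_one_iff.mp h3 with h | h
    · exact absurd h (hmin e' (by omega))
    · exact h
  have hj : 1 ≤ j := by
    by_contra hlt
    have : j = 0 := by omega
    apply h2
    rw [hn, this, pow_zero, pow_one] at hμ
    rw [hμ, one_pow]
  obtain ⟨j', hj'⟩ : ∃ j', j = j' + 1 := ⟨j - 1, by omega⟩
  have hodd : ∀ τ : K n ≃ₐ[ℚ] K n, Odd (expo n τ) := expo_odd n (hn.trans (by rw [hj']))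
  have hs : (1 + 2 ^ e').Coprime n := by
    rw [hn]
    apply Nat.Coprime.pow_right
    rw [Nat.coprime_two_right]
    have : Even (2 ^ e') := (Nat.even_pow' (by omega)).mpr even_two
    exact Even.one_add this
  obtain ⟨σ, hσ⟩ := exists_aut n hs
  have hσμ : μ ^ expo n σ = -μ := by
    have h4 : zet n ^ expo n σ = zet n ^ (1 + 2 ^ e') := by rw [← expo_spec, hσ]
    rw [pow_eq_of_zet n h4 hμ, pow_add, pow_one, hν]
    ring
  have h5 : ∑ τ : K n ≃ₐ[ℚ] K n, μ ^ expo n τ = ∑ τ : K n ≃ₐ[ℚ] K n, μ ^ expo n (τ * σ) :=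
    (Equiv.sum_comp (Equiv.mulRight σ) (fun τ => μ ^ expo n τ)).symm
  have h6 : ∑ τ : K n ≃ₐ[ℚ] K n, μ ^ expo n (τ * σ) = -∑ τ : K n ≃ₐ[ℚ] K n, μ ^ expo n τ := by
    rw [← Finset.sum_neg_distrib]
    refine Finset.sum_congr rfl fun τ _ => ?_
    rw [expo_mul n τ σ hμ, hσμ, (hodd τ).neg_pow]
  exact self_eq_neg.mp (h5.trans h6)

/-- The sign attached to a root of unity of `2`-power order. -/
noncomputable def eps (μ : ℂ) : ℤ := if μ = 1 then 1 else if μ = -1 then -1 else 0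

theorem sum_expo {j : ℕ} (hn : n = 2 ^ j) {μ : ℂ} (hμ : μ ^ n = 1) :
    ∑ τ : K n ≃ₐ[ℚ] K n, μ ^ expo n τ = (Fintype.card (K n ≃ₐ[ℚ] K n) : ℂ) * (eps μ : ℂ) := by
  unfold eps
  by_cases h1 : μ = 1
  · simp [h1]
  · rw [if_neg h1]
    by_cases h2 : μ = -1
    · rw [if_pos h2]
      have hj : 1 ≤ j := by
        by_contra hlt
        have : j = 0 := by omega
        rw [hn, this, pow_zero, pow_one] at hμ
        exact h1 hμ
      obtain ⟨j', hj'⟩ : ∃ j', j = j' + 1 := ⟨j - 1, by omega⟩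
      have hodd : ∀ τ : K n ≃ₐ[ℚ] K n, Odd (expo n τ) := expo_odd n (hn.trans (by rw [hj']))
      rw [Finset.sum_congr rfl (g := fun _ => (-1 : ℂ)) (fun τ _ => by
        rw [h2, (hodd τ).neg_pow, one_pow])]
      simp
    · rw [if_neg h2, sum_expo_eq_zero n hn hμ]
      · simp
      · intro h
        rcases sq_eq_one_iff.mp h with h | h
        · exact h1 h
        · exact h2 h

theorem eps_conj (μ : ℂ) : eps (conj μ) = eps μ := by
  unfold eps
  have h1 : conj μ = 1 ↔ μ = 1 := by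
    constructor
    · intro h
      have := congrArg conj h
      rwa [Complex.conj_conj, map_one] at this
    · intro h; rw [h, map_one]
  have h2 : conj μ = -1 ↔ μ = -1 := by
    constructor
    · intro h
      have := congrArg conj h
      rwa [Complex.conj_conj, map_neg, map_one] at this
    · intro h; rw [h, map_neg, map_one]
  simp only [h1, h2]

theorem exists_odd_avg {j : ℕ} (hn : n = 2 ^ j) {ι : Type*} [Fintype ι] (sw : ι → ι)
    (hsw : Function.Involutive sw) (c : ι → ℤ) (μ : ι → ℂ) (hμ : ∀ i, μ i ^ n = 1)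
    (hc : ∀ i, c (sw i) = c i) (hμs : ∀ i, μ (sw i) = conj (μ i)) (hodd : Odd (∑ i, c i)) :
    ∃ A : ℤ, Odd A ∧ ∑ τ : K n ≃ₐ[ℚ] K n, ∑ i, (c i : ℂ) * μ i ^ expo n τ =
      (Fintype.card (K n ≃ₐ[ℚ] K n) : ℂ) * (A : ℂ) := by
  refine ⟨∑ i, c i * eps (μ i), ?_, ?_⟩
  · have h1 : ∑ i, ((c i * (1 - eps (μ i)) : ℤ) : ZMod 2) = 0 := by
      refine Finset.sum_involution (fun i _ => sw i) ?_ ?_ (fun i _ => Finset.mem_univ _)
        (fun i _ => hsw i)
      · intro i _
        rw [hc, hμs, eps_conj]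
        exact CharTwo.add_self_eq_zero _
      · intro i _ hne heq
        apply hne
        have h2 : μ i = conj (μ i) := by rw [← hμs, heq]
        have h3 : μ i ^ 2 = 1 := by
          have h4 := Complex.norm_eq_one_of_pow_eq_one (hμ i) (NeZero.ne n)
          have h5 := Complex.mul_conj (μ i)
          rw [← h2, Complex.normSq_eq_norm_sq, h4] at h5
          rw [sq, h5]
          simp
        unfold eps
        rcases sq_eq_one_iff.mp h3 with h | h
        · rw [if_pos h]; simp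
        · have hne1 : μ i ≠ 1 := by
            rw [h]
            norm_num
          rw [if_neg hne1, if_pos h]
          have : ((1 : ℤ) - -1) = 2 := by norm_num
          rw [this]
          push_cast
          have h22 : (2 : ZMod 2) = 0 := rfl
          rw [h22, mul_zero]
    have h2 : (2 : ℤ) ∣ ∑ i, c i * (1 - eps (μ i)) := by
      have := (ZMod.intCast_zmod_eq_zero_iff_dvd (∑ i, c i * (1 - eps (μ i))) 2).mp (by
        rw [Int.cast_sum]; exact h1)
      exact_mod_cast this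
    have h3 : ∑ i, c i * eps (μ i) = ∑ i, c i - ∑ i, c i * (1 - eps (μ i)) := by
      rw [← Finset.sum_sub_distrib]
      refine Finset.sum_congr rfl fun i _ => ?_
      ring
    rw [h3]
    exact Odd.sub_even hodd (even_iff_two_dvd.mpr h2)
  · rw [Finset.sum_comm]
    push_cast
    rw [Finset.mul_sum]
    refine Finset.sum_congr rfl fun i _ => ?_
    rw [← Finset.mul_sum, sum_expo n hn (hμ i)]
    ring

end galois

variable {G : Type u} [Group G] [Fintype G] {p : ℕ} {M : Ideal AlgInt}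

/-- The scaled contributions of characters of height zero are units. -/
theorem mm_unit (hM : IsPModular p M) {y : G} {H : Subgroup G}
    (hH : H = Subgroup.centralizer ({y} : Set G)) (hy : ∃ k : ℕ, orderOf y = p ^ k)
    {b : Set (IrrCharacter H)} {B : Set (IrrCharacter G)} (hind : IsInducedBlock M H b B)
    {χ χ' : IrrCharacter G} (hχ : χ ∈ B) (hχ' : χ' ∈ B)
    (h0 : blockHeight p B (χ : G → ℂ) = 0) (h0' : blockHeight p B (χ' : G → ℂ) = 0) :
    ¬ MemLocalIdeal M ((p : ℂ) ^ blockDefect p b * mm p y H b χ χ') := by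
  have hP := isPrime_of_modular hM
  have hp := hM.1
  have hp0 : (p : ℂ) ≠ 0 := by exact_mod_cast hp.ne_zero
  have hH' : H = Subgroup.centralizer ({y⁻¹} : Set G) := by rw [centralizer_inv]; exact hH
  have hy' : ∃ k : ℕ, orderOf y⁻¹ = p ^ k := by rw [orderOf_inv]; exact hy
  obtain ⟨r, hrR, hrU, hr⟩ := UU_unit hM hH' hy' hind hχ' h0'
  set S := Finset.univ.filter (fun ξ : IrrCharacter H => ξ ∈ b) with hS
  set q := Q p χ χ with hq
  have hqu := Q_unit hM hind.2.1 hχ h0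
  set mH := Nat.card H / p ^ (Nat.card H).factorization p with hmH
  set δ : IrrCharacter H → ℕ := fun ξ => charDegree (ξ : H → ℂ) / p ^ mu p b with hδ
  set w : IrrCharacter H → ℂ := fun ξ => classInner (sh y⁻¹ H (χ' : G → ℂ)) (ξ : H → ℂ) with hw
  have hwR : ∀ ξ, MemLocalRing M (w ξ) := fun ξ =>
    inner_sh_ring hP hH' (isCharacter_of_isIrr χ'.2) ξ
  rw [blockDefect_eq']
  set db := (Nat.card H).factorization p - mu p b with hdb
  have hle : mu p b ≤ (Nat.card H).factorization p := by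
    obtain ⟨ξ, hξ⟩ := block_nonempty hP hind.1
    exact (mu_le p hξ).trans (ee_le p ξ)
  have key1 : ∀ ξ ∈ S, (p : ℂ) ^ db * (mH : ℂ) * aa p y H χ ξ = uu p y H χ ξ * (δ ξ : ℂ) := by
    intro ξ hξ
    have h1 := aa_eq_uu (p := p) y H χ ξ
    rw [deg_eq (p := p) (Finset.mem_filter.mp hξ).2, card_eq_mul hp] at h1
    have h2 : ((p ^ (Nat.card H).factorization p : ℕ) : ℂ) = (p : ℂ) ^ mu p b * (p : ℂ) ^ db := by
      rw [← pow_add, hdb, Nat.add_sub_cancel' hle]
      push_cast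
      rfl
    rw [h2] at h1
    have h3 : (p : ℂ) ^ mu p b ≠ 0 := pow_ne_zero _ hp0
    apply mul_left_cancel₀ h3
    refine Eq.trans ?_ (h1.trans ?_)
    · ring
    · ring
  have key2 : ∑ ξ ∈ S, (δ ξ : ℂ) * w ξ = r := by
    have h3 : (p : ℂ) ^ mu p b ≠ 0 := pow_ne_zero _ hp0
    apply mul_left_cancel₀ h3
    rw [← hr]
    have := sum_deg_inner hM hind.1 (sh y⁻¹ H (χ' : G → ℂ))
    unfold aa
    rw [this, Finset.mul_sum]
    refine Finset.sum_congr rfl fun ξ hξ => ?_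
    rw [deg_eq (p := p) (Finset.mem_filter.mp hξ).2]
    ring
  set E := ∑ ξ ∈ S, (uu p y H χ ξ - q) * ((δ ξ : ℂ) * w ξ) with hE
  have hEJ : MemLocalIdeal M E := by
    refine ideal_sum hP _ _ fun ξ hξ => ?_
    exact ideal_mul_right hP (uu_congr hM hH hy hind (Finset.mem_filter.mp hξ).2 hχ χ)
      (ring_mul hP (ring_natCast hP _) (hwR ξ))
  have key3 : (p : ℂ) ^ db * (mH : ℂ) * mm p y H b χ χ' = q * r + E := by
    rw [mm_eq hM y hind.1, ← key2, hE, Finset.mul_sum, Finset.mul_sum, ← Finset.sum_add_distrib]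
    refine Finset.sum_congr rfl fun ξ hξ => ?_
    rw [← mul_assoc, key1 ξ hξ, conj_inner_sh]
    ring
  intro h
  apply not_ideal_mul hP (Q_ring hP p χ χ) hrR hqu hrU
  have h4 := ideal_mul_right hP h (ring_natCast hP mH)
  have : q * r = (p : ℂ) ^ db * mm p y H b χ χ' * (mH : ℂ) - E := by linear_combination -key3
  rw [this]
  exact ideal_sub hP h4 hEJ

/-- The scaled contributions are integral combinations of roots of unity, compatibly with
power maps; symmetric version. -/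
theorem exists_comb' (hM : IsPModular p M) {y : G} {H : Subgroup G}
    (hH : H = Subgroup.centralizer ({y} : Set G))
    {b : Set (IrrCharacter H)} (hb : IsPBlock M b) (χ χ' : IrrCharacter G) {N : ℕ}
    (hN : y ^ N = 1) :
    ∃ (c : IrrCharacter H × IrrCharacter H → ℤ) (μ : IrrCharacter H × IrrCharacter H → ℂ),
      (∀ i, μ i ^ N = 1) ∧ (χ' = χ → ∀ i, c i.swap = c i) ∧ (∀ i, μ i.swap = conj (μ i)) ∧
      ∀ k : ℕ, H = Subgroup.centralizer ({y ^ k} : Set G) →
        (p : ℂ) ^ blockDefect p b * mm p (y ^ k) H b χ χ' = ∑ i, (c i : ℂ) * μ i ^ k := by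
  have hp := hM.1
  have hp0 : (p : ℂ) ≠ 0 := by exact_mod_cast hp.ne_zero
  have hyH : y ∈ H := by rw [hH, Subgroup.mem_centralizer_singleton_iff]
  set yH : H := ⟨y, hyH⟩ with hyHdef
  have hcen : ∀ g : H, g * yH = yH * g := by
    intro g
    have h1 := Subgroup.mem_centralizer_singleton_iff.mp
      (show (g : G) ∈ Subgroup.centralizer {y} by rw [← hH]; exact g.2)
    exact Subtype.ext h1
  obtain ⟨n, hn, -⟩ := exists_mult (isCharacter_restrict H (isCharacter_of_isIrr χ.2))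
  obtain ⟨n', hn', -⟩ := exists_mult (isCharacter_restrict H (isCharacter_of_isIrr χ'.2))
  set lam : IrrCharacter H → ℂ := fun η => (η : H → ℂ) yH / (η : H → ℂ) 1 with hlam
  have hlam1 : ∀ η, lam η ^ N = 1 := by
    intro η
    obtain ⟨d0, d1, -⟩ := irr_charDegree η.2
    have h1 : (η : H → ℂ) 1 ≠ 0 := by rw [d1]; exact_mod_cast d0.ne'
    rw [hlam]
    show ((η : H → ℂ) yH / (η : H → ℂ) 1) ^ N = 1
    rw [← central_pow η.2 hcen]
    have : yH ^ N = 1 := Subtype.ext hN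
    rw [this, div_self h1]
  choose! z hz using fun (η ξ : IrrCharacter H) (hξ : ξ ∈ b) => exists_zz (p := p) hp η hξ
  refine ⟨fun i => if i.1 ∈ b then z i.2 i.1 * n i.2 * n' i.1 else 0,
    fun i => lam i.2 * conj (lam i.1), ?_, ?_, ?_, ?_⟩
  · intro i
    rw [mul_pow, ← map_pow, hlam1, hlam1, map_one, mul_one]
  · rintro rfl ⟨ξ, η⟩
    have hnn : ∀ ψ, n' ψ = n ψ := by
      intro ψ
      have := (hn' ψ).symm.trans (hn ψ)
      exact_mod_cast this
    simp only [Prod.swap_prod_mk, hnn]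
    by_cases hξ : ξ ∈ b
    · by_cases hη : η ∈ b
      · rw [if_pos hξ, if_pos hη]
        have : z ξ η = z η ξ := by
          have h1 := hz ξ η hη
          have h2 := hz η ξ hξ
          rw [inner_regular_symm] at h1
          have h3 := congrArg conj h2
          rw [map_mul, map_pow, Complex.conj_natCast, h1, map_intCast] at h3
          exact_mod_cast h3
        rw [this]
        ring
      · rw [if_pos hξ, if_neg hη]
        have : z η ξ = 0 := by
          have h2 := hz η ξ hξ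
          rw [inner_regular_symm, classInner_regular_eq_zero hM hb hξ hη, map_zero, mul_zero] at h2
          exact_mod_cast h2.symm
        rw [this]
        ring
    · by_cases hη : η ∈ b
      · rw [if_neg hξ, if_pos hη]
        have : z ξ η = 0 := by
          have h2 := hz ξ η hη
          rw [inner_regular_symm, classInner_regular_eq_zero hM hb hη hξ, map_zero, mul_zero] at h2
          exact_mod_cast h2.symm
        rw [this]
        ring
      · rw [if_neg hξ, if_neg hη]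
  · rintro ⟨ξ, η⟩
    simp only [Prod.swap_prod_mk, map_mul, Complex.conj_conj]
    ring
  · intro k hk
    have hykH : y ^ k ∈ H := H.pow_mem hyH k
    have hval : ∀ η : IrrCharacter H, (η : H → ℂ) ⟨y ^ k, hykH⟩ / (η : H → ℂ) 1 = lam η ^ k := by
      intro η
      rw [hlam]
      show _ = ((η : H → ℂ) yH / (η : H → ℂ) 1) ^ k
      rw [← central_pow η.2 hcen]
      rfl
    rw [mm_eq hM _ hb, Fintype.sum_prod_type, Finset.mul_sum, Finset.sum_filter]
    refine Finset.sum_congr rfl fun ξ _ => ?_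
    split_ifs with hξ
    · rw [aa_expand hk hykH, inner_sh hk _ ξ hykH, hval, hn', Finset.sum_mul, Finset.mul_sum]
      refine Finset.sum_congr rfl fun η _ => ?_
      rw [hval, hn, map_mul, Complex.conj_natCast, map_pow, mul_pow]
      simp only [if_pos hξ]
      push_cast
      rw [← hz η ξ hξ]
      ring
    · simp [hξ]

theorem aa_proj (hM : IsPModular p M) {y : G} {H : Subgroup G}
    (hH : H = Subgroup.centralizer ({y} : Set G))
    {b : Set (IrrCharacter H)} (hb : IsPBlock M b) (χ : IrrCharacter G) {ξ' : IrrCharacter H}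
    (hξ' : ξ' ∈ b) :
    ∑ ξ ∈ Finset.univ.filter (fun ξ : IrrCharacter H => ξ ∈ b),
      aa p y H χ ξ * classInner (pRegularPart p (ξ : H → ℂ)) (ξ' : H → ℂ) = aa p y H χ ξ' := by
  have hcf : IsClassFunction H (pRegularPart p (sh y H (χ : G → ℂ))) :=
    pRegularPart_classFunction p (sh_classFunction hH
      (isClassFunction_of_isCharacter (isCharacter_of_isIrr χ.2)))
  have h1 := classInner_eq_sum (pRegularPart p (sh y H (χ : G → ℂ)))
    (pRegularPart p (ξ' : H → ℂ)) hcf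
  rw [inner_regular_of_vanish (fun u hu => pRegularPart_singular _ hu)] at h1
  unfold aa
  rw [h1, Finset.sum_filter]
  refine Finset.sum_congr rfl fun ξ _ => ?_
  split_ifs with h
  · rw [inner_regular_symm (ξ : H → ℂ)]
  · rw [classInner_regular_eq_zero hM hb hξ' h, map_zero, mul_zero]

/-- The matrix of contributions is idempotent. -/
theorem sum_mm_row (hM : IsPModular p M) {y : G} {H : Subgroup G}
    (hH : H = Subgroup.centralizer ({y} : Set G)) (hy : ∃ k : ℕ, orderOf y = p ^ k)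
    {b : Set (IrrCharacter H)} {B : Set (IrrCharacter G)} (hind : IsInducedBlock M H b B)
    (χ : IrrCharacter G) :
    ∑ χ' ∈ Finset.univ.filter (fun χ : IrrCharacter G => χ ∈ B),
        mm p y H b χ χ' * conj (mm p y H b χ χ') = mm p y H b χ χ := by
  set S := Finset.univ.filter (fun ξ : IrrCharacter H => ξ ∈ b) with hS
  have e1 : ∑ χ' ∈ Finset.univ.filter (fun χ : IrrCharacter G => χ ∈ B),
        mm p y H b χ χ' * conj (mm p y H b χ χ') =
      ∑ χ' : IrrCharacter G, mm p y H b χ χ' * conj (mm p y H b χ χ') := by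
    rw [Finset.sum_filter]
    refine Finset.sum_congr rfl fun χ' _ => ?_
    split_ifs with hχ'
    · rfl
    · rw [mm_eq_zero_right hM hH hy hind χ hχ', zero_mul]
  rw [e1]
  have e2 : ∀ χ' : IrrCharacter G, mm p y H b χ χ' * conj (mm p y H b χ χ') =
      ∑ ξ' ∈ S, ∑ ξ ∈ S, (aa p y H χ ξ * conj (aa p y H χ ξ')) *
        (aa p y H χ' ξ' * conj (aa p y H χ' ξ)) := by
    intro χ'
    unfold mm
    rw [map_sum, Finset.sum_mul_sum, Finset.sum_comm]
    refine Finset.sum_congr rfl fun ξ _ => Finset.sum_congr rfl fun ξ' _ => ?_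
    rw [map_mul, Complex.conj_conj]
    ring
  simp only [e2]
  have e3 : ∑ χ' : IrrCharacter G, ∑ ξ' ∈ S, ∑ ξ ∈ S,
      (aa p y H χ ξ * conj (aa p y H χ ξ')) * (aa p y H χ' ξ' * conj (aa p y H χ' ξ)) =
      ∑ ξ' ∈ S, ∑ ξ ∈ S, (aa p y H χ ξ * conj (aa p y H χ ξ')) *
        (∑ χ' : IrrCharacter G, aa p y H χ' ξ' * conj (aa p y H χ' ξ)) := by
    simp only [Finset.mul_sum]
    calc _ = ∑ ξ' ∈ S, ∑ χ' : IrrCharacter G, ∑ ξ ∈ S,
          (aa p y H χ ξ * conj (aa p y H χ ξ')) * (aa p y H χ' ξ' * conj (aa p y H χ' ξ)) :=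
          Finset.sum_comm
      _ = _ := Finset.sum_congr rfl fun ξ _ => Finset.sum_comm
  rw [e3]
  have e4 : ∀ ξ ξ' : IrrCharacter H, ∑ χ : IrrCharacter G, aa p y H χ ξ * conj (aa p y H χ ξ') =
      classInner (pRegularPart p (ξ' : H → ℂ)) (ξ : H → ℂ) :=
    fun ξ ξ' => sum_inner_shift hM.1 hH hy ξ ξ'
  simp only [e4]
  unfold mm
  refine Finset.sum_congr rfl fun ξ' hξ' => ?_
  rw [← aa_proj hM hH hind.1 χ (Finset.mem_filter.mp hξ').2, Finset.sum_mul]
  refine Finset.sum_congr rfl fun ξ _ => ?_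
  ring

omit [Fintype G] in
theorem centralizer_pow' (y : G) {k : ℕ} (hk : k.Coprime (orderOf y)) :
    Subgroup.centralizer ({y ^ k} : Set G) = Subgroup.centralizer ({y} : Set G) := by
  obtain ⟨m, hm⟩ := exists_pow_eq_self_of_coprime hk
  ext g
  rw [Subgroup.mem_centralizer_singleton_iff, Subgroup.mem_centralizer_singleton_iff]
  constructor
  · intro h
    have h1 : Commute g (y ^ k) := h
    have h2 := h1.pow_right m
    rw [hm] at h2
    exact h2
  · intro h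
    have h1 : Commute g y := h
    exact h1.pow_right k

theorem odd_sum_of_unit (hM : IsPModular 2 M) {ι : Type*} [Fintype ι] (c : ι → ℤ) (μ : ι → ℂ)
    {j : ℕ} (hμ : ∀ i, μ i ^ 2 ^ j = 1) (h : ¬ MemLocalIdeal M (∑ i, (c i : ℂ) * μ i)) :
    Odd (∑ i, c i) := by
  have hP := isPrime_of_modular hM
  by_contra hodd
  rw [Int.not_odd_iff_even] at hodd
  obtain ⟨m, hm⟩ := hodd
  apply h
  have h1 : ∑ i, (c i : ℂ) * μ i = ((∑ i, c i : ℤ) : ℂ) + ∑ i, (c i : ℂ) * (μ i - 1) := by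
    push_cast
    rw [← Finset.sum_add_distrib]
    refine Finset.sum_congr rfl fun i _ => ?_
    ring
  rw [h1]
  apply ideal_add hP
  · rw [hm]
    have h2 : MemLocalIdeal M ((2 : ℕ) : ℂ) := (ideal_natCast_iff hM 2).mpr (dvd_refl 2)
    have h3 := ideal_mul_right hP h2 (ring_intCast hP m)
    have e : ((m + m : ℤ) : ℂ) = ((2 : ℕ) : ℂ) * (m : ℂ) := by push_cast; ring
    rw [e]
    exact h3
  · refine ideal_sum hP _ _ fun i _ => ideal_mul_left hP (ring_intCast hP _) ?_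
    have hi : IsIntegral ℤ (μ i) := by
      apply IsIntegral.of_pow (n := 2 ^ j) (by positivity)
      rw [hμ i]
      exact isIntegral_one
    exact Cfsg.Agent.Lib.helper8_ModP.ideal_sub_of_pow_eq hM hi isIntegral_one (j := j)
      (by rw [hμ i, one_pow])

/-- The averaged diagonal contributions for `p = 2`. -/
theorem exists_odd (hM : IsPModular 2 M) {y : G} {H : Subgroup G}
    (hH : H = Subgroup.centralizer ({y} : Set G)) (hy : ∃ k : ℕ, orderOf y = 2 ^ k)
    {b : Set (IrrCharacter H)} {B : Set (IrrCharacter G)} (hind : IsInducedBlock M H b B) :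
    ∃ A : IrrCharacter G → ℤ,
      (∀ χ ∈ Finset.univ.filter (fun χ : IrrCharacter G => χ ∈ B ∧
        blockHeight 2 B (χ : G → ℂ) = 0), Odd (A χ) ∧
        ((Finset.univ.filter (fun χ : IrrCharacter G => χ ∈ B ∧
          blockHeight 2 B (χ : G → ℂ) = 0)).card : ℤ) ≤ 2 ^ blockDefect 2 b * A χ) ∧
      ∑ χ ∈ Finset.univ.filter (fun χ : IrrCharacter G => χ ∈ B ∧
        blockHeight 2 B (χ : G → ℂ) = 0), A χ ≤ 2 ^ blockDefect 2 b * (blockRank 2 b : ℤ) := by
  set S0 := Finset.univ.filter (fun χ : IrrCharacter G => χ ∈ B ∧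
      blockHeight 2 B (χ : G → ℂ) = 0) with hS0
  set SB := Finset.univ.filter (fun χ : IrrCharacter G => χ ∈ B) with hSB
  have hsub : S0 ⊆ SB := by
    intro χ hχ
    exact Finset.mem_filter.mpr ⟨Finset.mem_univ _, (Finset.mem_filter.mp hχ).2.1⟩
  obtain ⟨j, hj⟩ := hy
  set N := orderOf y with hN
  have : NeZero N := ⟨(orderOf_pos y).ne'⟩
  set Γ := K N ≃ₐ[ℚ] K N with hΓ
  have hΓpos : (0 : ℝ) < Fintype.card Γ := by exact_mod_cast Fintype.card_pos
  set db := blockDefect 2 b with hdb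
  set P : ℝ := (2 : ℝ) ^ db with hP
  have hPpos : 0 < P := by positivity
  have hHk : ∀ τ : Γ, H = Subgroup.centralizer ({y ^ expo N τ} : Set G) := by
    intro τ
    rw [centralizer_pow' y (expo_coprime N τ)]
    exact hH
  have hyk : ∀ τ : Γ, ∃ j : ℕ, orderOf (y ^ expo N τ) = 2 ^ j := by
    intro τ
    refine ⟨j, ?_⟩
    rw [← hj]
    apply Nat.Coprime.orderOf_pow
    exact (expo_coprime N τ).symm
  have hy' : ∃ k : ℕ, orderOf y = 2 ^ k := ⟨j, hj⟩
  have hyN : y ^ N = 1 := pow_orderOf_eq_one y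
  -- the odd averages
  have stepA : ∀ χ ∈ S0, ∃ A : ℤ, Odd A ∧
      ∑ τ : Γ, ((2 : ℕ) : ℂ) ^ db * mm 2 (y ^ expo N τ) H b χ χ =
        (Fintype.card Γ : ℂ) * (A : ℂ) := by
    intro χ hχ
    obtain ⟨-, hχB, hχ0⟩ := Finset.mem_filter.mp hχ
    obtain ⟨c, μ, hμ, hcs, hμs, hc⟩ := exists_comb' hM hH hind.1 χ χ hyN
    have hunit := mm_unit hM hH hy' hind hχB hχB hχ0 hχ0
    have h1 := hc 1 (by rw [pow_one]; exact hH)
    simp only [pow_one] at h1
    rw [h1] at hunit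
    have hodd := odd_sum_of_unit hM c μ (j := j) (fun i => by rw [← hj]; exact hμ i) hunit
    obtain ⟨A, hA, hsum⟩ := exists_odd_avg N hj Prod.swap Prod.swap_swap c μ hμ (hcs rfl) hμs hodd
    refine ⟨A, hA, ?_⟩
    rw [← hsum]
    refine Finset.sum_congr rfl fun τ _ => ?_
    exact hc _ (hHk τ)
  choose! A hAodd hAsum using stepA
  -- the lower bounds
  have stepB : ∀ χ ∈ S0, ∀ χ' ∈ S0, (Fintype.card Γ : ℝ) ≤
      ∑ τ : Γ, P ^ 2 * ‖mm 2 (y ^ expo N τ) H b χ χ'‖ ^ 2 := by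
    intro χ hχ χ' hχ'
    obtain ⟨-, hχB, hχ0⟩ := Finset.mem_filter.mp hχ
    obtain ⟨-, hχB', hχ0'⟩ := Finset.mem_filter.mp hχ'
    obtain ⟨c, μ, hμ, -, -, hc⟩ := exists_comb' hM hH hind.1 χ χ' hyN
    have hne := mm_ne_zero hM hH hy' hind hχB hχB' hχ0 hχ0'
    have h0 : ∑ i, (c i : ℂ) * μ i ≠ 0 := by
      have := hc 1 (by rw [pow_one]; exact hH)
      simp only [pow_one] at this
      rw [← this]
      exact mul_ne_zero (pow_ne_zero _ (by norm_num)) hne
    have h2 := card_le_sum_comb N c μ hμ h0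
    refine h2.trans (le_of_eq ?_)
    refine Finset.sum_congr rfl fun τ _ => ?_
    rw [← hc _ (hHk τ), norm_mul, norm_pow, Complex.norm_natCast, mul_pow, hP]
    push_cast
    rfl
  -- rows
  have stepC : ∀ (τ : Γ) (χ : IrrCharacter G),
      ((∑ χ' ∈ SB, P ^ 2 * ‖mm 2 (y ^ expo N τ) H b χ χ'‖ ^ 2 : ℝ) : ℂ) =
        (P : ℂ) * (((2 : ℕ) : ℂ) ^ db * mm 2 (y ^ expo N τ) H b χ χ) := by
    intro τ χ
    rw [← sum_mm_row hM (hHk τ) (hyk τ) hind χ, Finset.mul_sum, Finset.mul_sum]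
    push_cast
    refine Finset.sum_congr rfl fun χ' _ => ?_
    rw [Complex.mul_conj, Complex.normSq_eq_norm_sq, hP]
    push_cast
    ring
  have stepD : ∀ χ ∈ S0, ∑ τ : Γ, ∑ χ' ∈ SB, P ^ 2 * ‖mm 2 (y ^ expo N τ) H b χ χ'‖ ^ 2 =
      P * ((Fintype.card Γ : ℝ) * (A χ : ℝ)) := by
    intro χ hχ
    have h : ((∑ τ : Γ, ∑ χ' ∈ SB, P ^ 2 * ‖mm 2 (y ^ expo N τ) H b χ χ'‖ ^ 2 : ℝ) : ℂ) =
        ((P * ((Fintype.card Γ : ℝ) * (A χ : ℝ)) : ℝ) : ℂ) := by
      rw [Complex.ofReal_sum]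
      simp only [stepC]
      rw [← Finset.mul_sum, hAsum χ hχ]
      push_cast
      rfl
    exact_mod_cast h
  refine ⟨A, fun χ hχ => ⟨hAodd χ hχ, ?_⟩, ?_⟩
  · have h1 : (S0.card : ℝ) * (Fintype.card Γ : ℝ) ≤
        ∑ χ' ∈ S0, ∑ τ : Γ, P ^ 2 * ‖mm 2 (y ^ expo N τ) H b χ χ'‖ ^ 2 := by
      have := Finset.card_nsmul_le_sum S0 _ _ (stepB χ hχ)
      rwa [nsmul_eq_mul] at this
    have h2 : ∑ χ' ∈ S0, ∑ τ : Γ, P ^ 2 * ‖mm 2 (y ^ expo N τ) H b χ χ'‖ ^ 2 ≤
        ∑ χ' ∈ SB, ∑ τ : Γ, P ^ 2 * ‖mm 2 (y ^ expo N τ) H b χ χ'‖ ^ 2 :=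
      Finset.sum_le_sum_of_subset_of_nonneg hsub fun χ' _ _ =>
        Finset.sum_nonneg fun τ _ => by positivity
    have h2' : ∑ χ' ∈ SB, ∑ τ : Γ, P ^ 2 * ‖mm 2 (y ^ expo N τ) H b χ χ'‖ ^ 2 =
        P * ((Fintype.card Γ : ℝ) * (A χ : ℝ)) := by
      rw [Finset.sum_comm, stepD χ hχ]
    rw [h2'] at h2
    have h3 : (S0.card : ℝ) * (Fintype.card Γ : ℝ) ≤ (P * (A χ : ℝ)) * (Fintype.card Γ : ℝ) := by
      calc _ ≤ P * ((Fintype.card Γ : ℝ) * (A χ : ℝ)) := h1.trans h2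
        _ = _ := by ring
    have h4 := le_of_mul_le_mul_right h3 hΓpos
    have h5 : ((S0.card : ℤ) : ℝ) ≤ ((2 ^ db * A χ : ℤ) : ℝ) := by
      push_cast
      exact h4
    exact_mod_cast h5
  · have h1 : ∑ χ ∈ S0, P * ((Fintype.card Γ : ℝ) * (A χ : ℝ)) ≤
        ∑ χ ∈ SB, ∑ τ : Γ, ∑ χ' ∈ SB, P ^ 2 * ‖mm 2 (y ^ expo N τ) H b χ χ'‖ ^ 2 := by
      rw [← Finset.sum_congr rfl stepD]
      exact Finset.sum_le_sum_of_subset_of_nonneg hsub fun χ _ _ =>
        Finset.sum_nonneg fun τ _ => Finset.sum_nonneg fun χ' _ => by positivity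
    have h2 : ∑ χ ∈ SB, ∑ τ : Γ, ∑ χ' ∈ SB, P ^ 2 * ‖mm 2 (y ^ expo N τ) H b χ χ'‖ ^ 2 =
        (Fintype.card Γ : ℝ) * (P ^ 2 * (blockRank 2 b : ℝ)) := by
      calc _ = ∑ τ : Γ, ∑ χ ∈ SB, ∑ χ' ∈ SB,
            P ^ 2 * ‖mm 2 (y ^ expo N τ) H b χ χ'‖ ^ 2 := Finset.sum_comm
        _ = ∑ τ : Γ, P ^ 2 * (blockRank 2 b : ℝ) := by
            refine Finset.sum_congr rfl fun τ _ => ?_
            rw [← sum_mm_real hM (hHk τ) (hyk τ) hind, Finset.mul_sum]
            refine Finset.sum_congr rfl fun χ _ => ?_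
            rw [Finset.mul_sum]
        _ = _ := by rw [Finset.sum_const, Finset.card_univ, nsmul_eq_mul]
    rw [h2] at h1
    have h3 : (∑ χ ∈ S0, (A χ : ℝ)) * (P * (Fintype.card Γ : ℝ)) ≤
        (P * (blockRank 2 b : ℝ)) * (P * (Fintype.card Γ : ℝ)) := by
      calc _ = ∑ χ ∈ S0, P * ((Fintype.card Γ : ℝ) * (A χ : ℝ)) := by
            rw [Finset.sum_mul]
            refine Finset.sum_congr rfl fun χ _ => ?_
            ring
        _ ≤ _ := h1
        _ = _ := by ring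
    have h4 := le_of_mul_le_mul_right h3 (by positivity)
    have h5 : ((∑ χ ∈ S0, A χ : ℤ) : ℝ) ≤ ((2 ^ db * (blockRank 2 b : ℤ) : ℤ) : ℝ) := by
      push_cast
      exact h4
    exact_mod_cast h5

end Cfsg.Agent.Lib.helper8_Broue4
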