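import Mathlib
import Cfsg.Prelude.Def_Blocks
import Cfsg.Prelude.Def_BlockRank
import Cfsg.Agent.Lib.helper8_Broue4
import Cfsg.Agent.Lib.Helper2_BlockDefOrder

set_option autoImplicit false

namespace Cfsg.Agent.Lib.helper8_Broue5

open Cfsg Cfsg.Agent.Lib.CharBasic Cfsg.Agent.Lib.CharOrtho
  Cfsg.Agent.Lib.CharComplete Cfsg.Agent.Lib.CharIntegral Cfsg.Agent.Lib.CharMore
  Cfsg.Agent.Lib.CharInd
  Cfsg.Agent.Lib.helper8_BlockRank Cfsg.Agent.Lib.helper8_RegularPart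
  Cfsg.Agent.Lib.helper8_BlockSum Cfsg.Agent.Lib.helper8_Defect
  Cfsg.Agent.Lib.Helper2_BlockLocal Cfsg.Agent.Lib.Helper2_BlockOm
  Cfsg.Agent.Lib.helper8_Height Cfsg.Agent.Lib.helper8_Height2
  Cfsg.Agent.Lib.Helper2_PPart Cfsg.Agent.Lib.helper8_SubSec
  Cfsg.Agent.Lib.Helper2_BlockOrtho Cfsg.Agent.Lib.Helper2_BlockOrtho2
  Cfsg.Agent.Lib.helper8_Broue Cfsg.Agent.Lib.helper8_Center Cfsg.Agent.Lib.helper8_Broue2
  Cfsg.Agent.Lib.helper8_Major Cfsg.Agent.Lib.CharGalois Cfsg.Agent.Lib.helper8_Broue3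
  Cfsg.Agent.Lib.helper8_Broue4
open scoped ComplexConjugate Classical

universe u

variable {G : Type u} [Group G] [Fintype G] {p : ℕ} {M : Ideal AlgInt}

/-- Decomposition of a sum over a group along the left cosets of a subgroup. -/
theorem sum_cosets (H : Subgroup G) (f : G → ℂ) :
    ∑ x : G, f x = ∑ q : G ⧸ H, ∑ h : H, f (Quotient.out q * (h : G)) := by
  rw [← Fintype.sum_prod_type' (f := fun (q : G ⧸ H) (h : H) => f (Quotient.out q * (h : G)))]
  symm
  apply Fintype.sum_bijective (fun x : (G ⧸ H) × H => Quotient.out x.1 * (x.2 : G))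
  · constructor
    · rintro ⟨q, h⟩ ⟨q', h'⟩ heq
      simp only at heq
      have h1 : q = q' := by
        have e1 : ((Quotient.out q * (h : G) : G) : G ⧸ H) = q := by
          rw [QuotientGroup.mk_mul_of_mem _ h.2]
          exact QuotientGroup.out_eq' q
        have e2 : ((Quotient.out q' * (h' : G) : G) : G ⧸ H) = q' := by
          rw [QuotientGroup.mk_mul_of_mem _ h'.2]
          exact QuotientGroup.out_eq' q'
        rw [← e1, ← e2, heq]
      subst h1
      have := mul_left_cancel heq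
      rw [Subtype.ext this]
    · intro x
      refine ⟨((x : G ⧸ H), ⟨(Quotient.out (x : G ⧸ H))⁻¹ * x, ?_⟩), ?_⟩
      · rw [← QuotientGroup.eq]
        exact QuotientGroup.out_eq' _
      · simp
  · intro x; rfl

theorem indFun_ring (hP : M.IsPrime) (H : Subgroup G) {θ : H → ℂ} (hθ : IsClassFunction H θ)
    (hr : ∀ h, MemLocalRing M (θ h)) (g : G) : MemLocalRing M (indFun H θ g) := by
  have hH : (Nat.card H : ℂ) ≠ 0 := by exact_mod_cast Nat.card_pos.ne'
  have hE : ∀ u : G, MemLocalRing M (extendByZero H θ u) := by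
    intro u
    by_cases hu : u ∈ H
    · rw [extendByZero_mem H θ hu]; exact hr _
    · rw [extendByZero_not_mem H θ hu]; exact ring_zero hP
  have hinv : ∀ (u : G) (h : H), extendByZero H θ ((h : G)⁻¹ * u * (h : G)) =
      extendByZero H θ u := by
    intro u h
    by_cases hu : u ∈ H
    · have hu' : (h : G)⁻¹ * u * (h : G) ∈ H := H.mul_mem (H.mul_mem (H.inv_mem h.2) hu) h.2
      rw [extendByZero_mem H θ hu, extendByZero_mem H θ hu']
      have := hθ ⟨u, hu⟩ h⁻¹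
      rw [← this]
      congr 1
      apply Subtype.ext
      simp
    · have hu' : (h : G)⁻¹ * u * (h : G) ∉ H := by
        intro hc
        apply hu
        have := H.mul_mem (H.mul_mem h.2 hc) (H.inv_mem h.2)
        have e : (h : G) * ((h : G)⁻¹ * u * (h : G)) * (h : G)⁻¹ = u := by group
        rwa [e] at this
      rw [extendByZero_not_mem H θ hu, extendByZero_not_mem H θ hu']
  unfold indFun
  rw [sum_cosets H]
  have e1 : ∀ q : G ⧸ H, ∑ h : H, extendByZero H θ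
      ((Quotient.out q * (h : G))⁻¹ * g * (Quotient.out q * (h : G))) =
      (Nat.card H : ℂ) * extendByZero H θ ((Quotient.out q)⁻¹ * g * Quotient.out q) := by
    intro q
    rw [Finset.sum_congr rfl (g := fun _ => extendByZero H θ ((Quotient.out q)⁻¹ * g *
      Quotient.out q)), Finset.sum_const, Finset.card_univ, nsmul_eq_mul,
      Nat.card_eq_fintype_card]
    intro h _
    rw [← hinv ((Quotient.out q)⁻¹ * g * Quotient.out q) h]
    congr 1
    group
  simp only [e1]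
  rw [← Finset.mul_sum, ← mul_assoc, inv_mul_cancel₀ hH, one_mul]
  exact ring_sum hP _ _ fun q _ => hE _

/-- The shifted regular part of the conjugate of a character. -/
noncomputable def FF (p : ℕ) (H : Subgroup G) (yH : H) (ξ : H → ℂ) : H → ℂ :=
  fun h => pRegularPart p (fun u => conj (ξ u)) (yH⁻¹ * h)

theorem FF_classFunction {H : Subgroup G} {yH : H} (hc : ∀ g : H, g * yH = yH * g)
    (ξ : IrrCharacter H) : IsClassFunction H (FF p H yH (ξ : H → ℂ)) := by
  intro h t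
  unfold FF
  have e : yH⁻¹ * (t * h * t⁻¹) = t * (yH⁻¹ * h) * t⁻¹ := by
    have h1 : yH⁻¹ * t = t * yH⁻¹ := by
      have := hc t
      calc yH⁻¹ * t = yH⁻¹ * (t * yH) * yH⁻¹ := by group
        _ = yH⁻¹ * (yH * t) * yH⁻¹ := by rw [this]
        _ = _ := by group
    calc yH⁻¹ * (t * h * t⁻¹) = (yH⁻¹ * t) * h * t⁻¹ := by group
      _ = _ := by rw [h1]; group
  rw [e]
  exact cc_classFunction p ξ _ _

theorem FF_ring (hP : M.IsPrime) (H : Subgroup G) (yH : H) (ξ : IrrCharacter H) (h : H) :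
    MemLocalRing M (FF p H yH (ξ : H → ℂ) h) := cc_ring hP p ξ _

/-- The generalized decomposition coefficient normalised by the degree of the character of `G`. -/
noncomputable def VV (p : ℕ) (y : G) (H : Subgroup G) (χ : IrrCharacter G) (ξ : IrrCharacter H) :
    ℂ := (Nat.card G : ℂ) * aa p y H χ ξ / (χ : G → ℂ) 1

theorem VV_eq_Om {y : G} {H : Subgroup G} (hyH : y ∈ H) (χ : IrrCharacter G)
    (ξ : IrrCharacter H) :
    VV p y H χ ξ = Om (indFun H (FF p H ⟨y, hyH⟩ (ξ : H → ℂ))) (χ : G → ℂ) := by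
  have hG : (Nat.card G : ℂ) ≠ 0 := by exact_mod_cast Nat.card_pos.ne'
  have hH : (Nat.card H : ℂ) ≠ 0 := by exact_mod_cast Nat.card_pos.ne'
  have hcf := isClassFunction_of_isCharacter (isCharacter_of_isIrr χ.2)
  have hcc : IsClassFunction G (fun g => conj ((χ : G → ℂ) g)) := fun g h => by
    simp only [hcf g h]
  have h := frobenius_reciprocity H (FF p H ⟨y, hyH⟩ (ξ : H → ℂ)) (fun g => conj ((χ : G → ℂ) g)) hcc
  unfold classInner at h
  simp only [Complex.conj_conj] at h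
  unfold VV Om
  congr 1
  have e1 : ∑ g, indFun H (FF p H ⟨y, hyH⟩ (ξ : H → ℂ)) g * (χ : G → ℂ) g =
      (Nat.card G : ℂ) * ((Nat.card H : ℂ)⁻¹ *
        ∑ x : H, FF p H ⟨y, hyH⟩ (ξ : H → ℂ) x * (χ : G → ℂ) x) := by
    rw [← h]
    field_simp
  rw [e1]
  congr 1
  unfold aa classInner
  congr 1
  rw [← Equiv.sum_comp (Equiv.mulLeft (⟨y, hyH⟩ : H))
    (fun x : H => FF p H ⟨y, hyH⟩ (ξ : H → ℂ) x * (χ : G → ℂ) x)]
  refine Finset.sum_congr rfl fun s _ => ?_
  simp only [Equiv.coe_mulLeft]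
  unfold FF
  rw [inv_mul_cancel_left]
  by_cases hs : p ∣ orderOf s
  · rw [pRegularPart_singular _ hs, pRegularPart_singular _ hs, zero_mul, zero_mul]
  · rw [pRegularPart_regular _ hs, pRegularPart_regular _ hs, sh_apply, mul_comm]
    rfl

theorem VV_ring (hP : M.IsPrime) {y : G} {H : Subgroup G}
    (hH : H = Subgroup.centralizer ({y} : Set G)) (χ : IrrCharacter G) (ξ : IrrCharacter H) :
    MemLocalRing M (VV p y H χ ξ) := by
  have hyH : y ∈ H := by rw [hH, Subgroup.mem_centralizer_singleton_iff]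
  have hcen : ∀ g : H, g * (⟨y, hyH⟩ : H) = ⟨y, hyH⟩ * g := by
    intro g
    have h1 := Subgroup.mem_centralizer_singleton_iff.mp
      (show (g : G) ∈ Subgroup.centralizer {y} by rw [← hH]; exact g.2)
    exact Subtype.ext h1
  rw [VV_eq_Om hyH]
  exact Om_ring hP (indFun_isClassFunction H _)
    (indFun_ring hP H (FF_classFunction hcen ξ) (FF_ring hP H _ ξ)) χ.2

theorem VV_congr (hP : M.IsPrime) {y : G} {H : Subgroup G}
    (hH : H = Subgroup.centralizer ({y} : Set G)) {χ χ' : IrrCharacter G}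
    (h : SameBlock M (χ : G → ℂ) (χ' : G → ℂ)) (ξ : IrrCharacter H) :
    MemLocalIdeal M (VV p y H χ ξ - VV p y H χ' ξ) := by
  have hyH : y ∈ H := by rw [hH, Subgroup.mem_centralizer_singleton_iff]
  have hcen : ∀ g : H, g * (⟨y, hyH⟩ : H) = ⟨y, hyH⟩ * g := by
    intro g
    have h1 := Subgroup.mem_centralizer_singleton_iff.mp
      (show (g : G) ∈ Subgroup.centralizer {y} by rw [← hH]; exact g.2)
    exact Subtype.ext h1
  rw [VV_eq_Om hyH, VV_eq_Om hyH]
  exact Om_congr hP (indFun_isClassFunction H _)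
    (indFun_ring hP H (FF_classFunction hcen ξ) (FF_ring hP H _ ξ))
    (isClassFunction_of_isCharacter (isCharacter_of_isIrr χ.2))
    (isClassFunction_of_isCharacter (isCharacter_of_isIrr χ'.2)) h

/-- The contribution normalised by the degree of the first character. -/
noncomputable def Wm (p : ℕ) (y : G) (H : Subgroup G) (b : Set (IrrCharacter H))
    (χ ψ : IrrCharacter G) : ℂ := (Nat.card G : ℂ) * mm p y H b χ ψ / (χ : G → ℂ) 1

theorem Wm_eq (hM : IsPModular p M) (y : G) {H : Subgroup G} {b : Set (IrrCharacter H)}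
    (hb : IsPBlock M b) (χ ψ : IrrCharacter G) :
    Wm p y H b χ ψ = ∑ ξ ∈ Finset.univ.filter (fun ξ : IrrCharacter H => ξ ∈ b),
      VV p y H χ ξ * classInner (sh y⁻¹ H (ψ : G → ℂ)) (ξ : H → ℂ) := by
  unfold Wm VV
  rw [mm_eq hM y hb, Finset.mul_sum, Finset.sum_div]
  refine Finset.sum_congr rfl fun ξ _ => ?_
  rw [conj_inner_sh]
  ring

theorem Wm_ring (hM : IsPModular p M) {y : G} {H : Subgroup G}
    (hH : H = Subgroup.centralizer ({y} : Set G)) {b : Set (IrrCharacter H)}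
    (hb : IsPBlock M b) (χ ψ : IrrCharacter G) : MemLocalRing M (Wm p y H b χ ψ) := by
  have hP := isPrime_of_modular hM
  have hH' : H = Subgroup.centralizer ({y⁻¹} : Set G) := by rw [centralizer_inv]; exact hH
  rw [Wm_eq hM y hb]
  exact ring_sum hP _ _ fun ξ _ => ring_mul hP (VV_ring hP hH χ ξ)
    (inner_sh_ring hP hH' (isCharacter_of_isIrr ψ.2) ξ)

theorem Wm_congr (hM : IsPModular p M) {y : G} {H : Subgroup G}
    (hH : H = Subgroup.centralizer ({y} : Set G)) {b : Set (IrrCharacter H)}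
    (hb : IsPBlock M b) {χ χ' : IrrCharacter G}
    (h : SameBlock M (χ : G → ℂ) (χ' : G → ℂ)) (ψ : IrrCharacter G) :
    MemLocalIdeal M (Wm p y H b χ ψ - Wm p y H b χ' ψ) := by
  have hP := isPrime_of_modular hM
  have hH' : H = Subgroup.centralizer ({y⁻¹} : Set G) := by rw [centralizer_inv]; exact hH
  rw [Wm_eq hM y hb, Wm_eq hM y hb, ← Finset.sum_sub_distrib]
  refine ideal_sum hP _ _ fun ξ _ => ?_
  rw [← sub_mul]
  exact ideal_mul_right hP (VV_congr hP hH h ξ)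
    (inner_sh_ring hP hH' (isCharacter_of_isIrr ψ.2) ξ)

/-- The scaling factor between the two normalisations. -/
theorem scale_eq (hp : p.Prime) {B : Set (IrrCharacter G)} {χ : IrrCharacter G} (hχ : χ ∈ B) :
    (p : ℂ) ^ blockDefect p B * (charDegree (χ : G → ℂ) : ℂ) *
      ((Nat.card G / p ^ (Nat.card G).factorization p : ℕ) : ℂ) =
    (p : ℂ) ^ blockHeight p B (χ : G → ℂ) *
      ((charDegree (χ : G → ℂ) / p ^ ee p χ : ℕ) : ℂ) * (Nat.card G : ℂ) := by
  have h1 : mu p B ≤ ee p χ := mu_le p hχ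
  have h2 : ee p χ ≤ (Nat.card G).factorization p := ee_le p χ
  have e1 : (charDegree (χ : G → ℂ) : ℂ) =
      (p : ℂ) ^ ee p χ * ((charDegree (χ : G → ℂ) / p ^ ee p χ : ℕ) : ℂ) := by
    have := Nat.ordProj_mul_ordCompl_eq_self (charDegree (χ : G → ℂ)) p
    conv_lhs => rw [← this]
    push_cast
    rfl
  have e2 := card_eq_mul (G := G) hp
  rw [blockDefect_eq', blockHeight_eq]
  conv_rhs => rw [e2]
  conv_lhs => rw [e1]
  have e3 : (p : ℂ) ^ ((Nat.card G).factorization p - mu p B) * (p : ℂ) ^ ee p χ =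
      (p : ℂ) ^ (ee p χ - mu p B) * (p : ℂ) ^ (Nat.card G).factorization p := by
    rw [← pow_add, ← pow_add]
    congr 1
    omega
  push_cast
  linear_combination ((charDegree (χ : G → ℂ) / p ^ ee p χ : ℕ) : ℂ) *
    ((Nat.card G / p ^ (Nat.card G).factorization p : ℕ) : ℂ) * e3

/-- The scaled contribution in terms of the normalised one. -/
theorem mm_eq_Wm (hp : p.Prime) (y : G) (H : Subgroup G) (b : Set (IrrCharacter H))
    {B : Set (IrrCharacter G)} {χ : IrrCharacter G} (hχ : χ ∈ B) (ψ : IrrCharacter G) :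
    (p : ℂ) ^ blockDefect p B * mm p y H b χ ψ *
      ((Nat.card G / p ^ (Nat.card G).factorization p : ℕ) : ℂ) =
    (p : ℂ) ^ blockHeight p B (χ : G → ℂ) *
      ((charDegree (χ : G → ℂ) / p ^ ee p χ : ℕ) : ℂ) * Wm p y H b χ ψ := by
  obtain ⟨d0, d1, -⟩ := irr_charDegree χ.2
  have hd : (charDegree (χ : G → ℂ) : ℂ) ≠ 0 := by exact_mod_cast d0.ne'
  have h := scale_eq hp hχ
  unfold Wm
  rw [d1]
  field_simp
  linear_combination mm p y H b χ ψ * h

theorem conj_aa (y : G) (H : Subgroup G) (χ : IrrCharacter G) (ξ : IrrCharacter H) :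
    conj (aa p y H χ ξ) = aa p y⁻¹ H χ ξ := by
  unfold aa classInner
  rw [map_mul, map_inv₀, Complex.conj_natCast, map_sum]
  congr 1
  rw [← Equiv.sum_comp (Equiv.inv H)]
  refine Finset.sum_congr rfl fun c _ => ?_
  simp only [Equiv.inv_apply, map_mul, Complex.conj_conj]
  have ho : orderOf (c⁻¹ : H) = orderOf c := orderOf_inv c
  by_cases hc : p ∣ orderOf c
  · rw [pRegularPart_singular _ (by rw [ho]; exact hc), pRegularPart_singular _ hc]
    simp
  · rw [pRegularPart_regular _ (by rw [ho]; exact hc), pRegularPart_regular _ hc, sh_apply,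
      sh_apply, ← inv_of_isCharacter (isCharacter_of_isIrr χ.2),
      inv_of_isCharacter (isCharacter_of_isIrr ξ.2)]
    congr 1
    have hcf := isClassFunction_of_isCharacter (isCharacter_of_isIrr χ.2)
    have e : (y * ((c⁻¹ : H) : G))⁻¹ = y * (y⁻¹ * (c : G)) * y⁻¹ := by
      simp only [Subgroup.coe_inv]
      group
    rw [e, hcf]

theorem mm_conj (y : G) (H : Subgroup G) (b : Set (IrrCharacter H)) (χ ψ : IrrCharacter G) :
    conj (mm p y H b χ ψ) = mm p y⁻¹ H b χ ψ := by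
  unfold mm
  rw [map_sum]
  refine Finset.sum_congr rfl fun ξ _ => ?_
  rw [map_mul, conj_aa, conj_aa]

theorem mm_symm (y : G) (H : Subgroup G) (b : Set (IrrCharacter H)) (χ ψ : IrrCharacter G) :
    mm p y H b ψ χ = conj (mm p y H b χ ψ) := by
  unfold mm
  rw [map_sum]
  refine Finset.sum_congr rfl fun ξ _ => ?_
  rw [map_mul, Complex.conj_conj, mul_comm]

/-- **Broué**: for a major subsection the normalised contributions against a character of height
zero are units. -/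
theorem Wm_unit (hM : IsPModular p M) {y : G} {H : Subgroup G}
    (hH : H = Subgroup.centralizer ({y} : Set G)) (hy : ∃ k : ℕ, orderOf y = p ^ k)
    {b : Set (IrrCharacter H)} {B : Set (IrrCharacter G)} (hind : IsInducedBlock M H b B)
    (hdb : blockDefect p b = blockDefect p B)
    {χ ψ : IrrCharacter G} (hχ : χ ∈ B) (hψ : ψ ∈ B)
    (h0 : blockHeight p B (ψ : G → ℂ) = 0) : ¬ MemLocalIdeal M (Wm p y H b χ ψ) := by
  have hP := isPrime_of_modular hM
  have hp := hM.1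
  refine not_ideal_of_sub hP (Wm_congr hM hH hind.1 (sameBlock_of_mem hP hind.2.1 hχ hψ) ψ) ?_
  intro h
  apply mm_unit hM hH hy hind hψ hψ h0 h0
  rw [hdb]
  have h1 := mm_eq_Wm hp y H b hψ ψ
  rw [h0, pow_zero, one_mul] at h1
  set mG := Nat.card G / p ^ (Nat.card G).factorization p with hmG
  have hmG' : ¬ p ∣ mG := Nat.not_dvd_ordCompl hp Nat.card_pos.ne'
  have hmG0 : (mG : ℂ) ≠ 0 := by
    intro h
    have : mG = 0 := by exact_mod_cast h
    exact hmG' (this ▸ dvd_zero p)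
  have h2 : (p : ℂ) ^ blockDefect p B * mm p y H b ψ ψ =
      ((charDegree (ψ : G → ℂ) / p ^ ee p ψ : ℕ) : ℂ) * Wm p y H b ψ ψ * (mG : ℂ)⁻¹ := by
    rw [← h1]
    field_simp
  rw [h2]
  exact ideal_mul_right hP (ideal_mul_left hP (ring_natCast hP _) h) (ring_inv_natCast hM hmG')

/-- The normalised contributions against a character of positive height are not units. -/
theorem Wm_ideal (hM : IsPModular p M) {y : G} {H : Subgroup G}
    (hH : H = Subgroup.centralizer ({y} : Set G))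
    {b : Set (IrrCharacter H)} {B : Set (IrrCharacter G)} (hind : IsInducedBlock M H b B)
    {χ χ' : IrrCharacter G} (hχ : χ ∈ B) (hχ' : χ' ∈ B)
    (hpos : 0 < blockHeight p B (χ' : G → ℂ)) : MemLocalIdeal M (Wm p y H b χ χ') := by
  have hP := isPrime_of_modular hM
  have hp := hM.1
  have hH' : H = Subgroup.centralizer ({y⁻¹} : Set G) := by rw [centralizer_inv]; exact hH
  obtain ⟨ψ, hψ, hmin⟩ := exists_min hP p hind.2.1
  have h1 := Wm_congr hM hH hind.1 (sameBlock_of_mem hP hind.2.1 hχ hψ) χ'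
  have h2 : MemLocalIdeal M (Wm p y H b ψ χ') := by
    obtain ⟨d0, d1, -⟩ := irr_charDegree χ'.2
    obtain ⟨e0, e1, -⟩ := irr_charDegree ψ.2
    have hd : (charDegree (χ' : G → ℂ) : ℂ) ≠ 0 := by exact_mod_cast d0.ne'
    have he : (charDegree (ψ : G → ℂ) : ℂ) ≠ 0 := by exact_mod_cast e0.ne'
    have e : Wm p y H b ψ χ' = Wm p y⁻¹ H b χ' ψ *
        ((charDegree (χ' : G → ℂ) : ℂ) / (charDegree (ψ : G → ℂ) : ℂ)) := by
      unfold Wm
      rw [mm_symm, mm_conj, d1, e1]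
      field_simp
    rw [e]
    apply ideal_mul_left hP (Wm_ring hM hH' hind.1 χ' ψ)
    apply Cfsg.Agent.Lib.Helper2_BlockDefOrder.ideal_of_ratio hM d0.ne' e0.ne'
    rw [blockHeight_eq] at hpos
    have : (charDegree (ψ : G → ℂ)).factorization p = mu p B := hmin
    rw [this]
    have h3 : (charDegree (χ' : G → ℂ)).factorization p = ee p χ' := rfl
    rw [h3]
    omega
  have := ideal_add hP h1 h2
  rwa [sub_add_cancel] at this

theorem mm_ne_zero_major (hM : IsPModular p M) {y : G} {H : Subgroup G}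
    (hH : H = Subgroup.centralizer ({y} : Set G)) (hy : ∃ k : ℕ, orderOf y = p ^ k)
    {b : Set (IrrCharacter H)} {B : Set (IrrCharacter G)} (hind : IsInducedBlock M H b B)
    (hdb : blockDefect p b = blockDefect p B)
    {χ ψ : IrrCharacter G} (hχ : χ ∈ B) (hψ : ψ ∈ B)
    (h0 : blockHeight p B (ψ : G → ℂ) = 0) : mm p y H b χ ψ ≠ 0 := by
  have hP := isPrime_of_modular hM
  intro h
  apply Wm_unit hM hH hy hind hdb hχ hψ h0
  unfold Wm
  rw [h, mul_zero, zero_div]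
  exact ideal_zero hP

/-- The scaled contributions are divisible by the height of the first character. -/
theorem TT_local (hM : IsPModular p M) {y : G} {H : Subgroup G}
    (hH : H = Subgroup.centralizer ({y} : Set G))
    {b : Set (IrrCharacter H)} {B : Set (IrrCharacter G)} (hind : IsInducedBlock M H b B)
    {χ : IrrCharacter G} (hχ : χ ∈ B) (ψ : IrrCharacter G) :
    ∃ r : ℂ, MemLocalRing M r ∧ (ψ ∈ B → 0 < blockHeight p B (ψ : G → ℂ) → MemLocalIdeal M r) ∧
      (p : ℂ) ^ blockDefect p B * mm p y H b χ ψ = (p : ℂ) ^ blockHeight p B (χ : G → ℂ) * r := by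
  have hP := isPrime_of_modular hM
  have hp := hM.1
  have h1 := mm_eq_Wm hp y H b hχ ψ
  set mG := Nat.card G / p ^ (Nat.card G).factorization p with hmG
  have hmG' : ¬ p ∣ mG := Nat.not_dvd_ordCompl hp Nat.card_pos.ne'
  have hmG0 : (mG : ℂ) ≠ 0 := by
    intro h
    have : mG = 0 := by exact_mod_cast h
    exact hmG' (this ▸ dvd_zero p)
  refine ⟨((charDegree (χ : G → ℂ) / p ^ ee p χ : ℕ) : ℂ) * Wm p y H b χ ψ * (mG : ℂ)⁻¹, ?_, ?_, ?_⟩
  · exact ring_mul hP (ring_mul hP (ring_natCast hP _) (Wm_ring hM hH hind.1 χ ψ))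
      (ring_inv_natCast hM hmG')
  · intro hψ hpos
    exact ideal_mul_right hP (ideal_mul_left hP (ring_natCast hP _)
      (Wm_ideal hM hH hind hχ hψ hpos)) (ring_inv_natCast hM hmG')
  · have : (p : ℂ) ^ blockDefect p B * mm p y H b χ ψ =
        ((p : ℂ) ^ blockDefect p B * mm p y H b χ ψ * (mG : ℂ)) * (mG : ℂ)⁻¹ := by
      field_simp
    rw [this, h1]
    ring

section galois

variable (n : ℕ) [NeZero n]

/-- The product of the conjugates of an integral combination of roots of unity. -/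
theorem exists_norm_int {ι : Type*} [Fintype ι] (c : ι → ℤ) (μ : ι → ℂ)
    (hμ : ∀ i, μ i ^ n = 1) (h0 : ∑ i, (c i : ℂ) * μ i ≠ 0) :
    ∃ z : ℤ, z ≠ 0 ∧ ∏ τ : K n ≃ₐ[ℚ] K n, ∑ i, (c i : ℂ) * μ i ^ expo n τ = (z : ℂ) := by
  choose e _ he using fun i => (emb_zet_spec n).eq_pow_of_pow_eq_one (hμ i)
  set a : K n := ∑ i, (c i : K n) * zet n ^ e i with ha
  have haI : IsIntegral ℤ a := by
    refine IsIntegral.sum _ fun i _ => IsIntegral.mul ?_ (IsIntegral.pow ?_ _)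
    · exact isIntegral_algebraMap (R := ℤ) (A := K n) (x := c i)
    · exact (zet_spec n).isIntegral (NeZero.pos n)
  have hτ : ∀ (τ : K n ≃ₐ[ℚ] K n) (k : ℕ), τ (zet n) = zet n ^ k →
      emb n (τ a) = ∑ i, (c i : ℂ) * μ i ^ k := by
    intro τ k hk
    rw [ha, map_sum, map_sum]
    refine Finset.sum_congr rfl fun i _ => ?_
    rw [map_mul, map_mul, map_intCast, map_intCast, map_pow, hk, map_pow, map_pow, ← he i,
      ← pow_mul, ← pow_mul, mul_comm (e i)]
  have h1 : emb n a = ∑ i, (c i : ℂ) * μ i := by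
    have := hτ AlgEquiv.refl 1 (by simp)
    simpa using this
  have ha0 : a ≠ 0 := by
    intro h
    rw [h, map_zero] at h1
    exact h0 h1.symm
  have hval : ∀ τ : K n ≃ₐ[ℚ] K n, ∑ i, (c i : ℂ) * μ i ^ expo n τ = emb n (τ a) :=
    fun τ => (hτ τ _ (expo_spec _ τ)).symm
  have hnorm := Algebra.norm_eq_prod_automorphisms ℚ a
  have hint : IsIntegral ℤ (Algebra.norm ℚ a) := Algebra.isIntegral_norm ℚ haI
  obtain ⟨z, hz⟩ := IsIntegrallyClosed.isIntegral_iff.mp hint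
  have hz0 : z ≠ 0 := by
    rintro rfl
    rw [map_zero] at hz
    exact ha0 (Algebra.norm_eq_zero_iff.mp hz.symm)
  refine ⟨z, hz0, ?_⟩
  simp only [hval]
  rw [← map_prod, ← hnorm, emb_algebraMap, ← hz]
  simp

theorem card_lt_sum_of_one_lt_prod {ι : Type*} (s : Finset ι) (z : ι → ℝ) (hz : ∀ i ∈ s, 0 < z i)
    (h : 1 < ∏ i ∈ s, z i) : (s.card : ℝ) < ∑ i ∈ s, z i := by
  have h1 : 0 < Real.log (∏ i ∈ s, z i) := Real.log_pos h
  rw [Real.log_prod (fun i hi => (hz i hi).ne')] at h1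
  have h2 : ∑ i ∈ s, Real.log (z i) ≤ ∑ i ∈ s, (z i - 1) :=
    Finset.sum_le_sum fun i hi => Real.log_le_sub_one_of_pos (hz i hi)
  rw [Finset.sum_sub_distrib, Finset.sum_const, nsmul_eq_mul, mul_one] at h2
  linarith

/-- Lower bound for the product of the conjugates under local divisibility. -/
theorem pow_le_norm_prod (hM : IsPModular p M) {ι : Type*} [Fintype ι] (c : ι → ℤ) (μ : ι → ℂ)
    (hμ : ∀ i, μ i ^ n = 1) (h0 : ∑ i, (c i : ℂ) * μ i ≠ 0) (h : ℕ)
    (hr : ∀ τ : K n ≃ₐ[ℚ] K n, ∃ r : ℂ, MemLocalRing M r ∧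
      ∑ i, (c i : ℂ) * μ i ^ expo n τ = (p : ℂ) ^ h * r) :
    ((p : ℝ) ^ h) ^ Fintype.card (K n ≃ₐ[ℚ] K n) ≤
      ∏ τ : K n ≃ₐ[ℚ] K n, ‖∑ i, (c i : ℂ) * μ i ^ expo n τ‖ := by
  have hP := isPrime_of_modular hM
  obtain ⟨z, hz0, hz⟩ := exists_norm_int n c μ hμ h0
  choose r hrR hrE using hr
  have h1 : (z : ℂ) = (p : ℂ) ^ (h * Fintype.card (K n ≃ₐ[ℚ] K n)) * ∏ τ, r τ := by
    rw [← hz]
    simp only [hrE]
    rw [Finset.prod_mul_distrib, Finset.prod_const, Finset.card_univ, ← pow_mul]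
  have h2 : MemLocalRing M (∏ τ, r τ) := by
    have : ∀ s : Finset (K n ≃ₐ[ℚ] K n), MemLocalRing M (∏ τ ∈ s, r τ) := by
      intro s
      induction s using Finset.induction_on with
      | empty => simpa using ring_natCast hP 1
      | insert a s ha ih => rw [Finset.prod_insert ha]; exact ring_mul hP (hrR a) ih
    exact this _
  have h3 := int_dvd_of_local hM _ z _ h2 h1
  have h4 : ((p : ℤ) ^ (h * Fintype.card (K n ≃ₐ[ℚ] K n))) ≤ |z| :=
    Int.le_of_dvd (abs_pos.mpr hz0) ((dvd_abs _ _).mpr h3)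
  rw [← norm_prod, hz, Complex.norm_intCast, ← pow_mul]
  exact_mod_cast h4

/-- Strict version when the cofactors are not units. -/
theorem pow_lt_norm_prod (hM : IsPModular p M) {ι : Type*} [Fintype ι] (c : ι → ℤ) (μ : ι → ℂ)
    (hμ : ∀ i, μ i ^ n = 1) (h0 : ∑ i, (c i : ℂ) * μ i ≠ 0) (h : ℕ)
    (hr : ∀ τ : K n ≃ₐ[ℚ] K n, ∃ r : ℂ, MemLocalIdeal M r ∧
      ∑ i, (c i : ℂ) * μ i ^ expo n τ = (p : ℂ) ^ h * r) :
    ((p : ℝ) ^ h) ^ Fintype.card (K n ≃ₐ[ℚ] K n) <
      ∏ τ : K n ≃ₐ[ℚ] K n, ‖∑ i, (c i : ℂ) * μ i ^ expo n τ‖ := by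
  have hP := isPrime_of_modular hM
  have hp := hM.1
  obtain ⟨z, hz0, hz⟩ := exists_norm_int n c μ hμ h0
  choose r hrR hrE using hr
  have h1 : (z : ℂ) = (p : ℂ) ^ (h * Fintype.card (K n ≃ₐ[ℚ] K n)) * ∏ τ, r τ := by
    rw [← hz]
    simp only [hrE]
    rw [Finset.prod_mul_distrib, Finset.prod_const, Finset.card_univ, ← pow_mul]
  have h2' : ∀ s : Finset (K n ≃ₐ[ℚ] K n), MemLocalRing M (∏ τ ∈ s, r τ) := by
    intro s
    induction s using Finset.induction_on with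
    | empty => simpa using ring_natCast hP 1
    | insert a s ha ih => rw [Finset.prod_insert ha]; exact ring_mul hP (ideal_ring (hrR a)) ih
  have h2 : MemLocalIdeal M (∏ τ, r τ) := by
    rw [← Finset.mul_prod_erase Finset.univ r (Finset.mem_univ (1 : K n ≃ₐ[ℚ] K n))]
    exact ideal_mul_right hP (hrR 1) (h2' _)
  obtain ⟨z', hz'⟩ := int_dvd_of_local hM _ z _ (ideal_ring h2) h1
  have hp0 : (p : ℂ) ^ (h * Fintype.card (K n ≃ₐ[ℚ] K n)) ≠ 0 :=
    pow_ne_zero _ (by exact_mod_cast hp.ne_zero)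
  have h5 : (z' : ℂ) = ∏ τ, r τ := by
    apply mul_left_cancel₀ hp0
    rw [← h1, hz']
    push_cast
    rfl
  have h6 : (p : ℤ) ∣ z' := by
    rw [← Cfsg.Agent.Lib.Helper2_Necklace2.ideal_intCast_iff hM, h5]
    exact h2
  have hz'0 : z' ≠ 0 := by
    rintro rfl
    rw [mul_zero] at hz'
    exact hz0 hz'
  have h7 : (p : ℤ) ≤ |z'| := Int.le_of_dvd (abs_pos.mpr hz'0) ((dvd_abs _ _).mpr h6)
  have h8 : ((p : ℤ) ^ (h * Fintype.card (K n ≃ₐ[ℚ] K n))) < |z| := by
    rw [hz', abs_mul, abs_pow, Nat.abs_cast]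
    have hpos : (0 : ℤ) < (p : ℤ) ^ (h * Fintype.card (K n ≃ₐ[ℚ] K n)) := by
      have : (0 : ℤ) < (p : ℤ) := by exact_mod_cast hp.pos
      positivity
    have h2p : (2 : ℤ) ≤ (p : ℤ) := by exact_mod_cast hp.two_le
    nlinarith
  rw [← norm_prod, hz, Complex.norm_intCast, ← pow_mul]
  exact_mod_cast h8

theorem card_mul_le_sum_sq (hM : IsPModular p M) {ι : Type*} [Fintype ι] (c : ι → ℤ) (μ : ι → ℂ)
    (hμ : ∀ i, μ i ^ n = 1) (h0 : ∑ i, (c i : ℂ) * μ i ≠ 0) (h : ℕ)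
    (hr : ∀ τ : K n ≃ₐ[ℚ] K n, ∃ r : ℂ, MemLocalRing M r ∧
      ∑ i, (c i : ℂ) * μ i ^ expo n τ = (p : ℂ) ^ h * r) :
    (Fintype.card (K n ≃ₐ[ℚ] K n) : ℝ) * ((p : ℝ) ^ h) ^ 2 ≤
      ∑ τ : K n ≃ₐ[ℚ] K n, ‖∑ i, (c i : ℂ) * μ i ^ expo n τ‖ ^ 2 := by
  have hp := hM.1
  have hpp : (0 : ℝ) < (p : ℝ) ^ h := by
    have : (0 : ℝ) < (p : ℝ) := by exact_mod_cast hp.pos
    positivity
  have h1 := pow_le_norm_prod n hM c μ hμ h0 h hr
  have hpos : ∀ τ : K n ≃ₐ[ℚ] K n, 0 < ‖∑ i, (c i : ℂ) * μ i ^ expo n τ‖ := by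
    intro τ
    have h2 : ∏ τ : K n ≃ₐ[ℚ] K n, ‖∑ i, (c i : ℂ) * μ i ^ expo n τ‖ ≠ 0 := by
      have : (0 : ℝ) < ((p : ℝ) ^ h) ^ Fintype.card (K n ≃ₐ[ℚ] K n) := by positivity
      linarith
    have h3 := Finset.prod_ne_zero_iff.mp h2 τ (Finset.mem_univ _)
    exact lt_of_le_of_ne (norm_nonneg _) (Ne.symm h3)
  have h4 := card_le_sum_of_one_le_prod Finset.univ
    (fun τ : K n ≃ₐ[ℚ] K n => ‖∑ i, (c i : ℂ) * μ i ^ expo n τ‖ ^ 2 / ((p : ℝ) ^ h) ^ 2)
    (fun τ _ => by have := hpos τ; positivity) (by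
      rw [Finset.prod_div_distrib, Finset.prod_const, Finset.card_univ, Finset.prod_pow,
        one_le_div (by positivity), ← pow_mul, mul_comm 2, pow_mul]
      exact pow_le_pow_left₀ (by positivity) h1 2)
  rw [Finset.card_univ, ← Finset.sum_div, le_div_iff₀ (by positivity)] at h4
  exact h4

theorem card_mul_lt_sum (hM : IsPModular p M) {ι : Type*} [Fintype ι] (c : ι → ℤ) (μ : ι → ℂ)
    (hμ : ∀ i, μ i ^ n = 1) (h0 : ∑ i, (c i : ℂ) * μ i ≠ 0) (h : ℕ)
    (hr : ∀ τ : K n ≃ₐ[ℚ] K n, ∃ r : ℂ, MemLocalIdeal M r ∧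
      ∑ i, (c i : ℂ) * μ i ^ expo n τ = (p : ℂ) ^ h * r) :
    (Fintype.card (K n ≃ₐ[ℚ] K n) : ℝ) * (p : ℝ) ^ h <
      ∑ τ : K n ≃ₐ[ℚ] K n, ‖∑ i, (c i : ℂ) * μ i ^ expo n τ‖ := by
  have hp := hM.1
  have hpp : (0 : ℝ) < (p : ℝ) ^ h := by
    have : (0 : ℝ) < (p : ℝ) := by exact_mod_cast hp.pos
    positivity
  have h1 := pow_lt_norm_prod n hM c μ hμ h0 h hr
  have hpos : ∀ τ : K n ≃ₐ[ℚ] K n, 0 < ‖∑ i, (c i : ℂ) * μ i ^ expo n τ‖ := by
    intro τ
    have h2 : ∏ τ : K n ≃ₐ[ℚ] K n, ‖∑ i, (c i : ℂ) * μ i ^ expo n τ‖ ≠ 0 := by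
      have : (0 : ℝ) < ((p : ℝ) ^ h) ^ Fintype.card (K n ≃ₐ[ℚ] K n) := by positivity
      linarith
    have h3 := Finset.prod_ne_zero_iff.mp h2 τ (Finset.mem_univ _)
    exact lt_of_le_of_ne (norm_nonneg _) (Ne.symm h3)
  have h4 := card_lt_sum_of_one_lt_prod Finset.univ
    (fun τ : K n ≃ₐ[ℚ] K n => ‖∑ i, (c i : ℂ) * μ i ^ expo n τ‖ / (p : ℝ) ^ h)
    (fun τ _ => by have := hpos τ; positivity) (by
      rw [Finset.prod_div_distrib, Finset.prod_const, Finset.card_univ,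
        one_lt_div (by positivity)]
      exact h1)
  rw [Finset.card_univ, ← Finset.sum_div, lt_div_iff₀ (by positivity)] at h4
  exact h4

/-- The average of the conjugates, for `2`-power roots of unity. -/
theorem avg_eq {j : ℕ} (hn : n = 2 ^ j) {ι : Type*} [Fintype ι] (c : ι → ℤ) (μ : ι → ℂ)
    (hμ : ∀ i, μ i ^ n = 1) :
    ∑ τ : K n ≃ₐ[ℚ] K n, ∑ i, (c i : ℂ) * μ i ^ expo n τ =
      (Fintype.card (K n ≃ₐ[ℚ] K n) : ℂ) * ((∑ i, c i * eps (μ i) : ℤ) : ℂ) := by
  rw [Finset.sum_comm]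
  push_cast
  rw [Finset.mul_sum]
  refine Finset.sum_congr rfl fun i _ => ?_
  rw [← Finset.mul_sum, sum_expo n hn (hμ i)]
  ring

end galois

end Cfsg.Agent.Lib.helper8_Broue5
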