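import Mathlib
import Cfsg.Prelude.Def_Blocks
import Cfsg.Prelude.Def_BlockRank
import Cfsg.Agent.Lib.helper8_Broue5

set_option autoImplicit false

namespace Cfsg.Agent.Lib.helper8_Broue6

open Cfsg Cfsg.Agent.Lib.CharBasic Cfsg.Agent.Lib.CharOrtho
  Cfsg.Agent.Lib.CharComplete Cfsg.Agent.Lib.CharIntegral Cfsg.Agent.Lib.CharMore
  Cfsg.Agent.Lib.CharInd
  Cfsg.Agent.Lib.helper8_BlockRank Cfsg.Agent.Lib.helper8_RegularPart
  Cfsg.Agent.Lib.helper8_BlockSum Cfsg.Agent.Lib.helper8_Defect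
  Cfsg.Agent.Lib.Helper2_BlockLocal Cfsg.Agent.Lib.Helper2_BlockOm
  Cfsg.Agent.Lib.helper8_Height Cfsg.Agent.Lib.helper8_Height2
  Cfsg.Agent.Lib.Helper2_PPart Cfsg.Agent.Lib.helper8_SubSec
  Cfsg.Agent.Lib.Helper2_BlockOrtho Cfsg.Agent.Lib.Helper2_BlockOrtho2
  Cfsg.Agent.Lib.helper8_Broue Cfsg.Agent.Lib.helper8_Center Cfsg.Agent.Lib.helper8_Broue2
  Cfsg.Agent.Lib.helper8_Major Cfsg.Agent.Lib.CharGalois Cfsg.Agent.Lib.helper8_Broue3
  Cfsg.Agent.Lib.helper8_Broue4 Cfsg.Agent.Lib.helper8_Broue5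
open scoped ComplexConjugate Classical

universe u

variable {G : Type u} [Group G] [Fintype G] {p : ℕ} {M : Ideal AlgInt}

/-- The diagonal contribution as a real number. -/
noncomputable def rr (p : ℕ) (y : G) (H : Subgroup G) (b : Set (IrrCharacter H))
    (χ : IrrCharacter G) : ℝ :=
  ∑ ξ ∈ Finset.univ.filter (fun ξ : IrrCharacter H => ξ ∈ b), ‖aa p y H χ ξ‖ ^ 2

theorem mm_self (y : G) (H : Subgroup G) (b : Set (IrrCharacter H)) (χ : IrrCharacter G) :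
    mm p y H b χ χ = (rr p y H b χ : ℂ) := by
  unfold mm rr
  push_cast
  refine Finset.sum_congr rfl fun ξ _ => ?_
  rw [Complex.mul_conj, Complex.normSq_eq_norm_sq]
  push_cast
  rfl

theorem rr_nonneg (y : G) (H : Subgroup G) (b : Set (IrrCharacter H)) (χ : IrrCharacter G) :
    0 ≤ rr p y H b χ := Finset.sum_nonneg fun ξ _ => by positivity

theorem rr_row (hM : IsPModular p M) {y : G} {H : Subgroup G}
    (hH : H = Subgroup.centralizer ({y} : Set G)) (hy : ∃ k : ℕ, orderOf y = p ^ k)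
    {b : Set (IrrCharacter H)} {B : Set (IrrCharacter G)} (hind : IsInducedBlock M H b B)
    (χ : IrrCharacter G) :
    ∑ χ' ∈ Finset.univ.filter (fun χ : IrrCharacter G => χ ∈ B), ‖mm p y H b χ χ'‖ ^ 2 =
      rr p y H b χ := by
  have h := sum_mm_row hM hH hy hind χ
  rw [mm_self] at h
  have h3 : ((∑ χ' ∈ Finset.univ.filter (fun χ : IrrCharacter G => χ ∈ B),
      ‖mm p y H b χ χ'‖ ^ 2 : ℝ) : ℂ) = ((rr p y H b χ : ℝ) : ℂ) := by
    rw [← h]
    push_cast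
    refine Finset.sum_congr rfl fun χ' _ => ?_
    rw [Complex.mul_conj, Complex.normSq_eq_norm_sq]
    push_cast
    rfl
  exact_mod_cast h3

theorem norm_mm_self (y : G) (H : Subgroup G) (b : Set (IrrCharacter H)) (χ : IrrCharacter G) :
    ‖mm p y H b χ χ‖ = rr p y H b χ := by
  rw [mm_self, Complex.norm_real, Real.norm_eq_abs, abs_of_nonneg (rr_nonneg y H b χ)]

theorem rr_le_one (hM : IsPModular p M) {y : G} {H : Subgroup G}
    (hH : H = Subgroup.centralizer ({y} : Set G)) (hy : ∃ k : ℕ, orderOf y = p ^ k)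
    {b : Set (IrrCharacter H)} {B : Set (IrrCharacter G)} (hind : IsInducedBlock M H b B)
    {χ : IrrCharacter G} (hχ : χ ∈ B) : rr p y H b χ ≤ 1 := by
  have h := rr_row hM hH hy hind χ
  have h1 : ‖mm p y H b χ χ‖ ^ 2 ≤
      ∑ χ' ∈ Finset.univ.filter (fun χ : IrrCharacter G => χ ∈ B), ‖mm p y H b χ χ'‖ ^ 2 :=
    Finset.single_le_sum (f := fun χ' => ‖mm p y H b χ χ'‖ ^ 2) (fun χ' _ => by positivity)
      (Finset.mem_filter.mpr ⟨Finset.mem_univ _, hχ⟩)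
  rw [h, norm_mm_self] at h1
  have h0 := rr_nonneg (p := p) y H b χ
  nlinarith

theorem rr_lt_one (hM : IsPModular p M) {y : G} {H : Subgroup G}
    (hH : H = Subgroup.centralizer ({y} : Set G)) (hy : ∃ k : ℕ, orderOf y = p ^ k)
    {b : Set (IrrCharacter H)} {B : Set (IrrCharacter G)} (hind : IsInducedBlock M H b B)
    {χ ψ : IrrCharacter G} (hχ : χ ∈ B) (hψ : ψ ∈ B) (hne : ψ ≠ χ)
    (h0 : mm p y H b χ ψ ≠ 0) : rr p y H b χ < 1 := by
  have h := rr_row hM hH hy hind χ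
  set SB := Finset.univ.filter (fun χ : IrrCharacter G => χ ∈ B) with hSB
  have hχS : χ ∈ SB := Finset.mem_filter.mpr ⟨Finset.mem_univ _, hχ⟩
  have hψS : ψ ∈ SB.erase χ := Finset.mem_erase.mpr ⟨hne, Finset.mem_filter.mpr ⟨Finset.mem_univ _, hψ⟩⟩
  rw [← Finset.add_sum_erase SB _ hχS, norm_mm_self] at h
  have h1 : ‖mm p y H b χ ψ‖ ^ 2 ≤ ∑ χ' ∈ SB.erase χ, ‖mm p y H b χ χ'‖ ^ 2 :=
    Finset.single_le_sum (f := fun χ' => ‖mm p y H b χ χ'‖ ^ 2) (fun χ' _ => by positivity) hψS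
  have h2 : 0 < ‖mm p y H b χ ψ‖ ^ 2 := by have := norm_pos_iff.mpr h0; positivity
  have h3 := rr_nonneg (p := p) y H b χ
  nlinarith

theorem sum_rr (hM : IsPModular p M) {y : G} {H : Subgroup G}
    (hH : H = Subgroup.centralizer ({y} : Set G)) (hy : ∃ k : ℕ, orderOf y = p ^ k)
    {b : Set (IrrCharacter H)} {B : Set (IrrCharacter G)} (hind : IsInducedBlock M H b B) :
    ∑ χ ∈ Finset.univ.filter (fun χ : IrrCharacter G => χ ∈ B), rr p y H b χ =
      (blockRank p b : ℝ) := by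
  rw [← sum_mm_real hM hH hy hind]
  refine Finset.sum_congr rfl fun χ _ => ?_
  rw [rr_row hM hH hy hind χ]

theorem norm_mm_symm (y : G) (H : Subgroup G) (b : Set (IrrCharacter H)) (χ ψ : IrrCharacter G) :
    ‖mm p y H b ψ χ‖ = ‖mm p y H b χ ψ‖ := by
  rw [mm_symm, Complex.norm_conj]

/-- The averaged diagonal contributions of a major subsection for `p = 2`. -/
theorem major_data (hM : IsPModular 2 M) {y : G} {H : Subgroup G}
    (hH : H = Subgroup.centralizer ({y} : Set G)) (hy : ∃ k : ℕ, orderOf y = 2 ^ k)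
    {b : Set (IrrCharacter H)} {B : Set (IrrCharacter G)} (hind : IsInducedBlock M H b B)
    (hdb : blockDefect 2 b = blockDefect 2 B) :
    ∃ A : IrrCharacter G → ℤ,
      (∀ ψ ∈ B, blockHeight 2 B (ψ : G → ℂ) = 0 → Odd (A ψ) ∧
        ((Finset.univ.filter (fun χ : IrrCharacter G => χ ∈ B)).card : ℤ) - 1 ≤
          A ψ * (2 ^ blockDefect 2 B - A ψ)) ∧
      (∀ χ ∈ B, 0 ≤ A χ ∧ A χ ≤ 2 ^ blockDefect 2 B) ∧
      (∀ χ ∈ B, 0 < blockHeight 2 B (χ : G → ℂ) → A χ + 3 ≤ 2 ^ blockDefect 2 B) ∧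
      ∑ χ ∈ Finset.univ.filter (fun χ : IrrCharacter G => χ ∈ B), A χ =
        2 ^ blockDefect 2 B * (blockRank 2 b : ℤ) := by
  have hPr := isPrime_of_modular hM
  set SB := Finset.univ.filter (fun χ : IrrCharacter G => χ ∈ B) with hSB
  obtain ⟨j, hj⟩ := hy
  set N := orderOf y with hN
  have : NeZero N := ⟨(orderOf_pos y).ne'⟩
  set Γ := K N ≃ₐ[ℚ] K N with hΓ
  have hΓpos : (0 : ℝ) < Fintype.card Γ := by exact_mod_cast Fintype.card_pos
  set d := blockDefect 2 B with hd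
  set P : ℝ := (2 : ℝ) ^ d with hP
  have hPpos : 0 < P := by positivity
  have hHk : ∀ τ : Γ, H = Subgroup.centralizer ({y ^ expo N τ} : Set G) := by
    intro τ
    rw [centralizer_pow' y (expo_coprime N τ)]
    exact hH
  have hyk : ∀ τ : Γ, ∃ j : ℕ, orderOf (y ^ expo N τ) = 2 ^ j := by
    intro τ
    refine ⟨j, ?_⟩
    rw [← hj]
    apply Nat.Coprime.orderOf_pow
    exact (expo_coprime N τ).symm
  have hy' : ∃ k : ℕ, orderOf y = 2 ^ k := ⟨j, hj⟩
  have hyN : y ^ N = 1 := pow_orderOf_eq_one y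
  obtain ⟨ψ0, hψ0, hmin0⟩ := exists_min hPr 2 hind.2.1
  have hψ00 : blockHeight 2 B (ψ0 : G → ℂ) = 0 := by rw [blockHeight_eq, hmin0, Nat.sub_self]
  -- the averages
  have stepA : ∀ χ : IrrCharacter G, ∃ A : ℤ,
      (∑ τ : Γ, P * rr 2 (y ^ expo N τ) H b χ = (Fintype.card Γ : ℝ) * (A : ℝ)) ∧
      (χ ∈ B → blockHeight 2 B (χ : G → ℂ) = 0 → Odd A) := by
    intro χ
    obtain ⟨c, μ, hμ, hcs, hμs, hc⟩ := exists_comb' hM hH hind.1 χ χ hyN
    have hconv : ∀ A : ℤ, ∑ τ : Γ, ∑ i, (c i : ℂ) * μ i ^ expo N τ =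
        (Fintype.card Γ : ℂ) * (A : ℂ) →
        ∑ τ : Γ, P * rr 2 (y ^ expo N τ) H b χ = (Fintype.card Γ : ℝ) * (A : ℝ) := by
      intro A hA
      have h : ((∑ τ : Γ, P * rr 2 (y ^ expo N τ) H b χ : ℝ) : ℂ) =
          (((Fintype.card Γ : ℝ) * (A : ℝ) : ℝ) : ℂ) := by
        push_cast
        rw [← hA]
        refine Finset.sum_congr rfl fun τ _ => ?_
        rw [← hc _ (hHk τ), mm_self, hdb, hP]
        push_cast
        rfl
      exact_mod_cast h
    by_cases hcase : χ ∈ B ∧ blockHeight 2 B (χ : G → ℂ) = 0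
    · have hunit := mm_unit hM hH hy' hind hcase.1 hcase.1 hcase.2 hcase.2
      have h1 := hc 1 (by rw [pow_one]; exact hH)
      simp only [pow_one] at h1
      rw [h1] at hunit
      have hodd := odd_sum_of_unit hM c μ (j := j) (fun i => by rw [← hj]; exact hμ i) hunit
      obtain ⟨A, hA, hsum⟩ := exists_odd_avg N hj Prod.swap Prod.swap_swap c μ hμ (hcs rfl) hμs hodd
      exact ⟨A, hconv A hsum, fun _ _ => hA⟩
    · exact ⟨_, hconv _ (avg_eq N hj c μ hμ), fun h1 h2 => absurd ⟨h1, h2⟩ hcase⟩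
  choose A hAsum hAodd using stepA
  -- nonvanishing
  have stepB : ∀ χ ∈ B, ∀ ψ ∈ B, blockHeight 2 B (ψ : G → ℂ) = 0 → (Fintype.card Γ : ℝ) ≤
      ∑ τ : Γ, P ^ 2 * ‖mm 2 (y ^ expo N τ) H b χ ψ‖ ^ 2 := by
    intro χ hχ ψ hψ hψ0'
    obtain ⟨c, μ, hμ, -, -, hc⟩ := exists_comb' hM hH hind.1 χ ψ hyN
    have hne := mm_ne_zero_major hM hH hy' hind hdb hχ hψ hψ0'
    have h0 : ∑ i, (c i : ℂ) * μ i ≠ 0 := by
      have := hc 1 (by rw [pow_one]; exact hH)
      simp only [pow_one] at this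
      rw [← this]
      exact mul_ne_zero (pow_ne_zero _ (by norm_num)) hne
    have h2 := card_le_sum_comb N c μ hμ h0
    refine h2.trans (le_of_eq ?_)
    refine Finset.sum_congr rfl fun τ _ => ?_
    rw [← hc _ (hHk τ), norm_mul, norm_pow, Complex.norm_natCast, mul_pow, hP, hdb]
    push_cast
    rfl
  have hr0 : ∀ (τ : Γ) (χ : IrrCharacter G), 0 ≤ rr 2 (y ^ expo N τ) H b χ :=
    fun τ χ => rr_nonneg _ _ _ _
  have hr1 : ∀ (τ : Γ), ∀ χ ∈ B, rr 2 (y ^ expo N τ) H b χ ≤ 1 :=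
    fun τ χ hχ => rr_le_one hM (hHk τ) (hyk τ) hind hχ
  refine ⟨A, ?_, ?_, ?_, ?_⟩
  · intro ψ hψ hψ0'
    refine ⟨hAodd ψ hψ hψ0', ?_⟩
    have hψS : ψ ∈ SB := Finset.mem_filter.mpr ⟨Finset.mem_univ _, hψ⟩
    -- the row of `ψ`
    have h1 : ∀ τ : Γ, P * (P * rr 2 (y ^ expo N τ) H b ψ) =
        (P * rr 2 (y ^ expo N τ) H b ψ) ^ 2 +
          ∑ χ ∈ SB.erase ψ, P ^ 2 * ‖mm 2 (y ^ expo N τ) H b χ ψ‖ ^ 2 := by
      intro τ
      have h2 := rr_row hM (hHk τ) (hyk τ) hind ψ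
      rw [← Finset.add_sum_erase _ _ hψS, norm_mm_self] at h2
      have h3 : ∑ χ ∈ SB.erase ψ, P ^ 2 * ‖mm 2 (y ^ expo N τ) H b χ ψ‖ ^ 2 =
          P ^ 2 * ∑ χ ∈ SB.erase ψ, ‖mm 2 (y ^ expo N τ) H b ψ χ‖ ^ 2 := by
        rw [Finset.mul_sum]
        refine Finset.sum_congr rfl fun χ _ => ?_
        rw [norm_mm_symm]
      rw [h3]
      nlinarith
    have h4 : ((SB.card : ℝ) - 1) * (Fintype.card Γ : ℝ) ≤
        ∑ τ : Γ, ∑ χ ∈ SB.erase ψ, P ^ 2 * ‖mm 2 (y ^ expo N τ) H b χ ψ‖ ^ 2 := by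
      rw [Finset.sum_comm]
      have h5 := Finset.card_nsmul_le_sum (SB.erase ψ)
        (fun χ => ∑ τ : Γ, P ^ 2 * ‖mm 2 (y ^ expo N τ) H b χ ψ‖ ^ 2) _
        (fun χ hχ => stepB χ (Finset.mem_filter.mp (Finset.mem_of_mem_erase hχ)).2 ψ hψ hψ0')
      rw [nsmul_eq_mul, Finset.card_erase_of_mem hψS,
        Nat.cast_sub (Finset.card_pos.mpr ⟨ψ, hψS⟩), Nat.cast_one] at h5
      exact h5
    have h6 : (Fintype.card Γ : ℝ) * (A ψ : ℝ) ^ 2 ≤
        ∑ τ : Γ, (P * rr 2 (y ^ expo N τ) H b ψ) ^ 2 := by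
      have h7 : 0 ≤ ∑ τ : Γ, (P * rr 2 (y ^ expo N τ) H b ψ - (A ψ : ℝ)) ^ 2 :=
        Finset.sum_nonneg fun τ _ => by positivity
      have h8 : ∑ τ : Γ, (P * rr 2 (y ^ expo N τ) H b ψ - (A ψ : ℝ)) ^ 2 =
          ∑ τ : Γ, (P * rr 2 (y ^ expo N τ) H b ψ) ^ 2 -
            2 * (A ψ : ℝ) * ∑ τ : Γ, P * rr 2 (y ^ expo N τ) H b ψ +
            (Fintype.card Γ : ℝ) * (A ψ : ℝ) ^ 2 := by
        rw [Finset.mul_sum, ← Finset.sum_sub_distrib]
        have : (Fintype.card Γ : ℝ) * (A ψ : ℝ) ^ 2 = ∑ _τ : Γ, (A ψ : ℝ) ^ 2 := by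
          rw [Finset.sum_const, Finset.card_univ, nsmul_eq_mul]
        rw [this, ← Finset.sum_add_distrib]
        refine Finset.sum_congr rfl fun τ _ => ?_
        ring
      rw [h8, hAsum ψ] at h7
      nlinarith
    have h9 : P * ((Fintype.card Γ : ℝ) * (A ψ : ℝ)) =
        ∑ τ : Γ, (P * rr 2 (y ^ expo N τ) H b ψ) ^ 2 +
        ∑ τ : Γ, ∑ χ ∈ SB.erase ψ, P ^ 2 * ‖mm 2 (y ^ expo N τ) H b χ ψ‖ ^ 2 := by
      rw [← hAsum ψ, Finset.mul_sum, ← Finset.sum_add_distrib]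
      exact Finset.sum_congr rfl fun τ _ => h1 τ
    have h10 : ((SB.card : ℝ) - 1) * (Fintype.card Γ : ℝ) ≤
        ((A ψ : ℝ) * (P - (A ψ : ℝ))) * (Fintype.card Γ : ℝ) := by nlinarith
    have h11 := le_of_mul_le_mul_right h10 hΓpos
    have h12 : (((SB.card : ℤ) - 1 : ℤ) : ℝ) ≤ ((A ψ * (2 ^ d - A ψ) : ℤ) : ℝ) := by
      push_cast
      exact h11
    exact_mod_cast h12
  · intro χ hχ
    have h1 : 0 ≤ ∑ τ : Γ, P * rr 2 (y ^ expo N τ) H b χ :=
      Finset.sum_nonneg fun τ _ => mul_nonneg hPpos.le (hr0 τ χ)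
    have h2 : ∑ τ : Γ, P * rr 2 (y ^ expo N τ) H b χ ≤ ∑ _τ : Γ, P :=
      Finset.sum_le_sum fun τ _ => by
        have := hr1 τ χ hχ
        nlinarith
    rw [Finset.sum_const, Finset.card_univ, nsmul_eq_mul] at h2
    rw [hAsum χ] at h1 h2
    constructor
    · have h3 : (0 : ℝ) ≤ (A χ : ℝ) := by
        by_contra hneg
        push Not at hneg
        nlinarith
      exact_mod_cast h3
    · have h3 : (A χ : ℝ) ≤ P := le_of_mul_le_mul_left h2 hΓpos
      have h4 : ((A χ : ℤ) : ℝ) ≤ ((2 ^ d : ℤ) : ℝ) := by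
        push_cast
        exact h3
      exact_mod_cast h4
  · intro χ hχ hpos
    obtain ⟨hd2, -⟩ := pos_height hM hind.2.1 hχ hpos
    rw [← hd] at hd2
    obtain ⟨c, μ, hμ, -, -, hc⟩ := exists_comb' hM hH hind.1 χ χ hyN
    set c' : Option (IrrCharacter H × IrrCharacter H) → ℤ :=
      fun o => o.elim (2 ^ d) (fun i => -c i) with hc'
    set μ' : Option (IrrCharacter H × IrrCharacter H) → ℂ := fun o => o.elim 1 μ with hμ'
    have hμ1 : ∀ o, μ' o ^ N = 1 := by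
      intro o
      cases o with
      | none => simp [hμ']
      | some i => simpa [hμ'] using hμ i
    have hval : ∀ k : ℕ, H = Subgroup.centralizer ({y ^ k} : Set G) →
        ∑ o, (c' o : ℂ) * μ' o ^ k = ((P - P * rr 2 (y ^ k) H b χ : ℝ) : ℂ) := by
      intro k hk
      rw [Fintype.sum_option]
      simp only [hc', hμ', Option.elim_none, Option.elim_some, one_pow, mul_one]
      have h1 := hc k hk
      rw [mm_self, hdb] at h1
      push_cast
      rw [hP]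
      push_cast
      push_cast at h1
      rw [h1, sub_eq_add_neg, ← Finset.sum_neg_distrib]
      congr 1
      refine Finset.sum_congr rfl fun i _ => ?_
      ring
    have hne : ψ0 ≠ χ := by
      rintro rfl
      omega
    have hlt := rr_lt_one hM hH hy' hind hχ hψ0 hne
      (mm_ne_zero_major hM hH hy' hind hdb hχ hψ0 hψ00)
    have h0 : ∑ o, (c' o : ℂ) * μ' o ≠ 0 := by
      have h1 := hval 1 (by rw [pow_one]; exact hH)
      simp only [pow_one] at h1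
      rw [h1]
      have : P - P * rr 2 y H b χ ≠ 0 := by nlinarith
      exact_mod_cast this
    have hr : ∀ τ : Γ, ∃ r : ℂ, MemLocalIdeal M r ∧
        ∑ o, (c' o : ℂ) * μ' o ^ expo N τ = ((2 : ℕ) : ℂ) ^ 1 * r := by
      intro τ
      obtain ⟨r0, -, hr0I, hr0⟩ := TT_local hM (hHk τ) hind hχ χ
      have hr0I' := hr0I hχ hpos
      set h := blockHeight 2 B (χ : G → ℂ) with hh
      refine ⟨((2 ^ (d - 1) : ℕ) : ℂ) - ((2 ^ (h - 1) : ℕ) : ℂ) * r0, ?_, ?_⟩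
      · apply ideal_sub hPr
        · rw [ideal_natCast_iff hM]
          exact dvd_pow_self 2 (by omega)
        · exact ideal_mul_left hPr (ring_natCast hPr _) hr0I'
      · rw [hval _ (hHk τ)]
        rw [mm_self] at hr0
        have e1 : (2 : ℂ) ^ d = 2 * 2 ^ (d - 1) := by
          rw [← pow_succ']
          congr 1
          omega
        have e2 : (2 : ℂ) ^ h = 2 * 2 ^ (h - 1) := by
          rw [← pow_succ']
          congr 1
          omega
        push_cast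
        push_cast at hr0
        rw [hP]
        push_cast
        rw [hr0, e1, e2]
        ring
    have h1 := card_mul_lt_sum N hM c' μ' hμ1 h0 1 hr
    have h2 : ∑ τ : Γ, ‖∑ o, (c' o : ℂ) * μ' o ^ expo N τ‖ =
        (Fintype.card Γ : ℝ) * P - (Fintype.card Γ : ℝ) * (A χ : ℝ) := by
      rw [← hAsum χ]
      have : (Fintype.card Γ : ℝ) * P = ∑ _τ : Γ, P := by
        rw [Finset.sum_const, Finset.card_univ, nsmul_eq_mul]
      rw [this, ← Finset.sum_sub_distrib]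
      refine Finset.sum_congr rfl fun τ _ => ?_
      rw [hval _ (hHk τ), Complex.norm_real, Real.norm_eq_abs, abs_of_nonneg]
      have := hr1 τ χ hχ
      nlinarith
    rw [h2] at h1
    have h3 : (Fintype.card Γ : ℝ) * 2 < (Fintype.card Γ : ℝ) * (P - (A χ : ℝ)) := by
      push_cast at h1
      nlinarith
    have h4 : (2 : ℝ) < P - (A χ : ℝ) := lt_of_mul_lt_mul_left h3 hΓpos.le
    have h5 : ((2 : ℤ) : ℝ) < ((2 ^ d - A χ : ℤ) : ℝ) := by
      push_cast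
      exact h4
    have h6 : (2 : ℤ) < 2 ^ d - A χ := by exact_mod_cast h5
    omega
  · have h1 : ∑ χ ∈ SB, (Fintype.card Γ : ℝ) * (A χ : ℝ) =
        (Fintype.card Γ : ℝ) * (P * (blockRank 2 b : ℝ)) := by
      calc _ = ∑ χ ∈ SB, ∑ τ : Γ, P * rr 2 (y ^ expo N τ) H b χ :=
            Finset.sum_congr rfl fun χ _ => (hAsum χ).symm
        _ = ∑ τ : Γ, ∑ χ ∈ SB, P * rr 2 (y ^ expo N τ) H b χ := Finset.sum_comm
        _ = ∑ τ : Γ, P * (blockRank 2 b : ℝ) := by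
            refine Finset.sum_congr rfl fun τ _ => ?_
            rw [← Finset.mul_sum, sum_rr hM (hHk τ) (hyk τ) hind]
        _ = _ := by rw [Finset.sum_const, Finset.card_univ, nsmul_eq_mul]
    rw [← Finset.mul_sum] at h1
    have h2 := mul_left_cancel₀ hΓpos.ne' h1
    have h3 : ((∑ χ ∈ SB, A χ : ℤ) : ℝ) = ((2 ^ d * (blockRank 2 b : ℤ) : ℤ) : ℝ) := by
      push_cast
      exact h2
    exact_mod_cast h3

end Cfsg.Agent.Lib.helper8_Broue6
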