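import Mathlib
import Cfsg.Prelude.Def_Blocks
import Cfsg.Agent.Lib.helper8_Broue5

set_option autoImplicit false

namespace Cfsg.Agent.Lib.helper8_TwoAdic

open Cfsg Cfsg.Agent.Lib.Helper2_BlockLocal Cfsg.Agent.Lib.CharGalois
  Cfsg.Agent.Lib.helper8_RegularPart
  Cfsg.Agent.Lib.helper8_Broue4 Cfsg.Agent.Lib.helper8_Broue5 Polynomial
open scoped ComplexConjugate Classical

variable {M : Ideal AlgInt}

theorem isIntegral_of_pow_eq_neg_one {a : ℂ} {m : ℕ} (hm : 0 < m) (ha : a ^ m = -1) :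
    IsIntegral ℤ a := by
  apply IsIntegral.of_pow hm
  rw [ha]
  exact isIntegral_one.neg

/-- `2` is divisible by the appropriate power of `1 - a`. -/
theorem two_eq (s : ℕ) : ∀ a : ℂ, a ^ 2 ^ s = -1 →
    ∃ U : ℂ, IsIntegral ℤ U ∧ (2 : ℂ) = (1 - a) ^ 2 ^ s * U := by
  induction s with
  | zero =>
    intro a ha
    rw [pow_zero, pow_one] at ha
    refine ⟨1, isIntegral_one, ?_⟩
    rw [ha]
    norm_num
  | succ s ih =>
    intro a ha
    have haI : IsIntegral ℤ a := isIntegral_of_pow_eq_neg_one (by positivity) ha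
    obtain ⟨U, hU, h2⟩ := ih (a ^ 2) (by rw [← pow_mul, ← pow_succ']; exact ha)
    set geom := ∑ i ∈ Finset.range (2 ^ (s + 1)), a ^ i with hgeom
    have hgI : IsIntegral ℤ geom := IsIntegral.sum _ fun i _ => haI.pow i
    have h3 : (a - 1) * geom = -2 := by
      rw [hgeom, mul_geom_sum, ha]
      norm_num
    have h4 : 1 - a ^ 2 = (1 - a) ^ 2 * (geom - 1) := by linear_combination (1 - a) * h3
    refine ⟨(geom - 1) ^ 2 ^ s * U, ((hgI.sub isIntegral_one).pow _).mul hU, ?_⟩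
    rw [h2, h4, mul_pow, ← pow_mul, ← pow_succ']
    ring

theorem frob (i : ℕ) : ∃ w : ℤ[X], (1 - X : ℤ[X]) ^ 2 ^ i = X ^ 2 ^ i + 1 + C 2 * w := by
  induction i with
  | zero =>
    refine ⟨-X, ?_⟩
    simp only [pow_zero, pow_one]
    have : (C 2 : ℤ[X]) = 2 := rfl
    rw [this]
    ring
  | succ i ih =>
    obtain ⟨w, hw⟩ := ih
    refine ⟨X ^ 2 ^ i + C 2 * (X ^ 2 ^ i + 1) * w + C 2 * w ^ 2, ?_⟩
    rw [pow_succ, pow_mul, hw]
    have : (C 2 : ℤ[X]) = 2 := rfl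
    rw [this]
    ring

theorem aeval_sub_eval_one (hM : IsPModular 2 M) {ζ : ℂ} {j : ℕ} (hζ : ζ ^ 2 ^ j = 1) (f : ℤ[X]) :
    MemLocalIdeal M (aeval ζ f - ((f.eval 1 : ℤ) : ℂ)) := by
  have hP := isPrime_of_modular hM
  rw [aeval_eq_sum_range, eval_eq_sum_range]
  push_cast
  rw [← Finset.sum_sub_distrib]
  refine ideal_sum hP _ _ fun i _ => ?_
  have e : f.coeff i • ζ ^ i - (f.coeff i : ℂ) * 1 ^ i = (f.coeff i : ℂ) * (ζ ^ i - 1) := by
    rw [zsmul_eq_mul, one_pow]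
    ring
  rw [e]
  apply ideal_mul_left hP (ring_intCast hP _)
  have hi : IsIntegral ℤ ζ := by
    apply IsIntegral.of_pow (n := 2 ^ j) (by positivity)
    rw [hζ]
    exact isIntegral_one
  exact Cfsg.Agent.Lib.helper8_ModP.ideal_sub_of_pow_eq hM (hi.pow i) isIntegral_one (j := j)
    (by rw [← pow_mul, mul_comm, pow_mul, hζ, one_pow, one_pow])

theorem exists_div (f : ℤ[X]) (h : (2 : ℤ) ∣ f.eval 1) :
    ∃ (q : ℤ[X]) (s : ℤ), f = (1 - X) * q + C 2 * C s := by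
  obtain ⟨s, hs⟩ := h
  refine ⟨-(f /ₘ (X - C 1)), s, ?_⟩
  have h1 := modByMonic_add_div f (X - C 1)
  rw [modByMonic_X_sub_C_eq_C_eval, hs] at h1
  conv_lhs => rw [← h1]
  rw [C_mul, C_1]
  ring

theorem aeval_ring (hP : M.IsPrime) {ζ : ℂ} (hζ : IsIntegral ℤ ζ) (f : ℤ[X]) :
    MemLocalRing M (aeval ζ f) := by
  rw [aeval_eq_sum_range]
  refine ring_sum hP _ _ fun i _ => ?_
  rw [zsmul_eq_mul]
  exact ring_mul hP (ring_intCast hP _) (ring_of_isIntegral hP (hζ.pow i))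

theorem claim (hM : IsPModular 2 M) {ζ : ℂ} {s : ℕ} (hζ : ζ ^ 2 ^ s = -1) (f : ℤ[X])
    (hf : ∃ r : ℂ, MemLocalRing M r ∧ aeval ζ f = 2 * r) :
    ∀ m : ℕ, m ≤ 2 ^ s → ∃ q g : ℤ[X], f = (1 - X) ^ m * q + C 2 * g := by
  have hP := isPrime_of_modular hM
  have hζI : IsIntegral ℤ ζ := isIntegral_of_pow_eq_neg_one (by positivity) hζ
  have hζ1 : ζ ^ 2 ^ (s + 1) = 1 := by rw [pow_succ, pow_mul, hζ]; norm_num
  have hne : (1 - ζ) ≠ 0 := by
    intro h
    have : ζ = 1 := by linear_combination -h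
    rw [this, one_pow] at hζ
    norm_num at hζ
  have hπ : MemLocalIdeal M (1 - ζ) :=
    Cfsg.Agent.Lib.helper8_ModP.ideal_sub_of_pow_eq hM isIntegral_one hζI (j := s + 1)
      (by rw [hζ1, one_pow])
  obtain ⟨U, hU, h2⟩ := two_eq s ζ hζ
  obtain ⟨r, hr, hfr⟩ := hf
  intro m
  induction m with
  | zero => intro _; exact ⟨f, 0, by simp⟩
  | succ m ih =>
    intro hm
    obtain ⟨q, g, hqg⟩ := ih (by omega)
    have h3 : aeval ζ f = (1 - ζ) ^ m * aeval ζ q + 2 * aeval ζ g := by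
      conv_lhs => rw [hqg]
      rw [map_add, map_mul, map_mul, map_pow, map_sub, map_one, aeval_X, aeval_C]
      rfl
    have h4 : aeval ζ q = (1 - ζ) ^ (2 ^ s - m) * (U * (r - aeval ζ g)) := by
      apply mul_left_cancel₀ (pow_ne_zero m hne)
      have h5 : (1 - ζ) ^ m * ((1 - ζ) ^ (2 ^ s - m) * (U * (r - aeval ζ g))) =
          ((1 - ζ) ^ 2 ^ s * U) * (r - aeval ζ g) := by
        rw [← mul_assoc, ← pow_add]
        have : m + (2 ^ s - m) = 2 ^ s := by omega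
        rw [this]
        ring
      rw [h5, ← h2]
      linear_combination hfr - h3
    have h6 : MemLocalIdeal M (aeval ζ q) := by
      rw [h4]
      obtain ⟨t, ht⟩ : ∃ t, 2 ^ s - m = t + 1 := ⟨2 ^ s - m - 1, by omega⟩
      rw [ht, pow_succ', mul_assoc]
      apply ideal_mul_right hP hπ
      refine ring_mul hP (ring_of_isIntegral hP ((isIntegral_one.sub hζI).pow t)) ?_
      exact ring_mul hP (ring_of_isIntegral hP hU) (ring_sub hP hr (aeval_ring hP hζI g))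
    have h7 : (2 : ℤ) ∣ q.eval 1 := by
      have h8 := aeval_sub_eval_one hM hζ1 q
      have h9 : MemLocalIdeal M ((q.eval 1 : ℤ) : ℂ) := by
        have := ideal_sub hP h6 h8
        rwa [sub_sub_cancel] at this
      have := (Cfsg.Agent.Lib.Helper2_Necklace2.ideal_intCast_iff hM _).mp h9
      exact_mod_cast this
    obtain ⟨q', t, hq'⟩ := exists_div q h7
    refine ⟨q', (1 - X) ^ m * C t + g, ?_⟩
    rw [hqg, hq']
    ring

theorem exists_half (hM : IsPModular 2 M) {ζ : ℂ} {s : ℕ} (hζ : ζ ^ 2 ^ s = -1) (f : ℤ[X])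
    (hf : ∃ r : ℂ, MemLocalRing M r ∧ aeval ζ f = 2 * r) :
    ∃ q g : ℤ[X], f = (X ^ 2 ^ s + 1) * q + C 2 * g := by
  obtain ⟨q, g, h⟩ := claim hM hζ f hf (2 ^ s) le_rfl
  obtain ⟨w, hw⟩ := frob s
  refine ⟨q, w * q + g, ?_⟩
  rw [h, hw]
  ring

theorem exists_div_pow (hM : IsPModular 2 M) {ζ : ℂ} {s : ℕ} (hζ : ζ ^ 2 ^ s = -1) (h : ℕ) :
    ∀ f : ℤ[X], (∃ r : ℂ, MemLocalRing M r ∧ aeval ζ f = 2 ^ h * r) →
    ∃ g : ℤ[X], ∀ a : ℂ, a ^ 2 ^ s = -1 → aeval a f = 2 ^ h * aeval a g := by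
  have hP := isPrime_of_modular hM
  induction h with
  | zero => intro f _; exact ⟨f, fun a _ => by simp⟩
  | succ h ih =>
    rintro f ⟨r, hr, hfr⟩
    obtain ⟨q, g1, hqg⟩ := exists_half hM hζ f ⟨2 ^ h * r, ring_mul hP (by
      have := ring_natCast hP (M := M) (2 ^ h)
      push_cast at this
      exact this) hr, by rw [hfr]; ring⟩
    have hval : ∀ a : ℂ, a ^ 2 ^ s = -1 → aeval a f = 2 * aeval a g1 := by
      intro a ha
      conv_lhs => rw [hqg]
      rw [map_add, map_mul, map_mul, map_add, map_pow, map_one, aeval_X, aeval_C, ha]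
      have : (algebraMap ℤ ℂ) 2 = 2 := rfl
      rw [this]
      ring
    obtain ⟨g, hg⟩ := ih g1 ⟨r, hr, by
      have := hval ζ hζ
      rw [hfr] at this
      have h2 : (2 : ℂ) ≠ 0 := by norm_num
      apply mul_left_cancel₀ h2
      rw [← this]
      ring⟩
    refine ⟨g, fun a ha => ?_⟩
    rw [hval a ha, hg a ha]
    ring

/-- Local divisibility of an integral combination of `2`-power roots of unity passes to the
average of its conjugates. -/
theorem dvd_avg (hM : IsPModular 2 M) (n : ℕ) [NeZero n] {j : ℕ} (hn : n = 2 ^ j)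
    {ι : Type*} [Fintype ι] (c : ι → ℤ) (μ : ι → ℂ) (hμ : ∀ i, μ i ^ n = 1) (h : ℕ)
    (hr : ∃ r : ℂ, MemLocalRing M r ∧ ∑ i, (c i : ℂ) * μ i = 2 ^ h * r) :
    (2 : ℤ) ^ h ∣ ∑ i, c i * eps (μ i) := by
  obtain ⟨r, hrR, hrE⟩ := hr
  rcases Nat.eq_zero_or_pos j with hj | hj
  · -- all roots of unity are trivial
    have h1 : ∀ i, μ i = 1 := by
      intro i
      have := hμ i
      rwa [hn, hj, pow_zero, pow_one] at this
    have h2 : ∑ i, c i * eps (μ i) = ∑ i, c i := by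
      refine Finset.sum_congr rfl fun i _ => ?_
      rw [h1 i]
      simp [eps]
    rw [h2]
    have h3 := int_dvd_of_local hM h (∑ i, c i) r hrR (by
      rw [← Nat.cast_ofNat (R := ℂ)] at hrE
      rw [← hrE]
      push_cast
      refine Finset.sum_congr rfl fun i _ => ?_
      rw [h1 i, mul_one])
    exact_mod_cast h3
  · obtain ⟨s, hs⟩ : ∃ s, j = s + 1 := ⟨j - 1, by omega⟩
    set ζ := emb n (zet n) with hζdef
    have hprim : IsPrimitiveRoot ζ n := emb_zet_spec n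
    have hζ : ζ ^ 2 ^ s = -1 := by
      have h1 : (ζ ^ 2 ^ s) ^ 2 = 1 := by
        rw [← pow_mul, ← pow_succ, ← hs, ← hn]
        exact hprim.pow_eq_one
      rcases sq_eq_one_iff.mp h1 with h2 | h2
      · exfalso
        refine hprim.pow_ne_one_of_pos_of_lt (by positivity) ?_ h2
        rw [hn, hs]
        exact Nat.pow_lt_pow_right (by norm_num) (by omega)
      · exact h2
    choose e _ he using fun i => hprim.eq_pow_of_pow_eq_one (hμ i)
    set f : ℤ[X] := ∑ i, C (c i) * X ^ e i with hf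
    have hfval : ∀ a : ℂ, aeval a f = ∑ i, (c i : ℂ) * a ^ e i := by
      intro a
      rw [hf, map_sum]
      refine Finset.sum_congr rfl fun i _ => ?_
      rw [map_mul, map_pow, aeval_X, aeval_C]
      rfl
    obtain ⟨g, hg⟩ := exists_div_pow hM hζ h f ⟨r, hrR, by
      rw [hfval, ← hrE]
      refine Finset.sum_congr rfl fun i _ => ?_
      rw [he i]⟩
    have hodd : ∀ τ : K n ≃ₐ[ℚ] K n, Odd (expo n τ) := expo_odd n (hn.trans (by rw [hs]))
    have hpow : ∀ τ : K n ≃ₐ[ℚ] K n, (ζ ^ expo n τ) ^ 2 ^ s = -1 := by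
      intro τ
      rw [← pow_mul, mul_comm, pow_mul, hζ, (hodd τ).neg_one_pow]
    have h1 := avg_eq n hn c μ hμ
    have h2 := avg_eq n hn (fun t : Fin (g.natDegree + 1) => g.coeff t)
      (fun t : Fin (g.natDegree + 1) => ζ ^ (t : ℕ)) (fun t => by
        rw [← pow_mul, mul_comm, pow_mul, hprim.pow_eq_one, one_pow])
    have h3 : ∀ τ : K n ≃ₐ[ℚ] K n, ∑ i, (c i : ℂ) * μ i ^ expo n τ =
        2 ^ h * ∑ t : Fin (g.natDegree + 1), ((g.coeff t : ℤ) : ℂ) * (ζ ^ (t : ℕ)) ^ expo n τ := by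
      intro τ
      have h4 := hg _ (hpow τ)
      rw [hfval, aeval_eq_sum_range, ← Fin.sum_univ_eq_sum_range
        (fun t => g.coeff t • (ζ ^ expo n τ) ^ t)] at h4
      refine Eq.trans ?_ (h4.trans ?_)
      · refine Finset.sum_congr rfl fun i _ => ?_
        rw [← he i, ← pow_mul, ← pow_mul, mul_comm (e i)]
      · congr 1
        refine Finset.sum_congr rfl fun t _ => ?_
        rw [zsmul_eq_mul, ← pow_mul, ← pow_mul, mul_comm (expo n τ)]
    simp only [h3] at h1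
    rw [← Finset.mul_sum, h2] at h1
    have hΓ : (Fintype.card (K n ≃ₐ[ℚ] K n) : ℂ) ≠ 0 := by
      exact_mod_cast Fintype.card_ne_zero
    have h5 : ((∑ i, c i * eps (μ i) : ℤ) : ℂ) = ((2 ^ h * ∑ t : Fin (g.natDegree + 1),
        g.coeff t * eps (ζ ^ (t : ℕ)) : ℤ) : ℂ) := by
      apply mul_left_cancel₀ hΓ
      rw [← h1]
      push_cast
      ring
    have h6 : ∑ i, c i * eps (μ i) = 2 ^ h * ∑ t : Fin (g.natDegree + 1),
        g.coeff t * eps (ζ ^ (t : ℕ)) := by exact_mod_cast h5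
    exact ⟨_, h6⟩

end Cfsg.Agent.Lib.helper8_TwoAdic
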