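import Mathlib
import Cfsg.Prelude.Def_Blocks
import Cfsg.Prelude.Def_BlockRank
import Cfsg.Agent.Lib.helper8_Broue6
import Cfsg.Agent.Lib.helper8_TwoAdic

set_option autoImplicit false

namespace Cfsg.Agent.Lib.helper8_Broue7

open Cfsg Cfsg.Agent.Lib.CharBasic Cfsg.Agent.Lib.CharOrtho
  Cfsg.Agent.Lib.CharComplete Cfsg.Agent.Lib.CharIntegral Cfsg.Agent.Lib.CharMore
  Cfsg.Agent.Lib.CharInd
  Cfsg.Agent.Lib.helper8_BlockRank Cfsg.Agent.Lib.helper8_RegularPart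
  Cfsg.Agent.Lib.helper8_BlockSum Cfsg.Agent.Lib.helper8_Defect
  Cfsg.Agent.Lib.Helper2_BlockLocal Cfsg.Agent.Lib.Helper2_BlockOm
  Cfsg.Agent.Lib.helper8_Height Cfsg.Agent.Lib.helper8_Height2
  Cfsg.Agent.Lib.Helper2_PPart Cfsg.Agent.Lib.helper8_SubSec
  Cfsg.Agent.Lib.Helper2_BlockOrtho Cfsg.Agent.Lib.Helper2_BlockOrtho2
  Cfsg.Agent.Lib.helper8_Broue Cfsg.Agent.Lib.helper8_Center Cfsg.Agent.Lib.helper8_Broue2
  Cfsg.Agent.Lib.helper8_Major Cfsg.Agent.Lib.CharGalois Cfsg.Agent.Lib.helper8_Broue3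
  Cfsg.Agent.Lib.helper8_Broue4 Cfsg.Agent.Lib.helper8_Broue5 Cfsg.Agent.Lib.helper8_Broue6
  Cfsg.Agent.Lib.helper8_TwoAdic
open scoped ComplexConjugate Classical

universe u

variable {G : Type u} [Group G] [Fintype G] {M : Ideal AlgInt}

/-- The averaged diagonal contributions of a major subsection for `p = 2`, with heights. -/
theorem major_data2 (hM : IsPModular 2 M) {y : G} {H : Subgroup G}
    (hH : H = Subgroup.centralizer ({y} : Set G)) (hy : ∃ k : ℕ, orderOf y = 2 ^ k)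
    {b : Set (IrrCharacter H)} {B : Set (IrrCharacter G)} (hind : IsInducedBlock M H b B)
    (hdb : blockDefect 2 b = blockDefect 2 B) :
    ∃ A : IrrCharacter G → ℤ,
      (∀ ψ ∈ B, blockHeight 2 B (ψ : G → ℂ) = 0 → Odd (A ψ) ∧
        ∑ χ ∈ Finset.univ.filter (fun χ : IrrCharacter G => χ ∈ B),
          (4 : ℤ) ^ blockHeight 2 B (χ : G → ℂ) ≤ 2 ^ blockDefect 2 B * A ψ) ∧
      (∀ χ ∈ B, 0 ≤ A χ) ∧
      (∀ χ ∈ B, 0 < blockHeight 2 B (χ : G → ℂ) →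
        2 ^ (blockHeight 2 B (χ : G → ℂ) + 1) ≤ A χ) ∧
      ∑ χ ∈ Finset.univ.filter (fun χ : IrrCharacter G => χ ∈ B), A χ =
        2 ^ blockDefect 2 B * (blockRank 2 b : ℤ) := by
  have hPr := isPrime_of_modular hM
  set SB := Finset.univ.filter (fun χ : IrrCharacter G => χ ∈ B) with hSB
  obtain ⟨j, hj⟩ := hy
  set N := orderOf y with hN
  have : NeZero N := ⟨(orderOf_pos y).ne'⟩
  set Γ := K N ≃ₐ[ℚ] K N with hΓ
  have hΓpos : (0 : ℝ) < Fintype.card Γ := by exact_mod_cast Fintype.card_pos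
  set d := blockDefect 2 B with hd
  set P : ℝ := (2 : ℝ) ^ d with hP
  have hPpos : 0 < P := by positivity
  have hHk : ∀ τ : Γ, H = Subgroup.centralizer ({y ^ expo N τ} : Set G) := by
    intro τ
    rw [centralizer_pow' y (expo_coprime N τ)]
    exact hH
  have hyk : ∀ τ : Γ, ∃ j : ℕ, orderOf (y ^ expo N τ) = 2 ^ j := by
    intro τ
    refine ⟨j, ?_⟩
    rw [← hj]
    apply Nat.Coprime.orderOf_pow
    exact (expo_coprime N τ).symm
  have hy' : ∃ k : ℕ, orderOf y = 2 ^ k := ⟨j, hj⟩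
  have hyN : y ^ N = 1 := pow_orderOf_eq_one y
  obtain ⟨ψ0, hψ0, hmin0⟩ := exists_min hPr 2 hind.2.1
  have hψ00 : blockHeight 2 B (ψ0 : G → ℂ) = 0 := by rw [blockHeight_eq, hmin0, Nat.sub_self]
  -- the averages
  have stepA : ∀ χ : IrrCharacter G, ∃ A : ℤ,
      (∑ τ : Γ, P * rr 2 (y ^ expo N τ) H b χ = (Fintype.card Γ : ℝ) * (A : ℝ)) ∧
      (χ ∈ B → blockHeight 2 B (χ : G → ℂ) = 0 → Odd A) ∧
      (χ ∈ B → (2 : ℤ) ^ blockHeight 2 B (χ : G → ℂ) ∣ A) := by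
    intro χ
    obtain ⟨c, μ, hμ, hcs, hμs, hc⟩ := exists_comb' hM hH hind.1 χ χ hyN
    have hconv : ∀ A : ℤ, ∑ τ : Γ, ∑ i, (c i : ℂ) * μ i ^ expo N τ =
        (Fintype.card Γ : ℂ) * (A : ℂ) →
        ∑ τ : Γ, P * rr 2 (y ^ expo N τ) H b χ = (Fintype.card Γ : ℝ) * (A : ℝ) := by
      intro A hA
      have h : ((∑ τ : Γ, P * rr 2 (y ^ expo N τ) H b χ : ℝ) : ℂ) =
          (((Fintype.card Γ : ℝ) * (A : ℝ) : ℝ) : ℂ) := by
        push_cast
        rw [← hA]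
        refine Finset.sum_congr rfl fun τ _ => ?_
        rw [← hc _ (hHk τ), mm_self, hdb, hP]
        push_cast
        rfl
      exact_mod_cast h
    have h1 := hc 1 (by rw [pow_one]; exact hH)
    simp only [pow_one] at h1
    by_cases hcase : χ ∈ B ∧ blockHeight 2 B (χ : G → ℂ) = 0
    · have hunit := mm_unit hM hH hy' hind hcase.1 hcase.1 hcase.2 hcase.2
      rw [h1] at hunit
      have hodd := odd_sum_of_unit hM c μ (j := j) (fun i => by rw [← hj]; exact hμ i) hunit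
      obtain ⟨A, hA, hsum⟩ := exists_odd_avg N hj Prod.swap Prod.swap_swap c μ hμ (hcs rfl) hμs hodd
      exact ⟨A, hconv A hsum, fun _ _ => hA, fun _ => by rw [hcase.2, pow_zero]; exact one_dvd _⟩
    · refine ⟨_, hconv _ (avg_eq N hj c μ hμ), fun h1 h2 => absurd ⟨h1, h2⟩ hcase, fun hχ => ?_⟩
      obtain ⟨r, hr, -, hrE⟩ := TT_local hM hH hind hχ χ
      apply dvd_avg hM N hj c μ hμ
      refine ⟨r, hr, ?_⟩
      rw [← h1, hdb, hrE]
      push_cast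
      rfl
  choose A hAsum hAodd hAdvd using stepA
  have hr0 : ∀ (τ : Γ) (χ : IrrCharacter G), 0 ≤ rr 2 (y ^ expo N τ) H b χ :=
    fun τ χ => rr_nonneg _ _ _ _
  -- nonvanishing with heights
  have stepB : ∀ χ ∈ B, ∀ ψ ∈ B, blockHeight 2 B (ψ : G → ℂ) = 0 →
      (Fintype.card Γ : ℝ) * ((2 : ℝ) ^ blockHeight 2 B (χ : G → ℂ)) ^ 2 ≤
      ∑ τ : Γ, P ^ 2 * ‖mm 2 (y ^ expo N τ) H b χ ψ‖ ^ 2 := by
    intro χ hχ ψ hψ hψ0'
    obtain ⟨c, μ, hμ, -, -, hc⟩ := exists_comb' hM hH hind.1 χ ψ hyN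
    have hne := mm_ne_zero_major hM hH hy' hind hdb hχ hψ hψ0'
    have h0 : ∑ i, (c i : ℂ) * μ i ≠ 0 := by
      have := hc 1 (by rw [pow_one]; exact hH)
      simp only [pow_one] at this
      rw [← this]
      exact mul_ne_zero (pow_ne_zero _ (by norm_num)) hne
    have h2 := card_mul_le_sum_sq N hM c μ hμ h0 (blockHeight 2 B (χ : G → ℂ)) (by
      intro τ
      obtain ⟨r, hr, -, hrE⟩ := TT_local hM (hHk τ) hind hχ ψ
      exact ⟨r, hr, by rw [← hc _ (hHk τ), hdb, hrE]⟩)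
    push_cast at h2
    refine h2.trans (le_of_eq ?_)
    refine Finset.sum_congr rfl fun τ _ => ?_
    rw [← hc _ (hHk τ), norm_mul, norm_pow, Complex.norm_natCast, mul_pow, hP, hdb]
    push_cast
    rfl
  refine ⟨A, ?_, ?_, ?_, ?_⟩
  · intro ψ hψ hψ0'
    refine ⟨hAodd ψ hψ hψ0', ?_⟩
    have h1 : ∀ τ : Γ, P * (P * rr 2 (y ^ expo N τ) H b ψ) =
          ∑ χ ∈ SB, P ^ 2 * ‖mm 2 (y ^ expo N τ) H b χ ψ‖ ^ 2 := by
      intro τ
      rw [← rr_row hM (hHk τ) (hyk τ) hind ψ, Finset.mul_sum, Finset.mul_sum]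
      refine Finset.sum_congr rfl fun χ _ => ?_
      rw [norm_mm_symm]
      ring
    have h2 : P * ((Fintype.card Γ : ℝ) * (A ψ : ℝ)) =
        ∑ χ ∈ SB, ∑ τ : Γ, P ^ 2 * ‖mm 2 (y ^ expo N τ) H b χ ψ‖ ^ 2 := by
      rw [← hAsum ψ, Finset.mul_sum, Finset.sum_comm]
      exact Finset.sum_congr rfl fun τ _ => h1 τ
    have h3 : ∑ χ ∈ SB, (Fintype.card Γ : ℝ) * ((2 : ℝ) ^ blockHeight 2 B (χ : G → ℂ)) ^ 2 ≤
        ∑ χ ∈ SB, ∑ τ : Γ, P ^ 2 * ‖mm 2 (y ^ expo N τ) H b χ ψ‖ ^ 2 :=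
      Finset.sum_le_sum fun χ hχ => stepB χ (Finset.mem_filter.mp hχ).2 ψ hψ hψ0'
    rw [← h2, ← Finset.mul_sum] at h3
    have h4 : (Fintype.card Γ : ℝ) * ∑ χ ∈ SB, ((2 : ℝ) ^ blockHeight 2 B (χ : G → ℂ)) ^ 2 ≤
        (Fintype.card Γ : ℝ) * (P * (A ψ : ℝ)) := by
      calc _ ≤ _ := h3
        _ = _ := by ring
    have h5 := le_of_mul_le_mul_left h4 hΓpos
    have h6 : ((∑ χ ∈ SB, (4 : ℤ) ^ blockHeight 2 B (χ : G → ℂ) : ℤ) : ℝ) ≤
        ((2 ^ d * A ψ : ℤ) : ℝ) := by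
      push_cast
      refine le_trans (le_of_eq ?_) h5
      refine Finset.sum_congr rfl fun χ _ => ?_
      rw [← pow_mul, mul_comm, pow_mul]
      norm_num
    exact_mod_cast h6
  · intro χ _
    have h1 : 0 ≤ ∑ τ : Γ, P * rr 2 (y ^ expo N τ) H b χ :=
      Finset.sum_nonneg fun τ _ => mul_nonneg hPpos.le (hr0 τ χ)
    rw [hAsum χ] at h1
    have h3 : (0 : ℝ) ≤ (A χ : ℝ) := by
      by_contra hneg
      push Not at hneg
      nlinarith
    exact_mod_cast h3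
  · intro χ hχ hpos
    obtain ⟨c, μ, hμ, -, -, hc⟩ := exists_comb' hM hH hind.1 χ χ hyN
    set h := blockHeight 2 B (χ : G → ℂ) with hh
    have hne : mm 2 y H b χ χ ≠ 0 := by
      intro h0
      have h1 := rr_row hM hH hy' hind χ
      rw [mm_self] at h0
      have h2 : rr 2 y H b χ = 0 := by exact_mod_cast h0
      rw [h2] at h1
      have h3 := (Finset.sum_eq_zero_iff_of_nonneg (fun χ' _ => by positivity)).mp h1 ψ0
        (Finset.mem_filter.mpr ⟨Finset.mem_univ _, hψ0⟩)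
      have h4 := mm_ne_zero_major hM hH hy' hind hdb hχ hψ0 hψ00
      have h5 : ‖mm 2 y H b χ ψ0‖ = 0 := by
        have := pow_eq_zero_iff (two_ne_zero) |>.mp h3
        exact this
      exact h4 (norm_eq_zero.mp h5)
    have h0 : ∑ i, (c i : ℂ) * μ i ≠ 0 := by
      have := hc 1 (by rw [pow_one]; exact hH)
      simp only [pow_one] at this
      rw [← this]
      exact mul_ne_zero (pow_ne_zero _ (by norm_num)) hne
    have h1 := card_mul_lt_sum N hM c μ hμ h0 h (by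
      intro τ
      obtain ⟨r, -, hrI, hrE⟩ := TT_local hM (hHk τ) hind hχ χ
      exact ⟨r, hrI hχ hpos, by rw [← hc _ (hHk τ), hdb, hrE]⟩)
    have h2 : ∑ τ : Γ, ‖∑ i, (c i : ℂ) * μ i ^ expo N τ‖ = (Fintype.card Γ : ℝ) * (A χ : ℝ) := by
      rw [← hAsum χ]
      refine Finset.sum_congr rfl fun τ _ => ?_
      rw [← hc _ (hHk τ), norm_mul, norm_pow, Complex.norm_natCast, norm_mm_self, hdb, hP]
      push_cast
      rfl
    rw [h2] at h1
    have h3 : ((2 : ℕ) : ℝ) ^ h < (A χ : ℝ) := lt_of_mul_lt_mul_left h1 hΓpos.le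
    have h4 : (((2 : ℤ) ^ h : ℤ) : ℝ) < ((A χ : ℤ) : ℝ) := by
      push_cast
      push_cast at h3
      exact h3
    have h5 : (2 : ℤ) ^ h < A χ := by exact_mod_cast h4
    obtain ⟨t, ht⟩ := hAdvd χ hχ
    rw [← hh] at ht
    have hpow : (0 : ℤ) < 2 ^ h := by positivity
    have h6 : 2 ≤ t := by
      by_contra hlt
      push Not at hlt
      have : t ≤ 1 := by omega
      nlinarith
    rw [ht, pow_succ]
    nlinarith
  · have h1 : ∑ χ ∈ SB, (Fintype.card Γ : ℝ) * (A χ : ℝ) =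
        (Fintype.card Γ : ℝ) * (P * (blockRank 2 b : ℝ)) := by
      calc _ = ∑ χ ∈ SB, ∑ τ : Γ, P * rr 2 (y ^ expo N τ) H b χ :=
            Finset.sum_congr rfl fun χ _ => (hAsum χ).symm
        _ = ∑ τ : Γ, ∑ χ ∈ SB, P * rr 2 (y ^ expo N τ) H b χ := Finset.sum_comm
        _ = ∑ τ : Γ, P * (blockRank 2 b : ℝ) := by
            refine Finset.sum_congr rfl fun τ _ => ?_
            rw [← Finset.mul_sum, sum_rr hM (hHk τ) (hyk τ) hind]
        _ = _ := by rw [Finset.sum_const, Finset.card_univ, nsmul_eq_mul]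
    rw [← Finset.mul_sum] at h1
    have h2 := mul_left_cancel₀ hΓpos.ne' h1
    have h3 : ((∑ χ ∈ SB, A χ : ℤ) : ℝ) = ((2 ^ d * (blockRank 2 b : ℤ) : ℤ) : ℝ) := by
      push_cast
      exact h2
    exact_mod_cast h3

end Cfsg.Agent.Lib.helper8_Broue7
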