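import Mathlib
import Cfsg.Prelude.Def_Characters
import Cfsg.Agent.Lib.helper8_BrauerInd
import Cfsg.Agent.Lib.helper8_Kernel
import Cfsg.Agent.Lib.helper8_Defect
import Cfsg.Agent.Lib.CharGallagher

set_option autoImplicit false

namespace Cfsg.Agent.Lib.helper8_Section

open Cfsg Cfsg.Agent.Lib.CharBasic Cfsg.Agent.Lib.CharOrtho
  Cfsg.Agent.Lib.CharComplete Cfsg.Agent.Lib.CharIntegral Cfsg.Agent.Lib.CharMore
  Cfsg.Agent.Lib.CharInd Cfsg.Agent.Lib.CharGen Cfsg.Agent.Lib.helper8_Brauer1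
  Cfsg.Agent.Lib.helper8_Brauer2 Cfsg.Agent.Lib.helper8_Brauer3 Cfsg.Agent.Lib.helper8_Brauer
  Cfsg.Agent.Lib.helper8_BrauerInd Cfsg.Agent.Lib.helper8_Kernel Cfsg.Agent.Lib.helper8_Defect
open scoped ComplexConjugate Classical

universe u

/-- In a nilpotent group of order dividing `m * n` with `m`, `n` coprime, the power map picking out
the `n`-part is a homomorphism. -/
theorem pow_hom_of_nilpotent {E : Type u} [Group E] [Finite E] (hnil : Group.IsNilpotent E)
    {m n a : ℕ} (hcop : m.Coprime n) (hE : Nat.card E ∣ m * n) (ha0 : a ≡ 0 [MOD m])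
    (ha1 : a ≡ 1 [MOD n]) (e f : E) : (e * f) ^ a = e ^ a * f ^ a := by
  obtain ⟨φ⟩ := (Group.isNilpotent_of_finite_tfae.out 0 4).mp hnil
  have key : ∀ x y : (∀ p : (Nat.card E).primeFactors, ∀ P : Sylow p E, (↑P : Subgroup E)),
      (x * y) ^ a = x ^ a * y ^ a := by
    intro x y
    funext p P
    simp only [Pi.pow_apply, Pi.mul_apply]
    have hp : (p : ℕ).Prime := Nat.prime_of_mem_primeFactors p.2
    have : Fact (p : ℕ).Prime := ⟨hp⟩
    obtain ⟨k, hk⟩ := IsPGroup.iff_card.mp P.2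
    have hd : (p : ℕ) ^ k ∣ m * n := hk ▸ (Subgroup.card_subgroup_dvd_card _).trans hE
    by_cases hpm : (p : ℕ) ∣ m
    · have hpn : ¬ (p : ℕ) ∣ n := fun h => hp.one_lt.ne' (Nat.eq_one_of_dvd_coprimes hcop hpm h)
      have h1 : (p : ℕ) ^ k ∣ m :=
        Nat.Coprime.dvd_of_dvd_mul_right
          (Nat.Coprime.pow_left k ((Nat.Prime.coprime_iff_not_dvd hp).mpr hpn)) hd
      have h2 : ∀ z : (↑P : Subgroup E), z ^ a = 1 := by
        intro z
        rw [← orderOf_dvd_iff_pow_eq_one]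
        exact ((orderOf_dvd_natCard z).trans (hk ▸ h1)).trans ((Nat.modEq_zero_iff_dvd).mp ha0)
      rw [h2, h2, h2, one_mul]
    · have h1 : (p : ℕ) ^ k ∣ n :=
        Nat.Coprime.dvd_of_dvd_mul_left
          (Nat.Coprime.pow_left k ((Nat.Prime.coprime_iff_not_dvd hp).mpr hpm)) hd
      have h2 : ∀ z : (↑P : Subgroup E), z ^ a = z := by
        intro z
        have : z ^ a = z ^ 1 := by
          rw [pow_eq_pow_iff_modEq]
          exact ha1.of_dvd ((orderOf_dvd_natCard z).trans (hk ▸ h1))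
        rwa [pow_one] at this
      rw [h2, h2, h2]
  apply φ.symm.injective
  rw [map_pow, map_mul, map_mul, map_pow, map_pow, key]

theorem pow_idem {E : Type u} [Group E] [Finite E] {m n a : ℕ} (hcop : m.Coprime n)
    (hE : Nat.card E ∣ m * n) (ha0 : a ≡ 0 [MOD m]) (ha1 : a ≡ 1 [MOD n]) (e : E) :
    (e ^ a) ^ a = e ^ a := by
  rw [← pow_mul, pow_eq_pow_iff_modEq]
  have h1 : a * a ≡ a [MOD m * n] := by
    rw [← Nat.modEq_and_modEq_iff_modEq_mul hcop]
    constructor
    · have := ha0.mul ha0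
      exact this.trans (by simpa using ha0.symm)
    · have := ha1.mul ha1
      exact this.trans (by simpa using ha1.symm)
  exact h1.of_dvd ((orderOf_dvd_natCard e).trans hE)

theorem pow_pow_eq_one {E : Type u} [Group E] [Finite E] {m n a : ℕ}
    (hE : Nat.card E ∣ m * n) (ha0 : a ≡ 0 [MOD m]) (e : E) : (e ^ a) ^ n = 1 := by
  rw [← pow_mul, ← orderOf_dvd_iff_pow_eq_one]
  exact ((orderOf_dvd_natCard e).trans hE).trans
    (Nat.mul_dvd_mul_right ((Nat.modEq_zero_iff_dvd).mp ha0) n)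

/-- The power map as a homomorphism. -/
def powHom {E : Type u} [Group E] (a : ℕ) (h : ∀ e f : E, (e * f) ^ a = e ^ a * f ^ a) : E →* E where
  toFun e := e ^ a
  map_one' := one_pow a
  map_mul' := h

theorem card_range_dvd {E : Type u} [Group E] [Finite E] {m n a : ℕ} (hcop : m.Coprime n)
    (hE : Nat.card E ∣ m * n) (ha0 : a ≡ 0 [MOD m])
    (h : ∀ e f : E, (e * f) ^ a = e ^ a * f ^ a) : Nat.card (powHom a h).range ∣ n := by
  have h1 : Nat.card (powHom a h).range ∣ m * n := (Subgroup.card_subgroup_dvd_card _).trans hE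
  refine Nat.Coprime.dvd_of_dvd_mul_left ?_ h1
  apply Nat.Coprime.symm
  apply Nat.coprime_of_dvd
  intro p hp hpm hpB
  have : Fact p.Prime := ⟨hp⟩
  obtain ⟨x, hx⟩ := exists_prime_orderOf_dvd_card' p hpB
  obtain ⟨e, he⟩ := x.2
  have h2 : x ^ n = 1 := by
    apply Subtype.ext
    rw [Subgroup.coe_pow, ← he]
    exact pow_pow_eq_one hE ha0 e
  have h3 : p ∣ n := hx ▸ orderOf_dvd_of_pow_eq_one h2
  exact hp.one_lt.ne' (Nat.eq_one_of_dvd_coprimes hcop hpm h3)

/-- The decomposition of the group attached to an idempotent power map. -/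
def splitEquiv {E : Type u} [Group E] (a : ℕ) (h : ∀ e f : E, (e * f) ^ a = e ^ a * f ^ a)
    (hid : ∀ e : E, (e ^ a) ^ a = e ^ a) : E ≃ (powHom a h).range × (powHom a h).ker where
  toFun e := (⟨e ^ a, e, rfl⟩, ⟨(e ^ a)⁻¹ * e, by
    rw [MonoidHom.mem_ker, map_mul, map_inv]
    change ((e ^ a) ^ a)⁻¹ * e ^ a = 1
    rw [hid, inv_mul_cancel]⟩)
  invFun z := z.1 * z.2
  left_inv e := by simp
  right_inv z := by
    obtain ⟨⟨b, e, rfl⟩, ⟨u, hu⟩⟩ := z
    have hu' : u ^ a = 1 := hu
    have h1 : (powHom a h e * u) ^ a = powHom a h e := by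
      rw [h, hu', mul_one]
      exact hid e
    ext
    · exact h1
    · simp only [h1]
      simp

theorem integral_inner_of_pow_hom {E : Type u} [Group E] [Fintype E] {m n a : ℕ}
    (hcop : m.Coprime n) (hE : Nat.card E ∣ m * n) (ha0 : a ≡ 0 [MOD m]) (ha1 : a ≡ 1 [MOD n])
    (h : ∀ e f : E, (e * f) ^ a = e ^ a * f ^ a) (S : E → Prop) {ψ : E → ℂ}
    (hψ : IsIrrCharacter E ψ) :
    IsIntegral ℤ (classInner (fun e => if S (e ^ a) then (n : ℂ) else 0) ψ) := by
  have hid := pow_idem (E := E) hcop hE ha0 ha1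
  have hψc := isCharacter_of_isIrr hψ
  set σ := powHom a h with hσ
  have hsum : ∑ e : E, (if S (e ^ a) then (n : ℂ) else 0) * conj (ψ e) =
      ∑ b : σ.range, (if S (b : E) then (n : ℂ) else 0) * conj (∑ u : σ.ker, ψ (b * u)) := by
    rw [← Equiv.sum_comp (splitEquiv a h hid).symm, Fintype.sum_prod_type]
    refine Finset.sum_congr rfl fun b _ => ?_
    rw [map_sum, Finset.mul_sum]
    refine Finset.sum_congr rfl fun u _ => ?_
    have h1 : ((splitEquiv a h hid).symm (b, u)) = (b : E) * u := rfl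
    have h2 : ((b : E) * u) ^ a = b := by
      have := congrArg (fun z => (z.1 : E)) ((splitEquiv a h hid).apply_symm_apply (b, u))
      exact this
    rw [h1, h2]
  unfold classInner
  rw [hsum]
  by_cases hk : ∃ x ∈ σ.ker, ψ x ≠ ψ 1
  · have : ∀ b : σ.range, ∑ u : σ.ker, ψ (b * u) = 0 := fun b =>
      sum_mul_normal_eq_zero hψ σ.ker hk b
    simp only [this, map_zero, mul_zero, Finset.sum_const_zero]
    exact isIntegral_zero
  · push Not at hk
    have : ∀ b : σ.range, ∑ u : σ.ker, ψ (b * u) = (Nat.card σ.ker : ℂ) * ψ b := by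
      intro b
      rw [Finset.sum_congr rfl (fun (u : σ.ker) _ => mul_ker hψc (hk u u.2) (b : E)),
        Finset.sum_const,
        Finset.card_univ, nsmul_eq_mul, Nat.card_eq_fintype_card]
    simp only [this]
    obtain ⟨t, ht⟩ := card_range_dvd hcop hE ha0 h
    have hcard : Nat.card σ.ker * Nat.card σ.range = Nat.card E := by
      rw [← Subgroup.index_ker, Subgroup.card_mul_index]
    have hE0 : (Nat.card E : ℂ) ≠ 0 := by exact_mod_cast Nat.card_pos.ne'
    have e1 : (Nat.card E : ℂ)⁻¹ * ∑ b : σ.range, (if S (b : E) then (n : ℂ) else 0) *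
        conj ((Nat.card σ.ker : ℂ) * ψ b) =
        (t : ℂ) * ∑ b : σ.range, (if S (b : E) then (1 : ℂ) else 0) * ψ (b : E)⁻¹ := by
      rw [Finset.mul_sum, Finset.mul_sum]
      refine Finset.sum_congr rfl fun b _ => ?_
      rw [inv_of_isCharacter hψc, map_mul, Complex.conj_natCast]
      split_ifs
      · rw [ht, ← hcard]
        rw [← hcard] at hE0
        push_cast at hE0 ⊢
        have hA0 := left_ne_zero_of_mul hE0
        have hB0 := right_ne_zero_of_mul hE0
        rw [← hσ]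
        field_simp
      · simp
    rw [e1]
    refine (isIntegral_algebraMap (R := ℤ) (x := (t : ℤ))).mul (IsIntegral.sum _ fun b _ => ?_)
    refine IsIntegral.mul ?_ (isIntegral_of_isCharacter hψc _)
    split_ifs
    · exact isIntegral_one
    · exact isIntegral_zero

theorem integral_inner_char {E : Type u} [Group E] [Fintype E] {f : E → ℂ}
    (h : ∀ ψ : E → ℂ, IsIrrCharacter E ψ → IsIntegral ℤ (classInner f ψ)) {η : E → ℂ}
    (hη : IsCharacter E η) : IsIntegral ℤ (classInner f η) := by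
  obtain ⟨m, -, hexp⟩ := exists_mult hη
  rw [hexp, classInner_sum_right]
  refine IsIntegral.sum _ fun ψ _ => ?_
  rw [classInner_smul_right, Complex.conj_natCast]
  exact (isIntegral_algebraMap (R := ℤ) (x := (m ψ : ℤ))).mul (h ψ ψ.2)

/-- Brauer's characterization for combinations with algebraic-integer coefficients. -/
theorem integral_inner_of_elementary {G : Type u} [Group G] [Fintype G] (ϑ : G → ℂ)
    (hϑ : IsClassFunction G ϑ)
    (hE : ∀ (E : Subgroup G) (p : ℕ), p.Prime → IsElementary p E → ∀ ψ : E → ℂ,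
      IsIrrCharacter E ψ → IsIntegral ℤ (classInner (fun e : E => ϑ e) ψ))
    {χ : G → ℂ} (hχ : IsCharacter G χ) : IsIntegral ℤ (classInner ϑ χ) := by
  have key : ∀ f ∈ I (FE G), IsIntegral ℤ (classInner (f * ϑ) χ) := by
    intro f hf
    induction hf using AddSubgroup.closure_induction with
    | mem x hx =>
      obtain ⟨E, φ, ⟨p, hp, hEl⟩, hφ, rfl⟩ := hx
      rw [← Cfsg.Agent.Lib.CharGallagher.indFun_mul_restrict E φ ϑ hϑ,
        frobenius_reciprocity E _ _ (isClassFunction_of_isCharacter hχ)]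
      have e1 : classInner (fun e : E => φ e * ϑ e) (fun e : E => χ e) =
          classInner (fun e : E => ϑ e) ((fun e : E => conj (φ e)) * fun e : E => χ e) := by
        unfold classInner
        congr 1
        refine Finset.sum_congr rfl fun e _ => ?_
        simp only [Pi.mul_apply, map_mul, Complex.conj_conj]
        ring
      rw [e1]
      exact integral_inner_char (hE E p hp hEl)
        (isCharacter_mul (isCharacter_conj hφ) (isCharacter_restrict E hχ))
    | zero => rw [zero_mul, classInner_zero_left]; exact isIntegral_zero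
    | add x y _ _ hx hy => rw [add_mul, classInner_add_left]; exact hx.add hy
    | neg x _ hx =>
      have : -x * ϑ = (0 : G → ℂ) - x * ϑ := by rw [zero_sub, neg_mul]
      rw [this, classInner_sub_left, classInner_zero_left, zero_sub]
      exact hx.neg
  have := key 1 one_mem_FE
  rwa [one_mul] at this

/-- The indicator of a section, scaled, has algebraic-integer multiplicities. -/
theorem section_integral {G : Type u} [Group G] [Fintype G] {m n a : ℕ} (hcop : m.Coprime n)
    (hG : Nat.card G = m * n) (ha0 : a ≡ 0 [MOD m]) (ha1 : a ≡ 1 [MOD n]) (g : G)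
    {χ : G → ℂ} (hχ : IsCharacter G χ) :
    IsIntegral ℤ (classInner (fun x : G => if IsConj (x ^ a) g then (n : ℂ) else 0) χ) := by
  apply integral_inner_of_elementary _ _ _ hχ
  · intro x y
    have h1 : (y * x * y⁻¹) ^ a = y * x ^ a * y⁻¹ := conj_pow
    have h2 : IsConj (y * x ^ a * y⁻¹) g ↔ IsConj (x ^ a) g := by
      have h3 : IsConj (x ^ a) (y * x ^ a * y⁻¹) := isConj_iff.mpr ⟨y, rfl⟩
      exact ⟨fun h => h3.trans h, fun h => h3.symm.trans h⟩
    simp only [h1, h2]
  · intro E p hp hEl ψ hψ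
    have hcE : Nat.card E ∣ m * n := hG ▸ Subgroup.card_subgroup_dvd_card E
    have hh := pow_hom_of_nilpotent (isNilpotent_of_isElementary hp hEl) hcop hcE ha0 ha1
    have := integral_inner_of_pow_hom hcop hcE ha0 ha1 hh (fun e : E => IsConj (e : G) g) hψ
    simpa using this

theorem exists_crt {m n : ℕ} (hcop : m.Coprime n) : ∃ a : ℕ, a ≡ 0 [MOD m] ∧ a ≡ 1 [MOD n] :=
  ⟨Nat.chineseRemainder hcop 0 1, (Nat.chineseRemainder hcop 0 1).2.1,
    (Nat.chineseRemainder hcop 0 1).2.2⟩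

/-- Uniqueness of the decomposition into commuting parts. -/
theorem pow_eq_of_decomp {G : Type u} [Group G] [Finite G] {m n a : ℕ}
    (hG : Nat.card G = m * n) (ha0 : a ≡ 0 [MOD m]) (ha1 : a ≡ 1 [MOD n]) {x u v : G}
    (hx : x = u * v) (hc : Commute u v) (hu : Nat.Coprime (orderOf u) n)
    (hv : Nat.Coprime (orderOf v) m) : x ^ a = v := by
  have hu1 : orderOf u ∣ m :=
    Nat.Coprime.dvd_of_dvd_mul_right hu (hG ▸ orderOf_dvd_natCard u)
  have hv1 : orderOf v ∣ n :=
    Nat.Coprime.dvd_of_dvd_mul_left hv (hG ▸ orderOf_dvd_natCard v)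
  have h1 : u ^ a = 1 := by
    rw [← orderOf_dvd_iff_pow_eq_one]
    exact hu1.trans ((Nat.modEq_zero_iff_dvd).mp ha0)
  have h2 : v ^ a = v := by
    have : v ^ a = v ^ 1 := by
      rw [pow_eq_pow_iff_modEq]
      exact ha1.of_dvd hv1
    rwa [pow_one] at this
  rw [hx, hc.mul_pow, h1, h2, one_mul]

theorem exists_decomp {G : Type u} [Group G] [Finite G] {m n a : ℕ} (hcop : m.Coprime n)
    (hG : Nat.card G = m * n) (ha0 : a ≡ 0 [MOD m]) (ha1 : a ≡ 1 [MOD n]) (x : G) :
    ∃ u : G, x = u * x ^ a ∧ Commute u (x ^ a) ∧ Nat.Coprime (orderOf u) n ∧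
      Nat.Coprime (orderOf (x ^ a)) m := by
  obtain ⟨b, hb0, hb1⟩ := exists_crt hcop.symm
  refine ⟨x ^ b, ?_, ?_, ?_, ?_⟩
  · rw [← pow_add]
    have : x ^ (b + a) = x ^ 1 := by
      rw [pow_eq_pow_iff_modEq]
      have h1 : b + a ≡ 1 [MOD m * n] := by
        rw [← Nat.modEq_and_modEq_iff_modEq_mul hcop]
        exact ⟨by simpa using hb1.add ha0, by simpa using hb0.add ha1⟩
      exact h1.of_dvd (hG ▸ orderOf_dvd_natCard x)
    rw [this, pow_one]
  · exact (Commute.refl x).pow_pow b a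
  · have h1 : (x ^ b) ^ m = 1 :=
      pow_pow_eq_one (m := n) (n := m) (by rw [hG, mul_comm]) hb0 x
    exact Nat.Coprime.coprime_dvd_left (orderOf_dvd_of_pow_eq_one h1) hcop
  · have h1 : (x ^ a) ^ n = 1 := pow_pow_eq_one (by rw [hG]) ha0 x
    exact Nat.Coprime.coprime_dvd_left (orderOf_dvd_of_pow_eq_one h1) hcop.symm

theorem section_iff {G : Type u} [Group G] [Finite G] {m n a : ℕ} (hcop : m.Coprime n)
    (hG : Nat.card G = m * n) (ha0 : a ≡ 0 [MOD m]) (ha1 : a ≡ 1 [MOD n]) (x g : G) :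
    (∃ v : G, IsConj v g ∧ (∃ u : G, x = u * v ∧ Commute u v ∧ Nat.Coprime (orderOf u) n ∧
      Nat.Coprime (orderOf v) m)) ↔ IsConj (x ^ a) g := by
  constructor
  · rintro ⟨v, hvg, u, hx, hc, hu, hv⟩
    rw [pow_eq_of_decomp hG ha0 ha1 hx hc hu hv]
    exact hvg
  · intro h
    exact ⟨x ^ a, h, exists_decomp hcop hG ha0 ha1 x⟩

end Cfsg.Agent.Lib.helper8_Section
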