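import Mathlib
import Cfsg.Prelude.Def_Blocks
import Cfsg.Agent.Lib.helper8_Zeros

/-!
# First-power Galois averaging, and the part of a character fixed by a normal subgroup
-/

set_option autoImplicit false

namespace Cfsg.Agent.Lib.helper8_Zeros2

open Cfsg Module Cfsg.Agent.Lib.CharBasic Cfsg.Agent.Lib.CharOrtho Cfsg.Agent.Lib.CharComplete
  Cfsg.Agent.Lib.CharMore Cfsg.Agent.Lib.CharIntegral Cfsg.Agent.Lib.CharGalois
  Cfsg.Agent.Lib.helper8_Char Cfsg.Agent.Lib.helper8_Defect Cfsg.Agent.Lib.helper8_Kernel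
  Cfsg.Agent.Lib.helper8_Codegree Cfsg.Agent.Lib.helper8_Zeros
open scoped ComplexConjugate

universe u

variable {G : Type u} [Group G]

/-- If `χ g ≠ 0`, the average of `|χ (g ^ k)|` over the Galois group is at least `1`. -/
theorem card_le_sum_norm [Finite G] {χ : G → ℂ} (hχ : IsCharacter G χ) (g : G) (h0 : χ g ≠ 0) :
    (Fintype.card (K (Nat.card G) ≃ₐ[ℚ] K (Nat.card G)) : ℝ) ≤
      ∑ τ : K (Nat.card G) ≃ₐ[ℚ] K (Nat.card G), ‖χ (g ^ expo (Nat.card G) τ)‖ := by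
  obtain ⟨a, ha, hτ⟩ := exists_lift_char hχ g
  have h1 : emb (Nat.card G) a = χ g := by
    have := hτ AlgEquiv.refl 1 (by simp)
    simpa using this
  have ha0 : a ≠ 0 := by
    rintro rfl
    rw [map_zero] at h1
    exact h0 h1.symm
  have hval : ∀ τ : K (Nat.card G) ≃ₐ[ℚ] K (Nat.card G),
      χ (g ^ expo (Nat.card G) τ) = emb (Nat.card G) (τ a) :=
    fun τ => (hτ τ _ (expo_spec _ τ)).symm
  have hne : ∀ τ : K (Nat.card G) ≃ₐ[ℚ] K (Nat.card G), χ (g ^ expo (Nat.card G) τ) ≠ 0 := by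
    intro τ
    rw [hval τ]
    exact fun h => ha0 (by simpa using h)
  have hnorm := Algebra.norm_eq_prod_automorphisms ℚ a
  have hint : IsIntegral ℤ (Algebra.norm ℚ a) := Algebra.isIntegral_norm ℚ ha
  obtain ⟨z, hz⟩ := IsIntegrallyClosed.isIntegral_iff.mp hint
  have hz0 : z ≠ 0 := by
    rintro rfl
    rw [map_zero] at hz
    exact ha0 (Algebra.norm_eq_zero_iff.mp hz.symm)
  have hprod : ∏ τ : K (Nat.card G) ≃ₐ[ℚ] K (Nat.card G), χ (g ^ expo (Nat.card G) τ) = (z : ℂ) := by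
    simp only [hval]
    rw [← map_prod, ← hnorm, emb_algebraMap, ← hz]
    simp
  have hone : (1 : ℝ) ≤ ∏ τ : K (Nat.card G) ≃ₐ[ℚ] K (Nat.card G),
      ‖χ (g ^ expo (Nat.card G) τ)‖ := by
    rw [← norm_prod, hprod, Complex.norm_intCast]
    exact_mod_cast Int.one_le_abs hz0
  have := card_le_sum_of_one_le_prod Finset.univ
    (fun τ : K (Nat.card G) ≃ₐ[ℚ] K (Nat.card G) => ‖χ (g ^ expo (Nat.card G) τ)‖)
    (fun τ _ => norm_pos_iff.mpr (hne τ)) hone
  simpa using this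

open scoped Classical in
/-- On a set closed under coprime powers, the sum of `|χ|` is at least the number of
non-zeros. -/
theorem card_nonzero_le_sum_norm [Finite G] {χ : G → ℂ} (hχ : IsCharacter G χ) (S : Finset G)
    (hS : ∀ g ∈ S, ∀ k : ℕ, k.Coprime (Nat.card G) → g ^ k ∈ S) :
    ((S.filter (fun g => χ g ≠ 0)).card : ℝ) ≤ ∑ g ∈ S, ‖χ g‖ := by
  set Γ := K (Nat.card G) ≃ₐ[ℚ] K (Nat.card G) with hΓ
  have hΓpos : (0 : ℝ) < Fintype.card Γ := by exact_mod_cast Fintype.card_pos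
  have e1 : ∑ g ∈ S, ∑ τ : Γ, ‖χ (g ^ expo (Nat.card G) τ)‖ =
      (Fintype.card Γ : ℝ) * ∑ g ∈ S, ‖χ g‖ := by
    rw [Finset.sum_comm]
    have : ∀ τ : Γ, ∑ g ∈ S, ‖χ (g ^ expo (Nat.card G) τ)‖ = ∑ g ∈ S, ‖χ g‖ := by
      intro τ
      exact sum_pow_coprime S (expo_coprime (Nat.card G) τ)
        (fun g hg => hS g hg _ (expo_coprime (Nat.card G) τ)) (fun g => ‖χ g‖)
    simp only [this, Finset.sum_const, Finset.card_univ, nsmul_eq_mul]
  have e2 : (Fintype.card Γ : ℝ) * ((S.filter (fun g => χ g ≠ 0)).card : ℝ) ≤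
      ∑ g ∈ S, ∑ τ : Γ, ‖χ (g ^ expo (Nat.card G) τ)‖ := by
    have h3 : ∀ g ∈ S.filter (fun g => χ g ≠ 0), (Fintype.card Γ : ℝ) ≤
        ∑ τ : Γ, ‖χ (g ^ expo (Nat.card G) τ)‖ :=
      fun g hg => card_le_sum_norm hχ g (Finset.mem_filter.1 hg).2
    have h4 := Finset.card_nsmul_le_sum _ _ _ h3
    rw [nsmul_eq_mul, mul_comm] at h4
    refine h4.trans (Finset.sum_le_sum_of_subset_of_nonneg (Finset.filter_subset _ _) ?_)
    intro g _ _
    exact Finset.sum_nonneg fun τ _ => norm_nonneg _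
  rw [e1] at e2
  exact le_of_mul_le_mul_left e2 hΓpos

/-- The part of a character on which the normal subgroup `N` acts trivially is a character. -/
theorem isCharacter_fixedPart [Finite G] (N : Subgroup G) [N.Normal] [Fintype N] {ψ : G → ℂ}
    (hψ : IsCharacter G ψ) :
    IsCharacter G (fun x => (Nat.card N : ℂ)⁻¹ * ∑ n : N, ψ (x * n)) := by
  classical
  have := Fintype.ofFinite G
  have hN : (Nat.card N : ℂ) ≠ 0 := by exact_mod_cast Nat.card_pos.ne'
  obtain ⟨m, -, hexp⟩ := exists_mult hψ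
  have h1 : (fun x => (Nat.card N : ℂ)⁻¹ * ∑ n : N, ψ (x * n)) =
      ∑ χ : IrrCharacter G, (if (∀ x ∈ N, (χ : G → ℂ) x = (χ : G → ℂ) 1) then m χ else 0) •
        (χ : G → ℂ) := by
    ext x
    rw [Finset.sum_apply]
    have h2 : ∀ y : G, ψ y = ∑ χ : IrrCharacter G, (m χ : ℂ) * (χ : G → ℂ) y := by
      intro y
      conv_lhs => rw [hexp]
      rw [Finset.sum_apply]
      rfl
    simp only [h2]
    rw [Finset.sum_comm, Finset.mul_sum]
    refine Finset.sum_congr rfl fun χ _ => ?_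
    rw [← Finset.mul_sum]
    split_ifs with h
    · have h3 : ∀ n : N, (χ : G → ℂ) (x * n) = (χ : G → ℂ) x :=
        fun n => mul_ker (isCharacter_of_isIrr χ.2) (h n n.2) x
      simp only [h3, Finset.sum_const, Finset.card_univ, nsmul_eq_mul, Pi.smul_apply,
        ← Nat.card_eq_fintype_card]
      field_simp
    · push Not at h
      rw [sum_mul_normal_eq_zero χ.2 N h x]
      simp
  rw [h1]
  exact isCharacter_sum _ _ fun χ _ => isCharacter_nsmul (isCharacter_of_isIrr χ.2) _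

end Cfsg.Agent.Lib.helper8_Zeros2
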